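import Mathlib
import Cfsg.Statements.S0920
import Cfsg.Agent.Lib.Helper2.BlockFMT
import Cfsg.Agent.Lib.Helper1.Cores
import Cfsg.Agent.S0906
import Cfsg.Agent.S0911
import Cfsg.Agent.S0912
import Cfsg.Agent.S0917

set_option autoImplicit false
open Cfsg

namespace Cfsg.Agent.S0920

open Cfsg.Agent.Lib.Helper2.LocRing Cfsg.Agent.Lib.Helper2.BlockZ Cfsg.Agent.Lib.Helper2.BlockBr
  Cfsg.Agent.Lib.Helper2.BlockBr2 Cfsg.Agent.Lib.Helper2.BlockN Cfsg.Agent.Lib.Helper2.BlockFMT
  Cfsg.Agent.Lib.Helper2.BlockSub Cfsg.Agent.Lib.Helper2.BlockCls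

theorem part1 {G : Type*} [Group G] [Finite G] (p : ℕ) [Fact p.Prime] (M : Ideal Cfsg.AlgInt)
    (hM : Cfsg.IsPModular p M) (D : Subgroup G) (hD : IsPGroup p D)
    (b : Set (Cfsg.IrrCharacter (Subgroup.normalizer (D : Set G)))) (hb : Cfsg.IsPBlock M b)
    (hbD : Cfsg.IsDefectGroup p M b (D.subgroupOf (Subgroup.normalizer (D : Set G)))) :
    ∃ B : Set (Cfsg.IrrCharacter G), Cfsg.IsPBlock M B ∧ Cfsg.IsDefectGroup p M B D ∧
      Cfsg.IsInducedBlock M (Subgroup.normalizer (D : Set G)) b B := by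
  classical
  have := Fintype.ofFinite G
  have : M.IsPrime := hM.2.1.isPrime
  obtain ⟨B, hind, hW⟩ := exists_isInducedBlock hM hD Subgroup.le_normalizer
    (Subgroup.centralizer_le_normalizer _) le_rfl hb
  have hB := hind.2.1
  refine ⟨B, hB, ?_, hind⟩
  obtain ⟨ξ, hξ⟩ := block_nonempty hb
  obtain ⟨χ, hχ⟩ := block_nonempty hB
  obtain ⟨E, hE, hDE⟩ := Cfsg.Agent.S0917.result p M hM _ b hb B hB hind _ hbD
  rw [Subgroup.map_subgroupOf_eq_of_le Subgroup.le_normalizer] at hDE
  obtain ⟨y, hy, S, hS⟩ := hbD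
  obtain ⟨hle, hcard⟩ := card_eq_of_sylow_sub D y S hS.symm
  have h1 := hW ξ hξ χ hχ (cl (y : G)) (cl_isClass _) (cl_mem_Rloc _)
  rw [br_cl_eq D y S hS.symm, W_cl ξ.2, W_cl χ.2] at h1
  have h2 : ¬ Cfsg.MemLocalIdeal M (Cfsg.centralChar (χ : G → ℂ) (y : G)) :=
    notMem_of_sub_mem (M := M) h1 (hy.2.2 ξ hξ)
  have hE' := hE
  obtain ⟨g, hg, T, hT⟩ := hE'
  obtain ⟨x, Q, hxQ⟩ := (Cfsg.Agent.S0911.result p M hM B hB g hg T (y : G)).2 ⟨χ, hχ, h2⟩
  rw [← hT] at hxQ
  have h3 : Nat.card E ≤ Nat.card D := by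
    have h4 : Nat.card (E.map (MulAut.conj x).toMonoidHom) = Nat.card E :=
      Nat.card_congr (Subgroup.equivMapOfInjective _ _ (MulAut.conj x).injective).symm.toEquiv
    rw [← h4, hcard, ← card_map_sylow _ Q]
    exact Subgroup.card_le_of_le hxQ
  rw [Subgroup.eq_of_le_of_card_ge hDE h3]
  exact hE

theorem exist2 {G : Type*} [Group G] [Finite G] (p : ℕ) [Fact p.Prime] (M : Ideal Cfsg.AlgInt)
    (hM : Cfsg.IsPModular p M) (D : Subgroup G) (hD : IsPGroup p D)
    (B : Set (Cfsg.IrrCharacter G)) (hB : Cfsg.IsPBlock M B) (hBD : Cfsg.IsDefectGroup p M B D) :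
    ∃ b : Set (Cfsg.IrrCharacter (Subgroup.normalizer (D : Set G))), Cfsg.IsPBlock M b ∧
      Cfsg.IsDefectGroup p M b (D.subgroupOf (Subgroup.normalizer (D : Set G))) ∧
      Cfsg.IsInducedBlock M (Subgroup.normalizer (D : Set G)) b B := by
  classical
  have := Fintype.ofFinite G
  have : M.IsPrime := hM.2.1.isPrime
  have hBD' := hBD
  obtain ⟨g₀, hg₀, S, hS⟩ := hBD'
  have hg₀c : g₀ ∈ Subgroup.centralizer (D : Set G) := by
    rw [Subgroup.mem_centralizer_iff, hS]
    rintro _ ⟨q, _, rfl⟩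
    exact Subgroup.mem_centralizer_singleton_iff.mp q.2
  obtain ⟨ξ, hξ⟩ := exists_irr_br hM hD (Subgroup.centralizer_le_normalizer _) le_rfl hB g₀ hg₀c
    hg₀.2.1
  have hind := exists_correspondent hM hD Subgroup.le_normalizer
    (Subgroup.centralizer_le_normalizer _) le_rfl hB ξ hξ
  refine ⟨_, hind.1, ?_, hind⟩
  set b := Cfsg.blockOf M (ξ : (Subgroup.normalizer (D : Set G)) → ℂ) with hbdef
  obtain ⟨y, hy⟩ := Cfsg.Agent.S0906.result p M hM b hind.1
  obtain ⟨T⟩ : Nonempty (Sylow p (Subgroup.centralizer ({y} : Set (Subgroup.normalizer (D : Set G))))) := inferInstance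
  have hDb : Cfsg.IsDefectGroup p M b ((T : Subgroup (Subgroup.centralizer ({y} : Set (Subgroup.normalizer (D : Set G))))).map
    (Subgroup.centralizer ({y} : Set (Subgroup.normalizer (D : Set G)))).subtype) := ⟨y, hy, T, rfl⟩
  set Db := (T : Subgroup (Subgroup.centralizer ({y} : Set (Subgroup.normalizer (D : Set G))))).map
    (Subgroup.centralizer ({y} : Set (Subgroup.normalizer (D : Set G)))).subtype with hDbdef
  have h1 := Cfsg.Agent.S0912.result p M hM b hind.1 _ hDb
  have hn : (D.subgroupOf (Subgroup.normalizer (D : Set G))).Normal := Subgroup.normal_subgroupOf_of_le_normalizer le_rfl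
  have hP' : IsPGroup p (D.subgroupOf (Subgroup.normalizer (D : Set G))) :=
    IsPGroup.comap_of_injective hD _ (Subgroup.subtype_injective _)
  have h2 : D.subgroupOf (Subgroup.normalizer (D : Set G)) ≤ Db := (Cfsg.Agent.Lib.Helper1.le_pCore hn hP').trans h1
  obtain ⟨E, hE, hDE⟩ := Cfsg.Agent.S0917.result p M hM _ b hind.1 B hB hind _ hDb
  have h3 : Nat.card Db ≤ Nat.card (D.subgroupOf (Subgroup.normalizer (D : Set G))) := by
    rw [card_subgroupOf_normalizer, card_defectGroup hM hB hBD, ← card_defectGroup hM hB hE]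
    have h4 : Nat.card (Db.map (Subgroup.normalizer (D : Set G)).subtype) = Nat.card Db :=
      Nat.card_congr (Subgroup.equivMapOfInjective _ _ (Subgroup.subtype_injective _)).symm.toEquiv
    rw [← h4]
    exact Subgroup.card_le_of_le hDE
  rw [Subgroup.eq_of_le_of_card_ge h2 h3]
  exact hDb

theorem uniq2 {G : Type*} [Group G] [Finite G] (p : ℕ) [Fact p.Prime] (M : Ideal Cfsg.AlgInt)
    (hM : Cfsg.IsPModular p M) (D : Subgroup G) (hD : IsPGroup p D)
    (B : Set (Cfsg.IrrCharacter G)) (hB : Cfsg.IsPBlock M B)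
    (b b' : Set (Cfsg.IrrCharacter (Subgroup.normalizer (D : Set G))))
    (hb : Cfsg.IsPBlock M b) (hb' : Cfsg.IsPBlock M b')
    (hbD : Cfsg.IsDefectGroup p M b (D.subgroupOf (Subgroup.normalizer (D : Set G))))
    (hind : Cfsg.IsInducedBlock M (Subgroup.normalizer (D : Set G)) b B)
    (hind' : Cfsg.IsInducedBlock M (Subgroup.normalizer (D : Set G)) b' B) : b' = b := by
  classical
  have := Fintype.ofFinite G
  have : M.IsPrime := hM.2.1.isPrime
  have := Fintype.ofFinite (ConjClasses (Subgroup.normalizer (D : Set G)))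
  obtain ⟨ξ, hξ⟩ := block_nonempty hb
  obtain ⟨ξ', hξ'⟩ := block_nonempty hb'
  obtain ⟨χ, hχ⟩ := block_nonempty hB
  have hn : (D.subgroupOf (Subgroup.normalizer (D : Set G))).Normal := Subgroup.normal_subgroupOf_of_le_normalizer le_rfl
  have hP' : IsPGroup p (D.subgroupOf (Subgroup.normalizer (D : Set G))) :=
    IsPGroup.comap_of_injective hD _ (Subgroup.subtype_injective _)
  have hbR := blockCoeff_mem_Rloc (M := M) b (block_closed hb)
  obtain ⟨y, hy, S, hS⟩ := hbD
  have key : W (ξ' : (Subgroup.normalizer (D : Set G)) → ℂ) (Cfsg.blockCoeff b) - W (ξ : (Subgroup.normalizer (D : Set G)) → ℂ) (Cfsg.blockCoeff b) ∈ Iloc M := by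
    rw [W_eq_sum_classes ξ'.2 (blockCoeff_isClass b), W_eq_sum_classes ξ.2 (blockCoeff_isClass b),
      ← Finset.sum_sub_distrib]
    apply Submodule.sum_mem
    intro L _
    rw [← mul_sub]
    set l := L.out with hl
    by_cases hlc : l ∈ Subgroup.centralizer (D.subgroupOf (Subgroup.normalizer (D : Set G)) : Set (Subgroup.normalizer (D : Set G)))
    · by_cases hlb : Cfsg.blockCoeff b l ∈ Iloc M
      · exact mul_mem_Iloc' hlb (Subring.sub_mem _ (centralChar_mem_Rloc ξ' _)
          (centralChar_mem_Rloc ξ _))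
      · apply mul_mem_Iloc (hbR _)
        obtain ⟨x, Q, hxQ⟩ := (Cfsg.Agent.S0911.result p M hM b hb y hy S l).1 (hbR _) hlb
        rw [← hS] at hxQ
        have hQle : (Q : Subgroup (Subgroup.centralizer ({l} : Set (Subgroup.normalizer (D : Set G))))).map
            (Subgroup.centralizer ({l} : Set (Subgroup.normalizer (D : Set G)))).subtype ≤ D.subgroupOf (Subgroup.normalizer (D : Set G)) := by
          intro q hq
          obtain ⟨d, hd, rfl⟩ := hxQ hq
          exact hn.conj_mem d hd x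
        have hDle : D.subgroupOf (Subgroup.normalizer (D : Set G)) ≤ Subgroup.centralizer ({l} : Set (Subgroup.normalizer (D : Set G))) := by
          intro d hd
          rw [Subgroup.mem_centralizer_singleton_iff]
          exact Subgroup.mem_centralizer_iff.mp hlc d hd
        have hp2 : IsPGroup p ((D.subgroupOf (Subgroup.normalizer (D : Set G))).subgroupOf (Subgroup.centralizer ({l} : Set (Subgroup.normalizer (D : Set G))))) :=
          IsPGroup.comap_of_injective hP' _ (Subgroup.subtype_injective _)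
        have hle2 := hp2.le_sylow_of_normal Q
        have hQeq : (Q : Subgroup (Subgroup.centralizer ({l} : Set (Subgroup.normalizer (D : Set G))))).map
            (Subgroup.centralizer ({l} : Set (Subgroup.normalizer (D : Set G)))).subtype = D.subgroupOf (Subgroup.normalizer (D : Set G)) := by
          apply le_antisymm hQle
          intro d hd
          exact ⟨⟨d, hDle hd⟩, hle2 (Subgroup.mem_subgroupOf.mpr hd), rfl⟩
        have e1 := induced_br hM hD Subgroup.le_normalizer le_rfl hind hξ hχ (l : G)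
        have e2 := induced_br hM hD Subgroup.le_normalizer le_rfl hind' hξ' hχ (l : G)
        rw [br_cl_eq D l Q hQeq, W_cl ξ.2] at e1
        rw [br_cl_eq D l Q hQeq, W_cl ξ'.2] at e2
        exact sub_mem_Iloc_trans e2 (sub_mem_Iloc_symm e1)
    · apply mul_mem_Iloc (hbR _)
      exact (Iloc M).sub_mem (centralChar_mem_Iloc_of_normal' hM _ hP' _ hlc ξ')
        (centralChar_mem_Iloc_of_normal' hM _ hP' _ hlc ξ)
  rw [W_blockCoeff, W_blockCoeff, if_pos hξ] at key
  split_ifs at key with h1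
  · exact block_eq_of_mem hb' hb hξ' h1
  · exfalso
    apply one_notMem_Iloc (M := M)
    have := (Iloc M).neg_mem key
    simpa using this

/-- Brauer's First Main Theorem. Let D be a p-subgroup of the finite group G with normalizer N, and fix a maximal ideal M of the algebraic integers containing p. Then (i) every block b of N having D as a defect group induces some block B of G having D as a defect group; (ii) every block of G with defect group D is induced by exactly one block of N with defect group D. -/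
theorem result {G : Type*} [Group G] [Finite G] (p : ℕ) [Fact p.Prime] (M : Ideal Cfsg.AlgInt) (hM : Cfsg.IsPModular p M) (D : Subgroup G) (hD : IsPGroup p D) : (∀ b : Set (Cfsg.IrrCharacter (Subgroup.normalizer (D : Set G))), Cfsg.IsPBlock M b → Cfsg.IsDefectGroup p M b (D.subgroupOf (Subgroup.normalizer (D : Set G))) → ∃ B : Set (Cfsg.IrrCharacter G), Cfsg.IsPBlock M B ∧ Cfsg.IsDefectGroup p M B D ∧ Cfsg.IsInducedBlock M (Subgroup.normalizer (D : Set G)) b B) ∧ (∀ B : Set (Cfsg.IrrCharacter G), Cfsg.IsPBlock M B → Cfsg.IsDefectGroup p M B D → ∃! b : Set (Cfsg.IrrCharacter (Subgroup.normalizer (D : Set G))), Cfsg.IsPBlock M b ∧ Cfsg.IsDefectGroup p M b (D.subgroupOf (Subgroup.normalizer (D : Set G))) ∧ Cfsg.IsInducedBlock M (Subgroup.normalizer (D : Set G)) b B) := by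
  constructor
  · intro b hb hbD
    exact part1 p M hM D hD b hb hbD
  · intro B hB hBD
    obtain ⟨b, hb, hbD, hind⟩ := exist2 p M hM D hD B hB hBD
    refine ⟨b, ⟨hb, hbD, hind⟩, ?_⟩
    rintro b' ⟨hb', _, hind'⟩
    exact uniq2 p M hM D hD B hB b b' hb hb' hbD hind hind'

end Cfsg.Agent.S0920
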