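import Cfsg.Statements.S0093
import Mathlib
import Cfsg.Agent.S0013
import Cfsg.Agent.S1894

set_option autoImplicit false
open Cfsg

namespace Cfsg.Agent.S0093

open Cfsg
open scoped commutatorElement

theorem mem_Z2 {P : Type*} [Group P] (M : Subgroup P) [M.Normal] (x : P) :
    x ∈ (Subgroup.center (P ⧸ M)).comap (QuotientGroup.mk' M) ↔ ∀ g : P, ⁅x, g⁆ ∈ M := by
  rw [Subgroup.mem_comap, Subgroup.mem_center_iff]
  constructor
  · intro h g
    rw [← QuotientGroup.eq_one_iff, commutatorElement_def]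
    have := h (QuotientGroup.mk' M g)
    simp only [QuotientGroup.mk'_apply] at this
    simp only [QuotientGroup.mk_mul, QuotientGroup.mk_inv]
    rw [← this]; group
  · intro h z
    obtain ⟨g, rfl⟩ := QuotientGroup.mk'_surjective M z
    have := h g
    rw [← QuotientGroup.eq_one_iff, commutatorElement_def] at this
    simp only [QuotientGroup.mk_mul, QuotientGroup.mk_inv] at this
    simp only [QuotientGroup.mk'_apply]
    rw [mul_inv_eq_one, mul_inv_eq_iff_eq_mul] at this
    exact this.symm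

/-- elements of order dividing `p` in the centre. -/
def omZ (p : ℕ) (Q : Type*) [Group Q] : Subgroup Q where
  carrier := {z | z ∈ Subgroup.center Q ∧ z ^ p = 1}
  one_mem' := ⟨Subgroup.one_mem _, one_pow _⟩
  mul_mem' := by
    rintro a b ⟨ha, ha'⟩ ⟨hb, hb'⟩
    refine ⟨Subgroup.mul_mem _ ha hb, ?_⟩
    have hc : Commute a b := (Subgroup.mem_center_iff.mp hb a)
    rw [hc.mul_pow, ha', hb', one_mul]
  inv_mem' := by
    rintro a ⟨ha, ha'⟩
    exact ⟨Subgroup.inv_mem _ ha, by rw [inv_pow, ha', inv_one]⟩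

def critC {P : Type*} [Group P] (p : ℕ) (M : Subgroup P) [M.Normal] : Subgroup P :=
  Subgroup.centralizer (M : Set P) ⊓ (omZ p (P ⧸ M)).comap (QuotientGroup.mk' M)

theorem mem_critC {P : Type*} [Group P] (p : ℕ) (M : Subgroup P) [M.Normal] (x : P) :
    x ∈ critC p M ↔ x ∈ Subgroup.centralizer (M : Set P) ∧ x ^ p ∈ M ∧ ∀ g : P, ⁅x, g⁆ ∈ M := by
  unfold critC
  rw [Subgroup.mem_inf, ← mem_Z2, Subgroup.mem_comap, Subgroup.mem_comap]
  constructor
  · rintro ⟨h1, h2, h3⟩
    refine ⟨h1, ?_, h2⟩
    rw [← QuotientGroup.eq_one_iff]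
    exact h3
  · rintro ⟨h1, h2, h3⟩
    refine ⟨h1, h3, ?_⟩
    rw [← QuotientGroup.eq_one_iff] at h2
    exact h2

/-- Every finite p-group has a critical subgroup: a characteristic subgroup H whose Frattini subgroup and whose commutator with the whole group lie in the centre of H, and whose centralizer is contained in H. -/
theorem result {P : Type*} [Group P] [Finite P] {p : ℕ} [Fact p.Prime] (hP : IsPGroup p P) : ∃ H : Subgroup P, H.Characteristic ∧ (frattini H).map H.subtype ≤ Subgroup.centralizer (H : Set P) ∧ ⁅H, (⊤ : Subgroup P)⁆ ≤ H ⊓ Subgroup.centralizer (H : Set P) ∧ Subgroup.centralizer (H : Set P) ≤ H := by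
  obtain ⟨M, hM⟩ := (Set.toFinite {M : Subgroup P | M.Characteristic ∧ M ≤ Subgroup.centralizer (M : Set P)}).exists_maximal
    ⟨⊥, Subgroup.botCharacteristic, bot_le⟩
  haveI hMc : M.Characteristic := hM.prop.1
  have hMab : M ≤ Subgroup.centralizer (M : Set P) := hM.prop.2
  haveI hMn : M.Normal := inferInstance
  by_cases hCM : Subgroup.centralizer (M : Set P) ≤ M
  · refine ⟨M, hMc, ?_, ?_, hCM⟩
    · exact (Subgroup.map_subtype_le _).trans hMab
    · exact le_inf (Subgroup.commutator_le_left _ _) ((Subgroup.commutator_le_left _ _).trans hMab)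
  have hfix : ∀ (φ : P ≃* P) (y : P), φ y ∈ M ↔ y ∈ M := by
    intro φ y
    have := hMc.fixed φ
    conv_rhs => rw [← this]
    rfl
  have hfixc : ∀ (φ : P ≃* P) (y : P), φ y ∈ Subgroup.centralizer (M : Set P) ↔ y ∈ Subgroup.centralizer (M : Set P) := by
    intro φ y
    have := (inferInstance : (Subgroup.centralizer (M : Set P)).Characteristic).fixed φ
    conv_rhs => rw [← this]
    rfl
  set C := critC p M with hC
  have hCc : C.Characteristic := by
    rw [Subgroup.characteristic_iff_le_comap]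
    intro φ x hx
    rw [Subgroup.mem_comap]
    rw [hC, mem_critC] at hx ⊢
    obtain ⟨h1, h2, h3⟩ := hx
    refine ⟨(hfixc φ x).mpr h1, ?_, ?_⟩
    · have : (φ.toMonoidHom x) ^ p = φ (x ^ p) := by simp
      rw [this]; exact (hfix φ _).mpr h2
    · intro g
      have : ⁅φ.toMonoidHom x, g⁆ = φ ⁅x, φ.symm g⁆ := by
        simp [commutatorElement_def]
      rw [this]; exact (hfix φ _).mpr (h3 _)
  have hMC : M ≤ C := by
    intro x hx
    rw [hC, mem_critC]
    refine ⟨hMab hx, Subgroup.pow_mem _ hx _, fun g => ?_⟩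
    rw [commutatorElement_def]
    have := hMn.conj_mem x⁻¹ (Subgroup.inv_mem _ hx) g
    have e : x * g * x⁻¹ * g⁻¹ = x * (g * x⁻¹ * g⁻¹) := by group
    rw [e]; exact Subgroup.mul_mem _ hx this
  have hCcen : C ≤ Subgroup.centralizer (M : Set P) := by
    intro x hx
    rw [hC, mem_critC] at hx
    exact hx.1
  have hMcenC : M ≤ Subgroup.centralizer (C : Set P) := by
    rw [Subgroup.le_centralizer_iff]; exact hCcen
  haveI : C.Characteristic := hCc
  have hZ : C ⊓ Subgroup.centralizer (C : Set P) ≤ M := by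
    apply hM.le_of_ge
    · refine ⟨inferInstance, ?_⟩
      intro x hx
      rw [Subgroup.mem_centralizer_iff]
      intro y hy
      exact Subgroup.mem_centralizer_iff.mp hx.2 y hy.1
    · exact le_inf hMC hMcenC
  refine ⟨C, hCc, ?_, ?_, ?_⟩
  · refine le_trans ?_ hMcenC
    have hCp : IsPGroup p C := hP.to_subgroup C
    haveI : (M.subgroupOf C).Normal := inferInstance
    have := Cfsg.Agent.S0013.result p hCp (M.subgroupOf C) ?_ ?_
    · rintro _ ⟨y, hy, rfl⟩
      exact this hy
    · rw [commutator_def, Subgroup.commutator_le]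
      intro a _ b _
      rw [Subgroup.mem_subgroupOf]
      have ha := (mem_critC p M _).mp a.2
      exact ha.2.2 b
    · intro a
      rw [Subgroup.mem_subgroupOf]
      have ha := (mem_critC p M _).mp a.2
      exact ha.2.1
  · refine le_trans ?_ (le_inf hMC hMcenC)
    rw [Subgroup.commutator_le]
    intro a ha b _
    rw [hC, mem_critC] at ha
    exact ha.2.2 b
  · by_contra hcon
    have hQM : ¬ Subgroup.centralizer (C : Set P) ≤ M := fun h => hcon (h.trans hMC)
    haveI : Group.IsNilpotent P := hP.isNilpotent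
    haveI : (Subgroup.centralizer (C : Set P)).Normal := inferInstance
    obtain ⟨x, hxQ, hxM, hxg⟩ := Cfsg.Agent.S1894.exists_central_mod M (Subgroup.centralizer (C : Set P)) hQM
    have hex : ∃ k, x ^ (p ^ k) ∈ M := by
      obtain ⟨k, hk⟩ := hP x
      exact ⟨k, by rw [hk]; exact Subgroup.one_mem _⟩
    classical
    have hspec := Nat.find_spec hex
    have hmin := fun m (hm : m < Nat.find hex) => Nat.find_min hex hm
    obtain ⟨k, hk⟩ : ∃ k, k = Nat.find hex := ⟨_, rfl⟩
    rw [← hk] at hspec hmin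
    have hk0 : k ≠ 0 := by
      rintro rfl
      apply hxM
      simpa using hspec
    obtain ⟨j, rfl⟩ := Nat.exists_eq_succ_of_ne_zero hk0
    have hy := hmin j (Nat.lt_succ_self j)
    apply hy
    apply hZ
    refine ⟨(mem_critC p M _).mpr ?_, Subgroup.pow_mem _ hxQ _⟩
    refine ⟨?_, ?_, ?_⟩
    · exact Subgroup.pow_mem _ (Subgroup.centralizer_le hMC hxQ) _
    · rw [← pow_mul, ← pow_succ]; exact hspec
    · rw [← mem_Z2] at hxg ⊢
      exact Subgroup.pow_mem _ hxg _

end Cfsg.Agent.S0093
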