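import Cfsg.Statements.S0095
import Mathlib

set_option autoImplicit false
open Cfsg

namespace Cfsg.Agent.S0095

open Cfsg
open scoped commutatorElement

/-- the commutator map `u ↦ [x,u]` as a homomorphism, when its values are central in `Q`. -/
def commHom {G : Type*} [Group G] (Q : Subgroup G) (x : G)
    (h : ∀ u ∈ Q, ∀ v ∈ Q, Commute ⁅x, u⁆ v) : ↥Q →* G :=
  MonoidHom.mk' (fun u => ⁅x, (u : G)⁆) (by
    intro a b
    have h1 := h b b.2 a a.2
    have e : ⁅x, ((a * b : ↥Q) : G)⁆ = ⁅x, (a : G)⁆ * ((a : G) * ⁅x, (b : G)⁆ * (a : G)⁻¹) := by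
      simp only [commutatorElement_def, Subgroup.coe_mul]; group
    rw [e, ← h1.eq, mul_inv_cancel_right])

theorem commHom_apply {G : Type*} [Group G] (Q : Subgroup G) (x : G)
    (h : ∀ u ∈ Q, ∀ v ∈ Q, Commute ⁅x, u⁆ v) (u : ↥Q) : commHom Q x h u = ⁅x, (u : G)⁆ := rfl

theorem card_step {G : Type*} [Group G] [Finite G] {p : ℕ} [hp : Fact p.Prime] (Q Z : Subgroup G) (hZ : Nat.card Z = p)
    (x : G) (hxZ : ∀ u ∈ Q, ⁅x, u⁆ ∈ Z) (hZc : ∀ z ∈ Z, ∀ v ∈ Q, Commute z v)
    (y : G) (hy : y ∈ Q) (hxy : ⁅x, y⁆ ≠ 1) :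
    Nat.card Q = p * Nat.card (Q ⊓ Subgroup.centralizer {x} : Subgroup G) := by
  have h : ∀ u ∈ Q, ∀ v ∈ Q, Commute ⁅x, u⁆ v := fun u hu v hv => hZc _ (hxZ u hu) v hv
  set f := commHom Q x h with hf
  have hr : f.range ≤ Z := by
    rintro _ ⟨u, rfl⟩
    exact hxZ u u.2
  have hr1 : Nat.card f.range ≠ 1 := by
    intro h1
    rw [Subgroup.card_eq_one] at h1
    apply hxy
    have : f ⟨y, hy⟩ ∈ f.range := ⟨_, rfl⟩
    rw [h1, Subgroup.mem_bot] at this
    exact this
  have hr2 : Nat.card f.range = p := by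
    have := Subgroup.card_dvd_of_le hr
    rw [hZ] at this
    exact ((Nat.dvd_prime hp.out).mp this).resolve_left hr1
  have hk : f.ker = (Subgroup.centralizer {x}).subgroupOf Q := by
    ext u
    rw [MonoidHom.mem_ker, Subgroup.mem_subgroupOf, Subgroup.mem_centralizer_singleton_iff, hf, commHom_apply,
      commutatorElement_eq_one_iff_mul_comm]
    exact eq_comm
  have h1 := Subgroup.index_ker f
  rw [hk, hr2] at h1
  have h2 := Subgroup.relIndex_mul_relIndex ⊥ (Q ⊓ Subgroup.centralizer {x}) Q bot_le inf_le_left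
  rw [Subgroup.relIndex_bot_left, Subgroup.relIndex_bot_left, Subgroup.inf_relIndex_left] at h2
  have h3 : (Subgroup.centralizer {x}).relIndex Q = p := h1
  rw [h3] at h2
  rw [← h2, mul_comm]

theorem main0095 {G : Type*} [Group G] [Finite G] {p : ℕ} [hp : Fact p.Prime] (Z : Subgroup G) (hZ : Nat.card Z = p) :
    ∀ (n : ℕ) (Q : Subgroup G), Nat.card Q = n → Q ⊓ Subgroup.centralizer (Q : Set G) = Z → ⁅Q, Q⁆ ≤ Z →
      ∃ m : ℕ, Nat.card Q = p ^ (2 * m + 1) := by
  intro n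
  induction n using Nat.strong_induction_on with
  | _ n ih =>
  intro Q hQn hQZ hQc
  have hZQ : Z ≤ Q := hQZ ▸ inf_le_left
  have hZcen : Z ≤ Subgroup.centralizer (Q : Set G) := hQZ ▸ inf_le_right
  have hZc : ∀ z ∈ Z, ∀ v ∈ Q, Commute z v := fun z hz v hv =>
    (Subgroup.mem_centralizer_iff.mp (hZcen hz) v hv).symm
  by_cases hQeq : Q ≤ Z
  · exact ⟨0, by rw [le_antisymm hQeq hZQ, hZ]; simp⟩
  obtain ⟨x, hxQ, hxZ⟩ := SetLike.not_le_iff_exists.mp hQeq
  have hxc : x ∉ Subgroup.centralizer (Q : Set G) := fun h => hxZ (hQZ ▸ ⟨hxQ, h⟩)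
  rw [Subgroup.mem_centralizer_iff] at hxc
  push Not at hxc
  obtain ⟨y, hyQ, hyx⟩ := hxc
  have hyQ' : y ∈ Q := hyQ
  have hcomm : ∀ a ∈ Q, ∀ u ∈ Q, ⁅a, u⁆ ∈ Z := fun a ha u hu => hQc (Subgroup.commutator_mem_commutator ha hu)
  have hxy : ⁅x, y⁆ ≠ 1 := by
    rw [Ne, commutatorElement_eq_one_iff_mul_comm]
    exact fun h => hyx h.symm
  have hyx' : ⁅y, x⁆ ≠ 1 := by
    rw [Ne, commutatorElement_eq_one_iff_mul_comm]
    exact hyx
  have c1 := card_step Q Z hZ x (hcomm x hxQ) hZc y hyQ' hxy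
  set Q0 := Q ⊓ Subgroup.centralizer {x} with hQ0
  have hxQ0 : x ∈ Q0 := ⟨hxQ, Subgroup.mem_centralizer_singleton_iff.mpr rfl⟩
  have c2 := card_step Q0 Z hZ y (fun u hu => hcomm y hyQ' u hu.1) (fun z hz v hv => hZc z hz v hv.1) x hxQ0 hyx'
  set Q1 := Q0 ⊓ Subgroup.centralizer {y} with hQ1
  have hQ1Q : Q1 ≤ Q := inf_le_left.trans inf_le_left
  have hpos : 0 < Nat.card Q1 := Nat.card_pos
  have hlt : Nat.card Q1 < n := by
    rw [← hQn, c1, c2]
    have := hp.out.two_le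
    nlinarith
  -- generator of Z
  set z := ⁅x, y⁆ with hz
  have hzZ : z ∈ Z := hcomm x hxQ y hyQ'
  have hZz : ∀ w ∈ Z, ∃ a : ℤ, z ^ a = w := by
    intro w hw
    have : Subgroup.zpowers z = Z := by
      apply Subgroup.eq_of_le_of_card_ge (by rw [Subgroup.zpowers_le]; exact hzZ)
      rw [hZ, Nat.card_zpowers]
      have h1 : orderOf z ∣ p := by
        rw [← hZ]
        have := Subgroup.card_dvd_of_le (show Subgroup.zpowers z ≤ Z by rw [Subgroup.zpowers_le]; exact hzZ)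
        rwa [Nat.card_zpowers] at this
      rcases (Nat.dvd_prime hp.out).mp h1 with h | h
      · exact absurd (orderOf_eq_one_iff.mp h) hxy
      · exact h.ge
    rw [← this] at hw
    exact Subgroup.mem_zpowers_iff.mp hw
  have hQ1Z : Q1 ⊓ Subgroup.centralizer (Q1 : Set G) = Z := by
    apply le_antisymm
    · rintro w ⟨hw1, hw2⟩
      rw [← hQZ]
      refine ⟨hQ1Q hw1, Subgroup.mem_centralizer_iff.mpr ?_⟩
      intro u hu
      have hu' : u ∈ Q := hu
      have hX : ∀ a ∈ Q, ∀ u ∈ Q, ∀ v ∈ Q, Commute ⁅a, u⁆ v := fun a ha u hu v hv => hZc _ (hcomm a ha u hu) v hv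
      set fx := commHom Q x (hX x hxQ) with hfx
      set fy := commHom Q y (hX y hyQ') with hfy
      obtain ⟨a, ha⟩ := hZz _ (hcomm x hxQ u hu')
      obtain ⟨b, hb⟩ := hZz _ (hcomm y hyQ' u hu')
      set u' : ↥Q := ⟨u, hu'⟩ * ⟨y, hyQ'⟩ ^ (-a) * ⟨x, hxQ⟩ ^ b with hu'def
      have e1 : fx u' = 1 := by
        rw [hu'def, map_mul, map_mul, map_zpow, map_zpow, hfx, commHom_apply, commHom_apply, commHom_apply]
        simp only [commutatorElement_self, one_zpow, mul_one]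
        rw [← ha, ← hz, ← zpow_add]; simp
      have e2 : fy u' = 1 := by
        rw [hu'def, map_mul, map_mul, map_zpow, map_zpow, hfy, commHom_apply, commHom_apply, commHom_apply]
        simp only [commutatorElement_self, one_zpow, mul_one]
        rw [← hb, ← commutatorElement_inv x y, ← hz, inv_zpow, mul_inv_cancel]
      rw [hfx, commHom_apply, commutatorElement_eq_one_iff_mul_comm] at e1
      rw [hfy, commHom_apply, commutatorElement_eq_one_iff_mul_comm] at e2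
      have hu'Q1 : (u' : G) ∈ Q1 :=
        ⟨⟨u'.2, Subgroup.mem_centralizer_singleton_iff.mpr e1.symm⟩, Subgroup.mem_centralizer_singleton_iff.mpr e2.symm⟩
      have k1 : Commute (u' : G) w := Subgroup.mem_centralizer_iff.mp hw2 _ hu'Q1
      have k2 : Commute x w := (Subgroup.mem_centralizer_singleton_iff.mp hw1.1.2).symm
      have k3 : Commute y w := (Subgroup.mem_centralizer_singleton_iff.mp hw1.2).symm
      have eu : u = (u' : G) * x ^ (-b) * y ^ a := by
        rw [hu'def]; simp only [Subgroup.coe_mul, Subgroup.coe_zpow]; group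
      rw [eu]
      exact ((k1.mul_left (k2.zpow_left _)).mul_left (k3.zpow_left _)).eq
    · intro w hw
      have hwc := hZc w hw
      refine ⟨⟨⟨hZQ hw, Subgroup.mem_centralizer_singleton_iff.mpr (hwc x hxQ).eq⟩,
        Subgroup.mem_centralizer_singleton_iff.mpr (hwc y hyQ').eq⟩, Subgroup.mem_centralizer_iff.mpr ?_⟩
      intro v hv
      exact (hwc v (hQ1Q hv)).eq.symm
  obtain ⟨m, hm⟩ := ih _ hlt Q1 rfl hQ1Z ((Subgroup.commutator_mono hQ1Q hQ1Q).trans hQc)
  refine ⟨m + 1, ?_⟩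
  rw [c1, c2, hm]; ring

/-- The order of an extraspecial p-group is an odd power p^(2n+1) of p with n ≥ 1. -/
theorem result {P : Type*} [Group P] [Finite P] {p : ℕ} [Fact p.Prime] (h : Cfsg.IsExtraspecial p P) : ∃ n : ℕ, 1 ≤ n ∧ Nat.card P = p ^ (2 * n + 1) := by
  obtain ⟨⟨hP, hF, hC⟩, hZ⟩ := h
  obtain ⟨m, hm⟩ := main0095 (Subgroup.center P) hZ _ ⊤ rfl (by
    rw [Subgroup.coe_top, Subgroup.centralizer_univ, top_inf_eq]) (by
    rw [← commutator_def, hC])
  rw [Subgroup.card_top] at hm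
  refine ⟨m, ?_, hm⟩
  by_contra hcon
  have hm0 : m = 0 := by omega
  subst hm0
  have h1 : Subgroup.center P = ⊤ := by
    apply Subgroup.eq_top_of_card_eq
    rw [hZ, hm]; simp
  have h2 : commutator P = ⊥ := by
    rw [commutator_def, Subgroup.commutator_eq_bot_iff_le_centralizer, Subgroup.coe_top, Subgroup.centralizer_univ, h1]
  rw [hC, h1] at h2
  have h3 : Nat.card (⊤ : Subgroup P) = 1 := by rw [h2]; simp
  rw [Subgroup.card_top, hm] at h3
  have := (Fact.out : p.Prime).one_lt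
  simp at h3
  omega

end Cfsg.Agent.S0095
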