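import Cfsg.Statements.S0111
import Mathlib

set_option autoImplicit false
open Cfsg

namespace Cfsg.Agent.S0111

/-- The Thompson transfer lemma states that an involution of a Sylow 2-subgroup P lying outside a subgroup Q of index 2 in P either lies outside some normal subgroup of index 2 in G or is conjugate to an element of Q. -/
theorem result {G : Type*} [Group G] [Finite G] (P : Sylow 2 G) (Q : Subgroup G) (hQP : Q ≤ (P : Subgroup G)) (hQi : Q.relIndex (P : Subgroup G) = 2) (u : G) (hu : orderOf u = 2) (huP : u ∈ (P : Subgroup G)) (huQ : u ∉ Q) : (∃ M : Subgroup G, M.Normal ∧ M.index = 2 ∧ u ∉ M) ∨ ∃ g : G, g * u * g⁻¹ ∈ Q := by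
  classical
  by_cases hcon : ∃ g : G, g * u * g⁻¹ ∈ Q
  · exact Or.inr hcon
  left
  push Not at hcon
  haveI := Fintype.ofFinite (G ⧸ Q)
  haveI : Fact (Nat.Prime 2) := ⟨Nat.prime_two⟩
  obtain ⟨f, hf⟩ : ∃ f : G →* ℤˣ, f = Equiv.Perm.sign.comp (MulAction.toPermHom G (G ⧸ Q)) := ⟨_, rfl⟩
  obtain ⟨σ, hσ⟩ : ∃ σ, σ = MulAction.toPermHom G (G ⧸ Q) u := ⟨_, rfl⟩
  have hfix : ∀ q : G ⧸ Q, σ q ≠ q := by
    intro q hq
    obtain ⟨g, rfl⟩ := QuotientGroup.mk_surjective q
    rw [hσ, MulAction.toPermHom_apply, MulAction.toPerm_apply, MulAction.Quotient.smul_mk,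
      QuotientGroup.eq, smul_eq_mul] at hq
    apply hcon g⁻¹
    have : g⁻¹ * u * g⁻¹⁻¹ = ((u * g)⁻¹ * g)⁻¹ := by group
    rw [this]
    exact Q.inv_mem hq
  have hsupp : σ.support = Finset.univ := by
    ext q
    simp [Equiv.Perm.mem_support, hfix q]
  have hne : σ ≠ 1 := by
    intro h
    exact hfix (QuotientGroup.mk 1) (by rw [h]; rfl)
  have hord : orderOf σ = 2 := by
    apply orderOf_eq_prime
    · rw [hσ, ← map_pow, ← hu, pow_orderOf_eq_one, map_one]
    · exact hne
  obtain ⟨n, hn⟩ := Equiv.Perm.cycleType_prime_order (σ := σ) (by rw [hord]; exact Nat.prime_two)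
  rw [hord] at hn
  have hsum := Equiv.Perm.sum_cycleType σ
  rw [hn, hsupp, Multiset.sum_replicate, Finset.card_univ, ← Nat.card_eq_fintype_card,
    ← Subgroup.index_eq_card, ← Subgroup.relIndex_mul_index hQP, hQi, smul_eq_mul] at hsum
  have hodd : ¬ 2 ∣ (P : Subgroup G).index := P.not_dvd_index
  have hn1 : n + 1 = (P : Subgroup G).index := by omega
  have hsign : f u = -1 := by
    rw [hf, MonoidHom.comp_apply, ← hσ, Equiv.Perm.sign_of_cycleType, hn, Multiset.sum_replicate,
      Multiset.card_replicate, smul_eq_mul, hn1]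
    have hodd' : Odd ((P : Subgroup G).index * 2 + (P : Subgroup G).index) := by
      have h1 : Odd (P : Subgroup G).index := Nat.odd_iff.mpr (by omega)
      exact Even.add_odd (Even.mul_left even_two _) h1
    exact hodd'.neg_one_pow
  refine ⟨f.ker, inferInstance, ?_, ?_⟩
  · rw [Subgroup.index_ker]
    have : f.range = ⊤ := by
      rw [eq_top_iff]
      intro z _
      rcases Int.units_eq_one_or z with h | h
      · rw [h]; exact Subgroup.one_mem _
      · rw [h]; exact ⟨u, hsign⟩
    rw [this, Subgroup.card_top]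
    simp
  · rw [MonoidHom.mem_ker, hsign]
    decide

end Cfsg.Agent.S0111
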