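import Cfsg.Statements.S0107
import Cfsg.Agent.Lib.Helper3.Index2
import Cfsg.Agent.S0111

set_option autoImplicit false
open Cfsg

namespace Cfsg.Agent.S0107

/-- A finite group with no nontrivial 2-group quotient and dihedral Sylow 2-subgroups of order at least 8 has a single class of involutions. -/
theorem result {G : Type*} [Group G] [Finite G] (T : Sylow 2 G) (n : ℕ) (hn : 2 ≤ n) (hT : Nonempty ((T : Subgroup G) ≃* DihedralGroup (2 ^ n))) (hO : Cfsg.pResidual 2 G = ⊤) (x y : G) (hx : orderOf x = 2) (hy : orderOf y = 2) : ∃ g : G, g * x * g⁻¹ = y := by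
  obtain ⟨e⟩ := hT
  obtain ⟨a, ha⟩ : ∃ a : G, a = ((e.symm (DihedralGroup.r 1) : (T : Subgroup G)) : G) := ⟨_, rfl⟩
  have haT : a ∈ (T : Subgroup G) := ha ▸ (e.symm (DihedralGroup.r 1)).2
  have hao : orderOf a = 2 ^ n := by
    rw [ha, Subgroup.orderOf_coe, MulEquiv.orderOf_eq, DihedralGroup.orderOf_r_one]
  have hQT : Subgroup.zpowers a ≤ (T : Subgroup G) := Subgroup.zpowers_le.2 haT
  have hTc : Nat.card (T : Subgroup G) = 2 * 2 ^ n := by
    rw [Nat.card_congr e.toEquiv, DihedralGroup.nat_card]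
  have hri : (Subgroup.zpowers a).relIndex (T : Subgroup G) = 2 := by
    have h1 := Subgroup.relIndex_mul_relIndex ⊥ (Subgroup.zpowers a) (T : Subgroup G) bot_le hQT
    rw [Subgroup.relIndex_bot_left, Subgroup.relIndex_bot_left, Nat.card_zpowers, hao, hTc,
      mul_comm] at h1
    exact Nat.eq_of_mul_eq_mul_right (pow_pos (by norm_num) n) h1
  have hnoM : ∀ M : Subgroup G, M.Normal → M.index ≠ 2 := by
    intro M _ hM
    have h1 : Cfsg.pResidual 2 G ≤ M := by
      unfold Cfsg.pResidual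
      rw [Subgroup.closure_le]
      intro g hg
      have hodd : Odd (orderOf g) := Nat.coprime_two_right.1 hg
      obtain ⟨c, hc⟩ := hodd
      have h2 : g = (g ^ 2) ^ (c + 1) := by
        rw [← pow_mul]
        have : 2 * (c + 1) = orderOf g + 1 := by omega
        rw [this, pow_succ, pow_orderOf_eq_one, one_mul]
      rw [h2]
      exact Subgroup.pow_mem _ (Subgroup.sq_mem_of_index_two hM g) _
    rw [hO, top_le_iff] at h1
    rw [h1, Subgroup.index_top] at hM
    norm_num at hM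
  have key : ∀ x : G, orderOf x = 2 → ∃ g : G, g * x * g⁻¹ ∈ Subgroup.zpowers a := by
    intro x hx
    obtain ⟨g, hg⟩ := Cfsg.Agent.Lib.Helper3.Invol.exists_conj_mem_sylow T
      (K := Subgroup.zpowers x) (IsPGroup.of_card (n := 1) (by rw [Nat.card_zpowers, hx, pow_one]))
    have h1 := hg x (Subgroup.mem_zpowers x)
    by_cases h2 : g * x * g⁻¹ ∈ Subgroup.zpowers a
    · exact ⟨g, h2⟩
    have ho : orderOf (g * x * g⁻¹) = 2 := by
      have := (MulAut.conj g).orderOf_eq x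
      rw [MulAut.conj_apply] at this
      rw [this, hx]
    rcases Cfsg.Agent.S0111.result T (Subgroup.zpowers a) hQT hri _ ho h1 h2 with
      ⟨M, hMn, hMi, -⟩ | ⟨g', hg'⟩
    · exact absurd hMi (hnoM M hMn)
    · exact ⟨g' * g, by
        have e1 : g' * g * x * (g' * g)⁻¹ = g' * (g * x * g⁻¹) * g'⁻¹ := by group
        rw [e1]; exact hg'⟩
  obtain ⟨g1, h1⟩ := key x hx
  obtain ⟨g2, h2⟩ := key y hy
  have hconj : ∀ (g w : G), orderOf w = 2 → orderOf (g * w * g⁻¹) = 2 := by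
    intro g w hw
    have := (MulAut.conj g).orderOf_eq w
    rw [MulAut.conj_apply] at this
    rw [this, hw]
  have h3 : (⟨g1 * x * g1⁻¹, h1⟩ : Subgroup.zpowers a) = ⟨g2 * y * g2⁻¹, h2⟩ :=
    Cfsg.Agent.Lib.Helper3.Invol.cyclic_unique_invol
      (by rw [Subgroup.orderOf_mk]; exact hconj g1 x hx)
      (by rw [Subgroup.orderOf_mk]; exact hconj g2 y hy)
  have h4 : g1 * x * g1⁻¹ = g2 * y * g2⁻¹ := congrArg Subtype.val h3
  refine ⟨g2⁻¹ * g1, ?_⟩
  have e1 : g2⁻¹ * g1 * x * (g2⁻¹ * g1)⁻¹ = g2⁻¹ * (g1 * x * g1⁻¹) * g2 := by group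
  rw [e1, h4]; group

end Cfsg.Agent.S0107
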