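import Mathlib
import Cfsg.Statements.S0119
import Cfsg.Agent.S0093
import Cfsg.Agent.S0013
import Cfsg.Agent.Lib.Helper1.ClassTwo
import Cfsg.Agent.Lib.Helper2.Frattini2

set_option autoImplicit false
open Cfsg
open scoped commutatorElement

namespace Cfsg.Agent.S0119

open Cfsg.Agent.Lib.Helper1

variable {G : Type*} [Group G]

theorem central_of_char (A : Subgroup (MulAut G))
    (hGA : Subgroup.closure {x : G | ∃ g : G, ∃ a ∈ A, x = g⁻¹ * a g} = ⊤)
    (H : Subgroup G) (hn : H.Normal) (hfix : ∀ a ∈ A, ∀ h ∈ H, a h = h) :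
    H ≤ Subgroup.center G := by
  intro h hh
  have hle : Subgroup.closure {x : G | ∃ g : G, ∃ a ∈ A, x = g⁻¹ * a g} ≤
      Subgroup.centralizer ({h} : Set G) := by
    rw [Subgroup.closure_le]
    rintro _ ⟨g, a, ha, rfl⟩
    show g⁻¹ * a g ∈ Subgroup.centralizer ({h} : Set G)
    rw [Subgroup.mem_centralizer_singleton_iff]
    have h1 := hfix a ha (g * h * g⁻¹) (hn.conj_mem h hh g)
    rw [map_mul, map_mul, map_inv, hfix a ha h hh] at h1
    calc g⁻¹ * a g * h = g⁻¹ * (a g * h * (a g)⁻¹) * a g := by group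
      _ = g⁻¹ * (g * h * g⁻¹) * a g := by rw [h1]
      _ = h * (g⁻¹ * a g) := by group
  rw [hGA] at hle
  rw [Subgroup.mem_center_iff]
  intro g
  exact (Subgroup.mem_centralizer_singleton_iff.1 (hle (Subgroup.mem_top g)))

theorem fixed_le_commutator [Finite G] {p : ℕ} [hp : Fact p.Prime] (hG : IsPGroup p G)
    (A : Subgroup (MulAut G)) (hA : Nat.Coprime (Nat.card A) p)
    (hGA : Subgroup.closure {x : G | ∃ g : G, ∃ a ∈ A, x = g⁻¹ * a g} = ⊤)
    (u : G) (hu : ∀ a ∈ A, a u = u) : u ∈ commutator G := by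
  classical
  haveI : Finite A := Nat.finite_of_card_ne_zero (by
    intro h
    rw [h, Nat.coprime_zero_left] at hA
    exact hp.out.one_lt.ne' hA)
  haveI : Fintype A := Fintype.ofFinite A
  let τ : G →* Abelianization G :=
    ∏ a : A, (Abelianization.of.comp (a.1.toMonoidHom))
  have hτ : ∀ x : G, τ x = ∏ a : A, Abelianization.of (a.1 x) := by
    intro x
    simp only [τ, MonoidHom.finset_prod_apply]
    rfl
  have hker : Subgroup.closure {x : G | ∃ g : G, ∃ a ∈ A, x = g⁻¹ * a g} ≤ τ.ker := by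
    rw [Subgroup.closure_le]
    rintro _ ⟨g, b, hb, rfl⟩
    show g⁻¹ * b g ∈ τ.ker
    rw [MonoidHom.mem_ker, map_mul, map_inv, inv_mul_eq_one, hτ, hτ]
    exact (Fintype.prod_equiv (Equiv.mulRight (⟨b, hb⟩ : A))
      (fun a : A => Abelianization.of (a.1 (b g))) (fun a : A => Abelianization.of (a.1 g))
      (fun a => rfl)).symm
  rw [hGA] at hker
  have h1 : τ u = 1 := MonoidHom.mem_ker.1 (hker (Subgroup.mem_top u))
  rw [hτ] at h1
  have h2 : ∏ a : A, Abelianization.of (a.1 u) = (Abelianization.of u) ^ Nat.card A := by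
    rw [Finset.prod_congr rfl (fun a _ => by rw [hu a.1 a.2]), Finset.prod_const, Finset.card_univ,
      Nat.card_eq_fintype_card]
  rw [h2, ← map_pow] at h1
  have h3 : u ^ Nat.card A ∈ commutator G := by
    rw [← Abelianization.ker_of, MonoidHom.mem_ker]; exact h1
  obtain ⟨k, hk⟩ := hG u
  have hou : (Nat.card A).Coprime (orderOf u) :=
    Nat.Coprime.coprime_dvd_right (orderOf_dvd_of_pow_eq_one hk) (Nat.Coprime.pow_right k hA)
  obtain ⟨m, hm⟩ := exists_pow_eq_self_of_coprime hou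
  rw [← hm]
  exact Subgroup.pow_mem _ h3 m

theorem result {G : Type*} [Group G] [Finite G] {p : ℕ} [Fact p.Prime] (hG : IsPGroup p G) (A : Subgroup (MulAut G)) (hA : Nat.Coprime (Nat.card A) p) (hGA : Subgroup.closure {x : G | ∃ g : G, ∃ a ∈ A, x = g⁻¹ * a g} = ⊤) (hchar : ∀ H : Subgroup G, H.Characteristic → IsMulCommutative H → ∀ a ∈ A, ∀ h ∈ H, a h = h) : Cfsg.IsSpecial p G ∧ (∀ g : G, (g ∈ Subgroup.center G ↔ ∀ a ∈ A, a g = g)) := by
  have hcen : ∀ H : Subgroup G, H.Characteristic → IsMulCommutative H → H ≤ Subgroup.center G := by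
    intro H hH hc
    haveI := hH
    exact central_of_char A hGA H inferInstance (hchar H hH hc)
  -- class two
  have hcl : commutator G ≤ Subgroup.center G := by
    obtain ⟨H, hHc, -, h2, h3⟩ := S0093.result hG
    have hZc : (H ⊓ Subgroup.centralizer (H : Set G)).Characteristic := by
      rw [Subgroup.characteristic_iff_le_comap]
      intro φ x hx
      have hφ : ∀ (ψ : G ≃* G), ∀ y ∈ H, ψ y ∈ H := fun ψ y hy =>
        (Subgroup.characteristic_iff_le_comap.1 hHc ψ) hy
      refine ⟨hφ φ x hx.1, ?_⟩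
      show φ x ∈ Subgroup.centralizer (H : Set G)
      rw [Subgroup.mem_centralizer_iff]
      intro y hy
      have h4 := Subgroup.mem_centralizer_iff.1 hx.2 (φ.symm y) (hφ φ.symm y hy)
      have h5 := congrArg φ h4
      rwa [map_mul, map_mul, MulEquiv.apply_symm_apply] at h5
    have hZa : IsMulCommutative ↥(H ⊓ Subgroup.centralizer (H : Set G)) :=
      ⟨⟨fun a b => Subtype.ext (Subgroup.mem_centralizer_iff.1 b.2.2 a a.2.1)⟩⟩
    have hZ := hcen _ hZc hZa
    have h4 : ⁅H, (⊤ : Subgroup G)⁆ ≤ Subgroup.center G := h2.trans hZ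
    have hbot : ∀ K : Subgroup G, K ≤ Subgroup.center G → ⁅K, (⊤ : Subgroup G)⁆ = ⊥ := by
      intro K hK
      rw [Subgroup.commutator_eq_bot_iff_le_centralizer, Subgroup.coe_top, Subgroup.centralizer_univ]
      exact hK
    have h5 : ⁅⁅H, (⊤ : Subgroup G)⁆, (⊤ : Subgroup G)⁆ = ⊥ := hbot _ h4
    have h6 : ⁅⁅(⊤ : Subgroup G), H⁆, (⊤ : Subgroup G)⁆ = ⊥ := by
      rw [Subgroup.commutator_comm (⊤ : Subgroup G) H]; exact h5
    have h7 := Subgroup.commutator_commutator_eq_bot_of_rotate h6 h5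
    have h8 : commutator G ≤ Subgroup.centralizer (H : Set G) :=
      Subgroup.commutator_eq_bot_iff_le_centralizer.1 h7
    exact (le_inf (h8.trans h3) h8).trans hZ
  have hfixc : ∀ u : G, (∀ a ∈ A, a u = u) → u ∈ commutator G :=
    fixed_le_commutator hG A hA hGA
  have hcenfix : ∀ g ∈ Subgroup.center G, ∀ a ∈ A, a g = g := fun g hg a ha =>
    hchar (Subgroup.center G) inferInstance inferInstance a ha g hg
  have hcc : ∀ x y : G, ∀ z : G, Commute ⁅x, y⁆ z := by
    intro x y z
    have : ⁅x, y⁆ ∈ Subgroup.center G :=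
      hcl (Subgroup.commutator_mem_commutator (Subgroup.mem_top x) (Subgroup.mem_top y))
    exact (Subgroup.mem_center_iff.1 this z).symm
  -- powers
  have hstep : ∀ k : ℕ, 1 ≤ k → (∀ x : G, x ^ p ^ (k + 1) ∈ Subgroup.center G) →
      ∀ x : G, x ^ p ^ k ∈ Subgroup.center G := by
    intro k hk hS x
    have hHc : (Subgroup.closure {y : G | ∃ x : G, y = x ^ p ^ k}).Characteristic := by
      rw [Subgroup.characteristic_iff_map_le]
      intro φ
      rw [MonoidHom.map_closure, Subgroup.closure_le]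
      rintro _ ⟨_, ⟨w, rfl⟩, rfl⟩
      apply Subgroup.subset_closure
      exact ⟨φ w, by simp⟩
    have hHa : IsMulCommutative ↥(Subgroup.closure {y : G | ∃ x : G, y = x ^ p ^ k}) := by
      apply Subgroup.isMulCommutative_closure
      rintro _ ⟨a, rfl⟩ _ ⟨b, rfl⟩
      have e1 : ⁅a ^ p ^ k, b ^ p ^ k⁆ = ⁅a, b ^ p ^ k⁆ ^ p ^ k :=
        commutatorElement_pow_left (hcc _ _ _) _
      have e2 : ⁅a, b ^ p ^ k⁆ = (⁅b, a⁆ ^ p ^ k)⁻¹ := by
        rw [← commutatorElement_pow_left (hcc _ _ _), commutatorElement_inv]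
      have e3 : ⁅b, a⁆ ^ (p ^ k * p ^ k) = 1 := by
        rw [← commutatorElement_pow_left (hcc _ _ _)]
        have h1 : b ^ (p ^ k * p ^ k) ∈ Subgroup.center G := by
          have : p ^ k * p ^ k = p ^ (k + 1) * p ^ (k - 1) := by
            rw [← pow_add, ← pow_add]; congr 1; omega
          rw [this, pow_mul]
          exact Subgroup.pow_mem _ (hS b) _
        exact commutatorElement_eq_one_iff_commute.2 (Subgroup.mem_center_iff.1 h1 a).symm
      have e4 : ⁅a ^ p ^ k, b ^ p ^ k⁆ = 1 := by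
        rw [e1, e2, inv_pow, ← pow_mul, e3, inv_one]
      exact commutatorElement_eq_one_iff_commute.1 e4
    exact hcen _ hHc hHa (Subgroup.subset_closure ⟨x, rfl⟩)
  have hdown : ∀ j : ℕ, (∀ x : G, x ^ p ^ (1 + j) ∈ Subgroup.center G) →
      ∀ x : G, x ^ p ^ 1 ∈ Subgroup.center G := by
    intro j
    induction j with
    | zero => intro h; exact h
    | succ j ih => intro h; exact ih (hstep (1 + j) (by omega) h)
  obtain ⟨N, hN⟩ := IsPGroup.iff_card.1 hG
  have hpow : ∀ x : G, x ^ p ∈ Subgroup.center G := by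
    intro x
    have := hdown N (by
      intro y
      have : y ^ p ^ (1 + N) = 1 := by
        rw [add_comm, pow_succ, pow_mul, ← hN, pow_card_eq_one', one_pow]
      rw [this]; exact Subgroup.one_mem _) x
    rwa [pow_one] at this
  haveI : Group.IsNilpotent G := hG.isNilpotent
  have h1 : frattini G ≤ Subgroup.center G := S0013.result p hG _ hcl hpow
  have h2 : commutator G ≤ frattini G := Cfsg.Agent.Lib.Helper2.Frattini.commutator_le_frattini
  have h3 : Subgroup.center G ≤ commutator G := fun g hg => hfixc g (hcenfix g hg)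
  refine ⟨⟨hG, le_antisymm h1 (h3.trans h2), le_antisymm hcl h3⟩, fun g => ⟨hcenfix g, fun h => hcl (hfixc g h)⟩⟩

end Cfsg.Agent.S0119
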