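import Cfsg.Statements.S0436

set_option autoImplicit false
open Cfsg

namespace Cfsg.Agent.S0436

theorem sq_one {G : Type*} [Group G] {a : G} (h : orderOf a = 2) : a * a = 1 := by
  have := pow_orderOf_eq_one a
  rw [h, pow_two] at this
  exact this

/-- If `e`, `a` are involutions with `(e*a)^2 = 1` or `(e*a)^3 = 1`, not commuting, then `a*e*a = e*a*e`. -/
theorem braid {G : Type*} [Group G] {e a : G} (he : e * e = 1) (ha : a * a = 1)
    (h : (e * a) ^ 2 = 1 ∨ (e * a) ^ 3 = 1) (hc : ¬ Commute e a) : a * e * a = e * a * e := by
  have hei : e⁻¹ = e := inv_eq_of_mul_eq_one_left he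
  have hai : a⁻¹ = a := inv_eq_of_mul_eq_one_left ha
  rcases h with h | h
  · exfalso
    apply hc
    have h1 : e * a * (e * a) = 1 := by rw [← pow_two]; exact h
    have h2 : e * a = (e * a)⁻¹ := eq_inv_of_mul_eq_one_left h1
    rw [mul_inv_rev, hei, hai] at h2
    exact h2
  · have h1 : e * a * (e * a) * (e * a) = 1 := by rw [← pow_two, ← pow_succ]; exact h
    have h2 : e * a * e * (a * e * a) = 1 := by simpa [mul_assoc] using h1
    have h3 : a * e * a = (e * a * e)⁻¹ := eq_inv_of_mul_eq_one_right h2
    rw [h3, mul_inv_rev, mul_inv_rev, hei, hai, mul_assoc]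

/-- For distinct commuting members a, b of a set of 3-transpositions E, a member e of E centralises the product a * b if and only if it centralises both a and b. -/
theorem result {G : Type*} [Group G] {E : Set G} (hE : Cfsg.IsThreeTranspositionSet E) {a b e : G} (ha : a ∈ E) (hb : b ∈ E) (he : e ∈ E) (hab : a ≠ b) (hcomm : Commute a b) : Commute e (a * b) ↔ (Commute e a ∧ Commute e b) := by
  constructor
  · intro h
    have ha2 := sq_one (hE.1 a ha)
    have hb2 := sq_one (hE.1 b hb)
    have he2 := sq_one (hE.1 e he)
    have key : a * e * a = b * e * b := by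
      have h1 : e * (a * b) = a * b * e := h
      have h2 : a * (e * (a * b)) * b = a * (a * b * e) * b := by rw [h1]
      have h3 : a * (e * (a * b)) * b = a * e * a * (b * b) := by simp only [mul_assoc]
      have h4 : a * (a * b * e) * b = (a * a) * (b * e * b) := by simp only [mul_assoc]
      rw [h3, h4, ha2, hb2, one_mul, mul_one] at h2
      exact h2
    by_cases hca : Commute e a
    · refine ⟨hca, ?_⟩
      have h1 : a * e * a = e := by
        have : e * a = a * e := hca
        rw [← this, mul_assoc, ha2, mul_one]
      rw [h1] at key
      have : e * b = b * e * b * b := by rw [← key]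
      rw [mul_assoc, hb2, mul_one] at this
      exact this
    · exfalso
      have hcb : ¬ Commute e b := by
        intro hcb
        apply hca
        have h1 : b * e * b = e := by
          have : e * b = b * e := hcb
          rw [← this, mul_assoc, hb2, mul_one]
        rw [h1] at key
        have : a * e * a * a = e * a := by rw [key]
        rw [mul_assoc, ha2, mul_one] at this
        exact this.symm
      have b1 := braid he2 ha2 (hE.2 e he a ha) hca
      have b2 := braid he2 hb2 (hE.2 e he b hb) hcb
      rw [b1, b2] at key
      apply hab
      have h5 : e * a = e * b := mul_right_cancel key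
      exact mul_left_cancel h5
  · rintro ⟨h1, h2⟩
    exact h1.mul_right h2

end Cfsg.Agent.S0436
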