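import Cfsg.Statements.S0437
import Mathlib

set_option autoImplicit false
open Cfsg

namespace Cfsg.Agent.S0437

theorem tt_L2 {G : Type*} [Group G] {a b e : G} (ha : a * a = 1) (hb : b * b = 1) (he : e * e = 1)
    (hA : e * a * e = a * e * a) (hB : e * b * e = b * e * b)
    (hc : e * (a * b) = (a * b) * e) : a = b := by
  have h1 : e * (a * b) * e = a * b := by rw [hc, mul_assoc, he, mul_one]
  have h2 : e * (a * b) * e = (e * a * e) * (e * b * e) := by
    calc e * (a * b) * e = e * a * 1 * b * e := by group
      _ = e * a * (e * e) * b * e := by rw [he]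
      _ = _ := by group
  rw [hA, hB] at h2
  have h3 : a * (e * (a * b) * e) * b = a * 1 * b := by
    calc a * (e * (a * b) * e) * b = (a * e * a) * (b * e * b) := by group
      _ = a * b := h2.symm.trans h1
      _ = a * 1 * b := by group
  have h4 : e * (a * b) * e = 1 := mul_left_cancel (mul_right_cancel h3)
  have h5 : a * b = 1 := h1.symm.trans h4
  calc a = a * (b * b) := by rw [hb, mul_one]
    _ = (a * b) * b := by group
    _ = b := by rw [h5, one_mul]

theorem tt_L3 {G : Type*} [Group G] {a b c e : G} (ha : a * a = 1) (hb : b * b = 1) (hcc : c * c = 1)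
    (he : e * e = 1) (hab : a * b = b * a) (hac : a * c = c * a) (hbc : b * c = c * b)
    (hA : e * a * e = a * e * a) (hB : e * b * e = b * e * b) (hC : e * c * e = c * e * c)
    (hc : e * (a * b * c) = (a * b * c) * e) : a = c := by
  have h1 : e * (a * b * c) * e = a * b * c := by rw [hc, mul_assoc, he, mul_one]
  have h2 : e * (a * b * c) * e = (e * a * e) * (e * b * e) * (e * c * e) := by
    calc e * (a * b * c) * e = e * a * 1 * b * 1 * c * e := by group
      _ = e * a * (e * e) * b * (e * e) * c * e := by rw [he]
      _ = _ := by group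
  rw [hA, hB, hC] at h2
  have h3 : a * (e * (a * b) * e * (b * c) * e) * c = a * b * c := by
    calc a * (e * (a * b) * e * (b * c) * e) * c = (a * e * a) * (b * e * b) * (c * e * c) := by group
      _ = a * b * c := h2.symm.trans h1
  have h4 : e * (a * b) * e * (b * c) * e = b := mul_left_cancel (mul_right_cancel h3)
  have h5 : (a * b) * e * (b * c) = b * e * b := by
    calc (a * b) * e * (b * c) = 1 * (a * b) * e * (b * c) * 1 := by group
      _ = (e * e) * (a * b) * e * (b * c) * (e * e) := by rw [he]
      _ = e * (e * (a * b) * e * (b * c) * e) * e := by group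
      _ = e * b * e := by rw [h4]
      _ = b * e * b := hB
  have h6 : b * (a * e * c) * b = b * e * b := by
    calc b * (a * e * c) * b = (b * a) * e * (c * b) := by group
      _ = (a * b) * e * (b * c) := by rw [hab, hbc]
      _ = b * e * b := h5
  have h7 : a * e * c = e := mul_left_cancel (mul_right_cancel h6)
  have h8 : c = e * a * e := by
    calc c = 1 * 1 * c := by group
      _ = (e * e) * (a * a) * c := by rw [he, ha]
      _ = e * (e * a) * (a * c) := by group
      _ = e * (e * a) * (a * c) := rfl
      _ = e * (e * a * a * c) := by group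
      _ = e * (e * (a * a) * c) := by group
      _ = e * (e * c) := by rw [ha, mul_one]
      _ = e * (1 * e * c) := by group
      _ = e * ((a * a) * e * c) := by rw [ha]
      _ = e * a * (a * e * c) := by group
      _ = e * a * e := by rw [h7]
  have h9 : e * a = a * e := by
    have h10 : c = a * e * a := h8.trans hA
    have h11 := hac
    rw [h10] at h11
    calc e * a = 1 * e * a := by group
      _ = (a * a) * e * a := by rw [ha]
      _ = a * (a * e * a) := by group
      _ = a * e * a * a := h11
      _ = a * e * (a * a) := by group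
      _ = a * e := by rw [ha, mul_one]
  rw [h8, h9, mul_assoc, he, mul_one]

/-- For three distinct, pairwise commuting members a, b, c of a set of 3-transpositions E, a member e of E centralises a * b * c if and only if it centralises each of a, b and c. -/
theorem result {G : Type*} [Group G] {E : Set G} (hE : Cfsg.IsThreeTranspositionSet E) {a b c e : G} (ha : a ∈ E) (hb : b ∈ E) (hc : c ∈ E) (he : e ∈ E) (hab : a ≠ b) (hac : a ≠ c) (hbc : b ≠ c) (h₁ : Commute a b) (h₂ : Commute a c) (h₃ : Commute b c) : Commute e (a * b * c) ↔ (Commute e a ∧ Commute e b ∧ Commute e c) := by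
  have hinv : ∀ d ∈ E, d * d = 1 := by
    intro d hd
    rw [← pow_two, ← hE.1 d hd]
    exact pow_orderOf_eq_one d
  have ha2 := hinv a ha
  have hb2 := hinv b hb
  have hc2 := hinv c hc
  have he2 := hinv e he
  have hdich : ∀ d ∈ E, Commute e d ∨ e * d * e = d * e * d := by
    intro d hd
    have hd2 := hinv d hd
    have hdi : d⁻¹ = d := inv_eq_of_mul_eq_one_left hd2
    have hei : e⁻¹ = e := inv_eq_of_mul_eq_one_left he2
    rcases hE.2 e he d hd with h | h
    · left
      have h1 : e * d * (e * d) = 1 := by rw [← pow_two]; exact h
      have h2 := eq_inv_of_mul_eq_one_left h1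
      rw [mul_inv_rev, hdi, hei] at h2
      exact h2
    · right
      have h1 : (e * d * e) * (d * e * d) = 1 := by
        have : (e * d * e) * (d * e * d) = (e * d) ^ 3 := by
          rw [pow_succ, pow_two]; group
        rw [this]; exact h
      have h2 := eq_inv_of_mul_eq_one_left h1
      rw [mul_inv_rev, mul_inv_rev, hdi, hei, ← mul_assoc] at h2
      exact h2
  constructor
  · intro hcomm
    have hcomm' : e * (a * b * c) = (a * b * c) * e := hcomm
    have third : ∀ {x y z : G}, Commute e (x * y * z) → Commute e x → Commute e y → Commute e z := by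
      intro x y z h1 h2 h3
      have h4 : Commute e (x * y)⁻¹ := (h2.mul_right h3).inv_right
      have h5 := h4.mul_right h1
      have e1 : (x * y)⁻¹ * (x * y * z) = z := by group
      rwa [e1] at h5
    rcases hdich a ha with hA | hA <;> rcases hdich b hb with hB | hB <;> rcases hdich c hc with hC | hC
    · exact ⟨hA, hB, hC⟩
    · exact ⟨hA, hB, third hcomm hA hB⟩
    · refine ⟨hA, ?_, hC⟩
      have e1 : a * b * c = a * c * b := by rw [mul_assoc, h₃.eq, ← mul_assoc]
      rw [e1] at hcomm
      exact third hcomm hA hC
    · exfalso
      apply hbc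
      apply tt_L2 hb2 hc2 he2 hB hC
      have h4 : Commute e (a⁻¹ * (a * b * c)) := hA.inv_right.mul_right hcomm
      have e1 : a⁻¹ * (a * b * c) = b * c := by group
      rw [e1] at h4
      exact h4
    · refine ⟨?_, hB, hC⟩
      have e1 : a * b * c = b * c * a := by
        rw [mul_assoc, (h₁.mul_right h₂).eq]
      rw [e1] at hcomm
      exact third hcomm hB hC
    · exfalso
      apply hac
      apply tt_L2 ha2 hc2 he2 hA hC
      have e0 : a * b * c = b * (a * c) := by rw [h₁.eq, mul_assoc]
      rw [e0] at hcomm
      have h4 : Commute e (b⁻¹ * (b * (a * c))) := hB.inv_right.mul_right hcomm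
      have e1 : b⁻¹ * (b * (a * c)) = a * c := by group
      rw [e1] at h4
      exact h4
    · exfalso
      apply hab
      apply tt_L2 ha2 hb2 he2 hA hB
      have h4 : Commute e ((a * b * c) * c⁻¹) := hcomm.mul_right hC.inv_right
      have e1 : (a * b * c) * c⁻¹ = a * b := by group
      rw [e1] at h4
      exact h4
    · exfalso
      exact hac (tt_L3 ha2 hb2 hc2 he2 h₁.eq h₂.eq h₃.eq hA hB hC hcomm')
  · rintro ⟨h1, h2, h3⟩
    exact (h1.mul_right h2).mul_right h3

end Cfsg.Agent.S0437
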