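import Cfsg.Statements.S0438
import Cfsg.Agent.S0436

set_option autoImplicit false
open Cfsg

namespace Cfsg.Agent.S0438

theorem result {G : Type*} [Group G] {E : Set G} (hE : Cfsg.IsThreeTranspositionSet E) (hconj : ∀ g : G, ∀ d ∈ E, g * d * g⁻¹ ∈ E) (x : G ≃* G) (hx : ∀ g : G, x (x g) = g) (hxE : ∀ d ∈ E, x d ∈ E) {a : G} (ha : a ∈ E) (h : ¬ Commute a (x a)) : ∃ d ∈ E, x d = d := by
  have ha2 := Cfsg.Agent.S0436.sq_one (hE.1 a ha)
  have hb := hxE a ha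
  have hb2 := Cfsg.Agent.S0436.sq_one (hE.1 _ hb)
  have hai : a⁻¹ = a := inv_eq_of_mul_eq_one_left ha2
  have br := Cfsg.Agent.S0436.braid ha2 hb2 (hE.2 a ha _ hb) h
  refine ⟨a * x a * a, ?_, ?_⟩
  · have := hconj a _ hb
    rwa [hai] at this
  · rw [map_mul, map_mul, hx]
    exact br

end Cfsg.Agent.S0438
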