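import Cfsg.Statements.S4092
import Mathlib
import Cfsg.Agent.Lib.Helper1.FrobCount

set_option autoImplicit false
open Cfsg

namespace Cfsg.Agent.S4092

open Cfsg
open Cfsg.Agent.Lib.Helper1

theorem dvd_card_of_fibers {α β : Type*} [Finite α] [Finite β] (f : α → β) (m : ℕ)
    (h : ∀ b, m ∣ Nat.card {a // f a = b}) : m ∣ Nat.card α := by
  haveI := Fintype.ofFinite β
  rw [Nat.card_congr (Equiv.sigmaFiberEquiv f).symm, Nat.card_sigma]
  exact Finset.dvd_sum (fun b _ => h b)

theorem sub_one_dvd {G : Type*} [Group G] [Finite G] (p : ℕ) [hp : Fact p.Prime] :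
    p - 1 ∣ Nat.card {x : G // x ≠ 1 ∧ ∃ k : ℕ, orderOf x = p ^ k} := by
  apply dvd_card_of_fibers (fun x : {x : G // x ≠ 1 ∧ ∃ k : ℕ, orderOf x = p ^ k} => Subgroup.zpowers x.1)
  intro C
  by_cases hC : Nonempty {a : {x : G // x ≠ 1 ∧ ∃ k : ℕ, orderOf x = p ^ k} // Subgroup.zpowers a.1 = C}
  · obtain ⟨⟨⟨y, hy1, k, hk⟩, hyC⟩⟩ := hC
    have hyC' : Subgroup.zpowers y = C := hyC
    subst hyC'
    have hk0 : k ≠ 0 := by
      rintro rfl
      rw [pow_zero, orderOf_eq_one_iff] at hk
      exact hy1 hk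
    have e : Nat.card {a : {x : G // x ≠ 1 ∧ ∃ k : ℕ, orderOf x = p ^ k} // Subgroup.zpowers a.1 = Subgroup.zpowers y}
        = Nat.card {z : Subgroup.zpowers y // orderOf z = p ^ k} := by
      apply Nat.card_congr
      refine
        { toFun := fun a => ⟨⟨a.1.1, ?_⟩, ?_⟩
          invFun := fun z => ⟨⟨z.1.1, ?_, ?_⟩, ?_⟩
          left_inv := ?_
          right_inv := ?_ }
      · exact (le_of_eq a.2) (Subgroup.mem_zpowers a.1.1)
      · rw [Subgroup.orderOf_mk, ← Nat.card_zpowers, a.2, Nat.card_zpowers, hk]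
      · intro h
        have h1 := z.2
        rw [← Subgroup.orderOf_coe, h, orderOf_one] at h1
        exact (Nat.one_lt_pow hk0 hp.out.one_lt).ne h1
      · exact ⟨k, by rw [Subgroup.orderOf_coe]; exact z.2⟩
      · apply Subgroup.eq_of_le_of_card_ge
        · rw [Subgroup.zpowers_le]; exact z.1.2
        · rw [Nat.card_zpowers, Nat.card_zpowers, hk, Subgroup.orderOf_coe, z.2]
      · intro a; rfl
      · intro z; rfl
    rw [e]
    classical
    haveI := Fintype.ofFinite (Subgroup.zpowers y)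
    rw [Nat.card_eq_fintype_card, Fintype.card_subtype, IsCyclic.card_orderOf_eq_totient (by
      rw [← Nat.card_eq_fintype_card, Nat.card_zpowers, hk]), Nat.totient_prime_pow hp.out (Nat.pos_of_ne_zero hk0)]
    exact Dvd.intro_left _ rfl
  · rw [not_nonempty_iff] at hC
    rw [Nat.card_of_isEmpty]
    exact dvd_zero _

/-- Let G be a finite group, p a prime and P a Sylow p-subgroup of G that is not normal in G. Then G has at least p·#P elements of p-power order (the identity included). -/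
theorem result {G : Type*} [Group G] [Finite G] (p : ℕ) [Fact p.Prime]
    (P : Sylow p G) (hP : ¬ (P : Subgroup G).Normal) :
    p * Nat.card (P : Subgroup G) ≤ Nat.card {g : G // ∃ k : ℕ, orderOf g = p ^ k} := by
  have hp : p.Prime := Fact.out
  obtain ⟨a, ha⟩ := IsPGroup.iff_card.mp P.2
  have hXeq : Nat.card {g : G // ∃ k : ℕ, orderOf g = p ^ k} = FrobCount.cnt G (p ^ a) 1 := by
    unfold FrobCount.cnt
    apply Nat.card_congr
    apply Equiv.subtypeEquivRight
    intro x
    constructor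
    · rintro ⟨k, hk⟩
      have h1 : p ^ k ∣ Nat.card G := by rw [← hk]; exact orderOf_dvd_natCard x
      have h2 : p ^ k ∣ Nat.card (P : Subgroup G) := by
        rw [P.card_eq_multiplicity]
        exact (Nat.Prime.pow_dvd_iff_dvd_ordProj hp Nat.card_pos.ne').mp h1
      rw [← orderOf_dvd_iff_pow_eq_one, hk, ← ha]
      exact h2
    · intro h
      rw [← orderOf_dvd_iff_pow_eq_one] at h
      obtain ⟨k, _, hk⟩ := (Nat.dvd_prime_pow hp).mp h
      exact ⟨k, hk⟩
  have hdvd : p ^ a ∣ Nat.card {g : G // ∃ k : ℕ, orderOf g = p ^ k} := by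
    rw [hXeq]
    have h1 := FrobCount.main (p ^ a) (1 : G)
    rw [(FrobCount.centralizer_eq_top_iff 1).mpr (one_mem _), Subgroup.card_top,
      Nat.gcd_eq_left (by rw [← ha]; exact Subgroup.card_subgroup_dvd_card _)] at h1
    exact h1
  obtain ⟨k, hk⟩ := hdvd
  have hsplit : Nat.card {g : G // ∃ k : ℕ, orderOf g = p ^ k} =
      Nat.card {x : G // x ≠ 1 ∧ ∃ k : ℕ, orderOf x = p ^ k} + 1 := by
    classical
    haveI := Fintype.ofFinite G
    simp only [Nat.card_eq_fintype_card, Fintype.card_subtype]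
    have e : (Finset.univ.filter (fun x : G => ∃ k : ℕ, orderOf x = p ^ k)) =
        insert 1 (Finset.univ.filter (fun x : G => x ≠ 1 ∧ ∃ k : ℕ, orderOf x = p ^ k)) := by
      ext x
      simp only [Finset.mem_filter, Finset.mem_univ, true_and, Finset.mem_insert]
      constructor
      · intro h
        by_cases hx : x = 1
        · exact Or.inl hx
        · exact Or.inr ⟨hx, h⟩
      · rintro (rfl | h)
        · exact ⟨0, by simp⟩
        · exact h.2
    rw [e, Finset.card_insert_of_notMem (by simp)]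
  have hmod := sub_one_dvd (G := G) p
  have hk1 : k ≠ 1 := by
    rintro rfl
    apply hP
    rw [mul_one, ← ha] at hk
    have hsub : ((P : Subgroup G) : Set G) ⊆ {g : G | ∃ k : ℕ, orderOf g = p ^ k} := by
      intro x hx
      obtain ⟨j, hj⟩ := P.2 ⟨x, hx⟩
      have h1 : x ^ p ^ j = 1 := congrArg Subtype.val hj
      rw [← orderOf_dvd_iff_pow_eq_one] at h1
      obtain ⟨i, _, hi⟩ := (Nat.dvd_prime_pow hp).mp h1
      exact ⟨i, hi⟩
    have heq := Set.eq_of_subset_of_ncard_le hsub (le_of_eq hk) (Set.toFinite _)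
    constructor
    intro n hn g
    have h1 : n ∈ {g : G | ∃ k : ℕ, orderOf g = p ^ k} := hsub hn
    have h2 : g * n * g⁻¹ ∈ {g : G | ∃ k : ℕ, orderOf g = p ^ k} := by
      obtain ⟨j, hj⟩ := h1
      refine ⟨j, ?_⟩
      rw [← hj]
      have hs : SemiconjBy g n (g * n * g⁻¹) := by
        show g * n = g * n * g⁻¹ * g
        group
      exact (hs.orderOf_eq).symm
    rw [← heq] at h2
    exact h2
  have hk0 : k ≠ 0 := by
    rintro rfl
    rw [hsplit] at hk
    omega
  rw [ha, hk, mul_comm p]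
  apply Nat.mul_le_mul_left
  -- (p-1) ∣ k - 1
  have h1 : p - 1 ∣ p ^ a - 1 := by
    have := Nat.sub_dvd_pow_sub_pow p 1 a
    simpa using this
  have h2 : p - 1 ∣ p ^ a * k - 1 := by
    rw [← hk, hsplit]; simpa using hmod
  have hpa : 1 ≤ p ^ a := Nat.one_le_pow _ _ hp.pos
  have h3 : p ^ a * k - 1 = (p ^ a - 1) * k + (k - 1) := by
    obtain ⟨m, hm⟩ : ∃ m, p ^ a = m + 1 := ⟨p ^ a - 1, by omega⟩
    obtain ⟨k', rfl⟩ : ∃ k', k = k' + 1 := ⟨k - 1, by omega⟩
    rw [hm]
    simp only [Nat.add_sub_cancel]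
    have : (m + 1) * (k' + 1) = m * (k' + 1) + k' + 1 := by ring
    rw [this]; simp
  rw [h3] at h2
  have h4 : p - 1 ∣ k - 1 := (Nat.dvd_add_right (Dvd.dvd.mul_right h1 k)).mp h2
  have h5 := Nat.le_of_dvd (by omega) h4
  omega

end Cfsg.Agent.S4092
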