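import Cfsg.Statements.S0985
import Mathlib
import Cfsg.Agent.S4092

set_option autoImplicit false
open Cfsg

namespace Cfsg.Agent.S0985

open Cfsg

/-- If the number of Sylow p-subgroups of a finite group is not congruent to 1 modulo p^k, then there are two distinct Sylow p-subgroups P and R such that the index of P ∩ R in P is at most p^(k-1). -/
theorem result {G : Type*} [Group G] [Finite G] (p k : ℕ) [Fact p.Prime] (h : ¬ Nat.card (Sylow p G) ≡ 1 [MOD p ^ k]) : ∃ P R : Sylow p G, P ≠ R ∧ ((R : Subgroup G).subgroupOf (P : Subgroup G)).index ≤ p ^ (k - 1) := by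
  have hp : p.Prime := Fact.out
  by_contra hcon
  push Not at hcon
  apply h
  obtain ⟨P⟩ : Nonempty (Sylow p G) := inferInstance
  have hstab : ∀ R : Sylow p G, MulAction.stabilizer (P : Subgroup G) R = (R : Subgroup G).subgroupOf (P : Subgroup G) := by
    intro R
    ext x
    rw [MulAction.mem_stabilizer_iff, Subgroup.mem_subgroupOf]
    have h1 : x • R = R ↔ (x : G) ∈ Subgroup.normalizer ((R : Subgroup G) : Set G) := Sylow.smul_eq_iff_mem_normalizer
    rw [h1]
    have h2 := P.2.inf_normalizer_sylow R
    constructor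
    · intro hx
      have : (x : G) ∈ (P : Subgroup G) ⊓ (R : Subgroup G) := h2 ▸ ⟨x.2, hx⟩
      exact this.2
    · intro hx
      exact Subgroup.le_normalizer hx
  have hdvd : ∀ R : Sylow p G, R ≠ P → p ^ k ∣ Nat.card (MulAction.orbit (P : Subgroup G) R) := by
    intro R hR
    have h1 : Nat.card (MulAction.orbit (P : Subgroup G) R) = ((R : Subgroup G).subgroupOf (P : Subgroup G)).index := by
      rw [← hstab, Subgroup.index, Nat.card_congr (MulAction.orbitEquivQuotientStabilizer (P : Subgroup G) R)]
    rw [h1]
    have h2 := hcon P R hR.symm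
    obtain ⟨n, hn⟩ := IsPGroup.iff_card.mp P.2
    have h3 : ((R : Subgroup G).subgroupOf (P : Subgroup G)).index ∣ p ^ n := hn ▸ Subgroup.index_dvd_card _
    obtain ⟨j, -, hj⟩ := (Nat.dvd_prime_pow hp).mp h3
    rw [hj] at h2 ⊢
    apply pow_dvd_pow
    have := (Nat.pow_lt_pow_iff_right hp.one_lt).mp h2
    omega
  have hmain : p ^ k ∣ Nat.card {R : Sylow p G // R ≠ P} := by
    apply Cfsg.Agent.S4092.dvd_card_of_fibers
      (fun R : {R : Sylow p G // R ≠ P} => (Quotient.mk'' R.1 : MulAction.orbitRel.Quotient (P : Subgroup G) (Sylow p G)))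
    intro b
    by_cases hb : Nonempty {a : {R : Sylow p G // R ≠ P} // (Quotient.mk'' a.1 : MulAction.orbitRel.Quotient (P : Subgroup G) (Sylow p G)) = b}
    · obtain ⟨⟨⟨R0, hR0⟩, hb0⟩⟩ := hb
      have e : {a : {R : Sylow p G // R ≠ P} // (Quotient.mk'' a.1 : MulAction.orbitRel.Quotient (P : Subgroup G) (Sylow p G)) = b}
          ≃ MulAction.orbit (P : Subgroup G) R0 :=
        { toFun := fun a => ⟨a.1.1, by
            have := a.2.trans hb0.symm
            exact (MulAction.orbitRel_apply).mp (Quotient.exact' this)⟩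
          invFun := fun a => ⟨⟨a.1, by
            intro hP
            obtain ⟨x, hx⟩ := a.2
            apply hR0
            have hx' : x • R0 = P := hx.trans hP
            have h2 : x • P = P := Sylow.smul_eq_iff_mem_normalizer.mpr (Subgroup.le_normalizer x.2)
            have h3 : x • R0 = x • P := hx'.trans h2.symm
            exact smul_left_cancel x h3⟩, by
            rw [← hb0]
            exact Quotient.sound' ((MulAction.orbitRel_apply).mpr a.2)⟩
          left_inv := fun a => rfl
          right_inv := fun a => rfl }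
      rw [Nat.card_congr e]
      exact hdvd R0 hR0
    · rw [not_nonempty_iff] at hb
      rw [Nat.card_of_isEmpty]
      exact dvd_zero _
  have hcard : Nat.card (Sylow p G) = Nat.card {R : Sylow p G // R ≠ P} + 1 := by
    classical
    haveI := Fintype.ofFinite (Sylow p G)
    rw [Nat.card_eq_fintype_card, Nat.card_eq_fintype_card, Fintype.card_subtype_compl, Fintype.card_subtype_eq]
    have : 0 < Fintype.card (Sylow p G) := Fintype.card_pos
    omega
  rw [hcard]
  obtain ⟨c, hc⟩ := hmain
  rw [hc, Nat.ModEq, Nat.mul_add_mod]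

end Cfsg.Agent.S0985
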