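import Cfsg.Statements.S1015
import Mathlib
import Cfsg.Agent.S0985

set_option autoImplicit false
open Cfsg

namespace Cfsg.Agent.S1015

/-- No finite simple group has order 1200 = 2^4 * 3 * 5^2. -/
theorem result {G : Type*} [Group G] [Finite G] [IsSimpleGroup G] : Nat.card G ≠ 1200 := by
  intro hG
  classical
  haveI : Fact (Nat.Prime 5) := ⟨by norm_num⟩
  have hkey : ∀ H : Subgroup G, H ≠ ⊤ → Nat.card G ∣ (H.index).factorial := by
    intro H hH
    have hker : (MulAction.toPermHom G (G ⧸ H)).ker = ⊥ := by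
      rcases (IsSimpleGroup.eq_bot_or_eq_top_of_normal _
        (inferInstance : (MulAction.toPermHom G (G ⧸ H)).ker.Normal)) with h | h
      · exact h
      · exfalso
        rw [← Subgroup.normalCore_eq_ker] at h
        exact hH (top_le_iff.mp (h ▸ Subgroup.normalCore_le H))
    have hinj := (MonoidHom.ker_eq_bot_iff _).mp hker
    have h1 := Subgroup.card_dvd_of_injective _ hinj
    rw [Nat.card_perm] at h1
    exact h1
  have hfac : (1200 : ℕ).factorization 5 = 2 := by
    have h : (1200:ℕ) = 5^2 * 48 := by norm_num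
    rw [h, Nat.factorization_mul (by norm_num) (by norm_num), Finsupp.add_apply,
      Nat.Prime.factorization_pow (by norm_num),
      Nat.factorization_eq_zero_of_not_dvd (by norm_num : ¬ 5 ∣ 48)]
    simp
  have hcardS : ∀ P : Sylow 5 G, Nat.card (P : Subgroup G) = 25 := by
    intro P
    rw [P.card_eq_multiplicity, hG, hfac]
    norm_num
  have hidxS : ∀ P : Sylow 5 G, (P : Subgroup G).index = 48 := by
    intro P
    have h1 := (P : Subgroup G).card_mul_index
    rw [hcardS P, hG] at h1
    omega
  have hnn : ∀ D : Subgroup G, Nat.card D ≠ 1 → Nat.card D ≠ 1200 → ¬ D.Normal := by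
    intro D h1 h2 hn
    rcases hn.eq_bot_or_eq_top with h | h
    · apply h1; rw [h, Subgroup.card_bot]
    · apply h2; rw [h, Subgroup.card_top, hG]
  obtain ⟨P0⟩ : Nonempty (Sylow 5 G) := inferInstance
  have hn1 : Nat.card (Sylow 5 G) ∣ 48 := hidxS P0 ▸ P0.card_dvd_index
  have hn2 : Nat.card (Sylow 5 G) ≡ 1 [MOD 5] := card_sylow_modEq_one 5 G
  have hn3 : Nat.card (Sylow 5 G) = (Subgroup.normalizer ((P0 : Subgroup G) : Set G)).index :=
    P0.card_eq_index_normalizer
  have hcases : Nat.card (Sylow 5 G) = 1 ∨ Nat.card (Sylow 5 G) = 6 ∨ Nat.card (Sylow 5 G) = 16 := by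
    have hle : Nat.card (Sylow 5 G) ≤ 48 := Nat.le_of_dvd (by norm_num) hn1
    unfold Nat.ModEq at hn2
    generalize Nat.card (Sylow 5 G) = a at *
    have : a = 1 ∨ a = 6 ∨ a = 11 ∨ a = 16 ∨ a = 21 ∨ a = 26 ∨ a = 31 ∨ a = 36 ∨ a = 41 ∨ a = 46 := by
      omega
    rcases this with h | h | h | h | h | h | h | h | h | h
    · exact Or.inl h
    · exact Or.inr (Or.inl h)
    · rw [h] at hn1; norm_num at hn1
    · exact Or.inr (Or.inr h)
    all_goals (rw [h] at hn1; norm_num at hn1)
  rcases hcases with h | h | h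
  · rw [h] at hn3
    have h1 := Subgroup.normalizer_eq_top_iff.mp (Subgroup.index_eq_one.mp hn3.symm)
    exact hnn _ (by rw [hcardS]; norm_num) (by rw [hcardS]; norm_num) h1
  · rw [h] at hn3
    have h1 : Subgroup.normalizer ((P0 : Subgroup G) : Set G) ≠ ⊤ := by
      intro h2
      rw [h2, Subgroup.index_top] at hn3
      norm_num at hn3
    have h2 := hkey _ h1
    rw [← hn3, hG] at h2
    revert h2
    decide
  · have hmod : ¬ Nat.card (Sylow 5 G) ≡ 1 [MOD 5 ^ 2] := by
      rw [h]; decide
    obtain ⟨P, R, hPR, hidx⟩ := Cfsg.Agent.S0985.result 5 2 hmod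
    have hc1 := ((R : Subgroup G).subgroupOf (P : Subgroup G)).card_mul_index
    rw [hcardS P] at hc1
    have hidx' : ((R : Subgroup G).subgroupOf (P : Subgroup G)).index ≤ 5 := by simpa using hidx
    have hne1 : ((R : Subgroup G).subgroupOf (P : Subgroup G)).index ≠ 1 := by
      intro h1
      have h2 := Subgroup.index_eq_one.mp h1
      have h3 : (P : Subgroup G) ≤ (R : Subgroup G) := Subgroup.subgroupOf_eq_top.mp h2
      have h4 : (P : Subgroup G) = (R : Subgroup G) :=
        Subgroup.eq_of_le_of_card_ge h3 (by rw [hcardS, hcardS])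
      exact hPR (Sylow.ext h4)
    have hD5 : Nat.card ((R : Subgroup G).subgroupOf (P : Subgroup G)) = 5 := by
      generalize ((R : Subgroup G).subgroupOf (P : Subgroup G)).index = i at *
      generalize Nat.card ((R : Subgroup G).subgroupOf (P : Subgroup G)) = c at *
      interval_cases i <;> omega
    set D : Subgroup G := (P : Subgroup G) ⊓ (R : Subgroup G) with hD
    have hDc : Nat.card D = 5 := by
      rw [hD, inf_comm, ← Subgroup.subgroupOf_map_subtype,
        Subgroup.card_map_of_injective (Subgroup.subtype_injective _), hD5]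
    have hab : ∀ Q : Sylow 5 G, D ≤ (Q : Subgroup G) →
        (Q : Subgroup G) ≤ Subgroup.normalizer (D : Set G) := by
      intro Q hDQ
      refine le_trans ?_ (Subgroup.centralizer_le_normalizer _)
      intro x hx
      rw [Subgroup.mem_centralizer_iff]
      intro y hy
      have hc := IsPGroup.isMulCommutative_of_card_eq_prime_sq (p := 5) (G := (Q : Subgroup G))
        (by rw [hcardS]; norm_num)
      exact congrArg Subtype.val (hc.is_comm.comm (⟨y, hDQ hy⟩ : (Q : Subgroup G)) ⟨x, hx⟩)
    set N := Subgroup.normalizer (D : Set G) with hN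
    have hPN := hab P inf_le_left
    have hRN := hab R inf_le_right
    have hNtop : N ≠ ⊤ := by
      intro h1
      exact hnn D (by rw [hDc]; norm_num) (by rw [hDc]; norm_num)
        (Subgroup.normalizer_eq_top_iff.mp h1)
    have hne : P.subtype hPN ≠ R.subtype hRN := fun h1 => hPR (Sylow.subtype_injective h1)
    have hm1 : Nat.card (Sylow 5 N) ≡ 1 [MOD 5] := card_sylow_modEq_one 5 N
    have hm2 : Nat.card (Sylow 5 N) ∣ ((P.subtype hPN : Sylow 5 N) : Subgroup N).index :=
      (P.subtype hPN).card_dvd_index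
    have hm3 : 1 < Nat.card (Sylow 5 N) := by
      haveI : Nontrivial (Sylow 5 N) := ⟨⟨_, _, hne⟩⟩
      exact Finite.one_lt_card
    have hm4 : Nat.card ((P.subtype hPN : Sylow 5 N) : Subgroup N) = 25 := by
      rw [Sylow.coe_subtype, Nat.card_congr (Subgroup.subgroupOfEquivOfLe hPN).toEquiv, hcardS]
    have hm5 := ((P.subtype hPN : Sylow 5 N) : Subgroup N).card_mul_index
    rw [hm4] at hm5
    have hm6 := N.card_mul_index
    rw [hG] at hm6
    have hm7 : 6 ≤ ((P.subtype hPN : Sylow 5 N) : Subgroup N).index := by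
      have hpos : 0 < ((P.subtype hPN : Sylow 5 N) : Subgroup N).index :=
        Nat.pos_of_ne_zero Subgroup.index_ne_zero_of_finite
      have h5 := Nat.le_of_dvd hpos hm2
      unfold Nat.ModEq at hm1
      omega
    have hm8 : N.index ≤ 8 := by
      by_contra hcon
      have hcon' : 9 ≤ N.index := by omega
      have h6 : 150 * 9 ≤ Nat.card N * N.index := Nat.mul_le_mul (by omega) hcon'
      omega
    have h2 := hkey N hNtop
    have h3 : (N.index).factorial ∣ (8).factorial := Nat.factorial_dvd_factorial hm8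
    have h4 := h2.trans h3
    rw [hG] at h4
    revert h4
    decide

end Cfsg.Agent.S1015
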