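import Cfsg.Statements.S1313
import Mathlib
import Cfsg.Agent.Lib.Helper6.FStar2

set_option autoImplicit false
open Cfsg

namespace Cfsg.Agent.S1313

open Cfsg.Agent.Lib.Helper6.Basic Cfsg.Agent.Lib.Helper6.Subn Cfsg.Agent.Lib.Helper6.Quasi Cfsg.Agent.Lib.Helper6.Comp Cfsg.Agent.Lib.Helper6.Rad Cfsg.Agent.Lib.Helper6.Nil Cfsg.Agent.Lib.Helper6.FStar Cfsg.Agent.Lib.Helper6.FStar2

theorem card_stab (α : Type*) [Finite α] (a : α) :
    Nat.card α * Nat.card (MulAction.stabilizer (Equiv.Perm α) a) = (Nat.card α).factorial := by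
  classical
  have h := MulAction.index_stabilizer_of_transitive (Equiv.Perm α) a
  have h2 := Subgroup.card_mul_index (MulAction.stabilizer (Equiv.Perm α) a)
  rw [h, Nat.card_perm] at h2
  rw [mul_comm]; exact h2

/-- For a finite group H, |H| ≤ |F*(H)|!. -/
theorem result {H : Type*} [Group H] [Finite H] : Nat.card H ≤ Nat.factorial (Nat.card ↥(Cfsg.generalizedFittingSubgroup H)) := by
  rw [gfit_eq]
  have hn : (Fs (⊤ : Subgroup H)).Normal :=
    Subgroup.normalizer_eq_top_iff.mp (top_le_iff.mp (le_Nz_Fs ⊤))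
  set N := Fs (⊤ : Subgroup H) with hN
  let φ : H →* Equiv.Perm ↥N := (MulAut.toPerm ↥N).comp MulAut.conjNormal
  have hker : φ.ker ≤ N := by
    have hb := bender (⊤ : Subgroup H)
    rw [top_inf_eq] at hb
    refine le_trans ?_ hb
    intro h hh
    rw [Subgroup.mem_centralizer_iff]
    intro x hx
    have h1 : φ h ⟨x, hx⟩ = ⟨x, hx⟩ := by
      rw [MonoidHom.mem_ker.mp hh]; rfl
    have h2 : ((φ h ⟨x, hx⟩ : ↥N) : H) = h * x * h⁻¹ := MulAut.conjNormal_apply h ⟨x, hx⟩
    rw [h1] at h2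
    have h3 : x = h * x * h⁻¹ := h2
    calc x * h = h * x * h⁻¹ * h := by rw [← h3]
      _ = h * x := by group
  have hrange : φ.range ≤ MulAction.stabilizer (Equiv.Perm ↥N) (1 : ↥N) := by
    rintro _ ⟨h, rfl⟩
    rw [MulAction.mem_stabilizer_iff]
    change φ h 1 = 1
    apply Subtype.ext
    have h2 : ((φ h (1 : ↥N) : ↥N) : H) = h * ((1 : ↥N) : H) * h⁻¹ := MulAut.conjNormal_apply h 1
    rw [h2]
    simp
  have h1 : Nat.card φ.ker * Nat.card φ.range = Nat.card H := by
    rw [← Subgroup.index_ker, Subgroup.card_mul_index]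
  rw [← h1, ← card_stab ↥N 1]
  exact Nat.mul_le_mul (Subgroup.card_le_of_le hker) (Subgroup.card_le_of_le hrange)

end Cfsg.Agent.S1313
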