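import Cfsg.Statements.S1324
import Cfsg.Agent.Lib.Helper3.CopGen
import Cfsg.Agent.Lib.Helper3.EA

set_option autoImplicit false
open Cfsg

namespace Cfsg.Agent.S1324

/-- Let A be a noncyclic elementary abelian p-subgroup of a finite group H normalizing a subgroup X of order prime to p. Then X is generated by the subgroups X ∩ C_H(B), B ranging over the subgroups of A of index at most p. -/
theorem result {H : Type*} [Group H] [Finite H] (p : ℕ) [Fact p.Prime] (A X : Subgroup H) (hA : Cfsg.IsElementaryAbelian p A) (hA2 : p ^ 2 ≤ Nat.card ↥A) (hX : ¬ p ∣ Nat.card ↥X) (hAX : A ≤ Subgroup.normalizer (X : Set H)) : X = ⨆ B : {B : Subgroup H // B ≤ A ∧ B.relIndex A ≤ p}, X ⊓ Subgroup.centralizer ((B : Subgroup H) : Set H) := by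
  have hp : Nat.Prime p := Fact.out
  have hcop : (Nat.card A).Coprime (Nat.card X) := by
    obtain ⟨n, hn⟩ := IsPGroup.iff_card.mp (Cfsg.Agent.Lib.Helper3.PLocal.ea_isPGroup hA)
    rw [hn]
    exact Nat.Coprime.pow_left n ((Nat.Prime.coprime_iff_not_dvd hp).mpr hX)
  apply le_antisymm
  · refine (Cfsg.Agent.Lib.Helper3.CopGen.gen A X hA.1 hAX hcop).ge.trans ?_
    apply iSup₂_le
    intro B hB
    have h1 := Cfsg.Agent.Lib.Helper3.CopGen.CoCyc.card_le hA hp.pos hB
    have h2 : B.relIndex A ≤ p := by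
      have h3 := Subgroup.relIndex_mul_relIndex ⊥ B A bot_le hB.1
      rw [Subgroup.relIndex_bot_left, Subgroup.relIndex_bot_left] at h3
      have h4 : B.relIndex A * Nat.card B ≤ p * Nat.card B := by
        rw [mul_comm, h3, mul_comm p]; exact h1
      exact Nat.le_of_mul_le_mul_right h4 Nat.card_pos
    exact le_iSup (fun B : {B : Subgroup H // B ≤ A ∧ B.relIndex A ≤ p} =>
      X ⊓ Subgroup.centralizer ((B : Subgroup H) : Set H)) ⟨B, hB.1, h2⟩
  · exact iSup_le fun _ => inf_le_left

end Cfsg.Agent.S1324
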