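import Cfsg.Statements.S1892
import Cfsg.Agent.Lib.Helper9.PSolv
import Cfsg.Agent.Lib.Helper1.Coprime
import Cfsg.Agent.Lib.Helper1.Coprime2

set_option autoImplicit false
open Cfsg

namespace Cfsg.Agent.S1892

open Cfsg.Agent.Lib.Helper1 Cfsg.Agent.Lib.Helper9.PSolv
open scoped commutatorElement

/-- Let S be a finite p-solvable group with no nontrivial normal subgroup of order prime to p, A a p-subgroup of S, and Q a nontrivial A-invariant subgroup of order prime to p with [A, Q] = Q. Then the commutator [O_p(S), A, Q] is nontrivial. -/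
theorem result {S : Type*} [Group S] [Finite S] {p : ℕ} [Fact p.Prime]
    (hS : Cfsg.IsPSolvable p S) (hred : Cfsg.pPrimeCore p S = ⊥)
    (A Q : Subgroup S) (hA : IsPGroup p A) (hQ : ¬ p ∣ Nat.card Q) (hQ1 : Q ≠ ⊥)
    (hinv : ∀ a ∈ A, ∀ x ∈ Q, a * x * a⁻¹ ∈ Q) (hAQ : ⁅A, Q⁆ = Q) :
    ⁅⁅Cfsg.pCore p S, A⁆, Q⁆ ≠ ⊥ := by
  intro hbot
  have hp : p.Prime := Fact.out
  have hVn : (Cfsg.pCore p S).Normal := Cfsg.Agent.Lib.Helper1.pCore_normal p
  have hVp : IsPGroup p (Cfsg.pCore p S) := pCore_isPGroup p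
  have hHH := hall_higman hS hred
  set V := Cfsg.pCore p S with hV
  set W := ⁅V, A⁆ with hW
  have hWV : W ≤ V := Subgroup.commutator_le_left V A
  have hWp : IsPGroup p W := hVp.to_le hWV
  have hQW : ∀ w ∈ W, ∀ x ∈ Q, x * w = w * x := by
    intro w hw x hx
    have h1 : ⁅w, x⁆ ∈ ⁅W, Q⁆ := Subgroup.commutator_mem_commutator hw hx
    rw [hbot, Subgroup.mem_bot, commutatorElement_eq_one_iff_mul_comm] at h1
    exact h1.symm
  have hQN : Q ≤ Subgroup.normalizer (W : Set S) := by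
    intro x hx
    rw [Subgroup.mem_normalizer_iff]
    intro w
    constructor
    · intro hw
      rw [hQW w hw x hx, mul_inv_cancel_right]; exact hw
    · intro hw
      have := hQW _ hw x⁻¹ (Q.inv_mem hx)
      have h2 : w = x⁻¹ * (x * w * x⁻¹) * x := by group
      rw [h2, this, inv_mul_cancel_right]; exact hw
  have hAN : A ≤ Subgroup.normalizer (W : Set S) :=
    le_normalizer_commutator_right (by rw [Subgroup.normalizer_eq_top]; exact le_top)
  have hVN : V ≤ Subgroup.normalizer (W : Set S) := le_normalizer_commutator_left V A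
  let T : Subgroup S :=
    { carrier := {g | g ∈ Subgroup.normalizer (W : Set S) ∧ ∀ v ∈ V, g * v * g⁻¹ * v⁻¹ ∈ W}
      one_mem' := ⟨Subgroup.one_mem _, fun v _ => by simp⟩
      mul_mem' := by
        rintro g h ⟨hg1, hg2⟩ ⟨hh1, hh2⟩
        refine ⟨Subgroup.mul_mem _ hg1 hh1, fun v hv => ?_⟩
        have e : g * h * v * (g * h)⁻¹ * v⁻¹ = g * (h * v * h⁻¹ * v⁻¹) * g⁻¹ * (g * v * g⁻¹ * v⁻¹) := by
          group
        rw [e]
        exact W.mul_mem ((Subgroup.mem_normalizer_iff.1 hg1 _).1 (hh2 v hv)) (hg2 v hv)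
      inv_mem' := by
        rintro g ⟨hg1, hg2⟩
        refine ⟨Subgroup.inv_mem _ hg1, fun v hv => ?_⟩
        have e : g⁻¹ * v * g⁻¹⁻¹ * v⁻¹ = g⁻¹ * (g * v * g⁻¹ * v⁻¹)⁻¹ * g⁻¹⁻¹ := by group
        rw [e]
        exact (Subgroup.mem_normalizer_iff.1 (Subgroup.inv_mem _ hg1) _).1 (W.inv_mem (hg2 v hv)) }
  have hAT : A ≤ T := by
    intro a ha
    refine ⟨hAN ha, fun v hv => ?_⟩
    have h1 : ⁅v, a⁆ ∈ W := Subgroup.commutator_mem_commutator hv ha
    have e : a * v * a⁻¹ * v⁻¹ = ⁅v, a⁆⁻¹ := by rw [commutatorElement_def]; group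
    rw [e]; exact W.inv_mem h1
  have hconj : ∀ g ∈ T, ∀ x ∈ Q, x * g * x⁻¹ ∈ T := by
    rintro g ⟨hg1, hg2⟩ x hx
    refine ⟨Subgroup.mul_mem _ (Subgroup.mul_mem _ (hQN hx) hg1) (Subgroup.inv_mem _ (hQN hx)),
      fun v hv => ?_⟩
    have hv' : x⁻¹ * v * x ∈ V := by
      have := hVn.conj_mem v hv x⁻¹
      simpa using this
    have e : x * g * x⁻¹ * v * (x * g * x⁻¹)⁻¹ * v⁻¹ =
        x * (g * (x⁻¹ * v * x) * g⁻¹ * (x⁻¹ * v * x)⁻¹) * x⁻¹ := by group
    rw [e]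
    exact (Subgroup.mem_normalizer_iff.1 (hQN hx) _).1 (hg2 _ hv')
  have hQT : Q ≤ T := by
    rw [← hAQ, Subgroup.commutator_le]
    intro a ha x hx
    have e : ⁅a, x⁆ = a * (x * a⁻¹ * x⁻¹) := by rw [commutatorElement_def]; group
    rw [e]
    exact T.mul_mem (hAT ha) (hconj _ (T.inv_mem (hAT ha)) x hx)
  have hcop : (Nat.card Q).Coprime (Nat.card W) := by
    obtain ⟨k, hk⟩ := IsPGroup.iff_card.1 hWp
    rw [hk]
    exact Nat.Coprime.pow_right k ((Nat.Prime.coprime_iff_not_dvd hp).2 hQ).symm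
  have hsolv : Group.IsSolvable W := by
    have := hWp.isNilpotent
    infer_instance
  have hQC : Q ≤ Subgroup.centralizer (V : Set S) := by
    intro x hx
    rw [Subgroup.mem_centralizer_iff]
    intro v hv
    obtain ⟨d, hd, hvd⟩ := exists_fixed_in_coset Q W hQN hcop (Or.inr hsolv) v (by
      intro a ha
      have h1 := (hQT ha).2 v hv
      have h2 := (Subgroup.mem_normalizer_iff.1 (Subgroup.inv_mem _ (hVN hv)) _).1 h1
      have e : v⁻¹ * (a * v * a⁻¹) = v⁻¹ * (a * v * a⁻¹ * v⁻¹) * v⁻¹⁻¹ := by group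
      rw [e]; exact h2)
    have h1 := Subgroup.mem_centralizer_iff.1 hvd x hx
    have h2 := hQW d hd x hx
    -- x * (v * d) = v * d * x
    have h3 : x * v * d = v * x * d := by
      rw [mul_assoc x v d, h1, mul_assoc v d x, ← h2, mul_assoc]
    exact (mul_right_cancel h3).symm
  have hQV : Q ≤ V := hQC.trans hHH
  have hQp : IsPGroup p Q := hVp.to_le hQV
  obtain ⟨k, hk⟩ := IsPGroup.iff_card.1 hQp
  rcases Nat.eq_zero_or_pos k with rfl | hkpos
  · rw [pow_zero] at hk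
    exact hQ1 (Subgroup.card_eq_one.1 hk)
  · exact hQ (by rw [hk]; exact dvd_pow_self p hkpos.ne')

end Cfsg.Agent.S1892
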