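import Cfsg.Statements.S1898
import Mathlib

set_option autoImplicit false
open Cfsg
open scoped commutatorElement

namespace Cfsg.Agent.S1898

theorem mul_pow_four {X : Type*} [Group X]
    (hel : Cfsg.IsElementaryAbelian 2 (commutator X)) (hcen : commutator X ≤ Subgroup.center X)
    (x y : X) : (x * y) ^ 4 = x ^ 4 * y ^ 4 := by
  set c := y * x * y⁻¹ * x⁻¹ with hc
  have hcm : c ∈ commutator X := by
    have := Subgroup.commutator_mem_commutator (Subgroup.mem_top y) (Subgroup.mem_top x)
    rw [commutatorElement_def] at this
    exact this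
  have hc2 : c * c = 1 := by
    have := hel.2 c hcm
    rwa [sq] at this
  have hcc : ∀ g, g * c = c * g := Subgroup.mem_center_iff.mp (hcen hcm)
  have hyx : y * x = c * (x * y) := by rw [hc]; group
  have hyx2 : y * (x * x) = (x * x) * y := by
    calc y * (x * x) = (y * x) * x := by group
      _ = c * (x * y) * x := by rw [hyx]
      _ = c * x * (y * x) := by group
      _ = c * x * (c * (x * y)) := by rw [hyx]
      _ = c * (x * c) * (x * y) := by group
      _ = c * (c * x) * (x * y) := by rw [hcc x]
      _ = (c * c) * (x * x * y) := by group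
      _ = x * x * y := by rw [hc2, one_mul]
  have h2 : (x * y) * (x * y) = c * (x * x * (y * y)) := by
    calc (x * y) * (x * y) = x * (y * x) * y := by group
      _ = x * (c * (x * y)) * y := by rw [hyx]
      _ = (x * c) * (x * y * y) := by group
      _ = (c * x) * (x * y * y) := by rw [hcc x]
      _ = _ := by group
  have h4 : (x * y) ^ 4 = ((x * y) * (x * y)) * ((x * y) * (x * y)) := by
    simp only [pow_succ, pow_zero, one_mul, mul_assoc]
  rw [h4, h2]
  calc c * (x * x * (y * y)) * (c * (x * x * (y * y)))
      = c * ((x * x * (y * y)) * c) * (x * x * (y * y)) := by group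
    _ = c * (c * (x * x * (y * y))) * (x * x * (y * y)) := by rw [hcc]
    _ = (c * c) * (x * x * y * (y * (x * x)) * (y * y)) := by group
    _ = x * x * y * ((x * x) * y) * (y * y) := by rw [hc2, one_mul, hyx2]
    _ = x * x * (y * (x * x)) * y * (y * y) := by group
    _ = x * x * ((x * x) * y) * y * (y * y) := by rw [hyx2]
    _ = x ^ 4 * y ^ 4 := by simp only [pow_succ, pow_zero, one_mul, mul_assoc]

theorem odd_aut_trivial {X : Type*} [Group X] [Finite X] (hX : IsPGroup 2 X)
    (hel : Cfsg.IsElementaryAbelian 2 (commutator X)) (hcen : commutator X ≤ Subgroup.center X)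
    (ψ : MulAut X) (r : ℕ) (hr : Odd r) (hψr : ψ ^ r = 1) (hfix : ∀ g : X, g ^ 4 = 1 → ψ g = g) :
    ∀ x : X, ψ x = x := by
  have main : ∀ n : ℕ, ∀ x : X, orderOf x = n → ψ x = x := by
    intro n
    induction n using Nat.strong_induction_on with
    | _ n ih =>
      intro x hx
      by_cases hx1 : x = 1
      · rw [hx1, map_one]
      have hx4 : ψ (x ^ 4) = x ^ 4 := by
        apply ih (orderOf (x ^ 4)) _ _ rfl
        rw [← hx]
        obtain ⟨k, hk⟩ := (IsPGroup.iff_orderOf.mp hX) x
        have hk0 : k ≠ 0 := by
          rintro rfl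
          rw [pow_zero, orderOf_eq_one_iff] at hk
          exact hx1 hk
        rw [orderOf_pow, hk]
        apply Nat.div_lt_self (by positivity)
        have h2 : 2 ∣ Nat.gcd (2 ^ k) 4 := Nat.dvd_gcd (dvd_pow_self 2 hk0) (by norm_num)
        have hpos : 0 < Nat.gcd (2 ^ k) 4 := Nat.gcd_pos_of_pos_right _ (by norm_num)
        exact lt_of_lt_of_le (by norm_num) (Nat.le_of_dvd hpos h2)
      set y := x⁻¹ * ψ x with hy
      have hy4 : y ^ 4 = 1 := by
        rw [hy, mul_pow_four hel hcen, ← map_pow, hx4, inv_pow, inv_mul_cancel]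
      have hψy : ψ y = y := hfix y hy4
      have hpow : ∀ m : ℕ, (ψ ^ m) x = x * y ^ m := by
        intro m
        induction m with
        | zero => simp
        | succ m ihm =>
          have hψx : ψ x = x * y := by rw [hy]; group
          rw [pow_succ', MulAut.mul_apply, ihm, map_mul, map_pow, hψy, pow_succ', hψx, mul_assoc]
      have hyr : y ^ r = 1 := by
        have := hpow r
        rw [hψr, MulAut.one_apply] at this
        exact (mul_eq_left.mp this.symm)
      have hy1 : y = 1 := by
        rw [← orderOf_eq_one_iff]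
        have d1 : orderOf y ∣ r := orderOf_dvd_of_pow_eq_one hyr
        have d2 : orderOf y ∣ 4 := orderOf_dvd_of_pow_eq_one hy4
        have hcop : Nat.Coprime r 4 := by
          have : Nat.Coprime r 2 := Nat.coprime_two_right.mpr hr
          exact Nat.Coprime.pow_right 2 this
        exact Nat.eq_one_of_dvd_coprimes hcop d1 d2
      rw [hy] at hy1
      exact (inv_mul_eq_one.mp hy1).symm
  intro x
  exact main _ x rfl

/-- Let X be a finite 2-group whose derived subgroup is elementary abelian and central. Then the subgroup generated by the elements of order dividing 4 has exponent dividing 4, and every automorphism of X fixing each element of order dividing 4 has 2-power order. -/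
theorem result {X : Type*} [Group X] [Finite X] (hX : IsPGroup 2 X)
    (hel : Cfsg.IsElementaryAbelian 2 (commutator X)) (hcen : commutator X ≤ Subgroup.center X) :
    (∀ x ∈ Subgroup.closure {g : X | g ^ 4 = 1}, x ^ 4 = 1) ∧
      ∀ φ : MulAut X, (∀ g : X, g ^ 4 = 1 → φ g = g) → ∃ k : ℕ, φ ^ (2 ^ k) = 1 := by
  constructor
  · intro x hx
    induction hx using Subgroup.closure_induction with
    | mem x hx => exact hx
    | one => simp
    | mul x y _ _ hx hy => rw [mul_pow_four hel hcen, hx, hy, one_mul]
    | inv x _ hx => rw [inv_pow, hx, inv_one]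
  · intro φ hφ
    have hfin : Finite (MulAut X) := Finite.of_injective (fun f : MulAut X => (f : X → X))
      (fun f g h => MulEquiv.ext (congrFun h))
    have hpos : orderOf φ ≠ 0 := (orderOf_pos φ).ne'
    obtain ⟨k, r, hr, hkr⟩ := Nat.exists_eq_two_pow_mul_odd hpos
    refine ⟨k, ?_⟩
    have hψr : (φ ^ (2 ^ k)) ^ r = 1 := by
      rw [← pow_mul, ← hkr, pow_orderOf_eq_one]
    have hfix : ∀ m : ℕ, ∀ g : X, g ^ 4 = 1 → (φ ^ m) g = g := by
      intro m g hg
      induction m with
      | zero => simp
      | succ m ih => rw [pow_succ', MulAut.mul_apply, ih, hφ g hg]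
    ext x
    exact odd_aut_trivial hX hel hcen _ r hr hψr (hfix _) x

end Cfsg.Agent.S1898
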