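import Cfsg.Statements.S1899
import Mathlib

set_option autoImplicit false
open Cfsg

namespace Cfsg.Agent.S1899

/-- Let a dihedral group of order 2n, n odd and n > 1, act on a finite abelian 2-group A through automorphisms d and t with d^n = 1, t² = 1 and t d t⁻¹ = d⁻¹, and suppose that d fixes only the identity. Then A is the internal direct product of C_A(t) and its image under d. -/
theorem result {A : Type*} [CommGroup A] [Finite A] (hA : IsPGroup 2 A)
    {n : ℕ} (hn : Odd n) (hn1 : 1 < n) (d t : MulAut A) (hd : d ^ n = 1) (ht : t ^ 2 = 1) (hdt : t * d * t⁻¹ = d⁻¹)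
    (hfix : ∀ a : A, d a = a → a = 1) :
    (MulEquiv.toMonoidHom t).eqLocus (MonoidHom.id A) ⊓ ((MulEquiv.toMonoidHom t).eqLocus (MonoidHom.id A)).map d.toMonoidHom = ⊥ ∧
      (MulEquiv.toMonoidHom t).eqLocus (MonoidHom.id A) ⊔ ((MulEquiv.toMonoidHom t).eqLocus (MonoidHom.id A)).map d.toMonoidHom = ⊤ := by
  have R1 : ∀ a, t (t a) = a := by
    intro a
    have := congrArg (fun f : MulAut A => f a) ht
    simpa [sq, MulAut.mul_apply] using this
  have R2 : ∀ a, d (t (d a)) = t a := by
    intro a
    have h1 : d * t * d = t := by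
      have : t * d = d⁻¹ * t := by
        calc t * d = (t * d * t⁻¹) * t := by group
          _ = d⁻¹ * t := by rw [hdt]
      calc d * t * d = d * (t * d) := by group
        _ = d * (d⁻¹ * t) := by rw [this]
        _ = t := by group
    have := congrArg (fun f : MulAut A => f a) h1
    simpa [MulAut.mul_apply] using this
  have hd2 : ∀ a, d (d a) = a → a = 1 := by
    intro a ha
    apply hfix
    obtain ⟨m, hm⟩ := hn
    have hpow : ∀ k : ℕ, ((d * d) ^ k) a = a := by
      intro k
      induction k with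
      | zero => simp
      | succ k ih => rw [pow_succ', MulAut.mul_apply, ih, MulAut.mul_apply, ha]
    have h1 : d = (d * d) ^ (m + 1) := by
      have : (d * d) ^ (m + 1) = d ^ n * d := by
        rw [hm, ← sq, ← pow_mul, ← pow_succ]; congr 1
      rw [this, hd, one_mul]
    calc d a = ((d * d) ^ (m + 1)) a := by rw [← h1]
      _ = a := hpow _
  have memC : ∀ x, x ∈ (MulEquiv.toMonoidHom t).eqLocus (MonoidHom.id A) ↔ t x = x := fun x => Iff.rfl
  constructor
  · rw [eq_bot_iff]
    rintro x ⟨hx1, c, hc, rfl⟩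
    have hx1' : t (d c) = d c := hx1
    have hc' : t c = c := hc
    have h1 : d (d c) = c := by
      have := R2 c
      rw [hx1', hc'] at this
      exact this
    have hc1 : c = 1 := hd2 c h1
    rw [Subgroup.mem_bot, hc1]
    exact map_one _
  · rw [eq_top_iff]
    intro a _
    have hinj : Function.Injective (fun x : A => x * (d (d x))⁻¹) := by
      intro x y hxy
      have hxy' : x * (d (d x))⁻¹ = y * (d (d y))⁻¹ := hxy
      have h1 : d (d (x * y⁻¹)) = x * y⁻¹ := by
        rw [map_mul, map_mul, map_inv, map_inv]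
        calc d (d x) * (d (d y))⁻¹ = (x * (d (d x))⁻¹)⁻¹ * x * (d (d y))⁻¹ := by group
          _ = (y * (d (d y))⁻¹)⁻¹ * x * (d (d y))⁻¹ := by rw [hxy']
          _ = x * y⁻¹ := by
            rw [mul_inv, inv_inv]
            calc y⁻¹ * d (d y) * x * (d (d y))⁻¹ = x * y⁻¹ * (d (d y) * (d (d y))⁻¹) := by
                  simp only [mul_comm, mul_left_comm, mul_assoc]
              _ = x * y⁻¹ := by rw [mul_inv_cancel, mul_one]
      exact mul_inv_eq_one.mp (hd2 _ h1)
    obtain ⟨a', ha'⟩ := Finite.surjective_of_injective hinj a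
    have ha'' : a = a' * (d (d a'))⁻¹ := ha'.symm
    set e := t (d a') with he
    have hde : d e = t a' := R2 a'
    have hte : t e = d a' := R1 _
    have hc1 : t a' * a' ∈ (MulEquiv.toMonoidHom t).eqLocus (MonoidHom.id A) := by
      rw [memC, map_mul, R1, mul_comm]
    have hc2 : (e * d a')⁻¹ ∈ (MulEquiv.toMonoidHom t).eqLocus (MonoidHom.id A) := by
      rw [memC, map_inv, map_mul, hte, ← he, mul_comm]
    have hsum : a = (t a' * a') * d ((e * d a')⁻¹) := by
      rw [map_inv, map_mul, hde, ha'', mul_inv]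
      calc a' * (d (d a'))⁻¹ = (t a' * (t a')⁻¹) * (a' * (d (d a'))⁻¹) := by
            rw [mul_inv_cancel, one_mul]
        _ = _ := by simp only [mul_comm, mul_left_comm, mul_assoc]
    rw [hsum]
    exact Subgroup.mul_mem _ (Subgroup.mem_sup_left hc1)
      (Subgroup.mem_sup_right ⟨_, hc2, rfl⟩)

end Cfsg.Agent.S1899
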