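import Cfsg.Statements.S1901
import Cfsg.Agent.Lib.Helper9.PSolv

set_option autoImplicit false
open Cfsg

namespace Cfsg.Agent.S1901

open Cfsg.Agent.Lib.Helper1 Cfsg.Agent.Lib.Helper9.PSolv
open scoped commutatorElement

/-- Let G be a finite p-solvable group and Q a subgroup of order prime to p such that p divides the index of C_G(Q) in N_G(Q). Then Q normalizes no Sylow p-subgroup of G. -/
theorem result {G : Type*} [Group G] [Finite G] {p : ℕ} [Fact p.Prime]
    (hG : Cfsg.IsPSolvable p G) (Q : Subgroup G) (hQ : ¬ p ∣ Nat.card Q)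
    (hA : p ∣ (Subgroup.centralizer (Q : Set G)).relIndex (Subgroup.normalizer (Q : Set G)))
    (P : Sylow p G) : ¬ Q ≤ Subgroup.normalizer ((P : Subgroup G) : Set G) := by
  intro hQP
  have hp : p.Prime := Fact.out
  have hQc : (Nat.card Q).Coprime p := ((Nat.Prime.coprime_iff_not_dvd hp).2 hQ).symm
  -- main claim
  have main : ∀ R : Subgroup G, IsPGroup p R → R ≤ Subgroup.normalizer (Q : Set G) →
      ⁅Q, R⁆ ≤ ⊥ := by
    intro R hR hRQ
    have hQR : ⁅Q, R⁆ ≤ Q := commutator_le_of_le_normalizer hRQ
    have hcop : (Nat.card R).Coprime (Nat.card Q) := by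
      obtain ⟨k, hk⟩ := IsPGroup.iff_card.1 hR
      rw [hk]; exact (Nat.Coprime.pow_right k hQc).symm
    have hsolv : Group.IsSolvable R := by
      have := hR.isNilpotent
      infer_instance
    have hcc := commutator_le_commutator_commutator Q R hRQ hcop (Or.inl hsolv)
    apply descent hG (fun M => ⁅Q, R⁆ ≤ M) le_top
    intro N M hN hM hNM hfac hle
    have hle0 : ⁅Q, R⁆ ≤ Q ⊓ M := le_inf hQR hle
    have hQ0c : (Nat.card (Q ⊓ M : Subgroup G)).Coprime p :=
      Nat.Coprime.coprime_dvd_left (Subgroup.card_dvd_of_le inf_le_left) hQc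
    rcases hfac with hpow | hcopf
    · exact hle0.trans (le_of_coprime_of_pow inf_le_right hQ0c hpow)
    · -- `p'`-factor
      have hPM : (P : Subgroup G) ⊓ M ≤ N :=
        le_of_pgroup_of_coprime inf_le_right (P.2.to_le inf_le_left) hcopf
      set f := QuotientGroup.mk' N with hf
      have hfs : Function.Surjective f := QuotientGroup.mk'_surjective N
      have h1 := pgroup_le_centralizer (P.mapSurjective hfs) ((Q ⊓ M).map f) (R.map f) (hR.map f)
        ?_ ?_
      · -- conclude
        refine hcc.trans ?_
        rw [Subgroup.commutator_le]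
        intro y hy r hr
        have hy0 := hle0 hy
        have h2 := Subgroup.mem_centralizer_iff.1 (h1 (Subgroup.mem_map_of_mem f hr)) (f y)
          (Subgroup.mem_map_of_mem f hy0)
        have h3 : f ⁅y, r⁆ = 1 := by
          rw [map_commutatorElement, commutatorElement_eq_one_iff_mul_comm]
          exact h2
        exact (QuotientGroup.eq_one_iff _).1 h3
      · refine le_trans ?_ (Subgroup.le_normalizer_map f)
        apply Subgroup.map_mono
        intro r hr
        rw [Subgroup.mem_normalizer_iff]
        intro y
        have h1 := Subgroup.mem_normalizer_iff.1 (hRQ hr) y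
        have h2 : y ∈ M ↔ r * y * r⁻¹ ∈ M := by
          constructor
          · intro h; exact hM.conj_mem y h r
          · intro h
            have := hM.conj_mem _ h r⁻¹
            simpa [mul_assoc] using this
        simp only [Subgroup.mem_inf]
        rw [h1, h2]
      · rw [Sylow.coe_mapSurjective]
        rintro _ ⟨x, hx, rfl⟩
        rw [Subgroup.mem_centralizer_iff]
        rintro _ ⟨y, hy, rfl⟩
        have hy' : y ∈ Q ⊓ M := hy
        have h2 : ⁅y, x⁆ ∈ N := by
          apply hPM
          constructor
          · -- y x y⁻¹ x⁻¹ ∈ P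
            rw [commutatorElement_def]
            have := (Subgroup.mem_normalizer_iff.1 (hQP hy'.1) x).1 hx
            exact (P : Subgroup G).mul_mem this ((P : Subgroup G).inv_mem hx)
          · rw [commutatorElement_def, mul_assoc, mul_assoc]
            apply M.mul_mem hy'.2
            have := hM.conj_mem _ (M.inv_mem hy'.2) x
            simpa [mul_assoc] using this
        have h3 : ⁅f y, f x⁆ = 1 := by
          rw [← map_commutatorElement]
          exact (QuotientGroup.eq_one_iff _).2 h2
        exact commutatorElement_eq_one_iff_mul_comm.1 h3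
  -- take a Sylow p-subgroup of N(Q)
  set Nor := Subgroup.normalizer (Q : Set G) with hNor
  set Cen := Subgroup.centralizer (Q : Set G) with hCen
  obtain ⟨R⟩ : Nonempty (Sylow p Nor) := inferInstance
  set R₁ := (R : Subgroup Nor).map Nor.subtype with hR₁
  have hR₁p : IsPGroup p R₁ := R.2.map _
  have hR₁N : R₁ ≤ Nor := Subgroup.map_subtype_le _
  have hR₁C : R₁ ≤ Cen := by
    have := main R₁ hR₁p hR₁N
    rw [le_bot_iff, Subgroup.commutator_eq_bot_iff_le_centralizer] at this
    rw [hCen, Subgroup.le_centralizer_iff]
    exact this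
  have h1 : Cen.relIndex Nor ∣ R₁.relIndex Nor := Subgroup.relIndex_dvd_of_le_left Nor hR₁C
  have h2 : R₁.relIndex Nor = (R : Subgroup Nor).index := by
    rw [Subgroup.relIndex, hR₁, Subgroup.subgroupOf,
      Subgroup.comap_map_eq_self_of_injective (Subgroup.subtype_injective _)]
  rw [h2] at h1
  exact R.not_dvd_index (hA.trans h1)

end Cfsg.Agent.S1901
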