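import Cfsg.Statements.S1939
import Cfsg.Agent.Lib.Helper6.Ores
open Cfsg.Agent.Lib.Helper6.Basic Cfsg.Agent.Lib.Helper6.Subn Cfsg.Agent.Lib.Helper6.Quasi Cfsg.Agent.Lib.Helper6.Ores

set_option autoImplicit false
open Cfsg

namespace Cfsg.Agent.S1939

/-- Let S be a Sylow p-subgroup of the finite group G and a an element of S that is the only G-conjugate of a lying in S. Then every power of a has the same property: for every n, the only G-conjugate of a^n lying in S is a^n. -/
theorem result {G : Type*} [Group G] [Finite G] {p : ℕ} [Fact p.Prime] (S : Sylow p G) (a : G)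
    (haS : a ∈ (S : Subgroup G)) (hwc : ∀ g : G, g * a * g⁻¹ ∈ (S : Subgroup G) → g * a * g⁻¹ = a) (n : ℕ) :
    ∀ g : G, g * a ^ n * g⁻¹ ∈ (S : Subgroup G) → g * a ^ n * g⁻¹ = a ^ n := by
  intro g hg
  have hcomm : ∀ s ∈ (S : Subgroup G), s * a = a * s := by
    intro s hs
    have h1 := hwc s ((S : Subgroup G).mul_mem ((S : Subgroup G).mul_mem hs haS)
      ((S : Subgroup G).inv_mem hs))
    calc s * a = (s * a * s⁻¹) * s := by group
      _ = a * s := by rw [h1]
  set b' : G := g * a ^ n * g⁻¹ with hb'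
  set C : Subgroup G := Subgroup.centralizer ({b'} : Set G) with hC
  have haC : a ∈ C := by
    rw [hC, Subgroup.mem_centralizer_singleton_iff]
    exact (hcomm b' hg).symm
  have hSC : cj g (S : Subgroup G) ≤ C := by
    rintro _ ⟨s, hs, rfl⟩
    rw [hC, Subgroup.mem_centralizer_singleton_iff]
    have h1 : Commute s (a ^ n) := (show Commute s a from hcomm s hs).pow_right n
    change g * s * g⁻¹ * b' = b' * (g * s * g⁻¹)
    rw [hb']
    calc g * s * g⁻¹ * (g * a ^ n * g⁻¹) = g * (s * a ^ n) * g⁻¹ := by group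
      _ = g * (a ^ n * s) * g⁻¹ := by rw [h1.eq]
      _ = g * a ^ n * g⁻¹ * (g * s * g⁻¹) := by group
  have hsyl : Syl p (cj g (S : Subgroup G)) C := by
    have h1 := (syl_of_sylow S).cj g
    rw [cj_top] at h1
    exact h1.of_le hSC le_top
  have hap : IsPGroup p (Subgroup.zpowers a) := S.isPGroup'.to_le (Subgroup.zpowers_le.2 haS)
  obtain ⟨k, hk, hle⟩ := hsyl.exists_le_cj hap (Subgroup.zpowers_le.2 haC)
  have h1 : a ∈ cj (k * g) (S : Subgroup G) := by
    rw [← cj_cj]; exact hle (Subgroup.mem_zpowers a)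
  rw [mem_cj] at h1
  have h2 := hwc (k * g)⁻¹ (by rw [inv_inv]; exact h1)
  rw [inv_inv] at h2
  have h3 : (k * g) * a * (k * g)⁻¹ = a := by
    calc (k * g) * a * (k * g)⁻¹ = (k * g) * ((k * g)⁻¹ * a * (k * g)) * (k * g)⁻¹ := by rw [h2]
      _ = a := by group
  have h4 : (k * g) * a ^ n * (k * g)⁻¹ = a ^ n := by
    rw [← conj_pow, h3]
  have h5 : k * b' = b' * k := Subgroup.mem_centralizer_singleton_iff.1 hk
  calc b' = (b' * k) * k⁻¹ := by group
    _ = (k * b') * k⁻¹ := by rw [h5]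
    _ = (k * g) * a ^ n * (k * g)⁻¹ := by rw [hb']; group
    _ = a ^ n := h4

end Cfsg.Agent.S1939
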