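import Cfsg.Statements.S1940

set_option autoImplicit false
open Cfsg

namespace Cfsg.Agent.S1940

/-- Let the finite group L act by automorphisms on the finite abelian group M, and let N be an L-invariant subgroup of M such that M/N is a p-group on which L acts trivially (every l • m lies in the coset mN). If every element of M is a product of an element of N and an element fixed by a Sylow p-subgroup T of L, then every element of M is a product of an element of N and an element fixed by all of L. -/
theorem result {L : Type*} [Group L] [Finite L] {M : Type*} [CommGroup M] [Finite M] [MulDistribMulAction L M]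
    {p : ℕ} [Fact p.Prime] (N : Subgroup M) (hN : ∀ (l : L) (m : M), m ∈ N → l • m ∈ N)
    (hquot : IsPGroup p (M ⧸ N)) (htriv : ∀ (l : L) (m : M), (l • m) * m⁻¹ ∈ N) (T : Sylow p L)
    (hT : ∀ m : M, ∃ n ∈ N, ∃ c : M, (∀ t ∈ (T : Subgroup L), t • c = c) ∧ m = n * c) :
    ∀ m : M, ∃ n ∈ N, ∃ c : M, (∀ l : L, l • c = c) ∧ m = n * c := by
  classical
  haveI : Fintype (L ⧸ (T : Subgroup L)) := Fintype.ofFinite _
  intro m
  obtain ⟨n, hn, c, hc, rfl⟩ := hT m
  set c' : M := ∏ q : L ⧸ (T : Subgroup L), (q.out) • c with hc'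
  have hout : ∀ (l : L) (q : L ⧸ (T : Subgroup L)), ((l • q).out) • c = l • (q.out • c) := by
    intro l q
    have h1 : (l • q) = ((l * q.out : L) : L ⧸ (T : Subgroup L)) := by
      conv_lhs => rw [← QuotientGroup.out_eq' q]
      rfl
    have h2 : (((l • q).out : L) : L ⧸ (T : Subgroup L)) = ((l * q.out : L) : L ⧸ (T : Subgroup L)) := by
      rw [QuotientGroup.out_eq', h1]
    rw [QuotientGroup.eq] at h2
    have h3 := hc _ h2
    rw [mul_smul, mul_smul, inv_smul_eq_iff] at h3
    exact h3.symm
  have hfix : ∀ l : L, l • c' = c' := by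
    intro l
    rw [hc', Finset.smul_prod']
    rw [← Equiv.prod_comp (MulAction.toPerm l : Equiv.Perm (L ⧸ (T : Subgroup L)))
      (fun q => q.out • c)]
    refine Finset.prod_congr rfl (fun q _ => ?_)
    exact (hout l q).symm
  have hmod : c' * (c ^ (T : Subgroup L).index)⁻¹ ∈ N := by
    have : c' * (c ^ (T : Subgroup L).index)⁻¹ = ∏ q : L ⧸ (T : Subgroup L), (q.out • c) * c⁻¹ := by
      rw [Finset.prod_mul_distrib, Finset.prod_const, Finset.card_univ, ← Nat.card_eq_fintype_card,
        inv_pow]
      rfl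
    rw [this]
    exact Subgroup.prod_mem _ (fun q _ => htriv _ _)
  have hcop : ((T : Subgroup L).index).Coprime p :=
    ((Nat.Prime.coprime_iff_not_dvd (Fact.out : p.Prime)).2 T.not_dvd_index).symm
  obtain ⟨k, hk⟩ := hquot (c : M ⧸ N)
  have hord : ((T : Subgroup L).index).Coprime (orderOf (c : M ⧸ N)) :=
    Nat.Coprime.coprime_dvd_right (orderOf_dvd_of_pow_eq_one hk) (Nat.Coprime.pow_right k hcop)
  obtain ⟨s, hs⟩ := exists_pow_eq_self_of_coprime hord
  have h1 : ((c' : M) : M ⧸ N) = (c : M ⧸ N) ^ (T : Subgroup L).index := by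
    have := (QuotientGroup.eq_one_iff _).2 hmod
    rw [QuotientGroup.mk_mul, QuotientGroup.mk_inv, QuotientGroup.mk_pow] at this
    exact mul_inv_eq_one.1 this
  refine ⟨n * (c * (c' ^ s)⁻¹), N.mul_mem hn ?_, c' ^ s, ?_, ?_⟩
  · rw [← QuotientGroup.eq_one_iff, QuotientGroup.mk_mul, QuotientGroup.mk_inv,
      QuotientGroup.mk_pow, h1, hs, mul_inv_cancel]
  · intro l
    rw [smul_pow', hfix]
  · rw [mul_assoc, inv_mul_cancel_right]

end Cfsg.Agent.S1940
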