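import Cfsg.Statements.S1947
import Cfsg.Agent.Lib.Helper1.Bridge
import Cfsg.Agent.S0027
open Cfsg.Agent.Lib.Helper1

set_option autoImplicit false
open Cfsg

namespace Cfsg.Agent.S1947

/-- Let G be a finite group and p a prime. If every element of G of order dividing p (dividing 4 when p = 2) lies in some fixed term Z_n(G) of the upper central series, then G has a normal p-complement. -/
theorem result {G : Type*} [Group G] [Finite G] {p : ℕ} [Fact p.Prime] (n : ℕ)
    (h : ∀ a : G, (a ^ p = 1 ∨ (p = 2 ∧ a ^ 4 = 1)) → a ∈ Subgroup.upperCentralSeries G n) : Cfsg.HasNormalPComplement p G := by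
  have hpp : p.Prime := Fact.out
  apply hasNormalPComplement_of_frobHyp
  intro Q hQ g hg hcop
  -- the key commuting fact
  have key : ∀ x ∈ Q, x ∈ Subgroup.upperCentralSeries G n → g * x = x * g := by
    intro x hx hxn
    set K := Q ⊓ Subgroup.upperCentralSeries G n with hK
    set A := Subgroup.zpowers g with hA
    have hAK : A ≤ Subgroup.normalizer (K : Set G) := by
      rw [hA, Subgroup.zpowers_le]
      have h1 : Subgroup.normalizer (Q : Set G) ⊓ Subgroup.normalizer ((Subgroup.upperCentralSeries G n : Subgroup G) : Set G) ≤ Subgroup.normalizer (K : Set G) := by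
        intro y hy
        obtain ⟨hy1, hy2⟩ := Subgroup.mem_inf.mp hy
        rw [Subgroup.mem_normalizer_iff] at hy1 hy2 ⊢
        intro z
        rw [hK, Subgroup.mem_inf, Subgroup.mem_inf, hy1 z, hy2 z]
      apply h1
      refine Subgroup.mem_inf.mpr ⟨hg, ?_⟩
      rw [Subgroup.normalizer_eq_top]; trivial
    have hKp : IsPGroup p K := hQ.to_le inf_le_left
    have hcop2 : (Nat.card A).Coprime (Nat.card K) := by
      obtain ⟨k, hk⟩ := IsPGroup.iff_card.mp hKp
      rw [hk, hA, Nat.card_zpowers]
      exact Nat.Coprime.pow_right _ hcop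
    have hs : ⁅⁅K, A⁆, A⁆ = ⁅K, A⁆ := Cfsg.Agent.S0027.result A K hAK hcop2 (Or.inl inferInstance)
    have hdesc : ∀ j, j ≤ n → ⁅K, A⁆ ≤ Subgroup.upperCentralSeries G (n - j) := by
      intro j
      induction j with
      | zero =>
        intro _
        have : K.Normal ∨ True := Or.inr trivial
        calc ⁅K, A⁆ ≤ ⁅Subgroup.upperCentralSeries G n, ⊤⁆ := Subgroup.commutator_mono inf_le_right le_top
          _ ≤ Subgroup.upperCentralSeries G n := Subgroup.commutator_le_left _ _
      | succ j ih =>
        intro hj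
        have h1 := ih (by omega)
        have h2 : n - j = (n - (j+1)) + 1 := by omega
        rw [← hs]
        calc ⁅⁅K, A⁆, A⁆ ≤ ⁅Subgroup.upperCentralSeries G ((n - (j+1)) + 1), ⊤⁆ := 
              Subgroup.commutator_mono (h2 ▸ h1) le_top
          _ ≤ _ := Subgroup.commutator_upperCentralSeries_top_le G _
    have hbot : ⁅K, A⁆ = ⊥ := by
      have := hdesc n le_rfl
      rw [Nat.sub_self, Subgroup.upperCentralSeries_zero] at this
      exact le_bot_iff.mp this
    rw [Subgroup.commutator_eq_bot_iff_le_centralizer] at hbot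
    have h3 := hbot (Subgroup.mem_inf.mpr ⟨hx, hxn⟩)
    rw [Subgroup.mem_centralizer_iff] at h3
    exact h3 g (Subgroup.mem_zpowers g)
  by_cases hp2 : p = 2
  · subst hp2
    apply mem_centralizer_of_small_order (e := 4) Q hQ g hg hcop (by norm_num) (by decide)
    intro x hx hx4
    exact key x hx (h x (Or.inr ⟨rfl, hx4⟩))
  · apply mem_centralizer_of_small_order Q hQ g hg hcop (dvd_refl p)
      (hpp.dvd_choose_self (by norm_num) (lt_of_le_of_ne hpp.two_le (Ne.symm hp2)))
    intro x hx hxp
    exact key x hx (h x (Or.inl hxp))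

end Cfsg.Agent.S1947
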