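import Cfsg.Statements.S2163
import Mathlib

set_option autoImplicit false
open Cfsg

namespace Cfsg.Agent.S2163

open Matrix Module

/-- the nilpotent part -/
def NN (F : Type*) [Field F] (n ℓ : ℕ) : Matrix (Fin n) (Fin n) F :=
  Matrix.of (fun i j : Fin n => if j.val < ℓ ∧ i.val = j.val + (n - ℓ) then (1 : F) else 0)

theorem NN_apply (F : Type*) [Field F] (n ℓ : ℕ) (i j : Fin n) :
    NN F n ℓ i j = if j.val < ℓ ∧ i.val = j.val + (n - ℓ) then (1 : F) else 0 := rfl

theorem NN_sq (F : Type*) [Field F] (n ℓ : ℕ) (h2 : 2 * ℓ ≤ n) : NN F n ℓ * NN F n ℓ = 0 := by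
  ext i j
  rw [Matrix.mul_apply]
  apply Finset.sum_eq_zero
  intro l _
  rw [NN_apply, NN_apply]
  by_cases h : l.val < ℓ ∧ i.val = l.val + (n - ℓ)
  · rw [if_neg (show ¬ (j.val < ℓ ∧ l.val = j.val + (n - ℓ)) by omega), mul_zero]
  · rw [if_neg h, zero_mul]

theorem det_one_add (F : Type*) [Field F] (n ℓ : ℕ) (h1 : 1 ≤ ℓ) (h2 : 2 * ℓ ≤ n) :
    (1 + NN F n ℓ).det = 1 := by
  rw [det_of_isLowerTriangular]
  · apply Finset.prod_eq_one
    intro i _
    rw [Matrix.add_apply, one_apply_eq, NN_apply, if_neg (by omega), add_zero]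
  · intro i j hij
    have hij' : i < j := hij
    have hij'' : i.val < j.val := hij'
    rw [Matrix.add_apply, one_apply_ne hij'.ne, NN_apply, if_neg (by omega), add_zero]

theorem rank_NN (F : Type*) [Field F] (n ℓ : ℕ) (h2 : 2 * ℓ ≤ n) : (NN F n ℓ).rank = ℓ := by
  classical
  let emb : Fin ℓ → Fin n := fun j => ⟨j.val + (n - ℓ), by have := j.2; omega⟩
  have hemb : Function.Injective emb := by
    intro a b h
    have := congr_arg Fin.val h
    simp only [emb] at this
    exact Fin.ext (by omega)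
  let fam : Fin ℓ → (Fin n → F) := fun j => Pi.single (emb j) 1
  have hli : LinearIndependent F fam := by
    have := (Pi.basisFun F (Fin n)).linearIndependent.comp emb hemb
    convert this using 1
    funext k
    simp [fam]
  have hcol : ∀ j : Fin n, (hj : j.val < ℓ) → (NN F n ℓ).col j = fam ⟨j.val, hj⟩ := by
    intro j hj
    funext i
    change NN F n ℓ i j = _
    rw [NN_apply]
    simp only [fam, Pi.single_apply, emb, Fin.ext_iff, hj, true_and]
  have hcol0 : ∀ j : Fin n, ¬ j.val < ℓ → (NN F n ℓ).col j = 0 := by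
    intro j hj
    funext i
    change NN F n ℓ i j = _
    rw [NN_apply, if_neg (fun h => hj h.1)]
    rfl
  have hspan : Submodule.span F (Set.range (NN F n ℓ).col) = Submodule.span F (Set.range fam) := by
    apply le_antisymm
    · rw [Submodule.span_le]
      rintro _ ⟨j, rfl⟩
      by_cases hj : j.val < ℓ
      · rw [hcol j hj]; exact Submodule.subset_span ⟨_, rfl⟩
      · rw [hcol0 j hj]; exact Submodule.zero_mem _
    · rw [Submodule.span_le]
      rintro _ ⟨j, rfl⟩
      have := hcol ⟨j.val, by have := j.2; omega⟩ j.2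
      exact Submodule.subset_span ⟨_, this⟩
  rw [rank_eq_finrank_span_cols, hspan, finrank_span_eq_card hli, Fintype.card_fin]


/-- Over a finite field of characteristic two and for n ≥ 3: for every ℓ with 1 ≤ ℓ and 2ℓ ≤ n, the matrix j_ℓ that is the identity plus the entries 1 in positions (n − ℓ + i, i) for i < ℓ (an identity block of size ℓ in the lower left corner) lies in SL_n(F), has order 2, and j_ℓ − 1 has rank ℓ. Together with the conjugacy criterion by rank, these matrices represent the conjugacy classes of involutions of SL_n(F). -/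
theorem result {F : Type*} [Field F] [Fintype F] [CharP F 2] {n : ℕ} (hn : 3 ≤ n) (ℓ : ℕ) (h1 : 1 ≤ ℓ) (h2 : 2 * ℓ ≤ n) :
    ∃ a : Matrix.SpecialLinearGroup (Fin n) F, (a : Matrix (Fin n) (Fin n) F) = 1 + Matrix.of (fun i j : Fin n => if j.val < ℓ ∧ i.val = j.val + (n - ℓ) then (1 : F) else 0) ∧ orderOf a = 2 ∧ ((a : Matrix (Fin n) (Fin n) F) - 1).rank = ℓ := by
  classical
  refine ⟨⟨1 + NN F n ℓ, det_one_add F n ℓ h1 h2⟩, rfl, ?_, ?_⟩
  · apply orderOf_eq_prime
    · apply Subtype.ext
      change (1 + NN F n ℓ) ^ 2 = 1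
      rw [sq, add_mul, mul_add, mul_add, NN_sq F n ℓ h2, one_mul, mul_one, add_zero, add_assoc,
        add_eq_left]
      ext i j
      rw [Matrix.add_apply, one_mul]
      exact CharTwo.add_self_eq_zero (NN F n ℓ i j)
    · intro h
      have h3 := congr_arg Subtype.val h
      change 1 + NN F n ℓ = 1 at h3
      rw [add_eq_left] at h3
      have h4 := congr_fun₂ h3 ⟨n - ℓ, by omega⟩ ⟨0, by omega⟩
      rw [NN_apply, if_pos (by simp only; omega)] at h4
      simp at h4
  · change (1 + NN F n ℓ - 1).rank = ℓ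
    rw [add_sub_cancel_left, rank_NN F n ℓ h2]
end Cfsg.Agent.S2163
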