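import Cfsg.Statements.S2165
import Mathlib

set_option autoImplicit false
open Cfsg

namespace Cfsg.Agent.S2165

open Matrix Module

/-- the swapping involution -/
def sw (n ℓ : ℕ) (h2 : 2 * ℓ ≤ n) (i : Fin n) : Fin n :=
  if h : i.val < ℓ then ⟨i.val + (n - ℓ), by omega⟩
  else if h' : n - ℓ ≤ i.val then ⟨i.val - (n - ℓ), by have := i.2; omega⟩ else i

theorem sw_val (n ℓ : ℕ) (h2 : 2 * ℓ ≤ n) (i : Fin n) :
    (sw n ℓ h2 i).val = if i.val < ℓ then i.val + (n - ℓ)
      else if n - ℓ ≤ i.val then i.val - (n - ℓ) else i.val := by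
  unfold sw
  split_ifs <;> rfl

theorem sw_sw (n ℓ : ℕ) (h2 : 2 * ℓ ≤ n) (i : Fin n) : sw n ℓ h2 (sw n ℓ h2 i) = i := by
  apply Fin.ext
  rw [sw_val, sw_val]
  have := i.2
  split_ifs <;> omega

/-- the matrix -/
def AA (F : Type*) [Field F] (n ℓ : ℕ) : Matrix (Fin n) (Fin n) F :=
  Matrix.of (fun i j : Fin n => if (j.val < ℓ ∧ i.val = j.val + (n - ℓ)) ∨
    (i.val < ℓ ∧ j.val = i.val + (n - ℓ)) ∨ (i = j ∧ ℓ ≤ i.val ∧ i.val < n - ℓ) then (1 : F) else 0)

theorem AA_apply (F : Type*) [Field F] (n ℓ : ℕ) (h2 : 2 * ℓ ≤ n) (i j : Fin n) :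
    AA F n ℓ i j = if j = sw n ℓ h2 i then 1 else 0 := by
  change (if _ then (1 : F) else 0) = _
  congr 1
  rw [Fin.ext_iff, Fin.ext_iff, sw_val]
  have := i.2
  have := j.2
  apply propext
  split_ifs <;> omega

theorem AA_mulVec (F : Type*) [Field F] (n ℓ : ℕ) (h2 : 2 * ℓ ≤ n) (v : Fin n → F) :
    AA F n ℓ *ᵥ v = v ∘ sw n ℓ h2 := by
  funext i
  rw [mulVec, dotProduct, Finset.sum_eq_single (sw n ℓ h2 i)]
  · rw [AA_apply F n ℓ h2, if_pos rfl, one_mul]; rfl
  · intro j _ hj
    rw [AA_apply F n ℓ h2, if_neg hj, zero_mul]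
  · intro h; exact absurd (Finset.mem_univ _) h

theorem AA_sq (F : Type*) [Field F] (n ℓ : ℕ) (h2 : 2 * ℓ ≤ n) : AA F n ℓ * AA F n ℓ = 1 := by
  apply Matrix.ext_iff_mulVec.mpr
  intro v
  rw [← mulVec_mulVec, AA_mulVec F n ℓ h2, AA_mulVec F n ℓ h2, one_mulVec]
  funext i
  simp only [Function.comp, sw_sw]

theorem AA_det (F : Type*) [Field F] [CharP F 2] (n ℓ : ℕ) (h2 : 2 * ℓ ≤ n) :
    (AA F n ℓ).det = 1 := by
  have h := congr_arg Matrix.det (AA_sq F n ℓ h2)
  rw [det_mul, det_one] at h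
  have h2F : (2 : F) = 0 := by
    have := CharP.cast_eq_zero F 2
    exact_mod_cast this
  have h3 : ((AA F n ℓ).det - 1) * ((AA F n ℓ).det - 1) = 0 := by
    linear_combination h - (AA F n ℓ).det * h2F + h2F
  have := mul_self_eq_zero.1 h3
  linear_combination this

theorem rank_AA (F : Type*) [Field F] (n ℓ : ℕ) (h2 : 2 * ℓ ≤ n) :
    (AA F n ℓ - 1).rank = ℓ := by
  classical
  let emb : Fin ℓ → Fin n := fun j => ⟨j.val + (n - ℓ), by have := j.2; omega⟩
  let low : Fin ℓ → Fin n := fun j => ⟨j.val, by have := j.2; omega⟩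
  let fam : Fin ℓ → (Fin n → F) := fun j => Pi.single (emb j) 1 - Pi.single (low j) 1
  have hli : LinearIndependent F fam := by
    apply LinearIndependent.of_comp (LinearMap.funLeft F F emb)
    have := (Pi.basisFun F (Fin ℓ)).linearIndependent
    convert this using 1
    funext k
    funext j
    simp only [Function.comp, LinearMap.funLeft_apply, fam, Pi.sub_apply, Pi.single_apply,
      Pi.basisFun_apply, emb, low, Fin.ext_iff]
    have := j.2
    have := k.2
    rw [if_neg (show ¬ (j.val + (n - ℓ) = k.val) by omega), sub_zero]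
    congr 1
    apply propext
    omega
  have hcolgen : ∀ j : Fin n, (AA F n ℓ - 1).col j =
      Pi.single (sw n ℓ h2 j) 1 - Pi.single j 1 := by
    intro j
    funext i
    change AA F n ℓ i j - (1 : Matrix (Fin n) (Fin n) F) i j = _
    rw [AA_apply F n ℓ h2, Matrix.one_apply, Pi.sub_apply, Pi.single_apply, Pi.single_apply]
    congr 2
    apply propext
    constructor
    · intro h; rw [h, sw_sw]
    · intro h; rw [h, sw_sw]
  have hspan : Submodule.span F (Set.range (AA F n ℓ - 1).col) =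
      Submodule.span F (Set.range fam) := by
    apply le_antisymm
    · rw [Submodule.span_le]
      rintro _ ⟨j, rfl⟩
      rw [hcolgen]
      by_cases hj : j.val < ℓ
      · have e1 : sw n ℓ h2 j = emb ⟨j.val, hj⟩ := by
          apply Fin.ext; rw [sw_val, if_pos hj]
        rw [e1]
        exact Submodule.subset_span ⟨⟨j.val, hj⟩, rfl⟩
      · by_cases hj' : n - ℓ ≤ j.val
        · have hlt : j.val - (n - ℓ) < ℓ := by have := j.2; omega
          have e1 : sw n ℓ h2 j = low ⟨j.val - (n - ℓ), hlt⟩ := by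
            apply Fin.ext; rw [sw_val, if_neg hj, if_pos hj']
          have e2 : j = emb ⟨j.val - (n - ℓ), hlt⟩ := by
            apply Fin.ext
            simp only [emb]
            omega
          have e3 : (Pi.single (sw n ℓ h2 j) 1 - Pi.single j 1 : Fin n → F) =
              - fam ⟨j.val - (n - ℓ), hlt⟩ := by
            rw [e1]
            simp only [fam, neg_sub]
            rw [← e2]
          rw [e3]
          exact Submodule.neg_mem _ (Submodule.subset_span ⟨_, rfl⟩)
        · have e1 : sw n ℓ h2 j = j := by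
            apply Fin.ext; rw [sw_val, if_neg hj, if_neg hj']
          rw [e1, sub_self]
          exact Submodule.zero_mem _
    · rw [Submodule.span_le]
      rintro _ ⟨j, rfl⟩
      have e1 : sw n ℓ h2 (low j) = emb j := by
        apply Fin.ext; rw [sw_val, if_pos j.2]
      have := hcolgen (low j)
      rw [e1] at this
      exact Submodule.subset_span ⟨_, this⟩
  rw [rank_eq_finrank_span_cols, hspan, finrank_span_eq_card hli, Fintype.card_fin]


/-- In SU_n(q), q even, n ≥ 3 (matrices of determinant 1 over the field with q² elements preserving Σ u_i v_i^q): for every ℓ with 1 ≤ ℓ and 2ℓ ≤ n, the permutation matrix of the involution of {0, …, n−1} exchanging i and n − ℓ + i for each i < ℓ lies in SU_n(q), has order 2, and differs from the identity by a matrix of rank ℓ. So every rank between 1 and n/2 occurs for involutions of SU_n(q). -/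
theorem result {F : Type*} [Field F] [Fintype F] [CharP F 2] {n q : ℕ} (hF : Fintype.card F = q ^ 2) (hn : 3 ≤ n) (ℓ : ℕ) (h1 : 1 ≤ ℓ) (h2 : 2 * ℓ ≤ n) :
    ∃ a : ↥(Cfsg.SU n F q), (((a : Matrix.SpecialLinearGroup (Fin n) F) : Matrix (Fin n) (Fin n) F) = Matrix.of (fun i j : Fin n => if (j.val < ℓ ∧ i.val = j.val + (n - ℓ)) ∨ (i.val < ℓ ∧ j.val = i.val + (n - ℓ)) ∨ (i = j ∧ ℓ ≤ i.val ∧ i.val < n - ℓ) then (1 : F) else 0)) ∧ orderOf a = 2 ∧ ((((a : Matrix.SpecialLinearGroup (Fin n) F) : Matrix (Fin n) (Fin n) F)) - 1).rank = ℓ := by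
  classical
  have hmem : (⟨AA F n ℓ, AA_det F n ℓ h2⟩ : Matrix.SpecialLinearGroup (Fin n) F) ∈
      Cfsg.SU n F q := by
    intro u v
    change Cfsg.hermForm n F q (AA F n ℓ *ᵥ u) (AA F n ℓ *ᵥ v) = _
    rw [AA_mulVec F n ℓ h2, AA_mulVec F n ℓ h2]
    unfold Cfsg.hermForm
    exact Equiv.sum_comp (Function.Involutive.toPerm (sw n ℓ h2) (sw_sw n ℓ h2))
      (fun i => u i * v i ^ q)
  refine ⟨⟨⟨AA F n ℓ, AA_det F n ℓ h2⟩, hmem⟩, rfl, ?_, rank_AA F n ℓ h2⟩
  apply orderOf_eq_prime
  · apply Subtype.ext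
    apply Subtype.ext
    change (AA F n ℓ) ^ 2 = 1
    rw [sq, AA_sq F n ℓ h2]
  · intro h
    have h3 := congr_arg (fun z : ↥(Cfsg.SU n F q) => z.1.1) h
    change AA F n ℓ = 1 at h3
    have h4 := congr_fun₂ h3 ⟨n - ℓ, by omega⟩ ⟨0, by omega⟩
    rw [AA_apply F n ℓ h2, Matrix.one_apply, if_pos, if_neg] at h4
    · exact one_ne_zero h4
    · intro h5
      have := congr_arg Fin.val h5
      simp only at this
      omega
    · apply Fin.ext
      rw [sw_val]
      simp only
      rw [if_neg (by omega), if_pos (le_refl _)]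
      omega
end Cfsg.Agent.S2165
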