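import Cfsg.Statements.S2268
import Mathlib
import Cfsg.Agent.Lib.Helper1.HallRel
import Cfsg.Agent.Lib.Helper1.Frat
import Cfsg.Agent.Lib.Helper1.Transfer1
import Cfsg.Agent.Lib.Helper1.Frobenius
import Cfsg.Agent.Lib.Helper1.Coprime

set_option autoImplicit false
open Cfsg

namespace Cfsg.Agent.S2268

open Cfsg
open Cfsg.Agent.Lib.Helper1
open scoped Pointwise

/-- Let G be a finite group with an abelian Sylow p-subgroup P and let Q ≤ P. Then N_G(Q) = (N_G(Q) ∩ N_G(P))·C_G(Q), so that N_G(Q)/C_G(Q) is a homomorphic image of the subgroup (N_G(Q) ∩ N_G(P))/C_G(P) of N_G(P)/C_G(P); in particular the order of N_G(Q)/C_G(Q) divides the order of N_G(P)/C_G(P). -/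
theorem result {G : Type*} [Group G] [Finite G] {p : ℕ} [Fact p.Prime]
    (P : Sylow p G) (hP : IsMulCommutative (P : Subgroup G)) (Q : Subgroup G) (hQ : Q ≤ (P : Subgroup G)) :
    Subgroup.normalizer (Q : Set G) =
      (Subgroup.normalizer (Q : Set G) ⊓ Subgroup.normalizer ((P : Subgroup G) : Set G)) ⊔ Subgroup.centralizer (Q : Set G) ∧
    ((Subgroup.centralizer (Q : Set G)).subgroupOf (Subgroup.normalizer (Q : Set G))).index ∣ ((Subgroup.centralizer ((P : Subgroup G) : Set G)).subgroupOf (Subgroup.normalizer ((P : Subgroup G) : Set G))).index := by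
  have hPC : (P : Subgroup G) ≤ Subgroup.centralizer (Q : Set G) := by
    intro y hy
    rw [Subgroup.mem_centralizer_iff]
    intro q hq
    exact congrArg Subtype.val (hP.is_comm.comm ⟨q, hQ hq⟩ ⟨y, hy⟩)
  have hCN : Subgroup.centralizer (Q : Set G) ≤ Subgroup.normalizer (Q : Set G) := Subgroup.centralizer_le_normalizer _
  have hNC : Subgroup.normalizer (Q : Set G) ≤ Subgroup.normalizer ((Subgroup.centralizer (Q : Set G) : Subgroup G) : Set G) := by
    intro n hn
    rw [Subgroup.mem_normalizer_iff_map_conj_eq] at hn ⊢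
    have h1 := conj_smul_centralizer n Q
    have hn' : MulAut.conj n • Q = Q := hn
    rw [hn'] at h1
    exact h1
  have ha : Subgroup.normalizer (Q : Set G) =
      (Subgroup.normalizer (Q : Set G) ⊓ Subgroup.normalizer ((P : Subgroup G) : Set G)) ⊔ Subgroup.centralizer (Q : Set G) := by
    apply le_antisymm
    · intro n hn
      have h1 : MulAut.conj n • (P : Subgroup G) ≤ Subgroup.centralizer (Q : Set G) := by
        have h2 := conj_smul_mono n hPC
        have h3 : MulAut.conj n • Subgroup.centralizer (Q : Set G) = Subgroup.centralizer (Q : Set G) :=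
          Subgroup.mem_normalizer_iff_map_conj_eq.mp (hNC hn)
        rwa [h3] at h2
      have hSc := sylow_card_of_le hPC le_top (sylow_card_top P)
      obtain ⟨c, hc, hc2⟩ := sylow_dominance_in _ (P : Subgroup G) (MulAut.conj n • (P : Subgroup G)) hPC h1 hSc
        (P.2.map (MulAut.conj n).toMonoidHom)
      have h6 : MulAut.conj n • (P : Subgroup G) = MulAut.conj c • (P : Subgroup G) :=
        Subgroup.eq_of_le_of_card_ge hc2 (by rw [card_conj_smul, card_conj_smul])
      have h7 : c⁻¹ * n ∈ Subgroup.normalizer ((P : Subgroup G) : Set G) := by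
        rw [Subgroup.mem_normalizer_iff_map_conj_eq]
        show MulAut.conj (c⁻¹ * n) • (P : Subgroup G) = _
        rw [← conj_smul_smul, h6, conj_smul_smul]; simp
      have e : n = c * (c⁻¹ * n) := by group
      rw [e, sup_comm]
      exact Subgroup.mul_mem_sup hc (Subgroup.mem_inf.mpr ⟨Subgroup.mul_mem _ (Subgroup.inv_mem _ (hCN hc)) hn, h7⟩)
    · exact sup_le inf_le_left hCN
  refine ⟨ha, ?_⟩
  change (Subgroup.centralizer (Q : Set G)).relIndex (Subgroup.normalizer (Q : Set G)) ∣
    (Subgroup.centralizer ((P : Subgroup G) : Set G)).relIndex (Subgroup.normalizer ((P : Subgroup G) : Set G))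
  obtain ⟨D, hD⟩ : ∃ D, D = Subgroup.normalizer (Q : Set G) ⊓ Subgroup.normalizer ((P : Subgroup G) : Set G) := ⟨_, rfl⟩
  rw [← hD] at ha
  have hDN : D ≤ Subgroup.normalizer ((Subgroup.centralizer (Q : Set G) : Subgroup G) : Set G) := by
    rw [hD]; exact inf_le_left.trans hNC
  have e1 := card_sup_mul_card_inf' D (Subgroup.centralizer (Q : Set G)) hDN
  rw [← ha, ← card_mul_relIndex_of_le hCN,
    ← card_mul_relIndex_of_le (inf_le_left : D ⊓ Subgroup.centralizer (Q : Set G) ≤ D)] at e1
  have e2 : (Subgroup.centralizer (Q : Set G)).relIndex (Subgroup.normalizer (Q : Set G)) =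
      (D ⊓ Subgroup.centralizer (Q : Set G)).relIndex D := by
    have hpos1 : 0 < Nat.card (Subgroup.centralizer (Q : Set G)) := Nat.card_pos
    have hpos2 : 0 < Nat.card (D ⊓ Subgroup.centralizer (Q : Set G) : Subgroup G) := Nat.card_pos
    have e3 : (Nat.card (Subgroup.centralizer (Q : Set G)) * Nat.card (D ⊓ Subgroup.centralizer (Q : Set G) : Subgroup G)) *
        (Subgroup.centralizer (Q : Set G)).relIndex (Subgroup.normalizer (Q : Set G)) =
        (Nat.card (Subgroup.centralizer (Q : Set G)) * Nat.card (D ⊓ Subgroup.centralizer (Q : Set G) : Subgroup G)) *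
        (D ⊓ Subgroup.centralizer (Q : Set G)).relIndex D := by
      linarith [e1]
    exact Nat.eq_of_mul_eq_mul_left (Nat.mul_pos hpos1 hpos2) e3
  rw [e2]
  have hCPQ : Subgroup.centralizer ((P : Subgroup G) : Set G) ≤ Subgroup.centralizer (Q : Set G) :=
    Subgroup.centralizer_le hQ
  have hCPD : Subgroup.centralizer ((P : Subgroup G) : Set G) ≤ D := by
    rw [hD]
    exact le_inf (hCPQ.trans hCN) (Subgroup.centralizer_le_normalizer _)
  have h1 : (D ⊓ Subgroup.centralizer (Q : Set G)).relIndex D ∣ (Subgroup.centralizer ((P : Subgroup G) : Set G)).relIndex D :=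
    Subgroup.relIndex_dvd_of_le_left D (le_inf hCPD hCPQ)
  have h2 := Subgroup.relIndex_mul_relIndex (Subgroup.centralizer ((P : Subgroup G) : Set G)) D
    (Subgroup.normalizer ((P : Subgroup G) : Set G)) hCPD (by rw [hD]; exact inf_le_right)
  exact h1.trans (Dvd.intro _ h2)

end Cfsg.Agent.S2268
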