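import Cfsg.Statements.S2270
import Mathlib

set_option autoImplicit false
open Cfsg

namespace Cfsg.Agent.S2270

/-- Let n ≥ 3, p an odd prime, and P an abelian Sylow p-subgroup of the symmetric group S_n (with p dividing n!, so that P ≠ 1). Then N(P)/C(P) has even order. -/
theorem result (n : ℕ) (hn : 3 ≤ n) {p : ℕ} [Fact p.Prime] (hp : p ≠ 2) (hpn : p ≤ n)
    (P : Sylow p (Equiv.Perm (Fin n))) (hP : IsMulCommutative (P : Subgroup (Equiv.Perm (Fin n)))) :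
    2 ∣ ((Subgroup.centralizer ((P : Subgroup (Equiv.Perm (Fin n))) : Set (Equiv.Perm (Fin n)))).subgroupOf (Subgroup.normalizer ((P : Subgroup (Equiv.Perm (Fin n))) : Set (Equiv.Perm (Fin n))))).index := by
  classical
  have hpp : p.Prime := Fact.out
  have hdvd : p ∣ Nat.card (P : Subgroup (Equiv.Perm (Fin n))) := by
    apply P.dvd_card_of_dvd_card
    rw [Nat.card_perm, Nat.card_eq_fintype_card, Fintype.card_fin]
    exact hpp.dvd_factorial.mpr hpn
  obtain ⟨g0, hg0⟩ := exists_prime_orderOf_dvd_card' p hdvd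
  have hconj : IsConj (g0 : Equiv.Perm (Fin n)) (g0 : Equiv.Perm (Fin n))⁻¹ :=
    Equiv.Perm.isConj_iff_cycleType_eq.mpr (Equiv.Perm.cycleType_inv _).symm
  obtain ⟨c, hc⟩ := isConj_iff.mp hconj
  have hc' : (c⁻¹)⁻¹ * (g0 : Equiv.Perm (Fin n)) * c⁻¹ = (g0 : Equiv.Perm (Fin n))⁻¹ := by
    rw [inv_inv]; exact hc
  obtain ⟨t, ht, hteq⟩ := P.conj_eq_normalizer_conj_of_mem (g0 : Equiv.Perm (Fin n)) c⁻¹ g0.2
    (by rw [hc']; exact inv_mem g0.2)
  rw [hc'] at hteq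
  have ht' : t⁻¹ ∈ Subgroup.normalizer ((P : Subgroup (Equiv.Perm (Fin n))) : Set (Equiv.Perm (Fin n))) :=
    inv_mem ht
  rw [← Subgroup.normalizerMonoidHom_ker, Subgroup.index_ker]
  obtain ⟨τ, hτdef⟩ : ∃ τ, τ = (P : Subgroup (Equiv.Perm (Fin n))).normalizerMonoidHom ⟨t⁻¹, ht'⟩ :=
    ⟨_, rfl⟩
  have hτg : τ g0 = g0⁻¹ := by
    rw [hτdef]
    apply Subtype.ext
    show t⁻¹ * (g0 : Equiv.Perm (Fin n)) * (t⁻¹)⁻¹ = (g0 : Equiv.Perm (Fin n))⁻¹
    rw [inv_inv]; exact hteq.symm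
  have hodd : ∀ j : ℕ, (τ ^ (2 * j + 1)) g0 = g0⁻¹ := by
    intro j
    induction j with
    | zero => simpa using hτg
    | succ j ih =>
      have h1 : 2 * (j + 1) + 1 = (2 * j + 1) + 1 + 1 := by ring
      rw [h1, pow_succ, pow_succ, MulAut.mul_apply, MulAut.mul_apply, hτg, map_inv, hτg, inv_inv, ih]
  have h2 : 2 ∣ orderOf τ := by
    by_contra hcon
    have h3 : Odd (orderOf τ) := Nat.not_even_iff_odd.mp (fun h => hcon h.two_dvd)
    obtain ⟨j, hj⟩ := h3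
    have h4 := hodd j
    rw [← hj, pow_orderOf_eq_one, MulAut.one_apply] at h4
    have h5 : g0 ^ 2 = 1 := by
      rw [pow_two]
      nth_rewrite 1 [h4]
      exact inv_mul_cancel g0
    have h6 := orderOf_dvd_of_pow_eq_one h5
    rw [hg0] at h6
    exact hp ((Nat.prime_dvd_prime_iff_eq hpp Nat.prime_two).mp h6)
  have hmem : τ ∈ (P : Subgroup (Equiv.Perm (Fin n))).normalizerMonoidHom.range := ⟨_, hτdef.symm⟩
  have h7 : orderOf τ ∣ Nat.card (P : Subgroup (Equiv.Perm (Fin n))).normalizerMonoidHom.range := by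
    have h8 := orderOf_dvd_natCard (⟨τ, hmem⟩ : (P : Subgroup (Equiv.Perm (Fin n))).normalizerMonoidHom.range)
    rwa [Subgroup.orderOf_mk] at h8
  exact h2.trans h7

end Cfsg.Agent.S2270
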