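import Cfsg.Statements.S2450
import Mathlib

set_option autoImplicit false
open Cfsg

namespace Cfsg.Agent.S2450


theorem conj_val {F : Type*} [Field F] (P A : Matrix.SpecialLinearGroup (Fin 2) F) :
    (P * A * P⁻¹).1 = P.1 * A.1 * Matrix.adjugate P.1 := by
  rw [← Matrix.SpecialLinearGroup.coe_inv]; rfl

theorem conj_entry {F : Type*} [Field F] (P A : Matrix.SpecialLinearGroup (Fin 2) F) :
    (P * A * P⁻¹).1 1 0 = P.1 1 0 * P.1 1 1 * (A.1 0 0 - A.1 1 1) + P.1 1 1 ^ 2 * A.1 1 0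
      - P.1 1 0 ^ 2 * A.1 0 1 := by
  rw [conj_val]
  simp [Matrix.adjugate_fin_two, Matrix.mul_apply, Fin.sum_univ_two]
  ring

theorem exists_conj_entry {F : Type*} [Field F] (A : Matrix.SpecialLinearGroup (Fin 2) F)
    (hA : ∀ c : F, A.1 ≠ c • (1 : Matrix (Fin 2) (Fin 2) F)) :
    ∃ P : Matrix.SpecialLinearGroup (Fin 2) F, (P * A * P⁻¹).1 1 0 ≠ 0 := by
  by_cases h10 : A.1 1 0 = 0
  · by_cases h01 : A.1 0 1 = 0
    · let P : Matrix.SpecialLinearGroup (Fin 2) F := ⟨!![1, 0; 1, 1], by simp [Matrix.det_fin_two_of]⟩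
      refine ⟨P, ?_⟩
      intro h
      rw [conj_entry] at h
      have e1 : P.1 1 0 = 1 := rfl
      have e2 : P.1 1 1 = 1 := rfl
      rw [e1, e2] at h
      simp [h10, h01] at h
      apply hA (A.1 0 0)
      ext i j
      fin_cases i <;> fin_cases j <;> simp [h10, h01]
      linear_combination -h
    · let P : Matrix.SpecialLinearGroup (Fin 2) F := ⟨!![0, 1; -1, 0], by simp [Matrix.det_fin_two_of]⟩
      refine ⟨P, ?_⟩
      intro h
      rw [conj_entry] at h
      have e1 : P.1 1 0 = -1 := rfl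
      have e2 : P.1 1 1 = 0 := rfl
      rw [e1, e2] at h
      simp [h10] at h
      exact h01 h
  · exact ⟨1, by simpa using h10⟩

theorem trace_of_isConj_mk {F : Type*} [Field F] (g₁ g₂ : Matrix.SpecialLinearGroup (Fin 2) F)
    (h : IsConj (QuotientGroup.mk g₁ : Matrix.ProjectiveSpecialLinearGroup (Fin 2) F) (QuotientGroup.mk g₂)) :
    g₂.1.trace = g₁.1.trace ∨ g₂.1.trace = - g₁.1.trace := by
  obtain ⟨c, hc⟩ := isConj_iff.1 h
  obtain ⟨c, rfl⟩ := QuotientGroup.mk_surjective c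
  have h1 : (QuotientGroup.mk (c * g₁ * c⁻¹) : Matrix.ProjectiveSpecialLinearGroup (Fin 2) F)
      = QuotientGroup.mk g₂ := hc
  rw [QuotientGroup.eq, Matrix.SpecialLinearGroup.mem_center_iff] at h1
  obtain ⟨r, hr, hr2⟩ := h1
  have h2 : g₂.1 = (c * g₁ * c⁻¹).1 * (Matrix.scalar (Fin 2) r) := by
    rw [hr2]
    change g₂.1 = ((c * g₁ * c⁻¹) * ((c * g₁ * c⁻¹)⁻¹ * g₂)).1
    rw [mul_inv_cancel_left]
  have h3 : (c * g₁ * c⁻¹).1.trace = g₁.1.trace := by
    have : (c * g₁ * c⁻¹).1 = c.1 * g₁.1 * (c⁻¹).1 := rfl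
    rw [this, Matrix.trace_mul_comm, ← mul_assoc]
    have h2 : (c⁻¹).1 * c.1 = 1 := congrArg Subtype.val (inv_mul_cancel c)
    rw [h2, one_mul]
  have h4 : g₂.1.trace = r * g₁.1.trace := by
    rw [h2, ← h3]
    have : (c * g₁ * c⁻¹).1 * (Matrix.scalar (Fin 2) r) = r • (c * g₁ * c⁻¹).1 := by
      ext i j
      simp [Matrix.scalar_apply, Matrix.mul_diagonal, mul_comm]
    rw [this, Matrix.trace_smul, smul_eq_mul]
  have h5 : (r - 1) * (r + 1) = 0 := by
    simp only [Fintype.card_fin] at hr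
    linear_combination hr
  rcases mul_eq_zero.1 h5 with h | h
  · left; rw [h4, sub_eq_zero.1 h, one_mul]
  · right; rw [h4, eq_neg_of_add_eq_zero_left h]; ring

def V {F : Type*} [Field F] (x : F) : Matrix.SpecialLinearGroup (Fin 2) F :=
  ⟨!![1, x; 0, 1], by simp [Matrix.det_fin_two_of]⟩

theorem trace_formula {F : Type*} [Field F] (A B : Matrix.SpecialLinearGroup (Fin 2) F) (x : F) :
    (A * (V x * B * (V x)⁻¹)).1.trace = (A * B).1.trace
      + x * ((A.1 0 0 - A.1 1 1) * B.1 1 0 + A.1 1 0 * (B.1 1 1 - B.1 0 0))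
      - x ^ 2 * (A.1 1 0 * B.1 1 0) := by
  have h1 : (A * (V x * B * (V x)⁻¹)).1 = A.1 * (V x * B * (V x)⁻¹).1 := rfl
  have h2 : (A * B).1 = A.1 * B.1 := rfl
  have h3 : (V x).1 = !![1, x; 0, 1] := rfl
  rw [h1, h2, conj_val, h3, Matrix.adjugate_fin_two_of]
  have hB : B.1 = !![B.1 0 0, B.1 0 1; B.1 1 0, B.1 1 1] := Matrix.eta_fin_two _
  have hA : A.1 = !![A.1 0 0, A.1 0 1; A.1 1 0, A.1 1 1] := Matrix.eta_fin_two _
  generalize B.1 0 0 = b00 at *
  generalize B.1 0 1 = b01 at *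
  generalize B.1 1 0 = b10 at *
  generalize B.1 1 1 = b11 at *
  generalize A.1 0 0 = a00 at *
  generalize A.1 0 1 = a01 at *
  generalize A.1 1 0 = a10 at *
  generalize A.1 1 1 = a11 at *
  rw [hA, hB]
  simp only [Matrix.mul_fin_two, Matrix.trace_fin_two_of]
  ring

theorem exists_x {F : Type*} [Field F] [Fintype F] (h4 : 4 ≤ Fintype.card F) (τ β γ : F) (hγ : γ ≠ 0) :
    ∃ x : F, τ + x * β - x ^ 2 * γ ≠ τ ∧ τ + x * β - x ^ 2 * γ ≠ -τ := by
  classical
  have hγ' : -γ ≠ 0 := neg_ne_zero.2 hγ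
  let P₁ : Polynomial F := Polynomial.C (-γ) * Polynomial.X ^ 2 + Polynomial.C β * Polynomial.X + Polynomial.C 0
  let P₂ : Polynomial F := Polynomial.C (-γ) * Polynomial.X ^ 2 + Polynomial.C β * Polynomial.X
    + Polynomial.C (2 * τ)
  have hd1 : P₁.natDegree = 2 := Polynomial.natDegree_quadratic hγ'
  have hd2 : P₂.natDegree = 2 := Polynomial.natDegree_quadratic hγ'
  have h10 : P₁ ≠ 0 := by
    intro h; rw [h] at hd1; simp at hd1
  have h20 : P₂ ≠ 0 := by
    intro h; rw [h] at hd2; simp at hd2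
  by_cases h2 : (2 : F) = 0
  · obtain ⟨x, hx⟩ := Polynomial.exists_eval_ne_zero_of_natDegree_lt_card P₁ h10 (by
      rw [hd1, Cardinal.mk_fintype]; exact_mod_cast (by omega : 2 < Fintype.card F))
    simp only [P₁, Polynomial.eval_add, Polynomial.eval_mul, Polynomial.eval_C, Polynomial.eval_pow,
      Polynomial.eval_X] at hx
    refine ⟨x, ?_, ?_⟩
    · intro h; apply hx; linear_combination h
    · intro h; apply hx; linear_combination h - τ * h2
  · have hodd : Fintype.card F % 2 = 1 := by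
      apply FiniteField.odd_card_of_char_ne_two
      intro h
      apply h2
      have : CharP F 2 := by rw [← h]; exact ringChar.charP F
      exact CharTwo.two_eq_zero
    obtain ⟨x, hx⟩ := Polynomial.exists_eval_ne_zero_of_natDegree_lt_card (P₁ * P₂) (mul_ne_zero h10 h20) (by
      rw [Polynomial.natDegree_mul h10 h20, hd1, hd2, Cardinal.mk_fintype]
      exact_mod_cast (by omega : 2 + 2 < Fintype.card F))
    simp only [P₁, P₂, Polynomial.eval_add, Polynomial.eval_mul, Polynomial.eval_C, Polynomial.eval_pow,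
      Polynomial.eval_X] at hx
    refine ⟨x, ?_, ?_⟩
    · intro h; apply hx
      have : -γ * x ^ 2 + β * x + 0 = 0 := by linear_combination h
      rw [this, zero_mul]
    · intro h; apply hx
      have : -γ * x ^ 2 + β * x + 2 * τ = 0 := by linear_combination h
      rw [this, mul_zero]

theorem nonscalar_of_mk_ne_one {F : Type*} [Field F] (G : Matrix.SpecialLinearGroup (Fin 2) F)
    (hg : (QuotientGroup.mk G : Matrix.ProjectiveSpecialLinearGroup (Fin 2) F) ≠ 1) :
    ∀ c : F, G.1 ≠ c • (1 : Matrix (Fin 2) (Fin 2) F) := by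
  intro c hc
  apply hg
  rw [QuotientGroup.eq_one_iff, Matrix.SpecialLinearGroup.mem_center_iff]
  refine ⟨c, ?_, ?_⟩
  · have hdet := G.2
    rw [hc, Matrix.det_smul, Matrix.det_one, mul_one] at hdet
    exact hdet
  · rw [hc]
    ext i j
    fin_cases i <;> fin_cases j <;> simp


/-- The Arad–Herzog conjecture for PSL(2,q): let F be a finite field with q ≥ 4 elements. For any two non-identity elements a, b of PSL(2,F), the set of products of a conjugate of a with a conjugate of b is not a single conjugacy class. -/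
theorem result {F : Type*} [Field F] [Fintype F] (h4 : 4 ≤ Fintype.card F)
    (a b : Matrix.ProjectiveSpecialLinearGroup (Fin 2) F) (ha : a ≠ 1) (hb : b ≠ 1) (c : Matrix.ProjectiveSpecialLinearGroup (Fin 2) F) :
    {g : Matrix.ProjectiveSpecialLinearGroup (Fin 2) F | ∃ u v : Matrix.ProjectiveSpecialLinearGroup (Fin 2) F, g = (u * a * u⁻¹) * (v * b * v⁻¹)} ≠ {g | IsConj c g} := by
  classical
  intro hset
  obtain ⟨A, rfl⟩ := QuotientGroup.mk_surjective a
  obtain ⟨B, rfl⟩ := QuotientGroup.mk_surjective b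
  obtain ⟨P, hP⟩ := exists_conj_entry A (nonscalar_of_mk_ne_one A ha)
  obtain ⟨Q, hQ⟩ := exists_conj_entry B (nonscalar_of_mk_ne_one B hb)
  set A' := P * A * P⁻¹ with hA'
  set B' := Q * B * Q⁻¹ with hB'
  have hmem : ∀ x : F, IsConj c (QuotientGroup.mk (A' * (V x * B' * (V x)⁻¹))) := by
    intro x
    have : (QuotientGroup.mk (A' * (V x * B' * (V x)⁻¹)) : Matrix.ProjectiveSpecialLinearGroup (Fin 2) F) ∈
        {g : Matrix.ProjectiveSpecialLinearGroup (Fin 2) F | ∃ u v : Matrix.ProjectiveSpecialLinearGroup (Fin 2) F, g = (u * QuotientGroup.mk A * u⁻¹) * (v * QuotientGroup.mk B * v⁻¹)} := by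
      refine ⟨QuotientGroup.mk P, QuotientGroup.mk (V x * Q), ?_⟩
      rw [hA', hB']
      simp only [QuotientGroup.mk_mul, QuotientGroup.mk_inv]
      group
    rw [hset] at this
    exact this
  obtain ⟨x, hx1, hx2⟩ := exists_x h4 (A' * B').1.trace
    ((A'.1 0 0 - A'.1 1 1) * B'.1 1 0 + A'.1 1 0 * (B'.1 1 1 - B'.1 0 0)) (A'.1 1 0 * B'.1 1 0)
    (mul_ne_zero hP hQ)
  have h0 := trace_formula A' B' 0
  have hxx := trace_formula A' B' x
  have hc := trace_of_isConj_mk _ _ ((hmem 0).symm.trans (hmem x))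
  rw [h0, hxx] at hc
  rcases hc with h | h
  · apply hx1; rw [h]; ring
  · apply hx2; rw [h]; ring
end Cfsg.Agent.S2450
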