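import Cfsg.Statements.S2455
import Cfsg.Agent.Lib.Helper4.SL2Prod
open Cfsg.Agent.Lib.Helper4.SL2Prod Cfsg.Agent.Lib.Helper4.PSL2Spec Cfsg.Agent.Lib.Helper4.SL2Conj Cfsg.Agent.Lib.Helper4.SL2Eigen Cfsg.Agent.Lib.Helper4.GL2Conj

set_option autoImplicit false
open Cfsg

namespace Cfsg.Agent.S2455


theorem pow_char_of_trace_two {F : Type*} [Field F] (p : ℕ) [Fact p.Prime] [CharP F p]
    (g : Matrix.SpecialLinearGroup (Fin 2) F) (htr : g.1.trace = 2) : g ^ p = 1 := by
  have hp : p.Prime := Fact.out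
  have h1 : (g.1 - 1) ^ p = 0 := pow_eq_zero_of_le hp.two_le (sub_one_sq g htr)
  rw [sub_pow_char_of_commute _ (Commute.one_right _), one_pow, sub_eq_zero] at h1
  exact Subtype.ext h1

theorem mk_negOne_mul {F : Type*} [Field F] (g : Matrix.SpecialLinearGroup (Fin 2) F) :
    (QuotientGroup.mk (negOne F * g) : Matrix.ProjectiveSpecialLinearGroup (Fin 2) F) = QuotientGroup.mk g := by
  rw [QuotientGroup.mk_mul, (QuotientGroup.eq_one_iff _).2 negOne_mem_center, one_mul]

theorem trace_negOne_mul {F : Type*} [Field F] (g : Matrix.SpecialLinearGroup (Fin 2) F) :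
    (negOne F * g).1.trace = - g.1.trace := by
  change ((-1 : Matrix (Fin 2) (Fin 2) F) * g.1).trace = _
  rw [neg_mul, one_mul, Matrix.trace_neg]

theorem exists_GL_conj {F : Type*} [Field F] (M N : Matrix.SpecialLinearGroup (Fin 2) F)
    (hM : ∀ c : F, M.1 ≠ c • (1 : Matrix (Fin 2) (Fin 2) F))
    (hN : ∀ c : F, N.1 ≠ c • (1 : Matrix (Fin 2) (Fin 2) F)) (htr : M.1.trace = N.1.trace) :
    ∃ P Q : Matrix (Fin 2) (Fin 2) F, P * Q = 1 ∧ Q * P = 1 ∧ P * M.1 * Q = N.1 := by
  let gM : GL (Fin 2) F := Matrix.GeneralLinearGroup.mkOfDetNeZero M.1 (by rw [M.2]; exact one_ne_zero)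
  let gN : GL (Fin 2) F := Matrix.GeneralLinearGroup.mkOfDetNeZero N.1 (by rw [N.2]; exact one_ne_zero)
  have h1 := isConj_compGL gM hM
  have h2 := isConj_compGL gN hN
  have hd1 : Matrix.GeneralLinearGroup.det gM = 1 := Units.ext M.2
  have hd2 : Matrix.GeneralLinearGroup.det gN = 1 := Units.ext N.2
  rw [hd1] at h1; rw [hd2] at h2
  have e : gM.1.trace = gN.1.trace := htr
  rw [e] at h1
  obtain ⟨P, hP⟩ := isConj_iff.1 (h1.trans h2.symm)
  refine ⟨P.1, P⁻¹.1, ?_, ?_, ?_⟩
  · exact congrArg Units.val (mul_inv_cancel P)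
  · exact congrArg Units.val (inv_mul_cancel P)
  · exact congrArg Units.val hP

theorem core {F : Type*} [Field F] [Fintype F] (h2 : (2 : F) ≠ 0)
    (X G : Matrix.SpecialLinearGroup (Fin 2) F) (hs0 : X.1.trace ≠ 0) (hs4 : X.1.trace ^ 2 ≠ 4)
    (hc2 : G.1.trace ≠ 2) (hG : ∀ c : F, G.1 ≠ c • (1 : Matrix (Fin 2) (Fin 2) F)) :
    ∃ u v : Matrix.SpecialLinearGroup (Fin 2) F, G = (u * X * u⁻¹) * (v * X * v⁻¹) := by
  classical
  set s := X.1.trace with hs
  set c := G.1.trace with hc
  have hodd : Fintype.card F % 2 = 1 := by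
    apply FiniteField.odd_card_of_char_ne_two
    intro h
    apply h2
    have : CharP F 2 := by rw [← h]; exact ringChar.charP F
    exact CharTwo.two_eq_zero
  have hlead : s ^ 2 - 4 ≠ 0 := sub_ne_zero.2 hs4
  obtain ⟨w, r, hwr⟩ := FiniteField.exists_root_sum_quadratic
    (f := Polynomial.C (s ^ 2 - 4) * Polynomial.X ^ 2 + Polynomial.C (4 * s - 2 * c * s) * Polynomial.X
      + Polynomial.C (c ^ 2 - 4))
    (g := Polynomial.C (-1 : F) * Polynomial.X ^ 2 + Polynomial.C 0 * Polynomial.X + Polynomial.C 0)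
    (Polynomial.degree_quadratic hlead) (Polynomial.degree_quadratic (by simp)) hodd
  simp only [Polynomial.eval_add, Polynomial.eval_mul, Polynomial.eval_C, Polynomial.eval_pow,
    Polynomial.eval_X] at hwr
  let y : F := ((c - s * w) + r) / 2
  let z : F := (r - (c - s * w)) / 2
  have hy : 2 * y = (c - s * w) + r := mul_div_cancel₀ _ h2
  have hz : 2 * z = r - (c - s * w) := mul_div_cancel₀ _ h2
  have h4 : (4 : F) ≠ 0 := by
    have : (4 : F) = 2 * 2 := by norm_num
    rw [this]; exact mul_ne_zero h2 h2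
  have hdetB : (s - w) * w - y * z = 1 := by
    apply mul_left_cancel₀ h4
    have : 4 * (y * z) = (2 * y) * (2 * z) := by ring
    rw [mul_sub, this, hy, hz]
    linear_combination hwr
  let A : Matrix.SpecialLinearGroup (Fin 2) F := compSL s
  let B : Matrix.SpecialLinearGroup (Fin 2) F := ⟨!![s - w, y; z, w], by
    rw [Matrix.det_fin_two_of]; exact hdetB⟩
  have hAtr : A.1.trace = s := trace_comp s 1
  have hBtr : B.1.trace = s := by
    change (!![s - w, y; z, w] : Matrix (Fin 2) (Fin 2) F).trace = s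
    rw [Matrix.trace_fin_two_of]; ring
  have hABval : (A * B).1 = !![-z, -w; s - w + s * z, y + s * w] := by
    change (!![0, -1; 1, s] : Matrix (Fin 2) (Fin 2) F) * !![s - w, y; z, w] = _
    rw [Matrix.mul_fin_two]
    simp
  have hABtr : (A * B).1.trace = c := by
    rw [hABval, Matrix.trace_fin_two_of]
    apply mul_left_cancel₀ h2
    linear_combination hy - hz
  have hABns : ∀ e : F, (A * B).1 ≠ e • (1 : Matrix (Fin 2) (Fin 2) F) := by
    intro e he
    have e01 := congrFun (congrFun he 0) 1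
    have e10 := congrFun (congrFun he 1) 0
    have e00 := congrFun (congrFun he 0) 0
    have e11 := congrFun (congrFun he 1) 1
    rw [hABval] at e01 e10 e00 e11
    simp at e01 e10 e00 e11
    subst e01
    have hz1 : z = -1 := by
      have : s * (1 + z) = 0 := by linear_combination e10
      rcases mul_eq_zero.1 this with h | h
      · exact absurd h hs0
      · linear_combination h
    apply hc2
    rw [← hABtr, hABval, Matrix.trace_fin_two_of]
    linear_combination (-2 : F) * hz1 + e11 - e00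
  obtain ⟨P, Q, hPQ, hQP, hconj⟩ := exists_GL_conj (A * B) G hABns hG hABtr
  have hdetPQ : P.det * Q.det = 1 := by rw [← Matrix.det_mul, hPQ, Matrix.det_one]
  let A' : Matrix.SpecialLinearGroup (Fin 2) F := ⟨P * A.1 * Q, by
    rw [Matrix.det_mul, Matrix.det_mul, A.2, mul_one, hdetPQ]⟩
  let B' : Matrix.SpecialLinearGroup (Fin 2) F := ⟨P * B.1 * Q, by
    rw [Matrix.det_mul, Matrix.det_mul, B.2, mul_one, hdetPQ]⟩
  have hA'tr : A'.1.trace = s := by
    change (P * A.1 * Q).trace = s
    rw [Matrix.trace_mul_cycle, hQP, one_mul, hAtr]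
  have hB'tr : B'.1.trace = s := by
    change (P * B.1 * Q).trace = s
    rw [Matrix.trace_mul_cycle, hQP, one_mul, hBtr]
  have hprod : A' * B' = G := by
    apply Subtype.ext
    change (P * A.1 * Q) * (P * B.1 * Q) = G.1
    rw [← hconj]
    change _ = P * (A.1 * B.1) * Q
    calc (P * A.1 * Q) * (P * B.1 * Q) = P * A.1 * (Q * P) * B.1 * Q := by
          simp only [mul_assoc]
      _ = P * (A.1 * B.1) * Q := by rw [hQP, mul_one]; simp only [mul_assoc]
  have hXc : IsConj X (compSL s) := isConj_compSL_of_trace X hs4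
  have hAc : IsConj A' (compSL s) := by
    have := isConj_compSL_of_trace A' (by rw [hA'tr]; exact hs4)
    rwa [hA'tr] at this
  have hBc : IsConj B' (compSL s) := by
    have := isConj_compSL_of_trace B' (by rw [hB'tr]; exact hs4)
    rwa [hB'tr] at this
  exact prod_conj (hXc.trans hAc.symm) (hXc.trans hBc.symm) (by rw [hprod]; exact IsConj.refl G)


/-- A strong covering result in the direction of Thompson's conjecture (non-identity elements) for PSL(2,q), q odd: let F be a finite field of odd characteristic p with at least 5 elements and let x ∈ PSL(2,F) have order greater than 2 and not divisible by p (so x is not unipotent). Then every non-identity element of PSL(2,F) is a product of two conjugates of x. -/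
theorem result {F : Type*} [Field F] [Fintype F] (p : ℕ) [Fact p.Prime] [CharP F p] (hp : p ≠ 2) (h5 : 5 ≤ Fintype.card F)
    (x : Matrix.ProjectiveSpecialLinearGroup (Fin 2) F) (hx2 : 2 < orderOf x) (hxp : ¬ p ∣ orderOf x) : ∀ g : Matrix.ProjectiveSpecialLinearGroup (Fin 2) F, g ≠ 1 → ∃ u v : Matrix.ProjectiveSpecialLinearGroup (Fin 2) F, g = (u * x * u⁻¹) * (v * x * v⁻¹) := by
  classical
  have hpp : p.Prime := Fact.out
  have h2 : (2 : F) ≠ 0 := by
    intro h
    have h' : ((2 : ℕ) : F) = 0 := by exact_mod_cast h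
    rw [CharP.cast_eq_zero_iff F p] at h'
    exact hp ((Nat.prime_dvd_prime_iff_eq hpp Nat.prime_two).1 h')
  have h4 : (4 : F) ≠ 0 := by
    have : (4 : F) = 2 * 2 := by norm_num
    rw [this]; exact mul_ne_zero h2 h2
  intro g hg
  obtain ⟨X, rfl⟩ := QuotientGroup.mk_surjective x
  obtain ⟨G, rfl⟩ := QuotientGroup.mk_surjective g
  -- trace of X is not 2
  have key2 : ∀ Y : Matrix.SpecialLinearGroup (Fin 2) F,
      (QuotientGroup.mk Y : Matrix.ProjectiveSpecialLinearGroup (Fin 2) F) = QuotientGroup.mk X →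
      Y.1.trace ≠ 2 := by
    intro Y hY htr
    have h1 := pow_char_of_trace_two p Y htr
    have h3 : (QuotientGroup.mk X : Matrix.ProjectiveSpecialLinearGroup (Fin 2) F) ^ p = 1 := by
      rw [← hY, ← QuotientGroup.mk_pow, h1]; rfl
    have h5 := orderOf_dvd_of_pow_eq_one h3
    rcases (Nat.dvd_prime hpp).1 h5 with h | h
    · omega
    · exact hxp (by rw [h])
  have hs4 : X.1.trace ^ 2 ≠ 4 := by
    intro h
    have : (X.1.trace - 2) * (X.1.trace + 2) = 0 := by linear_combination h
    rcases mul_eq_zero.1 this with h | h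
    · exact key2 X rfl (by linear_combination h)
    · exact key2 (negOne F * X) (mk_negOne_mul X) (by rw [trace_negOne_mul]; linear_combination -h)
  have hs0 : X.1.trace ≠ 0 := by
    intro h0
    have hd := X.2
    rw [Matrix.det_fin_two] at hd
    rw [Matrix.trace_fin_two] at h0
    have h1 : X ^ 2 = negOne F := by
      apply Subtype.ext
      change X.1 ^ 2 = -1
      rw [sq]
      ext i j
      fin_cases i <;> fin_cases j <;> simp [Matrix.mul_apply, Fin.sum_univ_two]
      · linear_combination X.1 0 0 * h0 - hd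
      · linear_combination X.1 0 1 * h0
      · linear_combination X.1 1 0 * h0
      · linear_combination X.1 1 1 * h0 - hd
    have h3 : (QuotientGroup.mk X : Matrix.ProjectiveSpecialLinearGroup (Fin 2) F) ^ 2 = 1 := by
      rw [← QuotientGroup.mk_pow, h1]
      exact (QuotientGroup.eq_one_iff _).2 negOne_mem_center
    have := orderOf_le_of_pow_eq_one (by norm_num) h3
    omega
  have hns : ∀ G' : Matrix.SpecialLinearGroup (Fin 2) F,
      (QuotientGroup.mk G' : Matrix.ProjectiveSpecialLinearGroup (Fin 2) F) = QuotientGroup.mk G →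
      ∀ c : F, G'.1 ≠ c • (1 : Matrix (Fin 2) (Fin 2) F) := by
    intro G' hG' c hc
    apply hg
    rw [← hG', QuotientGroup.eq_one_iff, Matrix.SpecialLinearGroup.mem_center_iff]
    refine ⟨c, ?_, ?_⟩
    · have hdet := G'.2
      rw [hc, Matrix.det_smul, Matrix.det_one, mul_one] at hdet
      exact hdet
    · rw [hc]
      ext i j
      fin_cases i <;> fin_cases j <;> simp
  by_cases hc2 : G.1.trace = 2
  · obtain ⟨u, v, huv⟩ := core h2 X (negOne F * G) hs0 hs4 (by
      rw [trace_negOne_mul, hc2]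
      intro h
      apply h4
      linear_combination -h) (hns _ (mk_negOne_mul G))
    exact ⟨QuotientGroup.mk u, QuotientGroup.mk v, by rw [← mk_negOne_mul G, huv]; rfl⟩
  · obtain ⟨u, v, huv⟩ := core h2 X G hs0 hs4 hc2 (hns _ rfl)
    exact ⟨QuotientGroup.mk u, QuotientGroup.mk v, by rw [huv]; rfl⟩
end Cfsg.Agent.S2455
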