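import Cfsg.Statements.S2456
import Cfsg.Agent.Lib.Helper4.SL2Prod
open Cfsg.Agent.Lib.Helper4.SL2Prod Cfsg.Agent.Lib.Helper4.PSL2Spec Cfsg.Agent.Lib.Helper4.SL2Conj Cfsg.Agent.Lib.Helper4.SL2Eigen

set_option autoImplicit false
open Cfsg

namespace Cfsg.Agent.S2456



/-- A strong covering result in the direction of Thompson's conjecture (non-identity elements) for PSL(2,q), q even: let F be a finite field of characteristic 2 with q ≥ 4 elements and let x ∈ PSL(2,F) have order greater than 2 and not dividing q + 1. Then every non-identity element of PSL(2,F) is a product of two conjugates of x. -/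
theorem result {F : Type*} [Field F] [Fintype F] [CharP F 2] (h4 : 4 ≤ Fintype.card F)
    (x : Matrix.ProjectiveSpecialLinearGroup (Fin 2) F) (hx2 : 2 < orderOf x) (hxq : ¬ orderOf x ∣ Fintype.card F + 1) : ∀ g : Matrix.ProjectiveSpecialLinearGroup (Fin 2) F, g ≠ 1 → ∃ u v : Matrix.ProjectiveSpecialLinearGroup (Fin 2) F, g = (u * x * u⁻¹) * (v * x * v⁻¹) := by
  classical
  intro g hg
  obtain ⟨X, rfl⟩ := QuotientGroup.mk_surjective x
  obtain ⟨G, rfl⟩ := QuotientGroup.mk_surjective g
  have h2F : (2 : F) = 0 := CharTwo.two_eq_zero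
  have h4F : (4 : F) = 0 := by
    have : (4 : F) = 2 * 2 := by norm_num
    rw [this, h2F, zero_mul]
  have htr0 : X.1.trace ≠ 0 := by
    intro h0
    have h := sub_one_sq X (by rw [h0, h2F])
    rw [sub_pow_char_of_commute _ (Commute.one_right _), one_pow, sub_eq_zero] at h
    have h1 : X ^ 2 = 1 := Subtype.ext h
    have h3 : (QuotientGroup.mk X : Matrix.ProjectiveSpecialLinearGroup (Fin 2) F) ^ 2 = 1 := by
      rw [← QuotientGroup.mk_pow, h1]; rfl
    have := orderOf_le_of_pow_eq_one (by norm_num) h3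
    omega
  have hX : X ^ (Fintype.card F - 1) = 1 := by
    rcases trichotomy rfl X with h | h | h | h
    · exact h
    · exfalso
      apply hxq
      apply orderOf_dvd_of_pow_eq_one
      rw [← QuotientGroup.mk_pow, h]; rfl
    · exact absurd (by rw [h, h2F]) htr0
    · exact absurd (by rw [h, h2F, neg_zero]) htr0
  obtain ⟨a, ha0, hta⟩ := exists_eigen_of_pow X hX
  have hinv : a * a⁻¹ = 1 := mul_inv_cancel₀ ha0
  have ha : a - a⁻¹ ≠ 0 := by
    intro h
    apply htr0
    rw [hta]
    linear_combination (-1 : F) * h + a * h2F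
  have hgns : ∀ c : F, G.1 ≠ c • (1 : Matrix (Fin 2) (Fin 2) F) := by
    intro c hc
    apply hg
    rw [QuotientGroup.eq_one_iff, Matrix.SpecialLinearGroup.mem_center_iff]
    refine ⟨c, ?_, ?_⟩
    · have hdet := G.2
      rw [hc, Matrix.det_smul, Matrix.det_one, mul_one] at hdet
      exact hdet
    · rw [hc]
      ext i j
      fin_cases i <;> fin_cases j <;> simp
  set s := X.1.trace with hs
  set c := G.1.trace with hc
  let x₀ : F := (c - a⁻¹ * s) / (a - a⁻¹)
  have hx₀ : x₀ * (a - a⁻¹) = c - a⁻¹ * s := div_mul_cancel₀ _ ha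
  let A : Matrix.SpecialLinearGroup (Fin 2) F := ⟨!![a, 0; 0, a⁻¹], by
    rw [Matrix.det_fin_two_of]; linear_combination hinv⟩
  let B : Matrix.SpecialLinearGroup (Fin 2) F := ⟨!![x₀, 1; x₀ * (s - x₀) - 1, s - x₀], by
    rw [Matrix.det_fin_two_of]; ring⟩
  have hs4 : s ^ 2 ≠ 4 := by
    rw [h4F]; exact pow_ne_zero 2 htr0
  have hAtr : A.1.trace = s := by
    change (!![a, 0; 0, a⁻¹] : Matrix (Fin 2) (Fin 2) F).trace = s
    rw [Matrix.trace_fin_two_of, hta]
  have hBtr : B.1.trace = s := by
    change (!![x₀, 1; x₀ * (s - x₀) - 1, s - x₀] : Matrix (Fin 2) (Fin 2) F).trace = s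
    rw [Matrix.trace_fin_two_of]; ring
  have hXc : IsConj X (compSL s) := isConj_compSL_of_trace X hs4
  have hAc : IsConj A (compSL s) := by
    have := isConj_compSL_of_trace A (by rw [hAtr]; exact hs4)
    rwa [hAtr] at this
  have hBc : IsConj B (compSL s) := by
    have := isConj_compSL_of_trace B (by rw [hBtr]; exact hs4)
    rwa [hBtr] at this
  have hABval : (A * B).1 = !![a * x₀, a; a⁻¹ * (x₀ * (s - x₀) - 1), a⁻¹ * (s - x₀)] := by
    change (!![a, 0; 0, a⁻¹] : Matrix (Fin 2) (Fin 2) F) * !![x₀, 1; x₀ * (s - x₀) - 1, s - x₀] = _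
    rw [Matrix.mul_fin_two]
    simp
  have hABtr : (A * B).1.trace = c := by
    rw [hABval, Matrix.trace_fin_two_of]
    linear_combination hx₀
  have hABns : ∀ e : F, (A * B).1 ≠ e • (1 : Matrix (Fin 2) (Fin 2) F) := by
    intro e he
    have := congrFun (congrFun he 0) 1
    rw [hABval] at this
    simp at this
    exact ha0 this
  have hABc : IsConj (A * B) (compSL c) := by
    have := isConj_compSL (A * B) hABns
    rwa [hABtr] at this
  have hGc : IsConj G (compSL c) := isConj_compSL G hgns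
  obtain ⟨u, v, huv⟩ := prod_conj (hXc.trans hAc.symm) (hXc.trans hBc.symm) (hABc.trans hGc.symm)
  exact ⟨QuotientGroup.mk u, QuotientGroup.mk v, by rw [huv]; rfl⟩
end Cfsg.Agent.S2456
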