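import Cfsg.Statements.S2466
import Mathlib

set_option autoImplicit false
open Cfsg

namespace Cfsg.Agent.S2466

/-- Adjacency of odd primes in the prime graph of the alternating groups: let r ≠ s be odd primes at most n. The alternating group of degree n has an element of order r·s if and only if r + s ≤ n. -/
theorem result (n r s : ℕ) (hr : r.Prime) (hs : s.Prime) (hr2 : r ≠ 2) (hs2 : s ≠ 2) (hrs : r ≠ s) (hrn : r ≤ n) (hsn : s ≤ n) :
    (r * s ∈ Set.range (orderOf : alternatingGroup (Fin n) → ℕ)) ↔ r + s ≤ n := by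
  classical
  have hlcm : ∀ (p : ℕ), p.Prime → ∀ m : Multiset ℕ, p ∣ m.lcm → ∃ a ∈ m, p ∣ a := by
    intro p hp m
    induction m using Multiset.induction_on with
    | empty =>
      intro h
      rw [Multiset.lcm_zero] at h
      exact absurd (Nat.dvd_one.mp h) hp.one_lt.ne'
    | cons a s ih =>
      intro h
      rw [Multiset.lcm_cons] at h
      have h1 : p ∣ a * s.lcm := h.trans (Nat.lcm_dvd_mul a s.lcm)
      rcases (Nat.Prime.dvd_mul hp).mp h1 with h2 | h2
      · exact ⟨a, Multiset.mem_cons_self a s, h2⟩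
      · obtain ⟨b, hb, hpb⟩ := ih h2
        exact ⟨b, Multiset.mem_cons_of_mem hb, hpb⟩
  have hcop : Nat.Coprime r s := (Nat.coprime_primes hr hs).mpr hrs
  constructor
  · rintro ⟨⟨g, hg⟩, hord⟩
    have ho : orderOf g = r * s := by rw [← hord]; exact (Subgroup.orderOf_mk g hg).symm
    have hl : g.cycleType.lcm = r * s := by rw [Equiv.Perm.lcm_cycleType, ho]
    obtain ⟨a, ha, hra⟩ := hlcm r hr _ (hl ▸ dvd_mul_right r s)
    obtain ⟨b, hb, hsb⟩ := hlcm s hs _ (hl ▸ dvd_mul_left s r)
    have hsum : g.cycleType.sum ≤ n := by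
      rw [Equiv.Perm.sum_cycleType]; exact (Finset.card_le_univ _).trans (by simp)
    have hapos : 0 < a := by have := Equiv.Perm.two_le_of_mem_cycleType ha; omega
    have hbpos : 0 < b := by have := Equiv.Perm.two_le_of_mem_cycleType hb; omega
    by_cases hab : a = b
    · subst hab
      have h1 : r * s ∣ a := Nat.Coprime.mul_dvd_of_dvd_of_dvd hcop hra hsb
      have h2 := Nat.le_of_dvd hapos h1
      have h3 : a ≤ g.cycleType.sum := Multiset.le_sum_of_mem ha
      have h4 : r + s ≤ r * s := by nlinarith [hr.two_le, hs.two_le]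
      omega
    · obtain ⟨m', hm'⟩ := Multiset.exists_cons_of_mem ha
      rw [hm'] at hb
      have hb' : b ∈ m' := (Multiset.mem_cons.mp hb).resolve_left (fun h => hab h.symm)
      obtain ⟨m'', hm''⟩ := Multiset.exists_cons_of_mem hb'
      rw [hm', hm'', Multiset.sum_cons, Multiset.sum_cons] at hsum
      have h5 := Nat.le_of_dvd hapos hra
      have h6 := Nat.le_of_dvd hbpos hsb
      omega
  · intro h
    obtain ⟨g, hg⟩ := (Equiv.Perm.exists_with_cycleType_iff (Fin n) (m := {r, s})).mpr
      ⟨by simpa using h, by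
        intro a ha
        simp only [Multiset.insert_eq_cons, Multiset.mem_cons, Multiset.mem_singleton] at ha
        rcases ha with rfl | rfl
        · exact hr.two_le
        · exact hs.two_le⟩
    have hro : Odd r := hr.odd_of_ne_two hr2
    have hso : Odd s := hs.odd_of_ne_two hs2
    have hmem : g ∈ alternatingGroup (Fin n) := by
      rw [Equiv.Perm.mem_alternatingGroup, Equiv.Perm.sign_of_cycleType, hg]
      apply Even.neg_one_pow
      have h1 : ({r, s} : Multiset ℕ).sum = r + s := by simp
      have h2 : Multiset.card ({r, s} : Multiset ℕ) = 2 := by simp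
      rw [h1, h2]
      exact (hro.add_odd hso).add (by decide)
    refine ⟨⟨g, hmem⟩, ?_⟩
    rw [Subgroup.orderOf_mk, ← Equiv.Perm.lcm_cycleType, hg]
    have h3 : ({r, s} : Multiset ℕ).lcm = Nat.lcm r s := by
      simp [Multiset.insert_eq_cons, Multiset.lcm_cons]
      rfl
    rw [h3, hcop.lcm_eq_mul]

end Cfsg.Agent.S2466
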