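import Cfsg.Statements.S2467
import Mathlib

set_option autoImplicit false
open Cfsg

namespace Cfsg.Agent.S2467

/-- Adjacency of 2 and an odd prime in the prime graph of the alternating groups: let r be an odd prime at most n, with n ≥ 4. The alternating group of degree n has an element of order 2r if and only if r + 4 ≤ n. -/
theorem result (n r : ℕ) (hn : 4 ≤ n) (hr : r.Prime) (hr2 : r ≠ 2) (hrn : r ≤ n) :
    (2 * r ∈ Set.range (orderOf : alternatingGroup (Fin n) → ℕ)) ↔ r + 4 ≤ n := by
  classical
  have hlcm : ∀ (p : ℕ), p.Prime → ∀ m : Multiset ℕ, p ∣ m.lcm → ∃ a ∈ m, p ∣ a := by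
    intro p hp m
    induction m using Multiset.induction_on with
    | empty =>
      intro h
      rw [Multiset.lcm_zero] at h
      exact absurd (Nat.dvd_one.mp h) hp.one_lt.ne'
    | cons a s ih =>
      intro h
      rw [Multiset.lcm_cons] at h
      have h1 : p ∣ a * s.lcm := h.trans (Nat.lcm_dvd_mul a s.lcm)
      rcases (Nat.Prime.dvd_mul hp).mp h1 with h2 | h2
      · exact ⟨a, Multiset.mem_cons_self a s, h2⟩
      · obtain ⟨b, hb, hpb⟩ := ih h2
        exact ⟨b, Multiset.mem_cons_of_mem hb, hpb⟩
  have hpar : ∀ m : Multiset ℕ, (∀ c ∈ m, Odd c) → Even (m.sum + Multiset.card m) := by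
    intro m
    induction m using Multiset.induction_on with
    | empty => intro _; simp
    | cons a s ih =>
      intro h
      have h1 := ih (fun c hc => h c (Multiset.mem_cons_of_mem hc))
      have h2 := h a (Multiset.mem_cons_self a s)
      rw [Multiset.sum_cons, Multiset.card_cons]
      have h3 : a + s.sum + (Multiset.card s + 1) = (a + 1) + (s.sum + Multiset.card s) := by ring
      rw [h3]
      exact (h2.add_odd odd_one).add h1
  have hro : Odd r := hr.odd_of_ne_two hr2
  have hr3 : 3 ≤ r := by
    have := hr.two_le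
    omega
  have hcop : Nat.Coprime 2 r := Nat.coprime_two_left.mpr hro
  constructor
  · rintro ⟨⟨g, hg⟩, hord⟩
    have ho : orderOf g = 2 * r := by rw [← hord]; exact (Subgroup.orderOf_mk g hg).symm
    have hl : g.cycleType.lcm = 2 * r := by rw [Equiv.Perm.lcm_cycleType, ho]
    obtain ⟨a, ha, hra⟩ := hlcm r hr _ (hl ▸ dvd_mul_left r 2)
    obtain ⟨b, hb, h2b⟩ := hlcm 2 Nat.prime_two _ (hl ▸ dvd_mul_right 2 r)
    have hsum : g.cycleType.sum ≤ n := by
      rw [Equiv.Perm.sum_cycleType]; exact (Finset.card_le_univ _).trans (by simp)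
    have hsign : Even (g.cycleType.sum + Multiset.card g.cycleType) := by
      have h1 := Equiv.Perm.mem_alternatingGroup.mp hg
      rw [Equiv.Perm.sign_of_cycleType] at h1
      by_contra hodd
      rw [Nat.not_even_iff_odd] at hodd
      rw [hodd.neg_one_pow] at h1
      revert h1; decide
    have hge2 : ∀ c ∈ g.cycleType, 2 ≤ c := fun c hc => Equiv.Perm.two_le_of_mem_cycleType hc
    generalize g.cycleType = m at *
    obtain ⟨m', hm'⟩ := Multiset.exists_cons_of_mem hb
    subst hm'
    have hex : ∃ c ∈ m', 2 ∣ c := by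
      by_contra hcon
      push Not at hcon
      have h1 := hpar m' (fun c hc => Nat.not_even_iff_odd.mp (fun h => hcon c hc h.two_dvd))
      rw [Multiset.sum_cons, Multiset.card_cons] at hsign
      have h3 : b + m'.sum + (Multiset.card m' + 1) = (m'.sum + Multiset.card m') + (b + 1) := by ring
      rw [h3] at hsign
      have h4 : Even (b + 1) := (Nat.even_add.mp hsign).mp h1
      have h5 : Even b := (even_iff_two_dvd).mpr h2b
      have h6 := Nat.even_add_one.mp h4
      exact h6 h5
    obtain ⟨c, hc, h2c⟩ := hex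
    obtain ⟨m'', hm''⟩ := Multiset.exists_cons_of_mem hc
    subst hm''
    rw [Multiset.sum_cons, Multiset.sum_cons] at hsum
    have hb2 := hge2 b (Multiset.mem_cons_self _ _)
    have hc2 := hge2 c (Multiset.mem_cons_of_mem (Multiset.mem_cons_self _ _))
    rcases Multiset.mem_cons.mp ha with rfl | ha'
    · have h1 : 2 * r ∣ a := Nat.Coprime.mul_dvd_of_dvd_of_dvd hcop h2b hra
      have h2 := Nat.le_of_dvd (by omega) h1
      omega
    · rcases Multiset.mem_cons.mp ha' with rfl | ha''
      · have h1 : 2 * r ∣ a := Nat.Coprime.mul_dvd_of_dvd_of_dvd hcop h2c hra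
        have h2 := Nat.le_of_dvd (by omega) h1
        omega
      · have h1 : a ≤ m''.sum := Multiset.le_sum_of_mem ha''
        have h2 := Nat.le_of_dvd (by have := hge2 a ha; omega) hra
        omega
  · intro h
    obtain ⟨g, hg⟩ := (Equiv.Perm.exists_with_cycleType_iff (Fin n) (m := {r, 2, 2})).mpr
      ⟨by
        have h1 : ({r, 2, 2} : Multiset ℕ).sum = r + 4 := by simp
        rw [h1]; simpa using h, by
        intro a ha
        simp only [Multiset.insert_eq_cons, Multiset.mem_cons, Multiset.mem_singleton] at ha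
        rcases ha with rfl | rfl | rfl
        · exact hr.two_le
        · exact le_rfl
        · exact le_rfl⟩
    have hmem : g ∈ alternatingGroup (Fin n) := by
      rw [Equiv.Perm.mem_alternatingGroup, Equiv.Perm.sign_of_cycleType, hg]
      apply Even.neg_one_pow
      have h1 : ({r, 2, 2} : Multiset ℕ).sum = r + 4 := by simp
      have h2 : Multiset.card ({r, 2, 2} : Multiset ℕ) = 3 := by simp
      rw [h1, h2]
      have h3 : r + 4 + 3 = (r + 1) + 6 := by ring
      rw [h3]
      exact (hro.add_odd odd_one).add (by decide)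
    refine ⟨⟨g, hmem⟩, ?_⟩
    rw [Subgroup.orderOf_mk, ← Equiv.Perm.lcm_cycleType, hg]
    have h3 : ({r, 2, 2} : Multiset ℕ).lcm = Nat.lcm r (Nat.lcm 2 2) := by
      simp [Multiset.insert_eq_cons, Multiset.lcm_cons]
      rfl
    rw [h3, Nat.lcm_self, hcop.symm.lcm_eq_mul, mul_comm]

end Cfsg.Agent.S2467
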