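import Cfsg.Statements.S2471
import Cfsg.Agent.Lib.Helper4.PSL2Spec2
open Cfsg.Agent.Lib.Helper4.PSL2Spec

set_option autoImplicit false
open Cfsg

namespace Cfsg.Agent.S2471



/-- In PSL(2,q) with q odd, the characteristic p is isolated from 2 in the prime graph: for F a finite field of odd characteristic p with at least 5 elements, PSL(2,F) has no element of order 2p. -/
theorem result {F : Type*} [Field F] [Fintype F] (p : ℕ) [Fact p.Prime] [CharP F p] (hp : p ≠ 2) (h5 : 5 ≤ Fintype.card F) (g : Matrix.ProjectiveSpecialLinearGroup (Fin 2) F) :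
    orderOf g ≠ 2 * p := by
  have hpp : p.Prime := Fact.out
  intro h
  obtain ⟨k, -, hk⟩ := FiniteField.card F p
  have hpq : p ∣ Fintype.card F := by rw [hk]; exact dvd_pow_self p k.ne_zero
  have hpo : p ∣ orderOf g := by rw [h]; exact dvd_mul_left _ _
  rcases orderOf_dvd p g with h1 | h1 | h1
  · rw [h] at h1
    have := Nat.le_of_dvd hpp.pos h1
    have := hpp.pos
    omega
  · have h2 : p ∣ Fintype.card F - 1 := (hpo.trans h1).trans (Nat.div_dvd_of_dvd (Nat.gcd_dvd_right _ _))
    have h3 : p ∣ 1 := by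
      have := (Nat.dvd_sub hpq h2)
      have e : Fintype.card F - (Fintype.card F - 1) = 1 := by omega
      rwa [e] at this
    exact hpp.one_lt.ne' (Nat.dvd_one.1 h3)
  · have hd : Nat.gcd 2 (Fintype.card F - 1) ∣ Fintype.card F + 1 := by
      have e : Fintype.card F + 1 = Fintype.card F - 1 + 2 := by omega
      rw [e]
      exact Nat.dvd_add (Nat.gcd_dvd_right _ _) (Nat.gcd_dvd_left _ _)
    have h2 : p ∣ Fintype.card F + 1 := (hpo.trans h1).trans (Nat.div_dvd_of_dvd hd)
    have h3 : p ∣ 1 := (Nat.dvd_add_right hpq).1 h2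
    exact hpp.one_lt.ne' (Nat.dvd_one.1 h3)
end Cfsg.Agent.S2471
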