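import Cfsg.Statements.S2507
import Cfsg.Agent.Lib.Helper4.SL2Class
open Cfsg.Agent.Lib.Helper4.SL2Class Cfsg.Agent.Lib.Helper4.SL2Prod Cfsg.Agent.Lib.Helper4.PSL2Spec Cfsg.Agent.Lib.Helper4.SL2Conj Cfsg.Agent.Lib.Helper4.SL2Eigen Cfsg.Agent.Lib.Helper4.GL2Conj

set_option autoImplicit false
open Cfsg

namespace Cfsg.Agent.S2507


theorem center_eq_bot {F : Type*} [Field F] [CharP F 2] :
    Subgroup.center (Matrix.SpecialLinearGroup (Fin 2) F) = ⊥ := by
  rw [eq_bot_iff]
  intro z hz
  rw [Matrix.SpecialLinearGroup.mem_center_iff] at hz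
  obtain ⟨r, hr, hz⟩ := hz
  simp only [Fintype.card_fin] at hr
  have h2 : (2 : F) = 0 := CharTwo.two_eq_zero
  have : (r - 1) ^ 2 = 0 := by linear_combination hr + (1 - r) * h2
  have hr1 : r = 1 := sub_eq_zero.1 (pow_eq_zero_iff (by norm_num) |>.1 this)
  rw [Subgroup.mem_bot]
  apply Subtype.ext
  rw [← hz, hr1, map_one]
  rfl

theorem mk_injective {F : Type*} [Field F] [CharP F 2] :
    Function.Injective (QuotientGroup.mk' (Subgroup.center (Matrix.SpecialLinearGroup (Fin 2) F))) := by
  rw [← MonoidHom.ker_eq_bot_iff, QuotientGroup.ker_mk', center_eq_bot]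

theorem index_mk {F : Type*} [Field F] [Fintype F] [CharP F 2] (g : Matrix.SpecialLinearGroup (Fin 2) F) :
    (Subgroup.centralizer ({(QuotientGroup.mk g : Matrix.ProjectiveSpecialLinearGroup (Fin 2) F)} :
      Set (Matrix.ProjectiveSpecialLinearGroup (Fin 2) F))).index =
      Nat.card {h : Matrix.SpecialLinearGroup (Fin 2) F // IsConj g h} := by
  classical
  have : Finite (Matrix.ProjectiveSpecialLinearGroup (Fin 2) F) := by
    unfold Matrix.ProjectiveSpecialLinearGroup; infer_instance
  rw [index_centralizer]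
  let e : Matrix.SpecialLinearGroup (Fin 2) F ≃* Matrix.ProjectiveSpecialLinearGroup (Fin 2) F :=
    MulEquiv.ofBijective (QuotientGroup.mk' _) ⟨mk_injective, QuotientGroup.mk'_surjective _⟩
  symm
  refine Nat.card_congr (e.toEquiv.subtypeEquiv fun h => ⟨fun hc => ?_, fun hc => ?_⟩)
  · exact e.toMonoidHom.map_isConj hc
  · have := e.symm.toMonoidHom.map_isConj hc
    have h1 : e.symm.toMonoidHom (QuotientGroup.mk g) = g := e.symm_apply_apply g
    have h2 : e.symm.toMonoidHom (e.toEquiv h) = h := e.symm_apply_apply h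
    rwa [h1, h2] at this

theorem card_class_trace_zero {F : Type*} [Field F] [Fintype F] [CharP F 2]
    (g : Matrix.SpecialLinearGroup (Fin 2) F) (hg : ∀ c : F, g.1 ≠ c • (1 : Matrix (Fin 2) (Fin 2) F))
    (ht : g.1.trace = 0) :
    Nat.card {h : Matrix.SpecialLinearGroup (Fin 2) F // IsConj g h} + 1 = Fintype.card F ^ 2 := by
  classical
  have h2 : (2 : F) = 0 := CharTwo.two_eq_zero
  have hN : Nt (0 : F) = 1 := Nt_eq_one 0 1 (by linear_combination -h2) (by linear_combination h2)
  have h1 := card_trace_fiber (0 : F)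
  rw [hN] at h1
  have hset : {h : Matrix.SpecialLinearGroup (Fin 2) F | h.1.trace = 0} =
      insert 1 {h : Matrix.SpecialLinearGroup (Fin 2) F | IsConj g h} := by
    ext h
    simp only [Set.mem_ofPred_eq, Set.mem_insert_iff]
    constructor
    · intro hh
      by_cases hs : ∀ c : F, h.1 ≠ c • (1 : Matrix (Fin 2) (Fin 2) F)
      · right
        have e1 := isConj_compSL g hg
        have e2 := isConj_compSL h hs
        rw [ht] at e1; rw [hh] at e2
        exact e1.trans e2.symm
      · left
        push Not at hs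
        obtain ⟨c, hc⟩ := hs
        have hdet := h.2
        rw [hc, Matrix.det_smul, Matrix.det_one, mul_one] at hdet
        simp only [Fintype.card_fin] at hdet
        have : (c - 1) ^ 2 = 0 := by linear_combination hdet + (1 - c) * h2
        have hc1 : c = 1 := sub_eq_zero.1 (pow_eq_zero_iff (by norm_num) |>.1 this)
        apply Subtype.ext
        rw [hc, hc1, one_smul]; rfl
    · rintro (rfl | hc)
      · change (1 : Matrix (Fin 2) (Fin 2) F).trace = 0
        simp [h2]
      · rw [trace_eq_of_isConj hc, ht]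
  have hnot : (1 : Matrix.SpecialLinearGroup (Fin 2) F) ∉
      {h : Matrix.SpecialLinearGroup (Fin 2) F | IsConj g h} := by
    intro h
    have h' : IsConj g 1 := h
    rw [isConj_one_left] at h'
    apply hg 1
    rw [h', one_smul]; rfl
  have h3 := Set.ncard_insert_of_notMem hnot (Set.toFinite _)
  rw [← hset] at h3
  have e1 : Nat.card {h : Matrix.SpecialLinearGroup (Fin 2) F // h.1.trace = 0} =
      {h : Matrix.SpecialLinearGroup (Fin 2) F | h.1.trace = 0}.ncard := Nat.card_coe_set_eq _
  have e2 : Nat.card {h : Matrix.SpecialLinearGroup (Fin 2) F // IsConj g h} =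
      {h : Matrix.SpecialLinearGroup (Fin 2) F | IsConj g h}.ncard := Nat.card_coe_set_eq _
  rw [e2, ← h3, ← e1, h1]
  have hpos : 0 < Fintype.card F := Fintype.card_pos
  obtain ⟨k, hk⟩ : ∃ k, Fintype.card F = k + 1 := ⟨Fintype.card F - 1, by omega⟩
  rw [hk]
  simp
  ring


/-- Let F be a finite field with q = 2^f ≥ 4 elements. The conjugacy class sizes of PSL(2,F) are exactly 1, q(q − 1), q² − 1 and q(q + 1). -/
theorem result {F : Type*} [Field F] [Fintype F]
    (h2 : 2 ∣ Fintype.card F) (h4 : 4 ≤ Fintype.card F) :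
    Set.range (fun g : (Matrix.ProjectiveSpecialLinearGroup (Fin 2) F) => (Subgroup.centralizer ({g} : Set (Matrix.ProjectiveSpecialLinearGroup (Fin 2) F))).index) =
      {1, Fintype.card F * (Fintype.card F - 1), Fintype.card F ^ 2 - 1, Fintype.card F * (Fintype.card F + 1)} := by
  classical
  have hchar : CharP F 2 := by
    have := (FiniteField.even_card_iff_char_two (F := F)).2 (Nat.mod_eq_zero_of_dvd h2)
    rw [← this]; exact ringChar.charP F
  have h2F : (2 : F) = 0 := CharTwo.two_eq_zero
  have h4F : (4 : F) = 0 := by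
    have : (4 : F) = 2 * 2 := by norm_num
    rw [this, h2F, zero_mul]
  set q := Fintype.card F with hq
  obtain ⟨k, hk⟩ : ∃ k, q = k + 1 := ⟨q - 1, by omega⟩
  have hns : ∀ t : F, ∀ c : F, (compSL t).1 ≠ c • (1 : Matrix (Fin 2) (Fin 2) F) := fun t c => comp_ne_smul t 1 c
  have htr : ∀ t : F, (compSL t).1.trace = t := fun t => trace_comp t 1
  ext n
  simp only [Set.mem_range, Set.mem_insert_iff, Set.mem_singleton_iff]
  constructor
  · rintro ⟨x, rfl⟩
    obtain ⟨g, rfl⟩ := QuotientGroup.mk_surjective x
    rw [index_mk]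
    by_cases hs : ∀ c : F, g.1 ≠ c • (1 : Matrix (Fin 2) (Fin 2) F)
    · by_cases ht : g.1.trace = 0
      · right; right; left
        have := card_class_trace_zero g hs ht
        rw [← hq] at this
        omega
      · have h4' : g.1.trace ^ 2 ≠ 4 := by rw [h4F]; exact pow_ne_zero 2 ht
        rw [card_class_of_trace g h4', ← hq]
        by_cases hr : ∃ a, a * (g.1.trace - a) = 1
        · obtain ⟨a, ha⟩ := hr
          right; right; right
          rw [Nt_eq_two _ a ha (by
            intro h
            apply ht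
            linear_combination a * h2F - h), hk]
          simp
          ring
        · push Not at hr
          right; left
          rw [Nt_eq_zero _ hr]
          simp
    · left
      push Not at hs
      obtain ⟨c, hc⟩ := hs
      have hdet := g.2
      rw [hc, Matrix.det_smul, Matrix.det_one, mul_one] at hdet
      simp only [Fintype.card_fin] at hdet
      have : (c - 1) ^ 2 = 0 := by linear_combination hdet + (1 - c) * h2F
      have hc1 : c = 1 := sub_eq_zero.1 (pow_eq_zero_iff (by norm_num) |>.1 this)
      have hg1 : g = 1 := by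
        apply Subtype.ext
        rw [hc, hc1, one_smul]; rfl
      rw [hg1]
      have : Unique {h : Matrix.SpecialLinearGroup (Fin 2) F // IsConj 1 h} :=
        ⟨⟨⟨1, IsConj.refl 1⟩⟩, fun ⟨h, hh⟩ => Subtype.ext (isConj_one_right.1 hh)⟩
      exact Nat.card_unique
  · rintro (rfl | rfl | rfl | rfl)
    · refine ⟨QuotientGroup.mk 1, ?_⟩
      rw [index_mk]
      have : Unique {h : Matrix.SpecialLinearGroup (Fin 2) F // IsConj 1 h} :=
        ⟨⟨⟨1, IsConj.refl 1⟩⟩, fun ⟨h, hh⟩ => Subtype.ext (isConj_one_right.1 hh)⟩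
      exact Nat.card_unique
    · obtain ⟨t, ht⟩ := exists_noroot (F := F)
      have ht0 : t ≠ 0 := by
        rintro rfl
        apply ht 1
        linear_combination -h2F
      refine ⟨QuotientGroup.mk (compSL t), ?_⟩
      rw [index_mk, card_class_of_trace _ (by rw [htr, h4F]; exact pow_ne_zero 2 ht0), htr, Nt_eq_zero _ ht]
      simp [hq]
    · refine ⟨QuotientGroup.mk (compSL 0), ?_⟩
      rw [index_mk]
      have := card_class_trace_zero (compSL (0 : F)) (hns 0) (htr 0)
      rw [← hq] at this
      omega
    · obtain ⟨a, ha0, ha1⟩ : ∃ a : F, a ≠ 0 ∧ a ≠ 1 := by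
        by_contra hcon
        push Not at hcon
        have : Fintype.card F ≤ 2 := by
          have hsub : (Finset.univ : Finset F) ⊆ {0, 1} := by
            intro a _
            by_cases h : a = 0
            · simp [h]
            · simp [hcon a h]
          calc Fintype.card F = (Finset.univ : Finset F).card := rfl
            _ ≤ ({0, 1} : Finset F).card := Finset.card_le_card hsub
            _ ≤ 2 := Finset.card_le_two
        omega
      have hinv : a * a⁻¹ = 1 := mul_inv_cancel₀ ha0
      have ht0 : a + a⁻¹ ≠ 0 := by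
        intro h
        apply ha1
        have : (a - 1) ^ 2 = 0 := by linear_combination a * h - hinv + (1 - a) * h2F - h2F
        exact sub_eq_zero.1 (pow_eq_zero_iff (by norm_num) |>.1 this)
      refine ⟨QuotientGroup.mk (compSL (a + a⁻¹)), ?_⟩
      rw [index_mk, card_class_of_trace _ (by rw [htr, h4F]; exact pow_ne_zero 2 ht0), htr,
        Nt_eq_two _ a (by linear_combination hinv) (by
          intro h
          apply ht0
          linear_combination a * h2F - h), ← hq, hk]
      simp
      ring
end Cfsg.Agent.S2507
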