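import Cfsg.Statements.S2508
import Cfsg.Agent.Lib.Helper4.SL2Class2
open Cfsg.Agent.Lib.Helper4.SL2Class Cfsg.Agent.Lib.Helper4.SL2Prod Cfsg.Agent.Lib.Helper4.PSL2Spec Cfsg.Agent.Lib.Helper4.SL2Conj Cfsg.Agent.Lib.Helper4.SL2Eigen Cfsg.Agent.Lib.Helper4.GL2Conj

set_option autoImplicit false
open Cfsg

namespace Cfsg.Agent.S2508


theorem exists_noroot_ne_zero {F : Type*} [Field F] [Fintype F] (a₀ : Fˣ) (h : a₀ ≠ a₀⁻¹) :
    ∃ t : F, t ≠ 0 ∧ ∀ a : F, a * (t - a) ≠ 1 := by
  classical
  let ψ : Fˣ → F := fun a => (a : F) + (a⁻¹ : Fˣ)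
  let S : Finset F := insert 0 ((Finset.univ.erase a₀⁻¹).image ψ)
  have h2 : 1 < Fintype.card F := Fintype.one_lt_card
  have hS : S.card < Fintype.card F := by
    calc S.card ≤ ((Finset.univ.erase a₀⁻¹).image ψ).card + 1 := Finset.card_insert_le _ _
      _ ≤ (Finset.univ.erase a₀⁻¹).card + 1 := by gcongr; exact Finset.card_image_le
      _ = (Fintype.card Fˣ - 1) + 1 := by rw [Finset.card_erase_of_mem (Finset.mem_univ _), Finset.card_univ]
      _ < Fintype.card F := by rw [Fintype.card_units]; omega
  obtain ⟨t, ht⟩ : ∃ t, t ∉ S := by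
    by_contra hcon
    push Not at hcon
    have : S = Finset.univ := Finset.eq_univ_iff_forall.2 hcon
    rw [this, Finset.card_univ] at hS
    exact lt_irrefl _ hS
  simp only [S, Finset.mem_insert, Finset.mem_image, Finset.mem_erase, Finset.mem_univ, and_true,
    not_or, not_exists, not_and] at ht
  refine ⟨t, ht.1, ?_⟩
  intro a ha
  have ha0 : a ≠ 0 := by
    rintro rfl
    simp at ha
  have hψ : ψ (Units.mk0 a ha0) = t := by
    simp only [ψ, Units.val_mk0, Units.val_inv_eq_inv_val]
    have hinv : a * a⁻¹ = 1 := mul_inv_cancel₀ ha0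
    linear_combination (-a⁻¹) * ha + (t - a) * hinv
  by_cases hu : Units.mk0 a ha0 = a₀⁻¹
  · apply ht.2 a₀ h
    rw [← hψ, hu]
    simp only [ψ, inv_inv]
    ring
  · exact ht.2 _ hu hψ

theorem index_one {G : Type*} [Group G] : (Subgroup.centralizer ({(1 : G)} : Set G)).index = 1 := by
  have : Subgroup.centralizer ({(1 : G)} : Set G) = ⊤ := by
    rw [eq_top_iff]
    intro x _
    rw [Subgroup.mem_centralizer_singleton_iff]
    simp
  rw [this, Subgroup.index_top]

theorem general {F : Type*} [Field F] [Fintype F]
    (hodd : ¬ 2 ∣ Fintype.card F) (h7 : 7 ≤ Fintype.card F) :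
    Set.range (fun g : (Matrix.ProjectiveSpecialLinearGroup (Fin 2) F) => (Subgroup.centralizer ({g} : Set (Matrix.ProjectiveSpecialLinearGroup (Fin 2) F))).index) =
        {1, (Fintype.card F ^ 2 - 1) / 2, (Fintype.card F * (Fintype.card F - 1) + Nt (0 : F) * Fintype.card F) / 2,
          Fintype.card F * (Fintype.card F - 1), Fintype.card F * (Fintype.card F + 1)} := by
  classical
  have h2 : (2 : F) ≠ 0 := by
    intro h
    apply hodd
    have : CharP F 2 := CharTwo.of_one_ne_zero_of_two_eq_zero one_ne_zero h
    have h3 := (FiniteField.even_card_iff_char_two (F := F)).1 (ringChar.eq F 2)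
    exact Nat.dvd_of_mod_eq_zero h3
  have h4 : (4 : F) ≠ 0 := by
    have : (4 : F) = 2 * 2 := by norm_num
    rw [this]; exact mul_ne_zero h2 h2
  set q := Fintype.card F with hq
  obtain ⟨k, hk⟩ : ∃ k, q = k + 1 := ⟨q - 1, by omega⟩
  have hns : ∀ t : F, ∀ c : F, (compSL t).1 ≠ c • (1 : Matrix (Fin 2) (Fin 2) F) := fun t c => comp_ne_smul t 1 c
  have htr : ∀ t : F, (compSL t).1.trace = t := fun t => trace_comp t 1
  have harith : q * (q - 1) + 2 * q = q * (q + 1) := by
    rw [hk]; simp; ring
  have hunip : ∀ g : Matrix.SpecialLinearGroup (Fin 2) F,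
      (∀ c : F, g.1 ≠ c • (1 : Matrix (Fin 2) (Fin 2) F)) → g.1.trace = 2 →
      (Subgroup.centralizer ({(QuotientGroup.mk g : Matrix.ProjectiveSpecialLinearGroup (Fin 2) F)} :
      Set (Matrix.ProjectiveSpecialLinearGroup (Fin 2) F))).index = (q ^ 2 - 1) / 2 := by
    intro g hg ht
    rw [index_of_trace_ne_zero h2 g (by rw [ht]; exact h2)]
    have := card_class_unip h2 g hg ht
    rw [← hq] at this
    omega
  ext n
  simp only [Set.mem_range, Set.mem_insert_iff, Set.mem_singleton_iff]
  constructor
  · rintro ⟨x, rfl⟩
    obtain ⟨g, rfl⟩ := QuotientGroup.mk_surjective x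
    by_cases hs : ∀ c : F, g.1 ≠ c • (1 : Matrix (Fin 2) (Fin 2) F)
    · by_cases ht : g.1.trace = 0
      · right; right; left
        have h1 := index_of_trace_zero h2 g ht
        rw [card_class_of_trace g (by rw [ht]; simpa using h4.symm), ht, ← hq] at h1
        omega
      · by_cases ht4 : g.1.trace ^ 2 = 4
        · right; left
          have : (g.1.trace - 2) * (g.1.trace + 2) = 0 := by linear_combination ht4
          rcases mul_eq_zero.1 this with h | h
          · exact hunip g hs (by linear_combination h)
          · rw [← mk_negOne_mul g]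
            apply hunip
            · intro c hc
              apply hs (-c)
              have e : (negOne F * g).1 = -g.1 := by
                change (-1 : Matrix (Fin 2) (Fin 2) F) * g.1 = _
                simp
              rw [e] at hc
              rw [neg_smul, ← hc, neg_neg]
            · rw [trace_negOne_mul]; linear_combination -h
        · rw [index_of_trace_ne_zero h2 g ht, card_class_of_trace g ht4, ← hq]
          by_cases hr : ∃ a, a * (g.1.trace - a) = 1
          · obtain ⟨a, ha⟩ := hr
            right; right; right; right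
            rw [Nt_eq_two _ a ha (by
              intro h
              apply ht4
              have e : g.1.trace = 2 * a := by linear_combination -h
              rw [e] at ha ⊢
              linear_combination 4 * ha), harith]
          · push Not at hr
            right; right; right; left
            rw [Nt_eq_zero _ hr]
            simp
    · left
      push Not at hs
      obtain ⟨c, hc⟩ := hs
      have h1 : (QuotientGroup.mk g : Matrix.ProjectiveSpecialLinearGroup (Fin 2) F) = 1 := by
        rw [QuotientGroup.eq_one_iff, Matrix.SpecialLinearGroup.mem_center_iff]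
        refine ⟨c, ?_, ?_⟩
        · have hdet := g.2
          rw [hc, Matrix.det_smul, Matrix.det_one, mul_one] at hdet
          exact hdet
        · rw [hc]
          ext i j
          fin_cases i <;> fin_cases j <;> simp
      rw [h1]
      exact index_one
  · obtain ⟨a, ha⟩ : ∃ a : F, a ^ 5 - a ≠ 0 := by
      have hP : (Polynomial.X ^ 5 - Polynomial.X : Polynomial F) ≠ 0 :=
        FiniteField.X_pow_card_sub_X_ne_zero F (by norm_num)
      have hd : (Polynomial.X ^ 5 - Polynomial.X : Polynomial F).natDegree = 5 :=
        FiniteField.X_pow_card_sub_X_natDegree_eq F (by norm_num)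
      obtain ⟨a, ha⟩ := Polynomial.exists_eval_ne_zero_of_natDegree_lt_card _ hP (by
        rw [hd, Cardinal.mk_fintype]; exact_mod_cast (by omega : 5 < Fintype.card F))
      exact ⟨a, by simpa using ha⟩
    have ha0 : a ≠ 0 := by
      rintro rfl
      simp at ha
    have hinv : a * a⁻¹ = 1 := mul_inv_cancel₀ ha0
    rintro (rfl | rfl | rfl | rfl | rfl)
    · exact ⟨1, index_one⟩
    · exact ⟨QuotientGroup.mk (compSL 2), hunip _ (hns 2) (htr 2)⟩
    · refine ⟨QuotientGroup.mk (compSL 0), ?_⟩
      have h1 := index_of_trace_zero h2 (compSL (0 : F)) (htr 0)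
      rw [card_class_of_trace _ (by rw [htr]; simpa using h4.symm), htr, ← hq] at h1
      omega
    · obtain ⟨t, ht0, ht⟩ := exists_noroot_ne_zero (Units.mk0 a ha0) (by
        intro h
        have h' := congrArg Units.val h
        simp only [Units.val_mk0, Units.val_inv_eq_inv_val] at h'
        apply ha
        have e : a ^ 2 = 1 := by rw [sq]; nth_rewrite 2 [h']; exact hinv
        linear_combination (a ^ 3 + a) * e)
      have ht4 : t ^ 2 ≠ 4 := by
        intro h
        have : (t - 2) * (t + 2) = 0 := by linear_combination h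
        rcases mul_eq_zero.1 this with h | h
        · apply ht 1; linear_combination h
        · apply ht (-1); linear_combination -h
      refine ⟨QuotientGroup.mk (compSL t), ?_⟩
      rw [index_of_trace_ne_zero h2 _ (by rw [htr]; exact ht0),
        card_class_of_trace _ (by rw [htr]; exact ht4), htr, Nt_eq_zero _ ht]
      simp [hq]
    · have ht0 : a + a⁻¹ ≠ 0 := by
        intro h
        apply ha
        have e : a ^ 2 = -1 := by linear_combination a * h - hinv
        linear_combination (a ^ 3 - a) * e
      have hne : a ≠ a⁻¹ := by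
        intro h
        apply ha
        have e : a ^ 2 = 1 := by rw [sq]; nth_rewrite 2 [h]; exact hinv
        linear_combination (a ^ 3 + a) * e
      have ht4 : (a + a⁻¹) ^ 2 ≠ 4 := by
        intro h
        apply hne
        have : (a - a⁻¹) ^ 2 = 0 := by linear_combination h - 4 * hinv
        exact sub_eq_zero.1 (pow_eq_zero_iff (by norm_num) |>.1 this)
      refine ⟨QuotientGroup.mk (compSL (a + a⁻¹)), ?_⟩
      rw [index_of_trace_ne_zero h2 _ (by rw [htr]; exact ht0),
        card_class_of_trace _ (by rw [htr]; exact ht4), htr,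
        Nt_eq_two _ a (by linear_combination hinv) (by
          intro h
          apply hne
          linear_combination h), ← hq, harith]


/-- Let F be a finite field with q elements, q odd and q ≥ 7. If q ≡ 1 (mod 4) the conjugacy class sizes of PSL(2,F) are exactly 1, (q² − 1)/2, q(q + 1)/2, q(q − 1) and q(q + 1); if q ≡ 3 (mod 4) they are exactly 1, (q² − 1)/2, q(q − 1)/2, q(q + 1) and q(q − 1). -/
theorem result {F : Type*} [Field F] [Fintype F]
    (hodd : ¬ 2 ∣ Fintype.card F) (h7 : 7 ≤ Fintype.card F) :
    (Fintype.card F % 4 = 1 →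
      Set.range (fun g : (Matrix.ProjectiveSpecialLinearGroup (Fin 2) F) => (Subgroup.centralizer ({g} : Set (Matrix.ProjectiveSpecialLinearGroup (Fin 2) F))).index) =
        {1, (Fintype.card F ^ 2 - 1) / 2, Fintype.card F * (Fintype.card F + 1) / 2,
          Fintype.card F * (Fintype.card F - 1), Fintype.card F * (Fintype.card F + 1)}) ∧
    (Fintype.card F % 4 = 3 →
      Set.range (fun g : (Matrix.ProjectiveSpecialLinearGroup (Fin 2) F) => (Subgroup.centralizer ({g} : Set (Matrix.ProjectiveSpecialLinearGroup (Fin 2) F))).index) =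
        {1, (Fintype.card F ^ 2 - 1) / 2, Fintype.card F * (Fintype.card F - 1) / 2,
          Fintype.card F * (Fintype.card F + 1), Fintype.card F * (Fintype.card F - 1)}) := by
  classical
  have hgen := general hodd h7
  have h2 : (2 : F) ≠ 0 := by
    intro h
    apply hodd
    have : CharP F 2 := CharTwo.of_one_ne_zero_of_two_eq_zero one_ne_zero h
    have h3 := (FiniteField.even_card_iff_char_two (F := F)).1 (ringChar.eq F 2)
    exact Nat.dvd_of_mod_eq_zero h3
  constructor
  · intro h1
    have hsq : IsSquare (-1 : F) := FiniteField.isSquare_neg_one_iff.2 (by omega)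
    obtain ⟨a, ha⟩ := hsq
    have hN : Nt (0 : F) = 2 := Nt_eq_two 0 a (by linear_combination ha) (by
      intro h
      have h0 : 2 * a = 0 := by linear_combination h
      have ha0 : a = 0 := (mul_eq_zero.1 h0).resolve_left h2
      rw [ha0] at ha
      simp at ha)
    rw [hgen, hN]
    have : Fintype.card F * (Fintype.card F - 1) + 2 * Fintype.card F = Fintype.card F * (Fintype.card F + 1) := by
      obtain ⟨k, hk⟩ : ∃ k, Fintype.card F = k + 1 := ⟨Fintype.card F - 1, by omega⟩
      rw [hk]; simp; ring
    rw [this]
  · intro h3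
    have hsq : ¬ IsSquare (-1 : F) := by
      rw [FiniteField.isSquare_neg_one_iff]; omega
    have hN : Nt (0 : F) = 0 := Nt_eq_zero 0 (by
      intro a ha
      apply hsq
      exact ⟨a, by linear_combination ha⟩)
    rw [hgen, hN, zero_mul, add_zero, Set.pair_comm (Fintype.card F * (Fintype.card F - 1))]
end Cfsg.Agent.S2508
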