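import Cfsg.Statements.S2513
import Mathlib

set_option autoImplicit false
open Cfsg

namespace Cfsg.Agent.S2513

set_option linter.style.haveILetI false


theorem card_dvd_of_free {H X : Type*} [Group H] [MulAction H X] [Finite H] [Finite X]
    (h : ∀ x : X, MulAction.stabilizer H x = ⊥) : Nat.card H ∣ Nat.card X := by
  classical
  have e := MulAction.selfEquivSigmaOrbitsQuotientStabilizer H X
  haveI : Fintype (MulAction.orbitRel.Quotient H X) := Fintype.ofFinite _
  rw [Nat.card_congr e, Nat.card_sigma]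
  apply Finset.dvd_sum
  intro ω _
  rw [h]
  have := Subgroup.index_bot (G := H)
  rw [Subgroup.index] at this
  rw [this]

/-- a permutation with `T^(r^e)=1` whose power `T^(r^(e-1))` has no fixed point -/
theorem perm_dvd {X : Type*} [Finite X] (T : Equiv.Perm X) (r e : ℕ) (hr : r.Prime) (he : 1 ≤ e)
    (h1 : T ^ (r ^ e) = 1) (h2 : ∀ x, (T ^ (r ^ (e - 1))) x ≠ x) : r ^ e ∣ Nat.card X := by
  classical
  haveI := Fact.mk hr
  rcases isEmpty_or_nonempty X with hX | ⟨⟨x0⟩⟩
  · simp
  obtain ⟨e', rfl⟩ : ∃ e', e = e' + 1 := ⟨e - 1, by omega⟩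
  simp only [Nat.add_sub_cancel] at h2
  have hord : orderOf T = r ^ (e' + 1) := by
    apply orderOf_eq_prime_pow _ h1
    intro h
    apply h2 x0
    rw [h]; rfl
  have hcard : Nat.card (Subgroup.zpowers T) = r ^ (e' + 1) := by
    rw [Nat.card_zpowers, hord]
  rw [← hcard]
  apply card_dvd_of_free
  intro x
  rw [Subgroup.eq_bot_iff_forall]
  rintro ⟨c, hc⟩ hcx
  rw [MulAction.mem_stabilizer_iff] at hcx
  have hcx' : c x = x := hcx
  rw [← mem_powers_iff_mem_zpowers] at hc
  obtain ⟨j, rfl⟩ := hc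
  have hfix : ∀ M : ℕ, ((T ^ j) ^ M) x = x := by
    intro M
    induction M with
    | zero => simp
    | succ M ih => rw [pow_succ, Equiv.Perm.mul_apply, hcx', ih]
  by_contra hne
  have hj0 : j ≠ 0 := by
    rintro rfl
    exact hne (by simp)
  obtain ⟨a, j', hj', rfl⟩ := Nat.exists_eq_pow_mul_and_not_dvd hj0 r hr.ne_one
  have ha : a ≤ e' := by
    by_contra hlt
    push Not at hlt
    apply hne
    have : T ^ (r ^ a * j') = 1 := by
      rw [← orderOf_dvd_iff_pow_eq_one, hord]
      exact Dvd.dvd.mul_right (pow_dvd_pow r hlt) _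
    exact Subtype.ext this
  have hcop : Nat.Coprime j' (r ^ (e' + 1)) := by
    apply Nat.Coprime.pow_right
    exact ((Nat.Prime.coprime_iff_not_dvd hr).mpr hj').symm
  obtain ⟨u, -, hu⟩ := Nat.exists_mul_mod_eq_one_of_coprime hcop (Nat.one_lt_pow (by omega) hr.one_lt)
  apply h2 x
  have : T ^ r ^ e' = (T ^ (r ^ a * j')) ^ (u * r ^ (e' - a)) := by
    rw [← pow_mul]
    have e1 : r ^ a * j' * (u * r ^ (e' - a)) = r ^ e' * (j' * u) := by
      have : r ^ e' = r ^ a * r ^ (e' - a) := by rw [← pow_add]; congr 1; omega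
      rw [this]; ring
    rw [e1]
    conv_rhs => rw [← Nat.div_add_mod (j' * u) (r ^ (e' + 1)), hu]
    rw [mul_add, pow_add, mul_one]
    have : T ^ (r ^ e' * (r ^ (e' + 1) * (j' * u / r ^ (e' + 1)))) = 1 := by
      rw [← orderOf_dvd_iff_pow_eq_one, hord]
      exact Dvd.dvd.mul_left (Dvd.intro _ rfl) _
    rw [this, one_mul]
  rw [this]
  exact hfix _


open Matrix


theorem exists_c {F : Type*} [Field F] [Fintype F] (hF : Fintype.card F = 2) {n : ℕ}
    (A : Matrix (Fin n) (Fin n) F) (r e : ℕ) (hr : r.Prime) (hr2 : r ≠ 2) (he : 1 ≤ e)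
    (h1 : A ^ (r ^ e) = 1) (h2 : A ^ (r ^ (e - 1)) ≠ 1) :
    ∃ c, 1 ≤ c ∧ c ≤ n ∧ r ^ e ∣ 2 ^ c - 1 := by
  classical
  set B := A ^ (r ^ (e-1)) with hB
  have hBr : B ^ r = 1 := by rw [hB, ← pow_mul, ← pow_succ, Nat.sub_add_cancel he, h1]
  set N : Matrix (Fin n) (Fin n) F := ∑ i ∈ Finset.range r, B ^ i with hN
  have hNB : N * (B - 1) = 0 := by rw [hN, geom_sum_mul, hBr, sub_self]
  have hAB : Commute A B := (Commute.refl A).pow_right _
  have hAN : A * N = N * A := by
    have : Commute A N := by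
      rw [hN]
      exact Commute.sum_right _ _ _ (fun i _ => hAB.pow_right i)
    exact this
  set W : Submodule F (Fin n → F) := LinearMap.ker (Matrix.mulVecLin N) with hWdef
  have hmem : ∀ v, v ∈ W ↔ N *ᵥ v = 0 := by
    intro v; rw [hWdef, LinearMap.mem_ker, Matrix.mulVecLin_apply]
  have h2F : (2 : F) = 0 := by
    have := Nat.cast_card_eq_zero F
    rw [hF] at this
    exact_mod_cast this
  have hrF : (r : F) = 1 := by
    obtain ⟨k, hk⟩ := hr.odd_of_ne_two hr2
    rw [hk]; push_cast; rw [h2F]; ring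
  have hfix : ∀ v ∈ W, B *ᵥ v = v → v = 0 := by
    intro v hv hBv
    have hi : ∀ i : ℕ, B ^ i *ᵥ v = v := by
      intro i
      induction i with
      | zero => simp
      | succ i ih => rw [pow_succ, ← Matrix.mulVec_mulVec, hBv, ih]
    have := (hmem v).mp hv
    rw [hN, Matrix.sum_mulVec] at this
    rw [Finset.sum_congr rfl (fun i _ => hi i)] at this
    rw [Finset.sum_const, Finset.card_range, ← Nat.cast_smul_eq_nsmul F, hrF, one_smul] at this
    exact this
  have hW : W ≠ ⊥ := by
    intro hbot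
    apply h2
    have : ∀ v, B *ᵥ v = v := by
      intro v
      have hw : (B - 1) *ᵥ v ∈ W := by
        rw [hmem, Matrix.mulVec_mulVec, hNB, Matrix.zero_mulVec]
      rw [hbot, Submodule.mem_bot, Matrix.sub_mulVec, Matrix.one_mulVec, sub_eq_zero] at hw
      exact hw
    apply Matrix.ext_of_mulVec_single
    intro i
    rw [this, Matrix.one_mulVec]
  have hAinv : A ^ (r ^ e - 1) * A = 1 := by
    rw [← pow_succ, Nat.sub_add_cancel (Nat.one_le_pow _ _ hr.pos), h1]
  let X := ↥((W : Set (Fin n → F)) \ {0})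
  have hXmem : ∀ v : Fin n → F, v ∈ ((W : Set (Fin n → F)) \ {0}) → A *ᵥ v ∈ ((W : Set (Fin n → F)) \ {0}) := by
    rintro v ⟨hv, hv0⟩
    refine ⟨?_, ?_⟩
    · rw [SetLike.mem_coe, hmem] at hv ⊢
      rw [Matrix.mulVec_mulVec, ← hAN, ← Matrix.mulVec_mulVec, hv, Matrix.mulVec_zero]
    · intro h0
      apply hv0
      rw [Set.mem_singleton_iff] at h0 ⊢
      have := congrArg (fun w => A ^ (r ^ e - 1) *ᵥ w) h0
      simpa [Matrix.mulVec_mulVec, hAinv] using this
  let f : X → X := fun x => ⟨A *ᵥ x.1, hXmem x.1 x.2⟩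
  have hf : Function.Injective f := by
    intro x y hxy
    have h0 : A *ᵥ x.1 = A *ᵥ y.1 := congrArg Subtype.val hxy
    have := congrArg (fun w => A ^ (r ^ e - 1) *ᵥ w) h0
    apply Subtype.ext
    simpa [Matrix.mulVec_mulVec, hAinv] using this
  let T : Equiv.Perm X := Equiv.ofBijective f (Finite.injective_iff_bijective.mp hf)
  have hT : ∀ (j : ℕ) (x : X), ((T ^ j) x).1 = A ^ j *ᵥ x.1 := by
    intro j
    induction j with
    | zero => intro x; simp
    | succ j ih =>
      intro x
      rw [pow_succ, Equiv.Perm.mul_apply, ih, pow_succ, ← Matrix.mulVec_mulVec]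
      rfl
  have hdvd : r ^ e ∣ Nat.card X := by
    apply perm_dvd T r e hr he
    · ext x
      rw [hT, h1]; simp
    · intro x hx
      have h3 := congrArg Subtype.val hx
      rw [hT] at h3
      exact x.2.2 (hfix x.1 x.2.1 h3)
  refine ⟨Module.finrank F W, ?_, ?_, ?_⟩
  · by_contra h
    apply hW
    rw [← Submodule.finrank_eq_zero]
    omega
  · have := Submodule.finrank_le W
    rwa [Module.finrank_fin_fun] at this
  · have hc : Nat.card X = 2 ^ Module.finrank F W - 1 := by
      show Nat.card ↥((W : Set (Fin n → F)) \ {0}) = _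
      rw [Nat.card_coe_set_eq, Set.ncard_sdiff_singleton_of_mem (by simp)]
      congr 1
      rw [← Nat.card_coe_set_eq]
      show Nat.card W = _
      rw [Nat.card_eq_fintype_card, Module.card_eq_pow_finrank (K := F), hF]
    rwa [hc] at hdvd



variable {F : Type*} [Field F] [Fintype F]

theorem unit_eq_one (hF : Fintype.card F = 2) (x : F) (hx : x ≠ 0) : x = 1 := by
  classical
  have h1 : Fintype.card Fˣ = 1 := by rw [Fintype.card_units, hF]
  have : Subsingleton Fˣ := Fintype.card_le_one_iff_subsingleton.mp h1.le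
  have := Subsingleton.elim (Units.mk0 x hx) 1
  exact congrArg Units.val this

theorem mk_injective (hF : Fintype.card F = 2) (n : ℕ) :
    Function.Injective (QuotientGroup.mk' (Subgroup.center (Matrix.SpecialLinearGroup (Fin n) F))) := by
  rw [← MonoidHom.ker_eq_bot_iff, QuotientGroup.ker_mk', Subgroup.eq_bot_iff_forall]
  intro s hs
  rw [Matrix.SpecialLinearGroup.mem_center_iff] at hs
  obtain ⟨c, hc, hs⟩ := hs
  rcases eq_or_ne c 0 with rfl | hc0
  · rcases Nat.eq_zero_or_pos n with rfl | hn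
    · apply Subtype.ext
      exact Subsingleton.elim _ _
    · simp [hn.ne'] at hc
  · rw [unit_eq_one hF c hc0] at hs
    apply Subtype.ext
    rw [← hs]; simp

theorem exists_psl_of_gl (hF : Fintype.card F = 2) {n : ℕ} (A : GL (Fin n) F) :
    ∃ g : Matrix.ProjectiveSpecialLinearGroup (Fin n) F, orderOf g = orderOf A := by
  have hdet : A.1.det = 1 := by
    apply unit_eq_one hF
    have := (Matrix.isUnit_iff_isUnit_det A.1).mp A.isUnit
    exact this.ne_zero
  let s : Matrix.SpecialLinearGroup (Fin n) F := ⟨A.1, hdet⟩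
  refine ⟨QuotientGroup.mk' _ s, ?_⟩
  rw [orderOf_injective _ (mk_injective hF n)]
  have : Matrix.SpecialLinearGroup.toGL s = A := Units.ext rfl
  rw [← this]
  symm
  apply orderOf_injective
  intro a b hab
  apply Subtype.ext
  exact congrArg Units.val hab

theorem exists_order (hF : Fintype.card F = 2) {n : ℕ} (d : ℕ) (hd1 : 1 ≤ d) (hdn : d ≤ n) (o : ℕ)
    (ho : o ∣ 2 ^ d - 1) : ∃ g : Matrix.ProjectiveSpecialLinearGroup (Fin n) F, orderOf g = o := by
  classical
  haveI : Fact (Nat.Prime 2) := ⟨Nat.prime_two⟩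
  let K := GaloisField 2 d
  have hK : Nat.card K = 2 ^ d := GaloisField.card 2 d (by omega)
  haveI : Finite K := Nat.finite_of_card_ne_zero (by rw [hK]; positivity)
  haveI : Fintype K := Fintype.ofFinite K
  let ι : F →+* K := (algebraMap (ZMod 2) K).comp (ZMod.ringEquivOfPrime F Nat.prime_two hF).symm.toRingHom
  letI : Algebra F K := ι.toAlgebra
  have hfr : Module.finrank F K = d := by
    have h := Module.card_eq_pow_finrank (K := F) (V := K)
    rw [hF, ← Nat.card_eq_fintype_card, hK] at h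
    exact (Nat.pow_right_injective (le_refl 2) h).symm
  have hfr2 : Module.finrank F (K × (Fin (n - d) → F)) = Module.finrank F (Fin n → F) := by
    rw [Module.finrank_prod, hfr, Module.finrank_fin_fun, Module.finrank_fin_fun]; omega
  let e : (K × (Fin (n - d) → F)) ≃ₗ[F] (Fin n → F) := LinearEquiv.ofFinrankEq _ _ hfr2
  let Ψ : K →* Matrix (Fin n) (Fin n) F :=
    ((LinearMap.toMatrixAlgEquiv' (R := F) (n := Fin n)).toAlgHom.toRingHom.toMonoidHom).comp
      ((e.conjRingEquiv.toRingHom.toMonoidHom).comp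
        (((LinearMap.prodMapRingHom F K (Fin (n - d) → F)).toMonoidHom).comp
          ((MonoidHom.inl _ _).comp (Algebra.lmul F K).toRingHom.toMonoidHom)))
  have hΨ : Function.Injective Ψ := by
    intro a b hab
    have h1 : (LinearMap.toMatrixAlgEquiv' (R := F) (n := Fin n))
        (e.conjRingEquiv (LinearMap.prodMap (Algebra.lmul F K a) 1)) =
        (LinearMap.toMatrixAlgEquiv' (R := F) (n := Fin n))
        (e.conjRingEquiv (LinearMap.prodMap (Algebra.lmul F K b) 1)) := hab
    have h2 := e.conjRingEquiv.injective ((LinearMap.toMatrixAlgEquiv' (R := F) (n := Fin n)).injective h1)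
    have h3 := congrArg (fun T => (T (1, 0)).1) h2
    simpa using h3
  obtain ⟨ζ, hζ⟩ := IsCyclic.exists_ofOrder_eq_natCard (α := Kˣ)
  have hcu : Nat.card Kˣ = 2 ^ d - 1 := by
    rw [Nat.card_units, hK]
  rw [hcu] at hζ
  obtain ⟨m, hm⟩ := ho
  have hpos : 0 < 2 ^ d - 1 := by
    have : 2 ^ 1 ≤ 2 ^ d := Nat.pow_le_pow_right (by norm_num) hd1
    omega
  have hm0 : m ≠ 0 := by
    rintro rfl
    omega
  have ho0 : o ≠ 0 := by
    rintro rfl
    omega
  have hord : orderOf (ζ ^ m) = o := by
    rw [orderOf_pow_of_dvd hm0 (by rw [hζ, hm]; exact Dvd.intro_left _ rfl), hζ, hm]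
    exact Nat.mul_div_cancel _ (Nat.pos_of_ne_zero hm0)
  obtain ⟨g, hg⟩ := exists_psl_of_gl hF (Units.map Ψ (ζ ^ m))
  refine ⟨g, ?_⟩
  rw [hg, orderOf_injective _ (Units.map_injective hΨ), hord]







theorem exists_comp {G : Type*} [Group G] [Finite G] {k : ℕ} (x : Fin k → G) (r e : ℕ) (hr : r.Prime)
    (h : r ^ e ∣ orderOf x) : ∃ g : G, orderOf g = r ^ e := by
  haveI := Fact.mk hr
  rcases Nat.eq_zero_or_pos e with rfl | he
  · exact ⟨1, by simp⟩
  obtain ⟨e', rfl⟩ : ∃ e', e = e' + 1 := ⟨e - 1, by omega⟩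
  have hL : 0 < orderOf x := orderOf_pos x
  set z := x ^ (orderOf x / r ^ (e' + 1)) with hz
  have hzo : orderOf z = r ^ (e' + 1) := by
    rw [hz, orderOf_pow_of_dvd _ (Nat.div_dvd_of_dvd h), Nat.div_div_self h hL.ne']
    intro h0
    rw [Nat.div_eq_zero_iff] at h0
    rcases h0 with h0 | h0
    · exact (pow_pos hr.pos _).ne' h0
    · exact absurd (Nat.le_of_dvd hL h) (by omega)
  have h1 : z ^ (r ^ e') ≠ 1 := by
    intro h1
    rw [← orderOf_dvd_iff_pow_eq_one, hzo] at h1
    have := (Nat.pow_dvd_pow_iff_le_right hr.one_lt).mp h1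
    omega
  obtain ⟨i, hi⟩ := Function.ne_iff.mp h1
  refine ⟨z i, orderOf_eq_prime_pow hi ?_⟩
  have := congrFun (pow_orderOf_eq_one z) i
  rwa [hzo] at this

theorem main (hF : Fintype.card F = 2) (n k : ℕ) (hn : 2 ≤ n) (hk : (n + 3) / 2 ≤ k) :
    Set.range (orderOf : (Fin k → Matrix.ProjectiveSpecialLinearGroup (Fin n) F) → ℕ) = Set.range (orderOf : (Fin ((n + 3) / 2) → Matrix.ProjectiveSpecialLinearGroup (Fin n) F) → ℕ) := by
  classical
  apply Set.Subset.antisymm
  · rintro _ ⟨x, rfl⟩
    have hL : 0 < orderOf x := orderOf_pos x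
    obtain ⟨t, M, hM, hLM⟩ := Nat.exists_eq_pow_mul_and_not_dvd hL.ne' 2 (by norm_num)
    have hB : ∀ j : Fin ((n + 3) / 2), ∃ g : Matrix.ProjectiveSpecialLinearGroup (Fin n) F,
        orderOf g = if j.val = 0 then 2 ^ t else Nat.gcd (orderOf x) (2 ^ (n / 2 + j.val) - 1) := by
      intro j
      split_ifs with hj
      · exact exists_comp x 2 t Nat.prime_two (by rw [hLM]; exact Dvd.intro _ rfl)
      · have := j.2
        exact exists_order hF (n / 2 + j.val) (by omega) (by omega) _ (Nat.gcd_dvd_right _ _)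
    choose y hy using hB
    refine ⟨y, ?_⟩
    have hcomp : ∀ j, orderOf (y j) ∣ orderOf y := fun j =>
      orderOf_dvd_of_pow_eq_one (congrFun (pow_orderOf_eq_one y) j)
    apply Nat.dvd_antisymm
    · apply orderOf_dvd_of_pow_eq_one
      funext j
      show (y j) ^ _ = 1
      rw [← orderOf_dvd_iff_pow_eq_one, hy]
      split_ifs with hj
      · rw [hLM]; exact Dvd.intro _ rfl
      · exact Nat.gcd_dvd_left _ _
    · rw [Nat.dvd_iff_prime_pow_dvd_dvd]
      intro r e hr hre
      rcases eq_or_ne r 2 with rfl | hr2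
      · have h0 : 0 < (n + 3) / 2 := by omega
        refine dvd_trans ?_ (hcomp ⟨0, h0⟩)
        rw [hy, if_pos rfl]
        rw [hLM] at hre
        apply Nat.Coprime.dvd_of_dvd_mul_right _ hre
        apply Nat.Coprime.pow_left
        exact (Nat.Prime.coprime_iff_not_dvd Nat.prime_two).mpr hM
      · rcases Nat.eq_zero_or_pos e with rfl | he
        · simp
        obtain ⟨g, hg⟩ := exists_comp x r e hr hre
        obtain ⟨s, rfl⟩ := QuotientGroup.mk'_surjective _ g
        rw [orderOf_injective _ (mk_injective hF n)] at hg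
        obtain ⟨c, hc1, hcn, hc⟩ := exists_c hF s.1 r e hr hr2 he
          (by
            have := pow_orderOf_eq_one s
            rw [hg] at this
            have h2 := congrArg Subtype.val this
            simpa using h2)
          (by
            intro h
            have h2 : s ^ (r ^ (e - 1)) = 1 := by
              apply Subtype.ext
              simpa using h
            rw [← orderOf_dvd_iff_pow_eq_one, hg] at h2
            have := (Nat.pow_dvd_pow_iff_le_right hr.one_lt).mp h2
            omega)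
        set d := c * (n / c) with hd
        have h1 := Nat.div_add_mod n c
        have h2 := Nat.mod_lt n (show c > 0 by omega)
        have h3 : c ≤ d := Nat.le_mul_of_pos_right c (Nat.div_pos hcn (by omega))
        have hdn : d ≤ n := by omega
        have hdn2 : n / 2 < d := by omega
        have hdvd : 2 ^ c - 1 ∣ 2 ^ d - 1 := by
          have := Nat.sub_dvd_pow_sub_pow (2 ^ c) 1 (n / c)
          rwa [← pow_mul, one_pow] at this
        have hj : d - n / 2 < (n + 3) / 2 := by omega
        refine dvd_trans ?_ (hcomp ⟨d - n / 2, hj⟩)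
        rw [hy, if_neg (by simp; omega)]
        apply Nat.dvd_gcd hre
        have : n / 2 + (d - n / 2) = d := by omega
        simp only [this]
        exact dvd_trans hc hdvd
  · rintro _ ⟨y, rfl⟩
    refine ⟨fun i => if h : i.val < (n + 3) / 2 then y ⟨i.val, h⟩ else 1, ?_⟩
    rw [orderOf_eq_orderOf_iff]
    intro m
    constructor
    · intro h
      funext j
      have := congrFun h ⟨j.val, lt_of_lt_of_le j.2 hk⟩
      simpa using this
    · intro h
      funext i
      show (if h : i.val < (n + 3) / 2 then y ⟨i.val, h⟩ else 1) ^ m = 1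
      split_ifs with hi
      · exact congrFun h ⟨i.val, hi⟩
      · simp



/-- Let F be the field with two elements, n ≥ 2, L = PSL(n, F) and k₀ = ⌊(n + 3)/2⌋. Then for every k ≥ k₀ the direct product of k copies of L has the same set of element orders as the direct product of k₀ copies of L. -/
theorem result {F : Type*} [Field F] [Fintype F] (hF : Fintype.card F = 2) (n k : ℕ) (hn : 2 ≤ n) (hk : (n + 3) / 2 ≤ k) :
    Set.range (orderOf : (Fin k → Matrix.ProjectiveSpecialLinearGroup (Fin n) F) → ℕ) = Set.range (orderOf : (Fin ((n + 3) / 2) → Matrix.ProjectiveSpecialLinearGroup (Fin n) F) → ℕ) := by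
  exact main hF n k hn hk
end Cfsg.Agent.S2513
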