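import Cfsg.Statements.S2898
import Cfsg.Agent.Lib.Helper1.Cores
import Cfsg.Agent.Lib.Helper1.Glauberman
import Cfsg.Agent.Lib.Helper9.SylCard

set_option autoImplicit false
open Cfsg

namespace Cfsg.Agent.S2898

open Cfsg.Agent.Lib.Helper1

/-- an involution acting without fixed points on a finite normal subgroup inverts it -/
theorem inverts_of_fpf {G : Type*} [Group G] [Finite G] (O : Subgroup G) [hO : O.Normal] (z : G)
    (hz : z * z = 1) (hfix : ∀ x ∈ O, z * x * z⁻¹ = x → x = 1) :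
    ∀ x ∈ O, z * x * z⁻¹ = x⁻¹ := by
  have hzi : z⁻¹ = z := inv_eq_of_mul_eq_one_left hz
  let f : O → O := fun x => ⟨(x : G)⁻¹ * (z * x * z⁻¹), O.mul_mem (O.inv_mem x.2) (hO.conj_mem x x.2 z)⟩
  have hinj : Function.Injective f := by
    intro x y hxy
    have h1 : (x : G)⁻¹ * (z * x * z⁻¹) = (y : G)⁻¹ * (z * y * z⁻¹) := congrArg Subtype.val hxy
    have h2 : z * ((y : G) * (x : G)⁻¹) * z⁻¹ = (y : G) * (x : G)⁻¹ := by
      have h3 : z * (y : G) * z⁻¹ = (y : G) * ((x : G)⁻¹ * (z * x * z⁻¹)) := by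
        rw [h1]; group
      calc z * ((y : G) * (x : G)⁻¹) * z⁻¹ = (z * (y : G) * z⁻¹) * (z * x * z⁻¹)⁻¹ := by group
        _ = (y : G) * ((x : G)⁻¹ * (z * x * z⁻¹)) * (z * x * z⁻¹)⁻¹ := by rw [h3]
        _ = (y : G) * (x : G)⁻¹ := by group
    have h4 := hfix _ (O.mul_mem y.2 (O.inv_mem x.2)) h2
    apply Subtype.ext
    exact (mul_inv_eq_one.mp h4).symm
  have hsurj : Function.Surjective f := Finite.surjective_of_injective hinj
  intro y hy
  obtain ⟨x, hx⟩ := hsurj ⟨y, hy⟩
  have h1 : (x : G)⁻¹ * (z * x * z⁻¹) = y := congrArg Subtype.val hx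
  rw [← h1, hzi]
  have : z * ((x : G)⁻¹ * (z * x * z)) * z = z * (x : G)⁻¹ * z * x * (z * z) := by group
  rw [this, hz]
  have h5 : ((x : G)⁻¹ * (z * x * z))⁻¹ = z⁻¹ * (x : G)⁻¹ * z⁻¹ * x := by group
  rw [h5, hzi, mul_one]

/-- Let G be a finite group of even order with parabolic characteristic 2. If the centre of G ⧸ O(G) is trivial, then O(G) = 1. -/
theorem result {G : Type*} [Group G] [Finite G] (h2 : 2 ∣ Nat.card G) (hG : Cfsg.IsOfParabolicCharacteristic 2 G) [hN : (Cfsg.oddCore G).Normal] (hZ : Subgroup.center (G ⧸ Cfsg.oddCore G) = ⊥) : Cfsg.oddCore G = ⊥ := by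
  have h2f : Fact (Nat.Prime 2) := ⟨Nat.prime_two⟩
  have hOc : (Nat.card (Cfsg.oddCore G)).Coprime 2 := pPrimeCore_coprime 2
  obtain ⟨S⟩ : Nonempty (Sylow 2 G) := inferInstance
  -- step 1
  have step1 : ∀ R : Subgroup G, IsPGroup 2 R → R ≠ ⊥ →
      (S : Subgroup G) ≤ Subgroup.normalizer (R : Set G) →
      Cfsg.oddCore G ⊓ Subgroup.normalizer (R : Set G) = ⊥ := by
    intro R hR hR1 hS
    have hc := hG R hR hR1 ⟨S, hS⟩
    have hDn : ((Cfsg.oddCore G).subgroupOf (Subgroup.normalizer (R : Set G))).Normal :=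
      inferInstance
    have hDc : (Nat.card ((Cfsg.oddCore G).subgroupOf (Subgroup.normalizer (R : Set G)))).Coprime 2 := by
      rw [card_subgroupOf']
      exact Nat.Coprime.coprime_dvd_left (Subgroup.card_dvd_of_le inf_le_left) hOc
    have hQn := pCore_normal (G := Subgroup.normalizer (R : Set G)) 2
    obtain ⟨k, hk⟩ := IsPGroup.iff_card.mp (pCore_isPGroup (G := Subgroup.normalizer (R : Set G)) 2)
    have hdisj : Disjoint ((Cfsg.oddCore G).subgroupOf (Subgroup.normalizer (R : Set G)))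
        (pCore 2 (Subgroup.normalizer (R : Set G))) := by
      apply Subgroup.disjoint_of_coprime_natCard
      rw [hk]
      exact Nat.Coprime.pow_right k hDc
    have hcomm : (Cfsg.oddCore G).subgroupOf (Subgroup.normalizer (R : Set G)) ≤
        Subgroup.centralizer (pCore 2 (Subgroup.normalizer (R : Set G)) : Set _) := by
      intro x hx
      rw [Subgroup.mem_centralizer_iff]
      intro y hy
      exact (Subgroup.commute_of_normal_of_disjoint _ _ hDn hQn hdisj x y hx hy).eq.symm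
    have hbot : (Cfsg.oddCore G).subgroupOf (Subgroup.normalizer (R : Set G)) = ⊥ := by
      rw [eq_bot_iff]
      intro x hx
      exact hdisj.le_bot ⟨hx, hc (hcomm hx)⟩
    exact (Subgroup.subgroupOf_eq_bot.mp hbot).eq_bot
  -- step 2: a central involution of S
  have hSne : Nontrivial (S : Subgroup G) := by
    have h1 := S.card_eq_multiplicity
    have h3 : 1 ≤ (Nat.card G).factorization 2 :=
      (Nat.prime_two.dvd_iff_one_le_factorization Nat.card_pos.ne').mp h2
    have h4 : 1 < Nat.card (S : Subgroup G) := by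
      rw [h1]
      exact Nat.one_lt_pow (by omega) (by norm_num)
    exact Finite.one_lt_card_iff_nontrivial.mp h4
  have hcen : Nontrivial (Subgroup.center (S : Subgroup G)) := S.isPGroup'.center_nontrivial
  have hcen2 : 2 ∣ Nat.card (Subgroup.center (S : Subgroup G)) := by
    obtain ⟨k, hk⟩ := IsPGroup.iff_card.mp
      (S.isPGroup'.to_subgroup (Subgroup.center (S : Subgroup G)))
    have h4 : 1 < Nat.card (Subgroup.center (S : Subgroup G)) :=
      Finite.one_lt_card_iff_nontrivial.mpr hcen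
    rw [hk] at h4 ⊢
    rcases Nat.eq_zero_or_pos k with rfl | hk0
    · simp at h4
    · exact dvd_pow_self 2 hk0.ne'
  obtain ⟨z0, hz0⟩ := exists_prime_orderOf_dvd_card' 2 hcen2
  set z : G := ((z0 : (S : Subgroup G)) : G) with hzdef
  have hzo : orderOf z = 2 := by
    rw [hzdef, Subgroup.orderOf_coe, Subgroup.orderOf_coe, hz0]
  have hzz : z * z = 1 := by
    rw [← pow_two, ← hzo, pow_orderOf_eq_one]
  have hz1 : z ≠ 1 := by
    intro h
    rw [h, orderOf_one] at hzo
    omega
  have hzS : ∀ s ∈ (S : Subgroup G), s * z = z * s := by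
    intro s hs
    have := (Subgroup.mem_center_iff.mp z0.2) ⟨s, hs⟩
    exact congrArg Subtype.val this
  have hzi : z⁻¹ = z := inv_eq_of_mul_eq_one_left hzz
  have hfix : ∀ x ∈ Cfsg.oddCore G, z * x * z⁻¹ = x → x = 1 := by
    intro x hx hxz
    have h1 := step1 (Subgroup.zpowers z) (by
        apply IsPGroup.of_card (n := 1)
        rw [Nat.card_zpowers, hzo, pow_one]) (by
        rw [Ne, Subgroup.zpowers_eq_bot]; exact hz1) (by
        intro s hs
        have h3 : s ∈ Subgroup.centralizer ((Subgroup.zpowers z : Subgroup G) : Set G) := by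
          rw [Subgroup.mem_centralizer_iff]
          intro y hy
          obtain ⟨n, rfl⟩ := Subgroup.mem_zpowers_iff.mp hy
          exact ((Commute.zpow_right (show Commute s z from hzS s hs) n).eq).symm
        exact Subgroup.centralizer_le_normalizer _ h3)
    have h2 : x ∈ Cfsg.oddCore G ⊓ Subgroup.normalizer ((Subgroup.zpowers z : Subgroup G) : Set G) := by
      refine ⟨hx, Subgroup.centralizer_le_normalizer _ ?_⟩
      rw [Subgroup.mem_centralizer_iff]
      intro y hy
      obtain ⟨n, rfl⟩ := Subgroup.mem_zpowers_iff.mp hy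
      have h4 : Commute x z := by
        show x * z = z * x
        calc x * z = (z * x * z⁻¹) * z := by rw [hxz]
          _ = z * x := by group
      exact ((Commute.zpow_right h4 n).eq).symm
    rw [h1] at h2
    exact Subgroup.mem_bot.mp h2
  have hinv := inverts_of_fpf (Cfsg.oddCore G) z hzz hfix
  -- step 4
  have hcommC : ∀ g : G, z * g * z⁻¹ * g⁻¹ ∈ Subgroup.centralizer (Cfsg.oddCore G : Set G) := by
    intro g
    rw [Subgroup.mem_centralizer_iff]
    intro x hx
    have hy : g⁻¹ * x * g ∈ Cfsg.oddCore G := by simpa using hN.conj_mem x hx g⁻¹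
    have h1 := hinv _ hy
    have h2 := hinv _ hx
    have h3 : z * g * z⁻¹ * g⁻¹ * x * (z * g * z⁻¹ * g⁻¹)⁻¹ = x := by
      have e1 : z⁻¹ * (g⁻¹ * x * g) * z = (g⁻¹ * x * g)⁻¹ := by
        rw [hzi]; rw [hzi] at h1; exact h1
      calc z * g * z⁻¹ * g⁻¹ * x * (z * g * z⁻¹ * g⁻¹)⁻¹
          = z * (g * (z⁻¹ * (g⁻¹ * x * g) * z) * g⁻¹) * z⁻¹ := by group
        _ = z * (g * (g⁻¹ * x * g)⁻¹ * g⁻¹) * z⁻¹ := by rw [e1]
        _ = (z * x * z⁻¹)⁻¹ := by group
        _ = x := by rw [h2, inv_inv]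
    calc x * (z * g * z⁻¹ * g⁻¹)
        = (z * g * z⁻¹ * g⁻¹ * x * (z * g * z⁻¹ * g⁻¹)⁻¹) * (z * g * z⁻¹ * g⁻¹) := by rw [h3]
      _ = z * g * z⁻¹ * g⁻¹ * x := by group
  have hCn : (Subgroup.centralizer (Cfsg.oddCore G : Set G)).Normal := inferInstance
  by_cases hC2 : 2 ∣ Nat.card (Subgroup.centralizer (Cfsg.oddCore G : Set G))
  · have hcard := Cfsg.Agent.Lib.Helper9.SylCard.card_sylow_inf_normal S
      (Subgroup.centralizer (Cfsg.oddCore G : Set G))
    have h3 : 1 ≤ (Nat.card (Subgroup.centralizer (Cfsg.oddCore G : Set G))).factorization 2 :=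
      (Nat.prime_two.dvd_iff_one_le_factorization Nat.card_pos.ne').mp hC2
    have hRne : (S : Subgroup G) ⊓ Subgroup.centralizer (Cfsg.oddCore G : Set G) ≠ ⊥ := by
      intro h
      rw [h, Subgroup.card_bot] at hcard
      have : 1 < 2 ^ (Nat.card (Subgroup.centralizer (Cfsg.oddCore G : Set G))).factorization 2 :=
        Nat.one_lt_pow (by omega) (by norm_num)
      omega
    have h1 := step1 _ (S.isPGroup'.to_le inf_le_left) hRne (by
      intro s hs
      rw [Subgroup.mem_normalizer_iff]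
      intro x
      constructor
      · intro hx
        exact ⟨S.1.mul_mem (S.1.mul_mem hs hx.1) (S.1.inv_mem hs), hCn.conj_mem x hx.2 s⟩
      · intro hx
        have e : x = s⁻¹ * (s * x * s⁻¹) * s⁻¹⁻¹ := by group
        rw [e]
        exact ⟨S.1.mul_mem (S.1.mul_mem (S.1.inv_mem hs) hx.1) (S.1.inv_mem (S.1.inv_mem hs)),
          hCn.conj_mem _ hx.2 s⁻¹⟩)
    rw [← h1]
    apply le_antisymm _ inf_le_left
    apply le_inf le_rfl
    intro x hx
    apply Subgroup.centralizer_le_normalizer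
    rw [Subgroup.mem_centralizer_iff]
    intro y hy
    exact ((Subgroup.mem_centralizer_iff.mp hy.2) x hx).symm
  · exfalso
    have hCO : Subgroup.centralizer (Cfsg.oddCore G : Set G) ≤ Cfsg.oddCore G :=
      le_pPrimeCore hCn ((Nat.Prime.coprime_iff_not_dvd Nat.prime_two).mpr hC2).symm
    have hzc : (QuotientGroup.mk z : G ⧸ Cfsg.oddCore G) ∈ Subgroup.center (G ⧸ Cfsg.oddCore G) := by
      rw [Subgroup.mem_center_iff]
      intro y
      induction y using QuotientGroup.induction_on with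
      | H g =>
        rw [← QuotientGroup.mk_mul, ← QuotientGroup.mk_mul, QuotientGroup.eq]
        have h1 := hCO (hcommC g)
        have h2 := hN.conj_mem _ h1 (g * z)⁻¹
        have e : (g * z)⁻¹ * (z * g * z⁻¹ * g⁻¹) * (g * z)⁻¹⁻¹ = (g * z)⁻¹ * (z * g) := by group
        rwa [e] at h2
    rw [hZ, Subgroup.mem_bot, QuotientGroup.eq_one_iff] at hzc
    have h1 : orderOf z ∣ Nat.card (Cfsg.oddCore G) := by
      have := orderOf_dvd_natCard (⟨z, hzc⟩ : Cfsg.oddCore G)
      rwa [← Subgroup.orderOf_coe] at this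
    rw [hzo] at h1
    have := Nat.Coprime.eq_one_of_dvd hOc.symm h1
    omega

end Cfsg.Agent.S2898
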