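import Cfsg.Statements.S2907
import Mathlib

set_option autoImplicit false
open Cfsg

namespace Cfsg.Agent.S2907

/-- Let X be a finite semi-extraspecial p-group and x an element of X outside the centre. Then the index of C_X(x) in X equals the order of Z(X), and the commutators [x, y], y ∈ X, form exactly the centre Z(X). -/
theorem result {X : Type*} [Group X] [Finite X] {p : ℕ} [Fact p.Prime] (hX : Cfsg.IsSemiExtraspecial p X) (x : X) (hx : x ∉ Subgroup.center X) : (Subgroup.centralizer ({x} : Set X)).index = Nat.card ↥(Subgroup.center X) ∧ {z : X | ∃ y : X, z = x * y * x⁻¹ * y⁻¹} = (Subgroup.center X : Set X) := by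
  classical
  have hcc : ∀ a b : X, a * b * a⁻¹ * b⁻¹ ∈ Subgroup.center X := by
    intro a b
    rw [← hX.1.2.2, commutator_def, ← commutatorElement_def]
    exact Subgroup.commutator_mem_commutator (Subgroup.mem_top a) (Subgroup.mem_top b)
  let φ : X →* X := MonoidHom.mk' (fun y => x * y * x⁻¹ * y⁻¹) (by
    intro a b
    have h1 := Subgroup.mem_center_iff.mp (hcc x b) a
    calc x * (a * b) * x⁻¹ * (a * b)⁻¹ = x * a * x⁻¹ * (x * b * x⁻¹ * b⁻¹) * a⁻¹ := by group
      _ = x * a * x⁻¹ * ((x * b * x⁻¹ * b⁻¹) * a⁻¹) := by group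
      _ = x * a * x⁻¹ * (a⁻¹ * (x * b * x⁻¹ * b⁻¹)) := by
          rw [Subgroup.mem_center_iff.mp (hcc x b) a⁻¹]
      _ = x * a * x⁻¹ * a⁻¹ * (x * b * x⁻¹ * b⁻¹) := by group)
  have hφ : ∀ y, φ y = x * y * x⁻¹ * y⁻¹ := fun y => rfl
  have hrle : φ.range ≤ Subgroup.center X := by
    rintro _ ⟨y, rfl⟩
    exact hcc x y
  have hker : φ.ker = Subgroup.centralizer ({x} : Set X) := by
    ext y
    rw [MonoidHom.mem_ker, hφ, Subgroup.mem_centralizer_singleton_iff]
    constructor
    · intro h
      have h2 : x * y = (x * y * x⁻¹ * y⁻¹) * (y * x) := by group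
      rw [h, one_mul] at h2
      exact h2.symm
    · intro h
      have h2 : x * y * x⁻¹ * y⁻¹ = (x * y) * (y * x)⁻¹ := by group
      rw [h2, h, mul_inv_cancel]
  have hrange : φ.range = Subgroup.center X := by
    by_contra hne
    have hR : φ.range.subgroupOf (Subgroup.center X) ≠ ⊤ := by
      intro h
      exact hne (le_antisymm hrle (Subgroup.subgroupOf_eq_top.mp h))
    rcases eq_top_or_exists_le_coatom (φ.range.subgroupOf (Subgroup.center X)) with h | ⟨Y', hY'co, hRY'⟩
    · exact hR h
    have hYZ : Y'.map (Subgroup.center X).subtype ≤ Subgroup.center X := Subgroup.map_subtype_le _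
    have hYsub : (Y'.map (Subgroup.center X).subtype).subgroupOf (Subgroup.center X) = Y' :=
      Subgroup.comap_map_eq_self_of_injective (Subgroup.subtype_injective _) _
    obtain ⟨hYn, hext⟩ := hX.2 (Y'.map (Subgroup.center X).subtype) hYZ (by rw [hYsub]; exact hY'co)
    have hmemY : ∀ y, x * y * x⁻¹ * y⁻¹ ∈ Y'.map (Subgroup.center X).subtype := by
      intro y
      refine ⟨⟨x * y * x⁻¹ * y⁻¹, hcc x y⟩, hRY' ?_, rfl⟩
      exact ⟨y, rfl⟩
    have hxc : (QuotientGroup.mk' (Y'.map (Subgroup.center X).subtype) x) ∈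
        Subgroup.center (X ⧸ Y'.map (Subgroup.center X).subtype) := by
      rw [Subgroup.mem_center_iff]
      intro yb
      obtain ⟨y, rfl⟩ := QuotientGroup.mk'_surjective _ yb
      have h2 : x * y = (x * y * x⁻¹ * y⁻¹) * (y * x) := by group
      have h3 : QuotientGroup.mk' (Y'.map (Subgroup.center X).subtype) (x * y * x⁻¹ * y⁻¹) = 1 :=
        (QuotientGroup.eq_one_iff _).mpr (hmemY y)
      have h6 : QuotientGroup.mk' (Y'.map (Subgroup.center X).subtype) (x * y) =
          QuotientGroup.mk' (Y'.map (Subgroup.center X).subtype) (y * x) := by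
        rw [h2, map_mul, h3, one_mul]
      rw [← map_mul, ← map_mul]
      exact h6.symm
    rw [← hext.1.2.2, commutator_def,
      ← Subgroup.map_top_of_surjective _ (QuotientGroup.mk'_surjective _),
      ← Subgroup.map_commutator, ← commutator_def, hX.1.2.2] at hxc
    obtain ⟨z, hz, hzx⟩ := hxc
    have h4 : z⁻¹ * x ∈ Y'.map (Subgroup.center X).subtype := QuotientGroup.eq.mp hzx
    apply hx
    have h5 : x = z * (z⁻¹ * x) := by group
    rw [h5]
    exact mul_mem hz (hYZ h4)
  constructor
  · rw [← hker, Subgroup.index_ker, hrange]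
  · ext z
    rw [← hrange]
    constructor
    · rintro ⟨y, rfl⟩; exact ⟨y, rfl⟩
    · rintro ⟨y, rfl⟩; exact ⟨y, rfl⟩

end Cfsg.Agent.S2907
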