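import Cfsg.Statements.S2909
import Cfsg.Agent.S2908
import Cfsg.Agent.Lib.Helper3.CopGen
import Cfsg.Agent.Lib.Helper3.EA
import Cfsg.Agent.Lib.Helper6.PAct
open Cfsg.Agent.Lib.Helper1 Cfsg.Agent.Lib.Helper3 Cfsg.Agent.Lib.Helper3.PLocal
open scoped commutatorElement Pointwise

set_option autoImplicit false
open Cfsg

namespace Cfsg.Agent.S2909

/-- the elements normalizing `F` and acting trivially on `E` modulo `F` -/
def trivOn {G : Type*} [Group G] (E F : Subgroup G) : Subgroup G where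
  carrier := {g | g ∈ Subgroup.normalizer (F : Set G) ∧ ∀ e ∈ E, ⁅e, g⁆ ∈ F}
  one_mem' := ⟨Subgroup.one_mem _, fun e _ => by
    rw [commutatorElement_def]; simp⟩
  mul_mem' := by
    rintro g h ⟨hg, hg'⟩ ⟨hh, hh'⟩
    refine ⟨Subgroup.mul_mem _ hg hh, fun e he => ?_⟩
    have e1 : ⁅e, g * h⁆ = ⁅e, g⁆ * (g * ⁅e, h⁆ * g⁻¹) := by
      simp only [commutatorElement_def]; group
    rw [e1]
    exact F.mul_mem (hg' e he) ((Subgroup.mem_normalizer_iff.1 hg _).1 (hh' e he))
  inv_mem' := by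
    rintro g ⟨hg, hg'⟩
    refine ⟨Subgroup.inv_mem _ hg, fun e he => ?_⟩
    have e1 : ⁅e, g⁻¹⁆ = g⁻¹ * (⁅e, g⁆)⁻¹ * g⁻¹⁻¹ := by
      simp only [commutatorElement_def]; group
    rw [e1]
    exact (Subgroup.mem_normalizer_iff.1 (Subgroup.inv_mem _ hg) _).1 (F.inv_mem (hg' e he))

theorem comm_zpowers {G : Type*} [Group G] {u y : G} (h : u * y = y * u) :
    ⁅Subgroup.zpowers u, Subgroup.zpowers y⁆ = ⊥ := by
  rw [Subgroup.commutator_eq_bot_iff_le_centralizer, Subgroup.zpowers_le,
    Subgroup.mem_centralizer_iff]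
  rintro _ ⟨k, rfl⟩
  have : Commute u y := h
  exact (this.zpow_right k).eq.symm

/-- Let p be a prime, E a normal p-subgroup of the finite group G, and U a non-cyclic elementary abelian p-subgroup of G such that either C_E(U) = C_E(u) for every nontrivial u ∈ U, or [E, U] = [E, ⟨u⟩] for every nontrivial u ∈ U. If R is a subgroup of order prime to p normalized by U, then [R, U] centralizes E. -/
theorem result {G : Type*} [Group G] [Finite G] {p : ℕ} [Fact p.Prime] (E : Subgroup G) [E.Normal] (hE : IsPGroup p ↥E) (U : Subgroup G) (hU : Cfsg.IsElementaryAbelian p U) (hnc : ¬ IsCyclic ↥U) (hcond : (∀ u ∈ U, u ≠ 1 → E ⊓ Subgroup.centralizer (U : Set G) = E ⊓ Subgroup.centralizer ({u} : Set G)) ∨ (∀ u ∈ U, u ≠ 1 → ⁅E, U⁆ = ⁅E, Subgroup.zpowers u⁆)) (R : Subgroup G) (hR : ¬ p ∣ Nat.card ↥R) (hRU : U ≤ Subgroup.normalizer (R : Set G)) : ⁅R, U⁆ ≤ Subgroup.centralizer (E : Set G) := by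
  classical
  have hp : p.Prime := Fact.out
  have hUc : IsMulCommutative U := hU.1
  have hUp : IsPGroup p U := ea_isPGroup hU
  have hcop : (Nat.card U).Coprime (Nat.card R) := by
    obtain ⟨n, hn⟩ := IsPGroup.iff_card.1 hUp
    rw [hn]
    exact Nat.Coprime.pow_left _ ((Nat.Prime.coprime_iff_not_dvd hp).2 hR)
  have hEn : ∀ g : G, g ∈ Subgroup.normalizer (E : Set G) := by
    intro g
    rw [Subgroup.normalizer_eq_top]
    exact Subgroup.mem_top g
  rw [← Cfsg.Agent.Lib.Helper3.CopGen.genC U R hUc hRU hcop]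
  apply iSup₂_le
  rintro B ⟨hBU, a, ha, hsup⟩
  have hBne : B ≠ ⊥ := by
    rintro rfl
    rw [bot_sup_eq] at hsup
    apply hnc
    rw [← hsup]
    infer_instance
  obtain ⟨⟨u, hu⟩, hu1'⟩ := (Subgroup.ne_bot_iff_exists_ne_one.1 hBne)
  have hu1 : u ≠ 1 := fun h => hu1' (Subtype.ext h)
  have huU : u ∈ U := hBU hu
  rw [Subgroup.commutator_le]
  intro r hr v hv
  have hru : u * r = r * u := (Subgroup.mem_centralizer_iff.1 hr.2) u hu
  have hvu : u * v = v * u := ea_comm hU huU hv
  have hru' : u * r⁻¹ = r⁻¹ * u := by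
    calc u * r⁻¹ = r⁻¹ * (r * u) * r⁻¹ := by group
      _ = r⁻¹ * (u * r) * r⁻¹ := by rw [hru]
      _ = r⁻¹ * u := by group
  have hvu' : u * v⁻¹ = v⁻¹ * u := by
    calc u * v⁻¹ = v⁻¹ * (v * u) * v⁻¹ := by group
      _ = v⁻¹ * (u * v) * v⁻¹ := by rw [hvu]
      _ = v⁻¹ * u := by group
  set y : G := ⁅r, v⁆ with hy
  have hyu : u * y = y * u := by
    rw [hy, commutatorElement_def]
    calc u * (r * v * r⁻¹ * v⁻¹) = (u * r) * v * r⁻¹ * v⁻¹ := by group
      _ = r * (u * v) * r⁻¹ * v⁻¹ := by rw [hru]; group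
      _ = r * v * (u * r⁻¹) * v⁻¹ := by rw [hvu]; group
      _ = r * v * r⁻¹ * (u * v⁻¹) := by rw [hru']; group
      _ = r * v * r⁻¹ * v⁻¹ * u := by rw [hvu']; group
  have hyR : y ∈ R := commutator_le_of_le_normalizer hRU (Subgroup.commutator_mem_commutator hr.1 hv)
  have hyo : (orderOf y).Coprime p :=
    Nat.Coprime.coprime_dvd_left (Subgroup.orderOf_dvd_natCard _ hyR)
      ((Nat.Prime.coprime_iff_not_dvd hp).2 hR).symm
  have hup : IsPGroup p (Subgroup.zpowers u) := hUp.to_le (Subgroup.zpowers_le.2 huU)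
  rcases hcond with hcond | hcond
  · refine Cfsg.Agent.Lib.Helper6.PAct.thompson_AxB (p := p) (R := E) (B := Subgroup.zpowers u)
      (x := y) hE hup (fun g _ => hEn g) (hEn y) ?_ hyo ?_
    · rw [Subgroup.mem_centralizer_iff]
      rintro _ ⟨k, rfl⟩
      have : Commute u y := hyu
      exact (this.zpow_left k).eq
    · rw [Subgroup.mem_centralizer_iff]
      intro w hw
      have hwu : u * w = w * u := (Subgroup.mem_centralizer_iff.1 hw.2) u (Subgroup.mem_zpowers u)
      have key : ∀ w' ∈ E, u * w' = w' * u → v * w' = w' * v := by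
        intro w' hw' h
        have h1 : w' ∈ E ⊓ Subgroup.centralizer ({u} : Set G) := by
          refine Subgroup.mem_inf.2 ⟨hw', ?_⟩
          rw [Subgroup.mem_centralizer_iff]
          intro z hz
          rw [Set.mem_singleton_iff.1 hz]
          exact h
        rw [← hcond u huU hu1] at h1
        exact (Subgroup.mem_centralizer_iff.1 h1.2) v hv
      have h1 : v * w = w * v := key w hw.1 hwu
      have h2 : v * (r⁻¹ * w * r) = (r⁻¹ * w * r) * v := by
        apply key
        · have := (inferInstance : E.Normal).conj_mem w hw.1 r⁻¹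
          simpa using this
        · calc u * (r⁻¹ * w * r) = (u * r⁻¹) * w * r := by group
            _ = r⁻¹ * (u * w) * r := by rw [hru']; group
            _ = r⁻¹ * w * (u * r) := by rw [hwu]; group
            _ = r⁻¹ * w * r * u := by rw [hru]; group
      have h1' : v⁻¹ * w = w * v⁻¹ := by
        calc v⁻¹ * w = v⁻¹ * (w * v) * v⁻¹ := by group
          _ = v⁻¹ * (v * w) * v⁻¹ := by rw [h1]
          _ = w * v⁻¹ := by group
      rw [hy, commutatorElement_def]
      calc w * (r * v * r⁻¹ * v⁻¹) = r * ((r⁻¹ * w * r) * v) * r⁻¹ * v⁻¹ := by group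
        _ = r * (v * (r⁻¹ * w * r)) * r⁻¹ * v⁻¹ := by rw [h2]
        _ = r * v * r⁻¹ * (w * v⁻¹) := by group
        _ = r * v * r⁻¹ * (v⁻¹ * w) := by rw [h1']
        _ = r * v * r⁻¹ * v⁻¹ * w := by group
  · set F : Subgroup G := ⁅E, U⁆ with hF
    have hFu : F = ⁅E, Subgroup.zpowers u⁆ := hcond u huU hu1
    have hUF : U ≤ Subgroup.normalizer (F : Set G) :=
      le_normalizer_commutator_right (fun g _ => hEn g)
    have hrF : r ∈ Subgroup.normalizer (F : Set G) := by
      rw [hFu]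
      have h1 : Subgroup.zpowers r ≤ Subgroup.normalizer
          ((⁅E, Subgroup.zpowers u⁆ : Subgroup G) : Set G) := by
        apply Cfsg.Agent.S2908.norm_comm (fun g _ => hEn g)
        apply Cfsg.Agent.S2908.norm_of_comm_bot
        exact comm_zpowers hru.symm
      exact h1 (Subgroup.mem_zpowers r)
    have hvT : v ∈ trivOn E F :=
      ⟨hUF hv, fun e he => Subgroup.commutator_mem_commutator he hv⟩
    have hrvT : r * v * r⁻¹ ∈ trivOn E F := by
      refine ⟨Subgroup.mul_mem _ (Subgroup.mul_mem _ hrF (hUF hv)) (Subgroup.inv_mem _ hrF), ?_⟩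
      intro e he
      have e1 : ⁅e, r * v * r⁻¹⁆ = r * ⁅r⁻¹ * e * r, v⁆ * r⁻¹ := by
        simp only [commutatorElement_def]; group
      rw [e1]
      apply (Subgroup.mem_normalizer_iff.1 hrF _).1
      apply Subgroup.commutator_mem_commutator _ hv
      have := (inferInstance : E.Normal).conj_mem e he r⁻¹
      simpa using this
    have hyT : y ∈ trivOn E F := by
      have e1 : y = (r * v * r⁻¹) * v⁻¹ := by rw [hy, commutatorElement_def]
      rw [e1]
      exact Subgroup.mul_mem _ hrvT (Subgroup.inv_mem _ hvT)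
    have hle : ⁅E, Subgroup.zpowers y⁆ ≤ ⁅E, Subgroup.zpowers u⁆ := by
      rw [← hFu, Subgroup.commutator_le]
      intro e he g hg
      exact ((Subgroup.zpowers_le.2 hyT) hg).2 e he
    have hyB : ¬ p ∣ Nat.card (Subgroup.zpowers y) := by
      rw [Nat.card_zpowers]
      exact fun h => (Nat.Prime.coprime_iff_not_dvd hp).1 hyo.symm h
    have h0 := Cfsg.Agent.S2908.result (p := p) E (Subgroup.zpowers u) (Subgroup.zpowers y) hE hup hyB
      (fun g _ => hEn g) (fun g _ => hEn g) (comm_zpowers hyu) hle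
    rw [Subgroup.commutator_comm, Subgroup.commutator_eq_bot_iff_le_centralizer] at h0
    exact h0 (Subgroup.mem_zpowers y)

end Cfsg.Agent.S2909
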