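import Cfsg.Statements.S2910
import Cfsg.Agent.Lib.Helper1.Bridge
open Cfsg.Agent.Lib.Helper1

set_option autoImplicit false
open Cfsg

namespace Cfsg.Agent.S2910

/-- Let p be an odd prime dividing the order of the finite group G and P a Sylow p-subgroup of G. If Ω₁(P) (generated by the elements of order dividing p) is contained in the centre of G, then G has a normal p-complement. In particular, if G is quasisimple then Ω₁(P) is not central in G. -/
theorem result {G : Type*} [Group G] [Finite G] {p : ℕ} [Fact p.Prime] (hp : p ≠ 2) (hdiv : p ∣ Nat.card G) (P : Sylow p G) (hZ : Cfsg.omegaOne p (P : Subgroup G) ≤ Subgroup.center G) : Cfsg.HasNormalPComplement p G ∧ ¬ Cfsg.IsQuasisimple G := by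
  have hpp : p.Prime := Fact.out
  have hF : FrobHyp p G := by
    apply frobHyp_of_sylow P
    intro Q hQP g hg hcop
    apply mem_centralizer_of_small_order Q (P.2.to_le hQP) g hg hcop (dvd_refl p)
      (hpp.dvd_choose_self (by norm_num) (lt_of_le_of_ne hpp.two_le (Ne.symm hp)))
    intro x hx hxp
    have : x ∈ Subgroup.center G := hZ (Subgroup.subset_closure ⟨hQP hx, hxp⟩)
    exact (Subgroup.mem_center_iff.mp this g)
  have hN := hasNormalPComplement_of_frobHyp hF
  refine ⟨hN, ?_⟩
  rintro ⟨hperf, -⟩
  have hc := hasNormalPComplement_iff.mp hN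
  haveI : (Cfsg.pResidual p G).Normal := pResidual_normal p
  have hpg : IsPGroup p (G ⧸ Cfsg.pResidual p G) := isPGroup_quotient_pResidual _ le_rfl
  have hnt : Nontrivial (G ⧸ Cfsg.pResidual p G) := by
    rw [QuotientGroup.nontrivial_iff]
    intro htop
    rw [htop, Subgroup.card_top] at hc
    exact hpp.one_lt.ne' (Nat.Coprime.eq_one_of_dvd hc.symm hdiv)
  haveI := hpg.isNilpotent
  exact Group.IsPerfect.not_isSolvable (G := G ⧸ Cfsg.pResidual p G) inferInstance

end Cfsg.Agent.S2910
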