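import Cfsg.Statements.S2925
import Cfsg.Agent.Lib.Helper6.Ores
import Cfsg.Agent.Lib.Helper3.PStab

set_option autoImplicit false
open Cfsg

namespace Cfsg.Agent.S2925

open Cfsg.Agent.Lib.Helper6.Basic Cfsg.Agent.Lib.Helper6.Subn Cfsg.Agent.Lib.Helper6.Quasi Cfsg.Agent.Lib.Helper6.Comp Cfsg.Agent.Lib.Helper6.FStar Cfsg.Agent.Lib.Helper6.Ores Cfsg.Agent.Lib.Helper3.PStab

/-- Let K be a component of the finite group X and T a Sylow 2-subgroup of X. If some abelian normal subgroup Y of T does not normalize K, then K ⧸ Z(K) has abelian Sylow 2-subgroups. -/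
theorem result {X : Type*} [Group X] [Finite X] (K : Subgroup X) (hK : Cfsg.IsComponent K) (T : Sylow 2 X) (Y : Subgroup X) (hYT : Y ≤ (T : Subgroup X)) (hYn : (Y.subgroupOf (T : Subgroup X)).Normal) (hYab : IsMulCommutative ↥Y) (hnot : ¬ Y ≤ Subgroup.normalizer (K : Set X)) (P : Sylow 2 (↥K ⧸ Subgroup.center ↥K)) : IsMulCommutative ↥(P : Subgroup (↥K ⧸ Subgroup.center ↥K)) := by
  have hKc : CompIn K ⊤ := isComponent_iff.mp hK
  obtain ⟨y, hyY, hyN⟩ := SetLike.not_le_iff_exists.mp hnot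
  have hne : K ≠ cj y K := fun he => hyN (cj_eq_self_iff.mp he.symm)
  have hK' : CompIn (cj y K) ⊤ := by
    have := hKc.cj y
    rwa [show cj y (⊤ : Subgroup X) = ⊤ from by
      rw [eq_top_iff]; intro x _; exact mem_cj.mpr (Subgroup.mem_top _)] at this
  have hcomm : cj y K ≤ Cz K := hKc.comm hK' hne
  -- commutators of elements of `T ∩ K` are central in `K`
  have key : ∀ a ∈ (T : Subgroup X) ⊓ K, ∀ b ∈ (T : Subgroup X) ⊓ K, a * b * a⁻¹ * b⁻¹ ∈ Cz K := by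
    intro a ha b hb
    have hw : ∀ c ∈ (T : Subgroup X) ⊓ K, c⁻¹ * (y * c * y⁻¹) ∈ Y := by
      intro c hc
      have h1 := hYn.conj_mem ⟨y, hYT hyY⟩ (Subgroup.mem_subgroupOf.mpr hyY) ⟨c⁻¹, (T : Subgroup X).inv_mem hc.1⟩
      have h2 : c⁻¹ * y * c⁻¹⁻¹ ∈ Y := Subgroup.mem_subgroupOf.mp h1
      have h3 := Y.mul_mem h2 (Y.inv_mem hyY)
      have e : c⁻¹ * (y * c * y⁻¹) = c⁻¹ * y * c⁻¹⁻¹ * y⁻¹ := by group
      rw [e]; exact h3
    have hc' : ∀ c ∈ (T : Subgroup X) ⊓ K, y * c * y⁻¹ ∈ cj y K := fun c hc => ⟨c, hc.2, rfl⟩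
    set a' := y * a * y⁻¹ with ha'
    set b' := y * b * y⁻¹ with hb'
    have e0 : (a⁻¹ * a') * (b⁻¹ * b') = (b⁻¹ * b') * (a⁻¹ * a') :=
      congrArg Subtype.val (hYab.is_comm.comm ⟨_, hw a ha⟩ ⟨_, hw b hb⟩)
    have ca : ∀ k ∈ K, k * a' = a' * k := fun k hk =>
      Subgroup.mem_centralizer_iff.mp (hcomm (hc' a ha)) k hk
    have cb : ∀ k ∈ K, k * b' = b' * k := fun k hk =>
      Subgroup.mem_centralizer_iff.mp (hcomm (hc' b hb)) k hk
    have e1 : a * b * a⁻¹ * b⁻¹ = b' * a' * b'⁻¹ * a'⁻¹ := by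
      have h1 : a⁻¹ * b⁻¹ * (a' * b') = b⁻¹ * a⁻¹ * (b' * a') := by
        calc a⁻¹ * b⁻¹ * (a' * b') = a⁻¹ * (b⁻¹ * a') * b' := by group
          _ = a⁻¹ * (a' * b⁻¹) * b' := by rw [ca _ (K.inv_mem hb.2)]
          _ = (a⁻¹ * a') * (b⁻¹ * b') := by group
          _ = (b⁻¹ * b') * (a⁻¹ * a') := e0
          _ = b⁻¹ * (b' * a⁻¹) * a' := by group
          _ = b⁻¹ * (a⁻¹ * b') * a' := by rw [cb _ (K.inv_mem ha.2)]
          _ = b⁻¹ * a⁻¹ * (b' * a') := by group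
      have h2 : a * b * (a⁻¹ * b⁻¹ * (a' * b')) * (a' * b')⁻¹ =
          a * b * (b⁻¹ * a⁻¹ * (b' * a')) * (a' * b')⁻¹ := by rw [h1]
      have l : a * b * (a⁻¹ * b⁻¹ * (a' * b')) * (a' * b')⁻¹ = a * b * a⁻¹ * b⁻¹ := by group
      have r : a * b * (b⁻¹ * a⁻¹ * (b' * a')) * (a' * b')⁻¹ = b' * a' * b'⁻¹ * a'⁻¹ := by group
      rw [← l, h2, r]
    rw [e1]
    apply hcomm
    exact Subgroup.mul_mem _ (Subgroup.mul_mem _ (Subgroup.mul_mem _ (hc' b hb) (hc' a ha))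
      (Subgroup.inv_mem _ (hc' b hb))) (Subgroup.inv_mem _ (hc' a ha))
  obtain ⟨S₀, hS₀⟩ := ((syl_of_sylow T).inf_sn hKc.1).exists_sylow
  have hab : Ab2 (↥K ⧸ Subgroup.center ↥K) := by
    apply Ab2.of_one (S₀.mapSurjective (QuotientGroup.mk'_surjective (Subgroup.center ↥K)))
    intro u hu v hv
    have hu' : u ∈ (S₀ : Subgroup ↥K).map (QuotientGroup.mk' (Subgroup.center ↥K)) := hu
    have hv' : v ∈ (S₀ : Subgroup ↥K).map (QuotientGroup.mk' (Subgroup.center ↥K)) := hv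
    obtain ⟨a, ha, rfl⟩ := hu'
    obtain ⟨b, hb, rfl⟩ := hv'
    have ha2 : (a : X) ∈ (T : Subgroup X) ⊓ K := by
      have : a ∈ (S₀ : Subgroup ↥K) := ha
      rw [hS₀] at this; exact this
    have hb2 : (b : X) ∈ (T : Subgroup X) ⊓ K := by
      have : b ∈ (S₀ : Subgroup ↥K) := hb
      rw [hS₀] at this; exact this
    have h1 := key a ha2 b hb2
    have h2 : a * b * a⁻¹ * b⁻¹ ∈ Subgroup.center ↥K := by
      rw [Subgroup.mem_center_iff]
      intro k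
      exact Subtype.ext (Subgroup.mem_centralizer_iff.mp h1 k k.2)
    have h3 := (QuotientGroup.eq_one_iff (N := Subgroup.center ↥K) _).2 h2
    have h4 : QuotientGroup.mk' (Subgroup.center ↥K) a * QuotientGroup.mk' _ b *
        (QuotientGroup.mk' _ a)⁻¹ * (QuotientGroup.mk' _ b)⁻¹ = 1 := by
      simpa using h3
    have h5 := mul_inv_eq_one.1 h4
    rw [mul_inv_eq_iff_eq_mul] at h5
    exact h5
  exact ⟨⟨fun a b => Subtype.ext (hab P a a.2 b b.2)⟩⟩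

end Cfsg.Agent.S2925
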