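import Cfsg.Statements.S2940
import Mathlib
import Cfsg.Agent.Lib.Helper1.HallRel
import Cfsg.Agent.Lib.Helper1.Frat
import Cfsg.Agent.Lib.Helper1.Transfer1
import Cfsg.Agent.Lib.Helper1.Frobenius

set_option autoImplicit false
open Cfsg

namespace Cfsg.Agent.S2940

open Cfsg
open Cfsg.Agent.Lib.Helper1
open scoped Pointwise

theorem conj_smul_self {G : Type*} [Group G] (D : Subgroup G) (l : G) (hl : l ∈ D) : MulAut.conj l • D = D := by
  ext x
  rw [mem_conj_smul]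
  constructor
  · intro h
    have := D.mul_mem (D.mul_mem hl h) (D.inv_mem hl)
    have e : l * (l⁻¹ * x * l) * l⁻¹ = x := by group
    rwa [e] at this
  · intro h
    exact D.mul_mem (D.mul_mem (D.inv_mem hl) h) hl

/-- Let S be a Sylow p-subgroup of the finite group G and G₁, G₂ subgroups containing S with G = G₁G₂. Then for every g ∈ G there is a Sylow p-subgroup U of G with S ∩ S^g ≤ U ≤ G₁ ∩ G₂^g (conjugates taken as X^g = g⁻¹Xg). -/
theorem result {G : Type*} [Group G] [Finite G] {p : ℕ} [Fact p.Prime] (S : Sylow p G) (G₁ G₂ : Subgroup G) (h1 : (S : Subgroup G) ≤ G₁) (h2 : (S : Subgroup G) ≤ G₂) (hfact : ∀ g : G, ∃ g₁ ∈ G₁, ∃ g₂ ∈ G₂, g = g₁ * g₂) (g : G) : ∃ U : Sylow p G, (S : Subgroup G) ⊓ Cfsg.subgroupConjRight g (S : Subgroup G) ≤ (U : Subgroup G) ∧ (U : Subgroup G) ≤ G₁ ⊓ Cfsg.subgroupConjRight g G₂ := by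
  have hdef : ∀ X : Subgroup G, Cfsg.subgroupConjRight g X = MulAut.conj g⁻¹ • X := fun X => rfl
  rw [hdef, hdef]
  obtain ⟨a, ha, b, hb, hab⟩ := hfact g⁻¹
  have e2 : MulAut.conj g⁻¹ • G₂ = MulAut.conj a • G₂ := by
    rw [hab, ← conj_smul_smul, conj_smul_self G₂ b hb]
  obtain ⟨D, hD⟩ : ∃ D, D = G₁ ⊓ MulAut.conj g⁻¹ • G₂ := ⟨_, rfl⟩
  rw [← hD]
  have hS'D : MulAut.conj a • (S : Subgroup G) ≤ D := by
    rw [hD, e2]
    apply le_inf
    · have := conj_smul_mono a h1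
      rwa [conj_smul_self G₁ a ha] at this
    · exact conj_smul_mono a h2
  have hWD : (S : Subgroup G) ⊓ MulAut.conj g⁻¹ • (S : Subgroup G) ≤ D := by
    rw [hD]
    exact inf_le_inf h1 (conj_smul_mono g⁻¹ h2)
  have hc : Nat.card (MulAut.conj a • (S : Subgroup G) : Subgroup G) = p ^ (Nat.card (⊤ : Subgroup G)).factorization p := by
    rw [card_conj_smul]; exact sylow_card_top S
  have hSc := sylow_card_of_le hS'D le_top hc
  obtain ⟨l, hl, hl2⟩ := sylow_dominance_in D _ _ hS'D hWD hSc (S.2.to_le inf_le_left)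
  refine ⟨(l * a) • S, ?_, ?_⟩
  · rw [Sylow.coe_subgroup_smul, ← conj_smul_smul]
    exact hl2
  · rw [Sylow.coe_subgroup_smul, ← conj_smul_smul]
    have := conj_smul_mono l hS'D
    rwa [conj_smul_self D l hl] at this

end Cfsg.Agent.S2940
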