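import Cfsg.Statements.S2958

set_option autoImplicit false
open Cfsg

namespace Cfsg.Agent.S2958

/-- Let X, A, B be subgroups of a group G such that G is generated by the conjugates of X and every conjugate of X is contained in A or in B. Then A = G or B = G. -/
theorem result {G : Type*} [Group G] (X A B : Subgroup G) (hgen : (⨆ g : G, X.map (MulAut.conj g).toMonoidHom) = ⊤) (hcover : ∀ g : G, X.map (MulAut.conj g).toMonoidHom ≤ A ∨ X.map (MulAut.conj g).toMonoidHom ≤ B) : A = ⊤ ∨ B = ⊤ := by
  classical
  by_cases hA : ∀ g : G, X.map (MulAut.conj g).toMonoidHom ≤ A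
  · left
    rw [eq_top_iff, ← hgen]
    exact iSup_le hA
  · right
    push_neg at hA
    obtain ⟨g₀, hg₀⟩ := hA
    set B₀ : Subgroup G := ⨆ g : {g : G // ¬ X.map (MulAut.conj g).toMonoidHom ≤ A},
      X.map (MulAut.conj g.1).toMonoidHom with hB₀
    have hB₀B : B₀ ≤ B := iSup_le fun g => (hcover g.1).resolve_left g.2
    have hmem : ∀ g : G, ¬ X.map (MulAut.conj g).toMonoidHom ≤ A →
        X.map (MulAut.conj g).toMonoidHom ≤ B₀ := fun g hg =>
      le_iSup (fun g : {g : G // ¬ X.map (MulAut.conj g).toMonoidHom ≤ A} =>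
        X.map (MulAut.conj g.1).toMonoidHom) ⟨g, hg⟩
    have hconj : ∀ a g : G, (X.map (MulAut.conj g).toMonoidHom).map (MulAut.conj a).toMonoidHom
        = X.map (MulAut.conj (a * g)).toMonoidHom := by
      intro a g
      rw [Subgroup.map_map]
      congr 1
      ext x
      simp [mul_assoc]
    have hAn : A ≤ Subgroup.normalizer (B₀ : Set G) := by
      rw [Subgroup.le_normalizer_iff]
      intro a ha k hk
      have : B₀.map (MulAut.conj a).toMonoidHom ≤ B₀ := by
        rw [hB₀, Subgroup.map_iSup]
        refine iSup_le fun g => ?_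
        rw [hconj]
        apply hmem
        intro hle
        apply g.2
        intro y hy
        have h1 : a * y * a⁻¹ ∈ X.map (MulAut.conj (a * g.1)).toMonoidHom := by
          rw [← hconj]
          exact ⟨y, hy, by simp⟩
        have h2 := hle h1
        have h3 : a⁻¹ * (a * y * a⁻¹) * a ∈ A := A.mul_mem (A.mul_mem (A.inv_mem ha) h2) ha
        simpa [mul_assoc] using h3
      exact this ⟨k, hk, by simp⟩
    have hall : ∀ g : G, X.map (MulAut.conj g).toMonoidHom ≤ Subgroup.normalizer (B₀ : Set G) := by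
      intro g
      by_cases hg : X.map (MulAut.conj g).toMonoidHom ≤ A
      · exact hg.trans hAn
      · exact (hmem g hg).trans Subgroup.le_normalizer
    have hN : Subgroup.normalizer (B₀ : Set G) = ⊤ := by
      rw [eq_top_iff, ← hgen]
      exact iSup_le hall
    have hnormal : B₀.Normal := Subgroup.normalizer_eq_top_iff.mp hN
    rw [eq_top_iff]
    refine le_trans ?_ hB₀B
    rw [← hgen]
    refine iSup_le fun g => ?_
    rintro _ ⟨x, hx, rfl⟩
    have h0 : g₀ * x * g₀⁻¹ ∈ B₀ := hmem g₀ hg₀ ⟨x, hx, by simp⟩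
    have h1 := hnormal.conj_mem _ h0 (g * g₀⁻¹)
    simpa [mul_assoc] using h1

end Cfsg.Agent.S2958
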