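import Cfsg.Statements.S3003
import Mathlib
import Cfsg.Agent.Lib.Helper6.Flav
import Cfsg.Agent.S1324

set_option autoImplicit false
open Cfsg

namespace Cfsg.Agent.S3003

theorem part1 {G : Type*} [Group G] [Finite G] {p : ℕ} [Fact p.Prime] (Q : Subgroup G)
    (hQp : IsPGroup p ↥Q) (hlarge : Cfsg.IsLarge Q) (G₁ : Subgroup G) (hQG : Q ≤ G₁)
    (R : Subgroup G) (hR : (Nat.card ↥R).Coprime p)
    (hGR : G₁ ≤ Subgroup.normalizer (R : Set G)) (U : Subgroup G)
    (hx : ∃ x ∈ U, x ≠ 1 ∧ ∃ g ∈ G₁, g * x * g⁻¹ ∈ Q ⊓ Subgroup.centralizer (Q : Set G)) :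
    R ⊓ Subgroup.centralizer (U : Set G) = ⊥ := by
  obtain ⟨x, hxU, hx1, g, hg, hz⟩ := hx
  have hRQ : R ⊓ Q = ⊥ := by
    apply disjoint_iff.mp
    apply Subgroup.disjoint_of_coprime_natCard
    obtain ⟨n, hn⟩ := IsPGroup.iff_card.mp hQp
    rw [hn]
    exact Nat.Coprime.pow_right n hR
  rw [eq_bot_iff]
  rintro c ⟨hcR, hcU⟩
  rw [Subgroup.mem_bot]
  have hcx : x * c = c * x := (Subgroup.mem_centralizer_iff.mp hcU) x hxU
  set z := g * x * g⁻¹ with hzdef
  set d := g * c * g⁻¹ with hddef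
  have hdR : d ∈ R := (Subgroup.mem_normalizer_iff.mp (hGR hg) c).mp hcR
  have hdz : Commute d z := by
    change d * z = z * d
    rw [hddef, hzdef]
    calc g * c * g⁻¹ * (g * x * g⁻¹) = g * (c * x) * g⁻¹ := by group
      _ = g * (x * c) * g⁻¹ := by rw [hcx]
      _ = g * x * g⁻¹ * (g * c * g⁻¹) := by group
  have hz1 : z ≠ 1 := by
    intro h
    apply hx1
    have : x = g⁻¹ * z * g := by rw [hzdef]; group
    rw [this, h]; group
  have hZ : Subgroup.zpowers z ≤ Subgroup.centralizer (Q : Set G) :=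
    Subgroup.zpowers_le.mpr hz.2
  have hZ1 : Subgroup.zpowers z ≠ ⊥ := by
    intro h
    exact hz1 (Subgroup.zpowers_eq_bot.mp h)
  have hN := hlarge.2 _ hZ hZ1
  have hdN : d ∈ Subgroup.normalizer (Q : Set G) := by
    apply hN
    apply Subgroup.centralizer_le_normalizer
    rw [Subgroup.mem_centralizer_iff]
    rintro _ ⟨k, rfl⟩
    exact ((hdz.zpow_right k).eq).symm
  have hdC : d ∈ Subgroup.centralizer (Q : Set G) := by
    rw [Subgroup.mem_centralizer_iff]
    intro q hq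
    have h1 : d * q * d⁻¹ * q⁻¹ ∈ Q :=
      mul_mem ((Subgroup.mem_normalizer_iff.mp hdN q).mp hq) (inv_mem hq)
    have h2 : d * q * d⁻¹ * q⁻¹ ∈ R := by
      have := (Subgroup.mem_normalizer_iff.mp (hGR (hQG hq)) d⁻¹).mp (inv_mem hdR)
      have h3 := mul_mem hdR this
      simpa [mul_assoc] using h3
    have h3 : d * q * d⁻¹ * q⁻¹ ∈ R ⊓ Q := ⟨h2, h1⟩
    rw [hRQ, Subgroup.mem_bot] at h3
    have : d * q = q * d := by
      calc d * q = (d * q * d⁻¹ * q⁻¹) * (q * d) := by group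
        _ = q * d := by rw [h3, one_mul]
    exact this.symm
  have hd1 : d ∈ R ⊓ Q := ⟨hdR, hlarge.1 hdC⟩
  rw [hRQ, Subgroup.mem_bot] at hd1
  have : c = g⁻¹ * d * g := by rw [hddef]; group
  rw [this, hd1]; group

/-- Let G be a finite group, p a prime and Q a large p-subgroup of G: C_G(Q) ≤ Q and N_G(U) ≤ N_G(Q) for every nontrivial subgroup U of C_G(Q). Let Q ≤ G₁ ≤ G, let R be a subgroup of order prime to p normalized by G₁, and let U ≤ G₁ be a p-subgroup. If U contains a nontrivial element which is G₁-conjugate to an element of Z(Q), then C_R(U) = 1. In particular, if U is elementary abelian of order at least p² and every maximal subgroup of U contains a nontrivial element G₁-conjugate into Z(Q), then R = 1. -/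
theorem result {G : Type*} [Group G] [Finite G] {p : ℕ} [Fact p.Prime] (Q : Subgroup G) (hQp : IsPGroup p ↥Q) (hlarge : Cfsg.IsLarge Q) (G₁ : Subgroup G) (hQG : Q ≤ G₁) (R : Subgroup G) (hR : (Nat.card ↥R).Coprime p) (hGR : G₁ ≤ Subgroup.normalizer (R : Set G)) (U : Subgroup G) (hUG : U ≤ G₁) (hUp : IsPGroup p ↥U) : ((∃ x ∈ U, x ≠ 1 ∧ ∃ g ∈ G₁, g * x * g⁻¹ ∈ Q ⊓ Subgroup.centralizer (Q : Set G)) → R ⊓ Subgroup.centralizer (U : Set G) = ⊥) ∧ (Cfsg.IsElementaryAbelian p U → p ^ 2 ≤ Nat.card ↥U → (∀ U₀ : Subgroup G, U₀ ≤ U → IsCoatom (U₀.subgroupOf U) → ∃ x ∈ U₀, x ≠ 1 ∧ ∃ g ∈ G₁, g * x * g⁻¹ ∈ Q ⊓ Subgroup.centralizer (Q : Set G)) → R = ⊥) := by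
  refine ⟨fun hx => part1 Q hQp hlarge G₁ hQG R hR hGR U hx, ?_⟩
  intro hUel hU2 hall
  have hp : p.Prime := Fact.out
  have hRp : ¬ p ∣ Nat.card ↥R := fun h => by
    have := Nat.Coprime.eq_one_of_dvd hR.symm h
    exact hp.one_lt.ne' this
  have hgen := Cfsg.Agent.S1324.result p U R hUel hU2 hRp (le_trans hUG hGR)
  rw [hgen]
  apply le_bot_iff.mp
  apply iSup_le
  rintro ⟨B, hBU, hBi⟩
  -- find a coatom below which... 
  have key : ∃ U₀ : Subgroup G, U₀ ≤ B ∧ U₀ ≤ U ∧ IsCoatom (U₀.subgroupOf U) := by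
    obtain ⟨n, hn⟩ := IsPGroup.iff_card.mp hUp
    have hd : B.relIndex U ∣ p ^ n := hn ▸ Subgroup.relIndex_dvd_card B U
    obtain ⟨j, _, hj⟩ := (Nat.dvd_prime_pow hp).mp hd
    rcases Nat.lt_or_ge j 2 with hj2 | hj2
    · interval_cases j
      · rw [pow_zero] at hj
        have hUB : U ≤ B := Subgroup.relIndex_eq_one.mp hj
        rcases eq_top_or_exists_le_coatom (⊥ : Subgroup U) with h | ⟨a, ha, _⟩
        · exfalso
          have h1 : Nat.card U = 1 := by
            rw [← Subgroup.card_top (G := U), ← h, Subgroup.card_bot]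
          rw [h1] at hU2
          have := hp.one_lt
          nlinarith
        · refine ⟨a.map U.subtype, le_trans (Subgroup.map_subtype_le a) hUB,
            Subgroup.map_subtype_le a, ?_⟩
          have : (a.map U.subtype).subgroupOf U = a :=
            Subgroup.comap_map_eq_self_of_injective Subtype.coe_injective a
          rw [this]
          exact ha
      · rw [pow_one] at hj
        exact ⟨B, le_rfl, hBU, Cfsg.Agent.Lib.Helper6.Flav.coatom_of_prime B U (hj ▸ hp)⟩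
    · exfalso
      have h1 : p ^ 2 ≤ p ^ j := Nat.pow_le_pow_right hp.pos hj2
      rw [← hj] at h1
      have := hp.one_lt
      nlinarith
  obtain ⟨U₀, h0B, h0U, hco⟩ := key
  obtain ⟨x, hx0, hx⟩ := hall U₀ h0U hco
  exact (part1 Q hQp hlarge G₁ hQG R hR hGR B ⟨x, h0B hx0, hx⟩).le

end Cfsg.Agent.S3003
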