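import Cfsg.Statements.S3006
import Mathlib
import Cfsg.Agent.Lib.Helper6.CLAb

set_option autoImplicit false
open scoped Pointwise
open Cfsg

namespace Cfsg.Agent.S3006

open Cfsg.Agent.Lib.Helper6.CD Cfsg.Agent.Lib.Helper6.CL Cfsg.Agent.Lib.Helper6.CLAb
open scoped Pointwise

/-- Let P be a finite p-group, Q a centrally large subgroup of P (|Q|·|Z(Q)| maximal among subgroups of P) and A an abelian subgroup of P of largest order. Then QA = AQ is a centrally large subgroup of P, C_{QA}(Q ∩ A) = Z(Q)·A, and the subgroup generated by all centrally large subgroups of P contains C_P(Z(J(P))), where J(P) is generated by the abelian subgroups of largest order. -/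
theorem result {p : ℕ} [Fact p.Prime] (P : Type*) [Group P] [Finite P] (hP : IsPGroup p P) (Q A : Subgroup P) (hQ : Cfsg.IsCentrallyLarge Q) (hA : A ∈ Cfsg.maxAbelianSubgroups P) : ((Q ⊔ A : Subgroup P) : Set P) = (Q : Set P) * (A : Set P) ∧ Cfsg.IsCentrallyLarge (Q ⊔ A) ∧ (Q ⊔ A) ⊓ Subgroup.centralizer ((Q ⊓ A : Subgroup P) : Set P) = (Q ⊓ Subgroup.centralizer (Q : Set P)) ⊔ A ∧ (((Q ⊓ Subgroup.centralizer (Q : Set P)) ⊔ A : Subgroup P) : Set P) = ((Q ⊓ Subgroup.centralizer (Q : Set P)) : Set P) * (A : Set P) ∧ Subgroup.centralizer ((Cfsg.thompsonSubgroupA P ⊓ Subgroup.centralizer (Cfsg.thompsonSubgroupA P : Set P) : Subgroup P) : Set P) ≤ Cfsg.centrallyLargeJoin P := by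
  obtain ⟨h1, h2, h3⟩ := cl_maxab hQ hA
  have hAab := maxab_ab hA
  -- chain of inclusions
  have i1 : (((Q ⊔ A) ⊓ C (Q ⊓ A) : Subgroup P) : Set P) ⊆ (Z Q : Set P) * (A : Set P) := by
    intro x hx
    have hx1 : x ∈ ((Q ⊔ A : Subgroup P) : Set P) := hx.1
    have hx2 : x ∈ C (Q ⊓ A) := hx.2
    rw [h2] at hx1
    obtain ⟨q, hq, a, ha, rfl⟩ := Set.mem_mul.mp hx1
    have haC : a ∈ C (Q ⊓ A) := C_anti inf_le_right (hAab ha)
    have hqC : q ∈ C (Q ⊓ A) := by
      have := (C (Q ⊓ A)).mul_mem hx2 ((C (Q ⊓ A)).inv_mem haC)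
      rwa [mul_inv_cancel_right] at this
    have hqZ : q ∈ C (Z Q) := C_anti (inf_le_right) (le_CC Q hq)
    have hqE : q ∈ Z Q ⊔ (Q ⊓ A) := by
      rw [← maxab_C h3, C_sup]
      exact ⟨hqZ, hqC⟩
    have hZD : Z Q ≤ C (Q ⊓ A) := inf_le_right.trans (C_anti inf_le_left)
    have hqE' : q ∈ ((Z Q ⊔ (Q ⊓ A) : Subgroup P) : Set P) := hqE
    rw [coe_sup_of_le_C hZD] at hqE'
    obtain ⟨z, hz, d, hd, rfl⟩ := Set.mem_mul.mp hqE'
    refine Set.mem_mul.mpr ⟨z, hz, d * a, A.mul_mem hd.2 ha, by rw [mul_assoc]⟩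
  have i2 : (Z Q : Set P) * (A : Set P) ⊆ ((Z Q ⊔ A : Subgroup P) : Set P) := by
    intro x hx
    obtain ⟨z, hz, a, ha, rfl⟩ := Set.mem_mul.mp hx
    exact (Z Q ⊔ A).mul_mem (le_sup_left (b := A) hz) (le_sup_right (a := Z Q) ha)
  have i3 : Z Q ⊔ A ≤ (Q ⊔ A) ⊓ C (Q ⊓ A) := by
    apply sup_le
    · exact le_inf (inf_le_left.trans le_sup_left) (inf_le_right.trans (C_anti inf_le_left))
    · exact le_inf le_sup_right (hAab.trans (C_anti inf_le_right))
  refine ⟨h2, h1, le_antisymm (fun x hx => i2 (i1 hx)) i3, ?_, ?_⟩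
  · exact Set.Subset.antisymm (fun x hx => i1 (i3 hx)) i2
  · apply CZJ_le cl_join
    apply sSup_le
    intro B hB
    have := (cl_maxab (cl_join (G := P)) hB).1
    exact le_sup_right.trans (le_sSup this)

end Cfsg.Agent.S3006
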