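import Cfsg.Statements.S3007
import Mathlib
import Cfsg.Agent.Lib.Helper6.CLAb

set_option autoImplicit false
open Cfsg

namespace Cfsg.Agent.S3007

open Cfsg.Agent.Lib.Helper6.Card Cfsg.Agent.Lib.Helper6.CD Cfsg.Agent.Lib.Helper6.CL Cfsg.Agent.Lib.Helper6.CLAb
open scoped Pointwise commutatorElement
set_option linter.unusedSectionVars false

variable {P : Type*} [Group P] [Finite P]

theorem part1 {Q R : Subgroup P} (hQ : Cfsg.IsMinimalCentrallyLarge Q)
    (hR : Cfsg.IsCentrallyLarge R) : (Q ⊓ R) ⊔ Z Q = Q := by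
  have hQl := cl_large hQ.1
  have hRl := cl_large hR
  have hDl := (large_sup_inf hQl hRl).2.1
  have hZ := cl_Z hQ.1
  have hEl : Cfsg.IsCentralizerLarge ((Q ⊓ R) ⊔ Z Q) := by
    rw [hZ]; exact (large_sup_inf hDl (large_C hQl)).1
  have hle : (Q ⊓ R) ⊔ Z Q ≤ Q := sup_le inf_le_left inf_le_left
  apply hQ.2 _ hle
  apply cl_of_large hEl
  rw [C_sup, hZ, ← large_CC hQl, large_C_inf hQl hRl]
  intro x hx
  have hx1 : x ∈ ((C Q ⊔ C R : Subgroup P) : Set P) := hx.1
  have hx2 : x ∈ Q := hx.2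
  rw [large_coe_sup (large_C hQl) (large_C hRl)] at hx1
  obtain ⟨a, ha, b, hb, rfl⟩ := Set.mem_mul.mp hx1
  have haQ : a ∈ Q := cl_C_le hQ.1 ha
  have hbQ : b ∈ Q := by
    have := Q.mul_mem (Q.inv_mem haQ) hx2
    rwa [inv_mul_cancel_left] at this
  have hbR : b ∈ R := cl_C_le hR hb
  exact ((Q ⊓ R) ⊔ C Q).mul_mem (le_sup_right (a := Q ⊓ R) ha) (le_sup_left (b := C Q) ⟨hbQ, hbR⟩)

theorem comm_le {Q D : Subgroup P} (h : D ⊔ Z Q = Q) : ⁅Q, Q⁆ ≤ ⁅D, D⁆ := by
  have hDZ : D ≤ C (Z Q) := by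
    have : D ≤ Q := h ▸ le_sup_left
    exact this.trans ((le_CC Q).trans (C_anti inf_le_right))
  have hset := coe_sup_of_le_C hDZ
  rw [h] at hset
  rw [Subgroup.commutator_le]
  intro x hx y hy
  have hx' : x ∈ (Q : Set P) := hx
  have hy' : y ∈ (Q : Set P) := hy
  rw [hset] at hx' hy'
  obtain ⟨d1, hd1, z1, hz1, rfl⟩ := Set.mem_mul.mp hx'
  obtain ⟨d2, hd2, z2, hz2, rfl⟩ := Set.mem_mul.mp hy'
  have hDQ : D ≤ Q := h ▸ le_sup_left
  have c1 : ∀ q ∈ Q, q * z1 = z1 * q := fun q hq => Subgroup.mem_centralizer_iff.mp hz1.2 q hq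
  have c2 : ∀ q ∈ Q, q * z2 = z2 * q := fun q hq => Subgroup.mem_centralizer_iff.mp hz2.2 q hq
  have : ⁅d1 * z1, d2 * z2⁆ = ⁅d1, d2⁆ := by
    rw [commutatorElement_def, commutatorElement_def]
    have e1 : d1 * z1 * (d2 * z2) = d1 * d2 * (z1 * z2) := by
      rw [mul_assoc, ← mul_assoc z1, ← c1 d2 (hDQ hd2)]; simp only [mul_assoc]
    have e2 : (d1 * z1)⁻¹ * (d2 * z2)⁻¹ = (z1 * z2)⁻¹ * (d1⁻¹ * d2⁻¹) := by
      have : d2 * z2 * (d1 * z1) = d2 * d1 * (z1 * z2) := by
        rw [mul_assoc, ← mul_assoc z2, ← c2 d1 (hDQ hd1), mul_assoc d1, c1 z2 hz2.1]; simp only [mul_assoc]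
      rw [← mul_inv_rev, this, mul_inv_rev, mul_inv_rev d2 d1]
    rw [mul_assoc (d1 * z1 * (d2 * z2)), e1, e2]
    simp only [mul_assoc, mul_inv_cancel_left]
  rw [this]
  exact Subgroup.commutator_mem_commutator hd1 hd2

theorem ZD_eq {Q D : Subgroup P} (h : D ⊔ Z Q = Q) : D ⊓ Z Q = Z D := by
  have hDQ : D ≤ Q := h ▸ le_sup_left
  apply le_antisymm
  · exact le_inf inf_le_left (inf_le_right.trans (inf_le_right.trans (C_anti hDQ)))
  · apply le_inf inf_le_left
    apply le_inf (inf_le_left.trans hDQ)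
    have : C D ⊓ C (Z Q) ≤ C Q := by
      rw [← C_sup, h]
    refine le_trans (le_inf inf_le_right ?_) this
    exact inf_le_left.trans (hDQ.trans ((le_CC Q).trans (C_anti inf_le_right)))

theorem card_rel {Q D : Subgroup P} (h : D ⊔ Z Q = Q) :
    Nat.card Q * Nat.card (Z D) = Nat.card D * Nat.card (Z Q) := by
  have hDZ : D ≤ C (Z Q) := by
    have : D ≤ Q := h ▸ le_sup_left
    exact this.trans ((le_CC Q).trans (C_anti inf_le_right))
  have hset := coe_sup_of_le_C hDZ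
  have := card_mul_set_mul_card_inf D (Z Q)
  rw [← hset, h, ZD_eq h] at this
  exact this

theorem card_eq {Q R : Subgroup P} (hQ : Cfsg.IsMinimalCentrallyLarge Q)
    (hR : Cfsg.IsMinimalCentrallyLarge R) :
    Nat.card Q = Nat.card R ∧ Nat.card (Z Q) = Nat.card (Z R) := by
  have h1 := card_rel (part1 hQ hR.1)
  have h2 := card_rel (part1 hR hQ.1)
  rw [inf_comm R Q] at h2
  have h3 : f Q = f R := by rw [cl_iff.mp hQ.1, cl_iff.mp hR.1]
  unfold f at h3
  set a := Nat.card Q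
  set b := Nat.card R
  set x := Nat.card (Z Q)
  set y := Nat.card (Z R)
  set d := Nat.card (Q ⊓ R : Subgroup P)
  set z := Nat.card (Z (Q ⊓ R))
  have pz : 0 < z := Nat.card_pos
  have pa : 0 < a := Nat.card_pos
  have hsq : a * a = b * b := by
    have : (a * a) * z = (b * b) * z := by
      calc (a * a) * z = a * (a * z) := by ring
        _ = a * (d * x) := by rw [h1]
        _ = d * (a * x) := by ring
        _ = d * (b * y) := by rw [h3]
        _ = b * (d * y) := by ring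
        _ = b * (b * z) := by rw [h2]
        _ = (b * b) * z := by ring
    exact Nat.eq_of_mul_eq_mul_right pz this
  have hab : a = b := Nat.mul_self_inj.mp hsq
  refine ⟨hab, ?_⟩
  rw [← hab] at h3
  exact Nat.eq_of_mul_eq_mul_left pa h3

theorem ab_case {Q : Subgroup P} (hQ : Cfsg.IsMinimalCentrallyLarge Q) (hab : Q ≤ C Q)
    (X : Subgroup P) : Cfsg.IsMinimalCentrallyLarge X ↔ X ∈ Cfsg.maxAbelianSubgroups P := by
  have hmax : Cfsg.maxCentralProduct P = Nat.card Q * Nat.card Q := by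
    rw [← cl_iff.mp hQ.1, f_ab hab]
  constructor
  · intro hX
    obtain ⟨e1, e2⟩ := card_eq hX hQ
    have hZQ : Z Q = Q := inf_eq_left.mpr hab
    rw [hZQ, ← e1] at e2
    have hZX : Z X = X := Subgroup.eq_of_le_of_card_ge inf_le_left e2.ge
    have hXab : X ≤ C X := inf_eq_left.mp hZX
    refine ⟨ab_iff.mpr hXab, fun B hB => ?_⟩
    have := f_le_max B
    rw [f_ab (ab_iff.mp hB), hmax, ← e1] at this
    exact Nat.mul_self_le_mul_self_iff.mp this
  · intro hX
    have hXab := maxab_ab hX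
    have h1 : Nat.card Q ≤ Nat.card X := hX.2 Q (ab_iff.mpr hab)
    have hXcl : Cfsg.IsCentrallyLarge X := by
      rw [cl_iff]
      apply le_antisymm (f_le_max X)
      rw [hmax, f_ab hXab]
      exact Nat.mul_le_mul h1 h1
    refine ⟨hXcl, fun X' hX' hcl => ?_⟩
    have hX'ab := ab_mono hX' hXab
    have : f X' = f X := by rw [cl_iff.mp hcl, cl_iff.mp hXcl]
    rw [f_ab hX'ab, f_ab hXab] at this
    exact Subgroup.eq_of_le_of_card_ge hX' (Nat.mul_self_inj.mp this).ge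

/-- Let P be a finite p-group and Q, R minimal centrally large subgroups of P (centrally large: |Q|·|Z(Q)| maximal among subgroups of P; minimal among such under inclusion). Then Q = (Q ∩ R)·Z(Q), the derived subgroups [Q, Q] and [R, R] coincide, |Q| = |R| and |Z(Q)| = |Z(R)|; and if Q is abelian then the minimal centrally large subgroups of P are exactly the abelian subgroups of P of largest order. -/
theorem result {p : ℕ} [Fact p.Prime] (P : Type*) [Group P] [Finite P] (hP : IsPGroup p P) (Q R : Subgroup P) (hQ : Cfsg.IsMinimalCentrallyLarge Q) (hR : Cfsg.IsMinimalCentrallyLarge R) : (Q ⊓ R) ⊔ (Q ⊓ Subgroup.centralizer (Q : Set P)) = Q ∧ ⁅Q, Q⁆ = ⁅R, R⁆ ∧ Nat.card ↥Q = Nat.card ↥R ∧ Nat.card ↥(Q ⊓ Subgroup.centralizer (Q : Set P)) = Nat.card ↥(R ⊓ Subgroup.centralizer (R : Set P)) ∧ (IsMulCommutative ↥Q → ∀ X : Subgroup P, Cfsg.IsMinimalCentrallyLarge X ↔ X ∈ Cfsg.maxAbelianSubgroups P) := by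
  have p1 := part1 hQ hR.1
  have p2 := part1 hR hQ.1
  obtain ⟨e1, e2⟩ := card_eq hQ hR
  refine ⟨p1, ?_, e1, e2, fun hab X => ab_case hQ (ab_iff.mp hab) X⟩
  apply le_antisymm
  · exact (comm_le p1).trans (Subgroup.commutator_mono inf_le_right inf_le_right)
  · exact (comm_le p2).trans (Subgroup.commutator_mono inf_le_right inf_le_right)

end Cfsg.Agent.S3007
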