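import Cfsg.Statements.S3012
import Mathlib

set_option autoImplicit false
open Cfsg

namespace Cfsg.Agent.S3012

/-- Let G be a finite group, V a nontrivial elementary abelian 2-subgroup of G satisfying the Sidki pair condition (every odd-order element inverted by an element of V commutes with a nontrivial element of V), and K a normal subgroup of G with V ∩ K = 1. Then the image of V in G/K satisfies the Sidki pair condition in G/K. -/
theorem result {G : Type*} [Group G] [Finite G] (V K : Subgroup G) [K.Normal] (hV : Cfsg.IsElementaryAbelian 2 V) (hV1 : V ≠ ⊥) (hS : Cfsg.IsSidkiPair V) (hVK : V ⊓ K = ⊥) : Cfsg.IsSidkiPair (V.map (QuotientGroup.mk' K)) := by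
  intro xb vb hvb hxb hinv
  obtain ⟨v, hv, hvb'⟩ := hvb
  obtain ⟨x, hx'⟩ := QuotientGroup.mk'_surjective K xb
  have hv2 : v * v = 1 := by
    have := hV.2 v hv
    rwa [pow_two] at this
  have hvinv : v⁻¹ = v := inv_eq_of_mul_eq_one_left hv2
  obtain ⟨z, hzdef⟩ : ∃ z, z = v * x * v⁻¹ * x⁻¹ := ⟨_, rfl⟩
  have hzinv : v * z * v⁻¹ = z⁻¹ := by
    rw [hzdef, hvinv]
    have h1 : (v * x * v * x⁻¹)⁻¹ = x * v⁻¹ * x⁻¹ * v⁻¹ := by group
    rw [h1, hvinv]
    calc v * (v * x * v * x⁻¹) * v = (v * v) * x * v * x⁻¹ * v := by group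
      _ = x * v * x⁻¹ * v := by rw [hv2, one_mul]
  have hπz : QuotientGroup.mk' K z = (xb⁻¹) ^ 2 := by
    rw [hzdef, map_mul, map_mul, map_mul, map_inv, map_inv, hvb', hx', hinv, pow_two]
  obtain ⟨a, b, hb, hab⟩ := Nat.exists_eq_two_pow_mul_odd (orderOf_pos z).ne'
  have hz'o : Odd (orderOf (z ^ (2 ^ a))) := by
    apply Odd.of_dvd_nat hb
    apply orderOf_dvd_of_pow_eq_one
    rw [← pow_mul, ← hab, pow_orderOf_eq_one]
  have hz'inv : v * z ^ (2 ^ a) * v⁻¹ = (z ^ (2 ^ a))⁻¹ := by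
    rw [← conj_pow, hzinv, inv_pow]
  obtain ⟨w, hwV, hw1, hw⟩ := hS (z ^ (2 ^ a)) v hv hz'o hz'inv
  have hc1 : Commute (QuotientGroup.mk' K w) (QuotientGroup.mk' K (z ^ (2 ^ a))) :=
    (show Commute w (z ^ (2 ^ a)) from hw).map (QuotientGroup.mk' K)
  have hπz' : QuotientGroup.mk' K (z ^ (2 ^ a)) = (xb ^ (2 ^ (a + 1)))⁻¹ := by
    rw [map_pow, hπz, ← pow_mul, inv_pow, pow_succ']
  rw [hπz'] at hc1
  have hc2 : Commute (QuotientGroup.mk' K w) (xb ^ (2 ^ (a + 1))) := by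
    simpa using hc1.inv_right
  obtain ⟨m, hm⟩ := exists_pow_eq_self_of_coprime (x := xb) (n := 2 ^ (a + 1))
    (Nat.Coprime.pow_left (a + 1) (Nat.coprime_two_left.mpr hxb))
  have hc3 : Commute (QuotientGroup.mk' K w) xb := by
    rw [← hm]; exact hc2.pow_right m
  refine ⟨QuotientGroup.mk' K w, ⟨w, hwV, rfl⟩, ?_, hc3.eq⟩
  intro h
  have h1 : w ∈ K := (QuotientGroup.eq_one_iff w).mp h
  have h2 : w ∈ V ⊓ K := ⟨hwV, h1⟩
  rw [hVK] at h2
  exact hw1 (Subgroup.mem_bot.mp h2)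

end Cfsg.Agent.S3012
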