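import Cfsg.Statements.S3013
import Mathlib

set_option autoImplicit false
open Cfsg

namespace Cfsg.Agent.S3013

/-- Let G be a finite group and V a nontrivial elementary abelian 2-subgroup of G satisfying the Sidki pair condition. Let v ∈ V and let x be an element of odd order inverted by v, and put C = C_G(v) ∩ C_G(x), the centralizer of the dihedral subgroup generated by v and x. Then C ∩ V is nontrivial and satisfies the Sidki pair condition inside C: every odd-order element of C inverted by an element of C ∩ V commutes with a nontrivial element of C ∩ V. -/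
theorem result {G : Type*} [Group G] [Finite G] (V : Subgroup G) (hV : Cfsg.IsElementaryAbelian 2 V) (hV1 : V ≠ ⊥) (hS : Cfsg.IsSidkiPair V) (v x : G) (hv : v ∈ V) (hx : Odd (orderOf x)) (hinv : v * x * v⁻¹ = x⁻¹) (C : Subgroup G) (hC : C = Subgroup.centralizer ({v} : Set G) ⊓ Subgroup.centralizer ({x} : Set G)) : C ⊓ V ≠ ⊥ ∧ Cfsg.IsSidkiPair ((C ⊓ V).subgroupOf C) := by
  have hcomm : ∀ a ∈ V, ∀ b ∈ V, a * b = b * a := fun a ha b hb =>
    congrArg Subtype.val (hV.1.is_comm.comm (⟨a, ha⟩ : V) ⟨b, hb⟩)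
  have hmemC : ∀ c : G, c ∈ C ↔ v * c = c * v ∧ x * c = c * x := by
    intro c
    rw [hC, Subgroup.mem_inf, Subgroup.mem_centralizer_singleton_iff,
      Subgroup.mem_centralizer_singleton_iff]
    constructor <;> rintro ⟨a, b⟩ <;> exact ⟨a.symm, b.symm⟩
  constructor
  · obtain ⟨w, hwV, hw1, hwx⟩ := hS x v hv hx hinv
    intro hb
    have h1 : w ∈ C ⊓ V := ⟨(hmemC w).mpr ⟨hcomm v hv w hwV, hwx.symm⟩, hwV⟩
    rw [hb] at h1
    exact hw1 (Subgroup.mem_bot.mp h1)
  · intro y u hu hy hinvy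
    have huCV : (u : G) ∈ C ⊓ V := hu
    obtain ⟨hyv, hyx⟩ := (hmemC y).mp y.2
    obtain ⟨huv, hux⟩ := (hmemC u).mp u.2
    have hinvY : (u : G) * (y : G) * (u : G)⁻¹ = (y : G)⁻¹ := congrArg Subtype.val hinvy
    have hyo : Odd (orderOf (y : G)) := by rw [Subgroup.orderOf_coe]; exact hy
    set Y : G := (y : G) with hYdef
    set U : G := (u : G) with hUdef
    have hxY : Commute x Y := hyx
    have hodd : Odd (orderOf (x * Y)) :=
      Odd.of_dvd_nat (hx.mul hyo) hxY.orderOf_mul_dvd_mul_orderOf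
    have h1 : v * x = x⁻¹ * v := by rw [← hinv]; group
    have h3 : U * x⁻¹ = x⁻¹ * U := by
      have : Commute U x := hux.symm
      exact this.inv_right
    have hvc : v * (x * Y) * v⁻¹ = x⁻¹ * Y := by
      calc v * (x * Y) * v⁻¹ = (v * x) * Y * v⁻¹ := by group
        _ = x⁻¹ * (v * Y) * v⁻¹ := by rw [h1]; group
        _ = x⁻¹ * Y := by rw [hyv]; group
    have hinv2 : (U * v) * (x * Y) * (U * v)⁻¹ = (x * Y)⁻¹ := by
      calc (U * v) * (x * Y) * (U * v)⁻¹ = U * (v * (x * Y) * v⁻¹) * U⁻¹ := by group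
        _ = (U * x⁻¹) * Y * U⁻¹ := by rw [hvc]; group
        _ = x⁻¹ * (U * Y * U⁻¹) := by rw [h3]; group
        _ = (x * Y)⁻¹ := by rw [hinvY, hxY.eq, mul_inv_rev]
    obtain ⟨w, hwV, hw1, hw⟩ := hS (x * Y) (U * v) (V.mul_mem huCV.2 hv) hodd hinv2
    have hwc : Commute w (x * Y) := hw
    have hwv : Commute w v := hcomm w hwV v hv
    have hw2 : Commute w (x⁻¹ * Y) := by
      rw [← hvc]
      exact (hwv.mul_right hwc).mul_right hwv.inv_right
    have hw3 : Commute w (Y ^ 2) := by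
      have h5 : (x * Y) * (x⁻¹ * Y) = Y ^ 2 := by
        rw [hxY.eq]; simp [pow_two, mul_assoc]
      rw [← h5]
      exact hwc.mul_right hw2
    have hwY : Commute w Y := by
      obtain ⟨m, hm⟩ := exists_pow_eq_self_of_coprime (x := Y) (n := 2)
        (Nat.coprime_two_left.mpr hyo)
      rw [← hm]
      exact hw3.pow_right m
    have hwx : Commute w x := by
      have h6 : x = (x * Y) * Y⁻¹ := by group
      rw [h6]
      exact hwc.mul_right hwY.inv_right
    have hwC : w ∈ C := (hmemC w).mpr ⟨hwv.eq.symm, hwx.eq.symm⟩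
    refine ⟨⟨w, hwC⟩, ?_, ?_, ?_⟩
    · exact ⟨hwC, hwV⟩
    · intro h
      exact hw1 (congrArg Subtype.val h)
    · exact Subtype.ext hwY.eq

end Cfsg.Agent.S3013
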