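import Cfsg.Statements.S3020
import Mathlib
import Cfsg.Agent.Lib.Helper1.Cores

set_option autoImplicit false
open Cfsg

namespace Cfsg.Agent.S3020

/-- Let G be a finite group, p a prime and H an abelian p-subgroup of G that is extremely closed (for every g, the subgroup generated by H and g H g⁻¹ meets N_G(H) exactly in H). Then for every g ∈ G, the subgroup T generated by H and g H g⁻¹ is the product of H with O_{p'}(T), and H meets O_{p'}(T) trivially; that is, O_{p'}(T) is a normal p-complement of H in T. -/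
theorem result {G : Type*} [Group G] [Finite G] {p : ℕ} [Fact p.Prime] (H : Subgroup G) (hHp : IsPGroup p H) (hHab : IsMulCommutative H) (hcl : Cfsg.IsExtremelyClosed H) (g : G) (T : Subgroup G) (hT : T = H ⊔ H.map (MulAut.conj g).toMonoidHom) : H ⊔ (Cfsg.pPrimeCore p ↥T).map T.subtype = T ∧ H ⊓ (Cfsg.pPrimeCore p ↥T).map T.subtype = ⊥ := by
  have hp : p.Prime := Fact.out
  have hHT : H ≤ T := by rw [hT]; exact le_sup_left
  set H' : Subgroup ↥T := H.subgroupOf T with hH'
  have hN : Subgroup.normalizer (H' : Set ↥T) = H' := by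
    rw [hH', ← Subgroup.subgroupOf_normalizer_eq hHT, ← Subgroup.inf_subgroupOf_left]
    have := hcl g
    rw [← hT] at this
    rw [this]
  have hcardH' : Nat.card H' = Nat.card H := Nat.card_congr (Subgroup.subgroupOfEquivOfLe hHT).toEquiv
  obtain ⟨n, hn⟩ := IsPGroup.iff_card.mp hHp
  have hn' : Nat.card H' = p ^ n := by rw [hcardH', hn]
  have hnd : ¬ p ^ (n + 1) ∣ Nat.card ↥T := by
    intro hd
    have h1 := Sylow.prime_dvd_card_quotient_normalizer hd hn'
    have h2 : Nat.card (↥(Subgroup.normalizer (H' : Set ↥T)) ⧸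
        Subgroup.comap (Subgroup.normalizer (H' : Set ↥T)).subtype H') =
        H'.relIndex (Subgroup.normalizer (H' : Set ↥T)) := rfl
    rw [h2, hN, Subgroup.relIndex_self] at h1
    exact hp.one_lt.ne' (Nat.dvd_one.mp h1)
  have hd : p ^ n ∣ Nat.card ↥T := hn' ▸ Subgroup.card_subgroup_dvd_card H'
  have hfac : (Nat.card ↥T).factorization p = n := by
    have h1 := (hp.pow_dvd_iff_le_factorization Nat.card_pos.ne').mp hd
    have h2 : ¬ (n + 1 ≤ (Nat.card ↥T).factorization p) := fun h =>
      hnd ((hp.pow_dvd_iff_le_factorization Nat.card_pos.ne').mpr h)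
    omega
  have hcard : Nat.card H' = p ^ (Nat.card ↥T).factorization p := by rw [hfac, hn']
  set P : Sylow p ↥T := Sylow.ofCard H' hcard with hP
  have hPH : (P : Subgroup ↥T) = H' := Sylow.coe_ofCard H' hcard
  have hcen : Subgroup.normalizer ((P : Subgroup ↥T) : Set ↥T) ≤
      Subgroup.centralizer ((P : Subgroup ↥T) : Set ↥T) := by
    rw [hPH, hN]
    intro x hx
    rw [Subgroup.mem_centralizer_iff]
    intro y hy
    have hx' : (x : G) ∈ H := hx
    have hy' : (y : G) ∈ H := hy
    have := hHab.is_comm.comm (⟨y, hy'⟩ : H) ⟨x, hx'⟩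
    have h3 : (y : G) * (x : G) = (x : G) * (y : G) := congrArg Subtype.val this
    exact Subtype.ext h3
  have hK := MonoidHom.ker_transferSylow_isComplement' P hcen
  set K := (MonoidHom.transferSylow P hcen).ker with hKdef
  have hKn : K.Normal := by rw [hKdef]; infer_instance
  have hKc : (Nat.card K).Coprime p := by
    rw [← hK.index_eq_card, Nat.coprime_comm]
    exact (Nat.Prime.coprime_iff_not_dvd hp).mpr P.not_dvd_index
  have hKO : K ≤ Cfsg.pPrimeCore p ↥T := Cfsg.Agent.Lib.Helper1.le_pPrimeCore hKn hKc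
  have hsup : H' ⊔ Cfsg.pPrimeCore p ↥T = ⊤ := by
    rw [eq_top_iff, ← hK.sup_eq_top, hPH, sup_comm]
    exact sup_le_sup_left hKO _
  constructor
  · have h1 := congrArg (Subgroup.map T.subtype) hsup
    rw [Subgroup.map_sup, hH', Subgroup.subgroupOf_map_subtype, inf_of_le_left hHT,
      ← MonoidHom.range_eq_map, Subgroup.range_subtype] at h1
    exact h1
  · apply (Subgroup.disjoint_of_coprime_natCard _).eq_bot
    rw [Subgroup.card_map_of_injective T.subtype_injective, hn]
    exact Nat.Coprime.pow_left n (Cfsg.Agent.Lib.Helper1.pPrimeCore_coprime p).symm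

end Cfsg.Agent.S3020
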