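import Cfsg.Statements.S3021
import Mathlib
import Cfsg.Agent.Lib.Helper1.Frobenius

set_option autoImplicit false
open Cfsg

namespace Cfsg.Agent.S3021

open Cfsg
open Cfsg.Agent.Lib.Helper1
open scoped Pointwise

/-- Let G be a finite group, p a prime and H a p-subgroup of G that is extremely closed (for every g, the subgroup generated by H and g H g⁻¹ meets N_G(H) exactly in H). Then every p-subgroup Q of G containing H has N_G(Q) ≤ N_G(H); in particular every Sylow p-subgroup P of G containing H normalizes H, and H is strongly closed in P with respect to G. -/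
theorem result {G : Type*} [Group G] [Finite G] {p : ℕ} [Fact p.Prime] (H : Subgroup G) (hHp : IsPGroup p H) (hcl : Cfsg.IsExtremelyClosed H) : (∀ Q : Subgroup G, IsPGroup p Q → H ≤ Q → Subgroup.normalizer (Q : Set G) ≤ Subgroup.normalizer (H : Set G)) ∧ ∀ P : Sylow p G, H ≤ (P : Subgroup G) → (P : Subgroup G) ≤ Subgroup.normalizer (H : Set G) ∧ Cfsg.IsStronglyClosed H (P : Subgroup G) := by
  have hcl' : ∀ g : G, (H ⊔ MulAut.conj g • H) ⊓ Subgroup.normalizer (H : Set G) = H := hcl
  -- key: if a conjugate of H normalizes H then it equals H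
  have key : ∀ g : G, MulAut.conj g • H ≤ Subgroup.normalizer (H : Set G) → g ∈ Subgroup.normalizer (H : Set G) := by
    intro g hg
    have h1 : H ⊔ MulAut.conj g • H ≤ Subgroup.normalizer (H : Set G) := sup_le Subgroup.le_normalizer hg
    have h2 := hcl' g
    rw [inf_eq_left.mpr h1] at h2
    have h3 : MulAut.conj g • H ≤ H := by
      conv_rhs => rw [← h2]
      exact le_sup_right
    rw [Subgroup.mem_normalizer_iff_map_conj_eq]
    show MulAut.conj g • H = H
    exact Subgroup.eq_of_le_of_card_ge h3 (by rw [card_conj_smul])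
  have hnorm : ∀ Q : Subgroup G, IsPGroup p Q → H ≤ Q → Q ≤ Subgroup.normalizer (H : Set G) := by
    intro Q hQ hHQ
    by_contra hcon
    have hlt : Q ⊓ Subgroup.normalizer (H : Set G) < Q := by
      apply lt_of_le_of_ne inf_le_left
      intro h
      exact hcon (inf_eq_left.mp h)
    have h2 := lt_inf_normalizer_of_lt hQ hlt
    obtain ⟨q, hq, hqn⟩ := SetLike.exists_of_lt h2
    obtain ⟨hqQ, hqN⟩ := Subgroup.mem_inf.mp hq
    apply hqn
    refine Subgroup.mem_inf.mpr ⟨hqQ, key q ?_⟩
    have h3 : MulAut.conj q • (Q ⊓ Subgroup.normalizer (H : Set G)) = Q ⊓ Subgroup.normalizer (H : Set G) :=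
      Subgroup.mem_normalizer_iff_map_conj_eq.mp hqN
    have h4 : MulAut.conj q • H ≤ MulAut.conj q • (Q ⊓ Subgroup.normalizer (H : Set G)) :=
      conj_smul_mono q (le_inf hHQ Subgroup.le_normalizer)
    rw [h3] at h4
    exact h4.trans inf_le_right
  constructor
  · intro Q hQ hHQ n hn
    apply key
    have h3 : MulAut.conj n • Q = Q := Subgroup.mem_normalizer_iff_map_conj_eq.mp hn
    have h4 := conj_smul_mono n hHQ
    rw [h3] at h4
    exact h4.trans (hnorm Q hQ hHQ)
  · intro P hHP
    have hPN := hnorm (P : Subgroup G) P.2 hHP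
    refine ⟨hPN, hHP, ?_⟩
    intro x hx g hg
    rw [← hcl' g]
    refine Subgroup.mem_inf.mpr ⟨Subgroup.mem_sup_right ?_, hPN hg⟩
    rw [mem_conj_smul]
    have e : g⁻¹ * (g * x * g⁻¹) * g = x := by group
    rw [e]; exact hx

end Cfsg.Agent.S3021
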