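import Cfsg.Statements.S3025
import Mathlib
import Cfsg.Agent.Lib.Helper6.Flav
import Cfsg.Agent.S0016

set_option autoImplicit false
open Cfsg

namespace Cfsg.Agent.S3025

open Cfsg.Agent.Lib.Helper6.Basic in
theorem lemA {F : Type*} [Group F] [Finite F] (H : Subgroup F)
    (hmin : ∀ R : Subgroup F, R ≠ ⊥ → H ≤ Subgroup.normalizer (R : Set F) → H ≤ R)
    (X : Subgroup F) (hX : X ≠ ⊥)
    (hXn : ∀ n ∈ Subgroup.normalClosure (H : Set F), cj n X = X) :
    Subgroup.normalClosure (H : Set F) ≤ X := by
  have hNn : (Subgroup.normalClosure (H : Set F)).Normal := Subgroup.normalClosure_normal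
  have h1 : ∀ f : F, H ≤ cj f X := by
    intro f
    apply hmin
    · intro h
      exact hX (cj_eq_bot_iff.mp h)
    · intro h hh
      apply cj_eq_self_iff.mp
      rw [cj_cj]
      have h2 : h * f = f * (f⁻¹ * h * f) := by group
      have h3 : f⁻¹ * h * f ∈ Subgroup.normalClosure (H : Set F) := by
        have := hNn.conj_mem h (Subgroup.le_normalClosure hh) f⁻¹
        simpa using this
      rw [h2, ← cj_cj, hXn _ h3]
  have h2 : H ≤ X.normalCore := by
    intro h hh b
    have := h1 b⁻¹ hh
    rw [mem_cj] at this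
    simpa using this
  exact le_trans (Subgroup.normalClosure_le_normal h2) X.normalCore_le

/-- Let F be a finite group and H a nontrivial subgroup of F that is contained in every nontrivial subgroup of F which H normalizes. Then F has a nontrivial normal subgroup N contained in every nontrivial normal subgroup of F (a unique minimal normal subgroup), N is simple, and one of the following holds: C_F(N) = 1; or H = N has prime order p, C_F(N) is cyclic of order a power of p, and F/C_F(N) is cyclic of order dividing p − 1; or H = N has order 2, N is central in F, and F is a generalized quaternion group. -/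
theorem result {F : Type*} [Group F] [Finite F] (H : Subgroup F) (hH : H ≠ ⊥)
    (hmin : ∀ R : Subgroup F, R ≠ ⊥ → H ≤ Subgroup.normalizer (R : Set F) → H ≤ R) :
    ∃ N : Subgroup F, N.Normal ∧ N ≠ ⊥ ∧ (∀ M : Subgroup F, M.Normal → M ≠ ⊥ → N ≤ M) ∧ IsSimpleGroup ↥N ∧
      (Subgroup.centralizer (N : Set F) = ⊥ ∨
       (H = N ∧ (Nat.card N).Prime ∧ IsCyclic ↥(Subgroup.centralizer (N : Set F)) ∧
          (∃ k : ℕ, 1 ≤ k ∧ Nat.card ↥(Subgroup.centralizer (N : Set F)) = Nat.card N ^ k) ∧
          (∃ g : F, Subgroup.centralizer (N : Set F) ⊔ Subgroup.zpowers g = ⊤) ∧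
          (Subgroup.centralizer (N : Set F)).index ∣ Nat.card N - 1) ∨
       (H = N ∧ Nat.card N = 2 ∧ Subgroup.centralizer (N : Set F) = ⊤ ∧
          ∃ k : ℕ, 1 ≤ k ∧ Nonempty (F ≃* QuaternionGroup (2 ^ k)))) := by
  classical
  set N := Subgroup.normalClosure (H : Set F) with hN
  have hNn : N.Normal := Subgroup.normalClosure_normal
  have hHN : H ≤ N := Subgroup.le_normalClosure
  have hN1 : N ≠ ⊥ := fun h => hH (le_bot_iff.mp (h ▸ hHN))
  have hA := lemA H hmin
  have hminN : ∀ M : Subgroup F, M.Normal → M ≠ ⊥ → N ≤ M := by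
    intro M hM hM1
    apply hA M hM1
    intro n _
    exact Cfsg.Agent.Lib.Helper6.Basic.cj_normal n
  have hsimple : IsSimpleGroup N := by
    haveI : Nontrivial N := (Subgroup.nontrivial_iff_ne_bot N).mpr hN1
    refine ⟨fun K hK => ?_⟩
    by_cases hK1 : K = ⊥
    · exact Or.inl hK1
    right
    have hsub : (K.map N.subtype).subgroupOf N = K :=
      Subgroup.comap_map_eq_self_of_injective Subtype.coe_injective K
    have h1 : N ≤ K.map N.subtype := by
      apply hA
      · intro h
        exact hK1 ((Subgroup.map_eq_bot_iff_of_injective K Subtype.coe_injective).mp h)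
      · apply (Cfsg.Agent.Lib.Helper6.Flav.normal_sub_iff _ N (Subgroup.map_subtype_le K)).mp
        rw [hsub]; exact hK
    rw [← hsub]; exact Subgroup.subgroupOf_eq_top.mpr h1
  refine ⟨N, hNn, hN1, hminN, hsimple, ?_⟩
  set C := Subgroup.centralizer (N : Set F) with hC
  by_cases hC1 : C = ⊥
  · exact Or.inl hC1
  right
  have hCn : C.Normal := Subgroup.normal_centralizer
  have hNC : N ≤ C := hminN C hCn hC1
  have hcomm : ∀ c ∈ C, ∀ n ∈ N, n * c = c * n :=
    fun c hc n hn => Subgroup.mem_centralizer_iff.mp hc n hn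
  have hsubC : ∀ R : Subgroup F, R ≤ C → R ≠ ⊥ → N ≤ R := by
    intro R hR hR1
    apply hA R hR1
    intro n hn
    apply Subgroup.eq_of_le_of_card_ge
    · rintro _ ⟨r, hr, rfl⟩
      have : n * r * n⁻¹ = r := by rw [hcomm r (hR hr) n hn]; group
      change n * r * n⁻¹ ∈ R
      rw [this]; exact hr
    · rw [Cfsg.Agent.Lib.Helper6.Basic.card_cj]
  have hH1 : Nat.card H ≠ 1 := fun h => hH (Subgroup.eq_bot_of_card_eq H h)
  obtain ⟨p, hp, hpd⟩ := Nat.exists_prime_and_dvd hH1
  haveI : Fact p.Prime := ⟨hp⟩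
  obtain ⟨x, hx⟩ := exists_prime_orderOf_dvd_card' p hpd
  have hxo : orderOf (x : F) = p := by rw [Subgroup.orderOf_coe]; exact hx
  have hR0H : Subgroup.zpowers (x : F) ≤ H := Subgroup.zpowers_le.mpr x.2
  have hNR0 : N ≤ Subgroup.zpowers (x : F) := by
    apply hsubC _ (le_trans hR0H (le_trans hHN hNC))
    intro h
    have h1 := Subgroup.zpowers_eq_bot.mp h
    rw [h1, orderOf_one] at hxo
    exact hp.one_lt.ne hxo
  have hHeq : H = N := le_antisymm hHN (le_trans hNR0 hR0H)
  have hNeq : N = Subgroup.zpowers (x : F) := le_antisymm hNR0 (le_trans hR0H hHN)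
  have hcardN : Nat.card N = p := by rw [hNeq, Nat.card_zpowers, hxo]
  have hq : ∀ {q : ℕ}, q.Prime → q ∣ Nat.card C → q = p := by
    intro q hq hd
    haveI := Fact.mk hq
    obtain ⟨y, hy⟩ := exists_prime_orderOf_dvd_card' q hd
    have hyo : orderOf (y : F) = q := by rw [Subgroup.orderOf_coe]; exact hy
    have h1 : N ≤ Subgroup.zpowers (y : F) := by
      apply hsubC _ (Subgroup.zpowers_le.mpr y.2)
      intro h
      have h1 := Subgroup.zpowers_eq_bot.mp h
      rw [h1, orderOf_one] at hyo
      exact hq.one_lt.ne hyo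
    have h2 : Nat.card N ∣ Nat.card (Subgroup.zpowers (y : F)) := Subgroup.card_dvd_of_le h1
    rw [hcardN, Nat.card_zpowers, hyo] at h2
    exact ((Nat.prime_dvd_prime_iff_eq hp hq).mp h2).symm
  have hcardC := Nat.eq_prime_pow_of_unique_prime_dvd (Nat.card_pos (α := C)).ne' hq
  set k := (Nat.card C).primeFactorsList.length with hk
  have hk1 : 1 ≤ k := by
    rcases Nat.eq_zero_or_pos k with h | h
    · exfalso
      rw [h, pow_zero] at hcardC
      exact hC1 (Subgroup.eq_bot_of_card_eq C hcardC)
    · exact h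
  have huniq : ∀ A B : Subgroup C, Nat.card A = p → Nat.card B = p → A = B := by
    have key : ∀ A : Subgroup C, Nat.card A = p → A.map C.subtype = N := by
      intro A hA'
      have hc : Nat.card (A.map C.subtype) = p := by
        rw [Subgroup.card_map_of_injective C.subtype_injective]; exact hA'
      symm
      apply Subgroup.eq_of_le_of_card_ge
      · apply hsubC _ (Subgroup.map_subtype_le A)
        intro h
        rw [h, Subgroup.card_bot] at hc
        exact hp.one_lt.ne hc
      · rw [hc, hcardN]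
    intro A B hA' hB'
    exact Subgroup.map_injective C.subtype_injective ((key A hA').trans (key B hB').symm)
  have hcycN : IsCyclic N := isCyclic_of_prime_card hcardN
  let φ : F →* MulAut N := MulAut.conjNormal
  have hker : φ.ker = C := by
    ext f
    rw [MonoidHom.mem_ker, hC, Subgroup.mem_centralizer_iff]
    constructor
    · intro h n hn
      have h1 : (φ f ⟨n, hn⟩ : F) = n := by rw [h]; rfl
      rw [MulAut.conjNormal_apply] at h1
      calc n * f = (f * n * f⁻¹) * f := by rw [h1]
        _ = f * n := by group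
    · intro h
      ext n
      rw [MulAut.conjNormal_apply, ← h n n.2]
      simp
  have hidx : C.index ∣ Nat.card N - 1 := by
    have key := Subgroup.card_dvd_of_injective _ (QuotientGroup.kerLift_injective φ)
    rw [← Subgroup.index, hker, hcycN.card_mulAut, hcardN, Nat.totient_prime hp] at key
    rw [hcardN]; exact key
  have hg : ∃ g : F, C ⊔ Subgroup.zpowers g = ⊤ := by
    haveI hcycA : IsCyclic (MulAut N) := by
      have e := IsCyclic.mulAutMulEquiv N
      rw [hcardN] at e
      exact isCyclic_of_surjective e.symm e.symm.surjective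
    obtain ⟨⟨_, g, rfl⟩, hgen⟩ := (inferInstance : IsCyclic φ.range).exists_generator
    refine ⟨g, ?_⟩
    rw [eq_top_iff]
    intro f _
    obtain ⟨j, hj⟩ := Subgroup.mem_zpowers_iff.mp (hgen ⟨φ f, f, rfl⟩)
    have hj' : φ g ^ j = φ f := congrArg Subtype.val hj
    have h1 : f * (g ^ j)⁻¹ ∈ C := by
      rw [← hker, MonoidHom.mem_ker, map_mul, map_inv, map_zpow, hj', mul_inv_cancel]
    have h2 : f = (f * (g ^ j)⁻¹) * g ^ j := by group
    rw [h2]
    exact mul_mem (Subgroup.mem_sup_left h1)
      (Subgroup.mem_sup_right (Subgroup.zpow_mem_zpowers g j))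
  have hleft : IsCyclic C → (H = N ∧ (Nat.card N).Prime ∧ IsCyclic ↥C ∧
          (∃ k : ℕ, 1 ≤ k ∧ Nat.card ↥C = Nat.card N ^ k) ∧
          (∃ g : F, C ⊔ Subgroup.zpowers g = ⊤) ∧ C.index ∣ Nat.card N - 1) := fun hcyc =>
    ⟨hHeq, hcardN ▸ hp, hcyc, ⟨k, hk1, by rw [hcardN]; exact hcardC⟩, hg, hidx⟩
  rcases Cfsg.Agent.S0016.result p (IsPGroup.of_card hcardC) huniq with hcyc | ⟨hp2, n, ⟨e⟩⟩
  · exact Or.inl (hleft hcyc)
  · by_cases hn : n = 0
    · left
      apply hleft
      rw [hn, pow_zero] at e
      haveI := QuaternionGroup.quaternionGroup_one_isCyclic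
      exact isCyclic_of_surjective e.symm e.symm.surjective
    · right
      have hCtop : C = ⊤ := by
        rw [hcardN, hp2] at hidx
        exact Subgroup.index_eq_one.mp (Nat.dvd_one.mp hidx)
      refine ⟨hHeq, by rw [hcardN, hp2], hCtop, n, Nat.one_le_iff_ne_zero.mpr hn, ⟨?_⟩⟩
      exact (Subgroup.topEquiv.symm.trans (MulEquiv.subgroupCongr hCtop.symm)).trans e

end Cfsg.Agent.S3025
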