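import Mathlib
import Cfsg.Statements.S3058
import Cfsg.Agent.S0058
import Cfsg.Agent.Lib.Lead.SylGraph
import Cfsg.Agent.Lib.Helper1.Coprime
import Cfsg.Agent.Lib.Helper1.Cyc

set_option autoImplicit false
open Cfsg
open scoped Pointwise

namespace Cfsg.Agent.S3058

open Cfsg.Agent.Lib.Helper6.Basic Cfsg.Agent.Lib.Helper1
open Cfsg.Agent.Lib.Helper9.StrongEmb Cfsg.Agent.Lib.Helper9.SylowIn

theorem centralizer_le {G : Type*} [Group G] [Finite G] {p : ℕ} [Fact p.Prime] {H : Subgroup G}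
    (hC : CondC p H) {a : G} (haH : a ∈ H) (ha1 : a ≠ 1) (hzp : IsPGroup p (Subgroup.zpowers a)) :
    Subgroup.centralizer ({a} : Set G) ≤ H := by
  have hz : Subgroup.zpowers a ≤ H := by rw [Subgroup.zpowers_le]; exact haH
  have hzne : Subgroup.zpowers a ≠ ⊥ := by
    rw [Ne, Subgroup.zpowers_eq_bot]; exact ha1
  refine le_trans ?_ (hC.2 _ hz hzp hzne)
  intro c hc
  apply Subgroup.centralizer_le_normalizer
  rw [Subgroup.mem_centralizer_iff]
  rintro _ ⟨i, rfl⟩
  have h1 : Commute a c := Subgroup.mem_centralizer_iff.1 hc a rfl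
  exact h1.zpow_left i

theorem exists_sylow_le {G : Type*} [Group G] [Finite G] {p : ℕ} [Fact p.Prime] {H : Subgroup G}
    (hC : CondC p H) : ∃ S : Sylow p G, (S : Subgroup G) ≤ H := by
  obtain ⟨P0, hP0, hP0ne, _⟩ := exists_sylowIn hC
  have h1 : IsSylowIn p P0 (H ⊓ ⊤) := by rw [inf_top_eq]; exact hP0
  obtain ⟨S, hS⟩ := IsSylowIn.top_iff.1 (hC.sylowIn_of_inf h1 hP0ne)
  exact ⟨S, hS ▸ hP0.le⟩

theorem result {G : Type*} [Group G] [Finite G]
    (p : ℕ) [Fact p.Prime] (hG : ¬ Cfsg.IsSylowChainConnected p G)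
    (N M : Subgroup G) [N.Normal] [M.Normal] (hN : p ∣ Nat.card N) (hM : p ∣ Nat.card M) :
    p ∣ Nat.card ↥(N ⊓ M) := by
  have hp : p.Prime := Fact.out
  obtain ⟨H, hHT, hC⟩ := SylGraph.exists_condC hG
  by_contra hnd
  obtain ⟨S, hSH⟩ := exists_sylow_le hC
  have hex : ∀ L : Subgroup G, L.Normal → p ∣ Nat.card L →
      ∃ a ∈ (S : Subgroup G) ⊓ L, orderOf a = p := by
    intro L hL hd
    obtain ⟨x, hx⟩ := exists_prime_orderOf_dvd_card' (G := L) p hd
    have hxo : orderOf (x : G) = p := by rw [Subgroup.orderOf_coe]; exact hx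
    have hxp : IsPGroup p (Subgroup.zpowers (x : G)) := isPGroup_zpowers hxo
    obtain ⟨Q, hQ⟩ := hxp.exists_le_sylow
    obtain ⟨g, rfl⟩ := MulAction.exists_smul_eq G S Q
    have h2 : g⁻¹ * x * g ∈ (S : Subgroup G) :=
      mem_cj.1 (show (x : G) ∈ cj g (S : Subgroup G) from hQ (Subgroup.mem_zpowers _))
    refine ⟨g⁻¹ * x * g, ⟨h2, ?_⟩, ?_⟩
    · have := hL.conj_mem x x.2 g⁻¹
      simpa using this
    · have := orderOf_conj g⁻¹ (x : G)
      rw [inv_inv] at this
      rw [this, hxo]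
  obtain ⟨a, ha, hao⟩ := hex N inferInstance hN
  obtain ⟨b, hb, hbo⟩ := hex M inferInstance hM
  have hRcop : (Nat.card ↥(N ⊓ M)).Coprime p :=
    ((Nat.Prime.coprime_iff_not_dvd hp).2 hnd).symm
  obtain ⟨k, hk⟩ := IsPGroup.iff_card.1 S.2
  have hSR : (S : Subgroup G) ⊓ (N ⊓ M) = ⊥ := by
    apply Subgroup.inf_eq_bot_of_coprime
    have : Nat.card (S : Subgroup G) = p ^ k := hk
    rw [this]
    exact Nat.Coprime.pow_left _ hRcop.symm
  have hRS : ∀ y, y ∈ (S : Subgroup G) → y ∈ N ⊓ M → y = 1 := by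
    intro y h1 h2
    have : y ∈ (S : Subgroup G) ⊓ (N ⊓ M) := ⟨h1, h2⟩
    rwa [hSR, Subgroup.mem_bot] at this
  have hab : a * b = b * a := by
    have hc : a * b * a⁻¹ * b⁻¹ = 1 := by
      apply hRS
      · exact Subgroup.mul_mem _ (Subgroup.mul_mem _ (Subgroup.mul_mem _ ha.1 hb.1)
          (Subgroup.inv_mem _ ha.1)) (Subgroup.inv_mem _ hb.1)
      · constructor
        · have e : a * b * a⁻¹ * b⁻¹ = a * (b * a⁻¹ * b⁻¹) := by group
          show a * b * a⁻¹ * b⁻¹ ∈ N
          rw [e]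
          exact N.mul_mem ha.2 (‹N.Normal›.conj_mem _ (N.inv_mem ha.2) b)
        · exact M.mul_mem (‹M.Normal›.conj_mem _ hb.2 a) (M.inv_mem hb.2)
    calc a * b = (a * b * a⁻¹ * b⁻¹) * (b * a) := by group
      _ = b * a := by rw [hc, one_mul]
  haveI hEc : IsMulCommutative (Subgroup.closure ({a, b} : Set G)) :=
    Subgroup.isMulCommutative_closure (by
      rintro x (rfl | rfl) y (rfl | rfl)
      · rfl
      · exact hab
      · exact hab.symm
      · rfl)
  have hES : Subgroup.closure ({a, b} : Set G) ≤ (S : Subgroup G) := by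
    rw [Subgroup.closure_le]
    rintro x (rfl | rfl)
    · exact ha.1
    · exact hb.1
  have hnc : ¬ IsCyclic (Subgroup.closure ({a, b} : Set G)) := by
    intro hcyc
    have h1 := Cyc.mem_zpowers_of_orderOf_dvd' _ hcyc
      (Subgroup.subset_closure (show a ∈ ({a, b} : Set G) from Or.inl rfl))
      (Subgroup.subset_closure (show b ∈ ({a, b} : Set G) from Or.inr rfl))
      (by rw [hao, hbo])
    have haM : a ∈ M := (Subgroup.zpowers_le.2 hb.2) h1
    have h2 := hRS a ha.1 ⟨ha.2, haM⟩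
    rw [h2, orderOf_one] at hao
    exact hp.one_lt.ne hao
  obtain ⟨j, hj⟩ := IsPGroup.iff_card.1 (S.2.to_le hES)
  have hgen := S0058.result (Subgroup.closure ({a, b} : Set G)) (N ⊓ M) hnc
    (by rw [Subgroup.normalizer_eq_top]; exact le_top)
    (by rw [hj]; exact Nat.Coprime.pow_left _ hRcop.symm)
  have hRH : N ⊓ M ≤ H := by
    rw [← hgen]
    apply iSup₂_le
    rintro e ⟨heE, he1⟩
    exact inf_le_right.trans (centralizer_le hC (hSH (hES heE)) he1
      (S.2.to_le (Subgroup.zpowers_le.2 (hES heE))))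
  have hb1 : b ≠ 1 := by
    rintro rfl
    rw [orderOf_one] at hbo
    exact hp.one_lt.ne hbo
  have hNH : N ≤ H := by
    intro n hn
    have hBM : Subgroup.zpowers b ≤ M := Subgroup.zpowers_le.2 hb.2
    obtain ⟨d, hd, hdc⟩ := exists_fixed_in_coset (Subgroup.zpowers b) (N ⊓ M)
      (by rw [Subgroup.normalizer_eq_top]; exact le_top)
      (by rw [Nat.card_zpowers, hbo]; exact hRcop.symm)
      (Or.inl inferInstance) n (by
        intro c hc
        constructor
        · exact N.mul_mem (N.inv_mem hn) (‹N.Normal›.conj_mem _ hn c)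
        · have e : n⁻¹ * (c * n * c⁻¹) = (n⁻¹ * c * n⁻¹⁻¹) * c⁻¹ := by group
          show n⁻¹ * (c * n * c⁻¹) ∈ M
          rw [e]
          exact M.mul_mem (‹M.Normal›.conj_mem _ (hBM hc) n⁻¹) (M.inv_mem (hBM hc)))
    have h1 : n * d ∈ H := by
      apply centralizer_le hC (hSH hb.1) hb1 (isPGroup_zpowers hbo)
      rw [Subgroup.mem_centralizer_iff]
      intro y hy
      have hy' : y = b := hy
      rw [hy']
      exact Subgroup.mem_centralizer_iff.1 hdc b (Subgroup.mem_zpowers b)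
    have := H.mul_mem h1 (H.inv_mem (hRH hd))
    simpa using this
  obtain ⟨P1⟩ : Nonempty (Sylow p N) := inferInstance
  have hne : (P1 : Subgroup N).map N.subtype ≠ ⊥ := by
    intro hbt
    rw [Subgroup.map_eq_bot_iff_of_injective _ N.subtype_injective] at hbt
    exact P1.ne_bot_of_dvd_card hN hbt
  have hfr := Sylow.normalizer_sup_eq_top P1
  have h3 := hC.2 _ ((Subgroup.map_subtype_le _).trans hNH) (P1.isPGroup'.map _) hne
  apply hHT
  rw [eq_top_iff, ← hfr]
  exact sup_le h3 hNH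

end Cfsg.Agent.S3058
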