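import Mathlib
import Cfsg.Statements.S3056
import Cfsg.Agent.S3058

set_option autoImplicit false
open Cfsg
open scoped Pointwise

namespace Cfsg.Agent.S3056

open Cfsg.Agent.Lib.Helper6.Basic
open Cfsg.Agent.Lib.Helper9.StrongEmb Cfsg.Agent.Lib.Helper9.SylowIn Cfsg.Agent.SylGraph

theorem not_connected {G : Type*} [Group G] [Finite G] {p : ℕ} [Fact p.Prime] {H : Subgroup G}
    (hHT : H ≠ ⊤) (hB : CondB p H) : ¬ Cfsg.IsSylowChainConnected p G := by
  intro hconn
  rw [connected_iff] at hconn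
  obtain ⟨S, hSH⟩ := S3058.exists_sylow_le (condC_of_condB hB)
  have key : ∀ T : Sylow p G, Conn S T → (T : Subgroup G) ≤ H := by
    intro T hT
    induction hT with
    | refl => exact hSH
    | @tail b c' _ hbc ih =>
      obtain ⟨x, rfl⟩ := MulAction.exists_smul_eq G b c'
      have hxH : x ∈ H := by
        by_contra hx
        apply hB.2 x hx
        have h1 : (b : Subgroup G) ⊓ ((x • b : Sylow p G) : Subgroup G) ≤ H ⊓ conjBy H x :=
          inf_le_inf ih (cj_mono ih)
        exact (dvd_card_of_ne_bot (b.2.to_le inf_le_left) hbc).trans (Subgroup.card_dvd_of_le h1)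
      have := cj_mono (g := x) ih
      rwa [cj_eq_self_of_mem hxH] at this
  obtain ⟨g, hg⟩ : ∃ g : G, g ∉ H := by
    by_contra hcon
    push Not at hcon
    exact hHT (eq_top_iff.2 fun x _ => hcon x)
  apply hB.2 g hg
  have h1 : ((g • S : Sylow p G) : Subgroup G) ≤ H ⊓ conjBy H g :=
    le_inf (key _ (hconn S _)) (cj_mono hSH)
  have hne : ((g • S : Sylow p G) : Subgroup G) ≠ ⊥ := by
    apply Sylow.ne_bot_of_dvd_card
    exact hB.1.trans (Subgroup.card_subgroup_dvd_card H)
  exact (dvd_card_of_ne_bot (g • S).2 hne).trans (Subgroup.card_dvd_of_le h1)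

theorem result {G : Type*} [Group G] [Finite G]
    (p : ℕ) [Fact p.Prime] :
    ¬ Cfsg.IsSylowChainConnected p G ↔
      ∃ H : Subgroup G, H ≠ ⊤ ∧ p ∣ Nat.card H ∧
        ∀ g : G, g ∉ H → ¬ p ∣ Nat.card ↥(H ⊓ H.map (MulAut.conj g).toMonoidHom) := by
  constructor
  · intro h
    obtain ⟨H, hHT, hC⟩ := exists_condC h
    have hB := condB_of_condC hC
    exact ⟨H, hHT, hB.1, hB.2⟩
  · rintro ⟨H, hHT, h1, h2⟩
    exact not_connected hHT ⟨h1, h2⟩

end Cfsg.Agent.S3056
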