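import Cfsg.Statements.S3059
import Mathlib
import Cfsg.Agent.Lib.Helper1.HallRel
import Cfsg.Agent.Lib.Helper1.Frat
import Cfsg.Agent.Lib.Helper1.Transfer1
import Cfsg.Agent.Lib.Helper1.Frobenius

set_option autoImplicit false
open Cfsg

namespace Cfsg.Agent.S3059

open Cfsg
open Cfsg.Agent.Lib.Helper1
open scoped Pointwise

/-- Let p be a prime and H a strongly p-embedded subgroup of the finite group G in the classical sense: H is proper, p divides the order of H, and H ∩ gHg⁻¹ has order prime to p for every g outside H. Then for every normal subgroup N of G of order divisible by p, G = H · O^p(N), where O^p(N) is the subgroup generated by the elements of N of order prime to p. -/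
theorem result {G : Type*} [Group G] [Finite G]
    (p : ℕ) [Fact p.Prime] (H : Subgroup G) (hH : H ≠ ⊤) (hpH : p ∣ Nat.card H)
    (hse : ∀ g : G, g ∉ H → ¬ p ∣ Nat.card ↥(H ⊓ H.map (MulAut.conj g).toMonoidHom))
    (N : Subgroup G) [N.Normal] (hN : p ∣ Nat.card N) :
    H ⊔ Subgroup.closure {g : G | g ∈ N ∧ (orderOf g).Coprime p} = ⊤ := by
  have hp : p.Prime := Fact.out
  have hb : ∀ Q : Subgroup G, Q ≤ H → p ∣ Nat.card Q → Subgroup.normalizer (Q : Set G) ≤ H := by
    intro Q hQH hpQ g hg
    by_contra hgH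
    apply hse g hgH
    apply hpQ.trans
    apply Subgroup.card_dvd_of_le
    intro q hq
    refine ⟨hQH hq, g⁻¹ * q * g, hQH ?_, ?_⟩
    · have := (Subgroup.mem_normalizer_iff.mp (Subgroup.inv_mem _ hg) q).mp hq
      rwa [inv_inv] at this
    · show g * (g⁻¹ * q * g) * g⁻¹ = q
      group
  -- Sylow of G inside H
  obtain ⟨S0⟩ : Nonempty (Sylow p H) := inferInstance
  set S := (S0 : Subgroup H).map H.subtype with hS
  have hSH : S ≤ H := Subgroup.map_subtype_le _
  have hSc : Nat.card S = p ^ (Nat.card H).factorization p := by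
    rw [hS, Subgroup.card_map_of_injective H.subtype_injective, S0.card_eq_multiplicity]
  have hSp : IsPGroup p S := IsPGroup.of_card hSc
  have hfac : ∀ K : Subgroup G, p ∣ Nat.card K → (Nat.card K).factorization p ≠ 0 := by
    intro K hK
    have := (hp.dvd_iff_one_le_factorization (Nat.card_pos (α := K)).ne').mp hK
    omega
  have hpS : p ∣ Nat.card S := by
    rw [hSc]; exact dvd_pow_self p (hfac H hpH)
  obtain ⟨P, hSP⟩ := hSp.exists_le_sylow
  have hPS : (P : Subgroup G) = S := by
    by_contra hne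
    have hlt : S < (P : Subgroup G) := lt_of_le_of_ne hSP (Ne.symm hne)
    have h1 := lt_inf_normalizer_of_lt P.2 hlt
    have h2 : (P : Subgroup G) ⊓ Subgroup.normalizer (S : Set G) ≤ H := inf_le_right.trans (hb S hSH hpS)
    have h3 : IsPGroup p ((P : Subgroup G) ⊓ Subgroup.normalizer (S : Set G) : Subgroup G) := P.2.to_le inf_le_left
    obtain ⟨j, hj⟩ := IsPGroup.iff_card.mp h3
    have h4 : p ^ j ∣ Nat.card H := hj ▸ Subgroup.card_dvd_of_le h2
    have h5 : j ≤ (Nat.card H).factorization p := (hp.pow_dvd_iff_le_factorization Nat.card_pos.ne').mp h4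
    have h6 : Nat.card ((P : Subgroup G) ⊓ Subgroup.normalizer (S : Set G) : Subgroup G) ≤ Nat.card S := by
      rw [hj, hSc]; exact Nat.pow_le_pow_right hp.pos h5
    have h7 := Subgroup.eq_of_le_of_card_ge h1.le h6
    exact h1.ne h7
  have hPH : (P : Subgroup G) ≤ H := hPS ▸ hSH
  -- Sylow of N inside H
  obtain ⟨Q0⟩ : Nonempty (Sylow p N) := inferInstance
  set Q1 := (Q0 : Subgroup N).map N.subtype with hQ1
  have hQ1N : Q1 ≤ N := Subgroup.map_subtype_le _
  have hQ1c : Nat.card Q1 = p ^ (Nat.card N).factorization p := by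
    rw [hQ1, Subgroup.card_map_of_injective N.subtype_injective, Q0.card_eq_multiplicity]
  have hQ1p : IsPGroup p Q1 := IsPGroup.of_card hQ1c
  obtain ⟨l, -, hl⟩ := sylow_dominance_in ⊤ (P : Subgroup G) Q1 le_top le_top (sylow_card_top P) hQ1p
  set Q := MulAut.conj l⁻¹ • Q1 with hQ
  have hQc : Nat.card Q = p ^ (Nat.card N).factorization p := by
    rw [hQ, card_conj_smul, hQ1c]
  have hQP : Q ≤ (P : Subgroup G) := by
    intro x hx
    rw [hQ, mem_conj_smul, inv_inv] at hx
    have := hl hx
    rw [mem_conj_smul] at this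
    have e : l⁻¹ * (l * x * l⁻¹) * l = x := by group
    rwa [e] at this
  have hQN : Q ≤ N := by
    intro x hx
    rw [hQ, mem_conj_smul, inv_inv] at hx
    have h1 := hQ1N hx
    have h2 := (inferInstance : N.Normal).conj_mem _ h1 l⁻¹
    have e : l⁻¹ * (l * x * l⁻¹) * l⁻¹⁻¹ = x := by group
    rwa [e] at h2
  have hpQ : p ∣ Nat.card Q := by
    rw [hQc]; exact dvd_pow_self p (hfac N hN)
  have hfr := frattini_argument_sub N Q hQN hQc
  have hNQ : Subgroup.normalizer (Q : Set G) ≤ H := hb Q (hQP.trans hPH) hpQ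
  set R := Subgroup.closure {g : G | g ∈ N ∧ (orderOf g).Coprime p} with hR
  have hNle : N ≤ H ⊔ R := by
    let SN : Sylow p N := Sylow.ofCard (Q.subgroupOf N) (by
      rw [Nat.card_congr (Subgroup.subgroupOfEquivOfLe hQN).toEquiv, hQc])
    have h1 := sylow_sup_pResidual SN
    have h2 : ((SN : Subgroup N) ⊔ pResidual p N).map N.subtype = N := by
      rw [h1, ← MonoidHom.range_eq_map, Subgroup.range_subtype]
    rw [Subgroup.map_sup] at h2
    have h3 : (SN : Subgroup N).map N.subtype = Q := by
      change (Q.subgroupOf N).map N.subtype = Q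
      rw [Subgroup.map_subgroupOf_eq_of_le hQN]
    have h4 : (pResidual p N).map N.subtype ≤ R := by
      rw [pResidual, MonoidHom.map_closure, Subgroup.closure_le]
      rintro _ ⟨g, hg, rfl⟩
      apply Subgroup.subset_closure
      refine ⟨g.2, ?_⟩
      show (orderOf (g : G)).Coprime p
      rw [Subgroup.orderOf_coe]
      exact hg
    rw [← h2, h3]
    exact sup_le_sup (hQP.trans hPH) h4
  rw [eq_top_iff, ← hfr]
  exact sup_le (hNQ.trans le_sup_left) hNle

end Cfsg.Agent.S3059
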