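import Cfsg.Statements.S3078
import Cfsg.Agent.Lib.Helper3.Repl3
import Cfsg.Agent.Lib.Helper6.PRed
open scoped commutatorElement
open Cfsg.Agent.Lib.Helper3.PLocal Cfsg.Agent.Lib.Helper1 Cfsg.Agent.Lib.Helper6.PRed Cfsg.Agent.Lib.Helper6.Quasi Cfsg.Agent.Lib.Helper6.Basic

set_option autoImplicit false
open Cfsg

namespace Cfsg.Agent.S3078

open Cfsg.Agent.Lib.Helper6.PRed in
theorem x_pow {G : Type*} [Group G] [Finite G] {A B N₀ : Subgroup G} {b : G}
    (h : ReplHyp A B N₀ b) {e : ℕ} (he : Odd e) {a : G} (ha : a ∈ A) (hae : a ^ e = 1) :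
    (a * b⁻¹ * a⁻¹ * b) ^ e = 1 := by
  have hk : ⁅b⁻¹ * a⁻¹ * b, a⁆ ∈ rZ A b :=
    h.comm_le_Z (Subgroup.commutator_mem_commutator (cj_mem_rA' (A.inv_mem ha)) ha)
  have e1 : (b⁻¹ * a⁻¹ * b) * a = ⁅b⁻¹ * a⁻¹ * b, a⁆ * (a * (b⁻¹ * a⁻¹ * b)) := by
    rw [commutatorElement_def]; group
  have c1 := h.Z_comm_A hk ha
  have c2 := h.Z_comm_A' hk (cj_mem_rA' (A.inv_mem ha))
  have e2 := ReplHyp.mul_pow_of_central e1 c1 c2 e
  have e3 : a * b⁻¹ * a⁻¹ * b = a * (b⁻¹ * a⁻¹ * b) := by group
  have e4 : (b⁻¹ * a⁻¹ * b) ^ e = 1 := by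
    have : (b⁻¹ * a⁻¹ * b) ^ e = b⁻¹ * (a⁻¹) ^ e * b := by
      have := conj_pow (a := b⁻¹) (b := a⁻¹) (i := e)
      rw [inv_inv] at this
      exact this
    rw [this, inv_pow, hae]; group
  generalize ⁅b⁻¹ * a⁻¹ * b, a⁆ = k at *
  generalize b⁻¹ * a⁻¹ * b = y at *
  have hyn : ∀ n : ℕ, y * a ^ n = k ^ n * (a ^ n * y) := by
    intro n
    induction n with
    | zero => simp
    | succ n ih =>
      have c1' : Commute k a := c1
      calc y * a ^ (n + 1) = (y * a ^ n) * a := by rw [pow_succ]; group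
        _ = k ^ n * (a ^ n * y) * a := by rw [ih]
        _ = k ^ n * a ^ n * (y * a) := by group
        _ = k ^ n * a ^ n * (k * (a * y)) := by rw [e1]
        _ = k ^ n * (a ^ n * k) * a * y := by group
        _ = k ^ n * (k * a ^ n) * a * y := by rw [(c1'.pow_right n).eq]
        _ = k ^ (n + 1) * (a ^ (n + 1) * y) := by rw [pow_succ k, pow_succ a]; group
  have hke : k ^ e = 1 := by
    have := hyn e
    rw [hae, mul_one, one_mul] at this
    exact (mul_eq_right.1 this.symm)
  obtain ⟨m, rfl⟩ := he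
  have e5 : (2 * m + 1) * (2 * m + 1 - 1) / 2 = (2 * m + 1) * m := by
    have : (2 * m + 1) * (2 * m + 1 - 1) = ((2 * m + 1) * m) * 2 := by
      rw [Nat.add_sub_cancel]; ring
    rw [this, Nat.mul_div_cancel _ (by norm_num)]
  rw [e3, e2, hae, e4, e5, pow_mul, hke]
  simp

/-- A replacement Theorem for abelian subgroups of p-groups, p odd. Let G be a finite p-group with p odd, A an abelian subgroup of G, and B a subgroup of nilpotency class at most 2 with [B, B] ≤ A, such that A normalizes B but B does not normalize A. Then there is an abelian subgroup A* of G of the same order as A with A ∩ B strictly contained in A* ∩ B, A* contained in N_G(A) and in the normal closure of A, the exponent of A* dividing the exponent of A, and with the subgroup generated by the elements of order dividing p in A of order at most that of the corresponding subgroup of A* (the rank of A is at most the rank of A*). -/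
theorem result {G : Type*} [Group G] [Finite G] {p : ℕ} [Fact p.Prime] (hp : p ≠ 2) (hG : IsPGroup p G) (A B : Subgroup G) (hA : IsMulCommutative A) (hB2 : ⁅⁅B, B⁆, B⁆ = ⊥) (hBA : ⁅B, B⁆ ≤ A) (hAB : A ≤ Subgroup.normalizer (B : Set G)) (hBnA : ¬ B ≤ Subgroup.normalizer (A : Set G)) : ∃ Astar : Subgroup G, IsMulCommutative Astar ∧ Nat.card Astar = Nat.card A ∧ A ⊓ B < Astar ⊓ B ∧ Astar ≤ Subgroup.normalizer (A : Set G) ∧ Astar ≤ Subgroup.normalClosure (A : Set G) ∧ Monoid.exponent Astar ∣ Monoid.exponent A ∧ Nat.card (Cfsg.omegaOne p A) ≤ Nat.card (Cfsg.omegaOne p Astar) := by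
  have hTB : A ⊔ B ≤ Subgroup.normalizer (B : Set G) := sup_le hAB Subgroup.le_normalizer
  have hTnil : Group.IsNilpotent ↥(A ⊔ B) := (hG.to_subgroup _).isNilpotent
  obtain ⟨b, hbB, hbN, hbA⟩ := exists_repl_elt hTnil le_sup_right hTB hBnA
  have h : ReplHyp A B ((A ⊔ B) ⊓ Subgroup.normalizer (A : Set G)) b :=
    ⟨ab_iff.1 hA, hBA, hbB, le_inf le_sup_left Subgroup.le_normalizer, inf_le_right,
      inf_le_left.trans hTB, hbN⟩
  have hodd := hodd_of_pgroup (hG.to_subgroup B) (fun h => absurd h hp)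
  have hpodd : Odd p := (Fact.out : p.Prime).odd_of_ne_two hp
  have hstarc := h.star_comm hodd
  refine ⟨rStar A b, hstarc, h.card_star, h.AB_lt hbA,
    (h.star_le_H.trans h.H_le_N).trans h.hNA, ?_, ?_, ?_⟩
  · refine h.star_le_H.trans (sup_le Subgroup.le_normalClosure ?_)
    intro x hx
    obtain ⟨a, ha, rfl⟩ := mem_rA'.1 hx
    have := (Subgroup.normalClosure_normal (s := (A : Set G))).conj_mem a
      (Subgroup.le_normalClosure ha) b⁻¹
    rwa [inv_inv] at this
  · apply Monoid.exponent_dvd_of_forall_pow_eq_one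
    intro g
    apply Subtype.ext
    have := h.star_pow (exponent_odd hp (hG.to_subgroup A)) (fun a ha => by
      have := Monoid.pow_exponent_eq_one (⟨a, ha⟩ : A)
      exact congrArg Subtype.val this) g.1 g.2
    simpa using this
  · -- the rank inequality
    have hAz : A ≤ Cz A := by
      intro a ha
      rw [Subgroup.mem_centralizer_iff]
      intro a₁ ha₁
      exact ab_iff.1 hA a₁ ha₁ a ha
    have hE := ea_omegaOne (p := p) hAz
    have hEA : Cfsg.omegaOne p A ≤ A := omegaOne_le p A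
    generalize hEdef : Cfsg.omegaOne p A = E at *
    have hEp : ∀ x ∈ E, x ^ p = 1 := hE.2
    have hFle : rStar E b ≤ Cfsg.omegaOne p (rStar A b) := by
      apply sup_le
      · intro x hx
        refine mem_omegaOne ?_ (hEp x hx.1)
        refine (le_sup_left : rZ A b ≤ rStar A b) (Subgroup.mem_inf.2 ⟨hEA hx.1, ?_⟩)
        exact Subgroup.map_mono hEA hx.2
      · rw [Subgroup.closure_le]
        rintro _ ⟨a, ha, rfl⟩
        refine mem_omegaOne ?_ (x_pow h hpodd (hEA ha) (hEp a ha))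
        exact (le_sup_right : rX A b ≤ rStar A b) (h.x_mem_X (hEA ha))
    have hNE' : (A ⊔ B) ⊓ Subgroup.normalizer (A : Set G) ≤
        Subgroup.normalizer ((rA' E b : Subgroup G) : Set G) := by
      have h1 : rA' E b = Cfsg.omegaOne p (rA' A b) := by
        rw [← hEdef]; exact cj_omegaOne p b⁻¹ A
      rw [h1]
      exact h.N_le_NA'.trans (Nz_le_Nz_omegaOne p _)
    have hFH : rStar E b ≤ E ⊔ rA' E b := by
      apply sup_le (inf_le_left.trans le_sup_left)
      rw [Subgroup.closure_le]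
      rintro g ⟨a, ha, rfl⟩
      have : a * b⁻¹ * a⁻¹ * b = a * (b⁻¹ * a⁻¹ * b) := by group
      rw [this]
      exact Subgroup.mul_mem _ ((le_sup_left : E ≤ E ⊔ rA' E b) ha)
        ((le_sup_right : rA' E b ≤ E ⊔ rA' E b) (cj_mem_rA' (E.inv_mem ha)))
    have hsup : rStar E b ⊔ rA' E b = E ⊔ rA' E b := by
      apply le_antisymm
      · exact sup_le hFH le_sup_right
      · refine sup_le ?_ le_sup_right
        intro a ha
        have e : a = (a * b⁻¹ * a⁻¹ * b) * (b⁻¹ * a * b) := by group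
        rw [e]
        exact Subgroup.mul_mem _
          ((le_sup_left : rStar E b ≤ _) ((le_sup_right : rX E b ≤ rStar E b)
            (Subgroup.subset_closure ⟨a, ha, rfl⟩)))
          ((le_sup_right : rA' E b ≤ rStar E b ⊔ rA' E b) (cj_mem_rA' ha))
    have hEN : E ≤ (A ⊔ B) ⊓ Subgroup.normalizer (A : Set G) := hEA.trans h.hAN
    have hE'N : rA' E b ≤ (A ⊔ B) ⊓ Subgroup.normalizer (A : Set G) :=
      (Subgroup.map_mono hEA).trans h.A'_le_N
    have h1 := card_sup_mul_card_inf' (rStar E b) (rA' E b)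
      ((hFH.trans (sup_le hEN hE'N)).trans hNE')
    have h2 := card_sup_mul_card_inf' E (rA' E b) (hEN.trans hNE')
    rw [hsup] at h1
    have h3 : Nat.card (E ⊓ rA' E b : Subgroup G) ≤ Nat.card (rStar E b ⊓ rA' E b : Subgroup G) :=
      Subgroup.card_le_of_le (le_inf le_sup_left inf_le_right)
    have h4 : Nat.card E * Nat.card (rA' E b) ≤ Nat.card (rStar E b) * Nat.card (rA' E b) := by
      rw [← h1, ← h2]
      exact Nat.mul_le_mul_left _ h3
    exact (Nat.le_of_mul_le_mul_right h4 Nat.card_pos).trans (Subgroup.card_le_of_le hFle)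

end Cfsg.Agent.S3078
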