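import Cfsg.Statements.S3087

set_option autoImplicit false
open Cfsg

namespace Cfsg.Agent.S3087

/-- Let p be a prime, G a finite group acting linearly on a finite vector space V over the field with p elements, W a G-invariant subspace, and A a subgroup of G with |A|·|C_V(A)| ≥ |B|·|C_V(B)| for every subgroup B of A. Then |A|·|C_W(A)| ≥ |B|·|C_W(B)| for every subgroup B of A that contains C_A(W); that is, the image of A in the group induced on W satisfies the same maximality condition. -/
theorem result {G V : Type*} [Group G] [Finite G] [AddCommGroup V] [Finite V] (p : ℕ) [Fact p.Prime] [Module (ZMod p) V]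
    (ρ : Representation (ZMod p) G V) (W : Submodule (ZMod p) V) (hW : ∀ g : G, ∀ w ∈ W, ρ g w ∈ W)
    (A : Subgroup G)
    (hP : ∀ B : Subgroup G, B ≤ A →
      Nat.card ↥B * Nat.card {v : V // ∀ b ∈ B, ρ b v = v} ≤ Nat.card ↥A * Nat.card {v : V // ∀ a ∈ A, ρ a v = v})
    (B : Subgroup G) (hBA : B ≤ A) (hCB : ∀ a ∈ A, (∀ w ∈ W, ρ a w = w) → a ∈ B) :
    Nat.card ↥B * Nat.card {w : W // ∀ b ∈ B, ρ b w = w} ≤ Nat.card ↥A * Nat.card {w : W // ∀ a ∈ A, ρ a w = w} := by
  classical
  -- fixed points as additive subgroups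
  let CV : Subgroup G → AddSubgroup V := fun X =>
    { carrier := {v | ∀ b ∈ X, ρ b v = v}
      zero_mem' := by intro b _; simp
      add_mem' := by
        intro u v hu hv b hb
        rw [map_add, hu b hb, hv b hb]
      neg_mem' := by
        intro u hu b hb
        rw [map_neg, hu b hb] }
  have hcardV : ∀ X : Subgroup G, Nat.card {v : V // ∀ b ∈ X, ρ b v = v} = Nat.card (CV X) :=
    fun X => rfl
  have hcardW : ∀ X : Subgroup G, Nat.card {w : W // ∀ b ∈ X, ρ b w = w} =
      Nat.card (CV X ⊓ W.toAddSubgroup : AddSubgroup V) := by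
    intro X
    apply Nat.card_congr
    refine ⟨fun w => ⟨w.1.1, ⟨fun b hb => w.2 b hb, w.1.2⟩⟩,
      fun v => ⟨⟨v.1, v.2.2⟩, fun b hb => v.2.1 b hb⟩, fun w => rfl, fun v => rfl⟩
  rw [hcardW, hcardW]
  have h1 := hP B hBA
  rw [hcardV, hcardV] at h1
  have hmono : CV A ≤ CV B := fun v hv b hb => hv b (hBA hb)
  -- the product formula
  have h2 : Nat.card (CV B ⊓ W.toAddSubgroup : AddSubgroup V) * Nat.card (CV A) ≤
      Nat.card (CV B) * Nat.card (CV A ⊓ W.toAddSubgroup : AddSubgroup V) := by
    have rc : ∀ {H K : AddSubgroup V}, H ≤ K → H.relIndex K * Nat.card H = Nat.card K := by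
      intro H K h
      have := AddSubgroup.relIndex_mul_relIndex ⊥ H K bot_le h
      rw [AddSubgroup.relIndex_bot_left, AddSubgroup.relIndex_bot_left] at this
      rw [mul_comm]; exact this
    have e0 : CV A ⊓ (CV B ⊓ W.toAddSubgroup) = CV A ⊓ W.toAddSubgroup := by
      rw [← inf_assoc, inf_eq_left.2 hmono]
    have e1 := rc (inf_le_right : CV A ⊓ (CV B ⊓ W.toAddSubgroup) ≤ CV B ⊓ W.toAddSubgroup)
    rw [AddSubgroup.inf_relIndex_right, e0] at e1
    have e2 := rc hmono
    have e3 : (CV A).relIndex (CV B ⊓ W.toAddSubgroup) ≤ (CV A).relIndex (CV B) := by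
      apply AddSubgroup.relIndex_le_of_le_right inf_le_left
      intro h0
      rw [h0, zero_mul] at e2
      exact (Nat.card_pos (α := CV B)).ne e2
    rw [← e1, ← e2]
    calc (CV A).relIndex (CV B ⊓ W.toAddSubgroup) *
          Nat.card (CV A ⊓ W.toAddSubgroup : AddSubgroup V) * Nat.card (CV A)
        ≤ (CV A).relIndex (CV B) *
          Nat.card (CV A ⊓ W.toAddSubgroup : AddSubgroup V) * Nat.card (CV A) :=
          Nat.mul_le_mul_right _ (Nat.mul_le_mul_right _ e3)
      _ = _ := by ring
  have hpos : 0 < Nat.card (CV A) := Nat.card_pos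
  have h3 : (Nat.card B * Nat.card (CV B ⊓ W.toAddSubgroup : AddSubgroup V)) * Nat.card (CV A) ≤
      (Nat.card A * Nat.card (CV A ⊓ W.toAddSubgroup : AddSubgroup V)) * Nat.card (CV A) := by
    calc (Nat.card B * Nat.card (CV B ⊓ W.toAddSubgroup : AddSubgroup V)) * Nat.card (CV A)
        = Nat.card B * (Nat.card (CV B ⊓ W.toAddSubgroup : AddSubgroup V) * Nat.card (CV A)) := by
          ring
      _ ≤ Nat.card B * (Nat.card (CV B) * Nat.card (CV A ⊓ W.toAddSubgroup : AddSubgroup V)) :=
          Nat.mul_le_mul_left _ h2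
      _ = (Nat.card B * Nat.card (CV B)) * Nat.card (CV A ⊓ W.toAddSubgroup : AddSubgroup V) := by
          ring
      _ ≤ (Nat.card A * Nat.card (CV A)) * Nat.card (CV A ⊓ W.toAddSubgroup : AddSubgroup V) :=
          Nat.mul_le_mul_right _ h1
      _ = _ := by ring
  exact Nat.le_of_mul_le_mul_right h3 hpos

end Cfsg.Agent.S3087
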