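import Cfsg.Statements.S3155
import Mathlib

set_option autoImplicit false
open Cfsg

namespace Cfsg.Agent.S3155

/-- Let B be the direct product of three cyclic groups of order 4. Then the automorphism of B inverting every element is not the square of any automorphism of B. -/
theorem result {B : Type*} [CommGroup B] [Finite B] (hB : Nonempty (B ≃* Multiplicative (ZMod 4 × ZMod 4 × ZMod 4)))
    (τ : B ≃* B) : τ.trans τ ≠ MulEquiv.inv B := by
  intro hτ
  obtain ⟨e⟩ := hB
  haveI : Fact (1 < 4) := ⟨by norm_num⟩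
  haveI : Nontrivial (ZMod 4) := ZMod.nontrivial 4
  have hfr : Module.finrank (ZMod 4) (ZMod 4 × ZMod 4 × ZMod 4) = 3 := by
    rw [Module.finrank_prod, Module.finrank_prod, Module.finrank_self]
  have hττ : ∀ b : B, τ (τ b) = b⁻¹ := by
    intro b
    have := congrArg (fun φ : B ≃* B => φ b) hτ
    simpa using this
  let f : (ZMod 4 × ZMod 4 × ZMod 4) →+ (ZMod 4 × ZMod 4 × ZMod 4) :=
    AddMonoidHom.mk' (fun v => Multiplicative.toAdd (e (τ (e.symm (Multiplicative.ofAdd v)))))
      (by
        intro a b
        rw [ofAdd_add, map_mul, map_mul, map_mul, toAdd_mul])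
  have hff : ∀ v, f (f v) = -v := by
    intro v
    show Multiplicative.toAdd (e (τ (e.symm (Multiplicative.ofAdd
      (Multiplicative.toAdd (e (τ (e.symm (Multiplicative.ofAdd v))))))))) = -v
    rw [ofAdd_toAdd, MulEquiv.symm_apply_apply, hττ, map_inv, MulEquiv.apply_symm_apply,
      toAdd_inv, toAdd_ofAdd]
  set F := f.toZModLinearMap 4 with hF
  have hFF : F ∘ₗ F = (-1 : ZMod 4) • LinearMap.id := by
    apply LinearMap.ext
    intro v
    show f (f v) = (-1 : ZMod 4) • v
    rw [hff, neg_one_smul]
  have hdet := congrArg LinearMap.det hFF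
  rw [LinearMap.det_comp, LinearMap.det_smul, hfr, LinearMap.det_id] at hdet
  have hall : ∀ d : ZMod 4, d * d ≠ (-1) ^ 3 * 1 := by decide
  exact hall _ hdet

end Cfsg.Agent.S3155
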