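import Cfsg.Statements.S3180
import Mathlib
import Cfsg.Agent.Lib.Helper1.HallRel
import Cfsg.Agent.Lib.Helper1.Frobenius

set_option autoImplicit false
open Cfsg

namespace Cfsg.Agent.S3180

open Cfsg
open Cfsg.Agent.Lib.Helper1
open scoped Pointwise

/-- Let P be a Sylow p-subgroup of a finite group J and P₁ a subgroup of P that is weakly closed in P with respect to J. If J acts on a set and two points, each fixed by every element of P₁, lie in one J-orbit, then they lie in one orbit of the normalizer of P₁ in J. -/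
theorem result {J : Type*} [Group J] [Finite J]
    {p : ℕ} [Fact p.Prime] (P : Sylow p J) (P₁ : Subgroup J) (hW : Cfsg.IsWeaklyClosed P₁ (P : Subgroup J))
    {Ω : Type*} [MulAction J Ω] (x y : Ω) (hx : ∀ g ∈ P₁, g • x = x) (hy : ∀ g ∈ P₁, g • y = y)
    (hc : ∃ g : J, g • x = y) :
    ∃ g ∈ Subgroup.normalizer (P₁ : Set J), g • x = y := by
  obtain ⟨g, hg⟩ := hc
  obtain ⟨hP₁P, hwc⟩ := hW
  have hwc' : ∀ g : J, MulAut.conj g • P₁ ≤ (P : Subgroup J) → MulAut.conj g • P₁ = P₁ := hwc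
  have hJp : IsPGroup p P₁ := P.2.to_le hP₁P
  obtain ⟨C, hC⟩ : ∃ C, C = MulAction.stabilizer J y := ⟨_, rfl⟩
  have hJC : P₁ ≤ C := by
    intro j hj
    rw [hC, MulAction.mem_stabilizer_iff]
    exact hy j hj
  have hgJC : MulAut.conj g • P₁ ≤ C := by
    intro w hw
    rw [mem_conj_smul] at hw
    rw [hC, MulAction.mem_stabilizer_iff, ← hg]
    have h1 := hx _ hw
    rw [mul_smul, mul_smul, inv_smul_eq_iff] at h1
    exact h1
  have h1 : IsPGroup p (P₁.subgroupOf C) := hJp.of_equiv (Subgroup.subgroupOfEquivOfLe hJC).symm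
  obtain ⟨R, hR⟩ := h1.exists_le_sylow
  obtain ⟨S, hS⟩ : ∃ S, S = (R : Subgroup C).map C.subtype := ⟨_, rfl⟩
  have hSC : S ≤ C := by rw [hS]; exact Subgroup.map_subtype_le _
  have hSc : Nat.card S = p ^ (Nat.card C).factorization p := by
    rw [hS, Subgroup.card_map_of_injective C.subtype_injective, R.card_eq_multiplicity]
  have hJS : P₁ ≤ S := by
    rw [hS, ← Subgroup.map_subgroupOf_eq_of_le hJC]
    exact Subgroup.map_mono hR
  have hSp : IsPGroup p S := IsPGroup.of_card hSc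
  obtain ⟨l, hl, hl2⟩ := sylow_dominance_in C S (MulAut.conj g • P₁) hSC hgJC hSc
    (hJp.map (MulAut.conj g).toMonoidHom)
  obtain ⟨P', hP'⟩ := hSp.exists_le_sylow
  obtain ⟨h, hh⟩ := MulAction.exists_smul_eq J P P'
  have hP'' : (P' : Subgroup J) = MulAut.conj h • (P : Subgroup J) := by
    rw [← hh, Sylow.coe_subgroup_smul]
  have e1 : MulAut.conj h⁻¹ • P₁ = P₁ := by
    apply hwc'
    rw [conj_smul_le_iff, inv_inv, ← hP'']
    exact hJS.trans hP'
  have e2 : MulAut.conj (h⁻¹ * (l⁻¹ * g)) • P₁ = P₁ := by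
    apply hwc'
    rw [← conj_smul_smul, conj_smul_le_iff, inv_inv, ← hP'', ← conj_smul_smul, conj_smul_le_iff, inv_inv]
    exact hl2.trans (conj_smul_mono l hP')
  refine ⟨l⁻¹ * g, ?_, ?_⟩
  · rw [Subgroup.mem_normalizer_iff_map_conj_eq]
    show MulAut.conj (l⁻¹ * g) • P₁ = P₁
    rw [← conj_smul_smul] at e2
    have e3 := congrArg (fun K => MulAut.conj h • K) e2
    simp only [conj_smul_smul] at e3
    have e4 := congrArg (fun K => MulAut.conj h • K) e1
    simp only [conj_smul_smul] at e4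
    rw [mul_inv_cancel, map_one, one_smul] at e4
    rw [← e4] at e3
    have e5 : h * (h⁻¹ * (l⁻¹ * g)) = l⁻¹ * g := by group
    rw [e5] at e3
    exact e3
  · rw [hC, MulAction.mem_stabilizer_iff] at hl
    rw [mul_smul, hg, inv_smul_eq_iff, hl]

end Cfsg.Agent.S3180
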