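import Cfsg.Statements.S3183
import Cfsg.Agent.Lib.Helper6.Ores
import Cfsg.Agent.Lib.Helper6.PAct

set_option autoImplicit false
open Cfsg

namespace Cfsg.Agent.S3183

open Cfsg.Agent.Lib.Helper6.Basic Cfsg.Agent.Lib.Helper6.Subn Cfsg.Agent.Lib.Helper6.Quasi Cfsg.Agent.Lib.Helper6.Ores Cfsg.Agent.Lib.Helper6.PAct

theorem claimA {G : Type*} [Group G] [Finite G]
    (hCI : ∀ S T : Sylow 2 G, S ≠ T → ∃ U : Sylow 2 G,
      (S : Subgroup G) ⊓ (T : Subgroup G) ≤ (Subgroup.center ↥(U : Subgroup G)).map (U : Subgroup G).subtype)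
    (S U : Sylow 2 G) (x : G) (hxS : x ∈ (S : Subgroup G))
    (hU : (U : Subgroup G) ≤ Subgroup.centralizer ({x} : Set G)) :
    (S : Subgroup G) ≤ Subgroup.centralizer ({x} : Set G) := by
  haveI : Fact (Nat.Prime 2) := ⟨Nat.prime_two⟩
  by_contra hne
  set C := Subgroup.centralizer ({x} : Set G) with hC
  set E := (S : Subgroup G) ⊓ C with hE
  have hE2 : IsPGroup 2 E := S.2.to_le inf_le_left
  have hxC : x ∈ C := Subgroup.mem_centralizer_singleton_iff.2 rfl
  have hxE : x ∈ E := ⟨hxS, hxC⟩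
  obtain ⟨k, hk, hEk⟩ := ((syl_of_sylow U).of_le hU le_top).exists_le_cj hE2 inf_le_right
  have hRsyl : Syl 2 (cj k (U : Subgroup G)) ⊤ := by
    have := (syl_of_sylow U).cj k
    rwa [cj_top] at this
  obtain ⟨R, hR⟩ := hRsyl.exists_sylow_top
  have hRC : (R : Subgroup G) ≤ C := by
    rw [hR]
    calc cj k (U : Subgroup G) ≤ cj k C := cj_mono hU
      _ = C := cj_eq_self_of_mem hk
  by_cases hSR : S = R
  · exact hne (hSR ▸ hRC)
  obtain ⟨U', hU'⟩ := hCI S R hSR
  have hEeq : E = (S : Subgroup G) ⊓ (R : Subgroup G) :=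
    le_antisymm (le_inf inf_le_left (by rw [hR]; exact hEk)) (inf_le_inf_left _ hRC)
  have hU'C : (U' : Subgroup G) ≤ Cz E := by
    rw [le_Cz_comm]
    intro e he
    rw [hEeq] at he
    obtain ⟨z, hz, rfl⟩ := hU' he
    rw [Subgroup.mem_centralizer_iff]
    intro u hu
    have := (Subgroup.mem_center_iff.1 hz) ⟨u, hu⟩
    exact congrArg Subtype.val this
  have hlt : E < (S : Subgroup G) := lt_of_le_of_ne inf_le_left (fun e => hne (e ▸ inf_le_right))
  obtain ⟨s, hsS, hsE, hsN⟩ := exists_mem_Nz_of_lt S.2.isNilpotent hlt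
  have hs2 : IsPGroup 2 (Subgroup.zpowers s) := S.2.to_le (by rw [Subgroup.zpowers_le]; exact hsS)
  obtain ⟨m, hm, hsm⟩ := ((syl_of_sylow U').of_le (hU'C.trans (Cz_le_Nz E)) le_top).exists_le_cj hs2
    (by rw [Subgroup.zpowers_le]; exact hsN)
  have hsC : s ∈ Cz E := by
    have h1 : cj m (U' : Subgroup G) ≤ Cz E := by
      have e : cj m (Cz E) = Cz (cj m E) := cj_centralizer m E
      calc cj m (U' : Subgroup G) ≤ cj m (Cz E) := cj_mono hU'C
        _ = Cz E := by rw [e, cj_eq_self_iff.2 hm]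
    exact h1 (hsm (Subgroup.mem_zpowers s))
  apply hsE
  have hsC' : s ∈ C := by
    rw [hC, Subgroup.mem_centralizer_singleton_iff]
    exact ((Subgroup.mem_centralizer_iff.1 hsC) x hxE).symm
  exact ⟨hsS, hsC'⟩

/-- Let G be a finite group in which the intersection of any two distinct Sylow 2-subgroups is contained in the centre of some Sylow 2-subgroup, and let S be a Sylow 2-subgroup. Then for every x in S the centralizer of x in S is a Sylow 2-subgroup of the centralizer of x in G (no 2-subgroup centralizing x is larger), and for every other Sylow 2-subgroup T the intersection S ∩ T lies in both the centre of S and the centre of T. -/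
theorem result {G : Type*} [Group G] [Finite G]
    (hCI : ∀ S T : Sylow 2 G, S ≠ T → ∃ U : Sylow 2 G,
      (S : Subgroup G) ⊓ (T : Subgroup G) ≤ (Subgroup.center ↥(U : Subgroup G)).map (U : Subgroup G).subtype)
    (S : Sylow 2 G) :
    (∀ x ∈ (S : Subgroup G), ∀ P : Subgroup G, IsPGroup 2 ↥P → P ≤ Subgroup.centralizer ({x} : Set G) →
        Nat.card ↥P ≤ Nat.card ↥((S : Subgroup G) ⊓ Subgroup.centralizer ({x} : Set G))) ∧
    (∀ T : Sylow 2 G, T ≠ S →
        (S : Subgroup G) ⊓ (T : Subgroup G) ≤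
          (Subgroup.center ↥(S : Subgroup G)).map (S : Subgroup G).subtype ⊓
            (Subgroup.center ↥(T : Subgroup G)).map (T : Subgroup G).subtype) := by
  haveI : Fact (Nat.Prime 2) := ⟨Nat.prime_two⟩
  have hZ : ∀ (S' : Sylow 2 G) (x : G), x ∈ (S' : Subgroup G) →
      (S' : Subgroup G) ≤ Subgroup.centralizer ({x} : Set G) →
      x ∈ (Subgroup.center ↥(S' : Subgroup G)).map (S' : Subgroup G).subtype := by
    intro S' x hx hc
    refine ⟨⟨x, hx⟩, ?_, rfl⟩
    rw [SetLike.mem_coe, Subgroup.mem_center_iff]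
    intro u
    apply Subtype.ext
    exact Subgroup.mem_centralizer_singleton_iff.1 (hc u.2)
  have hkey : ∀ (S' T' : Sylow 2 G) (x : G), S' ≠ T' → x ∈ (S' : Subgroup G) →
      x ∈ (T' : Subgroup G) → (S' : Subgroup G) ≤ Subgroup.centralizer ({x} : Set G) := by
    intro S' T' x hne hxS hxT
    obtain ⟨U, hU⟩ := hCI S' T' hne
    apply claimA hCI S' U x hxS
    obtain ⟨z, hz, hzx⟩ := hU ⟨hxS, hxT⟩
    intro u hu
    rw [Subgroup.mem_centralizer_singleton_iff, ← hzx]
    have := (Subgroup.mem_center_iff.1 hz) ⟨u, hu⟩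
    exact congrArg Subtype.val this
  constructor
  · intro x hx P hP hPC
    have hx2 : IsPGroup 2 (Subgroup.zpowers x) := S.2.to_le (by rw [Subgroup.zpowers_le]; exact hx)
    have hsup : IsPGroup 2 (Subgroup.zpowers x ⊔ P : Subgroup G) := by
      apply hx2.to_sup_of_normal_right' hP
      rw [Subgroup.zpowers_le]
      apply Cz_le_Nz P
      rw [Subgroup.mem_centralizer_iff]
      intro u hu
      exact Subgroup.mem_centralizer_singleton_iff.1 (hPC hu)
    obtain ⟨R, hR⟩ := hsup.exists_le_sylow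
    have hxR : x ∈ (R : Subgroup G) := hR (Subgroup.mem_sup_left (Subgroup.mem_zpowers x))
    have hPR : P ≤ (R : Subgroup G) := le_sup_right.trans hR
    by_cases hSR : S = R
    · apply Subgroup.card_le_of_le
      exact le_inf (hSR ▸ hPR) hPC
    · have h1 := hkey S R x hSR hx hxR
      rw [inf_eq_left.2 h1]
      exact (syl_of_sylow S).card_le hP le_top
  · intro T hT x hx
    exact ⟨hZ S x hx.1 (hkey S T x (Ne.symm hT) hx.1 hx.2), hZ T x hx.2 (hkey T S x hT hx.2 hx.1)⟩

end Cfsg.Agent.S3183
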