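import Cfsg.Statements.S3190
import Mathlib

set_option autoImplicit false
open Cfsg

namespace Cfsg.Agent.S3190

open Cfsg

theorem mem_center_map {X : Type*} [Group X] (H : Subgroup X) (x : X) :
    x ∈ (Subgroup.center ↥H).map H.subtype ↔ x ∈ H ∧ ∀ h ∈ H, h * x = x * h := by
  constructor
  · rintro ⟨y, hy, rfl⟩
    refine ⟨y.2, fun h hh => ?_⟩
    have := Subgroup.mem_center_iff.mp hy ⟨h, hh⟩
    exact congrArg Subtype.val this
  · rintro ⟨hx, h⟩
    refine ⟨⟨x, hx⟩, ?_, rfl⟩
    rw [SetLike.mem_coe, Subgroup.mem_center_iff]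
    intro g
    exact Subtype.ext (h g.1 g.2)

/-- Let p be an odd prime and, inside a finite group, let P be a p-subgroup normalized by a Klein four-group T. Let R be a subgroup of P, normal in P and normalized by T, such that P is the product of R with the centralizer of T in P. If T centralizes the centre of P, then T centralizes the centre of R. -/
theorem result {X : Type*} [Group X] [Finite X]
    {p : ℕ} (hp : p.Prime) (hodd : Odd p) (P T R : Subgroup X) (hP : IsPGroup p ↥P) (hT : IsKleinFour ↥T)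
    (hTP : T ≤ Subgroup.normalizer (P : Set X)) (hRP : R ≤ P) (hRn : (R.subgroupOf P).Normal)
    (hTR : T ≤ Subgroup.normalizer (R : Set X)) (hfac : R ⊔ (P ⊓ Subgroup.centralizer (T : Set X)) = P)
    (hZ : T ≤ Subgroup.centralizer (((Subgroup.center ↥P).map P.subtype : Subgroup X) : Set X)) :
    T ≤ Subgroup.centralizer (((Subgroup.center ↥R).map R.subtype : Subgroup X) : Set X) := by
  haveI : Fact p.Prime := ⟨hp⟩
  intro t ht
  have ht2 : t * t = 1 := by
    have h1 := Monoid.pow_exponent_eq_one (⟨t, ht⟩ : T)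
    rw [hT.exponent_two, pow_two] at h1
    exact congrArg Subtype.val h1
  have hti : t⁻¹ = t := inv_eq_of_mul_eq_one_left ht2
  have hRconj : ∀ d ∈ P, ∀ r ∈ R, d * r * d⁻¹ ∈ R := by
    intro d hd r hr
    have := hRn.conj_mem ⟨r, hRP hr⟩ (Subgroup.mem_subgroupOf.mpr hr) ⟨d, hd⟩
    exact Subgroup.mem_subgroupOf.mp this
  have hRt : ∀ r ∈ R, t * r * t⁻¹ ∈ R := fun r hr => (Subgroup.mem_normalizer_iff.mp (hTR ht) r).mp hr
  set V := (Subgroup.center ↥R).map R.subtype with hV
  have hVt : ∀ v ∈ V, t * v * t⁻¹ ∈ V := by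
    intro v hv
    rw [hV, mem_center_map] at hv ⊢
    refine ⟨hRt v hv.1, fun r hr => ?_⟩
    have h1 := hv.2 (t * r * t⁻¹) (hRt r hr)
    rw [hti] at h1 ⊢
    calc r * (t * v * t) = (t * t) * r * (t * v * t) := by rw [ht2, one_mul]
      _ = t * ((t * r * t) * v) * t := by group
      _ = t * (v * (t * r * t)) * t := by rw [h1]
      _ = t * v * t * r * (t * t) := by group
      _ = _ := by rw [ht2, mul_one]
  have hVcomm : ∀ v ∈ V, ∀ w ∈ V, v * w = w * v := by
    intro v hv w hw
    rw [hV, mem_center_map] at hv hw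
    exact hw.2 v hv.1
  let W : Subgroup X :=
    { carrier := {v | v ∈ V ∧ t * v * t⁻¹ = v⁻¹}
      one_mem' := ⟨V.one_mem, by simp⟩
      mul_mem' := by
        rintro a b ⟨ha, ha2⟩ ⟨hb, hb2⟩
        refine ⟨V.mul_mem ha hb, ?_⟩
        calc t * (a * b) * t⁻¹ = (t * a * t⁻¹) * (t * b * t⁻¹) := by group
          _ = (b * a)⁻¹ := by rw [ha2, hb2, mul_inv_rev]
          _ = (a * b)⁻¹ := by rw [hVcomm a ha b hb]
      inv_mem' := by
        rintro a ⟨ha, ha2⟩
        refine ⟨V.inv_mem ha, ?_⟩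
        have : t * a⁻¹ * t⁻¹ = (t * a * t⁻¹)⁻¹ := by group
        rw [this, ha2] }
  have hWmem : ∀ v, v ∈ W ↔ v ∈ V ∧ t * v * t⁻¹ = v⁻¹ := fun v => Iff.rfl
  set D := P ⊓ Subgroup.centralizer (T : Set X) with hD
  have hWP : W ≤ P := by
    intro w hw
    have := ((hWmem w).mp hw).1
    rw [hV, mem_center_map] at this
    exact hRP this.1
  have hWbot : W = ⊥ := by
    by_contra hW
    have hWp : IsPGroup p W := hP.to_le hWP
    haveI : Nontrivial W := (Subgroup.nontrivial_iff_ne_bot _).mpr hW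
    obtain ⟨e, he0, he⟩ := hWp.nontrivial_iff_card.mp inferInstance
    have hinv : ∀ d ∈ D, ∀ w ∈ W, d * w * d⁻¹ ∈ W := by
      intro d hd w hw
      rw [hWmem] at hw ⊢
      obtain ⟨hw1, hw2⟩ := hw
      have hdt : t * d = d * t := Subgroup.mem_centralizer_iff.mp hd.2 t ht
      constructor
      · rw [hV, mem_center_map] at hw1 ⊢
        refine ⟨hRconj d hd.1 w hw1.1, fun r hr => ?_⟩
        have h1 := hRconj d⁻¹ (P.inv_mem hd.1) r hr
        rw [inv_inv] at h1
        have h2 := hw1.2 _ h1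
        calc r * (d * w * d⁻¹) = d * ((d⁻¹ * r * d) * w) * d⁻¹ := by group
          _ = d * (w * (d⁻¹ * r * d)) * d⁻¹ := by rw [h2]
          _ = _ := by group
      · have hdt' : t * d * t⁻¹ = d := by rw [hdt]; group
        calc t * (d * w * d⁻¹) * t⁻¹ = (t * d * t⁻¹) * (t * w * t⁻¹) * (t * d * t⁻¹)⁻¹ := by group
          _ = d * w⁻¹ * d⁻¹ := by rw [hdt', hw2]
          _ = _ := by group
    letI act : MulAction D W :=
      { smul := fun a w => ⟨a.1 * w.1 * a.1⁻¹, hinv a.1 a.2 w.1 w.2⟩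
        one_smul := fun w => by
          apply Subtype.ext
          show (1 : X) * w.1 * (1 : X)⁻¹ = w.1
          group
        mul_smul := fun a b w => by
          apply Subtype.ext
          show (a.1 * b.1) * w.1 * (a.1 * b.1)⁻¹ = a.1 * (b.1 * w.1 * b.1⁻¹) * a.1⁻¹
          group }
    have hpg : IsPGroup p D := hP.to_le inf_le_left
    have hfix1 : (1 : W) ∈ MulAction.fixedPoints D W := by
      intro a
      apply Subtype.ext
      show a.1 * 1 * a.1⁻¹ = 1
      group
    obtain ⟨w, hw, hw1⟩ := hpg.exists_fixed_point_of_prime_dvd_card_of_fixed_point W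
      (by rw [he]; exact dvd_pow_self p he0.ne') hfix1
    have hDw : ∀ d ∈ D, d * w.1 = w.1 * d := by
      intro d hd
      have : d * w.1 * d⁻¹ = w.1 := congrArg Subtype.val (hw ⟨d, hd⟩)
      calc d * w.1 = (d * w.1 * d⁻¹) * d := by group
        _ = w.1 * d := by rw [this]
    have hwV := ((hWmem w.1).mp w.2).1
    have hwt := ((hWmem w.1).mp w.2).2
    rw [hV, mem_center_map] at hwV
    have hPw : P ≤ Subgroup.centralizer {w.1} := by
      rw [← hfac, sup_le_iff]
      constructor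
      · intro r hr
        rw [Subgroup.mem_centralizer_singleton_iff]
        exact hwV.2 r hr
      · intro d hd
        rw [Subgroup.mem_centralizer_singleton_iff]
        exact hDw d hd
    have hwZ : w.1 ∈ (Subgroup.center ↥P).map P.subtype := by
      rw [mem_center_map]
      refine ⟨hWP w.2, fun x hx => ?_⟩
      exact Subgroup.mem_centralizer_singleton_iff.mp (hPw hx)
    have h1 := Subgroup.mem_centralizer_iff.mp (hZ ht) w.1 hwZ
    have h2 : t * w.1 * t⁻¹ = w.1 := by rw [← h1]; group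
    rw [h2] at hwt
    have h3 : w.1 ^ 2 = 1 := by
      rw [pow_two]
      nth_rewrite 1 [hwt]
      group
    obtain ⟨j, hj⟩ := hWp w
    have hj' : w.1 ^ (p ^ j) = 1 := by
      have := congrArg Subtype.val hj
      simpa using this
    have hcop : (2 : ℕ).Coprime (p ^ j) :=
      Nat.Coprime.pow_right _ (Nat.coprime_two_left.mpr hodd)
    have h3 : orderOf w.1 ∣ 1 := by
      rw [← Nat.coprime_iff_gcd_eq_one.mp hcop]
      exact Nat.dvd_gcd (orderOf_dvd_of_pow_eq_one h3) (orderOf_dvd_of_pow_eq_one hj')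
    have h4 : w.1 = 1 := orderOf_eq_one_iff.mp (Nat.dvd_one.mp h3)
    exact hw1 (Subtype.ext h4.symm)
  rw [Subgroup.mem_centralizer_iff]
  intro v hv
  have hu : v * (t * v * t⁻¹)⁻¹ ∈ W := by
    rw [hWmem]
    refine ⟨V.mul_mem hv (V.inv_mem (hVt v hv)), ?_⟩
    have h1 := hVcomm v hv _ (V.inv_mem (hVt v hv))
    rw [h1, hti]
    calc t * ((t * v * t)⁻¹ * v) * t = (t * t) * (t⁻¹ * t⁻¹) * v⁻¹ * t⁻¹ * v * t := by group
      _ = v⁻¹ * t * v * t := by rw [hti, ht2]; group
      _ = ((t * v * t)⁻¹ * v)⁻¹ := by group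
  rw [hWbot, Subgroup.mem_bot] at hu
  have := mul_inv_eq_one.mp hu
  calc v * t = (t * v * t⁻¹) * t := by rw [← this]
    _ = t * v := by group

end Cfsg.Agent.S3190
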