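import Cfsg.Statements.S3208
import Mathlib
import Cfsg.Agent.Lib.Helper1.Frobenius

set_option autoImplicit false
open Cfsg

namespace Cfsg.Agent.S3208

open Cfsg
open Cfsg.Agent.Lib.Helper1
open scoped Pointwise

/-- Let j be an involution of a finite group G, H a subgroup of G, and T a Sylow 2-subgroup of H ∩ C_G(j) containing j such that ⟨j⟩ is a characteristic subgroup of T. Then T is a Sylow 2-subgroup of H. -/
theorem result {G : Type*} [Group G] [Finite G]
    (j : G) (hj : orderOf j = 2) (H T : Subgroup G) (hT : T ≤ H ⊓ Subgroup.centralizer ({j} : Set G)) (h2 : IsPGroup 2 ↥T)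
    (hSyl : ¬ 2 ∣ T.relIndex (H ⊓ Subgroup.centralizer ({j} : Set G))) (hjT : j ∈ T)
    (hchar : ((Subgroup.zpowers j).subgroupOf T).Characteristic) :
    ¬ 2 ∣ T.relIndex H := by
  haveI : Fact (Nat.Prime 2) := ⟨Nat.prime_two⟩
  have hTH : T ≤ H := hT.trans inf_le_left
  have h1 : IsPGroup 2 (T.subgroupOf H) := h2.of_equiv (Subgroup.subgroupOfEquivOfLe hTH).symm
  obtain ⟨R, hR⟩ := h1.exists_le_sylow
  obtain ⟨S, hS⟩ : ∃ S, S = (R : Subgroup H).map H.subtype := ⟨_, rfl⟩
  have hSH : S ≤ H := by rw [hS]; exact Subgroup.map_subtype_le _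
  have hTS : T ≤ S := by
    rw [hS, ← Subgroup.map_subgroupOf_eq_of_le hTH]
    exact Subgroup.map_mono hR
  have hSp : IsPGroup 2 S := by rw [hS]; exact R.2.map _
  by_cases hTSeq : T = S
  · have e : T.subgroupOf H = (R : Subgroup H) := by
      rw [hTSeq, hS]
      exact Subgroup.comap_map_eq_self_of_injective H.subtype_injective _
    change ¬ 2 ∣ (T.subgroupOf H).index
    rw [e]
    exact R.not_dvd_index
  exfalso
  have hlt : T < S := lt_of_le_of_ne hTS hTSeq
  have h3 := lt_inf_normalizer_of_lt hSp hlt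
  obtain ⟨s, hs, hsT⟩ := SetLike.exists_of_lt h3
  obtain ⟨hsS, hsN⟩ := Subgroup.mem_inf.mp hs
  have hj1 : j ≠ 1 := by
    intro h
    rw [h, orderOf_one] at hj
    omega
  have hj2 : j ^ 2 = 1 := by rw [← hj]; exact pow_orderOf_eq_one j
  have hsj : s * j * s⁻¹ = j := by
    have h4 := hchar.fixed (T.normalizerMonoidHom ⟨s, hsN⟩)
    have h5 : (⟨j, hjT⟩ : T) ∈ (Subgroup.zpowers j).subgroupOf T := by
      rw [Subgroup.mem_subgroupOf]; exact Subgroup.mem_zpowers j
    rw [← h4, Subgroup.mem_comap, Subgroup.mem_subgroupOf] at h5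
    have h6 : s * j * s⁻¹ ∈ Subgroup.zpowers j := h5
    obtain ⟨k, hk⟩ := Subgroup.mem_zpowers_iff.mp h6
    rcases Int.even_or_odd' k with ⟨m, hm | hm⟩
    · exfalso
      rw [hm, zpow_mul, zpow_ofNat, hj2, one_zpow] at hk
      apply hj1
      have : j = s⁻¹ * (s * j * s⁻¹) * s := by group
      rw [this, ← hk]; group
    · rw [hm, zpow_add, zpow_mul, zpow_ofNat, hj2, one_zpow, one_mul, zpow_one] at hk
      exact hk.symm
  have hsK : s ∈ H ⊓ Subgroup.centralizer ({j} : Set G) := by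
    refine Subgroup.mem_inf.mpr ⟨hSH hsS, ?_⟩
    rw [Subgroup.mem_centralizer_singleton_iff]
    calc s * j = (s * j * s⁻¹) * s := by group
      _ = j * s := by rw [hsj]
  obtain ⟨T', hT'⟩ : ∃ T', T' = T ⊔ Subgroup.zpowers s := ⟨_, rfl⟩
  have hTT' : T ≤ T' := by rw [hT']; exact le_sup_left
  have hT'S : T' ≤ S := by rw [hT']; exact sup_le hTS (by rw [Subgroup.zpowers_le]; exact hsS)
  have hT'K : T' ≤ H ⊓ Subgroup.centralizer ({j} : Set G) := by
    rw [hT']; exact sup_le hT (by rw [Subgroup.zpowers_le]; exact hsK)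
  have hT'p : IsPGroup 2 T' := hSp.to_le hT'S
  obtain ⟨b, hb⟩ := IsPGroup.iff_card.mp hT'p
  have e1 := card_mul_relIndex_of_le hTT'
  have e2 : T.relIndex T' ∣ 2 ^ b := by rw [← hb]; exact Dvd.intro_left _ e1
  obtain ⟨c, _, hc⟩ := (Nat.dvd_prime_pow Nat.prime_two).mp e2
  have hc0 : c ≠ 0 := by
    rintro rfl
    rw [pow_zero] at hc
    rw [hc, mul_one] at e1
    have : T = T' := Subgroup.eq_of_le_of_card_ge hTT' (le_of_eq e1.symm)
    apply hsT
    rw [this, hT']
    exact Subgroup.mem_sup_right (Subgroup.mem_zpowers s)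
  apply hSyl
  rw [← Subgroup.relIndex_mul_relIndex T T' _ hTT' hT'K, hc]
  exact Dvd.dvd.mul_right (dvd_pow_self 2 hc0) _

end Cfsg.Agent.S3208
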