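import Cfsg.Statements.S3225
import Cfsg.Agent.Lib.Helper9.Trf

set_option autoImplicit false
open Cfsg

namespace Cfsg.Agent.S3225

open scoped IsMulCommutative

/-- Let G be a finite group of even order with no subgroup of index 2, S a Sylow 2-subgroup of G and M a subgroup of index 2 in S such that, for some n ≥ 1, every element of S outside M has order greater than 2^(n−1). Then every element of S of order 2ⁿ is conjugate in G to an element of M. -/
theorem result {G : Type*} [Group G] [Finite G] (hev : Even (Nat.card G))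
    (hG : ∀ H : Subgroup G, H.index ≠ 2) (S : Sylow 2 G) (M : Subgroup G) (hMS : M ≤ (S : Subgroup G)) (hM : M.relIndex (S : Subgroup G) = 2)
    (n : ℕ) (hn : 1 ≤ n) (hord : ∀ y ∈ (S : Subgroup G), y ∉ M → 2 ^ (n - 1) < orderOf y)
    (x : G) (hx : x ∈ (S : Subgroup G)) (hxn : orderOf x = 2 ^ n) :
    ∃ g : G, g * x * g⁻¹ ∈ M := by
  by_contra hcon
  push Not at hcon
  have hidx : (M.subgroupOf (S : Subgroup G)).index = 2 := hM
  have hMn : (M.subgroupOf (S : Subgroup G)).Normal := Subgroup.normal_of_index_eq_two hidx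
  have hcard : Nat.card (↥(S : Subgroup G) ⧸ M.subgroupOf (S : Subgroup G)) = 2 := by
    rw [← Subgroup.index_eq_card]; exact hidx
  have hsq : ∀ a : ↥(S : Subgroup G) ⧸ M.subgroupOf (S : Subgroup G), a ^ 2 = 1 := by
    intro a
    have := pow_card_eq_one' (x := a)
    rwa [hcard] at this
  have hcomm : IsMulCommutative (↥(S : Subgroup G) ⧸ M.subgroupOf (S : Subgroup G)) := by
    refine ⟨⟨fun a b => ?_⟩⟩
    have h1 := hsq (a * b)
    have h2 := hsq a
    have h3 := hsq b
    rw [pow_two] at h1 h2 h3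
    calc a * b = a * (a * b * (a * b)) * b := by rw [h1, mul_one]
      _ = (a * a) * (b * a) * (b * b) := by group
      _ = b * a := by rw [h2, h3, one_mul, mul_one]
  let ϕ : ↥(S : Subgroup G) →* (↥(S : Subgroup G) ⧸ M.subgroupOf (S : Subgroup G)) :=
    QuotientGroup.mk' _
  have hker : ∀ s : ↥(S : Subgroup G), ϕ s = 1 ↔ (s : G) ∈ M := by
    intro s
    rw [← MonoidHom.mem_ker, QuotientGroup.ker_mk']
    exact Subgroup.mem_subgroupOf
  have hxM : x ∉ M := by
    have := hcon 1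
    simpa using this
  have hc1 : ϕ ⟨x, hx⟩ ≠ 1 := fun h => hxM ((hker _).mp h)
  have hout : ∀ s : ↥(S : Subgroup G), (s : G) ∉ M → ϕ s = ϕ ⟨x, hx⟩ := by
    intro s hs
    show QuotientGroup.mk _ = QuotientGroup.mk _
    rw [QuotientGroup.eq, Subgroup.mul_mem_iff_of_index_two hidx, inv_mem_iff]
    exact iff_of_false hs hxM
  have key : ∀ (k : ℕ) (g₀ : G) (hk : g₀⁻¹ * x ^ k * g₀ ∈ (S : Subgroup G)),
      ϕ ⟨g₀⁻¹ * x ^ k * g₀, hk⟩ = (ϕ ⟨x, hx⟩) ^ k := by
    intro k g₀ hk
    rcases Nat.even_or_odd' k with ⟨k', rfl | rfl⟩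
    · have e0 : (ϕ ⟨x, hx⟩) ^ (2 * k') = 1 := by rw [pow_mul, hsq, one_pow]
      rw [e0, hker]
      by_contra hnM
      have h1 := hord _ hk hnM
      have h2 : (g₀⁻¹ * x ^ (2 * k') * g₀) ^ 2 ^ (n - 1) = 1 := by
        have e : g₀⁻¹ * x ^ (2 * k') * g₀ = g₀⁻¹ * x ^ (2 * k') * g₀⁻¹⁻¹ := by rw [inv_inv]
        rw [e, conj_pow, ← pow_mul]
        have e2 : 2 * k' * 2 ^ (n - 1) = 2 ^ n * k' := by
          obtain ⟨n', rfl⟩ : ∃ n', n = n' + 1 := ⟨n - 1, by omega⟩
          simp only [Nat.add_sub_cancel]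
          ring
        rw [e2, pow_mul, ← hxn, pow_orderOf_eq_one, one_pow]
        group
      exact absurd (orderOf_le_of_pow_eq_one (by positivity) h2) (not_le.mpr h1)
    · have e0 : (ϕ ⟨x, hx⟩) ^ (2 * k' + 1) = ϕ ⟨x, hx⟩ := by
        rw [pow_succ, pow_mul, hsq, one_pow, one_mul]
      rw [e0]
      apply hout
      intro hmem
      have hcop : Nat.Coprime (2 * k' + 1) (orderOf x) := by
        rw [hxn]
        apply Nat.Coprime.pow_right
        rw [Nat.coprime_comm, Nat.Prime.coprime_iff_not_dvd Nat.prime_two]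
        omega
      obtain ⟨l, hl⟩ := exists_pow_eq_self_of_coprime hcop
      apply hcon g₀⁻¹
      have h3 := M.pow_mem hmem l
      have e : g₀⁻¹ * x ^ (2 * k' + 1) * g₀ = g₀⁻¹ * x ^ (2 * k' + 1) * g₀⁻¹⁻¹ := by rw [inv_inv]
      simp only at h3
      rw [e, conj_pow, hl] at h3
      exact h3
  have h1 := Cfsg.Agent.Lib.Helper9.Trf.transfer_eq_pow_mod ϕ x (ϕ ⟨x, hx⟩) key
  have hodd : Odd (S : Subgroup G).index := by
    rw [← Nat.not_even_iff_odd, even_iff_two_dvd]
    exact S.not_dvd_index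
  obtain ⟨j, hj⟩ := hodd
  rw [hj, pow_succ, pow_mul, hsq, one_pow, one_mul] at h1
  apply hG (MonoidHom.transfer ϕ).ker
  rw [Subgroup.index_ker]
  have h2 : Nat.card (MonoidHom.transfer ϕ).range ∣ 2 := by
    have := Subgroup.card_subgroup_dvd_card (MonoidHom.transfer ϕ).range
    rwa [hcard] at this
  rcases (Nat.dvd_prime Nat.prime_two).mp h2 with h3 | h3
  · exfalso
    rw [Subgroup.card_eq_one] at h3
    apply hc1
    have : ϕ ⟨x, hx⟩ ∈ (MonoidHom.transfer ϕ).range := ⟨x, h1⟩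
    rw [h3] at this
    exact this
  · exact h3

end Cfsg.Agent.S3225
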