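import Cfsg.Statements.S3276
import Mathlib

set_option autoImplicit false
open Cfsg

namespace Cfsg.Agent.S3276

open Cfsg

theorem sq_of_order_two {G : Type*} [Group G] {d : G} (hd : orderOf d = 2) : d * d = 1 := by
  have := pow_orderOf_eq_one d
  rwa [hd, pow_two] at this

/-- two non-conjugate involutions commute with a common involution -/
theorem exists_invol {G : Type*} [Group G] [Finite G] {a b : G} (ha2 : a * a = 1) (hb2 : b * b = 1)
    (hnc : ¬ IsConj a b) : ∃ u : G, orderOf u = 2 ∧ Commute u a ∧ Commute u b := by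
  have hai : a⁻¹ = a := inv_eq_of_mul_eq_one_left ha2
  have hbi : b⁻¹ = b := inv_eq_of_mul_eq_one_left hb2
  set w := a * b with hw
  have hwi : w⁻¹ = b * a := by rw [hw, mul_inv_rev, hai, hbi]
  have h1 : SemiconjBy a w w⁻¹ := by
    unfold SemiconjBy
    rw [hwi, hw, ← mul_assoc, ha2, one_mul, mul_assoc, ha2, mul_one]
  have h2 : SemiconjBy b w w⁻¹ := by
    unfold SemiconjBy
    rw [hwi, hw, mul_assoc]
  have eodd : ∀ j : ℕ, a * w ^ (2 * j + 1) = (w ^ j)⁻¹ * b * (w ^ j)⁻¹⁻¹ := by
    intro j
    have := h2.pow_right j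
    unfold SemiconjBy at this
    rw [inv_pow] at this
    rw [← this, inv_inv, add_comm, pow_add, pow_one, two_mul, pow_add]
    nth_rewrite 1 [hw]
    rw [← mul_assoc, ← mul_assoc, ← mul_assoc a a b, ha2, one_mul]
  have hpar : Even (orderOf w) := by
    rw [← Nat.not_odd_iff_even]
    rintro ⟨j, hj⟩
    have := eodd j
    rw [← hj, pow_orderOf_eq_one, mul_one] at this
    apply hnc
    exact (isConj_iff.mpr ⟨_, this.symm⟩).symm
  obtain ⟨k, hk⟩ := hpar
  have hpos : 0 < orderOf w := orderOf_pos w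
  have hk0 : 0 < k := by omega
  have hc2 : w ^ k * w ^ k = 1 := by
    rw [← pow_add, ← hk, pow_orderOf_eq_one]
  have hci : (w ^ k)⁻¹ = w ^ k := inv_eq_of_mul_eq_one_left hc2
  have hc1 : w ^ k ≠ 1 := pow_ne_one_of_lt_orderOf hk0.ne' (by omega)
  have hac : Commute a (w ^ k) := by
    have := h1.pow_right k
    rwa [inv_pow, hci] at this
  have hbc : Commute b (w ^ k) := by
    have := h2.pow_right k
    rwa [inv_pow, hci] at this
  haveI : Fact (Nat.Prime 2) := ⟨Nat.prime_two⟩
  exact ⟨w ^ k, orderOf_eq_prime (by rw [pow_two]; exact hc2) hc1, hac.symm, hbc.symm⟩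

/-- Let x and y be commuting, non-conjugate involutions of a finite group G, and suppose that for every involution u commuting with x, each conjugate of y that commutes with u also commutes with y. Then the normal closure of y is a proper, normal, elementary abelian 2-subgroup of G; and if y is the only involution of that normal closure commuting with x, it has order at most 4. -/
theorem result {G : Type*} [Group G] [Finite G] (x y : G) (hx : orderOf x = 2) (hy : orderOf y = 2)
    (hxy : Commute x y) (hnc : ¬ IsConj x y)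
    (hstar : ∀ u : G, orderOf u = 2 → Commute u x → ∀ g : G, Commute (g * y * g⁻¹) u → Commute (g * y * g⁻¹) y) :
    Subgroup.normalClosure ({y} : Set G) ≠ ⊤ ∧ Cfsg.IsElementaryAbelian 2 (Subgroup.normalClosure ({y} : Set G)) ∧
      ((∀ u ∈ Subgroup.normalClosure ({y} : Set G), orderOf u = 2 → Commute u x → u = y) →
        Nat.card ↥(Subgroup.normalClosure ({y} : Set G)) ≤ 4) := by
  haveI : Fact (Nat.Prime 2) := ⟨Nat.prime_two⟩
  have hx2 := sq_of_order_two hx
  have hy2 := sq_of_order_two hy
  have hxi : x⁻¹ = x := inv_eq_of_mul_eq_one_left hx2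
  have hconj2 : ∀ g : G, (g * y * g⁻¹) * (g * y * g⁻¹) = 1 := by
    intro g
    calc g * y * g⁻¹ * (g * y * g⁻¹) = g * (y * y) * g⁻¹ := by group
      _ = 1 := by rw [hy2]; group
  have step1 : ∀ g : G, Commute (g * y * g⁻¹) y := by
    intro g
    have hnc' : ¬ IsConj x (g * y * g⁻¹) := by
      intro h
      apply hnc
      exact h.trans (isConj_iff.mpr ⟨g, rfl⟩).symm
    obtain ⟨u, hu, hux, huy⟩ := exists_invol hx2 (hconj2 g) hnc'
    exact hstar u hu hux g huy.symm
  have mem_conj : ∀ z ∈ Group.conjugatesOfSet ({y} : Set G), ∃ g, z = g * y * g⁻¹ := by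
    intro z hz
    rw [Group.mem_conjugatesOfSet_iff] at hz
    obtain ⟨y', hy', hz⟩ := hz
    rw [Set.mem_singleton_iff.mp hy'] at hz
    obtain ⟨g, hg⟩ := isConj_iff.mp hz
    exact ⟨g, hg.symm⟩
  have step2 : ∀ a ∈ Group.conjugatesOfSet ({y} : Set G), ∀ b ∈ Group.conjugatesOfSet ({y} : Set G), a * b = b * a := by
    intro a ha b hb
    obtain ⟨g1, rfl⟩ := mem_conj a ha
    obtain ⟨g2, rfl⟩ := mem_conj b hb
    have := (step1 (g1⁻¹ * g2)).eq
    calc g1 * y * g1⁻¹ * (g2 * y * g2⁻¹) = g1 * (y * ((g1⁻¹ * g2) * y * (g1⁻¹ * g2)⁻¹)) * g1⁻¹ := by group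
      _ = g1 * (((g1⁻¹ * g2) * y * (g1⁻¹ * g2)⁻¹) * y) * g1⁻¹ := by rw [this]
      _ = _ := by group
  have hA : IsMulCommutative (Subgroup.normalClosure ({y} : Set G)) := Subgroup.isMulCommutative_closure step2
  have hcomm : ∀ a ∈ Subgroup.normalClosure ({y} : Set G), ∀ b ∈ Subgroup.normalClosure ({y} : Set G), a * b = b * a := by
    intro a ha b hb
    exact congrArg Subtype.val (hA.is_comm.comm ⟨a, ha⟩ ⟨b, hb⟩)
  have hexp : ∀ a ∈ Subgroup.normalClosure ({y} : Set G), a ^ 2 = 1 := by
    intro a ha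
    induction ha using Subgroup.closure_induction with
    | mem z hz =>
      obtain ⟨g, rfl⟩ := mem_conj z hz
      rw [pow_two]; exact hconj2 g
    | one => simp
    | mul a b ha hb h1 h2 =>
      have : Commute a b := hcomm a ha b hb
      rw [this.mul_pow, h1, h2, one_mul]
    | inv a _ h1 => rw [inv_pow, h1, inv_one]
  have hyV : y ∈ Subgroup.normalClosure ({y} : Set G) := Subgroup.subset_normalClosure (Set.mem_singleton y)
  refine ⟨?_, ⟨hA, hexp⟩, ?_⟩
  · intro htop
    have hall : ∀ a b : G, a * b = b * a := by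
      intro a b
      exact hcomm a (htop ▸ Subgroup.mem_top a) b (htop ▸ Subgroup.mem_top b)
    have hle : Subgroup.normalClosure ({y} : Set G) ≤ Subgroup.zpowers y := by
      apply Subgroup.closure_le _ |>.mpr
      intro z hz
      obtain ⟨g, rfl⟩ := mem_conj z hz
      have : g * y * g⁻¹ = y := by rw [hall g y]; group
      rw [this]; exact Subgroup.mem_zpowers y
    have hxz : x ∈ Subgroup.zpowers y := hle (htop ▸ Subgroup.mem_top x)
    rw [← mem_powers_iff_mem_zpowers] at hxz
    obtain ⟨n, hn⟩ := hxz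
    have hn' : y ^ n = x := hn
    rcases Nat.even_or_odd' n with ⟨k, hk | hk⟩
    · have : y ^ (2 * k) = 1 := by rw [pow_mul, pow_two, hy2, one_pow]
      rw [← hn', hk, this, orderOf_one] at hx
      omega
    · have : y ^ (2 * k + 1) = y := by rw [pow_succ, pow_mul, pow_two, hy2, one_pow, one_mul]
      apply hnc
      rw [← hn', hk, this]
  · intro huniq
    set V := Subgroup.normalClosure ({y} : Set G) with hV
    have hVn : V.Normal := Subgroup.normalClosure_normal
    have hcent : ∀ v ∈ V, Commute v x → v ∈ Subgroup.zpowers y := by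
      intro v hv hvx
      by_cases hv1 : v = 1
      · rw [hv1]; exact Subgroup.one_mem _
      · have : orderOf v = 2 := orderOf_eq_prime (hexp v hv) hv1
        rw [huniq v hv this hvx]
        exact Subgroup.mem_zpowers y
    let φ : V →* V :=
      { toFun := fun v => ⟨v.1 * (x * v.1 * x⁻¹), V.mul_mem v.2 (hVn.conj_mem v.1 v.2 x)⟩
        map_one' := by
          apply Subtype.ext
          show (1 : G) * (x * 1 * x⁻¹) = 1
          group
        map_mul' := by
          intro a b
          apply Subtype.ext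
          show (a.1 * b.1) * (x * (a.1 * b.1) * x⁻¹) = (a.1 * (x * a.1 * x⁻¹)) * (b.1 * (x * b.1 * x⁻¹))
          have h1 := hcomm b.1 b.2 _ (hVn.conj_mem a.1 a.2 x)
          calc (a.1 * b.1) * (x * (a.1 * b.1) * x⁻¹) = a.1 * (b.1 * (x * a.1 * x⁻¹)) * (x * b.1 * x⁻¹) := by group
            _ = a.1 * ((x * a.1 * x⁻¹) * b.1) * (x * b.1 * x⁻¹) := by rw [h1]
            _ = _ := by group }
    have hφ : ∀ v : V, (φ v).1 = v.1 * (x * v.1 * x⁻¹) := fun v => rfl
    have hZV : Subgroup.zpowers y ≤ V := Subgroup.zpowers_le.mpr hyV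
    have hcardZ : Nat.card ((Subgroup.zpowers y).subgroupOf V) = 2 := by
      rw [Nat.card_congr (Subgroup.subgroupOfEquivOfLe hZV).toEquiv, Nat.card_zpowers, hy]
    have hker : φ.ker ≤ (Subgroup.zpowers y).subgroupOf V := by
      intro v hv
      rw [MonoidHom.mem_ker] at hv
      have h1 : v.1 * (x * v.1 * x⁻¹) = 1 := congrArg Subtype.val hv
      rw [Subgroup.mem_subgroupOf]
      apply hcent v.1 v.2
      have h2 : v.1 * v.1 = 1 := by rw [← pow_two]; exact hexp v.1 v.2
      have h3 : x * v.1 * x⁻¹ = v.1 := by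
        have := h1.trans h2.symm
        exact mul_left_cancel this
      show v.1 * x = x * v.1
      calc v.1 * x = (x * v.1 * x⁻¹) * x := by rw [h3]
        _ = x * v.1 := by group
    have hrange : φ.range ≤ (Subgroup.zpowers y).subgroupOf V := by
      rintro _ ⟨v, rfl⟩
      rw [Subgroup.mem_subgroupOf]
      apply hcent _ (φ v).2
      rw [hφ]
      show v.1 * (x * v.1 * x⁻¹) * x = x * (v.1 * (x * v.1 * x⁻¹))
      have h1 := hcomm v.1 v.2 _ (hVn.conj_mem v.1 v.2 x)
      rw [h1, hxi]
      calc x * v.1 * x * v.1 * x = x * v.1 * x * v.1 * x := rfl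
        _ = x * (v.1 * x * v.1 * x) := by group
        _ = x * (v.1 * (x * v.1 * x)) := by group
        _ = x * ((x * v.1 * x) * v.1) := by rw [hxi] at h1; rw [h1]
    have h1 := Subgroup.card_mul_index φ.ker
    rw [Subgroup.index_ker] at h1
    have h2 := Subgroup.card_le_of_le hker
    have h3 := Subgroup.card_le_of_le hrange
    rw [hcardZ] at h2 h3
    rw [← h1]
    nlinarith

end Cfsg.Agent.S3276
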