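import Cfsg.Statements.S3305
import Mathlib

set_option autoImplicit false
open Cfsg

namespace Cfsg.Agent.S3305

/-- If any two distinct Sylow 2-subgroups of the finite group G intersect in a cyclic group, then the same holds in every quotient group G/H, H a normal subgroup of G. -/
theorem result {G : Type*} [Group G] [Finite G]
    (hC : ∀ S T : Sylow 2 G, S ≠ T → IsCyclic ↥((S : Subgroup G) ⊓ (T : Subgroup G))) (H : Subgroup G) [H.Normal] :
    ∀ S T : Sylow 2 (G ⧸ H), S ≠ T → IsCyclic ↥((S : Subgroup (G ⧸ H)) ⊓ (T : Subgroup (G ⧸ H))) := by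
  intro Sb Tb hne
  classical
  let π := QuotientGroup.mk' H
  have hπ : Function.Surjective π := QuotientGroup.mk'_surjective H
  obtain ⟨S, hS⟩ := Sylow.mapSurjective_surjective hπ 2 Sb
  obtain ⟨T, hT⟩ := Sylow.mapSurjective_surjective hπ 2 Tb
  have hS' : (S : Subgroup G).map π = (Sb : Subgroup (G ⧸ H)) := by rw [← hS]; rfl
  have hT' : (T : Subgroup G).map π = (Tb : Subgroup (G ⧸ H)) := by rw [← hT]; rfl
  set E : Subgroup G := (Tb : Subgroup (G ⧸ H)).comap π with hE
  have hTE : (T : Subgroup G) ≤ E := by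
    rw [hE, ← Subgroup.map_le_iff_le_comap, hT']
  set R : Subgroup G := (S : Subgroup G) ⊓ E with hR
  have hRmap : R.map π = (Sb : Subgroup (G ⧸ H)) ⊓ (Tb : Subgroup (G ⧸ H)) := by
    ext x
    constructor
    · rintro ⟨r, hr, rfl⟩
      exact ⟨hS' ▸ Subgroup.mem_map_of_mem π hr.1, hr.2⟩
    · rintro ⟨hx1, hx2⟩
      rw [SetLike.mem_coe, ← hS'] at hx1
      obtain ⟨s, hs, rfl⟩ := hx1
      exact ⟨s, ⟨hs, hx2⟩, rfl⟩
  have hRp : IsPGroup 2 R := S.2.to_le inf_le_left
  have hRE : R ≤ E := inf_le_right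
  have hRp' : IsPGroup 2 (R.subgroupOf E) := hRp.comap_subtype
  obtain ⟨Q, hQ⟩ := hRp'.exists_le_sylow
  obtain ⟨e, he⟩ := MulAction.exists_smul_eq E (T.subtype hTE) Q
  rw [Sylow.smul_subtype] at he
  set T₁ : Sylow 2 G := e • T with hT₁
  have hRT₁ : R ≤ (T₁ : Subgroup G) := by
    intro x hx
    have : (⟨x, hRE hx⟩ : E) ∈ (Q : Subgroup E) := hQ (Subgroup.mem_subgroupOf.mpr hx)
    rw [← he, Sylow.coe_subtype, Subgroup.mem_subgroupOf] at this
    exact this
  have hT₁E : (T₁ : Subgroup G) ≤ E := Sylow.smul_le hTE e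
  have hne' : S ≠ T₁ := by
    intro h
    apply hne
    have hle : (Sb : Subgroup (G ⧸ H)) ≤ Tb := by
      rw [← hS', Subgroup.map_le_iff_le_comap, h]
      exact hT₁E
    exact Sylow.ext (Sb.3 Tb.2 hle).symm
  haveI := hC S T₁ hne'
  haveI : IsCyclic R := Subgroup.isCyclic_of_le (le_inf inf_le_left hRT₁)
  rw [← hRmap]
  exact isCyclic_of_surjective (π.subgroupMap R) (π.subgroupMap_surjective R)

end Cfsg.Agent.S3305
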