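import Cfsg.Statements.S3349
import Mathlib

set_option autoImplicit false
open Cfsg

namespace Cfsg.Agent.S3349

open Cfsg
open scoped commutatorElement

/-- Let Q be a finite extraspecial p-group and α an automorphism of Q fixing every element of some maximal abelian subgroup of Q. Then the order of α is a power of p. -/
theorem result {Q : Type*} [Group Q] [Finite Q]
    (p : ℕ) [Fact p.Prime] (hQ : Cfsg.IsExtraspecial p Q) (α : MulAut Q)
    (A : Subgroup Q) (hA : IsMulCommutative A) (hmax : ∀ B : Subgroup Q, A ≤ B → IsMulCommutative B → B = A)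
    (hfix : ∀ a ∈ A, α a = a) :
    ∃ k : ℕ, orderOf α = p ^ k := by
  have hp : p.Prime := Fact.out
  obtain ⟨⟨hP, hF, hC⟩, hcard⟩ := hQ
  have hAab : ∀ a ∈ A, ∀ b ∈ A, a * b = b * a := fun a ha b hb =>
    congrArg Subtype.val (hA.is_comm.comm ⟨a, ha⟩ ⟨b, hb⟩)
  have hcen : ∀ x y : Q, ⁅x, y⁆ ∈ Subgroup.center Q := by
    intro x y
    rw [← hC]
    exact Subgroup.commutator_mem_commutator (Subgroup.mem_top x) (Subgroup.mem_top y)
  have hCA : ∀ x : Q, (∀ a ∈ A, a * x = x * a) → x ∈ A := by
    intro x hx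
    have h1 : A ⊔ Subgroup.zpowers x = A := by
      apply hmax _ le_sup_left
      have hle : A ⊔ Subgroup.zpowers x ≤ Subgroup.centralizer ((A ⊔ Subgroup.zpowers x : Subgroup Q) : Set Q) := by
        have hx1 : Subgroup.zpowers x ≤ Subgroup.centralizer (A : Set Q) := by
          rw [Subgroup.zpowers_le, Subgroup.mem_centralizer_iff]
          exact hx
        have hx2 : A ≤ Subgroup.centralizer ((Subgroup.zpowers x : Subgroup Q) : Set Q) :=
          Subgroup.le_centralizer_iff.mp hx1
        have hx3 : A ≤ Subgroup.centralizer (A : Set Q) := by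
          intro a ha
          rw [Subgroup.mem_centralizer_iff]
          intro b hb
          exact hAab b hb a ha
        have hx4 : Subgroup.zpowers x ≤ Subgroup.centralizer ((Subgroup.zpowers x : Subgroup Q) : Set Q) := by
          intro a ha
          rw [Subgroup.mem_centralizer_iff]
          intro b hb
          obtain ⟨k, rfl⟩ := Subgroup.mem_zpowers_iff.mp ha
          obtain ⟨l, rfl⟩ := Subgroup.mem_zpowers_iff.mp hb
          exact ((Commute.refl x).zpow_zpow l k)
        have hA' : A ≤ Subgroup.centralizer ((A ⊔ Subgroup.zpowers x : Subgroup Q) : Set Q) := by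
          rw [Subgroup.le_centralizer_iff]
          exact sup_le hx3 hx1
        have hZ' : Subgroup.zpowers x ≤ Subgroup.centralizer ((A ⊔ Subgroup.zpowers x : Subgroup Q) : Set Q) := by
          rw [Subgroup.le_centralizer_iff]
          exact sup_le hx2 hx4
        exact sup_le hA' hZ'
      constructor
      constructor
      intro a b
      apply Subtype.ext
      exact (Subgroup.mem_centralizer_iff.mp (hle b.2) a.1 a.2)
    rw [← h1]
    exact Subgroup.mem_sup_right (Subgroup.mem_zpowers x)
  have hZA : Subgroup.center Q ≤ A := by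
    intro z hz
    apply hCA
    intro a _
    exact Subgroup.mem_center_iff.mp hz a
  have hu : ∀ x : Q, x⁻¹ * α x ∈ A := by
    intro x
    apply hCA
    intro a ha
    have h1 : α ⁅x, a⁆ = ⁅x, a⁆ := hfix _ (hZA (hcen x a))
    rw [map_commutatorElement, hfix a ha] at h1
    obtain ⟨u, hu⟩ : ∃ u, u = x⁻¹ * α x := ⟨_, rfl⟩
    have hαx : α x = x * u := by rw [hu]; group
    rw [← hu]
    rw [hαx] at h1
    have hc := Subgroup.mem_center_iff.mp (hcen u a)
    have e : ⁅x * u, a⁆ = x * ⁅u, a⁆ * x⁻¹ * ⁅x, a⁆ := by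
      simp only [commutatorElement_def]; group
    rw [e, hc x] at h1
    have h2 : ⁅u, a⁆ = 1 := by
      have : ⁅u, a⁆ * ⁅x, a⁆ = 1 * ⁅x, a⁆ := by
        rw [one_mul]
        calc ⁅u, a⁆ * ⁅x, a⁆ = ⁅u, a⁆ * x * x⁻¹ * ⁅x, a⁆ := by group
          _ = ⁅x, a⁆ := h1
      exact mul_right_cancel this
    exact (commutatorElement_eq_one_iff_mul_comm.mp h2).symm
  have hpow : ∀ (x : Q) (k : ℕ), (α ^ k) x = x * (x⁻¹ * α x) ^ k := by
    intro x k
    induction k with
    | zero => simp
    | succ k ih =>
      rw [pow_succ', MulAut.mul_apply, ih, map_mul, map_pow, hfix _ (hu x), pow_succ' (x⁻¹ * α x) k]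
      simp only [← mul_assoc, mul_inv_cancel, one_mul]
  have h1 : α ^ Nat.card Q = 1 := by
    ext x
    rw [hpow, pow_card_eq_one']
    simp
  obtain ⟨n, hn⟩ := IsPGroup.iff_card.mp hP
  have h2 := orderOf_dvd_of_pow_eq_one h1
  rw [hn] at h2
  obtain ⟨k, _, hk⟩ := (Nat.dvd_prime_pow hp).mp h2
  exact ⟨k, hk⟩

end Cfsg.Agent.S3349
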