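import Cfsg.Statements.S3498
import Mathlib
import Cfsg.Agent.Lib.Helper6.Flav
import Cfsg.Agent.Lib.Helper6.CharP
import Cfsg.Agent.Lib.Helper6.Rad
import Cfsg.Agent.Lib.Helper1.CoprimeSylow

set_option autoImplicit false
open Cfsg

namespace Cfsg.Agent.S3498

/-- A maximal subgroup of a finite almost simple group does not have prime order. Here G is almost simple in the sense that it has a non-abelian simple normal subgroup T with trivial centralizer. -/
theorem result {G : Type*} [Group G] [Finite G] (T : Subgroup G) [T.Normal] (hT : IsSimpleGroup T) (hTc : ¬ IsMulCommutative T)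
    (hC : Subgroup.centralizer (T : Set G) = ⊥) (H : Subgroup G) (hmax : IsCoatom H) : ¬ (Nat.card H).Prime := by
  intro hp
  set p := Nat.card H with hpdef
  haveI : Fact p.Prime := ⟨hp⟩
  have hcycH : IsCyclic H := isCyclic_of_prime_card hpdef.symm
  have hTnt : T ≠ ⊥ := by
    intro h
    have := hT.toNontrivial
    exact (Subgroup.nontrivial_iff_ne_bot T).mp this h
  -- subgroups of `H`
  have hsubH : ∀ X : Subgroup G, X ≤ H → X = ⊥ ∨ X = H := by
    intro X hX
    have h1 : Nat.card X ∣ p := Subgroup.card_dvd_of_le hX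
    rcases (Nat.dvd_prime hp).mp h1 with h | h
    · exact Or.inl (Subgroup.eq_bot_of_card_eq X h)
    · exact Or.inr (Subgroup.eq_of_le_of_card_ge hX (by rw [h]))
  have hTH : ¬ T ≤ H := by
    intro h
    rcases hsubH T h with h1 | h1
    · exact hTnt h1
    · apply hTc
      rw [h1]
      exact ⟨⟨fun a b => hcycH.commGroup.mul_comm a b⟩⟩
  have hsup : H ⊔ T = ⊤ := by
    apply hmax.2
    refine lt_of_le_of_ne le_sup_left ?_
    intro h
    exact hTH (h ▸ le_sup_right)
  have hHnT : H ≤ Subgroup.normalizer (T : Set G) := by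
    rw [Subgroup.normalizer_eq_top T]; exact le_top
  have hH1 : H ≠ ⊥ := by
    intro h
    rw [hpdef, h, Subgroup.card_bot] at hp
    exact Nat.not_prime_one hp
  rcases hsubH (H ⊓ T) inf_le_left with hHT | hHT
  · -- `H ∩ T = 1`
    have hcardG : Nat.card G = Nat.card T * p := by
      have h1 := Cfsg.Agent.Lib.Helper6.Rad.card_sup_mul (M := T) (N := H) hHnT
      rw [sup_comm, hsup, inf_comm, hHT, Subgroup.card_bot, Subgroup.card_top, mul_one] at h1
      exact h1
    -- no proper nontrivial invariant subgroup
    have hno : ∀ X : Subgroup G, X ≤ T → H ≤ Subgroup.normalizer (X : Set G) → X ≠ ⊥ → X = T := by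
      intro X hXT hHX hX1
      have h1 : H < H ⊔ X := by
        refine lt_of_le_of_ne le_sup_left ?_
        intro h
        have h2 : X ≤ H := h ▸ le_sup_right
        exact hX1 (le_bot_iff.mp (hHT ▸ le_inf h2 hXT))
      have h2 := hmax.2 _ h1
      have h3 := Cfsg.Agent.Lib.Helper6.Rad.card_sup_mul (M := X) (N := H) hHX
      have h4 : X ⊓ H = ⊥ := le_bot_iff.mp (hHT ▸ le_inf inf_le_right (inf_le_left.trans hXT))
      rw [sup_comm, h2, h4, Subgroup.card_bot, Subgroup.card_top, mul_one, hcardG] at h3
      have h5 : Nat.card T = Nat.card X := Nat.eq_of_mul_eq_mul_right hp.pos h3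
      exact Subgroup.eq_of_le_of_card_ge hXT h5.le
    by_cases hpT : p ∣ Nat.card T
    · have hHp : IsPGroup p H := IsPGroup.of_card (n := 1) (by rw [pow_one])
      obtain ⟨P, hHP⟩ := hHp.exists_le_sylow
      have hPnT : (P : Subgroup G) ≤ Subgroup.normalizer (T : Set G) := by
        rw [Subgroup.normalizer_eq_top T]; exact le_top
      have hTP : T ⊓ (P : Subgroup G) ≠ ⊥ := by
        intro hb
        have h1 := Cfsg.Agent.Lib.Helper6.Rad.card_sup_mul (M := T) (N := (P : Subgroup G)) hPnT
        rw [hb, Subgroup.card_bot, mul_one] at h1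
        have h2 : Nat.card (T ⊔ (P : Subgroup G) : Subgroup G) ∣ Nat.card G :=
          Subgroup.card_subgroup_dvd_card _
        rw [h1, hcardG] at h2
        have h3 : Nat.card (P : Subgroup G) ∣ p :=
          Nat.dvd_of_mul_dvd_mul_left Nat.card_pos h2
        have h4 : p ^ 2 ∣ Nat.card G := by
          rw [hcardG, pow_two]
          exact Nat.mul_dvd_mul_right hpT p
        have h5 : p ^ 2 ∣ Nat.card (P : Subgroup G) := by
          rw [P.card_eq_multiplicity]
          apply pow_dvd_pow
          exact (hp.pow_dvd_iff_le_factorization Nat.card_pos.ne').mp h4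
        have h6 : p ^ 2 ∣ p := h5.trans h3
        have h7 := Nat.le_of_dvd hp.pos h6
        have h8 := hp.two_le
        nlinarith
      have hnil : Group.IsNilpotent (P : Subgroup G) := P.isPGroup'.isNilpotent
      have hn2 : (P : Subgroup G) ≤ Subgroup.normalizer ((T ⊓ (P : Subgroup G) : Subgroup G) : Set G) := by
        intro x hx
        rw [Subgroup.mem_normalizer_iff]
        intro y
        have hxT := Subgroup.mem_normalizer_iff.mp (hPnT hx) y
        constructor
        · rintro ⟨h1, h2⟩
          exact ⟨hxT.mp h1, (P : Subgroup G).mul_mem ((P : Subgroup G).mul_mem hx h2) ((P : Subgroup G).inv_mem hx)⟩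
        · rintro ⟨h1, h2⟩
          refine ⟨hxT.mpr h1, ?_⟩
          have : y = x⁻¹ * (x * y * x⁻¹) * x := by group
          rw [this]
          exact (P : Subgroup G).mul_mem ((P : Subgroup G).mul_mem ((P : Subgroup G).inv_mem hx) h2) hx
      have hz := Cfsg.Agent.Lib.Helper6.CharP.inf_Cz_ne_bot hnil inf_le_right hn2 hTP
      have hX1 : T ⊓ Subgroup.centralizer (H : Set G) ≠ ⊥ := by
        intro hb
        apply hz
        rw [eq_bot_iff, ← hb]
        exact le_inf (inf_le_left.trans inf_le_left)
          (inf_le_right.trans (Subgroup.centralizer_le hHP))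
      have hXn : H ≤ Subgroup.normalizer ((T ⊓ Subgroup.centralizer (H : Set G) : Subgroup G) : Set G) := by
        refine le_trans ?_ (Subgroup.centralizer_le_normalizer _)
        rw [Subgroup.le_centralizer_iff]
        exact inf_le_right
      have hXT := hno _ inf_le_left hXn hX1
      have h9 : T ≤ Subgroup.centralizer (H : Set G) := by
        rw [← hXT]; exact inf_le_right
      rw [← Subgroup.le_centralizer_iff, hC] at h9
      exact hH1 (le_bot_iff.mp h9)
    · have hcop : (Nat.card H).Coprime (Nat.card T) := (Nat.Prime.coprime_iff_not_dvd hp).mpr hpT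
      have hT1 : Nat.card T ≠ 1 := by
        intro h
        exact hTnt (Subgroup.eq_bot_of_card_eq T h)
      set q := (Nat.card T).minFac with hq
      have hqp : q.Prime := Nat.minFac_prime hT1
      haveI : Fact q.Prime := ⟨hqp⟩
      have hsolv : Group.IsSolvable H := by
        letI := hcycH.commGroup
        infer_instance
      obtain ⟨X, hXT, hXc, hXn⟩ :=
        Cfsg.Agent.Lib.Helper1.exists_invariant_sylow H T hHnT hcop (Or.inl hsolv) q
      have hX1 : X ≠ ⊥ := by
        intro h
        rw [h, Subgroup.card_bot] at hXc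
        have h1 : 1 ≤ (Nat.card T).factorization q :=
          (hqp.dvd_iff_one_le_factorization Nat.card_pos.ne').mp (Nat.minFac_dvd _)
        have h2 : q ∣ q ^ (Nat.card T).factorization q := dvd_pow_self q (by omega)
        rw [← hXc] at h2
        exact hqp.one_lt.ne' (Nat.dvd_one.mp h2)
      have hXeq := hno X hXT hXn hX1
      rw [hXeq] at hXc
      have hTq : IsPGroup q T := IsPGroup.of_card hXc
      haveI := hT.toNontrivial
      have hcen := hTq.center_nontrivial
      have hcen2 : Subgroup.center T = ⊤ := by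
        rcases hT.eq_bot_or_eq_top_of_normal (Subgroup.center T) inferInstance with h | h
        · exact absurd h ((Subgroup.nontrivial_iff_ne_bot _).mp hcen)
        · exact h
      apply hTc
      refine ⟨⟨fun a b => ?_⟩⟩
      have hb : b ∈ Subgroup.center T := by rw [hcen2]; trivial
      exact (Subgroup.mem_center_iff.mp hb a)
  · have hHT' : H ≤ T := inf_eq_left.mp hHT
    have hTtop : T = ⊤ := by
      rw [← hsup]; exact (sup_eq_right.mpr hHT').symm
    subst hTtop
    haveI : IsSimpleGroup G := (Subgroup.topEquiv (G := G)).symm.isSimpleGroup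
    have hGc : ¬ IsMulCommutative G := by
      intro h
      apply hTc
      exact ⟨⟨fun a b => Subtype.ext (h.is_comm.comm a.1 b.1)⟩⟩
    obtain ⟨g, hg⟩ := Cfsg.Agent.Lib.Helper6.Flav.main3015 hGc H ⊥ hmax bot_le
      (by rw [Subgroup.bot_subgroupOf]; infer_instance)
      (by rw [Subgroup.relIndex_bot_left]; exact hp)
    unfold Cfsg.Agent.Lib.Helper6.Basic.cj at hg
    rw [Subgroup.map_bot, sup_bot_eq] at hg
    exact hmax.1 (le_antisymm le_top (hg ▸ bot_le))

end Cfsg.Agent.S3498
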