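import Cfsg.Statements.S3504
import Mathlib

set_option autoImplicit false
open Cfsg

namespace Cfsg.Agent.S3504

/-- For n ≥ 5, the fixed-point-free permutations of prime order in the symmetric group of degree n form a single conjugacy class if and only if n is a prime power. -/
theorem result (n : ℕ) (hn : 5 ≤ n) :
    Nat.card {c : ConjClasses (Equiv.Perm (Fin n)) // ∃ g : Equiv.Perm (Fin n), ConjClasses.mk g = c ∧ (orderOf g).Prime ∧ ∀ i : Fin n, g i ≠ i} = 1 ↔ IsPrimePow n := by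
  classical
  have hrep : ∀ (p j : ℕ), (Multiset.replicate (j + 1) p).lcm = p := by
    intro p j
    induction j with
    | zero => simp
    | succ j ih =>
      rw [Multiset.replicate_succ, Multiset.lcm_cons, ih]
      simp
  have hF2 : ∀ p : ℕ, p.Prime → p ∣ n → ∃ g : Equiv.Perm (Fin n), orderOf g = p ∧ ∀ i, g i ≠ i := by
    rintro p hp ⟨k, hk⟩
    have hk0 : k ≠ 0 := by
      rintro rfl
      omega
    obtain ⟨g, hg⟩ := (Equiv.Perm.exists_with_cycleType_iff (Fin n)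
      (m := Multiset.replicate k p)).mpr
      ⟨by simp [hk, mul_comm], by
        intro a ha
        rw [Multiset.eq_of_mem_replicate ha]; exact hp.two_le⟩
    refine ⟨g, ?_, ?_⟩
    · rw [← Equiv.Perm.lcm_cycleType, hg]
      obtain ⟨j, rfl⟩ := Nat.exists_eq_succ_of_ne_zero hk0
      exact hrep p j
    · have h1 : g.support.card = n := by
        rw [← Equiv.Perm.sum_cycleType, hg, Multiset.sum_replicate, smul_eq_mul, hk, mul_comm]
      have h2 : g.support = Finset.univ := Finset.eq_univ_of_card _ (by rw [h1]; simp)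
      intro i
      have h3 : i ∈ g.support := by rw [h2]; exact Finset.mem_univ i
      exact Equiv.Perm.mem_support.mp h3
  have hF1 : ∀ g : Equiv.Perm (Fin n), (orderOf g).Prime → (∀ i, g i ≠ i) →
      orderOf g ∣ n ∧ g.cycleType = Multiset.replicate (n / orderOf g) (orderOf g) := by
    intro g hg hfix
    obtain ⟨k, hk⟩ := Equiv.Perm.cycleType_prime_order hg
    have hs : g.cycleType.sum = n := by
      rw [Equiv.Perm.sum_cycleType]
      have h1 : g.support = Finset.univ := by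
        ext i; simp [hfix i]
      rw [h1]; simp
    rw [hk, Multiset.sum_replicate, smul_eq_mul] at hs
    refine ⟨⟨k + 1, by linarith [mul_comm (k + 1) (orderOf g)]⟩, ?_⟩
    rw [hk]
    congr 1
    exact (Nat.div_eq_of_eq_mul_left hg.pos hs.symm).symm
  rw [Nat.card_eq_one_iff_unique]
  constructor
  · rintro ⟨hsub, _⟩
    rw [isPrimePow_iff_unique_prime_dvd]
    obtain ⟨p, hp, hpn⟩ := Nat.exists_prime_and_dvd (show n ≠ 1 by omega)
    refine ⟨p, ⟨hp, hpn⟩, ?_⟩
    rintro q ⟨hq, hqn⟩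
    obtain ⟨g1, ho1, hf1⟩ := hF2 p hp hpn
    obtain ⟨g2, ho2, hf2⟩ := hF2 q hq hqn
    have h0 := hsub.elim ⟨ConjClasses.mk g1, g1, rfl, ho1 ▸ hp, hf1⟩
      ⟨ConjClasses.mk g2, g2, rfl, ho2 ▸ hq, hf2⟩
    have h1 : ConjClasses.mk g1 = ConjClasses.mk g2 := congrArg Subtype.val h0
    have h2 : IsConj g1 g2 := ConjClasses.mk_eq_mk_iff_isConj.mp h1
    have h3 := Equiv.Perm.isConj_iff_cycleType_eq.mp h2
    rw [← ho1, ← ho2, ← Equiv.Perm.lcm_cycleType, ← Equiv.Perm.lcm_cycleType, h3]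
  · intro hpp
    obtain ⟨p, ⟨hp, hpn⟩, huniq⟩ := (isPrimePow_iff_unique_prime_dvd).mp hpp
    refine ⟨⟨?_⟩, ?_⟩
    · rintro ⟨c1, g1, rfl, ho1, hf1⟩ ⟨c2, g2, rfl, ho2, hf2⟩
      apply Subtype.ext
      apply ConjClasses.mk_eq_mk_iff_isConj.mpr
      rw [Equiv.Perm.isConj_iff_cycleType_eq]
      obtain ⟨hd1, hc1⟩ := hF1 g1 ho1 hf1
      obtain ⟨hd2, hc2⟩ := hF1 g2 ho2 hf2
      rw [hc1, hc2, huniq _ ⟨ho1, hd1⟩, huniq _ ⟨ho2, hd2⟩]
    · obtain ⟨g, ho, hf⟩ := hF2 p hp hpn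
      exact ⟨⟨ConjClasses.mk g, g, rfl, ho ▸ hp, hf⟩⟩

end Cfsg.Agent.S3504
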