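import Mathlib
import Cfsg.Statements.S3511

set_option autoImplicit false
open Cfsg

namespace Cfsg.Agent.S3511


/-- Let a finite group G act faithfully on a set Ω. If every element of G of square-free order has a regular cycle (an orbit of the cyclic group it generates with trivial stabilizer), then every element of G has a regular cycle. -/
theorem result {G : Type*} [Group G] [Finite G] {Ω : Type*} [MulAction G Ω] [FaithfulSMul G Ω]
    (h : ∀ g : G, Squarefree (orderOf g) → ∃ ω : Ω, MulAction.stabilizer (Subgroup.zpowers g) ω = ⊥) (g : G) :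
    ∃ ω : Ω, MulAction.stabilizer (Subgroup.zpowers g) ω = ⊥ := by
  classical
  set n := orderOf g with hn
  have hn0 : n ≠ 0 := (orderOf_pos g).ne'
  set r := ∏ p ∈ n.primeFactors, p with hr
  have hrn : r ∣ n := Nat.prod_primeFactors_dvd n
  have hrsq : Squarefree r := by
    apply Finset.squarefree_prod_of_pairwise_isCoprime
    · intro p hp p' hp' hne
      have h1 := Nat.prime_of_mem_primeFactors hp
      have h2 := Nat.prime_of_mem_primeFactors hp'
      exact Nat.coprime_iff_isRelPrime.mp ((Nat.coprime_primes h1 h2).mpr hne)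
    · intro p hp
      exact (Nat.prime_of_mem_primeFactors hp).prime.squarefree
  have hord : orderOf (g ^ (n / r)) = r := orderOf_pow_orderOf_div hn0 hrn
  obtain ⟨ω, hω⟩ := h (g ^ (n / r)) (by rw [hord]; exact hrsq)
  refine ⟨ω, ?_⟩
  rw [eq_bot_iff]
  intro x hx
  rw [Subgroup.mem_bot]
  by_contra hx1
  have hxω : (x : G) • ω = ω := hx
  have hx1' : (x : G) ≠ 1 := fun h => hx1 (Subtype.ext h)
  obtain ⟨k, hk⟩ := (mem_powers_iff_mem_zpowers).mpr x.2
  have hk' : g ^ k = (x : G) := hk
  set s := orderOf (x : G) with hs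
  have hs1 : s ≠ 1 := fun h => hx1' (orderOf_eq_one_iff.mp h)
  obtain ⟨p, hp, hps⟩ := Nat.exists_prime_and_dvd hs1
  have hs0 : s ≠ 0 := (orderOf_pos _).ne'
  have hy : orderOf ((x : G) ^ (s / p)) = p := orderOf_pow_orderOf_div hs0 hps
  have hsn : s ∣ n := by
    rw [hs, ← hk']
    exact orderOf_pow_dvd k
  have hpn : p ∣ n := hps.trans hsn
  have hpr : p ∣ r := Finset.dvd_prod_of_mem _ (Nat.mem_primeFactors.mpr ⟨hp, hpn, hn0⟩)
  have hyω : ((x : G) ^ (s / p)) • ω = ω := by
    have : ∀ j : ℕ, ((x : G) ^ j) • ω = ω := by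
      intro j
      induction j with
      | zero => simp
      | succ j ih => rw [pow_succ, mul_smul, hxω, ih]
    exact this _
  -- the element lies in the powers of `g ^ (n / r)`
  have hmem : (x : G) ^ (s / p) ∈ Subgroup.zpowers (g ^ (n / r)) := by
    obtain ⟨n', hn'⟩ := hpn
    obtain ⟨r', hr'⟩ := hpr
    obtain ⟨c, hc⟩ := hrn
    have hp0 : 0 < p := hp.pos
    have hr0 : 0 < r := Nat.pos_of_ne_zero (fun h => by rw [h, zero_mul] at hc; exact hn0 hc)
    have hnr : n / r = c := by rw [hc]; exact Nat.mul_div_cancel_left c hr0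
    have hn'c : n' = r' * c := by
      have : p * n' = p * (r' * c) := by rw [← hn', hc, hr']; ring
      exact Nat.eq_of_mul_eq_mul_left hp0 this
    have hpow : ((x : G) ^ (s / p)) ^ p = 1 := by
      have := pow_orderOf_eq_one ((x : G) ^ (s / p))
      rwa [hy] at this
    rw [← hk', ← pow_mul, ← pow_mul, ← mul_assoc] at hpow
    have hdvd : n ∣ k * (s / p) * p := orderOf_dvd_of_pow_eq_one hpow
    rw [hn', mul_comm p n'] at hdvd
    have hdvd' : n' ∣ k * (s / p) := Nat.dvd_of_mul_dvd_mul_right hp0 hdvd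
    obtain ⟨t, ht⟩ := hdvd'
    rw [← hk', ← pow_mul, ht, hnr, hn'c]
    refine ⟨((r' * t : ℕ) : ℤ), ?_⟩
    show (g ^ c) ^ ((r' * t : ℕ) : ℤ) = _
    rw [zpow_natCast, ← pow_mul]
    congr 1
    ring
  have hbot : (⟨(x : G) ^ (s / p), hmem⟩ : Subgroup.zpowers (g ^ (n / r))) ∈
      MulAction.stabilizer (Subgroup.zpowers (g ^ (n / r))) ω := hyω
  rw [hω, Subgroup.mem_bot] at hbot
  have h1 : (x : G) ^ (s / p) = 1 := congrArg Subtype.val hbot
  rw [h1, orderOf_one] at hy
  exact hp.one_lt.ne hy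

end Cfsg.Agent.S3511
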