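import Cfsg.Statements.S3514
import Mathlib
import Cfsg.Agent.Lib.Helper6.Rad

set_option autoImplicit false
open Cfsg

namespace Cfsg.Agent.S3514

/-- Let p be a prime, V a finite vector space over the field with p elements, and H a group of linear transformations of V all of whose orbits on V have size coprime to p. (i) Every normal subgroup K of H has all its orbits on V of size coprime to p. (ii) If N is a group of linear transformations of V of order coprime to p that is normalized by H, then the group generated by N and H has all its orbits on V of size coprime to p. -/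
theorem result (p : ℕ) [Fact p.Prime] {V : Type*} [AddCommGroup V] [Module (ZMod p) V] [Finite V]
    (H : Subgroup (V ≃ₗ[ZMod p] V)) (hH : ∀ v : V, ¬ p ∣ Nat.card {u : V | ∃ h ∈ H, h v = u}) :
    (∀ K : Subgroup (V ≃ₗ[ZMod p] V), K ≤ H → H ≤ Subgroup.normalizer (K : Set (V ≃ₗ[ZMod p] V)) →
        ∀ v : V, ¬ p ∣ Nat.card {u : V | ∃ k ∈ K, k v = u}) ∧
    (∀ N : Subgroup (V ≃ₗ[ZMod p] V), ¬ p ∣ Nat.card N → H ≤ Subgroup.normalizer (N : Set (V ≃ₗ[ZMod p] V)) →
        ∀ v : V, ¬ p ∣ Nat.card {u : V | ∃ x ∈ N ⊔ H, x v = u}) := by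
  classical
  have hp : p.Prime := Fact.out
  haveI : Finite (V ≃ₗ[ZMod p] V) :=
    Finite.of_injective (fun f => (f : V → V)) DFunLike.coe_injective
  have horb : ∀ (A : Subgroup (V ≃ₗ[ZMod p] V)) (v : V),
      Nat.card {u : V | ∃ a ∈ A, a v = u} *
        Nat.card (A ⊓ MulAction.stabilizer (V ≃ₗ[ZMod p] V) v : Subgroup (V ≃ₗ[ZMod p] V)) =
      Nat.card A := by
    intro A v
    have h1 : {u : V | ∃ a ∈ A, a v = u} = MulAction.orbit A v := by
      ext u; constructor
      · rintro ⟨a, ha, rfl⟩; exact ⟨⟨a, ha⟩, rfl⟩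
      · rintro ⟨⟨a, ha⟩, rfl⟩; exact ⟨a, ha, rfl⟩
    rw [h1]
    have h2 : Nat.card (MulAction.orbit A v) = (MulAction.stabilizer A v).index :=
      Nat.card_congr (MulAction.orbitEquivQuotientStabilizer A v)
    have h3 : (MulAction.stabilizer A v).map A.subtype =
        A ⊓ MulAction.stabilizer (V ≃ₗ[ZMod p] V) v := by
      ext g; constructor
      · rintro ⟨⟨a, ha⟩, hs, rfl⟩; exact ⟨ha, hs⟩
      · rintro ⟨ha, hs⟩; exact ⟨⟨g, ha⟩, hs, rfl⟩
    rw [h2, ← h3, Subgroup.card_map_of_injective A.subtype_injective, mul_comm]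
    exact (MulAction.stabilizer A v).card_mul_index
  constructor
  · intro K hKH hHK v hdiv
    have e1 := horb K v
    have e2 := horb H v
    have e3 := Cfsg.Agent.Lib.Helper6.Rad.card_sup_mul (M := K)
      (N := H ⊓ MulAction.stabilizer (V ≃ₗ[ZMod p] V) v) (inf_le_left.trans hHK)
    have e4 : K ⊓ (H ⊓ MulAction.stabilizer (V ≃ₗ[ZMod p] V) v) =
        K ⊓ MulAction.stabilizer (V ≃ₗ[ZMod p] V) v := by
      rw [← inf_assoc, inf_of_le_left hKH]
    have e5 : Nat.card (K ⊔ H ⊓ MulAction.stabilizer (V ≃ₗ[ZMod p] V) v : Subgroup _) ∣ Nat.card H :=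
      Subgroup.card_dvd_of_le (sup_le hKH inf_le_left)
    rw [e4, ← e1] at e3
    have e6 : Nat.card (K ⊔ H ⊓ MulAction.stabilizer (V ≃ₗ[ZMod p] V) v : Subgroup _) =
        Nat.card {u : V | ∃ a ∈ K, a v = u} *
          Nat.card (H ⊓ MulAction.stabilizer (V ≃ₗ[ZMod p] V) v : Subgroup _) := by
      apply Nat.eq_of_mul_eq_mul_right
        (Nat.card_pos : 0 < Nat.card (K ⊓ MulAction.stabilizer (V ≃ₗ[ZMod p] V) v : Subgroup _))
      rw [e3]; ring
    rw [e6, ← e2] at e5
    have e7 := Nat.dvd_of_mul_dvd_mul_right Nat.card_pos e5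
    exact hH v (hdiv.trans e7)
  · intro N hN hHN v hdiv
    have e1 := horb (N ⊔ H) v
    have e2 := horb H v
    have e3 := Cfsg.Agent.Lib.Helper6.Rad.card_sup_mul (M := N) (N := H) hHN
    have e4 : Nat.card (H ⊓ MulAction.stabilizer (V ≃ₗ[ZMod p] V) v : Subgroup _) ∣
        Nat.card ((N ⊔ H) ⊓ MulAction.stabilizer (V ≃ₗ[ZMod p] V) v : Subgroup _) :=
      Subgroup.card_dvd_of_le (inf_le_inf_right _ le_sup_right)
    have e5 : p * Nat.card (H ⊓ MulAction.stabilizer (V ≃ₗ[ZMod p] V) v : Subgroup _) ∣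
        Nat.card (N ⊔ H : Subgroup _) := by
      rw [← e1]; exact Nat.mul_dvd_mul hdiv e4
    have e6 : p * Nat.card (H ⊓ MulAction.stabilizer (V ≃ₗ[ZMod p] V) v : Subgroup _) ∣
        Nat.card N * Nat.card H := e5.trans (e3 ▸ dvd_mul_right _ _)
    rw [← e2, ← mul_assoc] at e6
    have e7 := Nat.dvd_of_mul_dvd_mul_right Nat.card_pos e6
    rcases (Nat.Prime.dvd_mul hp).mp e7 with h | h
    · exact hN h
    · exact hH v h

end Cfsg.Agent.S3514
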