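import Cfsg.Statements.S3547
import Cfsg.Agent.Lib.Lead.Derange

set_option autoImplicit false
open Cfsg

namespace Cfsg.Agent.S3547

open Cfsg.Agent.Der MulAction

theorem rank_formula {G Ω : Type*} [Group G] [Finite G] [MulAction G Ω] [Finite Ω]
    [IsPretransitive G Ω] [Nonempty Ω] :
    Nat.card (orbitRel.Quotient G (Ω × Ω)) * (der G Ω).index =
      Nat.card (orbitRel.Quotient (der G Ω) (Ω × Ω)) + (der G Ω).index - 1 := by
  classical
  cases nonempty_fintype G
  have h1 := burnside G (Ω × Ω)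
  have h2 := burnside_sub (Ω × Ω) (der G Ω)
  have h3 := Finset.sum_filter_add_sum_filter_not Finset.univ (· ∈ der G Ω)
    (fun g => Nat.card (fixedBy (Ω × Ω) g))
  have h4 : ∑ g ∈ Finset.univ.filter (· ∉ der G Ω), Nat.card (fixedBy (Ω × Ω) g) =
      (Finset.univ.filter (· ∉ der G Ω)).card := by
    rw [Finset.card_eq_sum_ones]
    apply Finset.sum_congr rfl
    intro g hg
    rw [card_fixedBy_prod, core.2 g (Finset.mem_filter.mp hg).2, one_pow]
  have h5 := card_filter_not_mem (der G Ω)
  have h6 := (der G Ω).card_mul_index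
  have hD : 0 < Nat.card (der G Ω) := Nat.card_pos
  have hi : 0 < (der G Ω).index := Nat.pos_of_ne_zero (Subgroup.index_ne_zero_of_finite)
  rw [h2, h1, h4] at h3
  generalize Nat.card (orbitRel.Quotient G (Ω × Ω)) = rG at *
  generalize Nat.card (orbitRel.Quotient (der G Ω) (Ω × Ω)) = rD at *
  generalize (der G Ω).index = i at *
  generalize Nat.card (der G Ω) = d at *
  generalize (Finset.univ.filter (· ∉ der G Ω)).card = c at *
  generalize Nat.card G = n at *
  subst h6
  have h7 : d * (rD + i) = d * (rG * i + 1) := by nlinarith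
  have h8 := Nat.eq_of_mul_eq_mul_left hD h7
  omega

/-- Let G act faithfully and transitively on a finite set Ω, let D be the subgroup generated by the derangements, and let r_G and r_D be the numbers of orbits of G and of D on ordered pairs of points (the permutation ranks). Then r_D − 1 = (r_G − 1)·[G : D]. -/
theorem result {G Ω : Type*} [Group G] [Finite G] [MulAction G Ω] [FaithfulSMul G Ω] [Finite Ω]
    (htrans : MulAction.IsPretransitive G Ω) :
    Nat.card (MulAction.orbitRel.Quotient ↥(Subgroup.closure {g : G | ∀ ω : Ω, g • ω ≠ ω}) (Ω × Ω)) - 1 =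
      (Nat.card (MulAction.orbitRel.Quotient G (Ω × Ω)) - 1) * (Subgroup.closure {g : G | ∀ ω : Ω, g • ω ≠ ω}).index := by
  rcases isEmpty_or_nonempty Ω with h | h
  · haveI : IsEmpty (Ω × Ω) := inferInstance
    haveI : IsEmpty (orbitRel.Quotient G (Ω × Ω)) :=
      ⟨fun q => Quotient.inductionOn' q (fun z => h.false z.1)⟩
    haveI : IsEmpty (orbitRel.Quotient ↥(Subgroup.closure {g : G | ∀ ω : Ω, g • ω ≠ ω}) (Ω × Ω)) :=
      ⟨fun q => Quotient.inductionOn' q (fun z => h.false z.1)⟩
    simp
  · have h1 := rank_formula (G := G) (Ω := Ω)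
    haveI : Nonempty (orbitRel.Quotient G (Ω × Ω)) :=
      ⟨Quotient.mk'' (Classical.arbitrary (Ω × Ω))⟩
    have hG : 0 < Nat.card (orbitRel.Quotient G (Ω × Ω)) := Nat.card_pos
    have hi : 0 < (der G Ω).index := Nat.pos_of_ne_zero (Subgroup.index_ne_zero_of_finite)
    show Nat.card (orbitRel.Quotient (der G Ω) (Ω × Ω)) - 1 = _ * (der G Ω).index
    obtain ⟨a, ha⟩ : ∃ a, Nat.card (orbitRel.Quotient G (Ω × Ω)) = a + 1 := ⟨_, (Nat.succ_pred_eq_of_pos hG).symm⟩
    rw [ha] at h1 ⊢
    rw [Nat.add_sub_cancel]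
    rw [add_mul, one_mul] at h1
    omega

end Cfsg.Agent.S3547
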