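import Cfsg.Statements.S3548
import Cfsg.Agent.Lib.Lead.Derange

set_option autoImplicit false
open Cfsg

namespace Cfsg.Agent.S3548

open Cfsg.Agent.Der MulAction

theorem card_compl {Ω : Type*} [Finite Ω] (a : Ω) :
    Nat.card ({a}ᶜ : Set Ω) = Nat.card Ω - 1 := by
  rw [Nat.card_coe_set_eq, Set.ncard_compl, Set.ncard_singleton]

theorem dvd {G Ω : Type*} [Group G] [Finite G] [MulAction G Ω] [Finite Ω]
    [IsPretransitive G Ω] (a : Ω) : (der G Ω).index ∣ Nat.card Ω - 1 := by
  rw [← card_compl a]
  apply index_dvd_of_invariant a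
  · intro g hg y hy h
    apply hy
    have h1 : g • y = g • a := by rw [hg]; exact h
    exact smul_left_cancel g h1
  · simp

theorem primePow {G Ω : Type*} [Group G] [Finite G] [MulAction G Ω] [FaithfulSMul G Ω] [Finite Ω]
    [IsPretransitive G Ω] (hΩ : 2 ≤ Nat.card Ω) (a : Ω)
    (hidx : (der G Ω).index = Nat.card Ω - 1) : IsPrimePow (Nat.card Ω) := by
  have hd : 0 < (der G Ω).index := by omega
  have hrel := relIndex_stabilizer (G := G) a
  -- orbits of the stabilizer
  have key : ∀ y : Ω, y ≠ a → (stabilizer (stabilizer G a) y).index = (der G Ω).index ∧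
      orbit (stabilizer G a) y = {a}ᶜ := by
    intro y hy
    have hle : stabilizer (stabilizer G a) y ≤ (der G Ω).subgroupOf (stabilizer G a) := by
      intro h hh
      exact mem_der_of_two_fixed h.2 hh hy.symm
    have h1 := Subgroup.index_dvd_of_le hle
    rw [hrel] at h1
    have hsub : orbit (stabilizer G a) y ⊆ {a}ᶜ := by
      rintro _ ⟨h, rfl⟩ hh
      apply hy
      have h2 : (h : G) • y = (h : G) • a := by rw [h.2]; exact hh
      exact smul_left_cancel (h : G) h2
    have h2 : (orbit (stabilizer G a) y).ncard ≤ ({a}ᶜ : Set Ω).ncard :=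
      Set.ncard_le_ncard hsub (Set.toFinite _)
    rw [← index_stabilizer, ← Nat.card_coe_set_eq, card_compl, ← hidx] at h2
    have h3 : 0 < (stabilizer (stabilizer G a) y).index :=
      Nat.pos_of_ne_zero Subgroup.index_ne_zero_of_finite
    have h4 := Nat.le_of_dvd h3 h1
    have h5 : (stabilizer (stabilizer G a) y).index = (der G Ω).index := le_antisymm h2 h4
    refine ⟨h5, Set.eq_of_subset_of_ncard_le hsub ?_ (Set.toFinite _)⟩
    rw [← index_stabilizer, h5, hidx, ← card_compl a, Nat.card_coe_set_eq]
  -- `D_a = 1`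
  have hDa : ∀ x ∈ der G Ω, x • a = a → x = 1 := by
    intro x hx hxa
    apply FaithfulSMul.eq_of_smul_eq_smul (α := Ω)
    intro y
    rw [one_smul]
    by_cases hy : y = a
    · rw [hy]; exact hxa
    · have hle : stabilizer (stabilizer G a) y ≤ (der G Ω).subgroupOf (stabilizer G a) := by
        intro h hh
        exact mem_der_of_two_fixed h.2 hh (Ne.symm hy)
      have h1 := Subgroup.relIndex_mul_index hle
      rw [(key y hy).1, hrel] at h1
      have h2 : (stabilizer (stabilizer G a) y).relIndex
          ((der G Ω).subgroupOf (stabilizer G a)) = 1 := by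
        have : (stabilizer (stabilizer G a) y).relIndex
          ((der G Ω).subgroupOf (stabilizer G a)) * (der G Ω).index = 1 * (der G Ω).index := by
          rw [h1, one_mul]
        exact Nat.eq_of_mul_eq_mul_right hd this
      have h3 := Subgroup.relIndex_eq_one.mp h2
      exact h3 (show (⟨x, hxa⟩ : stabilizer G a) ∈ (der G Ω).subgroupOf (stabilizer G a) from hx)
  haveI := der_transitive (G := G) (X := Ω)
  have hcard : Nat.card (der G Ω) = Nat.card Ω := by
    rw [← index_stabilizer_of_transitive (der G Ω) a]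
    have : stabilizer (der G Ω) a = ⊥ := by
      rw [eq_bot_iff]
      intro x hx
      exact Subtype.ext (hDa x x.2 hx)
    rw [this, Subgroup.index_bot]
  haveI : Fact (Nat.minFac (Nat.card Ω)).Prime := ⟨Nat.minFac_prime (by omega)⟩
  obtain ⟨x, hx⟩ := exists_prime_orderOf_dvd_card' (G := der G Ω) (Nat.minFac (Nat.card Ω))
    (hcard ▸ Nat.minFac_dvd _)
  have hx1 : x ≠ 1 := by
    intro h
    rw [h, orderOf_one] at hx
    exact (Nat.minFac_prime (n := Nat.card Ω) (by omega)).one_lt.ne hx
  have hmove : ∀ y : der G Ω, y ≠ 1 → (y : G) • a ≠ a := fun y hy h =>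
    hy (Subtype.ext (hDa y y.2 h))
  have hp : IsPGroup (Nat.minFac (Nat.card Ω)) (der G Ω) := by
    intro y
    refine ⟨1, ?_⟩
    rw [pow_one]
    by_cases hy : y = 1
    · rw [hy, one_pow]
    · have h1 : (y : G) • a ∈ orbit (stabilizer G a) ((x : G) • a) := by
        rw [(key _ (hmove x hx1)).2]
        exact hmove y hy
      obtain ⟨h, hh⟩ := h1
      have hh' : (h : G) • (x : G) • a = (y : G) • a := hh
      have h2 : (y : G)⁻¹ * ((h : G) * x * (h : G)⁻¹) = 1 := by
        apply hDa
        · exact Subgroup.mul_mem _ (Subgroup.inv_mem _ y.2) (der_normal.conj_mem _ x.2 _)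
        · have h3 : (h : G)⁻¹ • a = a := by
            rw [inv_smul_eq_iff]; exact h.2.symm
          rw [mul_smul, mul_smul, mul_smul, h3, hh', inv_smul_smul]
      have h3 : (y : G) = (h : G) * x * (h : G)⁻¹ := by
        rw [inv_mul_eq_one] at h2; exact h2
      apply Subtype.ext
      rw [Subgroup.coe_pow, h3, conj_pow, ← Subgroup.coe_pow, ← hx, pow_orderOf_eq_one]
      simp
  obtain ⟨k, hk⟩ := IsPGroup.iff_card.mp hp
  rw [hcard] at hk
  have hk0 : k ≠ 0 := by
    rintro rfl
    rw [pow_zero] at hk
    omega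
  rw [hk]
  exact (Nat.minFac_prime (n := Nat.card Ω) (by omega)).prime.isPrimePow.pow hk0

/-- Let G act faithfully and transitively on a finite set with n ≥ 2 points and let D be the subgroup generated by the derangements. Then the index of D in G divides n − 1, and if it equals n − 1 then n is a prime power. -/
theorem result {G Ω : Type*} [Group G] [Finite G] [MulAction G Ω] [FaithfulSMul G Ω] [Finite Ω]
    (htrans : MulAction.IsPretransitive G Ω) (hΩ : 2 ≤ Nat.card Ω) :
    (Subgroup.closure {g : G | ∀ ω : Ω, g • ω ≠ ω}).index ∣ Nat.card Ω - 1 ∧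
    ((Subgroup.closure {g : G | ∀ ω : Ω, g • ω ≠ ω}).index = Nat.card Ω - 1 → IsPrimePow (Nat.card Ω)) := by
  have hne : Nonempty Ω := by
    have : 0 < Nat.card Ω := by omega
    exact (Nat.card_pos_iff.mp this).1
  obtain ⟨a⟩ := hne
  exact ⟨dvd a, primePow hΩ a⟩

end Cfsg.Agent.S3548
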