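import Cfsg.Statements.S3549
import Cfsg.Agent.Lib.Lead.Derange

set_option autoImplicit false
open Cfsg

namespace Cfsg.Agent.S3549

open Cfsg.Agent.Der MulAction
open scoped Pointwise

/-- Let G act faithfully, transitively but imprimitively on a finite set with n points, and let D be the subgroup generated by the derangements. Then the index of D in G is at most √n − 1. -/
theorem result {G Ω : Type*} [Group G] [Finite G] [MulAction G Ω] [FaithfulSMul G Ω] [Finite Ω]
    (htrans : MulAction.IsPretransitive G Ω) (himp : ¬ MulAction.IsPreprimitive G Ω) :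
    ((Subgroup.closure {g : G | ∀ ω : Ω, g • ω ≠ ω}).index : ℝ) ≤ Real.sqrt (Nat.card Ω) - 1 := by
  obtain ⟨B, hB, hBt⟩ : ∃ B : Set Ω, IsBlock G B ∧ ¬ IsTrivialBlock B := by
    by_contra h
    push Not at h
    exact himp ⟨fun {B} hB => h B hB⟩
  have hBs : ¬ B.Subsingleton := fun h => hBt (Or.inl h)
  have hBu : B ≠ Set.univ := fun h => hBt (Or.inr h)
  rw [Set.not_subsingleton_iff] at hBs
  obtain ⟨a, ha⟩ := hBs.nonempty
  have hinv : ∀ g : G, g • a = a → ∀ y, y ∈ B ↔ g • y ∈ B := by
    intro g hg y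
    have h1 : g • B = B := hB.stabilizer_le ha hg
    conv_rhs => rw [← h1]
    exact (Set.smul_mem_smul_set_iff).symm
  have hm2 : 2 ≤ B.ncard := Set.one_lt_ncard_iff_nontrivial.mpr hBs
  obtain ⟨l, hl⟩ := hB.ncard_dvd_card ⟨a, ha⟩
  have hlt : B.ncard < Nat.card Ω := by
    rw [← Set.ncard_univ]
    exact Set.ncard_lt_ncard (Set.ssubset_univ_iff.mpr hBu) (Set.toFinite _)
  have h1 : (der G Ω).index ∣ B.ncard - 1 := by
    have h2 : Nat.card (B \ {a} : Set Ω) = B.ncard - 1 := by
      rw [Nat.card_coe_set_eq, Set.ncard_sdiff_singleton_of_mem ha]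
    rw [← h2]
    apply index_dvd_of_invariant a
    · intro g hg y hy
      refine ⟨(hinv g hg y).mp hy.1, fun h => hy.2 ?_⟩
      have h3 : g • y = g • a := by rw [hg]; exact h
      exact smul_left_cancel g h3
    · simp
  have h2 : (der G Ω).index ∣ Nat.card Ω - B.ncard := by
    have h3 : Nat.card (Bᶜ : Set Ω) = Nat.card Ω - B.ncard := by
      rw [Nat.card_coe_set_eq, Set.ncard_compl]
    rw [← h3]
    apply index_dvd_of_invariant a
    · intro g hg y hy h
      exact hy ((hinv g hg y).mpr h)
    · simpa using ha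
  show ((der G Ω).index : ℝ) ≤ _
  generalize (der G Ω).index = d at h1 h2
  generalize B.ncard = m at *
  have hl2 : 2 ≤ l := by
    by_contra h
    have : l = 0 ∨ l = 1 := by omega
    rcases this with rfl | rfl <;> omega
  have hcop : Nat.Coprime d m := by
    have h3 : Nat.Coprime (m - 1) m := by
      have : m = (m - 1) + 1 := by omega
      rw [this]; simp
    exact Nat.Coprime.coprime_dvd_left h1 h3
  have h3 : d ∣ l - 1 := by
    have e : Nat.card Ω - m = m * (l - 1) := by
      rw [hl, Nat.mul_sub, mul_one]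
    rw [e] at h2
    exact hcop.dvd_of_dvd_mul_left h2
  have h4 : d ≤ m - 1 := Nat.le_of_dvd (by omega) h1
  have h5 : d ≤ l - 1 := Nat.le_of_dvd (by omega) h3
  have h6 : (d + 1) ^ 2 ≤ Nat.card Ω := by
    rw [hl, sq]
    exact Nat.mul_le_mul (by omega) (by omega)
  have h7 : ((d : ℝ) + 1) ≤ Real.sqrt (Nat.card Ω) := by
    apply Real.le_sqrt_of_sq_le
    exact_mod_cast h6
  linarith

end Cfsg.Agent.S3549
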