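import Cfsg.Statements.S3619

set_option autoImplicit false
open Cfsg

namespace Cfsg.Agent.S3619

open MulAction
open scoped Pointwise

/-- a quasiprimitive group with a Jordan set on which the fixing subgroup of the complement acts
primitively is primitive. -/
theorem preprimitive {G Ω : Type*} [Group G] [MulAction G Ω]
    (hqp : ∀ N : Subgroup G, N.Normal → N ≠ ⊥ → MulAction.IsPretransitive ↥N Ω)
    (Γ : Set Ω) (hΓ1 : Γ.Nontrivial)
    (hJp : MulAction.IsPreprimitive ↥(fixingSubgroup G Γᶜ) ↥(SubMulAction.ofFixingSubgroup G Γᶜ)) :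
    MulAction.IsPreprimitive G Ω := by
  obtain ⟨x, hx, y, hy, hxy⟩ := hΓ1
  have hmemΓ : ∀ z : Ω, z ∈ Γ → z ∈ SubMulAction.ofFixingSubgroup G Γᶜ := fun z hz => by
    show z ∈ (Γᶜ)ᶜ
    simpa using hz
  have hΓmem : ∀ z : SubMulAction.ofFixingSubgroup G Γᶜ, (z : Ω) ∈ Γ := fun z => by
    have : (z : Ω) ∈ (Γᶜ)ᶜ := z.2
    simpa using this
  -- a non-identity element of the fixing subgroup
  obtain ⟨k₀, hk₀⟩ := hJp.toIsPretransitive.exists_smul_eq ⟨x, hmemΓ x hx⟩ ⟨y, hmemΓ y hy⟩
  have hk₀' : (k₀ : G) • x = y := congrArg Subtype.val hk₀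
  have hk₀1 : (k₀ : G) ≠ 1 := by
    intro h
    rw [h, one_smul] at hk₀'
    exact hxy hk₀'
  have key : ∀ B : Set Ω, IsBlock G B → ¬ B.Subsingleton → ∀ k ∈ fixingSubgroup G Γᶜ,
      k • B = B := by
    intro B hB hBs k hk
    apply hB.smul_eq_of_nonempty
    by_cases hsub : B ⊆ Γ
    · have hB' : IsBlock (fixingSubgroup G Γᶜ)
          (Subtype.val ⁻¹' B : Set (SubMulAction.ofFixingSubgroup G Γᶜ)) :=
        (hB.subgroup (H := fixingSubgroup G Γᶜ)).subtype_val_preimage
      rcases hJp.isTrivialBlock_of_isBlock hB' with h | h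
      · exfalso
        apply hBs
        intro u hu v hv
        have := h (x := ⟨u, hmemΓ u (hsub hu)⟩) hu (y := ⟨v, hmemΓ v (hsub hv)⟩) hv
        exact congrArg Subtype.val this
      · rw [Set.not_subsingleton_iff] at hBs
        obtain ⟨u, hu⟩ := hBs.nonempty
        refine ⟨k • u, Set.smul_mem_smul_set hu, ?_⟩
        have h1 : ((⟨k, hk⟩ : fixingSubgroup G Γᶜ) • (⟨u, hmemΓ u (hsub hu)⟩ :
          SubMulAction.ofFixingSubgroup G Γᶜ)) ∈
            (Subtype.val ⁻¹' B : Set (SubMulAction.ofFixingSubgroup G Γᶜ)) := h ▸ Set.mem_univ _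
        exact h1
    · rw [Set.not_subset] at hsub
      obtain ⟨u, hu, huΓ⟩ := hsub
      have h1 : k • u = u := (mem_fixingSubgroup_iff G).mp hk u huΓ
      exact ⟨u, by rw [← h1]; exact Set.smul_mem_smul_set hu, hu⟩
  have htop : IsPretransitive (⊤ : Subgroup G) Ω := by
    apply hqp ⊤ inferInstance
    intro h
    apply hk₀1
    have : (k₀ : G) ∈ (⊤ : Subgroup G) := Subgroup.mem_top _
    rw [h] at this
    exact this
  have htrans : IsPretransitive G Ω := by
    constructor
    intro u v
    obtain ⟨g, hg⟩ := htop.exists_smul_eq u v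
    exact ⟨g, hg⟩
  refine { toIsPretransitive := htrans, isTrivialBlock_of_isBlock := ?_ }
  intro B hB
  by_cases hBs : B.Subsingleton
  · exact Or.inl hBs
  right
  have hle : fixingSubgroup G Γᶜ ≤ (stabilizer G B).normalCore := by
    intro k hk b
    have h1 := key (b⁻¹ • B) (hB.translate b⁻¹) (by
      intro h
      apply hBs
      intro u hu v hv
      have := h (Set.smul_mem_smul_set (a := b⁻¹) hu) (Set.smul_mem_smul_set (a := b⁻¹) hv)
      exact smul_left_cancel _ this) k hk
    rw [mem_stabilizer_iff, mul_smul, mul_smul, h1, smul_inv_smul]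
  have hne : (stabilizer G B).normalCore ≠ ⊥ := by
    intro h
    apply hk₀1
    have := hle k₀.2
    rw [h] at this
    exact this
  have hN := hqp _ (Subgroup.normalCore_normal _) hne
  rw [Set.not_subsingleton_iff] at hBs
  obtain ⟨u, hu⟩ := hBs.nonempty
  rw [Set.eq_univ_iff_forall]
  intro v
  obtain ⟨n, hn⟩ := hN.exists_smul_eq u v
  have h2 : (n : G) • B = B := Subgroup.normalCore_le _ n.2
  have h3 : (n : G) • u ∈ (n : G) • B := Set.smul_mem_smul_set hu
  rw [h2] at h3
  rw [← hn]
  exact h3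

/-- Let G act faithfully on a finite set in such a way that every non-trivial normal subgroup of G is transitive (G is quasiprimitive). Let Γ be a subset with more than one point and not the whole set, such that the pointwise stabilizer of the complement of Γ acts transitively on Γ (a Jordan set). If that pointwise stabilizer acts primitively on Γ, then G is k-fold transitive where k is one more than the number of points outside Γ (the Jordan set is a trivial one). -/
theorem result {G Ω : Type*} [Group G] [Finite G] [MulAction G Ω] [FaithfulSMul G Ω] [Finite Ω]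
    (hqp : ∀ N : Subgroup G, N.Normal → N ≠ ⊥ → MulAction.IsPretransitive ↥N Ω)
    (Γ : Set Ω) (hΓ1 : 1 < Γ.ncard) (hΓ2 : Γ.ncard < Nat.card Ω)
    (hJ : MulAction.IsPretransitive ↥(fixingSubgroup G Γᶜ) ↥(SubMulAction.ofFixingSubgroup G Γᶜ))
    (hJp : MulAction.IsPreprimitive ↥(fixingSubgroup G Γᶜ) ↥(SubMulAction.ofFixingSubgroup G Γᶜ)) :
    MulAction.IsMultiplyPretransitive G Ω (Nat.card Ω - Γ.ncard + 1) := by
  have hprim := preprimitive hqp Γ (Set.one_lt_ncard_iff_nontrivial.mp hΓ1) hJp
  have hc : (Γᶜ).ncard = Nat.card Ω - Γ.ncard := Set.ncard_compl Γ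
  obtain ⟨n, hn⟩ : ∃ n, Nat.card Ω - Γ.ncard = n + 1 := ⟨Nat.card Ω - Γ.ncard - 1, by omega⟩
  have h := hprim.isMultiplyPreprimitive (s := Γᶜ) (n := n) (by rw [hc, hn]) (by omega) hJp
  rw [hn]
  exact h.isMultiplyPretransitive

end Cfsg.Agent.S3619
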