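import Cfsg.Statements.S3683

set_option autoImplicit false
open Cfsg

namespace Cfsg.Agent.S3683

open MulAction

/-- a finite group in which the trivial subgroup is maximal has prime order. -/
theorem prime_card_of_isCoatom_bot {G : Type*} [Group G] [Finite G]
    (h : IsCoatom (⊥ : Subgroup G)) : (Nat.card G).Prime := by
  have hne : Nat.card G ≠ 1 := by
    intro h1
    apply h.1
    rw [← Subgroup.card_eq_iff_eq_top, Subgroup.card_bot, h1]
  haveI : Fact (Nat.card G).minFac.Prime := ⟨Nat.minFac_prime hne⟩
  obtain ⟨x, hx⟩ := exists_prime_orderOf_dvd_card' (G := G) (Nat.card G).minFac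
    (Nat.minFac_dvd _)
  have hx1 : Subgroup.zpowers x ≠ ⊥ := by
    intro h2
    rw [Subgroup.zpowers_eq_bot] at h2
    rw [h2, orderOf_one] at hx
    exact (Nat.minFac_prime hne).one_lt.ne hx
  have htop := h.2 (Subgroup.zpowers x) (bot_lt_iff_ne_bot.mpr hx1)
  have h3 : Nat.card G = (Nat.card G).minFac := by
    rw [← hx, ← Nat.card_zpowers, htop, Subgroup.card_top]
  rw [h3]
  exact Nat.minFac_prime hne

/-- Let a finite group G act faithfully and primitively on a set Ω, and suppose the stabilizer of a point a fixes a second point b ≠ a (a suborbit of length 1 other than {a}). Then the stabilizer of a is trivial and G is cyclic of prime order. -/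
theorem result {G Ω : Type*} [Group G] [Finite G] [MulAction G Ω] [FaithfulSMul G Ω] [Finite Ω]
    (hprim : MulAction.IsPreprimitive G Ω) (a b : Ω) (hab : a ≠ b) (hfix : ∀ g : G, g • a = a → g • b = b) :
    MulAction.stabilizer G a = ⊥ ∧ IsCyclic G ∧ (Nat.card G).Prime := by
  haveI : Nontrivial Ω := ⟨⟨a, b, hab⟩⟩
  have hca := IsPreprimitive.isCoatom_stabilizer_of_isPreprimitive (G := G) a
  have hcb := IsPreprimitive.isCoatom_stabilizer_of_isPreprimitive (G := G) b
  have hle : stabilizer G a ≤ stabilizer G b := fun g hg => hfix g hg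
  have heq : stabilizer G a = stabilizer G b := by
    rcases eq_or_lt_of_le hle with h | h
    · exact h
    · exact absurd (hca.2 _ h) hcb.1
  obtain ⟨g, hg⟩ := exists_smul_eq G a b
  have hgN : g ∈ Subgroup.normalizer (stabilizer G a : Set G) := by
    rw [Subgroup.mem_normalizer_iff]
    intro h
    have h1 := stabilizer_smul_eq_stabilizer_map_conj g a
    rw [hg, ← heq] at h1
    constructor
    · intro hh
      rw [h1]
      exact ⟨h, hh, rfl⟩
    · intro hh
      rw [h1] at hh
      obtain ⟨k, hk, hkh⟩ := hh
      have : k = h := by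
        have h2 : g * k * g⁻¹ = g * h * g⁻¹ := hkh
        exact mul_left_cancel (mul_right_cancel h2)
      rw [← this]; exact hk
  have hgS : g ∉ stabilizer G a := fun h => hab (by rw [← hg]; exact h.symm)
  have hN : Subgroup.normalizer (stabilizer G a : Set G) = ⊤ := by
    apply hca.2
    exact lt_of_le_of_ne Subgroup.le_normalizer (fun h => hgS (h ▸ hgN))
  have hbot : stabilizer G a = ⊥ := by
    rw [eq_bot_iff]
    intro x hx
    rw [Subgroup.mem_bot]
    apply FaithfulSMul.eq_of_smul_eq_smul (α := Ω)
    intro ω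
    rw [one_smul]
    obtain ⟨k, rfl⟩ := exists_smul_eq G a ω
    have hk : k⁻¹ ∈ Subgroup.normalizer (stabilizer G a : Set G) := hN ▸ Subgroup.mem_top _
    have h1 := (Subgroup.mem_normalizer_iff.mp hk x).mp hx
    rw [mem_stabilizer_iff, inv_inv, mul_smul, mul_smul, inv_smul_eq_iff] at h1
    exact h1
  have hprime : (Nat.card G).Prime := prime_card_of_isCoatom_bot (hbot ▸ hca)
  haveI : Fact (Nat.card G).Prime := ⟨hprime⟩
  exact ⟨hbot, isCyclic_of_prime_card rfl, hprime⟩

end Cfsg.Agent.S3683
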