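import Cfsg.Statements.S3802
import Cfsg.Agent.Lib.Helper1.Subn1
open Cfsg.Agent.Lib.Helper1
open Cfsg.Agent.Lib.Helper6.Basic Cfsg.Agent.Lib.Helper6.Subn Cfsg.Agent.Lib.Helper6.Rad Cfsg.Agent.Lib.Helper6.Nil
open scoped Pointwise

set_option autoImplicit false
open Cfsg

namespace Cfsg.Agent.S3802

/-- Let G be a finite group, M a maximal subgroup of G and N a subnormal subgroup of G contained in M. Then N is contained in every conjugate of M, that is, N lies in the core of M in G. -/
theorem result {G : Type*} [Group G] [Finite G] (M N : Subgroup G) (hM : IsCoatom M) (hN : N.IsSubnormal) (hNM : N ≤ M) :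
    N ≤ Subgroup.normalCore M := by
  rw [isSubnormal_iff] at hN
  set L : Subgroup G := sSup {U | SN U ⊤ ∧ U ≤ M} with hL
  have hLsn : SN L ⊤ := SN_sSup _ fun U hU => hU.1
  have hLM : L ≤ M := sSup_le fun U hU => hU.2
  have hNL : N ≤ L := le_sSup ⟨hN, hNM⟩
  have hMN : M ≤ Nz L := by
    intro m hm
    rw [← cj_eq_self_iff]
    apply Subgroup.eq_of_le_of_card_ge _ (le_of_eq (card_cj m L).symm)
    apply le_sSup
    refine ⟨by have := hLsn.cj m; rwa [cj_top] at this, ?_⟩
    have := cj_mono (g := m) hLM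
    rwa [cj_eq_self_of_mem hm] at this
  have hLn : L.Normal := by
    by_contra hc
    have h1 : Nz L = M := by
      rcases hM.le_iff.mp hMN with h | h
      · exact absurd (Subgroup.normalizer_eq_top_iff.mp h) hc
      · exact h
    obtain ⟨L', hlt, hle, hsn⟩ := SN_lt_of_ne hLsn (fun he => hM.1 (top_le_iff.mp (he ▸ hLM)))
    have h9 : L' ≤ L := le_sSup (show L' ∈ {U | SN U ⊤ ∧ U ≤ M} from ⟨hsn, hle.trans h1.le⟩)
    exact absurd h9 (not_le_of_gt hlt)
  exact hNL.trans (Subgroup.normal_le_normalCore.mpr hLM)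

end Cfsg.Agent.S3802
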