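import Cfsg.Statements.S3815
import Mathlib

set_option autoImplicit false
open Cfsg

namespace Cfsg.Agent.S3815

/-- Let G be a finite group, p a prime and d ∈ G an element of order prime to p. If dg has order prime to p for every element g ∈ G of order prime to p, then d ∈ O_{p'}(G). -/
theorem result {G : Type*} [Group G] [Finite G] {p : ℕ} [Fact p.Prime]
    (d : G) (hd : (orderOf d).Coprime p)
    (h : ∀ g : G, (orderOf g).Coprime p → (orderOf (d * g)).Coprime p) :
    d ∈ Cfsg.pPrimeCore p G := by
  have hp : p.Prime := Fact.out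
  let D : Submonoid G :=
    { carrier := {d | ∀ g : G, (orderOf g).Coprime p → (orderOf (d * g)).Coprime p}
      one_mem' := by
        intro g hg
        rwa [one_mul]
      mul_mem' := by
        intro a b ha hb g hg
        rw [mul_assoc]
        exact ha _ (hb g hg) }
  let D' : Subgroup G :=
    { D with
      inv_mem' := by
        intro a ha
        have h1 : a⁻¹ = a ^ (orderOf a - 1) := by
          rw [eq_comm, ← mul_eq_one_iff_eq_inv, ← pow_succ, Nat.sub_add_cancel (orderOf_pos a), pow_orderOf_eq_one]
        rw [h1]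
        exact D.pow_mem ha _ }
  have hmem : ∀ a, a ∈ D' ↔ ∀ g : G, (orderOf g).Coprime p → (orderOf (a * g)).Coprime p := fun a => Iff.rfl
  have hn : D'.Normal := by
    constructor
    intro a ha c
    rw [hmem] at ha ⊢
    intro g hg
    have h1 : c * a * c⁻¹ * g = c * (a * (c⁻¹ * g * c)) * c⁻¹ := by group
    have h2 : ∀ y : G, orderOf (c * y * c⁻¹) = orderOf y := fun y => (MulAut.conj c).orderOf_eq y
    have h3 : orderOf (c⁻¹ * g * c) = orderOf g := by
      have := (MulAut.conj c⁻¹).orderOf_eq g
      rwa [MulAut.conj_apply, inv_inv] at this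
    rw [h1, h2]
    apply ha
    rw [h3]; exact hg
  have hcard : (Nat.card D').Coprime p := by
    rw [Nat.coprime_comm, Nat.Prime.coprime_iff_not_dvd hp]
    intro hdvd
    obtain ⟨a, ha⟩ := exists_prime_orderOf_dvd_card' p hdvd
    have h1 := (hmem a).mp a.2 1 (by rw [orderOf_one]; exact Nat.coprime_one_left p)
    rw [mul_one, Subgroup.orderOf_coe, ha] at h1
    exact hp.one_lt.ne' ((Nat.coprime_self p).mp h1)
  have hle : D' ≤ Cfsg.pPrimeCore p G := le_sSup ⟨hn, hcard⟩
  exact hle ((hmem d).mpr h)

end Cfsg.Agent.S3815
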