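import Cfsg.Statements.S3820
import Cfsg.Agent.Lib.Helper1.Basic

set_option autoImplicit false
open Cfsg

namespace Cfsg.Agent.S3820

open Pointwise

/-- Call a subgroup H of G pronormal if H and gHg⁻¹ are conjugate inside ⟨H, gHg⁻¹⟩ for every g ∈ G. Let S ≤ H ≤ G be subgroups of a finite group with S pronormal in G (for instance S a Sylow subgroup). Then H is pronormal in G if and only if H and gHg⁻¹ are conjugate inside ⟨H, gHg⁻¹⟩ for every g ∈ N_G(S). In particular H is pronormal whenever N_G(S) ≤ H. -/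
theorem result {G : Type*} [Group G] [Finite G] (S H : Subgroup G) (hSH : S ≤ H)
    (hS : Cfsg.IsPronormal S) :
    Cfsg.IsPronormal H ↔
      ∀ g ∈ Subgroup.normalizer (S : Set G), ∃ w ∈ H ⊔ H.map (MulAut.conj g).toMonoidHom,
        H.map (MulAut.conj g).toMonoidHom = H.map (MulAut.conj w).toMonoidHom := by
  have hconv : ∀ (g : G) (H : Subgroup G), H.map (MulAut.conj g).toMonoidHom = MulAut.conj g • H :=
    fun _ _ => rfl
  unfold Cfsg.IsPronormal at *
  simp only [hconv] at hS ⊢
  constructor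
  · intro h g _
    exact h g
  · intro h g
    obtain ⟨w, hw, hSw⟩ := hS g
    have hn : w⁻¹ * g ∈ Subgroup.normalizer (S : Set G) := by
      apply Subgroup.mem_normalizer_iff_map_conj_eq.mpr
      show MulAut.conj (w⁻¹ * g) • S = S
      rw [map_mul, mul_smul, hSw, map_inv, inv_smul_smul]
    obtain ⟨v, hv, hHv⟩ := h _ hn
    have hwJ : w ∈ H ⊔ MulAut.conj g • H :=
      (sup_le_sup hSH (Subgroup.pointwise_smul_le_pointwise_smul_iff.mpr hSH)) hw
    refine ⟨w * v, ?_, ?_⟩
    · apply Subgroup.mul_mem _ hwJ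
      have hle : H ⊔ MulAut.conj (w⁻¹ * g) • H ≤ H ⊔ MulAut.conj g • H := by
        apply sup_le le_sup_left
        rw [map_mul, mul_smul]
        calc MulAut.conj w⁻¹ • MulAut.conj g • H ≤ MulAut.conj w⁻¹ • (H ⊔ MulAut.conj g • H) :=
              Subgroup.pointwise_smul_le_pointwise_smul_iff.mpr le_sup_right
          _ = H ⊔ MulAut.conj g • H := Subgroup.conj_smul_eq_self_of_mem (Subgroup.inv_mem _ hwJ)
      exact hle hv
    · rw [map_mul, mul_smul, ← hHv, map_mul, mul_smul, map_inv, smul_inv_smul]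

end Cfsg.Agent.S3820
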