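import Cfsg.Statements.S3821
import Cfsg.Agent.Lib.Helper1.Basic

set_option autoImplicit false
open Cfsg

namespace Cfsg.Agent.S3821

open Pointwise
open Cfsg.Agent.Lib.Helper1

/-- Let A be a normal subgroup of the finite group G and H a subgroup of A. Then H is pronormal in G (H and gHg⁻¹ conjugate inside ⟨H, gHg⁻¹⟩ for every g ∈ G) if and only if H is pronormal in A and G = A · N_G(H). -/
theorem result {G : Type*} [Group G] [Finite G] (A H : Subgroup G) [A.Normal] (hHA : H ≤ A) :
    Cfsg.IsPronormal H ↔ (Cfsg.IsPronormal (H.subgroupOf A) ∧ A ⊔ Subgroup.normalizer (H : Set G) = ⊤) := by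
  have hAn : A.Normal := inferInstance
  have hconv : ∀ (g : G) (H : Subgroup G), H.map (MulAut.conj g).toMonoidHom = MulAut.conj g • H :=
    fun _ _ => rfl
  have hconvA : ∀ (g : A) (H : Subgroup A), H.map (MulAut.conj g).toMonoidHom = MulAut.conj g • H :=
    fun _ _ => rfl
  have hL : ∀ (a : A) (S : Subgroup A), (MulAut.conj a • S).map A.subtype = MulAut.conj (a : G) • (S.map A.subtype) := by
    intro a S
    rw [← hconv, ← hconvA, Subgroup.map_map, Subgroup.map_map]
    rfl
  have hH' : (H.subgroupOf A).map A.subtype = H := by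
    rw [Subgroup.subgroupOf_map_subtype, inf_eq_left.mpr hHA]
  have hcA : ∀ g : G, MulAut.conj g • H ≤ A := by
    intro g y hy
    rw [mem_conj_smul] at hy
    have := hAn.conj_mem _ (hHA hy) g
    have e : g * (g⁻¹ * y * g) * g⁻¹ = y := by group
    rwa [e] at this
  unfold Cfsg.IsPronormal
  simp only [hconv, hconvA]
  constructor
  · intro h
    constructor
    · intro a
      obtain ⟨x, hx, hxe⟩ := h (a : G)
      have hxA : x ∈ A := (sup_le hHA (hcA a)) hx
      refine ⟨⟨x, hxA⟩, ?_, ?_⟩
      · rw [← Subgroup.mem_map_iff_mem A.subtype_injective, Subgroup.map_sup, hL, hH']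
        exact hx
      · apply Subgroup.map_injective A.subtype_injective
        rw [hL, hL, hH']
        exact hxe
    · rw [eq_top_iff]
      intro g _
      obtain ⟨x, hx, hxe⟩ := h g
      have hxA : x ∈ A := (sup_le hHA (hcA g)) hx
      have hn : x⁻¹ * g ∈ Subgroup.normalizer (H : Set G) := by
        apply Subgroup.mem_normalizer_iff_map_conj_eq.mpr
        show MulAut.conj (x⁻¹ * g) • H = H
        rw [map_mul, mul_smul, hxe, map_inv, inv_smul_smul]
      have e : g = x * (x⁻¹ * g) := by group
      rw [e]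
      exact Subgroup.mul_mem _ (Subgroup.mem_sup_left hxA) (Subgroup.mem_sup_right hn)
  · rintro ⟨h1, h2⟩ g
    have hg : g ∈ ((A ⊔ Subgroup.normalizer (H : Set G) : Subgroup G) : Set G) := by
      rw [h2]; exact Set.mem_univ g
    rw [Subgroup.normal_mul] at hg
    obtain ⟨a, ha, n, hn, rfl⟩ := Set.mem_mul.mp hg
    have hnH : MulAut.conj n • H = H := Subgroup.mem_normalizer_iff_map_conj_eq.mp hn
    rw [map_mul, mul_smul, hnH]
    obtain ⟨x, hx, hxe⟩ := h1 ⟨a, ha⟩
    refine ⟨x, ?_, ?_⟩
    · rw [← Subgroup.mem_map_iff_mem A.subtype_injective, Subgroup.map_sup, hL, hH'] at hx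
      exact hx
    · have := congrArg (Subgroup.map A.subtype) hxe
      rw [hL, hL, hH'] at this
      exact this

end Cfsg.Agent.S3821
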