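import Cfsg.Statements.S3836
import Cfsg.Agent.Lib.Helper1.Cores
open scoped commutatorElement
open Cfsg.Agent.Lib.Helper1

set_option autoImplicit false
open Cfsg

namespace Cfsg.Agent.S3836

/-- Let G be a finite group that is p-stable in the normalizer form: for every p-subgroup Q and every x ∈ N_G(Q) with [Q, x, x] = 1, the image of x in N_G(Q)/C_G(Q) lies in O_p(N_G(Q)/C_G(Q)). Then every subgroup of G is p-stable in the same sense. -/
theorem result {G : Type*} [Group G] [Finite G] {p : ℕ} [Fact p.Prime] (hst : Cfsg.IsNormalizerPStable p G) (H : Subgroup G) : Cfsg.IsNormalizerPStable p ↥H := by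
  intro P hP g hg hquad
  have hmemN : ∀ n : ↥(Subgroup.normalizer (P : Set ↥H)), (n.1.1 : G) ∈
      Subgroup.normalizer ((P.map H.subtype : Subgroup G) : Set G) := by
    intro n
    exact Subgroup.le_normalizer_map H.subtype ⟨n.1, n.2, rfl⟩
  let φ₀ : ↥(Subgroup.normalizer (P : Set ↥H)) →*
      ↥(Subgroup.normalizer ((P.map H.subtype : Subgroup G) : Set G)) :=
    (H.subtype.comp (Subgroup.normalizer (P : Set ↥H)).subtype).codRestrict _ hmemN
  let φ := (QuotientGroup.mk' ((Subgroup.centralizer ((P.map H.subtype : Subgroup G) : Set G)).subgroupOf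
      (Subgroup.normalizer ((P.map H.subtype : Subgroup G) : Set G)))).comp φ₀
  have hφker : ∀ x : ↥(Subgroup.normalizer (P : Set ↥H)), φ x = 1 ↔
      x ∈ (Subgroup.centralizer (P : Set ↥H)).subgroupOf (Subgroup.normalizer (P : Set ↥H)) := by
    intro x
    change QuotientGroup.mk' _ (φ₀ x) = 1 ↔ _
    rw [QuotientGroup.mk'_apply, QuotientGroup.eq_one_iff, Subgroup.mem_subgroupOf,
      Subgroup.mem_subgroupOf]
    change (x.1.1 : G) ∈ _ ↔ _
    rw [Subgroup.mem_centralizer_iff, Subgroup.mem_centralizer_iff]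
    constructor
    · intro h t ht
      apply Subtype.ext
      exact h t.1 ⟨t, ht, rfl⟩
    · rintro h _ ⟨t, ht, rfl⟩
      exact congrArg Subtype.val (h t ht)
  let ι := QuotientGroup.lift _ φ (fun x hx => (hφker x).2 hx)
  have hιinj : Function.Injective ι := by
    rw [injective_iff_map_eq_one]
    intro y hy
    obtain ⟨x, rfl⟩ := QuotientGroup.mk'_surjective _ y
    have : φ x = 1 := hy
    rw [QuotientGroup.mk'_apply, QuotientGroup.eq_one_iff]
    exact (hφker x).1 this
  have hq' : ⁅⁅P.map H.subtype, Subgroup.zpowers (g : G)⁆, Subgroup.zpowers (g : G)⁆ = ⊥ := by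
    have e : Subgroup.zpowers (g : G) = (Subgroup.zpowers g).map H.subtype := by
      rw [MonoidHom.map_zpowers]; rfl
    rw [e, ← Subgroup.map_commutator, ← Subgroup.map_commutator, hquad, Subgroup.map_bot]
  have key := hst (P.map H.subtype) (hP.map _) g.1 (hmemN ⟨g, hg⟩) hq'
  have hle : (Cfsg.pCore p _).comap ι ≤ Cfsg.pCore p _ :=
    le_pCore ((Cfsg.pCore_normal p _).comap ι) ((pCore_isPGroup p).comap_of_injective ι hιinj)
  exact hle key

end Cfsg.Agent.S3836
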