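import Cfsg.Statements.S3838
import Mathlib
import Cfsg.Agent.Lib.Helper1.PNilFrat
import Cfsg.Agent.Lib.Helper1.PNil

set_option autoImplicit false
open Cfsg

namespace Cfsg.Agent.S3838

open Cfsg
open Cfsg.Agent.Lib.Helper1
open scoped commutatorElement

/-- Let G be a finite group with Sylow p-subgroup P such that N_G(P) has a normal p-complement. Then N_G(Q) has a normal p-complement for every subgroup Q with [P, P] ≤ Q ≤ Φ(P). -/
theorem result {G : Type*} [Group G] [Finite G] {p : ℕ} [Fact p.Prime] (P : Sylow p G) (hN : Cfsg.HasNormalPComplement p ↥(Subgroup.normalizer ((P : Subgroup G) : Set G))) (Q : Subgroup G) (h1 : (commutator ↥(P : Subgroup G)).map (P : Subgroup G).subtype ≤ Q) (h2 : Q ≤ (frattini ↥(P : Subgroup G)).map (P : Subgroup G).subtype) : Cfsg.HasNormalPComplement p ↥(Subgroup.normalizer (Q : Set G)) := by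
  set N := Subgroup.normalizer (Q : Set G) with hNdef
  have hQP : Q ≤ (P : Subgroup G) := h2.trans (Subgroup.map_subtype_le _)
  have hcomm : ∀ a ∈ (P : Subgroup G), ∀ b ∈ (P : Subgroup G), a * b * a⁻¹ * b⁻¹ ∈ Q := by
    intro a ha b hb
    apply h1
    refine ⟨⁅(⟨a, ha⟩ : (P : Subgroup G)), ⟨b, hb⟩⁆, ?_, rfl⟩
    rw [SetLike.mem_coe, commutator_def]
    exact Subgroup.commutator_mem_commutator (Subgroup.mem_top _) (Subgroup.mem_top _)
  have hconj : ∀ u ∈ (P : Subgroup G), ∀ q ∈ Q, u * q * u⁻¹ ∈ Q := by
    intro u hu q hq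
    have := Q.mul_mem (hcomm u hu q (hQP hq)) hq
    have e : u * q * u⁻¹ * q⁻¹ * q = u * q * u⁻¹ := by group
    rwa [e] at this
  have hPN : (P : Subgroup G) ≤ N := by
    intro u hu
    rw [hNdef, Subgroup.mem_normalizer_iff]
    intro x
    constructor
    · exact hconj u hu x
    · intro hx
      have := hconj u⁻¹ ((P : Subgroup G).inv_mem hu) _ hx
      have e : u⁻¹ * (u * x * u⁻¹) * u⁻¹⁻¹ = x := by group
      rwa [e] at this
  have hQN : Q ≤ N := hQP.trans hPN
  let P' : Sylow p N := P.subtype hPN
  have hP' : (P' : Subgroup N) = (P : Subgroup G).subgroupOf N := Sylow.coe_subtype P hPN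
  haveI hQ'n : (Q.subgroupOf N).Normal := Subgroup.normal_in_normalizer
  apply PNilFrat.main P' (Q.subgroupOf N)
  · rw [hP']
    intro x hx
    exact hQP hx
  · intro a ha b hb
    rw [hP'] at ha hb
    exact hcomm a.1 ha b.1 hb
  · intro H' hH' hsup
    rw [hP'] at hH' hsup ⊢
    set H := H'.map N.subtype with hH
    have hHP : H ≤ (P : Subgroup G) := by
      rintro _ ⟨x, hx, rfl⟩
      exact hH' hx
    have hsup' : Q ⊔ H = (P : Subgroup G) := by
      have := congrArg (Subgroup.map N.subtype) hsup
      rwa [Subgroup.map_sup, Subgroup.map_subgroupOf_eq_of_le hQN, Subgroup.map_subgroupOf_eq_of_le hPN] at this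
    have htop : H.subgroupOf (P : Subgroup G) ⊔ frattini (P : Subgroup G) = ⊤ := by
      apply Subgroup.map_injective (P : Subgroup G).subtype_injective
      rw [Subgroup.map_sup, Subgroup.map_subgroupOf_eq_of_le hHP, ← MonoidHom.range_eq_map, Subgroup.range_subtype]
      apply le_antisymm (sup_le hHP (Subgroup.map_subtype_le _))
      calc (P : Subgroup G) = H ⊔ Q := by rw [sup_comm]; exact hsup'.symm
        _ ≤ _ := sup_le_sup_left h2 H
    have h3 := frattini_nongenerating htop
    have h4 : (P : Subgroup G) ≤ H := Subgroup.subgroupOf_eq_top.mp h3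
    apply Subgroup.map_injective N.subtype_injective
    rw [Subgroup.map_subgroupOf_eq_of_le hPN]
    exact le_antisymm hHP h4
  · intro g hg hcop
    have hgN : (g : G) ∈ Subgroup.normalizer ((P : Subgroup G) : Set G) := by
      rw [Subgroup.mem_normalizer_iff]
      intro x
      constructor
      · intro hx
        have := (Subgroup.mem_normalizer_iff.mp hg ⟨x, hPN hx⟩).mp (by rw [hP']; exact hx)
        rw [hP'] at this
        exact this
      · intro hx
        have hxN : x ∈ N := by
          have := N.mul_mem (N.mul_mem (N.inv_mem g.2) (hPN hx)) g.2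
          have e : (g : G)⁻¹ * ((g : G) * x * (g : G)⁻¹) * (g : G) = x := by group
          rwa [e] at this
        have := (Subgroup.mem_normalizer_iff.mp hg ⟨x, hxN⟩).mpr (by rw [hP']; exact hx)
        rw [hP'] at this
        exact this
    have h3 := (pn_subgroup_iff _).mp hN (P : Subgroup G) Subgroup.le_normalizer P.2 (g : G) hgN hgN
      (by rw [Subgroup.orderOf_coe]; exact hcop)
    rw [Subgroup.mem_centralizer_iff] at h3 ⊢
    intro y hy
    rw [SetLike.mem_coe, hP'] at hy
    exact Subtype.ext (h3 y.1 hy)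

end Cfsg.Agent.S3838
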