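import Cfsg.Statements.S3858
import Cfsg.Agent.Lib.Helper3.ZJ2
import Cfsg.Agent.Lib.Helper1.FixedCount

set_option autoImplicit false
open Cfsg

namespace Cfsg.Agent.S3858

open Pointwise
open Cfsg.Agent.Lib.Helper1

theorem as_norm_ne_top {G : Type*} [Group G] [Finite G] (T : Subgroup G) [hTn : T.Normal] (hT : IsSimpleGroup T)
    (hna : ¬ IsMulCommutative T) {r : ℕ} [Fact r.Prime] (R : Sylow r G) (hR0 : (R : Subgroup G) ⊓ T ≠ ⊥) :
    Subgroup.normalizer (((R : Subgroup G) ⊓ T : Subgroup G) : Set G) ≠ ⊤ := by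
  intro h
  have hDn : ((R : Subgroup G) ⊓ T).Normal := Subgroup.normalizer_eq_top_iff.mp h
  have hDn' : (((R : Subgroup G) ⊓ T).subgroupOf T).Normal := hDn.subgroupOf T
  rcases hDn'.eq_bot_or_eq_top with h1 | h1
  · rw [Subgroup.subgroupOf_eq_bot, disjoint_iff, inf_assoc, inf_idem] at h1
    exact hR0 h1
  · rw [Subgroup.subgroupOf_eq_top] at h1
    have hTp : IsPGroup r T := R.2.to_le (h1.trans inf_le_left)
    haveI : Nontrivial T := hT.toNontrivial
    haveI := hTp.center_nontrivial
    apply hna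
    have hc : Subgroup.center T = ⊤ := by
      rcases (inferInstance : (Subgroup.center T).Normal).eq_bot_or_eq_top with h2 | h2
      · exact absurd h2 ((Subgroup.nontrivial_iff_ne_bot _).mp inferInstance)
      · exact h2
    refine ⟨⟨fun a b => ?_⟩⟩
    have : b ∈ Subgroup.center T := by rw [hc]; exact Subgroup.mem_top b
    exact Subgroup.mem_center_iff.mp this a

theorem as_norm_le {G : Type*} [Group G] (T : Subgroup G) [hTn : T.Normal] (R : Subgroup G) :
    Subgroup.normalizer (R : Set G) ≤ Subgroup.normalizer ((R ⊓ T : Subgroup G) : Set G) := by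
  apply le_normalizer_inf le_rfl
  rw [Subgroup.normalizer_eq_top_iff.mpr hTn]
  exact le_top

/-- Let G be a finite group with a normal non-abelian simple subgroup T whose centralizer is trivial (G almost simple with socle T), r a prime and R a Sylow r-subgroup of G meeting T nontrivially. Then R lies in exactly one maximal subgroup of G if and only if G has exactly one conjugacy class of maximal subgroups whose index is prime to r. -/
theorem result {G : Type*} [Group G] [Finite G] (T : Subgroup G) [T.Normal] (hT : IsSimpleGroup T) (hna : ¬ IsMulCommutative T)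
    (hC : Subgroup.centralizer (T : Set G) = ⊥) {r : ℕ} [Fact r.Prime] (R : Sylow r G) (hR0 : (R : Subgroup G) ⊓ T ≠ ⊥) :
    (∃! M : Subgroup G, IsCoatom M ∧ (R : Subgroup G) ≤ M) ↔
      ((∃ M : Subgroup G, IsCoatom M ∧ ¬ r ∣ M.index) ∧
        ∀ M₁ M₂ : Subgroup G, IsCoatom M₁ → ¬ r ∣ M₁.index → IsCoatom M₂ → ¬ r ∣ M₂.index → ∃ g : G, M₂ = M₁.map (MulAut.conj g).toMonoidHom) := by
  have hconv : ∀ (g : G) (H : Subgroup G), H.map (MulAut.conj g).toMonoidHom = MulAut.conj g • H :=
    fun _ _ => rfl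
  simp only [hconv]
  have hidx : ∀ M : Subgroup G, (R : Subgroup G) ≤ M → ¬ r ∣ M.index := by
    intro M hRM h
    exact R.not_dvd_index (h.trans (Subgroup.index_dvd_of_le hRM))
  have hcoat : ∀ (g : G) (M : Subgroup G), IsCoatom M → IsCoatom (MulAut.conj g • M) := by
    intro g M hM
    exact ((MulEquiv.mapSubgroup (MulAut.conj g)).isCoatom_iff M).mpr hM
  constructor
  · rintro ⟨M, ⟨hM, hRM⟩, huM⟩
    refine ⟨⟨M, hM, hidx M hRM⟩, ?_⟩
    have hc : ∀ M₁ : Subgroup G, IsCoatom M₁ → ¬ r ∣ M₁.index → ∃ g : G, MulAut.conj g • M₁ = M := by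
      intro M₁ hM₁ hr
      obtain ⟨q, hq⟩ := R.2.nonempty_fixed_point_of_prime_not_dvd_card (G ⧸ M₁) (by
        rw [← Subgroup.index_eq_card]; exact hr)
      obtain ⟨g, rfl⟩ := QuotientGroup.mk_surjective q
      refine ⟨g, huM _ ⟨hcoat g M₁ hM₁, ?_⟩⟩
      intro x hx
      rw [mem_conj_smul]
      have h1 := hq ⟨x, hx⟩
      have h2 : ((x * g : G) : G ⧸ M₁) = (g : G ⧸ M₁) := h1
      rw [QuotientGroup.eq] at h2
      have h3 := M₁.inv_mem h2
      have e : ((x * g)⁻¹ * g)⁻¹ = g⁻¹ * x * g := by group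
      rwa [e] at h3
    intro M₁ M₂ h1 h1' h2 h2'
    obtain ⟨g1, hg1⟩ := hc M₁ h1 h1'
    obtain ⟨g2, hg2⟩ := hc M₂ h2 h2'
    refine ⟨g2⁻¹ * g1, ?_⟩
    rw [map_mul, mul_smul, hg1, ← hg2, map_inv, inv_smul_smul]
  · rintro ⟨-, hconj⟩
    have hNR : Subgroup.normalizer ((R : Subgroup G) : Set G) ≠ ⊤ := by
      intro h
      apply as_norm_ne_top T hT hna R hR0
      rw [eq_top_iff, ← h]
      exact as_norm_le T (R : Subgroup G)
    rcases eq_top_or_exists_le_coatom (Subgroup.normalizer ((R : Subgroup G) : Set G)) with h | ⟨L, hL, hNL⟩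
    · exact absurd h hNR
    have hRL : (R : Subgroup G) ≤ L := Subgroup.le_normalizer.trans hNL
    refine ⟨L, ⟨hL, hRL⟩, ?_⟩
    rintro M' ⟨hM', hRM'⟩
    obtain ⟨g, hg⟩ := hconj L M' hL (hidx L hRL) hM' (hidx M' hRM')
    have hgR : ((g • R : Sylow r G) : Subgroup G) ≤ M' := by
      rw [Sylow.coe_subgroup_smul, hg]
      exact Subgroup.pointwise_smul_le_pointwise_smul_iff.mpr hRL
    obtain ⟨m, hm⟩ := MulAction.exists_smul_eq M' ((g • R).subtype hgR) (R.subtype hRM')
    have hm2 : ((m : G) * g) • R = R := by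
      apply Sylow.ext
      have h1 := congrArg (fun S : Sylow r M' => (S : Subgroup M').map M'.subtype) hm
      simp only [Sylow.coe_subgroup_smul, Sylow.coe_subtype] at h1
      rw [Subgroup.map_subgroupOf_eq_of_le hRM'] at h1
      rw [← h1, mul_smul, Sylow.coe_subgroup_smul]
      ext y
      rw [mem_conj_smul]
      constructor
      · intro hy
        have hyM : y ∈ M' := by
          have := M'.mul_mem (M'.mul_mem m.2 (hgR hy)) (M'.inv_mem m.2)
          have e : (m : G) * ((m : G)⁻¹ * y * m) * (m : G)⁻¹ = y := by group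
          rwa [e] at this
        refine ⟨⟨y, hyM⟩, ?_, rfl⟩
        rw [SetLike.mem_coe, mem_conj_smul, Subgroup.mem_subgroupOf]
        exact hy
      · rintro ⟨z, hz, rfl⟩
        rw [SetLike.mem_coe, mem_conj_smul, Subgroup.mem_subgroupOf] at hz
        exact hz
    have hmg : (m : G) * g ∈ L := hNL ((Sylow.smul_eq_iff_mem_normalizer (P := R)).mp hm2)
    calc M' = MulAut.conj (m : G) • M' := (Subgroup.conj_smul_eq_self_of_mem m.2).symm
      _ = MulAut.conj ((m : G) * g) • L := by
        rw [map_mul, mul_smul]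
        exact congrArg (fun S => MulAut.conj (m : G) • S) hg
      _ = L := Subgroup.conj_smul_eq_self_of_mem hmg

end Cfsg.Agent.S3858
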