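import Cfsg.Statements.S3859
import Cfsg.Agent.Lib.Helper3.ZJ2
import Cfsg.Agent.Lib.Helper1.FixedCount

set_option autoImplicit false
open Cfsg

namespace Cfsg.Agent.S3859

open Pointwise
open Cfsg.Agent.Lib.Helper1

theorem as_norm_ne_top {G : Type*} [Group G] [Finite G] (T : Subgroup G) [hTn : T.Normal] (hT : IsSimpleGroup T)
    (hna : ¬ IsMulCommutative T) {r : ℕ} [Fact r.Prime] (R : Sylow r G) (hR0 : (R : Subgroup G) ⊓ T ≠ ⊥) :
    Subgroup.normalizer (((R : Subgroup G) ⊓ T : Subgroup G) : Set G) ≠ ⊤ := by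
  intro h
  have hDn : ((R : Subgroup G) ⊓ T).Normal := Subgroup.normalizer_eq_top_iff.mp h
  have hDn' : (((R : Subgroup G) ⊓ T).subgroupOf T).Normal := hDn.subgroupOf T
  rcases hDn'.eq_bot_or_eq_top with h1 | h1
  · rw [Subgroup.subgroupOf_eq_bot, disjoint_iff, inf_assoc, inf_idem] at h1
    exact hR0 h1
  · rw [Subgroup.subgroupOf_eq_top] at h1
    have hTp : IsPGroup r T := R.2.to_le (h1.trans inf_le_left)
    haveI : Nontrivial T := hT.toNontrivial
    haveI := hTp.center_nontrivial
    apply hna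
    have hc : Subgroup.center T = ⊤ := by
      rcases (inferInstance : (Subgroup.center T).Normal).eq_bot_or_eq_top with h2 | h2
      · exact absurd h2 ((Subgroup.nontrivial_iff_ne_bot _).mp inferInstance)
      · exact h2
    refine ⟨⟨fun a b => ?_⟩⟩
    have : b ∈ Subgroup.center T := by rw [hc]; exact Subgroup.mem_top b
    exact Subgroup.mem_center_iff.mp this a

theorem as_norm_le {G : Type*} [Group G] (T : Subgroup G) [hTn : T.Normal] (R : Subgroup G) :
    Subgroup.normalizer (R : Set G) ≤ Subgroup.normalizer ((R ⊓ T : Subgroup G) : Set G) := by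
  apply le_normalizer_inf le_rfl
  rw [Subgroup.normalizer_eq_top_iff.mpr hTn]
  exact le_top

/-- Let G be a finite group with a normal non-abelian simple subgroup T whose centralizer is trivial (G almost simple with socle T), r a prime and R a Sylow r-subgroup of G meeting T nontrivially. If R lies in exactly one maximal subgroup of G, then G/T is an r-group. -/
theorem result {G : Type*} [Group G] [Finite G] (T : Subgroup G) [T.Normal] (hT : IsSimpleGroup T) (hna : ¬ IsMulCommutative T)
    (hC : Subgroup.centralizer (T : Set G) = ⊥) {r : ℕ} [Fact r.Prime] (R : Sylow r G) (hR0 : (R : Subgroup G) ⊓ T ≠ ⊥)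
    (huniq : ∃! M : Subgroup G, IsCoatom M ∧ (R : Subgroup G) ≤ M) : IsPGroup r (G ⧸ T) := by
  obtain ⟨M, ⟨hM, hRM⟩, huM⟩ := huniq
  have key : ∀ L : Subgroup G, (R : Subgroup G) ≤ L → L ≠ ⊤ → L ≤ M := by
    intro L hRL hL
    rcases eq_top_or_exists_le_coatom L with h | ⟨M', hM', hLM'⟩
    · exact absurd h hL
    · rw [← huM M' ⟨hM', hRL.trans hLM'⟩]; exact hLM'
  have hN := key _ (Subgroup.le_normalizer.trans (as_norm_le T (R : Subgroup G))) (as_norm_ne_top T hT hna R hR0)
  have hTM : ¬ T ≤ M := by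
    intro hTM
    apply hM.1
    rw [eq_top_iff]
    intro g _
    obtain ⟨n, hn, h, hh, rfl⟩ := Cfsg.Agent.Lib.Helper3.PLocal.frattini_elt R T g
    exact M.mul_mem (hTM hn) (hN hh)
  have hRT : (R : Subgroup G) ⊔ T = ⊤ := by
    by_contra hne
    exact hTM (le_sup_right.trans (key _ le_sup_left hne))
  have h3 : (R : Subgroup G).map (QuotientGroup.mk' T) = ⊤ := by
    rw [← sup_bot_eq ((R : Subgroup G).map (QuotientGroup.mk' T)), ← QuotientGroup.map_mk'_self T,
      ← Subgroup.map_sup, hRT, ← MonoidHom.range_eq_map]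
    exact MonoidHom.range_eq_top.mpr (QuotientGroup.mk'_surjective T)
  have h4 := R.2.map (QuotientGroup.mk' T)
  rw [h3] at h4
  exact h4.of_equiv Subgroup.topEquiv

end Cfsg.Agent.S3859
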