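import Cfsg.Statements.S3861
import Cfsg.Agent.Lib.Helper9.RealOdd

set_option autoImplicit false

open Cfsg

namespace Cfsg.Agent.S3861

/-- A finite group G has no non-identity element of odd order that is conjugate to its inverse if and only if the Sylow 2-subgroups of G are normal. -/
theorem result {G : Type*} [Group G] [Finite G] (P : Sylow 2 G) : (∀ x : G, x ≠ 1 → Odd (orderOf x) → ¬ IsConj x x⁻¹) ↔ (P : Subgroup G).Normal := by
  constructor
  · intro h
    exact Cfsg.Agent.Lib.Helper9.RealOdd.sylow_normal h P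
  · intro hP x hx1 hxo hreal
    obtain ⟨g, hg⟩ := isConj_iff.1 hreal
    have hidx : Odd (P : Subgroup G).index := by
      rw [← Nat.not_even_iff_odd, even_iff_two_dvd]
      exact P.not_dvd_index
    -- g^k inverts x for odd k
    have hpow : ∀ k : ℕ, Odd k → g ^ k * x * (g ^ k)⁻¹ = x⁻¹ := by
      have hg2 : g * x⁻¹ * g⁻¹ = x := by
        have := congrArg (·⁻¹) hg
        simp only [mul_inv_rev, inv_inv] at this
        rw [mul_assoc]; exact this
      have heven : ∀ j : ℕ, g ^ (2 * j) * x * (g ^ (2 * j))⁻¹ = x := by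
        intro j
        induction j with
        | zero => simp
        | succ j ih =>
          have : g ^ (2 * (j + 1)) * x * (g ^ (2 * (j + 1)))⁻¹
              = g * (g * (g ^ (2 * j) * x * (g ^ (2 * j))⁻¹) * g⁻¹) * g⁻¹ := by
            have e : g ^ (2 * (j + 1)) = g * (g * g ^ (2 * j)) := by
              rw [← pow_succ', ← pow_succ']; congr 1
            rw [e]; group
          rw [this, ih, hg, hg2]
      rintro k ⟨j, rfl⟩
      have : g ^ (2 * j + 1) * x * (g ^ (2 * j + 1))⁻¹
          = g * (g ^ (2 * j) * x * (g ^ (2 * j))⁻¹) * g⁻¹ := by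
        rw [pow_succ']; group
      rw [this, heven, hg]
    set u := g ^ (P : Subgroup G).index with hu
    have huP : u ∈ (P : Subgroup G) := Subgroup.pow_index_mem _ g
    have hux := hpow _ hidx
    rw [← hu] at hux
    have hx2 : x * x ∈ (P : Subgroup G) := by
      have h1 : x * u * x⁻¹ ∈ (P : Subgroup G) := hP.conj_mem u huP x
      have h2 : x * x = (x * u * x⁻¹) * u⁻¹ := by
        have : u * x⁻¹ * u⁻¹ = x := by
          have := congrArg (·⁻¹) hux
          simp only [mul_inv_rev, inv_inv] at this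
          rw [mul_assoc]; exact this
        calc x * x = x * (u * x⁻¹ * u⁻¹) := by rw [this]
          _ = (x * u * x⁻¹) * u⁻¹ := by group
      rw [h2]
      exact mul_mem h1 (inv_mem huP)
    obtain ⟨k, hk⟩ := P.2 ⟨x * x, hx2⟩
    have hk' : (x * x) ^ 2 ^ k = 1 := congrArg Subtype.val hk
    have h3 : x ^ 2 ^ (k + 1) = 1 := by
      rw [pow_succ', pow_mul, pow_two]; exact hk'
    have h4 : orderOf x ∣ 2 ^ (k + 1) := orderOf_dvd_of_pow_eq_one h3
    have h5 : (orderOf x).Coprime (2 ^ (k + 1)) :=
      Nat.Coprime.pow_right _ (Nat.coprime_two_right.2 hxo)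
    exact hx1 (orderOf_eq_one_iff.1 (Nat.Coprime.eq_one_of_dvd h5 h4))

end Cfsg.Agent.S3861
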