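import Cfsg.Statements.S3862
import Cfsg.Agent.Lib.Helper1.ClassTwoB
open Cfsg.Agent.Lib.Helper1

set_option autoImplicit false
open Cfsg

namespace Cfsg.Agent.S3862

/-- If every 2-element of the finite group G that is conjugate to its inverse lies in the centre of G, then G has a normal 2-complement. -/
theorem result {G : Type*} [Group G] [Finite G] (h : ∀ x : G, (∃ j : ℕ, orderOf x = 2 ^ j) → IsConj x x⁻¹ → x ∈ Subgroup.center G) : Cfsg.HasNormalPComplement 2 G := by
  apply hasNormalPComplement_of_frobHyp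
  intro Q hQ g hg hcop
  apply mem_centralizer_of_small_exponent (e := 4) Q hQ g hg hcop (by norm_num) (by decide)
  intro R hRQ hgR hRe
  have h2el : ∀ x ∈ R, ∃ j : ℕ, orderOf x = 2 ^ j := by
    intro x hx
    have hd : orderOf x ∣ 2^2 := orderOf_dvd_of_pow_eq_one (hRe x hx)
    obtain ⟨k, -, hk2⟩ := (Nat.dvd_prime_pow Nat.prime_two).mp hd
    exact ⟨k, hk2⟩
  rw [Subgroup.mem_centralizer_iff]
  intro x hx
  have hx2 : x ^ 2 ∈ Subgroup.center G := by
    apply h _ (h2el _ (R.pow_mem hx 2))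
    have : (x ^ 2)⁻¹ = x ^ 2 := by
      rw [inv_eq_iff_mul_eq_one, ← pow_add]; exact hRe x hx
    rw [this]
  have hgx : g * x * g⁻¹ ∈ R := (Subgroup.mem_normalizer_iff.mp hgR x).mp hx
  set u := x⁻¹ * (g * x * g⁻¹) with hu
  have huR : u ∈ R := R.mul_mem (R.inv_mem hx) hgx
  have hgxu : g * x * g⁻¹ = x * u := by rw [hu]; group
  have hsq : (x * u) ^ 2 = x ^ 2 := by
    rw [← hgxu, conj_pow]
    have := Subgroup.mem_center_iff.mp hx2 g
    rw [this]; group
  have hreal : x⁻¹ * u * x = u⁻¹ := by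
    have h1 : x * u * (x * u) = x * x := by rw [← pow_two, hsq, pow_two]
    have h2 : u * x * u = x := by
      apply mul_left_cancel (a := x)
      rw [← h1]; group
    calc x⁻¹ * u * x = x⁻¹ * (u * x * u) * u⁻¹ := by group
      _ = u⁻¹ := by rw [h2]; group
  have huc : u ∈ Subgroup.center G := by
    apply h u (h2el u huR)
    rw [isConj_iff]
    exact ⟨x⁻¹, by rw [inv_inv]; exact hreal⟩
  have hpow : ∀ n : ℕ, g ^ n * x * (g ^ n)⁻¹ = x * u ^ n := by
    intro n
    induction n with
    | zero => simp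
    | succ n ih =>
      have hc := Subgroup.mem_center_iff.mp (Subgroup.pow_mem _ huc n) g
      calc g ^ (n+1) * x * (g ^ (n+1))⁻¹ = g * (g ^ n * x * (g ^ n)⁻¹) * g⁻¹ := by rw [pow_succ']; group
        _ = g * x * (u ^ n * g⁻¹) := by rw [ih]; group
        _ = g * x * (g⁻¹ * u ^ n) := by
            congr 1
            rw [eq_inv_mul_iff_mul_eq, ← mul_assoc, hc]; group
        _ = (g * x * g⁻¹) * u ^ n := by group
        _ = x * u ^ (n+1) := by rw [hgxu, pow_succ']; group
  have h5 := hpow (orderOf g)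
  rw [pow_orderOf_eq_one] at h5
  have h6 : u ^ orderOf g = 1 := by
    have : x * u ^ orderOf g = x * 1 := by rw [← h5]; group
    exact mul_left_cancel this
  have h7 : u = 1 := by
    have h8 := pow_gcd_eq_one.mpr ⟨h6, hRe u huR⟩
    have h9 : Nat.gcd (orderOf g) 4 = 1 := Nat.Coprime.pow_right 2 hcop
    rwa [h9, pow_one] at h8
  rw [h7, mul_one] at hgxu
  exact (mul_inv_eq_iff_eq_mul.mp hgxu).symm

end Cfsg.Agent.S3862
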