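import Cfsg.Statements.S3866
import Cfsg.Agent.Lib.Helper1.SZAb

set_option autoImplicit false
open Cfsg

namespace Cfsg.Agent.S3866

open Cfsg.Agent.Lib.Helper1

/-- Let A be a commutative normal subgroup of the finite group G with G generated by A and an element x. Then a ↦ x a x⁻¹ a⁻¹ is a surjective homomorphism from A onto the commutator subgroup of G whose kernel is the centralizer of x in A; in particular the commutator subgroup has order equal to the index in A of that centralizer. -/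
theorem result {G : Type*} [Group G] [Finite G] (A : Subgroup G) [A.Normal] (hA : IsMulCommutative A) (x : G) (hgen : A ⊔ Subgroup.zpowers x = ⊤) : (∀ a ∈ A, x * a * x⁻¹ * a⁻¹ ∈ commutator G) ∧ (∀ c ∈ commutator G, ∃ a ∈ A, x * a * x⁻¹ * a⁻¹ = c) ∧ (∀ a ∈ A, ∀ b ∈ A, x * (a * b) * x⁻¹ * (a * b)⁻¹ = (x * a * x⁻¹ * a⁻¹) * (x * b * x⁻¹ * b⁻¹)) ∧ Nat.card (commutator G) * Nat.card ↥(A ⊓ Subgroup.centralizer ({x} : Set G)) = Nat.card A := by
  have hAn : A.Normal := inferInstance
  have comm : ∀ a ∈ A, ∀ b ∈ A, a * b = b * a := by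
    intro a ha b hb
    exact congrArg Subtype.val (hA.is_comm.comm ⟨a, ha⟩ ⟨b, hb⟩)
  have hcj : ∀ a ∈ A, x * a * x⁻¹ ∈ A := fun a ha => hAn.conj_mem a ha x
  have hfA : ∀ a ∈ A, x * a * x⁻¹ * a⁻¹ ∈ A := fun a ha => A.mul_mem (hcj a ha) (A.inv_mem ha)
  have h3 : ∀ a ∈ A, ∀ b ∈ A, x * (a * b) * x⁻¹ * (a * b)⁻¹ = (x * a * x⁻¹ * a⁻¹) * (x * b * x⁻¹ * b⁻¹) := by
    intro a ha b hb
    have e := comm a⁻¹ (A.inv_mem ha) _ (hfA b hb)
    rw [mul_assoc (x * a * x⁻¹), e]
    group
  have h1 : ∀ a ∈ A, x * a * x⁻¹ * a⁻¹ ∈ commutator G := by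
    intro a _
    rw [commutator_def, ← commutatorElement_def]
    exact Subgroup.commutator_mem_commutator (Subgroup.mem_top _) (Subgroup.mem_top _)
  let f : A →* A :=
    { toFun := fun a => ⟨x * a * x⁻¹ * (a : G)⁻¹, hfA a a.2⟩
      map_one' := by apply Subtype.ext; simp
      map_mul' := fun a b => Subtype.ext (h3 a a.2 b b.2) }
  obtain ⟨T, hT⟩ : ∃ T, T = f.range.map A.subtype := ⟨_, rfl⟩
  have hTmem : ∀ t, t ∈ T ↔ ∃ a ∈ A, x * a * x⁻¹ * a⁻¹ = t := by
    intro t
    rw [hT]
    constructor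
    · rintro ⟨_, ⟨a, rfl⟩, rfl⟩
      exact ⟨a, a.2, rfl⟩
    · rintro ⟨a, ha, rfl⟩
      exact ⟨f ⟨a, ha⟩, ⟨⟨a, ha⟩, rfl⟩, rfl⟩
  have hTA : T ≤ A := by
    intro t ht
    obtain ⟨a, ha, rfl⟩ := (hTmem t).mp ht
    exact hfA a ha
  have hTn : T.Normal := by
    rw [← Subgroup.normalizer_eq_top_iff, eq_top_iff, ← hgen]
    apply sup_le
    · intro a ha
      rw [Subgroup.mem_normalizer_iff]
      intro t
      constructor
      · intro ht
        rw [comm a ha t (hTA ht), mul_inv_cancel_right]; exact ht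
      · intro ht
        have h5 : t ∈ A := by
          have := hAn.conj_mem _ (hTA ht) a⁻¹
          have e : a⁻¹ * (a * t * a⁻¹) * a⁻¹⁻¹ = t := by group
          rwa [e] at this
        rw [comm a ha t h5, mul_inv_cancel_right] at ht; exact ht
    · rw [Subgroup.zpowers_le, Subgroup.mem_normalizer_iff]
      intro t
      constructor
      · intro ht
        obtain ⟨a, ha, rfl⟩ := (hTmem t).mp ht
        exact (hTmem _).mpr ⟨x * a * x⁻¹, hcj a ha, by group⟩
      · intro ht
        obtain ⟨a, ha, he⟩ := (hTmem _).mp ht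
        have ha' : x⁻¹ * a * x ∈ A := by
          have := hAn.conj_mem a ha x⁻¹
          rwa [inv_inv] at this
        refine (hTmem _).mpr ⟨x⁻¹ * a * x, ha', ?_⟩
        have : t = x⁻¹ * (x * t * x⁻¹) * x := by group
        rw [this, ← he]
        group
  have hπ : ∀ g h : G, g * h * g⁻¹ * h⁻¹ ∈ T →
      (QuotientGroup.mk' T g) * (QuotientGroup.mk' T h) = (QuotientGroup.mk' T h) * (QuotientGroup.mk' T g) := by
    intro g h hgh
    have := (QuotientGroup.eq_one_iff (N := T) _).mpr hgh
    have e : ((g * h * g⁻¹ * h⁻¹ : G) : G ⧸ T) = (QuotientGroup.mk' T g) * (QuotientGroup.mk' T h) * (QuotientGroup.mk' T g)⁻¹ * (QuotientGroup.mk' T h)⁻¹ := rfl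
    rw [e, mul_inv_eq_one, mul_inv_eq_iff_eq_mul] at this
    exact this
  have hxa : ∀ a ∈ A, (QuotientGroup.mk' T x) * (QuotientGroup.mk' T a) = (QuotientGroup.mk' T a) * (QuotientGroup.mk' T x) :=
    fun a ha => hπ x a ((hTmem _).mpr ⟨a, ha, rfl⟩)
  have hcen : (Subgroup.center (G ⧸ T)).comap (QuotientGroup.mk' T) = ⊤ := by
    rw [eq_top_iff, ← hgen]
    apply sup_le
    · intro a ha
      rw [Subgroup.mem_comap, Subgroup.mem_center_iff]
      have : (Subgroup.centralizer {QuotientGroup.mk' T a}).comap (QuotientGroup.mk' T) = ⊤ := by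
        rw [eq_top_iff, ← hgen]
        apply sup_le
        · intro b hb
          rw [Subgroup.mem_comap, Subgroup.mem_centralizer_singleton_iff, ← map_mul, ← map_mul, comm b hb a ha]
        · rw [Subgroup.zpowers_le, Subgroup.mem_comap, Subgroup.mem_centralizer_singleton_iff]
          exact hxa a ha
      intro q
      obtain ⟨g, rfl⟩ := QuotientGroup.mk'_surjective T q
      have h6 : g ∈ (Subgroup.centralizer {QuotientGroup.mk' T a}).comap (QuotientGroup.mk' T) := by
        rw [this]; exact Subgroup.mem_top _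
      rw [Subgroup.mem_comap, Subgroup.mem_centralizer_singleton_iff] at h6
      exact h6
    · rw [Subgroup.zpowers_le, Subgroup.mem_comap, Subgroup.mem_center_iff]
      have : (Subgroup.centralizer {QuotientGroup.mk' T x}).comap (QuotientGroup.mk' T) = ⊤ := by
        rw [eq_top_iff, ← hgen]
        apply sup_le
        · intro b hb
          rw [Subgroup.mem_comap, Subgroup.mem_centralizer_singleton_iff]
          exact (hxa b hb).symm
        · rw [Subgroup.zpowers_le, Subgroup.mem_comap, Subgroup.mem_centralizer_singleton_iff]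
      intro q
      obtain ⟨g, rfl⟩ := QuotientGroup.mk'_surjective T q
      have h6 : g ∈ (Subgroup.centralizer {QuotientGroup.mk' T x}).comap (QuotientGroup.mk' T) := by
        rw [this]; exact Subgroup.mem_top _
      rw [Subgroup.mem_comap, Subgroup.mem_centralizer_singleton_iff] at h6
      exact h6
  have hle : commutator G ≤ T := by
    rw [commutator_def, Subgroup.commutator_le]
    intro g _ h _
    rw [← QuotientGroup.eq_one_iff, commutatorElement_def]
    have h7 : g ∈ (Subgroup.center (G ⧸ T)).comap (QuotientGroup.mk' T) := by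
      rw [hcen]; exact Subgroup.mem_top _
    rw [Subgroup.mem_comap, Subgroup.mem_center_iff] at h7
    have h8 := h7 (QuotientGroup.mk' T h)
    show (QuotientGroup.mk' T g) * (QuotientGroup.mk' T h) * (QuotientGroup.mk' T g)⁻¹ * (QuotientGroup.mk' T h)⁻¹ = 1
    rw [← h8]
    group
  have hTeq : commutator G = T := by
    apply le_antisymm hle
    intro t ht
    obtain ⟨a, ha, rfl⟩ := (hTmem t).mp ht
    exact h1 a ha
  refine ⟨h1, fun c hc => (hTmem c).mp (hle hc), h3, ?_⟩
  rw [hTeq, hT, Subgroup.card_map_of_injective A.subtype_injective, ← Subgroup.index_ker, mul_comm]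
  have hker : f.ker = (A ⊓ Subgroup.centralizer ({x} : Set G)).subgroupOf A := by
    ext a
    rw [MonoidHom.mem_ker, Subgroup.mem_subgroupOf, Subgroup.mem_inf, Subgroup.mem_centralizer_singleton_iff]
    constructor
    · intro h
      have h9 : x * a * x⁻¹ * (a : G)⁻¹ = 1 := congrArg Subtype.val h
      rw [mul_inv_eq_one, mul_inv_eq_iff_eq_mul] at h9
      exact ⟨a.2, h9.symm⟩
    · rintro ⟨_, h⟩
      apply Subtype.ext
      show x * a * x⁻¹ * (a : G)⁻¹ = 1
      rw [mul_inv_eq_one, mul_inv_eq_iff_eq_mul]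
      exact h.symm
  rw [← card_subgroupOf (inf_le_left : A ⊓ Subgroup.centralizer ({x} : Set G) ≤ A), ← hker]
  exact Subgroup.card_mul_index _

end Cfsg.Agent.S3866
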