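import Mathlib
import Cfsg.Statements.S3897
import Cfsg.Agent.Lib.Helper2.PClasses
import Cfsg.Agent.Lib.Helper1.SZAb

set_option autoImplicit false
open Cfsg

namespace Cfsg.Agent.S3897

open Cfsg.Agent.Lib.Helper2.PClasses

/-- a normal complement of some Sylow `p`-subgroup is a complement of each of them -/
theorem complement_facts {G : Type*} [Group G] [Finite G] {p : ℕ} [hpF : Fact p.Prime]
    (P P' : Sylow p G) (K : Subgroup G) [K.Normal] (hc : K.IsComplement' (P' : Subgroup G)) :
    K ⊓ (P : Subgroup G) = ⊥ ∧ K ⊔ (P : Subgroup G) = ⊤ := by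
  have hp := hpF.out
  have h1 : (P' : Subgroup G).index = Nat.card K := hc.index_eq_card
  have h2 : ¬ p ∣ Nat.card K := h1 ▸ P'.not_dvd_index
  obtain ⟨n, hn⟩ := IsPGroup.iff_card.mp P.isPGroup'
  have hcop : (Nat.card K).Coprime (Nat.card (P : Subgroup G)) := by
    rw [hn]
    exact Nat.Coprime.pow_right n ((Nat.Prime.coprime_iff_not_dvd hp).mpr h2).symm
  have hd : K ⊓ (P : Subgroup G) = ⊥ := disjoint_iff.mp (Subgroup.disjoint_of_coprime_natCard hcop)
  refine ⟨hd, ?_⟩
  have h3 := Cfsg.Agent.Lib.Helper1.card_sup_of_disjoint (P : Subgroup G) K (by rw [inf_comm]; exact hd)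
  have h4 : Nat.card (P : Subgroup G) = Nat.card (P' : Subgroup G) := by
    rw [P.card_eq_multiplicity, P'.card_eq_multiplicity]
  rw [sup_comm]
  apply Subgroup.eq_top_of_card_eq
  rw [h3, h4, ← h1, Subgroup.card_mul_index]

/-- Let p be an odd prime and G a finite group with Sylow p-subgroup P, and write k_p(G) for the number of conjugacy classes of G consisting of p-elements (elements of p-power order, the identity included). Then k_p(G) > (p + 1)|P|/(2p) if and only if G has a normal p-complement and P is abelian. -/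
theorem result {G : Type*} [Group G] [Finite G] {p : ℕ} [Fact p.Prime] (hp : p ≠ 2) (P : Sylow p G) :
    (p + 1) * Nat.card ↥(P : Subgroup G) < 2 * p * Nat.card {c : ConjClasses G // ∀ x ∈ c.carrier, ∃ k : ℕ, orderOf x = p ^ k} ↔
      Cfsg.HasNormalPComplement p G ∧ IsMulCommutative ↥(P : Subgroup G) := by
  have hpp : p.Prime := Fact.out
  constructor
  · intro hk
    have hNC := normalizer_le_centralizer_of_many P hk
    refine ⟨⟨P, _, inferInstance, MonoidHom.ker_transferSylow_isComplement' P hNC⟩, ?_⟩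
    refine ⟨⟨fun a b => Subtype.ext ?_⟩⟩
    exact (Subgroup.mem_centralizer_iff.mp (hNC (Subgroup.le_normalizer b.2)) a a.2)
  · rintro ⟨⟨P', K, hKn, hc⟩, hab⟩
    obtain ⟨h1, h2⟩ := complement_facts P P' K hc
    have h3 := card_le_card_PCl P hab K h1 h2
    have h4 : 0 < Nat.card (P : Subgroup G) := Nat.card_pos
    have h5 := hpp.two_le
    calc (p + 1) * Nat.card ↥(P : Subgroup G) < 2 * p * Nat.card ↥(P : Subgroup G) := by
          apply Nat.mul_lt_mul_of_pos_right _ h4
          omega
      _ ≤ 2 * p * Nat.card {c : ConjClasses G // ∀ x ∈ c.carrier, ∃ k : ℕ, orderOf x = p ^ k} :=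
          Nat.mul_le_mul_left _ h3

end Cfsg.Agent.S3897
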