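import Mathlib
import Cfsg.Statements.S3899
import Cfsg.Agent.Lib.Helper2.PiClasses
import Cfsg.Agent.S3897

set_option autoImplicit false
open Cfsg

namespace Cfsg.Agent.S3899

open Cfsg.Agent.Lib.Helper2.PiClasses Cfsg.Agent.Lib.Helper2.PClasses

/-- a normal `r`-complement with abelian quotient, for each prime with many classes -/
theorem exists_complement {G : Type*} [Group G] [Finite G] (π : Finset ℕ) (hπ : ∀ r ∈ π, r.Prime)
    (h2 : 2 ∉ π) (p : ℕ) (hp : p ∈ π) (hmin : ∀ r ∈ π, p ≤ r)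
    (hk : (p + 1) * piPart π (Nat.card G) < 2 * p * Nat.card (PiCl (↑π : Set ℕ) G))
    (r : ℕ) (hr : r ∈ π) :
    ∃ K : Subgroup G, K.Normal ∧ ¬ r ∣ Nat.card K ∧ (∃ n : ℕ, K.index = r ^ n) ∧
      commutator G ≤ K := by
  have hrp := hπ r hr
  have : Fact r.Prime := ⟨hrp⟩
  obtain P : Sylow r G := default
  have h1 := card_PiCl_le_mul π hπ r hr G
  have h3 : piPart π (Nat.card G) = Nat.card (P : Subgroup G) * piPart (π.erase r) (Nat.card G) := by
    rw [P.card_eq_multiplicity]
    unfold piPart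
    rw [← Finset.mul_prod_erase π _ hr]
  set E := piPart (π.erase r) (Nat.card G) with hE
  have hE0 : 0 < E := by
    rw [hE]; unfold piPart
    exact Finset.prod_pos fun s hs => pow_pos (hπ s (Finset.mem_of_mem_erase hs)).pos _
  have h4 : (p + 1) * Nat.card (P : Subgroup G) < 2 * p * Nat.card (PCl r G) := by
    rw [h3] at hk
    have h5 : 2 * p * Nat.card (PiCl (↑π : Set ℕ) G) ≤ 2 * p * (Nat.card (PCl r G) * E) :=
      Nat.mul_le_mul_left _ h1
    have h6 : (p + 1) * Nat.card (P : Subgroup G) * E < 2 * p * Nat.card (PCl r G) * E := by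
      calc (p + 1) * Nat.card (P : Subgroup G) * E = (p + 1) * (Nat.card (P : Subgroup G) * E) := by ring
        _ < 2 * p * Nat.card (PiCl (↑π : Set ℕ) G) := hk
        _ ≤ 2 * p * (Nat.card (PCl r G) * E) := h5
        _ = 2 * p * Nat.card (PCl r G) * E := by ring
    exact Nat.lt_of_mul_lt_mul_right h6
  have hpr : p ≤ r := hmin r hr
  have hp0 : 0 < p := (hπ p hp).pos
  have h7 : (r + 1) * Nat.card (P : Subgroup G) < 2 * r * Nat.card (PCl r G) := by
    have h8 : (r + 1) * Nat.card (P : Subgroup G) * p < 2 * r * Nat.card (PCl r G) * p := by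
      calc (r + 1) * Nat.card (P : Subgroup G) * p
          = ((r + 1) * p) * Nat.card (P : Subgroup G) := by ring
        _ ≤ ((p + 1) * r) * Nat.card (P : Subgroup G) := by
            apply Nat.mul_le_mul_right
            nlinarith
        _ = r * ((p + 1) * Nat.card (P : Subgroup G)) := by ring
        _ < r * (2 * p * Nat.card (PCl r G)) := Nat.mul_lt_mul_of_pos_left h4 hrp.pos
        _ = 2 * r * Nat.card (PCl r G) * p := by ring
    exact Nat.lt_of_mul_lt_mul_right h8
  have hr2 : r ≠ 2 := fun h => h2 (h ▸ hr)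
  obtain ⟨⟨P', K, hKn, hc⟩, hab⟩ := (Cfsg.Agent.S3897.result hr2 P).mp h7
  obtain ⟨hd, hs⟩ := Cfsg.Agent.S3897.complement_facts P P' K hc
  refine ⟨K, hKn, ?_, ?_, ?_⟩
  · rw [← hc.index_eq_card]
    exact P'.not_dvd_index
  · obtain ⟨n, hn⟩ := IsPGroup.iff_card.mp P'.isPGroup'
    exact ⟨n, by rw [hc.symm.index_eq_card, hn]⟩
  · exact Subgroup.Normal.commutator_le_of_self_sup_commutative_eq_top hs hab

/-- Let π be a finite non-empty set of odd primes with smallest member p and G a finite group. Write k_π(G) for the number of conjugacy classes of G consisting of π-elements (elements all of whose order's prime divisors lie in π) and |G|_π for the π-part of the order of G. If k_π(G) > (p + 1)|G|_π/(2p), then G has a normal π-complement (a normal subgroup of order prime to π whose index is a π-number) and an abelian Hall π-subgroup. -/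
theorem result {G : Type*} [Group G] [Finite G] (π : Finset ℕ) (hπ : ∀ r ∈ π, r.Prime) (h2 : 2 ∉ π) (p : ℕ) (hp : p ∈ π)
    (hmin : ∀ r ∈ π, p ≤ r) (hk : (p + 1) * π.prod (fun r => r ^ (Nat.card G).factorization r) < 2 * p * Nat.card {c : ConjClasses G // ∀ x ∈ c.carrier, ∀ r : ℕ, r.Prime → r ∣ orderOf x → r ∈ π}) :
    (∃ N : Subgroup G, N.Normal ∧ (∀ r : ℕ, r.Prime → r ∣ Nat.card ↥N → r ∉ π) ∧ ∀ r : ℕ, r.Prime → r ∣ N.index → r ∈ π) ∧ ∃ H : Subgroup G, Cfsg.IsPiHall (↑π : Set ℕ) H ∧ IsMulCommutative ↥H := by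
  classical
  have key := exists_complement π hπ h2 p hp hmin hk
  choose! K hKn hKr hKi hKc using key
  set N : Subgroup G := ⨅ r ∈ π, K r with hN
  have hNle : ∀ r ∈ π, N ≤ K r := fun r hr => iInf₂_le r hr
  have hNn : N.Normal := by
    rw [hN]
    refine Subgroup.normal_iInf_normal fun r => ?_
    by_cases hr : r ∈ π
    · simpa [hr] using hKn r hr
    · simp only [hr, iInf_false]
      infer_instance
  have hN1 : ∀ r : ℕ, r.Prime → r ∣ Nat.card ↥N → r ∉ π := by
    intro r _ hd hr
    exact hKr r hr (hd.trans (Subgroup.card_dvd_of_le (hNle r hr)))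
  have hN2 : ∀ r : ℕ, r.Prime → r ∣ N.index → r ∈ π := by
    intro q hq hd
    by_contra hqπ
    have : Fact q.Prime := ⟨hq⟩
    obtain Q : Sylow q G := default
    have hQ : (Q : Subgroup G) ≤ N := by
      rw [hN]
      refine le_iInf₂ fun r hr => ?_
      have := hKn r hr
      obtain ⟨n, hn⟩ := hKi r hr
      intro x hx
      obtain ⟨k, hk⟩ := Q.isPGroup' ⟨x, hx⟩
      have hk' : x ^ q ^ k = 1 := congrArg Subtype.val hk
      have h1 : orderOf (QuotientGroup.mk x : G ⧸ K r) ∣ q ^ k :=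
        orderOf_dvd_of_pow_eq_one (by rw [← QuotientGroup.mk_pow, hk']; rfl)
      have h2 : orderOf (QuotientGroup.mk x : G ⧸ K r) ∣ r ^ n := by
        rw [← hn, Subgroup.index_eq_card]; exact orderOf_dvd_natCard _
      have h3 : Nat.Coprime (q ^ k) (r ^ n) :=
        Nat.Coprime.pow _ _ ((Nat.coprime_primes hq (hπ r hr)).mpr (fun h => hqπ (h ▸ hr)))
      have h4 : orderOf (QuotientGroup.mk x : G ⧸ K r) = 1 := Nat.eq_one_of_dvd_coprimes h3 h1 h2
      exact (QuotientGroup.eq_one_iff x).mp (orderOf_eq_one_iff.mp h4)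
    exact Q.not_dvd_index (hd.trans (Subgroup.index_dvd_of_le hQ))
  have hNc : commutator G ≤ N := by
    rw [hN]
    exact le_iInf₂ fun r hr => hKc r hr
  refine ⟨⟨N, hNn, hN1, hN2⟩, ?_⟩
  have hcop : (Nat.card N).Coprime N.index := by
    apply Nat.Coprime.symm
    apply Nat.coprime_of_dvd
    intro q hq hd1 hd2
    exact hN1 q hq hd2 (hN2 q hq hd1)
  obtain ⟨H, hH⟩ := Subgroup.exists_right_complement'_of_coprime hcop
  refine ⟨H, ⟨?_, ?_⟩, ?_⟩
  · intro q hq hd
    rw [← hH.symm.index_eq_card] at hd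
    exact hN2 q hq hd
  · intro q hq hqπ hd
    rw [hH.index_eq_card] at hd
    exact hN1 q hq hd hqπ
  · refine ⟨⟨fun a b => Subtype.ext ?_⟩⟩
    have h3 : (a : G) * b * (a : G)⁻¹ * (b : G)⁻¹ ∈ N ⊓ H := by
      refine Subgroup.mem_inf.mpr ⟨?_, ?_⟩
      · apply hNc
        have := Subgroup.commutator_mem_commutator (Subgroup.mem_top (a : G)) (Subgroup.mem_top (b : G))
        rwa [commutatorElement_def] at this
      · exact H.mul_mem (H.mul_mem (H.mul_mem a.2 b.2) (H.inv_mem a.2)) (H.inv_mem b.2)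
    rw [hH.disjoint.eq_bot, Subgroup.mem_bot] at h3
    change (a : G) * b = b * a
    calc (a : G) * b = ((a : G) * b * (a : G)⁻¹ * (b : G)⁻¹) * (b * a) := by group
      _ = b * a := by rw [h3, one_mul]

end Cfsg.Agent.S3899
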