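import Mathlib
import Cfsg.Statements.S3903
import Cfsg.Agent.Lib.Helper2.CentMax3

set_option autoImplicit false
open Cfsg

namespace Cfsg.Agent.S3903

open Cfsg.Agent.Lib.Helper2.CentMax

/-- elements outside `N` commuting with `x ∉ N` have order a power of the same prime -/
theorem claim1 {G : Type*} [Group G] [Finite G] (N : Subgroup G)
    (h : ∀ x : G, x ∉ N → IsPrimePow (orderOf x))
    {x : G} (hx : x ∉ N) {p k : ℕ} (hp : p.Prime) (hk : 0 < k) (hxo : orderOf x = p ^ k)
    {v : G} (hv : v ∉ N) (hxv : Commute x v) : ∃ j : ℕ, v ^ p ^ j = 1 := by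
  obtain ⟨r, i, hr, hi, hvo⟩ := (isPrimePow_nat_iff _).mp (h v hv)
  by_cases hrp : r = p
  · refine ⟨i, ?_⟩
    rw [← hrp, hvo]
    exact pow_orderOf_eq_one v
  exfalso
  have hcop : (orderOf x).Coprime (orderOf v) := by
    rw [hxo, ← hvo]
    exact Nat.Coprime.pow _ _ ((Nat.coprime_primes hp hr).mpr (Ne.symm hrp))
  by_cases hxvN : x * v ∈ N
  · have h1 : (x * v) ^ (orderOf v) = x ^ (orderOf v) := by
      rw [hxv.mul_pow, pow_orderOf_eq_one, mul_one]
    have h2 : x ^ (orderOf v) ∈ N := h1 ▸ N.pow_mem hxvN _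
    obtain ⟨m, hm⟩ := exists_pow_eq_self_of_coprime hcop.symm
    apply hx
    rw [← hm]
    exact N.pow_mem h2 m
  · obtain ⟨s, t, hs, ht, hso⟩ := (isPrimePow_nat_iff _).mp (h _ hxvN)
    rw [hxv.orderOf_mul_eq_mul_orderOf_of_coprime hcop, hxo, ← hvo] at hso
    have h1 : p ∣ s ^ t := by
      rw [hso]
      exact Dvd.dvd.mul_right (dvd_pow_self p hk.ne') _
    have h2 : r ∣ s ^ t := by
      rw [hso]
      exact Dvd.dvd.mul_left (dvd_pow_self r hi.ne') _
    have h3 := (Nat.prime_dvd_prime_iff_eq hp hs).mp (hp.dvd_of_dvd_pow h1)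
    have h4 := (Nat.prime_dvd_prime_iff_eq hr hs).mp (hr.dvd_of_dvd_pow h2)
    exact hrp (h4.trans h3.symm)

theorem isPGroup_centralizer {G : Type*} [Group G] [Finite G] (N : Subgroup G)
    (h : ∀ x : G, x ∉ N → IsPrimePow (orderOf x))
    {x : G} (hx : x ∉ N) {p k : ℕ} (hp : p.Prime) (hk : 0 < k) (hxo : orderOf x = p ^ k) :
    IsPGroup p (Subgroup.centralizer ({x} : Set G)) := by
  rintro ⟨u, hu⟩
  have hux : Commute x u := (Subgroup.mem_centralizer_singleton_iff.mp hu).symm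
  by_cases huN : u ∈ N
  · have h1 : x * u ∉ N := by
      intro h0
      apply hx
      have := N.mul_mem h0 (N.inv_mem huN)
      rwa [mul_inv_cancel_right] at this
    obtain ⟨j, hj⟩ := claim1 N h hx hp hk hxo h1 (Commute.mul_right (Commute.refl x) hux)
    refine ⟨j + k, Subtype.ext ?_⟩
    change u ^ p ^ (j + k) = 1
    have h2 : (x * u) ^ p ^ (j + k) = 1 := by rw [pow_add, pow_mul, hj, one_pow]
    have h3 : x ^ p ^ (j + k) = 1 := by
      rw [pow_add, mul_comm, pow_mul, ← hxo, pow_orderOf_eq_one, one_pow]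
    rw [hux.mul_pow, h3, one_mul] at h2
    exact h2
  · obtain ⟨j, hj⟩ := claim1 N h hx hp hk hxo huN hux
    exact ⟨j, Subtype.ext hj⟩

/-- Let N be a proper normal subgroup of the finite group G such that every element x of G outside N has prime power order and has centralizer C_G(x) a maximal subgroup of G. Then N is solvable. -/
theorem result {G : Type*} [Group G] [Finite G] (N : Subgroup G) [N.Normal] (hN : N ≠ ⊤)
    (h : ∀ x : G, x ∉ N → IsPrimePow (orderOf x) ∧ IsCoatom (Subgroup.centralizer ({x} : Set G))) : Group.IsSolvable ↥N := by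
  have h1 : ∀ x : G, x ∉ N → IsPrimePow (orderOf x) := fun x hx => (h x hx).1
  obtain ⟨x, -, hx⟩ := SetLike.exists_of_lt (lt_top_iff_ne_top.mpr hN)
  obtain ⟨p, k, hp, hk, hxo⟩ := (isPrimePow_nat_iff _).mp (h1 x hx)
  have hpF : Fact p.Prime := ⟨hp⟩
  set M := Subgroup.centralizer ({x} : Set G) with hM
  have hMco : IsCoatom M := (h x hx).2
  have hMp : IsPGroup p M := isPGroup_centralizer N h1 hx hp hk hxo.symm
  -- general: outside elements of `p`-power order have `p`-group centralizers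
  have hgen : ∀ c : G, c ∉ N → (∃ j : ℕ, c ^ p ^ j = 1) →
      IsPGroup p (Subgroup.centralizer ({c} : Set G)) := by
    intro c hc ⟨j, hj⟩
    obtain ⟨i, -, hi⟩ := (Nat.dvd_prime_pow hp).mp (orderOf_dvd_of_pow_eq_one hj)
    have hi0 : 0 < i := by
      rcases Nat.eq_zero_or_pos i with h0 | h0
      · exfalso
        rw [h0, pow_zero, orderOf_eq_one_iff] at hi
        exact hc (hi ▸ N.one_mem)
      · exact h0
    exact isPGroup_centralizer N h1 hc hp hi0 hi
  by_cases hMab : ∀ a b : M, a * b = b * a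
  · have : IsMulCommutative M := ⟨⟨hMab⟩⟩
    have hG : Group.IsSolvable G :=
      Cfsg.Agent.Lib.Helper2.Herstein.isSolvable_of_abelian_coatom M hMco
    exact Group.isSolvable_of_isSolvable_injective N.subtype_injective
  obtain ⟨z', hz1, hz2⟩ := exists_second_center hMp hMab
  have hxM : x ∈ M := Subgroup.mem_centralizer_singleton_iff.mpr rfl
  have hxZ : (⟨x, hxM⟩ : M) ∈ Subgroup.center M := by
    rw [Subgroup.mem_center_iff]
    intro g
    exact Subtype.ext (Subgroup.mem_centralizer_singleton_iff.mp g.2)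
  -- choose `z` outside `N`
  obtain ⟨z, hzN, hzc, hz3⟩ : ∃ z : M, (z : G) ∉ N ∧ z ∉ Subgroup.center M ∧
      ∀ g : M, g * z * g⁻¹ * z⁻¹ ∈ Subgroup.center M := by
    by_cases hz'N : (z' : G) ∈ N
    · refine ⟨⟨x, hxM⟩ * z', ?_, ?_, ?_⟩
      · intro h0
        apply hx
        have := N.mul_mem h0 (N.inv_mem hz'N)
        simpa using this
      · intro h0
        apply hz1
        have := (Subgroup.center M).mul_mem ((Subgroup.center M).inv_mem hxZ) h0
        rwa [inv_mul_cancel_left] at this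
      · intro g
        have e : g * (⟨x, hxM⟩ * z') * g⁻¹ * (⟨x, hxM⟩ * z')⁻¹ = g * z' * g⁻¹ * z'⁻¹ := by
          have hc := Subgroup.mem_center_iff.mp hxZ
          calc g * (⟨x, hxM⟩ * z') * g⁻¹ * (⟨x, hxM⟩ * z')⁻¹
              = (g * ⟨x, hxM⟩) * z' * g⁻¹ * z'⁻¹ * (⟨x, hxM⟩ : M)⁻¹ := by group
            _ = (⟨x, hxM⟩ * g) * z' * g⁻¹ * z'⁻¹ * (⟨x, hxM⟩ : M)⁻¹ := by rw [hc g]
            _ = ⟨x, hxM⟩ * (g * z' * g⁻¹ * z'⁻¹) * (⟨x, hxM⟩ : M)⁻¹ := by group
            _ = (g * z' * g⁻¹ * z'⁻¹) * ⟨x, hxM⟩ * (⟨x, hxM⟩ : M)⁻¹ := by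
                rw [hc (g * z' * g⁻¹ * z'⁻¹)]
            _ = g * z' * g⁻¹ * z'⁻¹ := by group
        rw [e]
        exact hz2 g
    · exact ⟨z', hz'N, hz1, hz2⟩
  have hzp : ∃ j : ℕ, (z : G) ^ p ^ j = 1 := by
    obtain ⟨j, hj⟩ := hMp z
    exact ⟨j, congrArg Subtype.val hj⟩
  have hM'p := hgen z hzN hzp
  have hM'M : ¬ Subgroup.centralizer ({(z : G)} : Set G) ≤ M := by
    intro hle
    have h2 : M = Subgroup.centralizer ({(z : G)} : Set G) :=
      (((h z hzN).2.le_iff.mp hle).resolve_left hMco.1)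
    apply hzc
    rw [Subgroup.mem_center_iff]
    intro g
    have h3 : (g : G) ∈ Subgroup.centralizer ({(z : G)} : Set G) := by rw [← h2]; exact g.2
    exact Subtype.ext (Subgroup.mem_centralizer_singleton_iff.mp h3)
  have hDn := normal_inf_centralizer M hMco (z : G)
    (by
      intro g hg d hd
      have := Subgroup.mem_center_iff.mp (hz3 ⟨g, hg⟩) ⟨d, hd⟩
      exact congrArg Subtype.val this) hM'p hM'M
  set D := M ⊓ Subgroup.centralizer ({(z : G)} : Set G) with hD
  have hxD : x ∈ D := by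
    refine Subgroup.mem_inf.mpr ⟨hxM, ?_⟩
    exact Subgroup.mem_centralizer_singleton_iff.mpr
      (Subgroup.mem_centralizer_singleton_iff.mp z.2).symm
  have hDp : IsPGroup p D := hMp.to_le inf_le_left
  -- `N` is a `p`-group
  have hNp : IsPGroup p N := by
    by_contra hcon
    have hq : ¬ ∀ q : ℕ, q.Prime → q ∣ Nat.card N → q = p := by
      intro hq
      exact hcon (IsPGroup.of_card (Nat.eq_prime_pow_of_unique_prime_dvd
        Nat.card_pos.ne' (fun {d} hd hdvd => hq d hd hdvd)))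
    push Not at hq
    obtain ⟨r, hr, hrd, hrp⟩ := hq
    have hrF : Fact r.Prime := ⟨hr⟩
    obtain ⟨y, hy⟩ := exists_prime_orderOf_dvd_card' r hrd
    have hyo : orderOf (y : G) = r := by rw [Subgroup.orderOf_coe, hy]
    have hEn : (D ⊓ N).Normal := inferInstance
    have hEp : IsPGroup p (D ⊓ N : Subgroup G) := hDp.to_le inf_le_left
    obtain ⟨e, he⟩ := IsPGroup.iff_card.mp hEp
    obtain ⟨d, hd, hc⟩ := Cfsg.Agent.Lib.Helper1.exists_fixed_in_coset
      (Subgroup.zpowers (y : G)) (D ⊓ N)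
      (by rw [Subgroup.normalizer_eq_top_iff.mpr hEn]; exact le_top)
      (by
        rw [Nat.card_zpowers, hyo, he]
        exact Nat.Coprime.pow_right e ((Nat.coprime_primes hr hp).mpr hrp))
      (Or.inl (Group.isSolvable_of_comm (fun a b => mul_comm' a b))) x
      (by
        intro a ha
        have haN : a ∈ N := by
          obtain ⟨i, rfl⟩ := Subgroup.mem_zpowers_iff.mp ha
          exact N.zpow_mem y.2 i
        refine Subgroup.mem_inf.mpr ⟨?_, ?_⟩
        · exact D.mul_mem (D.inv_mem hxD) (hDn.conj_mem x hxD a)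
        · have h2 : x⁻¹ * a * x⁻¹⁻¹ ∈ N := Subgroup.Normal.conj_mem inferInstance a haN x⁻¹
          have h3 := N.mul_mem h2 (N.inv_mem haN)
          have e2 : x⁻¹ * a * x⁻¹⁻¹ * a⁻¹ = x⁻¹ * (a * x * a⁻¹) := by group
          rwa [e2] at h3)
    obtain ⟨hd1, hd2⟩ := Subgroup.mem_inf.mp hd
    have hcN : x * d ∉ N := by
      intro h0
      apply hx
      have := N.mul_mem h0 (N.inv_mem hd2)
      rwa [mul_inv_cancel_right] at this
    have hcp : ∃ j : ℕ, (x * d) ^ p ^ j = 1 := by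
      obtain ⟨j, hj⟩ := hDp ⟨x * d, D.mul_mem hxD hd1⟩
      exact ⟨j, congrArg Subtype.val hj⟩
    have hCp := hgen _ hcN hcp
    have hyC : (y : G) ∈ Subgroup.centralizer ({x * d} : Set G) := by
      rw [Subgroup.mem_centralizer_singleton_iff]
      exact (Subgroup.mem_centralizer_iff.mp hc (y : G) (Subgroup.mem_zpowers _))
    obtain ⟨j, hj⟩ := hCp ⟨_, hyC⟩
    have hj' : (y : G) ^ p ^ j = 1 := congrArg Subtype.val hj
    have h4 : r ∣ p ^ j := hyo ▸ orderOf_dvd_of_pow_eq_one hj'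
    exact hrp ((Nat.prime_dvd_prime_iff_eq hr hp).mp (hr.dvd_of_dvd_pow h4))
  have : Group.IsNilpotent N := hNp.isNilpotent
  infer_instance

end Cfsg.Agent.S3903
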