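import Mathlib
import Cfsg.Statements.S3904
import Cfsg.Agent.Lib.Helper2.CentMax2

set_option autoImplicit false
open Cfsg

namespace Cfsg.Agent.S3904

open Cfsg.Agent.Lib.Helper2.CentMax
open scoped commutatorElement

theorem mem_normalizer_of {G : Type*} [Group G] (S : Subgroup G) (hS : Subgroup.center G ≤ S)
    (w : G) (hw2 : ∀ g : G, w * g * w⁻¹ * g⁻¹ ∈ Subgroup.center G) :
    w ∈ Subgroup.normalizer (S : Set G) := by
  rw [Subgroup.mem_normalizer_iff]
  intro a
  have hc := hS (hw2 a)
  constructor
  · intro ha
    have := S.mul_mem hc ha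
    simpa using this
  · intro ha
    have := S.mul_mem (S.inv_mem hc) ha
    have e : (w * a * w⁻¹ * a⁻¹)⁻¹ * (w * a * w⁻¹) = a := by group
    rwa [e] at this

/-- The case of a nontrivial center of the central quotient. -/
theorem caseA {G : Type*} [Group G] [Finite G]
    (h : ∀ x : G, x ∉ Subgroup.center G → IsCoatom (Subgroup.centralizer ({x} : Set G)))
    (w : G) (hw : w ∉ Subgroup.center G)
    (hw2 : ∀ g : G, w * g * w⁻¹ * g⁻¹ ∈ Subgroup.center G) :
    ∃ p : ℕ, p.Prime ∧ (commutator G ≤ Subgroup.center G) ∧
      ∀ a : G, a ^ p ∈ Subgroup.center G := by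
  have hZle : ∀ x : G, Subgroup.center G ≤ Subgroup.centralizer ({x} : Set G) := by
    intro x a ha
    rw [Subgroup.mem_centralizer_singleton_iff]
    exact (Subgroup.mem_center_iff.mp ha x).symm
  have hnc : ∀ x y : G, x * y ≠ y * x → x ∉ Subgroup.center G := by
    intro x y hxy hx
    exact hxy (Subgroup.mem_center_iff.mp hx y).symm
  -- step 1
  have s1 : ∀ x : G, w * x ≠ x * w → commutator G ≤ Subgroup.centralizer ({x} : Set G) := by
    intro x hx
    have hxZ : x ∉ Subgroup.center G := hnc x w (fun h0 => hx h0.symm)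
    have hco := h x hxZ
    have hwN := mem_normalizer_of _ (hZle x) w hw2
    have hn : (Subgroup.centralizer ({x} : Set G)).Normal := by
      rw [← Subgroup.normalizer_eq_top_iff]
      apply hco.2
      apply lt_of_le_of_ne Subgroup.le_normalizer
      intro h0
      rw [← h0] at hwN
      exact hx (Subgroup.mem_centralizer_singleton_iff.mp hwN)
    exact commutator_le_of_normal_coatom hco
  obtain ⟨t, ht⟩ : ∃ t : G, w * t ≠ t * w := by
    by_contra hcon
    push Not at hcon
    apply hw
    rw [Subgroup.mem_center_iff]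
    intro g
    exact (hcon g).symm
  have s3 : commutator G ≤ Subgroup.center G := by
    intro g hg
    rw [Subgroup.mem_center_iff]
    intro x
    by_cases hx : w * x = x * w
    · have h1 : w * (t * x) ≠ (t * x) * w := by
        intro h0
        apply ht
        have : w * t * x = t * w * x := by
          rw [mul_assoc, h0, mul_assoc, mul_assoc, hx]
        exact mul_right_cancel this
      have h2 := Subgroup.mem_centralizer_singleton_iff.mp (s1 _ h1 hg)
      have h3 := Subgroup.mem_centralizer_singleton_iff.mp (s1 _ ht hg)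
      have h4 : t * (g * x) = t * (x * g) := by
        calc t * (g * x) = (t * g) * x := by group
          _ = (g * t) * x := by rw [h3]
          _ = g * (t * x) := by group
          _ = t * x * g := h2
          _ = t * (x * g) := by group
      exact (mul_left_cancel h4).symm
    · exact (Subgroup.mem_centralizer_singleton_iff.mp (s1 _ hx hg)).symm
  have s4 : ∀ x : G, (Subgroup.centralizer ({x} : Set G)).Normal := by
    intro x
    rw [← Subgroup.normalizer_eq_top_iff, eq_top_iff]
    intro u _
    apply mem_normalizer_of _ (hZle x)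
    intro g
    apply s3
    have := Subgroup.commutator_mem_commutator (Subgroup.mem_top u) (Subgroup.mem_top g)
    rwa [commutatorElement_def] at this
  have s5 : ∀ g : G, g ∉ Subgroup.center G → ∃ r : ℕ, r.Prime ∧ g ^ r ∈ Subgroup.center G := by
    intro g hg
    obtain ⟨x, hx⟩ : ∃ x : G, g * x ≠ x * g := by
      by_contra hcon
      push Not at hcon
      apply hg
      rw [Subgroup.mem_center_iff]
      intro y
      exact (hcon y).symm
    have hxZ : x ∉ Subgroup.center G := hnc x g (fun h0 => hx h0.symm)
    have := s4 x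
    have hr := Cfsg.Agent.Lib.Helper1.prime_index_of_normal_coatom (h x hxZ)
    refine ⟨_, hr, ?_⟩
    by_contra hgr
    have h1 : g ^ (Subgroup.centralizer ({x} : Set G)).index ∈ Subgroup.centralizer ({x} : Set G) :=
      Subgroup.pow_index_mem _ g
    have h2 : Subgroup.centralizer ({g} : Set G) =
        Subgroup.centralizer ({g ^ (Subgroup.centralizer ({x} : Set G)).index} : Set G) :=
      (((h g hg).le_iff.mp (cent_le_cent_pow g _)).resolve_left (h _ hgr).1).symm
    have h3 : x ∈ Subgroup.centralizer ({g} : Set G) := by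
      rw [h2]
      exact Subgroup.mem_centralizer_singleton_iff.mpr
        (Subgroup.mem_centralizer_singleton_iff.mp h1).symm
    exact hx (Subgroup.mem_centralizer_singleton_iff.mp h3).symm
  obtain ⟨p, hp, hwp⟩ := s5 w hw
  refine ⟨p, hp, s3, ?_⟩
  intro b
  by_contra hb
  have hbZ : b ∉ Subgroup.center G := by
    intro h0
    exact hb (Subgroup.pow_mem _ h0 p)
  obtain ⟨r, hr, hbr⟩ := s5 b hbZ
  have hpr : p ≠ r := by
    rintro rfl
    exact hb hbr
  have hpF : Fact p.Prime := ⟨hp⟩
  have hrF : Fact r.Prime := ⟨hr⟩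
  have ow : orderOf (w : G ⧸ Subgroup.center G) = p := by
    apply orderOf_eq_prime
    · rw [← QuotientGroup.mk_pow]
      exact (QuotientGroup.eq_one_iff _).mpr hwp
    · intro h0
      exact hw ((QuotientGroup.eq_one_iff _).mp h0)
  have ob : orderOf (b : G ⧸ Subgroup.center G) = r := by
    apply orderOf_eq_prime
    · rw [← QuotientGroup.mk_pow]
      exact (QuotientGroup.eq_one_iff _).mpr hbr
    · intro h0
      exact hbZ ((QuotientGroup.eq_one_iff _).mp h0)
  have hcomm : Commute (w : G ⧸ Subgroup.center G) (b : G ⧸ Subgroup.center G) := by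
    have h1 := (QuotientGroup.eq_one_iff _).mpr (hw2 b)
    rw [QuotientGroup.mk_mul, QuotientGroup.mk_mul, QuotientGroup.mk_mul, QuotientGroup.mk_inv,
      QuotientGroup.mk_inv] at h1
    have h2 := commutatorElement_eq_one_iff_mul_comm.mp
      ((commutatorElement_def _ _).trans h1)
    exact h2
  have owb : orderOf ((w * b : G) : G ⧸ Subgroup.center G) = p * r := by
    rw [QuotientGroup.mk_mul, hcomm.orderOf_mul_eq_mul_orderOf_of_coprime, ow, ob]
    rw [ow, ob]
    exact (Nat.coprime_primes hp hr).mpr hpr
  by_cases hwb : w * b ∈ Subgroup.center G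
  · rw [(QuotientGroup.eq_one_iff _).mpr hwb, orderOf_one] at owb
    have := hp.one_lt
    have := hr.one_lt
    nlinarith
  · obtain ⟨s, hs, hwbs⟩ := s5 _ hwb
    have hsF : Fact s.Prime := ⟨hs⟩
    have : orderOf ((w * b : G) : G ⧸ Subgroup.center G) = s := by
      apply orderOf_eq_prime
      · rw [← QuotientGroup.mk_pow]
        exact (QuotientGroup.eq_one_iff _).mpr hwbs
      · intro h0
        exact hwb ((QuotientGroup.eq_one_iff _).mp h0)
    rw [owb] at this
    rw [← this] at hs
    exact Nat.not_prime_mul hp.one_lt.ne' hr.one_lt.ne' hs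

/-- Let G be a non-abelian finite group in which the centralizer of every non-central element is a maximal subgroup. Then G/Z(G) is either an elementary abelian p-group for some prime p, or a minimal non-abelian group (non-abelian with all proper subgroups abelian) of order p^a · q for distinct primes p, q with a normal Sylow p-subgroup. -/
theorem result {G : Type*} [Group G] [Finite G] (hna : ¬ IsMulCommutative G)
    (h : ∀ x : G, x ∉ Subgroup.center G → IsCoatom (Subgroup.centralizer ({x} : Set G))) :
    (∃ p : ℕ, p.Prime ∧ Cfsg.IsElementaryAbelian p (⊤ : Subgroup (G ⧸ Subgroup.center G))) ∨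
    (¬ IsMulCommutative (G ⧸ Subgroup.center G) ∧ (∀ H : Subgroup (G ⧸ Subgroup.center G), H ≠ ⊤ → IsMulCommutative ↥H) ∧
      ∃ p q a : ℕ, p.Prime ∧ q.Prime ∧ p ≠ q ∧ Nat.card (G ⧸ Subgroup.center G) = p ^ a * q ∧
        ∀ P : Subgroup (G ⧸ Subgroup.center G), Nat.card ↥P = p ^ a → P.Normal) := by
  by_cases hZ : Subgroup.center (G ⧸ Subgroup.center G) = ⊥
  · right
    have hnt : Nontrivial (G ⧸ Subgroup.center G) := by
      by_contra hnt
      rw [not_nontrivial_iff_subsingleton] at hnt
      apply hna
      refine ⟨⟨fun a b => ?_⟩⟩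
      have : a ∈ Subgroup.center G := by
        rw [← QuotientGroup.eq_one_iff]
        exact Subsingleton.elim _ _
      exact (Subgroup.mem_center_iff.mp this b).symm
    apply structure_of_centerless
    intro c hc
    apply quotient_center h
    rw [hZ, Subgroup.mem_bot]
    exact hc
  · left
    obtain ⟨⟨c, hc⟩, hc1⟩ := Subgroup.ne_bot_iff_exists_ne_one.mp hZ
    obtain ⟨w, rfl⟩ := QuotientGroup.mk_surjective c
    have hw : w ∉ Subgroup.center G := by
      intro h0
      apply hc1
      apply Subtype.ext
      exact (QuotientGroup.eq_one_iff _).mpr h0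
    have hw2 : ∀ g : G, w * g * w⁻¹ * g⁻¹ ∈ Subgroup.center G := by
      intro g
      rw [← QuotientGroup.eq_one_iff]
      have h1 := Subgroup.mem_center_iff.mp hc (g : G ⧸ Subgroup.center G)
      rw [QuotientGroup.mk_mul, QuotientGroup.mk_mul, QuotientGroup.mk_mul, ← h1,
        QuotientGroup.mk_inv, QuotientGroup.mk_inv]
      group
    obtain ⟨p, hp, h1, h2⟩ := caseA h w hw hw2
    refine ⟨p, hp, ?_, ?_⟩
    · refine ⟨⟨fun a b => ?_⟩⟩
      obtain ⟨a, -⟩ := a
      obtain ⟨b, -⟩ := b
      obtain ⟨a, rfl⟩ := QuotientGroup.mk_surjective a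
      obtain ⟨b, rfl⟩ := QuotientGroup.mk_surjective b
      apply Subtype.ext
      change (a : G ⧸ Subgroup.center G) * b = b * a
      have h3 : ⁅a, b⁆ ∈ Subgroup.center G := h1
        (Subgroup.commutator_mem_commutator (Subgroup.mem_top a) (Subgroup.mem_top b))
      have h4 := (QuotientGroup.eq_one_iff _).mpr h3
      rw [commutatorElement_def, QuotientGroup.mk_mul, QuotientGroup.mk_mul, QuotientGroup.mk_mul,
        QuotientGroup.mk_inv, QuotientGroup.mk_inv] at h4
      exact commutatorElement_eq_one_iff_mul_comm.mp ((commutatorElement_def _ _).trans h4)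
    · intro a _
      obtain ⟨a, rfl⟩ := QuotientGroup.mk_surjective a
      rw [← QuotientGroup.mk_pow]
      exact (QuotientGroup.eq_one_iff _).mpr (h2 a)

end Cfsg.Agent.S3904
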