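import Cfsg.Statements.S3909
import Mathlib

set_option autoImplicit false
open Cfsg

namespace Cfsg.Agent.S3909

/-- Let G be a finite group in which any two abelian subgroups of the same order are conjugate. Let M be a normal subgroup of G. If M contains an element of the same order as a ∈ G, then a ∈ M; and if M is elementary abelian of order p^t with p prime and t ≥ 2, then M is the unique Sylow p-subgroup of G. -/
theorem result {G : Type*} [Group G] [Finite G] (hB : ∀ A B : Subgroup G, IsMulCommutative ↥A → IsMulCommutative ↥B → Nat.card ↥A = Nat.card ↥B → ∃ g : G, B = A.map (MulAut.conj g).toMonoidHom) (M : Subgroup G) [M.Normal] :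
    (∀ a : G, (∃ m ∈ M, orderOf m = orderOf a) → a ∈ M) ∧
    ∀ (p t : ℕ) [Fact p.Prime], 2 ≤ t → Nat.card ↥M = p ^ t → Cfsg.IsElementaryAbelian p M → ∀ P : Sylow p G, (P : Subgroup G) = M := by
  have hMn : M.Normal := inferInstance
  have key : ∀ (E : Subgroup G), E ≤ M → IsMulCommutative E → ∀ a : G, Nat.card E = orderOf a → a ∈ M := by
    intro E hEM hE a hcard
    obtain ⟨g, hg⟩ := hB E (Subgroup.zpowers a) hE inferInstance (by rw [Nat.card_zpowers, hcard])
    have h1 : a ∈ E.map (MulAut.conj g).toMonoidHom := by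
      rw [← hg]; exact Subgroup.mem_zpowers a
    obtain ⟨e, he, rfl⟩ := h1
    exact hMn.conj_mem e (hEM he) g
  have part1 : ∀ a : G, (∃ m ∈ M, orderOf m = orderOf a) → a ∈ M := by
    rintro a ⟨m, hm, ho⟩
    exact key (Subgroup.zpowers m) (Subgroup.zpowers_le.mpr hm) inferInstance a (by rw [Nat.card_zpowers, ho])
  refine ⟨part1, ?_⟩
  intro p t _ ht hcard hel P
  have hp : p.Prime := Fact.out
  have hMp : IsPGroup p M := IsPGroup.of_card hcard
  have hMP : M ≤ P := hMp.le_sylow_of_normal P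
  by_contra hne
  obtain ⟨y, hyP, hyM⟩ : ∃ y ∈ (P : Subgroup G), y ∉ M := by
    by_contra hc
    push Not at hc
    exact hne (le_antisymm hc hMP)
  have hex : ∃ k : ℕ, y ^ p ^ k ∈ M := by
    obtain ⟨k, hk⟩ := P.2 ⟨y, hyP⟩
    refine ⟨k, ?_⟩
    have : y ^ p ^ k = 1 := congrArg Subtype.val hk
    rw [this]; exact M.one_mem
  classical
  obtain ⟨k, hk⟩ : ∃ k, k = Nat.find hex := ⟨_, rfl⟩
  have hk1 : y ^ p ^ k ∈ M := hk ▸ Nat.find_spec hex
  have hk0 : k ≠ 0 := by
    rintro rfl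
    rw [pow_zero, pow_one] at hk1
    exact hyM hk1
  obtain ⟨j, rfl⟩ := Nat.exists_eq_succ_of_ne_zero hk0
  have hj : y ^ p ^ j ∉ M := Nat.find_min hex (by rw [← hk]; exact Nat.lt_succ_self j)
  obtain ⟨w, hw⟩ : ∃ w, w = y ^ p ^ j := ⟨_, rfl⟩
  rw [← hw] at hj
  have hwp : w ^ p ∈ M := by
    rw [hw, ← pow_mul, ← pow_succ]; exact hk1
  have hwpp : w ^ p ^ 2 = 1 := by
    rw [pow_two, pow_mul]
    exact hel.2 _ hwp
  have ho : orderOf w ∣ p ^ 2 := orderOf_dvd_of_pow_eq_one hwpp
  obtain ⟨i, hi, hoi⟩ := (Nat.dvd_prime_pow hp).mp ho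
  have hpM : p ∣ Nat.card M := by
    rw [hcard]; exact dvd_pow_self p (by omega)
  obtain ⟨m, hm⟩ := exists_prime_orderOf_dvd_card' p hpM
  have hi2 : i = 2 := by
    interval_cases i
    · rw [pow_zero, orderOf_eq_one_iff] at hoi
      rw [hoi] at hj
      exact absurd M.one_mem hj
    · exfalso
      apply hj
      apply part1 w ⟨m, m.2, ?_⟩
      rw [hoi, pow_one, Subgroup.orderOf_coe, hm]
    · rfl
  subst hi2
  obtain ⟨K, hK⟩ := Sylow.exists_subgroup_card_pow_prime (G := M) p (n := 2) (by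
    rw [hcard]; exact pow_dvd_pow p ht)
  apply hj
  apply key (K.map M.subtype) (by
    rintro _ ⟨x, -, rfl⟩
    exact x.2) ?_ w (by
    rw [Subgroup.card_map_of_injective M.subtype_injective, hK, hoi])
  refine ⟨⟨fun a b => Subtype.ext ?_⟩⟩
  obtain ⟨a', ha', ha⟩ := a.2
  obtain ⟨b', hb', hb⟩ := b.2
  show (a : G) * b = b * a
  rw [← ha, ← hb]
  exact congrArg Subtype.val (hel.1.is_comm.comm a' b')

end Cfsg.Agent.S3909
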