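import Cfsg.Statements.S3910
import Cfsg.Agent.Lib.Helper3.NilCop
import Cfsg.Agent.S0015

set_option autoImplicit false
open Cfsg

namespace Cfsg.Agent.S3910

theorem mem_of_pow_mem {G : Type*} [Group G] (H : Subgroup G) (y : G) (u v : ℕ)
    (huv : Nat.Coprime u v) (h1 : y ^ u ∈ H) (h2 : y ^ v ∈ H) : y ∈ H := by
  have h := Nat.gcd_eq_gcd_ab u v
  rw [huv.gcd_eq_one] at h
  have e : y = (y ^ u) ^ (Nat.gcdA u v) * (y ^ v) ^ (Nat.gcdB u v) := by
    rw [← zpow_natCast y u, ← zpow_natCast y v, ← zpow_mul, ← zpow_mul, ← zpow_add, ← h]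
    simp
  rw [e]
  exact H.mul_mem (H.zpow_mem h1 _) (H.zpow_mem h2 _)

theorem comm_of_le {G : Type*} [Group G] {A D : Subgroup G} (hAc : IsMulCommutative A)
    (h : D ≤ A) : IsMulCommutative D :=
  ⟨⟨fun a b => by
    apply Subtype.ext
    have h1 : (⟨(a : G), h a.2⟩ : A) * ⟨(b : G), h b.2⟩ = ⟨(b : G), h b.2⟩ * ⟨(a : G), h a.2⟩ :=
      hAc.is_comm.comm _ _
    have h2 : (a : G) * (b : G) = (b : G) * (a : G) := congrArg (Subtype.val : A → G) h1
    exact h2⟩⟩

theorem abelian_aux {G : Type*} [Group G] [Finite G]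
    (hB : ∀ A B : Subgroup G, IsMulCommutative ↥A → IsMulCommutative ↥B → Nat.card ↥A = Nat.card ↥B →
      ∃ g : G, B = A.map (MulAut.conj g).toMonoidHom)
    (hnil : Group.IsNilpotent G) (A : Subgroup G) [hAn : A.Normal] (hAc : IsMulCommutative A)
    (hCA : Subgroup.centralizer (A : Set G) = A) : A = ⊤ := by
  by_contra hne
  obtain ⟨x₀, hx₀⟩ : ∃ x, x ∉ A := by
    by_contra h
    push Not at h
    exact hne (eq_top_iff.2 fun x _ => h x)
  obtain ⟨x, hxA, hmin⟩ := (measure (orderOf : G → ℕ)).wf.has_min {x | x ∉ A} ⟨x₀, hx₀⟩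
  have hlt : ∀ y, orderOf y < orderOf x → y ∈ A := by
    intro y hy
    by_contra hyA
    exact hmin y hyA hy
  have hn0 : orderOf x ≠ 0 := (orderOf_pos x).ne'
  have hn1 : orderOf x ≠ 1 := by
    intro h
    rw [orderOf_eq_one_iff] at h
    exact hxA (h ▸ A.one_mem)
  have hq : ((orderOf x).minFac).Prime := Nat.minFac_prime hn1
  obtain ⟨q, hqdef⟩ : ∃ q, q = (orderOf x).minFac := ⟨_, rfl⟩
  rw [← hqdef] at hq
  haveI := Fact.mk hq
  obtain ⟨k, m, hqm, hkm⟩ := Nat.exists_eq_pow_mul_and_not_dvd hn0 q hq.ne_one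
  have hk : k ≠ 0 := by
    intro h
    rw [h, pow_zero, one_mul] at hkm
    apply hqm
    rw [← hkm, hqdef]
    exact Nat.minFac_dvd _
  have hm0 : m ≠ 0 := by
    intro h
    rw [h, mul_zero] at hkm
    exact hn0 hkm
  have hqk1 : 1 < q ^ k := Nat.one_lt_pow hk hq.one_lt
  have hqk0 : q ^ k ≠ 0 := by omega
  have hm1 : m = 1 := by
    by_contra hm1
    have hmgt : 1 < m := by omega
    apply hxA
    apply mem_of_pow_mem A x (q ^ k) m
      (Nat.Coprime.pow_left k ((Nat.Prime.coprime_iff_not_dvd hq).2 hqm))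
    · apply hlt
      rw [orderOf_pow_of_dvd hqk0 (Dvd.intro _ hkm.symm), hkm,
        Nat.mul_div_cancel_left _ (by omega)]
      nlinarith
    · apply hlt
      rw [orderOf_pow_of_dvd hm0 (Dvd.intro_left _ hkm.symm), hkm, Nat.mul_div_cancel _ (by omega)]
      nlinarith
  rw [hm1, mul_one] at hkm
  have hnd : ¬ q ^ k ∣ Nat.card A := by
    intro hd
    obtain ⟨K, hK⟩ := Sylow.exists_subgroup_card_pow_prime q hd
    have hK' : Nat.card (K.map A.subtype) = Nat.card (Subgroup.zpowers x) := by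
      rw [Subgroup.card_map_of_injective A.subtype_injective, hK, Nat.card_zpowers, hkm]
    obtain ⟨g, hg⟩ := hB (K.map A.subtype) (Subgroup.zpowers x)
      (comm_of_le hAc (Subgroup.map_subtype_le K)) inferInstance hK'
    apply hxA
    have : x ∈ (K.map A.subtype).map (MulAut.conj g).toMonoidHom := hg ▸ Subgroup.mem_zpowers x
    obtain ⟨b, hb, rfl⟩ := this
    exact hAn.conj_mem b (Subgroup.map_subtype_le K hb) g
  apply hxA
  rw [← hCA, Subgroup.mem_centralizer_iff]
  intro a ha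
  have : a ∈ Subgroup.centralizer ({x} : Set G) := by
    obtain ⟨i, m', hqm', him⟩ := Nat.exists_eq_pow_mul_and_not_dvd (orderOf_pos a).ne' q hq.ne_one
    have hm'0 : m' ≠ 0 := by
      intro h
      rw [h, mul_zero] at him
      exact (orderOf_pos a).ne' him
    have hqi0 : q ^ i ≠ 0 := (Nat.pow_pos hq.pos).ne'
    apply mem_of_pow_mem _ a (q ^ i) m'
      (Nat.Coprime.pow_left i ((Nat.Prime.coprime_iff_not_dvd hq).2 hqm'))
    · rw [Subgroup.mem_centralizer_singleton_iff]
      apply Cfsg.Agent.Lib.Helper3.NilCop.commute_of_coprime G _ _ (isOfFinOrder_of_finite _)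
        (isOfFinOrder_of_finite _)
      rw [orderOf_pow_of_dvd hqi0 (Dvd.intro _ him.symm), him,
        Nat.mul_div_cancel_left _ (Nat.pow_pos hq.pos), hkm]
      exact (Nat.Coprime.pow_left k ((Nat.Prime.coprime_iff_not_dvd hq).2 hqm')).symm
    · have hbA : a ^ m' ∈ A := A.pow_mem ha _
      have hbo : orderOf (a ^ m') = q ^ i := by
        rw [orderOf_pow_of_dvd hm'0 (Dvd.intro_left _ him.symm), him,
          Nat.mul_div_cancel _ (Nat.pos_of_ne_zero hm'0)]
      have hxo : orderOf (x ^ q) = q ^ (k - 1) := by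
        rw [orderOf_pow_of_dvd hq.ne_zero (hkm ▸ dvd_pow_self q hk), hkm]
        obtain ⟨k', rfl⟩ := Nat.exists_eq_succ_of_ne_zero hk
        rw [Nat.succ_eq_add_one, pow_succ, Nat.mul_div_cancel _ hq.pos, Nat.add_sub_cancel]
      have hxq : x ^ q ∈ A := by
        apply hlt
        rw [hxo, hkm]
        exact Nat.pow_lt_pow_right hq.one_lt (by omega)
      have hDA : Subgroup.zpowers (x ^ q) ⊔ Subgroup.zpowers (a ^ m') ≤ A :=
        sup_le ((Subgroup.zpowers_le).2 hxq) ((Subgroup.zpowers_le).2 hbA)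
      have hDq : IsPGroup q ↥(Subgroup.zpowers (x ^ q) ⊔ Subgroup.zpowers (a ^ m') : Subgroup G) := by
        apply IsPGroup.to_sup_of_normal_right'
          (IsPGroup.of_card (n := k - 1) (by rw [Nat.card_zpowers, hxo]))
          (IsPGroup.of_card (n := i) (by rw [Nat.card_zpowers, hbo]))
        rw [Subgroup.zpowers_le]
        apply Subgroup.centralizer_le_normalizer
        rw [Subgroup.mem_centralizer_iff]
        intro z hz
        have hzA : z ∈ A := (Subgroup.zpowers_le).2 hbA hz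
        exact congrArg Subtype.val (hAc.is_comm.comm ⟨z, hzA⟩ ⟨x ^ q, hxq⟩)
      obtain ⟨d, hd⟩ := IsPGroup.iff_card.1 hDq
      have hdk : d < k := by
        by_contra hge
        push Not at hge
        apply hnd
        exact (pow_dvd_pow q hge).trans (hd ▸ Subgroup.card_dvd_of_le hDA)
      have hDeq : Subgroup.zpowers (x ^ q) =
          Subgroup.zpowers (x ^ q) ⊔ Subgroup.zpowers (a ^ m') :=
        Subgroup.eq_of_le_of_card_ge le_sup_left (by
          rw [hd, Nat.card_zpowers, hxo]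
          exact Nat.pow_le_pow_right hq.pos (by omega))
      have hb : a ^ m' ∈ Subgroup.zpowers (x ^ q) := by
        rw [hDeq]
        exact Subgroup.mem_sup_right (Subgroup.mem_zpowers _)
      obtain ⟨j, hj⟩ := hb
      rw [Subgroup.mem_centralizer_singleton_iff, ← hj]
      exact (((Commute.refl x).pow_left q).zpow_left j).eq
  exact Subgroup.mem_centralizer_singleton_iff.1 this

/-- A finite nilpotent group in which any two abelian subgroups of the same order are conjugate is cyclic. -/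
theorem result {G : Type*} [Group G] [Finite G] (hB : ∀ A B : Subgroup G, IsMulCommutative ↥A → IsMulCommutative ↥B → Nat.card ↥A = Nat.card ↥B → ∃ g : G, B = A.map (MulAut.conj g).toMonoidHom) (hnil : Group.IsNilpotent G) : IsCyclic G := by
  classical
  haveI := hnil
  obtain ⟨A, hAmax⟩ := (Set.toFinite {A : Subgroup G | A.Normal ∧ IsMulCommutative A}).exists_maximal
    ⟨⊥, inferInstance, inferInstance⟩
  obtain ⟨hAn, hAc⟩ := hAmax.prop
  haveI := hAn
  haveI := hAc
  have hCA : Subgroup.centralizer (A : Set G) = A := S0015.result A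
    (fun M hM hMc hAM => le_antisymm (hAmax.le_of_ge ⟨hM, hMc⟩ hAM) hAM)
  have hAtop := abelian_aux hB hnil A hAc hCA
  have hcomm : ∀ a b : G, a * b = b * a := by
    intro a b
    exact congrArg Subtype.val (hAc.is_comm.comm ⟨a, hAtop ▸ Subgroup.mem_top a⟩
      ⟨b, hAtop ▸ Subgroup.mem_top b⟩)
  obtain ⟨g, hg⟩ : ∃ g : G, orderOf g = Monoid.exponent G := by
    letI : CommGroup G := { (inferInstance : Group G) with mul_comm := hcomm }
    exact Monoid.exists_orderOf_eq_exponent Monoid.ExponentExists.of_finite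
  refine ⟨⟨g, fun y => ?_⟩⟩
  have hdvd : orderOf y ∣ orderOf g := hg ▸ Monoid.order_dvd_exponent y
  obtain ⟨t, ht⟩ := hdvd
  have ht0 : t ≠ 0 := by
    intro h
    rw [h, mul_zero] at ht
    exact (orderOf_pos g).ne' ht
  have hcard : Nat.card (Subgroup.zpowers (g ^ t)) = Nat.card (Subgroup.zpowers y) := by
    rw [Nat.card_zpowers, Nat.card_zpowers, orderOf_pow_of_dvd ht0 (Dvd.intro_left _ ht.symm), ht,
      Nat.mul_div_cancel _ (Nat.pos_of_ne_zero ht0)]
  obtain ⟨c, hc⟩ := hB (Subgroup.zpowers (g ^ t)) (Subgroup.zpowers y) inferInstance inferInstance hcard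
  have hy : y ∈ (Subgroup.zpowers (g ^ t)).map (MulAut.conj c).toMonoidHom :=
    hc ▸ Subgroup.mem_zpowers y
  obtain ⟨b, hb, rfl⟩ := hy
  have hcb : (MulAut.conj c).toMonoidHom b = b := by
    show c * b * c⁻¹ = b
    rw [hcomm c b, mul_inv_cancel_right]
  rw [hcb]
  exact ((Subgroup.zpowers_le).2 (Subgroup.pow_mem _ (Subgroup.mem_zpowers g) t)) hb

end Cfsg.Agent.S3910
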