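import Cfsg.Statements.S3917
import Mathlib
import Cfsg.Agent.Lib.Helper1.Coprime

set_option autoImplicit false
open Cfsg

namespace Cfsg.Agent.S3917

open Cfsg

theorem card_le_of_cyclic {G : Type*} [Group G] (H : Subgroup G) (hc : IsCyclic H) (n : ℕ) (hn : 0 < n)
    (h : ∀ x ∈ H, x ^ n = 1) : Nat.card H ≤ n := by
  rw [← IsCyclic.exponent_eq_card]
  apply Nat.le_of_dvd hn
  apply Monoid.exponent_dvd_of_forall_pow_eq_one
  intro x
  apply Subtype.ext
  exact h x.1 x.2

/-- Say that a group has self-centralizing non-cyclic subgroups when every non-cyclic subgroup H satisfies C_G(H) ≤ H. A finite abelian group with self-centralizing non-cyclic subgroups is cyclic or elementary abelian of order p² for a prime p. -/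
theorem result {G : Type*} [CommGroup G] [Finite G] (hX : (∀ H : Subgroup G, ¬ IsCyclic ↥H → Subgroup.centralizer (H : Set G) ≤ H)) :
    IsCyclic G ∨ ∃ p : ℕ, p.Prime ∧ Nat.card G = p ^ 2 ∧ Monoid.exponent G = p := by
  by_cases hc : IsCyclic G
  · exact Or.inl hc
  right
  have hX' : ∀ H : Subgroup G, ¬ IsCyclic ↥H → H = ⊤ := by
    intro H hH
    rw [eq_top_iff]
    intro x _
    exact hX H hH (Subgroup.mem_centralizer_iff.mpr (fun _ _ => mul_comm _ _))
  have hmem : ∀ (n : ℕ) (x : G), x ∈ (powMonoidHom n : G →* G).ker ↔ x ^ n = 1 := by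
    intro n x
    rw [MonoidHom.mem_ker]; rfl
  have hex : ∃ n : ℕ, 0 < n ∧ n < Nat.card (powMonoidHom n : G →* G).ker := by
    by_contra hcon
    push Not at hcon
    apply hc
    classical
    haveI := Fintype.ofFinite G
    apply isCyclic_of_card_pow_eq_one_le
    intro n hn
    have := hcon n hn
    rw [Nat.card_eq_fintype_card, Fintype.card_subtype] at this
    simpa only [hmem] using this
  classical
  obtain ⟨hn0, hn⟩ := Nat.find_spec hex
  have hmin : ∀ m, m < Nat.find hex → 0 < m → Nat.card (powMonoidHom m : G →* G).ker ≤ m := by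
    intro m hm hm0
    have := Nat.find_min hex hm
    push Not at this
    exact this hm0
  obtain ⟨n, hnn⟩ : ∃ n, n = Nat.find hex := ⟨_, rfl⟩
  rw [← hnn] at hn0 hn hmin
  have htop : (powMonoidHom n : G →* G).ker = ⊤ := by
    apply hX'
    intro hcyc
    have := card_le_of_cyclic _ hcyc n hn0 (fun x hx => (hmem n x).mp hx)
    omega
  have hall : ∀ x : G, x ^ n = 1 := fun x => (hmem n x).mp (by rw [htop]; trivial)
  have hcard : n < Nat.card G := by
    rw [htop, Subgroup.card_top] at hn; exact hn
  have hn1 : n ≠ 1 := by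
    rintro rfl
    have h1 : (powMonoidHom 1 : G →* G).ker = ⊥ := by
      rw [Subgroup.eq_bot_iff_forall]
      intro x hx
      simpa using (hmem 1 x).mp hx
    rw [h1, Subgroup.card_bot] at hn
    omega
  obtain ⟨p, hp, m, hpm⟩ := Nat.exists_prime_and_dvd hn1
  have hm0 : 0 < m := by
    rcases Nat.eq_zero_or_pos m with h | h
    · rw [h] at hpm; omega
    · exact h
  have hm1 : m = 1 := by
    by_contra hm1
    have hm2 : 2 ≤ m := by omega
    have hp2 := hp.two_le
    have hpn : p < n := by rw [hpm]; nlinarith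
    have hmn : m < n := by rw [hpm]; nlinarith
    have h1 := hmin p hpn hp.pos
    have h2 := hmin m hmn hm0
    have h3 : Nat.card (powMonoidHom p : G →* G).range ≤ Nat.card (powMonoidHom m : G →* G).ker := by
      apply Subgroup.card_le_of_le
      rintro _ ⟨x, rfl⟩
      rw [hmem]
      show (x ^ p) ^ m = 1
      rw [← pow_mul, ← hpm]; exact hall x
    have h4 := Subgroup.card_mul_index (powMonoidHom p : G →* G).ker
    rw [Subgroup.index_ker] at h4
    have h5 : Nat.card G ≤ p * m := by
      rw [← h4]
      exact Nat.mul_le_mul h1 (h3.trans h2)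
    omega
  rw [hm1, mul_one] at hpm
  subst hpm
  haveI : Fact n.Prime := ⟨hp⟩
  have hnt : Nontrivial G := by
    rw [← Finite.one_lt_card_iff_nontrivial]
    have := hp.two_le
    omega
  obtain ⟨z, hz⟩ := exists_ne (1 : G)
  have hoz : orderOf z = n := orderOf_eq_prime (hall z) hz
  have hy : ∃ y : G, y ∉ Subgroup.zpowers z := by
    by_contra hcon
    push Not at hcon
    have : Subgroup.zpowers z = ⊤ := by
      rw [eq_top_iff]; intro x _; exact hcon x
    have h1 : Nat.card (Subgroup.zpowers z) = n := by rw [Nat.card_zpowers, hoz]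
    rw [this, Subgroup.card_top] at h1
    omega
  obtain ⟨y, hy⟩ := hy
  have hy1 : y ≠ 1 := by
    rintro rfl; exact hy (one_mem _)
  have hoy : orderOf y = n := orderOf_eq_prime (hall y) hy1
  have hH : Subgroup.zpowers y ⊔ Subgroup.zpowers z = ⊤ := by
    apply hX'
    intro hcyc
    have h1 := card_le_of_cyclic _ hcyc n hn0 (fun x _ => hall x)
    have h2 : Subgroup.zpowers z < Subgroup.zpowers y ⊔ Subgroup.zpowers z := by
      apply lt_of_le_of_ne le_sup_right
      intro h
      apply hy
      rw [h]
      exact Subgroup.mem_sup_left (Subgroup.mem_zpowers y)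
    have h3 : Nat.card (Subgroup.zpowers z) < Nat.card (Subgroup.zpowers y ⊔ Subgroup.zpowers z : Subgroup G) := Set.Finite.card_lt_card (Set.toFinite _) (SetLike.coe_ssubset_coe.mpr h2)
    rw [Nat.card_zpowers, hoz] at h3
    omega
  have h6 := Cfsg.Agent.Lib.Helper1.card_sup_mul_card_inf' (Subgroup.zpowers y) (Subgroup.zpowers z)
    (by
      intro x _
      rw [Subgroup.mem_normalizer_iff]
      intro w
      rw [mul_comm x w, mul_inv_cancel_right])
  rw [hH, Subgroup.card_top, Nat.card_zpowers, Nat.card_zpowers, hoz, hoy, ← sq] at h6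
  have h7 : Nat.card G ∣ n ^ 2 := Dvd.intro _ h6
  obtain ⟨k, hk, hk2⟩ := (Nat.dvd_prime_pow hp).mp h7
  refine ⟨n, hp, ?_, ?_⟩
  · have hp2 := hp.two_le
    interval_cases k
    · rw [hk2, pow_zero] at hcard; omega
    · rw [hk2, pow_one] at hcard; omega
    · exact hk2
  · have h8 : Monoid.exponent G ∣ n := Monoid.exponent_dvd_of_forall_pow_eq_one hall
    rcases (Nat.dvd_prime hp).mp h8 with h | h
    · exfalso
      have := Monoid.exp_eq_one_iff.mp h
      exact hz (Subsingleton.elim _ _)
    · exact h

end Cfsg.Agent.S3917
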