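import Cfsg.Statements.S3937
import Cfsg.Agent.Lib.Helper1.Subn1
import Cfsg.Agent.Lib.Helper1.Cores
open Cfsg.Agent.Lib.Helper1
open Cfsg.Agent.Lib.Helper6.Basic Cfsg.Agent.Lib.Helper6.Subn Cfsg.Agent.Lib.Helper6.Rad Cfsg.Agent.Lib.Helper6.Nil
open scoped Pointwise

set_option autoImplicit false
open Cfsg

namespace Cfsg.Agent.S3937

theorem foldl_engel {G : Type*} [Group G] (g : G) (n : ℕ) (x : G) :
    (List.replicate n g).foldl (fun a b => a * b * a⁻¹ * b⁻¹) x = (fun a => a * g * a⁻¹ * g⁻¹)^[n] x := by
  induction n generalizing x with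
  | zero => rfl
  | succ n ih => rw [List.replicate_succ, List.foldl_cons, ih, Function.iterate_succ_apply]

/-- Baer's characterization of the Fitting subgroup: in a finite group G, an element g lies in the Fitting subgroup if and only if g is a left Engel element, that is, for every x there is n with [x, g, g, …, g] = 1 (n entries g, [a, b] = aba⁻¹b⁻¹). -/
theorem result {G : Type*} [Group G] [Finite G] (g : G) :
    g ∈ Cfsg.fittingSubgroup G ↔ ∀ x : G, ∃ n : ℕ, (List.replicate n g).foldl (fun a b => a * b * a⁻¹ * b⁻¹) x = 1 := by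
  simp only [foldl_engel]
  constructor
  · intro hg x
    have hF : (Cfsg.fittingSubgroup G).Normal := fitting_normal
    have hnil : Group.IsNilpotent (Cfsg.fittingSubgroup G) := fitting_isNilpotent
    obtain ⟨n, hn⟩ := (Subgroup.isNilpotent_iff_lowerCentralSeries _).mp hnil
    have key : ∀ k : ℕ, (fun a => a * g * a⁻¹ * g⁻¹)^[k + 1] x ∈
        (Cfsg.fittingSubgroup G).lowerCentralSeries k := by
      intro k
      induction k with
      | zero =>
        exact Subgroup.mul_mem _ (hF.conj_mem g hg x) (Subgroup.inv_mem _ hg)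
      | succ k ih =>
        rw [Function.iterate_succ_apply']
        exact Subgroup.commutator_mem_commutator ih hg
    have := key n
    rw [hn, Subgroup.mem_bot] at this
    exact ⟨n + 1, this⟩
  · intro h
    have hsn : SN (Subgroup.zpowers g) ⊤ := by
      apply SN_induction _ _ ⊤ le_top
      intro K M hAM hMK hmax hsn
      by_cases hn : K ≤ Nz M
      · exact (hsn M hAM hMK).trans (SN.of_normal hMK.le hn)
      exfalso
      have hgM : g ∈ M := hAM (Subgroup.mem_zpowers g)
      have hgK : g ∈ K := hMK.le hgM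
      obtain ⟨x, hxK, hxM⟩ := SetLike.not_le_iff_exists.mp (not_le_of_gt hMK)
      have hK : ∀ k : ℕ, (fun a => a * g * a⁻¹ * g⁻¹)^[k] x ∈ K := by
        intro k
        induction k with
        | zero => exact hxK
        | succ k ih =>
          rw [Function.iterate_succ_apply']
          exact K.mul_mem (K.mul_mem (K.mul_mem ih hgK) (K.inv_mem ih)) (K.inv_mem hgK)
      have hex : ∃ k : ℕ, (fun a => a * g * a⁻¹ * g⁻¹)^[k] x ∈ M := by
        obtain ⟨n, hn⟩ := h x
        exact ⟨n, hn ▸ M.one_mem⟩
      classical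
      obtain ⟨i, hi⟩ : ∃ i, Nat.find hex = i + 1 := by
        rcases Nat.exists_eq_succ_of_ne_zero (n := Nat.find hex) (by
          intro h0
          have := Nat.find_spec hex
          rw [h0] at this
          exact hxM this) with ⟨i, hi⟩
        exact ⟨i, hi⟩
      have h1 := Nat.find_spec hex
      rw [hi, Function.iterate_succ_apply'] at h1
      have h2 : (fun a => a * g * a⁻¹ * g⁻¹)^[i] x ∉ M := Nat.find_min hex (by omega)
      obtain ⟨y, hy⟩ : ∃ y, y = (fun a => a * g * a⁻¹ * g⁻¹)^[i] x := ⟨_, rfl⟩
      rw [← hy] at h1 h2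
      have hyK : y ∈ K := hy ▸ hK i
      have h3 : y * g * y⁻¹ ∈ M := by
        have := M.mul_mem h1 hgM
        simpa using this
      have h4 : cj y (Subgroup.zpowers g) ≤ M := by
        rw [cj, MonoidHom.map_zpowers, Subgroup.zpowers_le]
        exact h3
      have h5 : Subgroup.zpowers g ≤ cj y⁻¹ M := cj_le_iff.mp h4
      have h6 : cj y⁻¹ M < K := by
        have h5 : cj y⁻¹ M ≤ K := by
          have := cj_mono (g := y⁻¹) hMK.le
          rwa [cj_eq_self_of_mem (K.inv_mem hyK)] at this
        refine lt_of_le_of_ne h5 ?_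
        intro he
        have h6 := card_lt_of_lt hMK
        rw [← he, card_cj] at h6
        exact lt_irrefl _ h6
      have h7 : cj y⁻¹ M = M :=
        Subgroup.eq_of_le_of_card_ge (hmax _ h5 h6) (le_of_eq (card_cj _ _).symm)
      have h8 := mem_of_mem_normalizer_of_max hAM hMK hmax hn (K.inv_mem hyK) (cj_eq_self_iff.mp h7)
      exact h2 (by simpa using M.inv_mem h8)
    have hnil : Group.IsNilpotent (Subgroup.zpowers g) := by
      letI : CommGroup (Subgroup.zpowers g) := IsCyclic.commGroup
      infer_instance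
    exact le_fitting_of_SN hsn hnil (Subgroup.mem_zpowers g)

end Cfsg.Agent.S3937
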