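import Cfsg.Statements.S3949
import Mathlib
import Cfsg.Agent.Lib.Helper1.FrobCount

set_option autoImplicit false
open Cfsg

namespace Cfsg.Agent.S3949

open Cfsg
open Cfsg.Agent.Lib.Helper1

/-- Let G be a finite group and α an automorphism of G of order 2 such that the elements g·α(g)⁻¹ generate G. Let j be a positive integer such that 2^j divides the order of no element inverted by α. Then the set of values of the j-th iterate of the map c ↦ c·α(c)⁻¹ is exactly the set of elements of odd order inverted by α. -/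
theorem result {G : Type*} [Group G] [Finite G] (α : MulAut G) (hα : orderOf α = 2) (hG : Subgroup.closure (Set.range (fun c : G => c * (α c)⁻¹)) = ⊤)
    (j : ℕ) (hj : ∀ g : G, α g = g⁻¹ → ¬ 2 ^ j ∣ orderOf g) :
    Set.range ((fun c : G => c * (α c)⁻¹)^[j]) = {g : G | Odd (orderOf g) ∧ α g = g⁻¹} := by
  have hα2 : ∀ c : G, α (α c) = c := by
    intro c
    have h1 : α ^ 2 = 1 := by rw [← hα]; exact pow_orderOf_eq_one α
    have h2 : (α ^ 2) c = c := by rw [h1]; rfl
    rw [sq] at h2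
    exact h2
  have c1 : ∀ c : G, α (c * (α c)⁻¹) = (c * (α c)⁻¹)⁻¹ := by
    intro c
    rw [map_mul, map_inv, hα2, mul_inv_rev, inv_inv]
  have c3 : ∀ (i : ℕ) (g : G), α g = g⁻¹ → (fun c : G => c * (α c)⁻¹)^[i] g = g ^ (2 ^ i) := by
    intro i
    induction i with
    | zero => intro g _; simp
    | succ i ih =>
      intro g hg
      rw [Function.iterate_succ_apply]
      have e : g * (α g)⁻¹ = g ^ 2 := by rw [hg, inv_inv, sq]
      show (fun c : G => c * (α c)⁻¹)^[i] (g * (α g)⁻¹) = _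
      rw [e, ih (g ^ 2) (by rw [map_pow, hg, inv_pow]), ← pow_mul, pow_succ']
  have hj0 : j ≠ 0 := by
    rintro rfl
    exact hj 1 (by simp) (by simp)
  obtain ⟨i, rfl⟩ : ∃ i, j = i + 1 := ⟨j - 1, by omega⟩
  ext g
  simp only [Set.mem_range, Set.mem_setOf_eq]
  constructor
  · rintro ⟨c, rfl⟩
    rw [Function.iterate_succ_apply]
    show Odd (orderOf ((fun c : G => c * (α c)⁻¹)^[i] (c * (α c)⁻¹))) ∧ α ((fun c : G => c * (α c)⁻¹)^[i] (c * (α c)⁻¹)) = _
    rw [c3 i _ (c1 c)]
    refine ⟨?_, by rw [map_pow, c1 c, inv_pow]⟩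
    rw [← Nat.not_even_iff_odd]
    intro hev
    have h2 := FrobCount.orderOf_of_pow_eq Nat.prime_two i (c * (α c)⁻¹) _ rfl hev.two_dvd
    apply hj _ (c1 c)
    rw [h2, pow_succ]
    exact Nat.mul_dvd_mul_left _ hev.two_dvd
  · rintro ⟨hodd, hinv⟩
    have hcop : (2 ^ (i + 1)).Coprime (orderOf g) :=
      Nat.Coprime.pow_left _ (Nat.coprime_two_left.mpr hodd)
    obtain ⟨m, hm⟩ := exists_pow_eq_self_of_coprime hcop
    refine ⟨g ^ m, ?_⟩
    rw [c3 (i + 1) (g ^ m) (by rw [map_pow, hinv, inv_pow]), ← pow_mul, mul_comm, pow_mul]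
    exact hm

end Cfsg.Agent.S3949
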