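import Cfsg.Statements.S3982
import Cfsg.Agent.Lib.Helper6.PAct
import Cfsg.Agent.Lib.Helper6.Ores
import Cfsg.Agent.Lib.Helper1.CoprimeSylow
import Cfsg.Agent.S0065

set_option autoImplicit false
open Cfsg

namespace Cfsg.Agent.S3982

open Cfsg.Agent.Lib.Helper6.Basic Cfsg.Agent.Lib.Helper6.Subn Cfsg.Agent.Lib.Helper6.Quasi Cfsg.Agent.Lib.Helper6.PAct Cfsg.Agent.Lib.Helper6.Ores

/-- Let p be an odd prime and G a finite group of even order divisible by p in which the centralizer of every non-identity p-element has odd order. If some nontrivial p-subgroup of G has a normalizer of even order, then the normalizer of every Sylow p-subgroup of G has even order. -/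
theorem result {G : Type*} [Group G] [Finite G] (p : ℕ) [Fact p.Prime] (hp2 : p ≠ 2) (hpG : p ∣ Nat.card G) (h2G : 2 ∣ Nat.card G) (hC : ∀ g : G, g ≠ 1 → (∃ k : ℕ, orderOf g = p ^ k) → Odd (Nat.card ↥(Subgroup.centralizer ({g} : Set G)))) (Q : Subgroup G) (hQ : IsPGroup p ↥Q) (hQ1 : Q ≠ ⊥) (hev : Even (Nat.card ↥(Subgroup.normalizer (Q : Set G)))) (P : Sylow p G) : Even (Nat.card ↥(Subgroup.normalizer ((P : Subgroup G) : Set G))) := by
  classical
  haveI : Fact (Nat.Prime 2) := ⟨Nat.prime_two⟩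
  obtain ⟨y', hy'⟩ := exists_prime_orderOf_dvd_card' 2 (even_iff_two_dvd.1 hev)
  obtain ⟨y, hyQ⟩ := y'
  have hy : orderOf y = 2 := by rw [← hy', Subgroup.orderOf_mk]
  obtain ⟨R, -, hRmax⟩ := (Set.toFinite {R : Subgroup G | IsPGroup p R ∧ Q ≤ R ∧ y ∈ Nz R}).exists_le_maximal
    (a := Q) ⟨hQ, le_rfl, hyQ⟩
  obtain ⟨hRp, hQR, hyR⟩ := hRmax.prop
  have hR1 : R ≠ ⊥ := fun h => hQ1 (eq_bot_iff.2 (h ▸ hQR))
  have hy2 : y * y = 1 := by
    have := pow_orderOf_eq_one y
    rwa [hy, pow_two] at this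
  have hodd : ∀ r ∈ R, r ≠ 1 → Odd (Nat.card ↥(Subgroup.centralizer ({r} : Set G))) := by
    intro r hr hr1
    apply hC r hr1
    obtain ⟨k, hk⟩ := (IsPGroup.iff_orderOf.1 hRp) ⟨r, hr⟩
    exact ⟨k, by rw [← hk, Subgroup.orderOf_mk]⟩
  have hinv : ∀ r ∈ R, y * r * y⁻¹ = r⁻¹ := by
    let γ : MulAut R := R.normalizerMonoidHom ⟨y, hyR⟩
    have hγ : ∀ r : R, ((γ r : R) : G) = y * r * y⁻¹ := fun r => rfl
    have hfpf : MonoidHom.FixedPointFree γ := by
      intro r hr
      by_contra hr1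
      have h1 : y * (r : G) * y⁻¹ = r := by rw [← hγ, hr]
      have h2 : y ∈ Subgroup.centralizer ({(r : G)} : Set G) := by
        rw [Subgroup.mem_centralizer_singleton_iff]
        calc y * r = (y * r * y⁻¹) * y := by group
          _ = r * y := by rw [h1]
      have h3 := hodd (r : G) r.2 (fun h => hr1 (Subtype.ext h))
      have h4 : 2 ∣ Nat.card (Subgroup.centralizer ({(r : G)} : Set G)) := by
        have := orderOf_dvd_natCard (⟨y, h2⟩ : Subgroup.centralizer ({(r : G)} : Set G))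
        rwa [Subgroup.orderOf_mk, hy] at this
      exact (Nat.not_even_iff_odd.2 h3) (even_iff_two_dvd.2 h4)
    have hinvol : Function.Involutive γ := by
      intro r
      apply Subtype.ext
      rw [hγ, hγ]
      have : y * (y * (r : G) * y⁻¹) * y⁻¹ = (y * y) * r * (y * y)⁻¹ := by group
      rw [this, hy2]
      simp
    intro r hr
    have := congrFun (hfpf.coe_eq_inv_of_involutive hinvol) ⟨r, hr⟩
    exact congrArg Subtype.val this
  have hRsyl : Syl p R ⊤ := by
    obtain ⟨P', hRP'⟩ := hRp.exists_le_sylow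
    by_contra hns
    have hlt : R < (P' : Subgroup G) :=
      lt_of_le_of_ne hRP' (fun e => hns (e ▸ syl_of_sylow P'))
    obtain ⟨s, hsP, hsR, hsN⟩ := exists_mem_Nz_of_lt P'.2.isNilpotent hlt
    have hRT : R ≤ (P' : Subgroup G) ⊓ Nz R := le_inf hRP' Subgroup.le_normalizer
    have hT₀p : IsPGroup p ↥((P' : Subgroup G) ⊓ Nz R) := P'.2.to_le inf_le_left
    haveI : (R.subgroupOf ((P' : Subgroup G) ⊓ Nz R)).Normal :=
      (Subgroup.normal_subgroupOf_iff_le_normalizer hRT).2 inf_le_right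
    haveI : Group.IsNilpotent ↥((P' : Subgroup G) ⊓ Nz R) := hT₀p.isNilpotent
    have hne := S0065.result (R.subgroupOf ((P' : Subgroup G) ⊓ Nz R)) (by
      intro h
      rw [Subgroup.subgroupOf_eq_bot] at h
      exact hR1 (by have := h.eq_bot; rwa [inf_eq_left.2 hRT] at this))
    obtain ⟨a, ha1⟩ := (Subgroup.ne_bot_iff_exists_ne_one).1 hne
    obtain ⟨⟨r, hrT⟩, hrR, hrZ⟩ := a
    have hrR' : r ∈ R := hrR
    have hr1 : r ≠ 1 := by
      intro h
      apply ha1
      apply Subtype.ext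
      apply Subtype.ext
      exact h
    have hT₀L : (P' : Subgroup G) ⊓ Nz R ≤ Subgroup.centralizer ({r} : Set G) := by
      intro t ht
      rw [Subgroup.mem_centralizer_singleton_iff]
      have := (Subgroup.mem_center_iff.1 hrZ) ⟨t, ht⟩
      exact congrArg Subtype.val this
    have hyL : y ∈ Nz (Subgroup.centralizer ({r} : Set G)) := by
      rw [← cj_eq_self_iff, cj_centralizer_singleton, hinv r hrR']
      ext z
      rw [Subgroup.mem_centralizer_singleton_iff, Subgroup.mem_centralizer_singleton_iff]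
      exact (Commute.inv_right_iff (a := z) (b := r))
    have hcop : (Nat.card (Subgroup.zpowers y)).Coprime
        (Nat.card (Subgroup.centralizer ({r} : Set G))) := by
      rw [Nat.card_zpowers, hy]
      exact Nat.coprime_two_left.2 (hodd r hrR' hr1)
    obtain ⟨T, hTL, hTc, hTA, hRT'⟩ := Cfsg.Agent.Lib.Helper1.exists_invariant_sylow_ge
      (Subgroup.zpowers y) (Subgroup.centralizer ({r} : Set G))
      ((Subgroup.zpowers_le).2 hyL) hcop (Or.inl inferInstance) p R (hRT.trans hT₀L) hRp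
      ((Subgroup.zpowers_le).2 hyR)
    have hTp : IsPGroup p T := IsPGroup.of_card hTc
    have hTR : T = R := by
      have := hRmax.le_of_ge ⟨hTp, hQR.trans hRT', hTA (Subgroup.mem_zpowers y)⟩ hRT'
      exact le_antisymm this hRT'
    have hle : Nat.card ↥((P' : Subgroup G) ⊓ Nz R) ≤ Nat.card T := by
      obtain ⟨j, hj⟩ := IsPGroup.iff_card.1 hT₀p
      rw [hj, hTc]
      apply Nat.pow_le_pow_right (Fact.out : p.Prime).pos
      apply ((Fact.out : p.Prime).pow_dvd_iff_le_factorization Nat.card_pos.ne').1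
      rw [← hj]
      exact Subgroup.card_dvd_of_le hT₀L
    have hlt2 : R < (P' : Subgroup G) ⊓ Nz R :=
      lt_of_le_of_ne hRT (fun e => hsR (by rw [e]; exact ⟨hsP, hsN⟩))
    have h5 := card_lt_of_lt hlt2
    rw [hTR] at hle
    omega
  obtain ⟨k, -, hk⟩ := hRsyl.conj (syl_of_sylow P)
  have e : Nz (cj k R) = cj k (Nz R) := (cj_normalizer k R).symm
  rw [hk]
  show Even (Nat.card ↥(Nz (cj k R)))
  rw [e, card_cj, even_iff_two_dvd]
  have := orderOf_dvd_natCard (⟨y, hyR⟩ : Nz R)
  rwa [Subgroup.orderOf_mk, hy] at this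

end Cfsg.Agent.S3982
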