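import Cfsg.Statements.S3983
import Cfsg.Agent.Lib.Helper1.Basic

set_option autoImplicit false
open scoped Pointwise
open Cfsg

namespace Cfsg.Agent.S3983

open Pointwise
open Cfsg.Agent.Lib.Helper1

/-- Let P be a Sylow p-subgroup of the finite group G that meets each conjugate g P g⁻¹ with g outside N_G(P) trivially, and let U be a subgroup of G of order divisible by p. Then a Sylow p-subgroup Q of U has the same property inside U: Q meets each conjugate u Q u⁻¹ with u ∈ U outside N_U(Q) trivially. -/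
theorem result {G : Type*} [Group G] [Finite G] (p : ℕ) [Fact p.Prime] (P : Sylow p G) (hTI : ∀ g : G, g ∉ Subgroup.normalizer ((P : Subgroup G) : Set G) → (P : Subgroup G) ⊓ (MulAut.conj g • (P : Subgroup G)) = ⊥) (U : Subgroup G) (hU : p ∣ Nat.card ↥U) (Q : Sylow p ↥U) : ∀ u : ↥U, u ∉ Subgroup.normalizer ((Q : Subgroup ↥U) : Set ↥U) → (Q : Subgroup ↥U) ⊓ (MulAut.conj u • (Q : Subgroup ↥U)) = ⊥ := by
  have hTI2 : ∀ R R' : Sylow p G, R ≠ R' → (R : Subgroup G) ⊓ (R' : Subgroup G) = ⊥ := by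
    intro R R' hne
    obtain ⟨a, rfl⟩ := MulAction.exists_smul_eq G P R
    obtain ⟨b, rfl⟩ := MulAction.exists_smul_eq G P R'
    have h1 : a⁻¹ * b ∉ Subgroup.normalizer ((P : Subgroup G) : Set G) := by
      intro h
      apply hne
      have h2 := (Sylow.smul_eq_iff_mem_normalizer (P := P)).mpr h
      rw [mul_smul, inv_smul_eq_iff] at h2
      exact h2.symm
    have h3 := hTI _ h1
    have h4 := congrArg (fun S => MulAut.conj a • S) h3
    simp only [Subgroup.smul_inf, Subgroup.smul_bot, smul_smul, ← map_mul, mul_inv_cancel_left] at h4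
    rw [Sylow.coe_subgroup_smul, Sylow.coe_subgroup_smul]
    exact h4
  intro u hu
  by_contra hne
  obtain ⟨y, hy, hy1⟩ : ∃ y ∈ (Q : Subgroup ↥U) ⊓ (MulAut.conj u • (Q : Subgroup ↥U)), y ≠ 1 := by
    by_contra hc
    push Not at hc
    exact hne (eq_bot_iff.mpr fun x hx => Subgroup.mem_bot.mpr (hc x hx))
  obtain ⟨hyQ, hyQ'⟩ := Subgroup.mem_inf.mp hy
  rw [mem_conj_smul] at hyQ'
  obtain ⟨P1, hP1⟩ := (Q.2.map U.subtype).exists_le_sylow
  have hQP1 : ∀ w : U, w ∈ (Q : Subgroup U) → (w : G) ∈ (P1 : Subgroup G) := fun w hw => hP1 ⟨w, hw, rfl⟩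
  have hQeq : (Q : Subgroup U) = (P1 : Subgroup G).subgroupOf U := by
    have h1 : IsPGroup p ((P1 : Subgroup G).subgroupOf U) :=
      P1.2.comap_of_injective U.subtype U.subtype_injective
    exact (Q.3 h1 (fun w hw => Subgroup.mem_subgroupOf.mpr (hQP1 w hw))).symm
  have hfix : (u : G) • P1 = P1 := by
    by_contra hne2
    have h1 := hTI2 P1 ((u : G) • P1) (fun h => hne2 h.symm)
    have h2 : (y : G) ∈ (P1 : Subgroup G) ⊓ (((u : G) • P1 : Sylow p G) : Subgroup G) := by
      refine Subgroup.mem_inf.mpr ⟨hQP1 y hyQ, ?_⟩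
      rw [Sylow.coe_subgroup_smul, mem_conj_smul]
      exact hQP1 _ hyQ'
    rw [h1, Subgroup.mem_bot] at h2
    exact hy1 (Subtype.ext h2)
  have huN := (Sylow.smul_eq_iff_mem_normalizer (P := P1)).mp hfix
  apply hu
  rw [Subgroup.mem_normalizer_iff]
  intro w
  rw [hQeq, Subgroup.mem_subgroupOf, Subgroup.mem_subgroupOf]
  exact Subgroup.mem_normalizer_iff.mp huN w

end Cfsg.Agent.S3983
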