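import Cfsg.Statements.S3984
import Cfsg.Agent.Lib.Helper1.Basic

set_option autoImplicit false
open scoped Pointwise
open Cfsg

namespace Cfsg.Agent.S3984

open Pointwise
open Cfsg.Agent.Lib.Helper1

/-- Let P be a Sylow p-subgroup of the finite group G that meets each conjugate g P g⁻¹ with g outside N_G(P) trivially, and let N be a normal subgroup of G of order prime to p. Then every Sylow p-subgroup Q of G ⧸ N meets each conjugate x Q x⁻¹ with x outside its normalizer trivially. -/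
theorem result {G : Type*} [Group G] [Finite G] (p : ℕ) [Fact p.Prime] (P : Sylow p G) (hTI : ∀ g : G, g ∉ Subgroup.normalizer ((P : Subgroup G) : Set G) → (P : Subgroup G) ⊓ (MulAut.conj g • (P : Subgroup G)) = ⊥) (N : Subgroup G) [N.Normal] (hN : (Nat.card ↥N).Coprime p) (Q : Sylow p (G ⧸ N)) : ∀ x : G ⧸ N, x ∉ Subgroup.normalizer ((Q : Subgroup (G ⧸ N)) : Set (G ⧸ N)) → (Q : Subgroup (G ⧸ N)) ⊓ (MulAut.conj x • (Q : Subgroup (G ⧸ N))) = ⊥ := by
  have hTI2 : ∀ R R' : Sylow p G, R ≠ R' → (R : Subgroup G) ⊓ (R' : Subgroup G) = ⊥ := by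
    intro R R' hne
    obtain ⟨a, rfl⟩ := MulAction.exists_smul_eq G P R
    obtain ⟨b, rfl⟩ := MulAction.exists_smul_eq G P R'
    have h1 : a⁻¹ * b ∉ Subgroup.normalizer ((P : Subgroup G) : Set G) := by
      intro h
      apply hne
      have h2 := (Sylow.smul_eq_iff_mem_normalizer (P := P)).mpr h
      rw [mul_smul, inv_smul_eq_iff] at h2
      exact h2.symm
    have h3 := hTI _ h1
    have h4 := congrArg (fun S => MulAut.conj a • S) h3
    simp only [Subgroup.smul_inf, Subgroup.smul_bot, smul_smul, ← map_mul, mul_inv_cancel_left] at h4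
    rw [Sylow.coe_subgroup_smul, Sylow.coe_subgroup_smul]
    exact h4
  intro x hx
  by_contra hne
  obtain ⟨y0, hy0, hy01⟩ : ∃ y ∈ (Q : Subgroup (G ⧸ N)) ⊓ (MulAut.conj x • (Q : Subgroup (G ⧸ N))), y ≠ 1 := by
    by_contra hc
    push Not at hc
    exact hne (eq_bot_iff.mpr fun x hx => Subgroup.mem_bot.mpr (hc x hx))
  obtain ⟨hyQ, hyQ'⟩ := Subgroup.mem_inf.mp hy0
  rw [mem_conj_smul] at hyQ'
  obtain ⟨P1, hP1⟩ := Sylow.mapSurjective_surjective (QuotientGroup.mk'_surjective N) p Q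
  have hQ : (Q : Subgroup (G ⧸ N)) = (P1 : Subgroup G).map (QuotientGroup.mk' N) := by
    rw [← hP1, Sylow.coe_mapSurjective]
  obtain ⟨g, rfl⟩ := QuotientGroup.mk'_surjective N x
  rw [hQ] at hyQ hyQ'
  obtain ⟨y, hy, rfl⟩ := hyQ
  obtain ⟨y', hy', hyy'⟩ := hyQ'
  have hy1 : y ≠ 1 := by
    rintro rfl
    exact hy01 (map_one _)
  obtain ⟨X, hX⟩ : ∃ X, X = (P1 : Subgroup G) ⊔ N := ⟨_, rfl⟩
  have hP1X : (P1 : Subgroup G) ≤ X := hX ▸ le_sup_left
  have hgy : g⁻¹ * y * g ∈ X := by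
    have h1 : y'⁻¹ * (g⁻¹ * y * g) ∈ N := by
      rw [← QuotientGroup.eq]
      have : QuotientGroup.mk' N y' = QuotientGroup.mk' N (g⁻¹ * y * g) := by
        rw [hyy', map_mul, map_mul, map_inv]
      exact this
    have h2 : g⁻¹ * y * g = y' * (y'⁻¹ * (g⁻¹ * y * g)) := by group
    rw [h2, hX]
    exact Subgroup.mul_mem _ (Subgroup.mem_sup_left hy') (Subgroup.mem_sup_right h1)
  have hK : IsPGroup p ((((g⁻¹ • P1 : Sylow p G) : Subgroup G) ⊓ X).subgroupOf X) :=
    ((g⁻¹ • P1 : Sylow p G).2.to_le inf_le_left).comap_of_injective X.subtype X.subtype_injective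
  obtain ⟨T, hT⟩ := hK.exists_le_sylow
  obtain ⟨h, hh⟩ := MulAction.exists_smul_eq X (P1.subtype hP1X) T
  have h3 : (h : G)⁻¹ * (g⁻¹ * y * g) * h ∈ (P1 : Subgroup G) := by
    have h4 : (⟨g⁻¹ * y * g, hgy⟩ : X) ∈ (T : Subgroup X) := by
      apply hT
      rw [Subgroup.mem_subgroupOf]
      refine Subgroup.mem_inf.mpr ⟨?_, hgy⟩
      rw [Sylow.coe_subgroup_smul, mem_conj_smul, inv_inv]
      have e : g * (g⁻¹ * y * g) * g⁻¹ = y := by group
      show g * (g⁻¹ * y * g) * g⁻¹ ∈ (P1 : Subgroup G)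
      rw [e]; exact hy
    rw [← hh, Sylow.coe_subgroup_smul, mem_conj_smul, Sylow.coe_subtype, Subgroup.mem_subgroupOf] at h4
    exact h4
  have hfix : (g * (h : G)) • P1 = P1 := by
    by_contra hne2
    have h5 := hTI2 P1 ((g * (h : G)) • P1) (fun h => hne2 h.symm)
    have h6 : y ∈ (P1 : Subgroup G) ⊓ (((g * (h : G)) • P1 : Sylow p G) : Subgroup G) := by
      refine Subgroup.mem_inf.mpr ⟨hy, ?_⟩
      rw [Sylow.coe_subgroup_smul, mem_conj_smul]
      have e : (g * (h : G))⁻¹ * y * (g * (h : G)) = (h : G)⁻¹ * (g⁻¹ * y * g) * h := by group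
      rw [e]; exact h3
    rw [h5, Subgroup.mem_bot] at h6
    exact hy1 h6
  have hghN := (Sylow.smul_eq_iff_mem_normalizer (P := P1)).mp hfix
  apply hx
  rw [hQ]
  have h7 : QuotientGroup.mk' N (g * (h : G)) ∈
      Subgroup.normalizer (((P1 : Subgroup G).map (QuotientGroup.mk' N) : Subgroup (G ⧸ N)) : Set (G ⧸ N)) :=
    Subgroup.le_normalizer_map _ ⟨_, hghN, rfl⟩
  have h8 : QuotientGroup.mk' N (h : G) ∈ (P1 : Subgroup G).map (QuotientGroup.mk' N) := by
    have h9 : QuotientGroup.mk' N (h : G) ∈ X.map (QuotientGroup.mk' N) := ⟨h, h.2, rfl⟩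
    have h11 : X.map (QuotientGroup.mk' N) = (P1 : Subgroup G).map (QuotientGroup.mk' N) := by
      rw [hX, Subgroup.map_sup, QuotientGroup.map_mk'_self, sup_bot_eq]
    rw [← h11]
    exact h9
  have h10 := Subgroup.mul_mem _ h7 (Subgroup.inv_mem _ (Subgroup.le_normalizer h8))
  rw [map_mul, mul_inv_cancel_right] at h10
  exact h10

end Cfsg.Agent.S3984
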