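import Cfsg.Statements.S3985
import Mathlib
import Cfsg.Agent.Lib.Helper1.UPrime
import Cfsg.Agent.Lib.Helper1.Cyc
import Cfsg.Agent.Lib.Helper1.RankFrattini

set_option autoImplicit false
open scoped Pointwise
open Cfsg

namespace Cfsg.Agent.S3985

open Cfsg
open Cfsg.Agent.Lib.Helper1
open scoped Pointwise

/-- Let P be a cyclic Sylow p-subgroup of the finite group G. Then P meets each conjugate g P g⁻¹ with g outside N_G(P) trivially if and only if P is weakly self-centralizing: C_G(x) = C_G(P) for every non-identity x ∈ P. -/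
theorem result {G : Type*} [Group G] [Finite G] (p : ℕ) [Fact p.Prime] (P : Sylow p G) (hcyc : IsCyclic ↥(P : Subgroup G)) : (∀ g : G, g ∉ Subgroup.normalizer ((P : Subgroup G) : Set G) → (P : Subgroup G) ⊓ (MulAut.conj g • (P : Subgroup G)) = ⊥) ↔ ∀ x : G, x ∈ (P : Subgroup G) → x ≠ 1 → Subgroup.centralizer ({x} : Set G) = Subgroup.centralizer ((P : Subgroup G) : Set G) := by
  have hp : p.Prime := Fact.out
  have hab : ∀ a ∈ (P : Subgroup G), ∀ b ∈ (P : Subgroup G), a * b = b * a := by
    intro a ha b hb
    have := hcyc.commutative.is_comm.comm (⟨a, ha⟩ : (P : Subgroup G)) ⟨b, hb⟩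
    exact congrArg Subtype.val this
  constructor
  · intro hTI x hx hx1
    apply le_antisymm
    · intro c hc
      rw [Subgroup.mem_centralizer_singleton_iff] at hc
      have hcN : c ∈ Subgroup.normalizer ((P : Subgroup G) : Set G) := by
        by_contra hcon
        have h1 := hTI c hcon
        have h2 : x ∈ (P : Subgroup G) ⊓ (MulAut.conj c • (P : Subgroup G)) := by
          refine Subgroup.mem_inf.mpr ⟨hx, ?_⟩
          rw [mem_conj_smul]
          have : c⁻¹ * x * c = x := by
            calc c⁻¹ * x * c = c⁻¹ * (x * c) := by group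
              _ = c⁻¹ * (c * x) := by rw [hc]
              _ = x := by group
          rw [this]; exact hx
        rw [h1, Subgroup.mem_bot] at h2
        exact hx1 h2
      obtain ⟨e, m, hm, hcm⟩ := Nat.exists_eq_pow_mul_and_not_dvd (orderOf_pos c).ne' p hp.ne_one
      have hcmP : c ^ m ∈ (P : Subgroup G) := by
        have h1 : IsPGroup p (Subgroup.zpowers (c ^ m)) := by
          apply IsPGroup.of_card (n := e)
          rw [Nat.card_zpowers, orderOf_pow_of_dvd (by rintro rfl; exact hm (dvd_zero _)) (by rw [hcm]; exact Dvd.intro_left _ rfl), hcm]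
          exact Nat.mul_div_cancel _ (Nat.pos_of_ne_zero (by rintro rfl; exact hm (dvd_zero _)))
        apply pgroup_le_sylow_of_le_normalizer P h1 _ (Subgroup.mem_zpowers _)
        rw [Subgroup.zpowers_le]
        exact Subgroup.pow_mem _ hcN m
      obtain ⟨k, hk⟩ := IsPGroup.iff_card.mp P.2
      have hall := UPrime.centralizes_of_prime_order (P : Subgroup G) hab c
        (fun b hb => (Subgroup.mem_normalizer_iff.mp hcN b).mp hb) m
        (by rw [hk]; exact Nat.Coprime.pow_right _ ((Nat.coprime_comm.mp ((Nat.Prime.coprime_iff_not_dvd hp).mpr hm))))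
        (fun b hb => hab _ hcmP b hb)
        (by
          intro u hu huo
          have hup : orderOf u = p := by
            have h1 : orderOf u ∣ p ^ k := by
              rw [← hk]
              have h5 : orderOf (⟨u, hu⟩ : (P : Subgroup G)) ∣ Nat.card (P : Subgroup G) := orderOf_dvd_natCard _
              rwa [Subgroup.orderOf_mk] at h5
            exact (Nat.prime_dvd_prime_iff_eq huo hp).mp (huo.dvd_of_dvd_pow h1)
          have hpx : p ∣ orderOf x := by
            have h1 : orderOf x ∣ p ^ k := by
              rw [← hk]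
              have h5 : orderOf (⟨x, hx⟩ : (P : Subgroup G)) ∣ Nat.card (P : Subgroup G) := orderOf_dvd_natCard _
              rwa [Subgroup.orderOf_mk] at h5
            obtain ⟨j, _, hj⟩ := (Nat.dvd_prime_pow hp).mp h1
            rw [hj]
            apply dvd_pow_self
            rintro rfl
            rw [pow_zero, orderOf_eq_one_iff] at hj
            exact hx1 hj
          have hux := Cyc.mem_zpowers_of_orderOf_dvd' (P : Subgroup G) hcyc hu hx (by rw [hup]; exact hpx)
          obtain ⟨j, rfl⟩ := Subgroup.mem_zpowers_iff.mp hux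
          exact (Commute.zpow_right (show Commute c x from hc) j))
      rw [Subgroup.mem_centralizer_iff]
      intro b hb
      exact (hall b hb).symm
    · apply Subgroup.centralizer_le
      rw [Set.singleton_subset_iff]; exact hx
  · intro hW g hg
    by_contra hne
    obtain ⟨x, hx, hx1⟩ : ∃ x ∈ (P : Subgroup G) ⊓ (MulAut.conj g • (P : Subgroup G)), x ≠ 1 := by
      by_contra hcon
      push Not at hcon
      exact hne ((Subgroup.eq_bot_iff_forall _).mpr hcon)
    obtain ⟨hxP, hxg⟩ := Subgroup.mem_inf.mp hx
    have hC := hW x hxP hx1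
    have hle : MulAut.conj g • (P : Subgroup G) ≤ Subgroup.centralizer ((P : Subgroup G) : Set G) := by
      rw [← hC]
      intro w hw
      rw [Subgroup.mem_centralizer_singleton_iff]
      rw [mem_conj_smul] at hw hxg
      have := hab _ hw _ hxg
      calc w * x = g * ((g⁻¹ * w * g) * (g⁻¹ * x * g)) * g⁻¹ := by group
        _ = g * ((g⁻¹ * x * g) * (g⁻¹ * w * g)) * g⁻¹ := by rw [this]
        _ = x * w := by group
    have hgp : IsPGroup p (MulAut.conj g • (P : Subgroup G) : Subgroup G) := P.2.map (MulAut.conj g).toMonoidHom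
    have hle2 := pgroup_le_sylow_of_le_normalizer P hgp (hle.trans (Subgroup.centralizer_le_normalizer _))
    have heq : MulAut.conj g • (P : Subgroup G) = (P : Subgroup G) :=
      Subgroup.eq_of_le_of_card_ge hle2 (by rw [card_conj_smul])
    apply hg
    rw [Subgroup.mem_normalizer_iff_map_conj_eq]
    exact heq

end Cfsg.Agent.S3985
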