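import Cfsg.Statements.S3986
import Cfsg.Agent.Lib.Helper1.SylGen

set_option autoImplicit false
open Cfsg

namespace Cfsg.Agent.S3986

open Cfsg.Agent.Lib.Helper1.SylGen

theorem commute_of_coprime_aux {G : Type*} [Group G] [Finite G] (p : ℕ) (x : G)
    (h : ∀ y : G, (∃ q b : ℕ, q.Prime ∧ q ≠ p ∧ orderOf y = q ^ b) → x * y = y * x) :
    ∀ (n : ℕ) (y : G), orderOf y = n → n.Coprime p → x * y = y * x := by
  intro n
  induction n using Nat.strong_induction_on with
  | _ n ih =>
    intro y hy hcop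
    by_cases hn1 : n = 1
    · rw [hn1, orderOf_eq_one_iff] at hy
      rw [hy, mul_one, one_mul]
    obtain ⟨q, hq, hqd⟩ := Nat.exists_prime_and_dvd hn1
    have hn0 : n ≠ 0 := by rw [← hy]; exact (orderOf_pos y).ne'
    obtain ⟨b, m, hqm, hnm⟩ := Nat.exists_eq_pow_mul_and_not_dvd hn0 q hq.ne_one
    have hb0 : b ≠ 0 := by
      rintro rfl
      rw [pow_zero, one_mul] at hnm
      exact hqm (hnm ▸ hqd)
    have hm0 : m ≠ 0 := by
      rintro rfl
      exact hqm (dvd_zero q)
    have hqp : q ≠ p := by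
      rintro rfl
      have : q ∣ Nat.gcd n q := Nat.dvd_gcd hqd dvd_rfl
      rw [hcop] at this
      exact hq.one_lt.ne' (Nat.dvd_one.mp this)
    have hcop2 : Nat.Coprime (q ^ b) m := Nat.Coprime.pow_left _ ((Nat.Prime.coprime_iff_not_dvd hq).mpr hqm)
    have ho1 : orderOf (y ^ m) = q ^ b := by
      rw [orderOf_pow_of_dvd hm0 (by rw [hy, hnm]; exact dvd_mul_left _ _), hy, hnm]
      exact Nat.mul_div_cancel _ (Nat.pos_of_ne_zero hm0)
    have ho2 : orderOf (y ^ q ^ b) = m := by
      rw [orderOf_pow_of_dvd (pow_ne_zero _ hq.ne_zero) (by rw [hy, hnm]; exact dvd_mul_right _ _), hy, hnm]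
      exact Nat.mul_div_cancel_left _ (pow_pos hq.pos _)
    have c1 : Commute x (y ^ m) := h _ ⟨q, b, hq, hqp, ho1⟩
    have hmn : m < n := by
      rw [hnm]
      have : 2 ≤ q ^ b := by
        calc 2 ≤ q := hq.two_le
          _ = q ^ 1 := (pow_one q).symm
          _ ≤ q ^ b := Nat.pow_le_pow_right hq.pos (Nat.one_le_iff_ne_zero.mpr hb0)
      nlinarith [Nat.pos_of_ne_zero hm0]
    have c2 : Commute x (y ^ q ^ b) := ih m hmn _ ho2 (Nat.Coprime.coprime_dvd_left (by rw [hnm]; exact dvd_mul_left _ _) hcop)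
    -- Bezout
    have hgcd : y ^ (Nat.gcd (q ^ b) m) ∈ Subgroup.centralizer ({x} : Set G) := by
      have e := Nat.gcd_eq_gcd_ab (q ^ b) m
      have : (y ^ (Nat.gcd (q ^ b) m) : G) = (y ^ q ^ b) ^ (Nat.gcdA (q ^ b) m) * (y ^ m) ^ (Nat.gcdB (q ^ b) m) := by
        rw [← zpow_natCast y (Nat.gcd (q ^ b) m), e, zpow_add, zpow_mul, zpow_mul, zpow_natCast, zpow_natCast]
      rw [this]
      apply Subgroup.mul_mem
      · apply Subgroup.zpow_mem
        rw [Subgroup.mem_centralizer_singleton_iff]
        exact c2.symm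
      · apply Subgroup.zpow_mem
        rw [Subgroup.mem_centralizer_singleton_iff]
        exact c1.symm
    rw [hcop2, pow_one, Subgroup.mem_centralizer_singleton_iff] at hgcd
    exact hgcd.symm

/-- Let p be a prime and G a finite group. Then some Sylow p-subgroup of G is a direct factor of G (it is normal and has a normal complement) if and only if every element of p-power order commutes with every element whose order is a power of a prime other than p. -/
theorem result {G : Type*} [Group G] [Finite G] (p : ℕ) [Fact p.Prime] : (∃ (P : Sylow p G) (K : Subgroup G), (P : Subgroup G).Normal ∧ K.Normal ∧ (P : Subgroup G) ⊓ K = ⊥ ∧ (P : Subgroup G) ⊔ K = ⊤) ↔ ∀ x y : G, (∃ a : ℕ, orderOf x = p ^ a) → (∃ q b : ℕ, q.Prime ∧ q ≠ p ∧ orderOf y = q ^ b) → x * y = y * x := by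
  have hp : p.Prime := Fact.out
  constructor
  · rintro ⟨P, K, hPn, hKn, hd, hs⟩ x y ⟨a, ha⟩ ⟨q, b, hq, hqp, hb⟩
    haveI := hPn
    haveI := hKn
    haveI : Subsingleton (Sylow p G) := (Sylow.unique_of_normal P hPn).instSubsingleton
    have hx : x ∈ (P : Subgroup G) := by
      have h1 : IsPGroup p (Subgroup.zpowers x) := IsPGroup.of_card (n := a) (by rw [Nat.card_zpowers, ha])
      obtain ⟨P', hP'⟩ := h1.exists_le_sylow
      rw [Subsingleton.elim P' P] at hP'
      exact hP' (Subgroup.mem_zpowers x)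
    have hy : y ∈ K := by
      rw [← QuotientGroup.eq_one_iff, ← orderOf_eq_one_iff]
      have h1 : orderOf (y : G ⧸ K) ∣ q ^ b := by
        rw [← hb]; exact orderOf_map_dvd (QuotientGroup.mk' K) y
      have h2 : IsPGroup p (G ⧸ K) := by
        have h3 : (P : Subgroup G).map (QuotientGroup.mk' K) = ⊤ := by
          rw [← sup_bot_eq ((P : Subgroup G).map (QuotientGroup.mk' K)), ← QuotientGroup.map_mk'_self K,
            ← Subgroup.map_sup, hs, ← MonoidHom.range_eq_map]
          exact MonoidHom.range_eq_top.mpr (QuotientGroup.mk'_surjective K)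
        have h4 := P.2.map (QuotientGroup.mk' K)
        rw [h3] at h4
        exact h4.of_equiv Subgroup.topEquiv
      obtain ⟨k, hk⟩ := (IsPGroup.iff_orderOf.mp h2) (y : G ⧸ K)
      rw [hk] at h1 ⊢
      have h5 : Nat.Coprime (p ^ k) (q ^ b) := Nat.Coprime.pow _ _ ((Nat.coprime_primes hp hq).mpr hqp.symm)
      exact Nat.eq_one_of_dvd_coprimes h5 dvd_rfl h1
    exact Subgroup.commute_of_normal_of_disjoint _ _ hPn hKn (disjoint_iff.mpr hd) x y hx hy
  · intro h
    obtain ⟨P⟩ : Nonempty (Sylow p G) := inferInstance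
    have hxP : ∀ x ∈ (P : Subgroup G), ∃ a : ℕ, orderOf x = p ^ a := by
      intro x hx
      obtain ⟨k, hk⟩ := (IsPGroup.iff_orderOf.mp P.2) ⟨x, hx⟩
      exact ⟨k, by rw [← hk, ← Subgroup.orderOf_coe]⟩
    have hcom : ∀ x ∈ (P : Subgroup G), ∀ y : G, (orderOf y).Coprime p → x * y = y * x := by
      intro x hx y hy
      exact commute_of_coprime_aux p x (fun y hy => h x y (hxP x hx) hy) _ y rfl hy
    have hPn : (P : Subgroup G).Normal := by
      rw [← Subgroup.normalizer_eq_top_iff]
      apply eq_top_of_sylow_le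
      intro q _
      by_cases hqp : q = p
      · subst hqp
        exact ⟨P, Subgroup.le_normalizer⟩
      · obtain ⟨Q⟩ : Nonempty (Sylow q G) := inferInstance
        refine ⟨Q, ?_⟩
        refine le_trans ?_ (Subgroup.centralizer_le_normalizer _)
        intro y hy
        rw [Subgroup.mem_centralizer_iff]
        intro x hx
        obtain ⟨k, hk⟩ := (IsPGroup.iff_orderOf.mp Q.2) ⟨y, hy⟩
        exact h x y (hxP x hx) ⟨q, k, Fact.out, hqp, by rw [← hk, ← Subgroup.orderOf_coe]⟩
    haveI := hPn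
    have hcop : Nat.Coprime (Nat.card (P : Subgroup G)) (P : Subgroup G).index := by
      obtain ⟨n, hn⟩ := IsPGroup.iff_card.mp P.2
      rw [hn]
      exact Nat.Coprime.pow_left _ ((Nat.Prime.coprime_iff_not_dvd hp).mpr P.not_dvd_index)
    obtain ⟨K, hK⟩ := Subgroup.exists_right_complement'_of_coprime hcop
    have hKcard : (Nat.card K).Coprime p := by
      have h1 := hK.card_mul_card
      have h2 := (P : Subgroup G).card_mul_index
      have h3 : Nat.card K = (P : Subgroup G).index :=
        Nat.eq_of_mul_eq_mul_left Nat.card_pos (h1.trans h2.symm)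
      rw [h3]
      exact ((Nat.Prime.coprime_iff_not_dvd hp).mpr P.not_dvd_index).symm
    have hKc : ∀ x ∈ (P : Subgroup G), ∀ y ∈ K, x * y = y * x := by
      intro x hx y hy
      apply hcom x hx y
      apply Nat.Coprime.coprime_dvd_left _ hKcard
      have := orderOf_dvd_natCard (⟨y, hy⟩ : K)
      rwa [← Subgroup.orderOf_coe] at this
    refine ⟨P, K, hPn, ?_, disjoint_iff.mp hK.disjoint, hK.sup_eq_top⟩
    rw [← Subgroup.normalizer_eq_top_iff, eq_top_iff, ← hK.sup_eq_top]
    apply sup_le _ Subgroup.le_normalizer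
    refine le_trans ?_ (Subgroup.centralizer_le_normalizer _)
    intro x hx
    rw [Subgroup.mem_centralizer_iff]
    intro y hy
    exact (hKc x hx y hy).symm

end Cfsg.Agent.S3986
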