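import Cfsg.Statements.S4013
import Cfsg.Agent.Lib.Helper1.FrobCount
import Cfsg.Agent.Lib.Helper1.SZAb

set_option autoImplicit false
open Cfsg

namespace Cfsg.Agent.S4013

open Cfsg.Agent.Lib.Helper1

/-- Let G be a finite p-group (p prime) and N < M normal subgroups of G such that for some g ∈ M ∖ N the conjugacy class of g is exactly M ∖ N. Then p = 2 and N has index 2 in M. -/
theorem result {G : Type*} [Group G] [Finite G] (p : ℕ) [Fact p.Prime] (hG : IsPGroup p G) (N M : Subgroup G) [N.Normal] [M.Normal] (hNM : N < M) (g : G) (hgM : g ∈ M) (hgN : g ∉ N) (hcl : {h : G | IsConj g h} = (M : Set G) \ (N : Set G)) : p = 2 ∧ N.relIndex M = 2 := by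
  have hp : p.Prime := Fact.out
  obtain ⟨n, hn⟩ := IsPGroup.iff_card.mp hG
  have h1 : Nat.card {x : G // IsConj g x} ∣ p ^ n := by
    rw [← Cfsg.Agent.Lib.Helper1.FrobCount.index_centralizer_eq, ← hn]
    exact Subgroup.index_dvd_card _
  have h2 : Nat.card {x : G // IsConj g x} = Nat.card M - Nat.card N := by
    have e1 : Nat.card {x : G // IsConj g x} = ({h : G | IsConj g h} : Set G).ncard := rfl
    rw [e1, hcl, Set.ncard_diff (SetLike.coe_subset_coe.mpr hNM.le) (Set.toFinite _)]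
    rfl
  have h3 : Nat.card N * N.relIndex M = Nat.card M := by
    have := (N.subgroupOf M).card_mul_index
    rw [card_subgroupOf hNM.le] at this
    exact this
  have h4 : N.relIndex M ∣ p ^ n := by
    rw [← hn]
    exact (Subgroup.relIndex_dvd_card N M).trans (Subgroup.card_subgroup_dvd_card M)
  obtain ⟨b, -, hb⟩ := (Nat.dvd_prime_pow hp).mp h4
  have h5 : N.relIndex M ≠ 1 := by
    intro h
    rw [Subgroup.relIndex_eq_one] at h
    exact absurd h (not_le_of_gt hNM)
  have hb1 : b ≠ 0 := by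
    rintro rfl
    exact h5 (by rw [hb, pow_zero])
  have h6 : Nat.card M - Nat.card N = Nat.card N * (p ^ b - 1) := by
    rw [← h3, hb, Nat.mul_sub, mul_one]
  have h7 : p ^ b - 1 ∣ p ^ n := by
    rw [h2, h6] at h1
    exact (dvd_mul_left _ _).trans h1
  obtain ⟨j, -, hj⟩ := (Nat.dvd_prime_pow hp).mp h7
  have hpb : 2 ≤ p ^ b := by
    calc 2 ≤ p := hp.two_le
      _ = p ^ 1 := (pow_one p).symm
      _ ≤ p ^ b := Nat.pow_le_pow_right hp.pos (Nat.one_le_iff_ne_zero.mpr hb1)
  have hj0 : j = 0 := by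
    by_contra hj0
    have d1 : p ∣ p ^ b - 1 := by rw [hj]; exact dvd_pow_self p hj0
    have d2 : p ∣ p ^ b := dvd_pow_self p hb1
    have d3 : p ∣ 1 := by
      have := (Nat.dvd_sub d2 d1)
      have e : p ^ b - (p ^ b - 1) = 1 := by omega
      rwa [e] at this
    exact hp.one_lt.ne' (Nat.dvd_one.mp d3)
  rw [hj0, pow_zero] at hj
  have hpb2 : p ^ b = 2 := by omega
  have hp2 : p = 2 := by
    apply (Nat.prime_dvd_prime_iff_eq hp Nat.prime_two).mp
    rw [← hpb2]
    exact dvd_pow_self p hb1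
  exact ⟨hp2, by rw [hb, hpb2]⟩

end Cfsg.Agent.S4013
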