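import Cfsg.Statements.S4027
import Cfsg.Agent.Lib.Helper9.RealOdd

set_option autoImplicit false

open Cfsg

namespace Cfsg.Agent.S4027

/-- Let G be a finite group in which every element x of odd order satisfies N_G(⟨x⟩) = C_G(x). Then the Sylow 2-subgroups of G are normal. -/
theorem result {G : Type*} [Group G] [Finite G]
    (hirr : ∀ x : G, (∀ r : ℕ, r.Prime → r ∣ orderOf x → r ≠ 2) →
      Subgroup.normalizer ((Subgroup.zpowers x : Subgroup G) : Set G) ≤ Subgroup.centralizer {x}) (P : Sylow 2 G) :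
    (P : Subgroup G).Normal := by
  apply Cfsg.Agent.Lib.Helper9.RealOdd.sylow_normal
  intro x hx1 hxo hreal
  obtain ⟨g, hg⟩ := isConj_iff.1 hreal
  have h1 : ∀ r : ℕ, r.Prime → r ∣ orderOf x → r ≠ 2 := by
    rintro r - hr rfl
    obtain ⟨k, hk⟩ := hxo
    omega
  have hgN : g ∈ Subgroup.normalizer ((Subgroup.zpowers x : Subgroup G) : Set G) := by
    rw [Subgroup.mem_normalizer_iff_map_conj_eq, MonoidHom.map_zpowers]
    show Subgroup.zpowers (g * x * g⁻¹) = _
    rw [hg, Subgroup.zpowers_inv]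
  have hgC := hirr x h1 hgN
  rw [Subgroup.mem_centralizer_singleton_iff] at hgC
  have h2 : x = x⁻¹ := by
    rw [← hg, hgC, mul_inv_cancel_right]
  have h3 : x ^ 2 = 1 := by
    rw [pow_two]; nth_rewrite 1 [h2]; simp
  have h4 : orderOf x ∣ 2 := orderOf_dvd_of_pow_eq_one h3
  have h5 : (orderOf x).Coprime 2 := Nat.coprime_two_right.2 hxo
  exact hx1 (orderOf_eq_one_iff.1 (Nat.Coprime.eq_one_of_dvd h5 h4))

end Cfsg.Agent.S4027
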