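import Cfsg.Statements.S4035
import Cfsg.Agent.Lib.Helper2.Jordan
import Cfsg.Agent.Lib.Helper3.Invol3
import Cfsg.Agent.Lib.Helper1.Basic

set_option autoImplicit false

open Cfsg

namespace Cfsg.Agent.S4035

open scoped Pointwise
open Cfsg.Agent.Lib.Helper1

/-- decomposition of an element into commuting `p'`- and `p`-parts (both powers of it) -/
theorem exists_parts {G : Type*} [Group G] [Finite G] (p : ℕ) [hp : Fact p.Prime] (y : G) :
    ∃ x u : G, y = x * u ∧ (orderOf x).Coprime p ∧ (∃ k : ℕ, u ^ p ^ k = 1) ∧ Commute x u := by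
  obtain ⟨k, m, hm, hkm⟩ := Nat.exists_eq_pow_mul_and_not_dvd (orderOf_pos y).ne' p hp.out.ne_one
  have hcop : IsCoprime ((p ^ k : ℕ) : ℤ) (m : ℤ) := by
    rw [Nat.isCoprime_iff_coprime]
    exact Nat.Coprime.pow_left k ((Nat.Prime.coprime_iff_not_dvd hp.out).2 hm)
  obtain ⟨a, b, hab⟩ := hcop
  refine ⟨y ^ (a * ((p ^ k : ℕ) : ℤ)), y ^ (b * (m : ℤ)), ?_, ?_, ⟨k, ?_⟩, ?_⟩
  · rw [← zpow_add, hab, zpow_one]
  · have h1 : (y ^ (a * ((p ^ k : ℕ) : ℤ))) ^ m = 1 := by
      rw [← zpow_natCast, ← zpow_mul, mul_assoc, ← Nat.cast_mul, ← hkm, mul_comm, zpow_mul,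
        zpow_natCast, pow_orderOf_eq_one, one_zpow]
    have h2 : orderOf (y ^ (a * ((p ^ k : ℕ) : ℤ))) ∣ m := orderOf_dvd_of_pow_eq_one h1
    exact Nat.Coprime.coprime_dvd_left h2 ((Nat.Prime.coprime_iff_not_dvd hp.out).2 hm).symm
  · rw [← zpow_natCast, ← zpow_mul, mul_assoc, ← Nat.cast_mul, mul_comm m, ← hkm, mul_comm,
      zpow_mul, zpow_natCast, pow_orderOf_eq_one, one_zpow]
  · exact ((Commute.refl y).zpow_right _).zpow_left _

/-- Let G be a finite group and p a prime such that p divides the size of no conjugacy class of p-regular elements (elements of order prime to p). Then G is the internal direct product of a Sylow p-subgroup P and a normal subgroup H of order prime to p: P is normal, P ⊓ H = 1 and PH = G. -/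
theorem result {G : Type*} [Group G] [Finite G] {p : ℕ} [Fact p.Prime]
    (h : ∀ x : G, (orderOf x).Coprime p → ¬ p ∣ (ConjClasses.mk x).carrier.ncard) (P : Sylow p G) :
    (P : Subgroup G).Normal ∧ ∃ H : Subgroup G, H.Normal ∧ ¬ p ∣ Nat.card H ∧
      (P : Subgroup G) ⊓ H = ⊥ ∧ (P : Subgroup G) ⊔ H = ⊤ := by
  have hp : p.Prime := Fact.out
  set C := Subgroup.centralizer ((P : Subgroup G) : Set G) with hC
  -- Step 1: the centralizer of a p'-element has full p-part
  have hfac : ∀ x : G, (orderOf x).Coprime p →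
      (Nat.card (Subgroup.centralizer ({x} : Set G))).factorization p
        = (Nat.card G).factorization p := by
    intro x hx
    have h1 := Cfsg.Agent.Lib.Helper3.Invol.card_class_mul x
    have h2 : (ConjClasses.mk x).carrier.ncard = Nat.card {y : G // IsConj x y} := by
      rw [← Nat.card_coe_set_eq]
      refine Nat.card_congr (Equiv.subtypeEquivRight fun y => ?_)
      rw [ConjClasses.mem_carrier_iff_mk_eq, ConjClasses.mk_eq_mk_iff_isConj]
      exact ⟨IsConj.symm, IsConj.symm⟩
    have h3 := h x hx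
    rw [h2] at h3
    have h4 : Nat.card {y : G // IsConj x y} ≠ 0 := by
      intro h0; rw [h0] at h3; exact h3 (dvd_zero p)
    rw [← h1, Nat.factorization_mul h4 Nat.card_pos.ne', Finsupp.add_apply,
      Nat.factorization_eq_zero_of_not_dvd h3, zero_add]
  -- Step 2: every element lies in a conjugate of P ⊔ C
  have hM : (P : Subgroup G) ⊔ C = ⊤ := by
    by_contra hne
    obtain ⟨y, hy⟩ := Cfsg.Agent.Lib.Helper2.Jordan.exists_not_mem_conj _ hne
    obtain ⟨x, u, hyxu, hx, ⟨k, hu⟩, hcomm⟩ := exists_parts p y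
    set D := Subgroup.centralizer ({x} : Set G) with hD
    have huD : u ∈ D := by
      rw [hD, Subgroup.mem_centralizer_singleton_iff]; exact hcomm.eq.symm
    have hZ : IsPGroup p (Subgroup.zpowers (⟨u, huD⟩ : D)) := by
      rintro ⟨z, hz⟩
      obtain ⟨i, rfl⟩ := Subgroup.mem_zpowers_iff.1 hz
      refine ⟨k, Subtype.ext ?_⟩
      have : (⟨u, huD⟩ : D) ^ p ^ k = 1 := Subtype.ext hu
      show ((⟨u, huD⟩ : D) ^ i) ^ p ^ k = 1
      rw [← zpow_natCast, ← zpow_mul, mul_comm, zpow_mul, zpow_natCast, this, one_zpow]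
    obtain ⟨Q, hQ⟩ := hZ.exists_le_sylow
    have hQc : Nat.card ((Q : Subgroup D).map D.subtype) = p ^ (Nat.card G).factorization p := by
      rw [Subgroup.card_map_of_injective D.subtype_injective, Q.card_eq_multiplicity, hfac x hx]
    let Q' : Sylow p G := Sylow.ofCard _ hQc
    obtain ⟨g, hg⟩ := MulAction.exists_smul_eq G P Q'
    have hg' : MulAut.conj g • (P : Subgroup G) = (Q : Subgroup D).map D.subtype := by
      have := congrArg (fun S : Sylow p G => (S : Subgroup G)) hg
      simpa [Sylow.coe_subgroup_smul, Q'] using this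
    apply hy g
    rw [mem_conj_smul]
    have e : g⁻¹ * y * g = (g⁻¹ * u * g) * (g⁻¹ * x * g) := by
      rw [hyxu, hcomm.eq]; group
    rw [e]
    apply Subgroup.mul_mem_sup
    · rw [← mem_conj_smul, hg']
      exact ⟨⟨u, huD⟩, hQ (Subgroup.mem_zpowers _), rfl⟩
    · rw [hC, Subgroup.mem_centralizer_iff]
      intro w hw
      have h1 : g * w * g⁻¹ ∈ MulAut.conj g • (P : Subgroup G) := by
        rw [mem_conj_smul]
        have : g⁻¹ * (g * w * g⁻¹) * g = w := by group
        rw [this]; exact hw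
      rw [hg'] at h1
      obtain ⟨d, -, hd⟩ := h1
      have h2 : g * w * g⁻¹ ∈ D := by rw [← hd]; exact d.2
      rw [hD, Subgroup.mem_centralizer_singleton_iff] at h2
      calc w * (g⁻¹ * x * g) = g⁻¹ * ((g * w * g⁻¹) * x) * g := by group
        _ = g⁻¹ * (x * (g * w * g⁻¹)) * g := by rw [h2]
        _ = g⁻¹ * x * g * w := by group
  have hPn : (P : Subgroup G).Normal := by
    rw [← Subgroup.normalizer_eq_top_iff, eq_top_iff, ← hM]
    apply sup_le Subgroup.le_normalizer
    exact Subgroup.centralizer_le_normalizer _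
  refine ⟨hPn, ?_⟩
  have hcop : (Nat.card (P : Subgroup G)).Coprime (P : Subgroup G).index := by
    obtain ⟨a, ha⟩ := IsPGroup.iff_card.1 P.2
    rw [ha]
    exact Nat.Coprime.pow_left a ((Nat.Prime.coprime_iff_not_dvd hp).2 P.not_dvd_index)
  obtain ⟨H, hH⟩ := Subgroup.exists_right_complement'_of_coprime hcop
  have hHc : Nat.card H = (P : Subgroup G).index := by
    have h1 := hH.card_mul_card
    have h2 := (P : Subgroup G).card_mul_index
    rw [← h2] at h1
    exact Nat.eq_of_mul_eq_mul_left Nat.card_pos h1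
  have hHp : ¬ p ∣ Nat.card H := by rw [hHc]; exact P.not_dvd_index
  have hHC : H ≤ C := by
    intro x hx
    have hx' : x ∈ (P : Subgroup G) ⊔ C := by rw [hM]; trivial
    obtain ⟨u, hu, c, hc, rfl⟩ := Subgroup.mem_sup_of_normal_left.1 hx'
    have hcu : Commute u c := by
      rw [hC, Subgroup.mem_centralizer_iff] at hc
      exact hc u hu
    set n := orderOf (u * c) with hn
    have h1 : u ^ n * c ^ n = 1 := by
      rw [← hcu.mul_pow, hn, pow_orderOf_eq_one]
    have h2 : u ^ n ∈ C := by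
      rw [eq_inv_of_mul_eq_one_left h1]
      exact inv_mem (pow_mem hc n)
    have h3 : n.Coprime (orderOf u) := by
      obtain ⟨k, hk⟩ := P.2 ⟨u, hu⟩
      have hk' : u ^ p ^ k = 1 := congrArg Subtype.val hk
      have h4 : orderOf u ∣ p ^ k := orderOf_dvd_of_pow_eq_one hk'
      have h5 : n ∣ Nat.card H := by
        have := orderOf_dvd_natCard (⟨u * c, hx⟩ : H)
        rwa [Subgroup.orderOf_mk] at this
      have h6 : (Nat.card H).Coprime (p ^ k) :=
        Nat.Coprime.pow_right k ((Nat.Prime.coprime_iff_not_dvd hp).2 hHp).symm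
      exact (h6.coprime_dvd_left h5).coprime_dvd_right h4
    obtain ⟨m, hm⟩ := exists_pow_eq_self_of_coprime h3
    have h7 : u ∈ C := by rw [← hm]; exact pow_mem h2 m
    exact mul_mem h7 hc
  refine ⟨H, ?_, hHp, hH.disjoint.eq_bot, hH.sup_eq_top⟩
  rw [← Subgroup.normalizer_eq_top_iff, eq_top_iff, ← hH.sup_eq_top]
  refine sup_le ?_ Subgroup.le_normalizer
  refine le_trans ?_ (Subgroup.centralizer_le_normalizer _)
  intro u hu x hx
  have := hHC hx
  rw [hC, Subgroup.mem_centralizer_iff] at this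
  exact (this u hu).symm

end Cfsg.Agent.S4035
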