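import Cfsg.Statements.S4036
import Mathlib

set_option autoImplicit false
open Cfsg

namespace Cfsg.Agent.S4036

open Cfsg

/-- Let P be a finite abelian p-group and K a group of automorphisms of P (a subgroup of Aut P) whose order is divisible by p. If all non-identity elements of K have the same fixed-point subgroup on P, then K has no non-trivial normal subgroup of order prime to p. -/
theorem result {P : Type*} [CommGroup P] [Finite P] {p : ℕ}
    [Fact p.Prime] (hP : IsPGroup p P) (K : Subgroup (MulAut P)) (hK : p ∣ Nat.card K)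
    (hfix : ∀ x y : MulAut P, x ∈ K → y ∈ K → x ≠ 1 → y ≠ 1 → ∀ v : P, x v = v ↔ y v = v) :
    ∀ N : Subgroup ↥K, N.Normal → ¬ p ∣ Nat.card N → N = ⊥ := by
  intro N hNn hpN
  have hp : p.Prime := Fact.out
  by_contra hne
  obtain ⟨n₀, hn₀, hn₀1⟩ : ∃ n ∈ N, n ≠ 1 := by
    by_contra hcon
    push Not at hcon
    exact hne ((Subgroup.eq_bot_iff_forall _).mpr hcon)
  haveI : Finite (MulAut P) := Finite.of_injective (fun a : MulAut P => (a : P → P)) (fun a b h => by
    ext v; exact congrFun h v)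
  haveI := Fintype.ofFinite N
  obtain ⟨x, hxo⟩ := exists_prime_orderOf_dvd_card' (G := K) p hK
  have hx1 : x.1 ≠ 1 := by
    intro h
    have : x = 1 := Subtype.ext h
    rw [this, orderOf_one] at hxo
    exact hp.one_lt.ne hxo
  have hn₀1' : n₀.1 ≠ 1 := fun h => hn₀1 (Subtype.ext h)
  let τ : P →* P :=
    { toFun := fun v => ∏ n : N, n.1.1 v
      map_one' := by simp
      map_mul' := by
        intro a b
        simp only [map_mul]
        exact Finset.prod_mul_distrib }
  have hτ : ∀ v, τ v = ∏ n : N, n.1.1 v := fun v => rfl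
  have hτk : ∀ k : K, ∀ v, τ (k.1 v) = k.1 (τ v) := by
    intro k v
    rw [hτ, hτ, map_prod]
    rw [← Equiv.prod_comp (MulAut.conjNormal (k⁻¹ : K) : MulAut N).toEquiv (fun n : N => k.1 (n.1.1 v))]
    apply Finset.prod_congr rfl
    intro n _
    have e : ((MulAut.conjNormal (k⁻¹ : K) : MulAut N) n).1 = k⁻¹ * n.1 * k := by
      rw [MulAut.conjNormal_apply, inv_inv]
    show n.1.1 (k.1 v) = k.1 (((MulAut.conjNormal (k⁻¹ : K) : MulAut N) n).1.1 v)
    rw [e]
    show n.1.1 (k.1 v) = (k.1 * (k.1⁻¹ * n.1.1 * k.1)) v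
    have e2 : k.1 * (k.1⁻¹ * n.1.1 * k.1) = n.1.1 * k.1 := by group
    rw [e2]; rfl
  have hτn : ∀ v, τ (n₀.1 v) = τ v := by
    intro v
    rw [hτ, hτ]
    rw [← Equiv.prod_comp (Equiv.mulRight (⟨n₀, hn₀⟩ : N)) (fun n : N => n.1.1 v)]
    rfl
  have hker : τ.ker = ⊥ := by
    by_contra hW
    have hWp : IsPGroup p τ.ker := hP.to_subgroup _
    haveI : Nontrivial τ.ker := (Subgroup.nontrivial_iff_ne_bot _).mpr hW
    obtain ⟨e, he0, he⟩ := hWp.nontrivial_iff_card.mp inferInstance
    have hinv : ∀ a ∈ Subgroup.zpowers x.1, ∀ w ∈ τ.ker, a w ∈ τ.ker := by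
      intro a ha w hw
      have haK : a ∈ K := (Subgroup.zpowers_le.mpr x.2) ha
      rw [MonoidHom.mem_ker] at hw ⊢
      rw [hτk ⟨a, haK⟩ w, hw, map_one]
    letI act : MulAction (Subgroup.zpowers x.1) τ.ker :=
      { smul := fun a w => ⟨a.1 w.1, hinv a.1 a.2 w.1 w.2⟩
        one_smul := fun w => rfl
        mul_smul := fun a b w => rfl }
    have hpg : IsPGroup p (Subgroup.zpowers x.1) := by
      apply IsPGroup.of_card (n := 1)
      rw [Nat.card_zpowers, Subgroup.orderOf_coe, hxo, pow_one]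
    have hfix1 : (1 : τ.ker) ∈ MulAction.fixedPoints (Subgroup.zpowers x.1) τ.ker := by
      intro a
      apply Subtype.ext
      show a.1 1 = 1
      exact map_one _
    obtain ⟨w, hw, hw1⟩ := hpg.exists_fixed_point_of_prime_dvd_card_of_fixed_point τ.ker
      (by rw [he]; exact dvd_pow_self p he0.ne') hfix1
    have hxw : x.1 w.1 = w.1 := congrArg Subtype.val (hw ⟨x.1, Subgroup.mem_zpowers _⟩)
    have hall : ∀ n : N, n.1.1 w.1 = w.1 := by
      intro n
      by_cases hn1 : n.1.1 = 1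
      · rw [hn1]; rfl
      · exact (hfix x.1 n.1.1 x.2 n.1.2 hx1 hn1 w.1).mp hxw
    have h1 : τ w.1 = w.1 ^ Nat.card N := by
      rw [hτ, Finset.prod_congr rfl (fun n _ => hall n), Finset.prod_const, Finset.card_univ,
        Nat.card_eq_fintype_card]
    have h2 : τ w.1 = 1 := w.2
    rw [h1] at h2
    obtain ⟨j, hj⟩ := hP w.1
    have hcop : (Nat.card N).Coprime (p ^ j) :=
      Nat.Coprime.pow_right _ (Nat.coprime_comm.mp ((Nat.Prime.coprime_iff_not_dvd hp).mpr hpN))
    have h3 : orderOf w.1 ∣ 1 := by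
      rw [← Nat.coprime_iff_gcd_eq_one.mp hcop]
      exact Nat.dvd_gcd (orderOf_dvd_of_pow_eq_one h2) (orderOf_dvd_of_pow_eq_one hj)
    have h4 : w.1 = 1 := orderOf_eq_one_iff.mp (Nat.dvd_one.mp h3)
    exact hw1 (Subtype.ext h4.symm)
  apply hn₀1'
  ext v
  have hinj : Function.Injective τ := (MonoidHom.ker_eq_bot_iff τ).mp hker
  exact hinj (hτn v)

end Cfsg.Agent.S4036
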