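import Cfsg.Statements.S4043
import Cfsg.Agent.Lib.Helper9.NPC
import Cfsg.Agent.Lib.Helper9.PFix
import Cfsg.Agent.Lib.Helper1.Frobenius

set_option autoImplicit false

open Cfsg

namespace Cfsg.Agent.S4043

open scoped Pointwise
open Cfsg.Agent.Lib.Helper1 Cfsg.Agent.Lib.Helper9.NPC Cfsg.Agent.Lib.Helper9.PFix

theorem card_eq_of_parts {p a b k l : ℕ} (ha : a.Coprime p) (hb : b.Coprime p)
    (h : a * p ^ k = b * p ^ l) : a = b := by
  apply Nat.dvd_antisymm
  · exact (Nat.Coprime.pow_right l ha).dvd_of_dvd_mul_right (h ▸ Dvd.intro _ rfl)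
  · exact (Nat.Coprime.pow_right k hb).dvd_of_dvd_mul_right (h.symm ▸ Dvd.intro _ rfl)

/-- Let G be a finite group that is the semidirect product of a normal p-subgroup N by a subgroup A, and also of N by a subgroup A₁, where p is a prime and A and A₁ both have normal p-complements. If C_N(A) = C_N(A₁) = 1, then A₁ is conjugate to A by an element of N. -/
theorem result {G : Type*} [Group G] [Finite G] {p : ℕ}
    [Fact p.Prime] (N : Subgroup G) [N.Normal] (hN : IsPGroup p N) (A A₁ : Subgroup G)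
    (hA : A.IsComplement' N) (hA₁ : A₁.IsComplement' N)
    (hAp : Cfsg.HasNormalPComplement p A) (hA₁p : Cfsg.HasNormalPComplement p A₁)
    (hC : ∀ n : G, n ∈ N → (∀ a : G, a ∈ A → a * n * a⁻¹ = n) → n = 1)
    (hC₁ : ∀ n : G, n ∈ N → (∀ a : G, a ∈ A₁ → a * n * a⁻¹ = n) → n = 1) :
    ∃ n : G, n ∈ N ∧ A₁ = A.map (MulAut.conj n).toMonoidHom := by
  have hp : p.Prime := Fact.out
  obtain ⟨K, hKA, hKn, hKc, k, hk⟩ := (npc_sub_iff A).1 hAp
  obtain ⟨K₁, hKA₁, hKn₁, hKc₁, k₁, hk₁⟩ := (npc_sub_iff A₁).1 hA₁p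
  obtain ⟨e, he⟩ := IsPGroup.iff_card.1 hN
  have hcardA : Nat.card A = Nat.card A₁ := by
    have h1 := hA.card_mul_card
    have h2 := hA₁.card_mul_card
    rw [← h2] at h1
    exact Nat.eq_of_mul_eq_mul_right Nat.card_pos h1
  have hcardK : Nat.card K = Nat.card K₁ := by
    apply card_eq_of_parts hKc hKc₁ (k := k) (l := k₁)
    rw [← hk, ← hk₁, hcardA]
  have hNtop : Subgroup.normalizer (N : Set G) = ⊤ := Subgroup.normalizer_eq_top_iff.2 inferInstance
  have hKN : K ≤ Subgroup.normalizer (N : Set G) := by rw [hNtop]; exact le_top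
  have hcop : (Nat.card K).Coprime (Nat.card N) := by
    rw [he]; exact Nat.Coprime.pow_right e hKc
  have hcop₁ : (Nat.card K₁).Coprime (Nat.card N) := by
    rw [he]; exact Nat.Coprime.pow_right e hKc₁
  -- M = K ⊔ N is normal of index p ^ k
  have hMn : (K ⊔ N : Subgroup G).Normal := by
    rw [← Subgroup.normalizer_eq_top_iff, eq_top_iff, ← hA.sup_eq_top]
    apply sup_le
    · intro a ha
      rw [Subgroup.mem_normalizer_iff_map_conj_eq, Subgroup.map_sup,
        Subgroup.mem_normalizer_iff_map_conj_eq.1 (hKn ha),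
        Subgroup.mem_normalizer_iff_map_conj_eq.1 (hNtop ▸ Subgroup.mem_top a)]
    · exact le_sup_right.trans Subgroup.le_normalizer
  have hMidx : (K ⊔ N : Subgroup G).index = p ^ k := by
    have h1 := (K ⊔ N : Subgroup G).card_mul_index
    rw [card_sup_of_coprime K N hKN hcop, ← hA.card_mul_card, hk] at h1
    have h2 : Nat.card K * Nat.card N * (K ⊔ N : Subgroup G).index
        = Nat.card K * Nat.card N * p ^ k := by rw [h1]; ring
    exact Nat.eq_of_mul_eq_mul_left (Nat.mul_pos Nat.card_pos Nat.card_pos) h2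
  have hK₁M : K₁ ≤ K ⊔ N := by
    intro x hx
    have h1 : x ^ p ^ k ∈ (K ⊔ N : Subgroup G) := by
      rw [← hMidx]; exact Subgroup.pow_index_mem _ x
    have h2 : orderOf x ∣ Nat.card K₁ := by
      have := orderOf_dvd_natCard (⟨x, hx⟩ : K₁)
      rwa [Subgroup.orderOf_mk] at this
    have h3 : (p ^ k).Coprime (orderOf x) :=
      (Nat.Coprime.pow_left k (hKc₁.symm)).coprime_dvd_right h2
    obtain ⟨m, hm⟩ := exists_pow_eq_self_of_coprime h3
    rw [← hm]; exact pow_mem h1 m
  have hsolv : Group.IsSolvable N := by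
    have := hN.isNilpotent
    infer_instance
  obtain ⟨n, hn, hconj⟩ := coprime_conj N K K₁ hKN hcop (Or.inr hsolv) hK₁M hcardK.symm
  refine ⟨n, hn, ?_⟩
  set L := Subgroup.normalizer (K₁ : Set G) with hL
  -- L ⊓ N = ⊥
  have hdisj₁ : K₁ ⊓ N = ⊥ := (Subgroup.disjoint_of_coprime_natCard hcop₁).eq_bot
  have hLN : N ⊓ L = ⊥ := by
    by_contra hne
    obtain ⟨T⟩ : Nonempty (Sylow p A₁) := inferInstance
    set T₁ := (T : Subgroup A₁).map A₁.subtype with hT₁
    have hT₁p : IsPGroup p T₁ := T.2.map _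
    have hT₁A : T₁ ≤ A₁ := Subgroup.map_subtype_le _
    have hT₁c : Nat.card T₁ = p ^ k₁ := by
      rw [hT₁, Subgroup.card_map_of_injective A₁.subtype_injective, T.card_eq_multiplicity, hk₁,
        Nat.factorization_mul Nat.card_pos.ne' (pow_ne_zero _ hp.ne_zero), Finsupp.add_apply,
        Nat.factorization_eq_zero_of_not_dvd
          (fun h => hp.one_lt.ne' (Nat.Coprime.eq_one_of_dvd hKc₁.symm h)),
        zero_add, hp.factorization_pow, Finsupp.single_eq_same]
    have hsup : T₁ ⊔ K₁ = A₁ := by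
      apply Subgroup.eq_of_le_of_card_ge (sup_le hT₁A hKA₁)
      rw [card_sup_of_coprime T₁ K₁ (hT₁A.trans hKn₁)
        (by rw [hT₁c]; exact Nat.Coprime.pow_left k₁ hKc₁.symm), hT₁c, hk₁, mul_comm]
    have hTR : T₁ ≤ Subgroup.normalizer ((N ⊓ L : Subgroup G) : Set G) := by
      intro t ht
      rw [Subgroup.mem_normalizer_iff_map_conj_eq,
        Subgroup.map_inf _ _ _ (MulAut.conj t).injective,
        Subgroup.mem_normalizer_iff_map_conj_eq.1 (hNtop ▸ Subgroup.mem_top t),
        Subgroup.mem_normalizer_iff_map_conj_eq.1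
          (Subgroup.le_normalizer (hKn₁ (hT₁A ht)))]
    obtain ⟨z, hz, hz1, hzT⟩ := exists_fixed (hN.to_le inf_le_left) hT₁p hTR hne
    apply hz1
    apply hC₁ z hz.1
    have hzK : z ∈ Subgroup.centralizer (K₁ : Set G) :=
      mem_centralizer_of_mem_normalizer (hNtop ▸ le_top) hdisj₁ hz.1 hz.2
    have hle : A₁ ≤ Subgroup.centralizer ({z} : Set G) := by
      rw [← hsup]
      apply sup_le
      · intro t ht
        rw [Subgroup.mem_centralizer_singleton_iff]
        have := hzT t ht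
        calc t * z = t * z * t⁻¹ * t := by group
          _ = z * t := by rw [this]
      · intro x hx
        rw [Subgroup.mem_centralizer_singleton_iff]
        rw [Subgroup.mem_centralizer_iff] at hzK
        exact hzK x hx
    intro a ha
    have := hle ha
    rw [Subgroup.mem_centralizer_singleton_iff] at this
    rw [this, mul_inv_cancel_right]
  have hLA₁ : L ≤ A₁ := by
    intro x hx
    have hx' : x ∈ A₁ ⊔ N := by rw [hA₁.sup_eq_top]; trivial
    obtain ⟨a, ha, m, hm, rfl⟩ := Subgroup.mem_sup_of_normal_right.1 hx'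
    have h1 : m ∈ N ⊓ L := by
      refine ⟨hm, ?_⟩
      have : m = a⁻¹ * (a * m) := by group
      rw [this]
      exact L.mul_mem (L.inv_mem (hKn₁ ha)) hx
    rw [hLN, Subgroup.mem_bot] at h1
    rw [h1, mul_one]; exact ha
  symm
  apply Subgroup.eq_of_le_of_card_ge
  · refine le_trans ?_ hLA₁
    rintro _ ⟨a, ha, rfl⟩
    show n * a * n⁻¹ ∈ L
    rw [hL, ← hconj, ← conj_smul_normalizer, mem_conj_smul]
    have : n⁻¹ * (n * a * n⁻¹) * n = a := by group
    rw [this]; exact hKn ha
  · rw [Subgroup.card_map_of_injective (MulAut.conj n).injective, hcardA]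

end Cfsg.Agent.S4043
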