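import Cfsg.Statements.S4049
import Cfsg.Agent.Lib.Helper9.RealOdd

set_option autoImplicit false

open Cfsg

namespace Cfsg.Agent.S4049

/-- Let G be a finite group such that N_G(H)/C_G(H) has odd order for every nontrivial subgroup H of odd order. Then the Sylow 2-subgroups of G are normal. -/
theorem result {G : Type*} [Group G] [Finite G]
    (hhom : ∀ H : Subgroup G, H ≠ ⊥ → ¬ 2 ∣ Nat.card ↥H →
        ¬ 2 ∣ (Subgroup.centralizer (H : Set G)).relIndex (Subgroup.normalizer (H : Set G))) (P : Sylow 2 G) :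
    (P : Subgroup G).Normal := by
  apply Cfsg.Agent.Lib.Helper9.RealOdd.sylow_normal
  intro x hx1 hxo hreal
  obtain ⟨g, hg⟩ := isConj_iff.1 hreal
  have hne : Subgroup.zpowers x ≠ ⊥ := by
    rw [Ne, Subgroup.zpowers_eq_bot]; exact hx1
  have hodd : ¬ 2 ∣ Nat.card (Subgroup.zpowers x) := by
    rw [Nat.card_zpowers]
    obtain ⟨k, hk⟩ := hxo
    omega
  apply hhom _ hne hodd
  have hgN : g ∈ Subgroup.normalizer ((Subgroup.zpowers x : Subgroup G) : Set G) := by
    rw [Subgroup.mem_normalizer_iff_map_conj_eq, MonoidHom.map_zpowers]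
    show Subgroup.zpowers (g * x * g⁻¹) = _
    rw [hg, Subgroup.zpowers_inv]
  rw [Subgroup.relIndex, ← Subgroup.normalizerMonoidHom_ker, Subgroup.index_ker]
  set φ := (Subgroup.zpowers x).normalizerMonoidHom with hφ
  -- the image of g has order 2
  have hx2 : x ≠ x⁻¹ := by
    intro h2
    have h3 : x ^ 2 = 1 := by
      rw [pow_two]; nth_rewrite 1 [h2]; simp
    have h4 : orderOf x ∣ 2 := orderOf_dvd_of_pow_eq_one h3
    have h5 : (orderOf x).Coprime 2 := Nat.coprime_two_right.2 hxo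
    exact hx1 (orderOf_eq_one_iff.1 (Nat.Coprime.eq_one_of_dvd h5 h4))
  have hker : ∀ n : Subgroup.normalizer ((Subgroup.zpowers x : Subgroup G) : Set G),
      φ n = 1 ↔ (n : G) * x = x * n := by
    intro n
    rw [← MonoidHom.mem_ker, hφ, Subgroup.normalizerMonoidHom_ker, Subgroup.mem_subgroupOf,
      Subgroup.mem_centralizer_iff]
    constructor
    · intro h
      exact (h x (Subgroup.mem_zpowers x)).symm
    · intro h y hy
      obtain ⟨k, rfl⟩ := Subgroup.mem_zpowers_iff.1 hy
      exact ((Commute.zpow_right (show Commute (n : G) x from h) k).eq).symm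
  have ho : orderOf (φ ⟨g, hgN⟩) = 2 := by
    apply orderOf_eq_prime
    · rw [← map_pow, hker]
      show g ^ 2 * x = x * g ^ 2
      have hg2 : g * x⁻¹ * g⁻¹ = x := by
        have := congrArg (·⁻¹) hg
        simp only [mul_inv_rev, inv_inv] at this
        rw [mul_assoc]; exact this
      have : g ^ 2 * x * (g ^ 2)⁻¹ = x := by
        have e : g ^ 2 * x * (g ^ 2)⁻¹ = g * (g * x * g⁻¹) * g⁻¹ := by
          rw [pow_two]; group
        rw [e, hg, hg2]
      calc g ^ 2 * x = g ^ 2 * x * (g ^ 2)⁻¹ * g ^ 2 := by group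
        _ = x * g ^ 2 := by rw [this]
    · rw [Ne, hker]
      intro h
      apply hx2
      rw [← hg]
      show x = g * x * g⁻¹
      rw [h, mul_inv_cancel_right]
  have hmem : φ ⟨g, hgN⟩ ∈ φ.range := MonoidHom.mem_range.2 ⟨_, rfl⟩
  have h6 : orderOf (⟨φ ⟨g, hgN⟩, hmem⟩ : φ.range) = 2 := by
    rw [Subgroup.orderOf_mk, ho]
  rw [← h6]
  exact orderOf_dvd_natCard _

end Cfsg.Agent.S4049
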