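import Cfsg.Statements.S4051
import Mathlib

set_option autoImplicit false
open Cfsg

namespace Cfsg.Agent.S4051

open Cfsg
open scoped Pointwise

section aux4051
variable {G : Type*} [Group G]

def PiEl4051 (π : Set ℕ) (x : G) : Prop := ∀ p : ℕ, p.Prime → p ∣ orderOf x → p ∈ π

theorem PiEl4051.of_pow {π : Set ℕ} {w : G} {m : ℕ} (hm : ∀ p : ℕ, p.Prime → p ∣ m → p ∈ π)
    (h : PiEl4051 π (w ^ m)) : PiEl4051 π w := by
  intro p hp hpd
  have h1 : orderOf w ∣ m * orderOf (w ^ m) := by
    apply orderOf_dvd_of_pow_eq_one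
    rw [pow_mul, pow_orderOf_eq_one]
  rcases (Nat.Prime.dvd_mul hp).1 (hpd.trans h1) with h2 | h2
  · exact hm p hp h2
  · exact h p hp h2

theorem PiEl4051.map {H : Type*} [Group H] {π : Set ℕ} (f : G →* H) {x : G} (h : PiEl4051 π x) :
    PiEl4051 π (f x) :=
  fun p hp hpd => h p hp (hpd.trans (orderOf_map_dvd f x))

theorem PiEl4051.pow {π : Set ℕ} {x : G} (h : PiEl4051 π x) (n : ℕ) : PiEl4051 π (x ^ n) :=
  fun p hp hpd => h p hp (hpd.trans (orderOf_pow_dvd n))

theorem PiEl4051.mul_of_commute {π : Set ℕ} {a b : G} (hc : Commute a b) (ha : PiEl4051 π a)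
    (hb : PiEl4051 π b) : PiEl4051 π (a * b) := by
  intro p hp hpd
  have h1 := hpd.trans hc.orderOf_mul_dvd_lcm
  have h2 : p ∣ orderOf a * orderOf b := h1.trans (Nat.lcm_dvd_mul _ _)
  rcases (Nat.Prime.dvd_mul hp).1 h2 with h | h
  exacts [ha p hp h, hb p hp h]

theorem le_of_relIndex4051 (X D : Subgroup G)
    (h : ∀ q : ℕ, q.Prime → ∃ Q : Subgroup G, Q ≤ D ∧ ¬ q ∣ Q.relIndex X) : X ≤ D := by
  rw [← Subgroup.relIndex_eq_one]
  by_contra hne
  obtain ⟨q, hq, hqd⟩ := Nat.exists_prime_and_dvd hne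
  obtain ⟨Q, hQD, hQ⟩ := h q hq
  exact hQ (hqd.trans (Subgroup.relIndex_dvd_of_le_left X hQD))

theorem lemmaT4051 {Y : Type*} [Group Y] [Finite Y] (π : Set ℕ) (S : Set Y)
    (hS : ∀ s ∈ S, PiEl4051 π s) (hgen : Subgroup.closure S = ⊤)
    (hidx : ∀ p : ℕ, p.Prime → p ∣ (Subgroup.center Y).index → p ∈ π) (y : Y) :
    PiEl4051 π y := by
  have key : ∀ g : Y, PiEl4051 π (g ^ (Subgroup.center Y).index) := by
    intro g
    have hg : g ∈ Subgroup.closure S := hgen ▸ Subgroup.mem_top g
    induction hg using Subgroup.closure_induction with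
    | mem x hx => exact (hS x hx).pow _
    | one =>
      intro p hp hpd
      simp at hpd
      exact absurd hpd hp.one_lt.ne'
    | mul a b _ _ ha hb =>
      have e : (a * b) ^ (Subgroup.center Y).index
          = a ^ (Subgroup.center Y).index * b ^ (Subgroup.center Y).index := by
        rw [← MonoidHom.transferCenterPow_apply, ← MonoidHom.transferCenterPow_apply,
          ← MonoidHom.transferCenterPow_apply, map_mul]
        rfl
      rw [e]
      refine PiEl4051.mul_of_commute ?_ ha hb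
      have hc : a ^ (Subgroup.center Y).index ∈ Subgroup.center Y := by
        rw [← MonoidHom.transferCenterPow_apply]
        exact (MonoidHom.transferCenterPow Y a).2
      exact (Subgroup.mem_center_iff.1 hc _).symm
    | inv a _ ha =>
      intro p hp hpd
      rw [inv_pow, orderOf_inv] at hpd
      exact ha p hp hpd
  exact PiEl4051.of_pow hidx (key y)

theorem index_eq_relIndex4051 [Finite G] (H K : Subgroup G) [K.Normal] (h : H ⊔ K = ⊤) :
    H.index = H.relIndex K := by
  have h1 : K.relIndex H = K.index := by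
    rw [← Subgroup.relIndex_sup_right H K, h, Subgroup.relIndex_top_right]
  have a := Subgroup.relIndex_mul_index (inf_le_left : H ⊓ K ≤ H)
  have b := Subgroup.relIndex_mul_index (inf_le_right : H ⊓ K ≤ K)
  rw [Subgroup.inf_relIndex_left, h1] at a
  rw [Subgroup.inf_relIndex_right] at b
  have hK : 0 < K.index := Nat.pos_of_ne_zero Subgroup.index_ne_zero_of_finite
  have : K.index * H.index = K.index * H.relIndex K := by rw [a, ← b, mul_comm]
  exact Nat.eq_of_mul_eq_mul_left hK this

theorem conj_into4051 [Finite G] {p : ℕ} [Fact p.Prime] (H : Subgroup G) (hH : ¬ p ∣ H.index) (x : G)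
    (k : ℕ) (hx : orderOf x = p ^ k) : ∃ g : G, g⁻¹ * x * g ∈ H := by
  let P₀ : Sylow p H := default
  have hp1 : IsPGroup p ((P₀ : Subgroup H).map H.subtype) := P₀.2.map _
  have hidx : ¬ p ∣ ((P₀ : Subgroup H).map H.subtype).index := by
    rw [Subgroup.index_map_subtype]
    intro h
    rcases (Nat.Prime.dvd_mul Fact.out).1 h with h | h
    · exact P₀.not_dvd_index h
    · exact hH h
  let S₁ : Sylow p G := hp1.toSylow hidx
  have hz : IsPGroup p (Subgroup.zpowers x) := by
    apply IsPGroup.of_card (n := k)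
    rw [Nat.card_zpowers, hx]
  obtain ⟨Q, hQ⟩ := hz.exists_le_sylow
  obtain ⟨g, hg⟩ := MulAction.exists_smul_eq G S₁ Q
  have h1 : x ∈ ((g • S₁ : Sylow p G) : Subgroup G) := by
    rw [hg]; exact hQ (Subgroup.mem_zpowers _)
  rw [Sylow.smul_def, Sylow.pointwise_smul_def, Subgroup.mem_pointwise_smul_iff_inv_smul_mem] at h1
  refine ⟨g, ?_⟩
  have h2 : g⁻¹ * x * g ∈ (P₀ : Subgroup H).map H.subtype := by
    show g⁻¹ * x * g ∈ (S₁ : Subgroup G)
    simpa [MulAut.smul_def, MulAut.conj_inv_apply] using h1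
  exact Subgroup.map_subtype_le _ h2

theorem cent_of_piEl4051 [Finite G] (π : Set ℕ) (Q : Subgroup G)
    (hrel : ∀ p : ℕ, p.Prime → p ∣ (Subgroup.centralizer (Q : Set G)).relIndex (Subgroup.normalizer (Q : Set G)) → p ∉ π)
    {n : G} (hn : n ∈ Subgroup.normalizer (Q : Set G)) (hπ : PiEl4051 π n) :
    n ∈ Subgroup.centralizer (Q : Set G) := by
  haveI : ((Subgroup.centralizer (Q : Set G)).subgroupOf (Subgroup.normalizer (Q : Set G))).Normal := by
    rw [← Subgroup.normalizerMonoidHom_ker]; infer_instance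
  have h1 := Subgroup.pow_index_mem ((Subgroup.centralizer (Q : Set G)).subgroupOf (Subgroup.normalizer (Q : Set G))) ⟨n, hn⟩
  rw [Subgroup.mem_subgroupOf] at h1
  have h2 : n ^ (Subgroup.centralizer (Q : Set G)).relIndex (Subgroup.normalizer (Q : Set G)) ∈ Subgroup.centralizer (Q : Set G) := by
    unfold Subgroup.relIndex
    simpa using h1
  have hcop : Nat.Coprime ((Subgroup.centralizer (Q : Set G)).relIndex (Subgroup.normalizer (Q : Set G))) (orderOf n) := by
    apply Nat.coprime_of_dvd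
    intro k hk hk1 hk2
    exact hrel k hk hk1 (hπ k hk hk2)
  obtain ⟨m, hm⟩ := exists_pow_eq_self_of_coprime hcop
  rw [← hm]
  exact Subgroup.pow_mem _ h2 m

theorem relIndex_map_subtype4051 (X : Subgroup G) (P : Subgroup X) :
    (P.map X.subtype).relIndex X = P.index := by
  unfold Subgroup.relIndex Subgroup.subgroupOf
  rw [Subgroup.comap_map_eq_self_of_injective X.subtype_injective P]

theorem final4051 {Y : Type*} [Group Y] [Finite Y] (π : Set ℕ) (kk : Set Y)
    (hkk : ∀ s ∈ kk, PiEl4051 π s)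
    (hidx : ∀ p : ℕ, p.Prime → p ∣ (Subgroup.center ↥(Subgroup.closure kk)).index → p ∈ π) :
    ∀ y ∈ Subgroup.closure kk, PiEl4051 π y := by
  intro y hy
  have hS' : ∀ s ∈ ((↑) ⁻¹' kk : Set ↥(Subgroup.closure kk)), PiEl4051 π s := by
    rintro ⟨s, hs0⟩ hs
    have hs' : s ∈ kk := hs
    intro p hp hpd
    rw [Subgroup.orderOf_mk] at hpd
    exact hkk s hs' p hp hpd
  have hgen : Subgroup.closure ((↑) ⁻¹' kk : Set ↥(Subgroup.closure kk)) = ⊤ :=
    Subgroup.closure_closure_coe_preimage
  have hT := lemmaT4051 π _ hS' hgen hidx ⟨y, hy⟩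
  intro p hp hpd
  apply hT p hp
  rwa [Subgroup.orderOf_mk]

end aux4051

set_option maxHeartbeats 1000000 in

/-- Let π be a set of primes and G a finite group such that N_G(H)/C_G(H) is a π'-group for every nontrivial π'-subgroup H of G. If K is a normal subgroup of G such that the π-elements of K form a subgroup and the π-elements of G/K form a subgroup, then the π-elements of G form a subgroup. -/
theorem result {G : Type*} [Group G] [Finite G] (π : Set ℕ)
    (hπ : ∀ p ∈ π, p.Prime) (hhom : (∀ H : Subgroup G, H ≠ ⊥ → (∀ p : ℕ, p.Prime → p ∣ Nat.card ↥H → p ∉ π) →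
        ∀ p : ℕ, p.Prime → p ∣ (Subgroup.centralizer (H : Set G)).relIndex (Subgroup.normalizer (H : Set G)) → p ∉ π))
    (K : Subgroup G) [K.Normal]
    (hK : ∃ L : Subgroup ↥K, ∀ x : ↥K, x ∈ L ↔ ∀ p : ℕ, p.Prime → p ∣ orderOf x → p ∈ π)
    (hQ : ∃ L : Subgroup (G ⧸ K), ∀ x : G ⧸ K, x ∈ L ↔ ∀ p : ℕ, p.Prime → p ∣ orderOf x → p ∈ π) :
    (∃ K : Subgroup G, ∀ x : G, x ∈ K ↔ ∀ p : ℕ, p.Prime → p ∣ orderOf x → p ∈ π) := by
  obtain ⟨L, hL⟩ := hK
  obtain ⟨Lb, hLb⟩ := hQ
  set R : Subgroup G := L.map K.subtype with hRdef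
  have hRmem : ∀ x : G, x ∈ R ↔ x ∈ K ∧ PiEl4051 π x := by
    intro x
    rw [hRdef, Subgroup.mem_map]
    constructor
    · rintro ⟨y, hy, rfl⟩
      refine ⟨y.2, ?_⟩
      have := (hL y).1 hy
      intro p hp hpd
      apply this p hp
      simpa [Subgroup.orderOf_coe] using hpd
    · rintro ⟨hxK, hx⟩
      refine ⟨⟨x, hxK⟩, (hL _).2 ?_, rfl⟩
      intro p hp hpd
      apply hx p hp
      rwa [Subgroup.orderOf_mk] at hpd
  have hRK : R ≤ K := fun x hx => ((hRmem x).1 hx).1
  haveI hRn : R.Normal := by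
    constructor
    intro x hx g
    obtain ⟨h1, h2⟩ := (hRmem x).1 hx
    refine (hRmem _).2 ⟨‹K.Normal›.conj_mem x h1 g, ?_⟩
    intro p hp hpd
    apply h2 p hp
    have : orderOf (g * x * g⁻¹) = orderOf x := by
      have := (MulAut.conj g).orderOf_eq x
      simpa [MulAut.conj_apply] using this
    rwa [this] at hpd
  have hRidx : ∀ p : ℕ, p.Prime → p ∈ π → ¬ p ∣ R.relIndex K := by
    intro p hp hpπ
    haveI : Fact p.Prime := ⟨hp⟩
    let P : Sylow p K := default
    have hPL : (P : Subgroup K) ≤ L := by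
      intro y hy
      rw [hL]
      intro q hq hqd
      obtain ⟨k, hk⟩ := P.2 ⟨y, hy⟩
      have h1 : y ^ p ^ k = 1 := by simpa using congrArg Subtype.val hk
      have h2 := hqd.trans (orderOf_dvd_of_pow_eq_one h1)
      have h3 := (Nat.prime_dvd_prime_iff_eq hq hp).1 (hq.dvd_of_dvd_pow h2)
      rw [h3]; exact hpπ
    rw [hRdef, relIndex_map_subtype4051]
    intro h
    exact P.not_dvd_index (h.trans (Subgroup.index_dvd_of_le hPL))
  set mk : G →* G ⧸ R := QuotientGroup.mk' R with hmk
  have hmk1 : ∀ r : G, mk r = 1 ↔ r ∈ R := fun r => QuotientGroup.eq_one_iff r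
  have step2 : ∀ p : ℕ, p.Prime → p ∈ π → ∀ (x : G) (k : ℕ), orderOf x = p ^ k →
      K ≤ (Subgroup.centralizer {mk x}).comap mk := by
    intro p hp hpπ x k hx
    haveI : Fact p.Prime := ⟨hp⟩
    apply le_of_relIndex4051
    intro q hq
    by_cases hqπ : q ∈ π
    · refine ⟨R, ?_, hRidx q hq hqπ⟩
      intro r hr
      rw [Subgroup.mem_comap, (hmk1 r).2 hr]
      exact Subgroup.one_mem _
    · haveI : Fact q.Prime := ⟨hq⟩
      let Q₁ : Sylow q K := default
      set Q' : Subgroup G := (Q₁ : Subgroup K).map K.subtype with hQ'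
      have hfr : Subgroup.normalizer (Q' : Set G) ⊔ K = ⊤ := Sylow.normalizer_sup_eq_top Q₁
      set H₁ : Subgroup G := Subgroup.normalizer (Q' : Set G) ⊔ R with hH₁
      have hH₁K : H₁ ⊔ K = ⊤ := by
        rw [eq_top_iff, ← hfr]
        exact sup_le_sup_right le_sup_left K
      have hidx : ¬ p ∣ H₁.index := by
        rw [index_eq_relIndex4051 H₁ K hH₁K]
        intro h
        exact hRidx p hp hpπ (h.trans (Subgroup.relIndex_dvd_of_le_left K le_sup_right))
      obtain ⟨g, hg⟩ := conj_into4051 H₁ hidx x k hx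
      rw [hH₁, Subgroup.mem_sup_of_normal_right] at hg
      obtain ⟨n, hn, r, hr, hnr⟩ := hg
      have hmkn : mk n = mk (g⁻¹ * x * g) := by
        rw [← hnr, map_mul, (hmk1 r).2 hr, mul_one]
      have hxpow : (g⁻¹ * x * g) ^ p ^ k = 1 := by
        have e : g⁻¹ * x * g = (MulAut.conj g⁻¹) x := by simp [MulAut.conj_apply]
        rw [e, ← map_pow, ← hx, pow_orderOf_eq_one, map_one]
      have hnpow : n ^ p ^ k ∈ R := by
        rw [← hmk1, map_pow, hmkn, ← map_pow, hxpow, map_one]
      have hπn : PiEl4051 π n := by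
        apply PiEl4051.of_pow (m := p ^ k) _ ((hRmem _).1 hnpow).2
        intro p' hp' hd
        rw [(Nat.prime_dvd_prime_iff_eq hp' hp).1 (hp'.dvd_of_dvd_pow hd)]
        exact hpπ
      have hnC : n ∈ Subgroup.centralizer (Q' : Set G) := by
        by_cases hbot : Q' = ⊥
        · rw [hbot, Subgroup.mem_centralizer_iff]
          intro h hh
          have h1 : h = 1 := by simpa using hh
          rw [h1, one_mul, mul_one]
        · apply cent_of_piEl4051 π Q' (hhom Q' hbot _) hn hπn
          intro p' hp' hd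
          have hQp : IsPGroup q Q' := Q₁.2.map _
          obtain ⟨j, hj⟩ := IsPGroup.iff_card.1 hQp
          rw [hj] at hd
          rw [(Nat.prime_dvd_prime_iff_eq hp' hq).1 (hp'.dvd_of_dvd_pow hd)]
          exact hqπ
      refine ⟨MulAut.conj g • Q', ?_, ?_⟩
      · intro y hy
        rw [Subgroup.mem_pointwise_smul_iff_inv_smul_mem] at hy
        have hu : g⁻¹ * y * g ∈ Q' := by
          simpa [MulAut.smul_def, MulAut.conj_inv_apply] using hy
        have hcomm := Subgroup.mem_centralizer_iff.1 hnC _ hu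
        rw [Subgroup.mem_comap, Subgroup.mem_centralizer_iff]
        rintro _ rfl
        have hUN : mk (g⁻¹ * y * g) * mk (g⁻¹ * x * g) = mk (g⁻¹ * x * g) * mk (g⁻¹ * y * g) := by
          rw [← hmkn, ← map_mul, ← map_mul, hcomm]
        rw [← map_mul, ← map_mul] at hUN ⊢
        have e1 : x * y = g * (g⁻¹ * x * g * (g⁻¹ * y * g)) * g⁻¹ := by group
        have e2 : y * x = g * (g⁻¹ * y * g * (g⁻¹ * x * g)) * g⁻¹ := by group
        rw [e1, e2, map_mul, map_mul, map_mul mk (g * _), map_mul mk g, hUN]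
      · have e1 : (MulAut.conj g • Q').relIndex K = Q'.relIndex K := by
          conv_lhs => rw [← Subgroup.Normal.conj_smul_eq_self g K]
          exact Subgroup.relIndex_pointwise_smul _ _ _
        rw [e1, hQ', relIndex_map_subtype4051]
        exact Q₁.not_dvd_index
  have step3 : ∀ x : G, PiEl4051 π x → ∀ u ∈ K, mk u * mk x = mk x * mk u := by
    intro x hx u hu
    have hle : Subgroup.zpowers x ≤ (Subgroup.centralizer {mk u}).comap mk := by
      apply le_of_relIndex4051
      intro q hq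
      haveI : Fact q.Prime := ⟨hq⟩
      let P : Sylow q (Subgroup.zpowers x) := default
      refine ⟨(P : Subgroup (Subgroup.zpowers x)).map (Subgroup.zpowers x).subtype, ?_, ?_⟩
      · rintro _ ⟨y, hy, rfl⟩
        obtain ⟨k, hk⟩ := P.2 ⟨y, hy⟩
        have h1 : (y : G) ^ q ^ k = 1 := by
          have := congrArg Subtype.val (congrArg Subtype.val hk)
          simpa using this
        obtain ⟨j, -, hj⟩ := (Nat.dvd_prime_pow hq).1 (orderOf_dvd_of_pow_eq_one h1)
        rw [Subgroup.mem_comap, Subgroup.mem_centralizer_iff]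
        rintro _ rfl
        by_cases hqπ : q ∈ π
        · have h2 := step2 q hq hqπ (y : G) j hj hu
          rw [Subgroup.mem_comap, Subgroup.mem_centralizer_iff] at h2
          exact (h2 _ rfl).symm
        · have hj0 : j = 0 := by
            by_contra hj0
            apply hqπ
            apply hx q hq
            refine dvd_trans ?_ (orderOf_dvd_of_mem_zpowers y.2)
            rw [hj]
            exact dvd_pow_self q hj0
          rw [hj0, pow_zero, orderOf_eq_one_iff] at hj
          show mk u * mk (y : G) = mk (y : G) * mk u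
          rw [hj, map_one, mul_one, one_mul]
      · rw [relIndex_map_subtype4051]
        exact P.not_dvd_index
    have h1 := hle (Subgroup.mem_zpowers x)
    rw [Subgroup.mem_comap, Subgroup.mem_centralizer_iff] at h1
    exact h1 _ rfl
  set S₀ : Set G := {x | PiEl4051 π x} with hS₀
  set kk : Set (G ⧸ R) := mk '' S₀ with hkk
  have hWcent : ∀ y ∈ Subgroup.closure kk, ∀ u ∈ K, mk u * y = y * mk u := by
    intro y hy u hu
    have : Subgroup.closure kk ≤ Subgroup.centralizer {mk u} := by
      rw [Subgroup.closure_le]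
      rintro _ ⟨x, hx, rfl⟩
      rw [SetLike.mem_coe, Subgroup.mem_centralizer_iff]
      rintro _ rfl
      exact step3 x hx u hu
    exact Subgroup.mem_centralizer_iff.1 (this hy) (mk u) rfl
  let f : G ⧸ R →* G ⧸ K := QuotientGroup.map R K (MonoidHom.id G) hRK
  have hf : ∀ g : G, f (mk g) = (g : G ⧸ K) := fun g => rfl
  let f' : ↥(Subgroup.closure kk) →* G ⧸ K := f.comp (Subgroup.closure kk).subtype
  have hker : f'.ker ≤ Subgroup.center ↥(Subgroup.closure kk) := by
    intro y hy
    rw [MonoidHom.mem_ker] at hy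
    obtain ⟨g, hg⟩ := QuotientGroup.mk'_surjective R (y : G ⧸ R)
    have hgK : g ∈ K := by
      rw [← QuotientGroup.eq_one_iff, ← hf g]
      show f (QuotientGroup.mk' R g) = 1
      rw [hg]; exact hy
    rw [Subgroup.mem_center_iff]
    intro z
    apply Subtype.ext
    have := hWcent z z.2 g hgK
    show (z : G ⧸ R) * y = y * z
    rw [← hg]; exact this.symm
  have hrange : f'.range ≤ Lb := by
    rintro _ ⟨y, rfl⟩
    have : Subgroup.closure kk ≤ Lb.comap f := by
      rw [Subgroup.closure_le]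
      rintro _ ⟨x, hx, rfl⟩
      show f (mk x) ∈ Lb
      rw [hLb]
      exact (PiEl4051.map (f.comp mk) hx)
    exact this y.2
  have hLbπ : ∀ p : ℕ, p.Prime → p ∣ Nat.card Lb → p ∈ π := by
    intro p hp hpd
    haveI : Fact p.Prime := ⟨hp⟩
    obtain ⟨y, hy⟩ := exists_prime_orderOf_dvd_card' p hpd
    exact (hLb (y : G ⧸ K)).1 y.2 p hp (by rw [Subgroup.orderOf_coe, hy])
  have hidx : ∀ p : ℕ, p.Prime → p ∣ (Subgroup.center ↥(Subgroup.closure kk)).index → p ∈ π := by
    intro p hp hpd
    apply hLbπ p hp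
    have h1 := Subgroup.index_dvd_of_le hker
    rw [Subgroup.index_ker] at h1
    exact hpd.trans (h1.trans (Subgroup.card_dvd_of_le hrange))
  have hT := final4051 π kk (by
    rintro _ ⟨x, hx, rfl⟩
    exact PiEl4051.map mk hx) hidx
  refine ⟨Subgroup.closure S₀, fun x => ⟨fun hx => ?_, fun hx => Subgroup.subset_closure hx⟩⟩
  have hmx : mk x ∈ Subgroup.closure kk := by
    rw [hkk, ← MonoidHom.map_closure]
    exact Subgroup.mem_map_of_mem _ hx
  have h1 : PiEl4051 π (mk x) := hT _ hmx
  apply PiEl4051.of_pow (m := orderOf (mk x)) h1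
  apply ((hRmem _).1 _).2
  rw [← hmk1, map_pow, pow_orderOf_eq_one]

end Cfsg.Agent.S4051
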