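import Cfsg.Statements.S4056
import Mathlib
import Cfsg.Agent.S0013
import Cfsg.Agent.Lib.Helper1.ClassTwo

set_option autoImplicit false
open Cfsg

namespace Cfsg.Agent.S4056

open Cfsg
open Cfsg.Agent.Lib.Helper1
open scoped commutatorElement

/-- In a finite 2-group of nilpotency class at most 2 and exponent dividing 4, the Frattini subgroup lies in the centre and is elementary abelian. -/
theorem result {P : Type*} [Group P] [Finite P] (hP : IsPGroup 2 P)
    (hcl : Group.nilpotencyClass P ≤ 2) (hexp : Monoid.exponent P ∣ 4) :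
    frattini P ≤ Subgroup.center P ∧ Cfsg.IsElementaryAbelian 2 (frattini P) := by
  haveI : Fact (Nat.Prime 2) := ⟨Nat.prime_two⟩
  haveI hnil : Group.IsNilpotent P := hP.isNilpotent
  have h4 : ∀ x : P, x ^ 4 = 1 := fun x => by
    obtain ⟨k, hk⟩ := hexp
    rw [hk, pow_mul, Monoid.pow_exponent_eq_one, one_pow]
  have hu : Subgroup.upperCentralSeries P 2 = ⊤ := Subgroup.upperCentralSeries_eq_top_iff_nilpotencyClass_le.mpr hcl
  have hc : ∀ x y : P, ⁅x, y⁆ ∈ Subgroup.center P := by
    intro x y
    have h1 : x ∈ Subgroup.upperCentralSeries P (1 + 1) := by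
      show x ∈ Subgroup.upperCentralSeries P 2
      rw [hu]; trivial
    have h2 := Subgroup.mem_upperCentralSeries_succ_iff.mp h1 y
    rwa [Subgroup.upperCentralSeries_one] at h2
  have hcomm : ∀ x y z : P, Commute ⁅x, y⁆ z := fun x y z =>
    (Subgroup.mem_center_iff.mp (hc x y) z).symm
  have hc2 : ∀ x y : P, ⁅y, x⁆ ^ 2 = 1 := by
    intro x y
    have h1 := mul_pow_of_class_two (hcomm y x x) (hcomm y x y) 4
    rw [h4, h4, h4] at h1
    have h2 : Nat.choose 4 2 = 6 := by decide
    rw [h2, one_mul, one_mul] at h1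
    have h3 : ⁅y, x⁆ ^ 6 = ⁅y, x⁆ ^ 4 * ⁅y, x⁆ ^ 2 := by rw [← pow_add]
    rw [h3, h4, one_mul] at h1
    exact h1.symm
  let N : Subgroup P :=
    { carrier := {z | z ∈ Subgroup.center P ∧ z ^ 2 = 1}
      one_mem' := ⟨one_mem _, one_pow _⟩
      mul_mem' := by
        rintro a b ⟨ha, ha2⟩ ⟨hb, hb2⟩
        refine ⟨mul_mem ha hb, ?_⟩
        have : Commute a b := (Subgroup.mem_center_iff.mp ha b).symm
        rw [this.mul_pow, ha2, hb2, one_mul]
      inv_mem' := by
        rintro a ⟨ha, ha2⟩
        exact ⟨inv_mem ha, by rw [inv_pow, ha2, inv_one]⟩ }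
  have hNmem : ∀ z, z ∈ N ↔ z ∈ Subgroup.center P ∧ z ^ 2 = 1 := fun z => Iff.rfl
  haveI hNn : N.Normal := by
    constructor
    intro n hn g
    have : g * n * g⁻¹ = n := by
      rw [Subgroup.mem_center_iff.mp hn.1 g]; group
    rw [this]; exact hn
  have hle : frattini P ≤ N := by
    apply Cfsg.Agent.S0013.result 2 hP N
    · rw [commutator_def, Subgroup.commutator_le]
      intro x _ y _
      exact ⟨hc x y, hc2 y x⟩
    · intro x
      refine ⟨?_, ?_⟩
      · rw [Subgroup.mem_center_iff]
        intro y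
        have h1 := commutatorElement_pow_left (hcomm x y x) 2
        rw [hc2] at h1
        exact (commutatorElement_eq_one_iff_mul_comm.mp h1).symm
      · rw [← pow_mul]; exact h4 x
  refine ⟨fun x hx => (hle hx).1, ?_, fun a ha => (hle ha).2⟩
  constructor
  constructor
  intro a b
  apply Subtype.ext
  exact (Subgroup.mem_center_iff.mp (hle a.2).1 b.1).symm

end Cfsg.Agent.S4056
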