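import Cfsg.Statements.S4066
import Mathlib

set_option autoImplicit false
open Cfsg

namespace Cfsg.Agent.S4066

open Pointwise

/-- Let G be a finite group in which the centralizer of every element meets each of its conjugates by elements outside its normalizer trivially. Then any two distinct Sylow p-subgroups of G, for any prime p, intersect trivially. -/
theorem result {G : Type*} [Group G] [Finite G] (hTI : ∀ x : G, Cfsg.IsTISubset (Subgroup.centralizer ({x} : Set G) : Set G))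
    {p : ℕ} [Fact p.Prime] (P Q : Sylow p G) (hPQ : P ≠ Q) : (P : Subgroup G) ⊓ (Q : Subgroup G) = ⊥ := by
  by_contra hne
  obtain ⟨d, hd, hd1⟩ : ∃ d ∈ (P : Subgroup G) ⊓ (Q : Subgroup G), d ≠ 1 := by
    by_contra hc
    push Not at hc
    exact hne (eq_bot_iff.mpr fun x hx => Subgroup.mem_bot.mpr (hc x hx))
  obtain ⟨hdP, hdQ⟩ := Subgroup.mem_inf.mp hd
  haveI : Nontrivial (P : Subgroup G) := ⟨⟨⟨d, hdP⟩, 1, fun h => hd1 (congrArg Subtype.val h)⟩⟩
  haveI := P.2.center_nontrivial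
  obtain ⟨z0, hz0⟩ := exists_ne (1 : Subgroup.center (P : Subgroup G))
  obtain ⟨z, hz⟩ : ∃ z : G, z = ((z0 : (P : Subgroup G)) : G) := ⟨_, rfl⟩
  have hz1 : z ≠ 1 := by
    intro h
    apply hz0
    apply Subtype.ext
    apply Subtype.ext
    rw [← hz, h]; rfl
  have hzP : ∀ y ∈ (P : Subgroup G), y * z = z * y := by
    intro y hy
    have := Subgroup.mem_center_iff.mp z0.2 ⟨y, hy⟩
    rw [hz]
    exact congrArg Subtype.val this
  obtain ⟨C, hC⟩ : ∃ C, C = Subgroup.centralizer ({z} : Set G) := ⟨_, rfl⟩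
  have hmemC : ∀ y, y ∈ C ↔ y * z = z * y := by
    intro y
    rw [hC, Subgroup.mem_centralizer_singleton_iff]
  have hPC : (P : Subgroup G) ≤ C := fun y hy => (hmemC y).mpr (hzP y hy)
  obtain ⟨g, hg⟩ := MulAction.exists_smul_eq G P Q
  have hQ : (Q : Subgroup G) = MulAut.conj g • (P : Subgroup G) := by
    rw [← hg, Sylow.coe_subgroup_smul]
  have hmemQ : ∀ y, y ∈ (Q : Subgroup G) ↔ g⁻¹ * y * g ∈ (P : Subgroup G) := by
    intro y
    rw [hQ, Subgroup.mem_pointwise_smul_iff_inv_smul_mem, ← map_inv, MulAut.smul_def, MulAut.conj_apply, inv_inv]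
  have hgN : g ∈ Subgroup.normalizer (C : Set G) := by
    by_contra hgn
    have h1 := hTI z g (by rw [← hC]; exact hgn) (g⁻¹ * d * g) (by
      rw [← hC]; exact hPC ((hmemQ d).mp hdQ)) (by
      rw [← hC]
      have : g * (g⁻¹ * d * g) * g⁻¹ = d := by group
      rw [this]; exact hPC hdP)
    apply hd1
    have : d = g * (g⁻¹ * d * g) * g⁻¹ := by group
    rw [this, h1]; group
  have hQC : (Q : Subgroup G) ≤ C := by
    intro y hy
    have h1 := hPC ((hmemQ y).mp hy)
    have h2 := (Subgroup.mem_normalizer_iff.mp hgN _).mp h1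
    have : g * (g⁻¹ * y * g) * g⁻¹ = y := by group
    rwa [this] at h2
  have hcomm : ∀ x ∈ C, ∀ c ∈ C, (c * x * c⁻¹) * x = x * (c * x * c⁻¹) := by
    intro x hx c hc
    have hcN : c ∈ Subgroup.normalizer ((Subgroup.centralizer ({x} : Set G) : Subgroup G) : Set G) := by
      by_contra hcn
      have h1 := hTI x c hcn z (by
        rw [SetLike.mem_coe, Subgroup.mem_centralizer_singleton_iff]
        exact ((hmemC x).mp hx).symm) (by
        rw [SetLike.mem_coe, Subgroup.mem_centralizer_singleton_iff, (hmemC c).mp hc, mul_inv_cancel_right]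
        exact ((hmemC x).mp hx).symm)
      exact hz1 h1
    have h2 := (Subgroup.mem_normalizer_iff.mp hcN x).mp (by
      rw [Subgroup.mem_centralizer_singleton_iff])
    rw [Subgroup.mem_centralizer_singleton_iff] at h2
    exact h2
  apply hPQ
  apply Sylow.ext
  refine (P.3 Q.2 ?_).symm
  intro x hx
  obtain ⟨S, hS⟩ : ∃ S : Set G, S = {y | ∃ c ∈ C, y = c * x * c⁻¹} := ⟨_, rfl⟩
  obtain ⟨N, hN⟩ : ∃ N, N = Subgroup.closure S := ⟨_, rfl⟩
  have hxC := hPC hx
  have hSS : ∀ a ∈ S, ∀ b ∈ S, a * b = b * a := by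
    intro a ha b hb
    rw [hS] at ha hb
    obtain ⟨c1, hc1, rfl⟩ := ha
    obtain ⟨c2, hc2, rfl⟩ := hb
    have h1 := hcomm (c2 * x * c2⁻¹) (C.mul_mem (C.mul_mem hc2 hxC) (C.inv_mem hc2)) (c1 * c2⁻¹)
      (C.mul_mem hc1 (C.inv_mem hc2))
    have e : c1 * c2⁻¹ * (c2 * x * c2⁻¹) * (c1 * c2⁻¹)⁻¹ = c1 * x * c1⁻¹ := by group
    rw [e] at h1
    exact h1
  have hNN : ∀ a ∈ N, ∀ b ∈ N, a * b = b * a := by
    have h1 : N ≤ Subgroup.centralizer S := by
      rw [hN, Subgroup.closure_le]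
      intro a ha
      rw [SetLike.mem_coe, Subgroup.mem_centralizer_iff]
      intro b hb
      exact hSS b hb a ha
    have h2 : N ≤ Subgroup.centralizer (N : Set G) := by
      rw [hN, Subgroup.centralizer_closure, ← hN]
      exact h1
    intro a ha b hb
    exact (Subgroup.mem_centralizer_iff.mp (h2 hb) a ha)
  obtain ⟨k, hk⟩ := (IsPGroup.iff_orderOf.mp P.2) ⟨x, hx⟩
  have hxk : x ^ p ^ k = 1 := by
    have := pow_orderOf_eq_one (⟨x, hx⟩ : (P : Subgroup G))
    rw [hk] at this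
    exact congrArg Subtype.val this
  have hNk : ∀ a ∈ N, a ^ p ^ k = 1 := by
    have : N ≤ N ⊓ N := le_inf le_rfl le_rfl
    intro a ha
    have hcl : ∀ a ∈ Subgroup.closure S, a ∈ N ∧ a ^ p ^ k = 1 := by
      intro a ha
      induction ha using Subgroup.closure_induction with
      | mem y hy =>
        refine ⟨hN ▸ Subgroup.subset_closure hy, ?_⟩
        rw [hS] at hy
        obtain ⟨c, -, rfl⟩ := hy
        rw [conj_pow, hxk]; group
      | one => exact ⟨N.one_mem, one_pow _⟩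
      | mul a b _ _ iha ihb =>
        refine ⟨N.mul_mem iha.1 ihb.1, ?_⟩
        rw [(show Commute a b from hNN a iha.1 b ihb.1).mul_pow, iha.2, ihb.2, one_mul]
      | inv a _ iha => exact ⟨N.inv_mem iha.1, by rw [inv_pow, iha.2, inv_one]⟩
    exact (hcl a (hN ▸ ha)).2
  have hNp : IsPGroup p N := by
    intro a
    exact ⟨k, Subtype.ext (hNk a a.2)⟩
  have hconj : ∀ c ∈ C, ∀ h ∈ N, c * h * c⁻¹ ∈ N := by
    intro c hc h hh
    have h1 : N.map (MulAut.conj c).toMonoidHom ≤ N := by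
      rw [hN, MonoidHom.map_closure]
      apply Subgroup.closure_mono
      rintro _ ⟨y, hy, rfl⟩
      rw [hS] at hy ⊢
      obtain ⟨c1, hc1, rfl⟩ := hy
      exact ⟨c * c1, C.mul_mem hc hc1, by simp [MulAut.conj_apply, mul_assoc]⟩
    exact h1 ⟨h, hh, rfl⟩
  have hCN : C ≤ Subgroup.normalizer (N : Set G) := by
    intro c hc
    rw [Subgroup.mem_normalizer_iff]
    intro h
    refine ⟨hconj c hc h, fun hh => ?_⟩
    have := hconj c⁻¹ (C.inv_mem hc) _ hh
    have e : c⁻¹ * (c * h * c⁻¹) * c⁻¹⁻¹ = h := by group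
    rwa [e] at this
  have hsup : IsPGroup p (Q ⊔ N : Subgroup G) := Q.2.to_sup_of_normal_right' hNp (hQC.trans hCN)
  have h5 := Q.3 hsup le_sup_left
  have h6 : x ∈ N := by
    rw [hN]
    apply Subgroup.subset_closure
    rw [hS]
    exact ⟨1, C.one_mem, by simp⟩
  rw [← h5]
  exact Subgroup.mem_sup_right h6

end Cfsg.Agent.S4066
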