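import Cfsg.Statements.S4075
import Cfsg.Agent.Lib.Helper1.SylGen
import Cfsg.Agent.Lib.Helper2.Schmidt

set_option autoImplicit false
open Cfsg

namespace Cfsg.Agent.S4075

open Cfsg.Agent.Lib.Helper1.SylGen

/-- Let G be a finite nilpotent group. Every non-abelian subgroup of G is self-normalizing if and only if G is abelian or G is a minimal non-abelian p-group for some prime p (non-abelian of prime-power order with every proper subgroup abelian). -/
theorem result {G : Type*} [Group G] [Finite G]
    [Group.IsNilpotent G] :
    (∀ H : Subgroup G, ¬ IsMulCommutative H → Subgroup.normalizer (H : Set G) = H) ↔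
    (IsMulCommutative G ∨ (IsPrimePow (Nat.card G) ∧ ¬ IsMulCommutative G ∧ ∀ H : Subgroup G, H ≠ ⊤ → IsMulCommutative H)) := by
  constructor
  · intro h
    by_cases hG : IsMulCommutative G
    · exact Or.inl hG
    right
    have hc : ∀ H : Subgroup G, H ≠ ⊤ → IsMulCommutative H := by
      intro H hH
      by_contra hHc
      have h1 := h H hHc
      have h2 : H < Subgroup.normalizer (H : Set G) :=
        (Group.normalizerCondition_of_isNilpotent (G := G)) H (lt_top_iff_ne_top.mpr hH)
      rw [h1] at h2
      exact lt_irrefl _ h2
    refine ⟨?_, hG, hc⟩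
    by_contra hpp
    apply hG
    have hS : ∀ (p : ℕ) [Fact p.Prime] (P : Sylow p G), (P : Subgroup G) ≠ ⊤ := by
      intro p _ P hP
      apply hpp
      obtain ⟨n, hn⟩ := IsPGroup.iff_card.mp P.2
      rw [hP, Subgroup.card_top] at hn
      have hn0 : n ≠ 0 := by
        rintro rfl
        rw [pow_zero] at hn
        apply hG
        haveI : Subsingleton G := (Nat.card_eq_one_iff_unique.mp hn).1
        exact ⟨⟨fun a b => Subsingleton.elim _ _⟩⟩
      rw [hn]
      exact (Nat.Prime.prime Fact.out).isPrimePow.pow hn0
    have hcen : Subgroup.center G = ⊤ := by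
      apply eq_top_of_sylow_le
      intro p _
      obtain ⟨P⟩ : Nonempty (Sylow p G) := inferInstance
      refine ⟨P, ?_⟩
      intro x hx
      have h1 : Subgroup.centralizer ({x} : Set G) = ⊤ := by
        apply eq_top_of_sylow_le
        intro q _
        by_cases hqp : q = p
        · subst hqp
          refine ⟨P, ?_⟩
          intro y hy
          rw [Subgroup.mem_centralizer_singleton_iff]
          exact congrArg Subtype.val ((hc P (hS q P)).is_comm.comm ⟨y, hy⟩ ⟨x, hx⟩)
        · obtain ⟨Q⟩ : Nonempty (Sylow q G) := inferInstance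
          refine ⟨Q, ?_⟩
          intro y hy
          rw [Subgroup.mem_centralizer_singleton_iff]
          exact Cfsg.Agent.Lib.Helper2.Schmidt.commute_of_isNilpotent hqp Q.2 P.2 hy hx
      rw [Subgroup.mem_center_iff]
      intro g
      have h2 : g ∈ Subgroup.centralizer ({x} : Set G) := by rw [h1]; exact Subgroup.mem_top g
      rw [Subgroup.mem_centralizer_singleton_iff] at h2
      exact h2
    refine ⟨⟨fun a b => ?_⟩⟩
    have : b ∈ Subgroup.center G := by rw [hcen]; exact Subgroup.mem_top b
    exact Subgroup.mem_center_iff.mp this a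
  · rintro (h | ⟨-, -, h⟩) H hH
    · exfalso
      apply hH
      exact ⟨⟨fun a b => Subtype.ext (h.is_comm.comm (a : G) b)⟩⟩
    · have : H = ⊤ := by
        by_contra hne
        exact hH (h H hne)
      subst this
      exact Subgroup.normalizer_eq_top_iff.mpr inferInstance

end Cfsg.Agent.S4075
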