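import Cfsg.Statements.S4084
import Mathlib

set_option autoImplicit false
open Cfsg

namespace Cfsg.Agent.S4084

theorem aux4084 {G H : Type*} [Group G] [Finite G] [Group H] [Finite H] (e : G ≃ H)
    (he : ∀ x y : G, Commute x y ↔ Commute (e x) (e y))
    {p q : ℕ} (hp : p.Prime) (hq : q.Prime) (hpq : p ≠ q) :
    (∃ g : G, orderOf g = p * q) → (∃ h : H, orderOf h = p * q) := by
  rintro ⟨g, hg⟩
  haveI := Fact.mk hp
  haveI := Fact.mk hq
  obtain ⟨A, hA⟩ : ∃ A, A = Subgroup.centralizer ((Subgroup.centralizer ({g} : Set G) : Subgroup G) : Set G) := ⟨_, rfl⟩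
  obtain ⟨B, hB⟩ : ∃ B, B = Subgroup.centralizer ((Subgroup.centralizer ({e g} : Set H) : Subgroup H) : Set H) := ⟨_, rfl⟩
  have hC : ∀ x : G, x ∈ Subgroup.centralizer ({g} : Set G) ↔ e x ∈ Subgroup.centralizer ({e g} : Set H) := by
    intro x
    rw [Subgroup.mem_centralizer_singleton_iff, Subgroup.mem_centralizer_singleton_iff]
    exact he x g
  have hAB : ∀ x : G, x ∈ A ↔ e x ∈ B := by
    intro x
    rw [hA, hB, Subgroup.mem_centralizer_iff, Subgroup.mem_centralizer_iff]
    constructor
    · intro h y hy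
      obtain ⟨y', rfl⟩ := e.surjective y
      exact (he y' x).mp (h y' ((hC y').mpr hy))
    · intro h y hy
      exact (he y x).mpr (h (e y) ((hC y).mp hy))
  have hcard : Nat.card A = Nat.card B := Nat.card_congr (e.subtypeEquiv hAB)
  have hgA : g ∈ A := by
    rw [hA, Subgroup.mem_centralizer_iff]
    intro y hy
    exact Subgroup.mem_centralizer_singleton_iff.mp hy
  have hdvd : p * q ∣ Nat.card B := by
    rw [← hcard, ← hg]
    have := orderOf_dvd_natCard (⟨g, hgA⟩ : A)
    rwa [← Subgroup.orderOf_coe] at this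
  have hBC : B ≤ Subgroup.centralizer ({e g} : Set H) := by
    intro y hy
    rw [hB, Subgroup.mem_centralizer_iff] at hy
    rw [Subgroup.mem_centralizer_singleton_iff]
    exact (hy (e g) (by rw [SetLike.mem_coe, Subgroup.mem_centralizer_singleton_iff])).symm
  obtain ⟨u, hu⟩ := exists_prime_orderOf_dvd_card' (G := B) p ((dvd_mul_right _ _).trans hdvd)
  obtain ⟨v, hv⟩ := exists_prime_orderOf_dvd_card' (G := B) q ((dvd_mul_left _ _).trans hdvd)
  rw [← Subgroup.orderOf_coe] at hu hv
  have hcomm : Commute (u : H) (v : H) := by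
    have h0 : ∀ w ∈ B, ∀ z ∈ Subgroup.centralizer ({e g} : Set H), z * w = w * z := by
      intro w hw
      rw [hB, Subgroup.mem_centralizer_iff] at hw
      exact hw
    exact h0 v v.2 u (hBC u.2)
  refine ⟨u * v, ?_⟩
  rw [hcomm.orderOf_mul_eq_mul_orderOf_of_coprime, hu, hv]
  rw [hu, hv]
  exact (Nat.coprime_primes hp hq).mpr hpq

/-- Let G and H be finite groups whose commuting graphs are isomorphic: there is a bijection e : G → H with x, y commuting exactly when e(x), e(y) commute. Then G and H have the same prime graph: for distinct primes p, q, G has an element of order pq if and only if H does (and #G = #H, so the prime divisors agree). -/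
theorem result {G H : Type*} [Group G] [Finite G] [Group H] [Finite H] (e : G ≃ H)
    (he : ∀ x y : G, Commute x y ↔ Commute (e x) (e y))
    {p q : ℕ} (hp : p.Prime) (hq : q.Prime) (hpq : p ≠ q) :
    (∃ g : G, orderOf g = p * q) ↔ (∃ h : H, orderOf h = p * q) := by
  refine ⟨aux4084 e he hp hq hpq, aux4084 e.symm ?_ hp hq hpq⟩
  intro x y
  rw [he, e.apply_symm_apply, e.apply_symm_apply]

end Cfsg.Agent.S4084
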