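import Cfsg.Statements.S4086
import Cfsg.Agent.Lib.Helper1.Cyc

set_option autoImplicit false
open Cfsg

namespace Cfsg.Agent.S4086

open Cfsg.Agent.Lib.Helper1.Cyc

/-- For a finite group G the following are equivalent: every non-identity element has prime-power order; whenever two elements generate a cyclic subgroup, one of them is a power of the other (the enhanced power graph of G coincides with its power graph). -/
theorem result {G : Type*} [Group G] [Finite G] :
    (∀ g : G, g ≠ 1 → IsPrimePow (orderOf g)) ↔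
    (∀ x y : G, IsCyclic ↥(Subgroup.closure ({x, y} : Set G)) → (x ∈ Subgroup.zpowers y ∨ y ∈ Subgroup.zpowers x)) := by
  constructor
  · intro h x y hK
    obtain ⟨c, hc⟩ := hK.exists_generator
    have hxK : x ∈ Subgroup.closure ({x, y} : Set G) := Subgroup.subset_closure (by simp)
    have hyK : y ∈ Subgroup.closure ({x, y} : Set G) := Subgroup.subset_closure (by simp)
    obtain ⟨p, n, hp, hn⟩ : ∃ p n : ℕ, p.Prime ∧ orderOf (c : G) = p ^ n := by
      by_cases hc1 : (c : G) = 1
      · exact ⟨2, 0, Nat.prime_two, by rw [hc1, orderOf_one, pow_zero]⟩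
      · obtain ⟨p, k, hp, -, hk⟩ := h c hc1
        exact ⟨p, k, Nat.prime_iff.mpr hp, hk.symm⟩
    have hdvd : ∀ z ∈ Subgroup.closure ({x, y} : Set G), ∃ i, orderOf z = p ^ i := by
      intro z hz
      have h1 : orderOf (⟨z, hz⟩ : Subgroup.closure ({x, y} : Set G)) ∣ orderOf c :=
        orderOf_dvd_of_mem_zpowers (hc _)
      rw [← Subgroup.orderOf_coe, ← Subgroup.orderOf_coe, hn] at h1
      obtain ⟨i, -, hi⟩ := (Nat.dvd_prime_pow hp).mp h1
      exact ⟨i, hi⟩
    obtain ⟨i, hi⟩ := hdvd x hxK
    obtain ⟨j, hj⟩ := hdvd y hyK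
    rcases le_total i j with hij | hij
    · left
      exact mem_zpowers_of_orderOf_dvd' _ hK hxK hyK (by rw [hi, hj]; exact pow_dvd_pow p hij)
    · right
      exact mem_zpowers_of_orderOf_dvd' _ hK hyK hxK (by rw [hi, hj]; exact pow_dvd_pow p hij)
  · intro h g hg
    by_contra hnp
    rw [isPrimePow_iff_unique_prime_dvd] at hnp
    have ho1 : orderOf g ≠ 1 := fun h1 => hg (orderOf_eq_one_iff.mp h1)
    obtain ⟨p, hp, hpd⟩ := Nat.exists_prime_and_dvd ho1
    obtain ⟨q, hq, hqd, hqp⟩ : ∃ q : ℕ, q.Prime ∧ q ∣ orderOf g ∧ q ≠ p := by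
      by_contra hc
      push Not at hc
      exact hnp ⟨p, ⟨hp, hpd⟩, fun q hq => hc q hq.1 hq.2⟩
    have hox : orderOf (g ^ (orderOf g / p)) = p := orderOf_pow_orderOf_div (orderOf_pos g).ne' hpd
    have hoy : orderOf (g ^ (orderOf g / q)) = q := orderOf_pow_orderOf_div (orderOf_pos g).ne' hqd
    have hle : Subgroup.closure ({g ^ (orderOf g / p), g ^ (orderOf g / q)} : Set G) ≤ Subgroup.zpowers g := by
      rw [Subgroup.closure_le]
      rintro z (rfl | rfl)
      · exact Subgroup.npow_mem_zpowers g _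
      · exact Subgroup.npow_mem_zpowers g _
    have hcyc : IsCyclic ↥(Subgroup.closure ({g ^ (orderOf g / p), g ^ (orderOf g / q)} : Set G)) :=
      Subgroup.isCyclic_of_le hle
    rcases h _ _ hcyc with h1 | h1
    · have := orderOf_dvd_of_mem_zpowers h1
      rw [hox, hoy] at this
      exact hqp ((Nat.prime_dvd_prime_iff_eq hp hq).mp this).symm
    · have := orderOf_dvd_of_mem_zpowers h1
      rw [hox, hoy] at this
      exact hqp ((Nat.prime_dvd_prime_iff_eq hq hp).mp this)

end Cfsg.Agent.S4086
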