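import Cfsg.Statements.S4089
import Cfsg.Agent.Lib.Helper1.Subn1
import Cfsg.Agent.Lib.Helper1.FixedCount
import Cfsg.Agent.Lib.Helper6.FStar
open Cfsg.Agent.Lib.Helper1
open Cfsg.Agent.Lib.Helper6.Basic Cfsg.Agent.Lib.Helper6.Subn Cfsg.Agent.Lib.Helper6.Rad Cfsg.Agent.Lib.Helper6.Nil Cfsg.Agent.Lib.Helper6.FStar
open scoped Pointwise

set_option autoImplicit false
open Cfsg

namespace Cfsg.Agent.S4089

theorem exists_radical {G : Type*} [Group G] [Finite G] (p : ℕ) [Fact p.Prime] :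
    ∀ (n : ℕ) (R₀ : Subgroup G), Nat.card G - Nat.card R₀ = n → IsPGroup p R₀ →
      ∃ R, R₀ ≤ R ∧ Op p (Nz R) = R ∧ Nz R₀ ≤ Nz R := by
  intro n
  induction n using Nat.strong_induction_on with
  | _ n ih =>
  intro R₀ hn hR₀
  have h1 : R₀ ≤ Op p (Nz R₀) := le_Rd Subgroup.le_normalizer le_rfl hR₀
  rcases eq_or_lt_of_le h1 with he | hlt
  · exact ⟨R₀, le_rfl, he.symm, le_rfl⟩
  · have h2 := card_lt_of_lt hlt
    have h3 : Nat.card (Op p (Nz R₀)) ≤ Nat.card G := Subgroup.card_le_card_group _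
    obtain ⟨R, hR1, hR2, hR3⟩ := ih (Nat.card G - Nat.card (Op p (Nz R₀))) (by omega) _ rfl
      (Op_isPGroup p _)
    exact ⟨R, h1.trans hR1, hR2, (le_Nz_Rd (radClass_pGroup p) _).trans hR3⟩

theorem SN_of_le_pgroup_normalized {G : Type*} [Group G] [Finite G] {p : ℕ} [Fact p.Prime]
    {H R : Subgroup G} (hR : IsPGroup p R) (hHR : H ≤ R) {g : G} (hg : g ∈ Nz R) :
    SN H (H ⊔ Subgroup.zpowers g) := by
  have hX : H ⊔ Subgroup.zpowers g ≤ Nz R :=
    sup_le (hHR.trans Subgroup.le_normalizer) (by rwa [Subgroup.zpowers_le])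
  have h1 : SN H (R ⊓ (H ⊔ Subgroup.zpowers g)) :=
    SN_of_le_nilpotent (hR.to_le inf_le_left).isNilpotent (le_inf hHR le_sup_left)
  refine h1.trans (SN.of_normal inf_le_right ?_)
  exact le_normalizer_inf hX Subgroup.le_normalizer

theorem sInf_sylow_le_radical {G : Type*} [Group G] [Finite G] {p : ℕ} [Fact p.Prime]
    {R : Subgroup G} (hR : Op p (Nz R) = R) :
    sInf {K : Subgroup G | ∃ Q : Sylow p G, R ≤ (Q : Subgroup G) ∧ K = (Q : Subgroup G)} ≤ R := by
  have hRp : IsPGroup p R := hR ▸ Op_isPGroup p _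
  obtain ⟨D, hD⟩ : ∃ D, D = sInf {K : Subgroup G | ∃ Q : Sylow p G, R ≤ (Q : Subgroup G) ∧ K = (Q : Subgroup G)} := ⟨_, rfl⟩
  rw [← hD]
  have hRD : R ≤ D := by
    rw [hD]
    apply le_sInf
    rintro _ ⟨Q, hQ, rfl⟩
    exact hQ
  have hDp : IsPGroup p D := by
    obtain ⟨Q, hQ⟩ := hRp.exists_le_sylow
    exact Q.2.to_le (hD ▸ sInf_le ⟨Q, hQ, rfl⟩)
  have hN : Nz R ≤ Nz D := by
    intro n hn
    rw [← cj_eq_self_iff]
    apply Subgroup.eq_of_le_of_card_ge _ (le_of_eq (card_cj n D).symm)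
    rw [cj_le_iff]
    conv_rhs => rw [hD]
    intro x hx
    rw [mem_cj, Subgroup.mem_sInf]
    rintro _ ⟨Q, hQ, rfl⟩
    have h1 : x ∈ ((n⁻¹ • Q : Sylow p G) : Subgroup G) := by
      have h2 : D ≤ ((n⁻¹ • Q : Sylow p G) : Subgroup G) := by
        rw [hD]
        apply sInf_le
        refine ⟨n⁻¹ • Q, ?_, rfl⟩
        rw [Sylow.coe_subgroup_smul, ← cj_eq_smul]
        have h3 : cj n⁻¹ R = R := cj_eq_self_iff.mpr (Subgroup.inv_mem _ hn)
        rw [← h3]
        exact cj_mono hQ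
      exact h2 hx
    rw [Sylow.coe_subgroup_smul, ← cj_eq_smul, mem_cj] at h1
    exact h1
  have h1 : D ⊓ Nz R ≤ R := by
    conv_rhs => rw [← hR]
    exact le_Rd inf_le_right (le_normalizer_inf hN Subgroup.le_normalizer) (hDp.to_le inf_le_left)
  by_contra hc
  have hlt : R < D := lt_of_le_of_ne hRD (fun he => hc he.ge)
  have := lt_inf_normalizer_of_nilpotent hDp.isNilpotent hlt
  exact absurd h1 (not_le_of_gt this)

/-- Let G be a finite group, p a prime and H a p-subgroup of G. Then the set of elements g of G such that H is subnormal in the subgroup generated by H and g is the union of the normalizers N_G(R) over the subgroups R of G containing H with R = O_p(N_G(R)); and this set does not change when H is replaced by the intersection of all Sylow p-subgroups of G containing H. -/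
theorem result {G : Type*} [Group G] [Finite G] (p : ℕ) [Fact p.Prime]
    (H : Subgroup G) (hH : IsPGroup p H) :
    {g : G | ((H).subgroupOf (H ⊔ Subgroup.zpowers g)).IsSubnormal} =
      {g : G | ∃ R : Subgroup G, H ≤ R ∧ (Cfsg.pCore p (Subgroup.normalizer (R : Set G))).map (Subgroup.normalizer (R : Set G)).subtype = R ∧ g ∈ Subgroup.normalizer (R : Set G)} ∧
    ∀ g : G, (((H).subgroupOf (H ⊔ Subgroup.zpowers g)).IsSubnormal ↔
      (((sInf {K : Subgroup G | ∃ Q : Sylow p G, H ≤ (Q : Subgroup G) ∧ K = (Q : Subgroup G)})).subgroupOf ((sInf {K : Subgroup G | ∃ Q : Sylow p G, H ≤ (Q : Subgroup G) ∧ K = (Q : Subgroup G)}) ⊔ Subgroup.zpowers g)).IsSubnormal) := by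
  have key : ∀ (H : Subgroup G), IsPGroup p H → ∀ g : G, SN H (H ⊔ Subgroup.zpowers g) →
      ∃ R : Subgroup G, H ≤ R ∧ Op p (Nz R) = R ∧ g ∈ Nz R := by
    intro H hH g hsn
    have h1 : H ≤ Op p (H ⊔ Subgroup.zpowers g) := le_Rd_of_sn (radClass_pGroup p) hsn hH
    obtain ⟨R, hR1, hR2, hR3⟩ := exists_radical p _ (Op p (H ⊔ Subgroup.zpowers g)) rfl (Op_isPGroup p _)
    refine ⟨R, h1.trans hR1, hR2, hR3 (le_Nz_Rd (radClass_pGroup p) _ ?_)⟩
    exact le_sup_right (a := H) (Subgroup.mem_zpowers g)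
  constructor
  · ext g
    simp only [Set.mem_setOf_eq, map_pCore]
    rw [subgroupOf_isSubnormal_iff le_sup_left]
    constructor
    · exact key H hH g
    · rintro ⟨R, hHR, hR, hg⟩
      exact SN_of_le_pgroup_normalized (hR ▸ Op_isPGroup p _) hHR hg
  · intro g
    obtain ⟨Hs, hHs⟩ : ∃ Hs, Hs = sInf {K : Subgroup G | ∃ Q : Sylow p G, H ≤ (Q : Subgroup G) ∧ K = (Q : Subgroup G)} := ⟨_, rfl⟩
    rw [← hHs, subgroupOf_isSubnormal_iff le_sup_left, subgroupOf_isSubnormal_iff le_sup_left]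
    have hle : H ≤ Hs := by
      rw [hHs]
      apply le_sInf
      rintro _ ⟨Q, hQ, rfl⟩
      exact hQ
    have hHsp : IsPGroup p Hs := by
      obtain ⟨Q, hQ⟩ := hH.exists_le_sylow
      exact Q.2.to_le (hHs ▸ sInf_le ⟨Q, hQ, rfl⟩)
    constructor
    · intro hsn
      obtain ⟨R, hHR, hR, hg⟩ := key H hH g hsn
      refine SN_of_le_pgroup_normalized (hR ▸ Op_isPGroup p _) ?_ hg
      refine le_trans ?_ (sInf_sylow_le_radical hR)
      rw [hHs]
      apply le_sInf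
      rintro _ ⟨Q, hQ, rfl⟩
      exact sInf_le ⟨Q, hHR.trans hQ, rfl⟩
    · intro hsn
      obtain ⟨R, hHR, hR, hg⟩ := key Hs hHsp g hsn
      exact SN_of_le_pgroup_normalized (hR ▸ Op_isPGroup p _) (hle.trans hHR) hg

end Cfsg.Agent.S4089
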