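import Mathlib
import Cfsg.Statements.S4106
import Cfsg.Agent.Lib.Helper2.PiClasses

set_option autoImplicit false
open Cfsg

namespace Cfsg.Agent.S4106

open Cfsg.Agent.Lib.Helper2.PiClasses

/-- Let G be a finite group, π a set of primes and m the π-part of the order of G. Then the number of conjugacy classes of G consisting of π-elements (elements whose order is divisible only by primes in π) is at most m. -/
theorem result {G : Type*} [Group G] [Finite G]
    (π : Set ℕ) (hπ : ∀ q ∈ π, q.Prime)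
    (m : ℕ) (hm : m ∣ Nat.card G) (hmπ : ∀ q : ℕ, q.Prime → q ∣ m → q ∈ π)
    (hm' : ∀ q ∈ π, ¬ q ∣ Nat.card G / m) :
    Nat.card {C : ConjClasses G // ∀ q : ℕ, q.Prime → (∃ g : G, ConjClasses.mk g = C ∧ q ∣ orderOf g) → q ∈ π} ≤ m := by
  classical
  have hG : Nat.card G ≠ 0 := Nat.card_pos.ne'
  have hm0 : m ≠ 0 := fun h => hG (by rw [h] at hm; exact zero_dvd_iff.mp hm)
  set πf : Finset ℕ := (Nat.card G).primeFactors.filter (fun q => q ∈ π) with hπf
  have hπfp : ∀ r ∈ πf, r.Prime := fun r hr => hπ r (Finset.mem_filter.mp hr).2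
  let f : {C : ConjClasses G // ∀ q : ℕ, q.Prime →
      (∃ g : G, ConjClasses.mk g = C ∧ q ∣ orderOf g) → q ∈ π} → PiCl (↑πf : Set ℕ) G :=
    fun C => ⟨C.1, by
      intro x hx q hq hd
      have h1 : q ∈ π := C.2 q hq ⟨x, ConjClasses.mem_carrier_iff_mk_eq.mp hx, hd⟩
      rw [Finset.mem_coe, hπf, Finset.mem_filter, Nat.mem_primeFactors]
      exact ⟨⟨hq, hd.trans (orderOf_dvd_natCard x), hG⟩, h1⟩⟩
  have hf : Function.Injective f := by
    intro a b hab
    exact Subtype.ext (congrArg (fun z => z.1) hab)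
  refine (Nat.card_le_card_of_injective f hf).trans ((card_PiCl_le πf hπfp G).trans ?_)
  obtain ⟨t, ht⟩ := hm
  have ht0 : t ≠ 0 := fun h => hG (by rw [ht, h, mul_zero])
  have hdiv : Nat.card G / m = t := by
    rw [ht]; exact Nat.mul_div_cancel_left t (Nat.pos_of_ne_zero hm0)
  have h1 : piPart πf (Nat.card G) = ∏ r ∈ πf, r ^ m.factorization r := by
    unfold piPart
    apply Finset.prod_congr rfl
    intro r hr
    have hr1 : ¬ r ∣ t := hdiv ▸ hm' r (Finset.mem_filter.mp hr).2
    rw [ht, Nat.factorization_mul hm0 ht0, Finsupp.add_apply,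
      Nat.factorization_eq_zero_of_not_dvd hr1, add_zero]
  have h2 : m.factorization.prod (fun a b => a ^ b) = ∏ r ∈ πf, r ^ m.factorization r := by
    apply Finsupp.prod_of_support_subset
    · intro q hq
      rw [Nat.support_factorization, Nat.mem_primeFactors] at hq
      rw [hπf, Finset.mem_filter, Nat.mem_primeFactors]
      exact ⟨⟨hq.1, hq.2.1.trans ⟨t, ht⟩, hG⟩, hmπ q hq.1 hq.2.1⟩
    · intro i _
      exact pow_zero i
  rw [h1, ← h2, Nat.prod_factorization_pow_eq_self hm0]

end Cfsg.Agent.S4106
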