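import Mathlib
import Cfsg.Statements.S4107
import Cfsg.Agent.Lib.Helper1.Cores

set_option autoImplicit false
open Cfsg

namespace Cfsg.Agent.S4107

open Cfsg.Agent.Lib.Helper1

theorem key {G : Type*} [Group G] [Finite G] (N : Subgroup G) [N.Normal]
    (heq : ∀ x : G, x ∉ N → ∀ n ∈ N, orderOf (x * n) = orderOf x)
    (p : ℕ) [Fact p.Prime] (h : ¬ Cfsg.pCore p G ≤ N) : IsPGroup p N := by
  obtain ⟨x, hx, hxN⟩ := SetLike.not_le_iff_exists.1 h
  have hP := pCore_isPGroup (G := G) p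
  haveI := pCore_normal (G := G) p
  obtain ⟨k, hk⟩ := hP ⟨x, hx⟩
  have hk' : x ^ p ^ k = 1 := congrArg Subtype.val hk
  intro n
  have h1 : (x * n) ^ p ^ k = 1 := by
    have h2 : orderOf (x * n) ∣ p ^ k := by
      rw [heq x hxN n n.2]; exact orderOf_dvd_of_pow_eq_one hk'
    exact orderOf_dvd_iff_pow_eq_one.1 h2
  have h3 : (n : G) ^ p ^ k ∈ Cfsg.pCore p G := by
    rw [← QuotientGroup.eq_one_iff]
    have hx1 : QuotientGroup.mk' (Cfsg.pCore p G) x = 1 := (QuotientGroup.eq_one_iff x).2 hx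
    have h4 : QuotientGroup.mk' (Cfsg.pCore p G) ((x * n) ^ p ^ k) = 1 := by rw [h1, map_one]
    rw [map_pow, map_mul, hx1, one_mul, ← map_pow] at h4
    exact h4
  obtain ⟨j, hj⟩ := hP ⟨_, h3⟩
  have hj' : ((n : G) ^ p ^ k) ^ p ^ j = 1 := congrArg Subtype.val hj
  refine ⟨k + j, ?_⟩
  apply Subtype.ext
  rw [Subgroup.coe_pow, pow_add, pow_mul, hj']
  rfl

theorem result {G : Type*} [Group G] [Finite G] (N : Subgroup G) [N.Normal] (hN1 : N ≠ ⊥) (hN2 : N ≠ ⊤)
    (heq : ∀ x : G, x ∉ N → ∀ n ∈ N, orderOf (x * n) = orderOf x) :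
    (N ≤ Cfsg.fittingSubgroup G ∨ Cfsg.fittingSubgroup G ≤ N) ∧
    (N < Cfsg.fittingSubgroup G → IsPrimePow (Nat.card (Cfsg.fittingSubgroup G))) := by
  have hex : ¬ Cfsg.fittingSubgroup G ≤ N → ∃ p : Nat.Primes, ¬ Cfsg.pCore (p : ℕ) G ≤ N := by
    intro h
    by_contra hcon
    push_neg at hcon
    apply h
    rw [fitting_eq_iSup_pCore]
    exact iSup_le hcon
  constructor
  · by_cases h : Cfsg.fittingSubgroup G ≤ N
    · exact Or.inr h
    · left
      obtain ⟨p, hp⟩ := hex h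
      haveI := Fact.mk p.2
      exact (le_pCore inferInstance (key N heq p hp)).trans (pCore_le_fitting p)
  · intro hlt
    obtain ⟨p, hp⟩ := hex (not_le_of_gt hlt)
    haveI := Fact.mk p.2
    have hNp := key N heq p hp
    have hF : Cfsg.fittingSubgroup G = Cfsg.pCore (p : ℕ) G := by
      apply le_antisymm _ (pCore_le_fitting p)
      rw [fitting_eq_iSup_pCore]
      apply iSup_le
      intro q
      by_cases hqN : Cfsg.pCore (q : ℕ) G ≤ N
      · exact hqN.trans (le_pCore inferInstance hNp)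
      · haveI := Fact.mk q.2
        have hNq := key N heq q hqN
        by_cases hpq : (p : ℕ) = q
        · rw [hpq]
        · exact absurd (disjoint_self.1 (IsPGroup.disjoint_of_ne _ _ hpq N N hNp hNq)) hN1
    rw [hF]
    obtain ⟨k, hk⟩ := IsPGroup.iff_card.1 (pCore_isPGroup (G := G) p)
    rw [hk]
    have hk0 : k ≠ 0 := by
      rintro rfl
      rw [pow_zero, Subgroup.card_eq_one] at hk
      apply hN1
      rw [eq_bot_iff, ← hk, ← hF]
      exact hlt.le
    exact (isPrimePow_nat_iff _).2 ⟨p, k, p.2, Nat.pos_of_ne_zero hk0, rfl⟩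

end Cfsg.Agent.S4107
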