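import Mathlib
import Cfsg.Statements.S4116
import Cfsg.Agent.Lib.Helper2.SimpleTI
import Cfsg.Agent.Lib.Helper2.SylowUtil
import Cfsg.Agent.Lib.Helper1.Cores

set_option autoImplicit false
open Cfsg

namespace Cfsg.Agent.S4116

open scoped Pointwise
open Cfsg.Agent.Lib.Helper2.Schmidt Cfsg.Agent.Lib.Helper2.Conj Cfsg.Agent.Lib.Helper2.SylowUtil

theorem exists_ne_one {G : Type*} [Group G] {N : Subgroup G} (h : N ≠ ⊥) : ∃ y ∈ N, y ≠ 1 := by
  by_contra hcon
  push Not at hcon
  exact h (eq_bot_iff.mpr fun y hy => Subgroup.mem_bot.mpr (hcon y hy))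

theorem exists_sylow_le_of_hall {G : Type*} [Group G] [Finite G] (H : Subgroup G)
    (hHall : (Nat.card H).Coprime H.index) (p : ℕ) [Fact p.Prime] (hpH : p ∣ Nat.card H) :
    ∃ S : Sylow p G, (S : Subgroup G) ≤ H := by
  have hpp : p.Prime := Fact.out
  obtain ⟨S⟩ : Nonempty (Sylow p H) := inferInstance
  have hSp : IsPGroup p ((S : Subgroup H).map H.subtype) := S.2.map _
  have hSi : ¬ p ∣ ((S : Subgroup H).map H.subtype).index := by
    rw [Subgroup.index_map_subtype]
    intro hd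
    rcases (Nat.Prime.dvd_mul hpp).mp hd with h1 | h1
    · exact S.not_dvd_index h1
    · exact Nat.Prime.not_coprime_iff_dvd.mpr ⟨p, hpp, hpH, h1⟩ hHall
  exact ⟨hSp.toSylow hSi, Subgroup.map_subtype_le _⟩

theorem conj_eq_of_mem {G : Type*} [Group G] (H : Subgroup G) (hTI : Cfsg.IsTISubset (H : Set G))
    {y a b : G} (hy : y ≠ 1) (ha : y ∈ MulAut.conj a • H) (hb : y ∈ MulAut.conj b • H) :
    MulAut.conj a • H = MulAut.conj b • H := by
  rw [mem_conj_smul] at ha hb
  have h1 : b⁻¹ * a ∈ Subgroup.normalizer (H : Set G) := by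
    by_contra hn
    have h2 := hTI (b⁻¹ * a) hn (a⁻¹ * y * a) ha (by
      have : b⁻¹ * a * (a⁻¹ * y * a) * (b⁻¹ * a)⁻¹ = b⁻¹ * y * b := by group
      rw [this]; exact hb)
    apply hy
    have : y = a * (a⁻¹ * y * a) * a⁻¹ := by group
    rw [this, h2]; group
  have h2 := conj_smul_eq_iff_mem_normalizer.mpr h1
  rw [conj_mul_smul] at h2
  have h3 := congrArg (fun X => MulAut.conj b • X) h2
  simpa [conj_smul_inv_smul] using h3

/-- a `π`-subgroup normalizing the Hall subgroup `H` lies in `H`. -/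
theorem le_of_le_normalizer {G : Type*} [Group G] [Finite G] (H : Subgroup G)
    (hHall : (Nat.card H).Coprime H.index) (K : Subgroup G)
    (hK : ∀ q : ℕ, q.Prime → q ∣ Nat.card K → q ∣ Nat.card H)
    (hKN : K ≤ Subgroup.normalizer (H : Set G)) : K ≤ H := by
  rw [← Subgroup.subgroupOf_eq_top]
  apply Cfsg.Agent.Lib.Helper1.eq_top_of_sylow_le
  intro r hr
  obtain ⟨R⟩ : Nonempty (Sylow r K) := inferInstance
  refine ⟨R, ?_⟩
  by_cases hrK : r ∣ Nat.card K
  · obtain ⟨S, hS⟩ := exists_sylow_le_of_hall H hHall r (hK r hr.out hrK)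
    obtain ⟨n, hnN, hn⟩ := exists_conj_le_in (Subgroup.normalizer (H : Set G)) S
      (hS.trans Subgroup.le_normalizer) ((R : Subgroup K).map K.subtype) (R.2.map _)
      ((Subgroup.map_subtype_le _).trans hKN)
    intro y hy
    rw [Subgroup.mem_subgroupOf]
    have h1 : (y : G) ∈ (R : Subgroup K).map K.subtype := ⟨y, hy, rfl⟩
    have h2 := conj_smul_mono (g := n⁻¹) (hn.trans hS)
    rw [conj_inv_smul_smul, conj_smul_eq_iff_mem_normalizer.mpr (inv_mem hnN)] at h2
    exact h2 h1
  · have h1 : Nat.card (R : Subgroup K) = 1 := by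
      obtain ⟨k, hk⟩ := IsPGroup.iff_card.mp R.2
      have h2 : r ^ k ∣ Nat.card K := hk ▸ Subgroup.card_subgroup_dvd_card (R : Subgroup K)
      have hk0 : k = 0 := by
        by_contra hk0
        exact hrK ((dvd_pow_self r hk0).trans h2)
      rw [hk, hk0, pow_zero]
    rw [(Subgroup.card_le_one_iff_eq_bot _).mp h1.le]
    exact bot_le

theorem aux {G : Type*} [Group G] [Finite G] (H : Subgroup G)
    (hHall : (Nat.card H).Coprime H.index) (hTI : Cfsg.IsTISubset (H : Set G)) :
    ∀ (n : ℕ) (K : Subgroup G), Nat.card K = n →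
    (∀ q : ℕ, q.Prime → q ∣ Nat.card K → q ∣ Nat.card H) → ∃ g : G, K ≤ MulAut.conj g • H := by
  intro n
  induction n using Nat.strong_induction_on with
  | _ n ih =>
  intro K hn hK
  by_contra hgoal
  push Not at hgoal
  have hKb : K ≠ ⊥ := by
    rintro rfl
    exact hgoal 1 bot_le
  haveI : Nontrivial K := (Subgroup.nontrivial_iff_ne_bot K).mpr hKb
  have hprop : ∀ L : Subgroup K, L ≠ ⊤ → ∃ x : G, L.map K.subtype ≤ MulAut.conj x • H := by
    intro L hL
    have hc : Nat.card (L.map K.subtype) = Nat.card L :=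
      Subgroup.card_map_of_injective K.subtype_injective
    have hlt : Nat.card (L.map K.subtype) < n := by
      rw [hc, ← hn]
      exact Nat.lt_of_le_of_ne (Subgroup.card_le_card_group L)
        (fun h => hL (Subgroup.eq_top_of_card_eq L h))
    apply ih _ hlt _ rfl
    intro p hp hpd
    rw [hc] at hpd
    exact hK p hp (hpd.trans (Subgroup.card_subgroup_dvd_card L))
  have hconjHall : ∀ x : G, (Nat.card (MulAut.conj x • H : Subgroup G)).Coprime
      (MulAut.conj x • H : Subgroup G).index ∧ Nat.card (MulAut.conj x • H : Subgroup G) = Nat.card H := by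
    intro x
    have hc : Nat.card (MulAut.conj x • H : Subgroup G) = Nat.card H := card_conj_smul x H
    have hi : (MulAut.conj x • H : Subgroup G).index = H.index := by
      have h1 := Subgroup.card_mul_index (MulAut.conj x • H : Subgroup G)
      have h2 := Subgroup.card_mul_index H
      rw [hc, ← h2] at h1
      exact Nat.eq_of_mul_eq_mul_left Nat.card_pos h1
    exact ⟨by rw [hc, hi]; exact hHall, hc⟩
  -- K is simple
  haveI : IsSimpleGroup K := ⟨fun N hN => by
    by_contra hcon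
    push Not at hcon
    obtain ⟨hNb, hNt⟩ := hcon
    obtain ⟨x, hx⟩ := hprop N hNt
    apply hgoal x
    apply le_of_le_normalizer _ (hconjHall x).1 K (by rw [(hconjHall x).2]; exact hK)
    intro k hk
    rw [← conj_smul_eq_iff_mem_normalizer, ← conj_mul_smul]
    obtain ⟨y, hy, hy1⟩ := exists_ne_one hNb
    have hy1' : (y : G) ≠ 1 := fun h => hy1 (Subtype.ext h)
    apply conj_eq_of_mem H hTI hy1'
    · rw [conj_mul_smul, mem_conj_smul]
      apply hx
      refine ⟨⟨k, hk⟩⁻¹ * y * ⟨k, hk⟩, ?_, rfl⟩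
      have := hN.conj_mem y hy ⟨k, hk⟩⁻¹
      simpa using this
    · exact hx ⟨y, hy, rfl⟩⟩
  have hTIK : ∀ M L : Subgroup K, IsCoatom M → IsCoatom L → M ≠ L → M ⊓ L = ⊥ := by
    intro M L hM hL hne
    by_contra hb
    obtain ⟨a, ha⟩ := hprop M hM.1
    obtain ⟨b, hb'⟩ := hprop L hL.1
    obtain ⟨y, hy, hy1⟩ := exists_ne_one hb
    have hy1' : (y : G) ≠ 1 := fun h => hy1 (Subtype.ext h)
    have e := conj_eq_of_mem H hTI hy1' (ha ⟨y, hy.1, rfl⟩) (hb' ⟨y, hy.2, rfl⟩)
    have hsup : M ⊔ L = ⊤ := by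
      refine hM.2 _ (lt_of_le_of_ne le_sup_left ?_)
      intro h
      have hLM : L ≤ M := h ▸ le_sup_right
      rcases eq_or_lt_of_le hLM with h2 | h2
      · exact hne h2.symm
      · exact hM.1 (hL.2 _ h2)
    apply hgoal a
    have h1 : (M ⊔ L).map K.subtype ≤ MulAut.conj a • H := by
      rw [Subgroup.map_sup]
      exact sup_le ha (e ▸ hb')
    rw [hsup, ← MonoidHom.range_eq_map, Subgroup.range_subtype] at h1
    exact h1
  apply false_of_simple_TI (G := K) _ hTIK
  intro hc
  -- abelian simple: K is an r-group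
  obtain ⟨r, hr, hrd⟩ := Nat.exists_prime_and_dvd (Finite.one_lt_card (α := K)).ne'
  haveI : Fact r.Prime := ⟨hr⟩
  obtain ⟨R⟩ : Nonempty (Sylow r K) := inferInstance
  have hRn : (R : Subgroup K).Normal := ⟨fun y hy g => by rw [hc g y]; simpa using hy⟩
  have hRt : (R : Subgroup K) = ⊤ := by
    rcases hRn.eq_bot_or_eq_top with h | h
    · exfalso
      have h1 := R.dvd_card_of_dvd_card hrd
      have h2 : Nat.card (R : Subgroup K) = 1 := by rw [h]; exact Subgroup.card_bot
      have h3 : Nat.card R = 1 := h2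
      rw [h3] at h1
      exact hr.one_lt.ne' (Nat.dvd_one.mp h1)
    · exact h
  have hKr : IsPGroup r K := by
    have := R.isPGroup'
    rw [hRt] at this
    exact this.of_equiv Subgroup.topEquiv
  obtain ⟨S, hS⟩ := exists_sylow_le_of_hall H hHall r (hK r hr hrd)
  obtain ⟨m, -, hm⟩ := exists_conj_le_in ⊤ S le_top K hKr le_top
  apply hgoal m⁻¹
  have h2 := conj_smul_mono (g := m⁻¹) (hm.trans hS)
  rwa [conj_inv_smul_smul] at h2

theorem result {G : Type*} [Group G] [Finite G] (H : Subgroup G)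
    (hHall : (Nat.card H).Coprime H.index) (hTI : Cfsg.IsTISubset (H : Set G))
    (K : Subgroup G) (hK : ∀ q : ℕ, q.Prime → q ∣ Nat.card K → q ∣ Nat.card H) :
    ∃ g : G, K ≤ H.map (MulAut.conj g).toMonoidHom := by
  exact aux H hHall hTI _ K rfl hK

end Cfsg.Agent.S4116
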