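import Cfsg.Statements.S4127
import Cfsg.Agent.Lib.Helper9.Camina
import Cfsg.Agent.Lib.Helper6.PAct

set_option autoImplicit false
open Cfsg

namespace Cfsg.Agent.S4127

open Cfsg.Agent.Lib.Helper9.Camina Cfsg.Agent.Lib.Helper1
open scoped Pointwise

/-- Let G be a finite group, p a prime and p^a the largest power of p dividing the size of any conjugacy class of G. If some element of p-power order has a conjugacy class of size exactly p^a, then G has a normal p-complement. -/
theorem result {G : Type*} [Group G] [Finite G] (p : ℕ) [Fact p.Prime]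
    (a : ℕ) (hmax : ∀ y : G, ¬ p ^ (a + 1) ∣ (Subgroup.centralizer ({y} : Set G)).index)
    (hx : ∃ x : G, (∃ k : ℕ, orderOf x = p ^ k) ∧ (Subgroup.centralizer ({x} : Set G)).index = p ^ a) :
    Cfsg.HasNormalPComplement p G := by
  obtain ⟨x, ⟨k, hxo⟩, hxi⟩ := hx
  have hp : p.Prime := Fact.out
  have hxp : ∃ k : ℕ, x ^ p ^ k = 1 := ⟨k, by rw [← hxo]; exact pow_orderOf_eq_one x⟩
  set C := Subgroup.centralizer ({x} : Set G) with hC
  -- `p'`-elements of `C` have class size prime to `p` in `C`
  have hrel : ∀ y ∈ C, (orderOf y).Coprime p →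
      ¬ p ∣ (Subgroup.centralizer ({y} : Set G)).relIndex C := by
    intro y hyC hy hd
    have hcomm : Commute x y := (Subgroup.mem_centralizer_singleton_iff.mp hyC).symm
    have hcop : (orderOf x).Coprime (orderOf y) := by
      rw [hxo]; exact (Nat.Coprime.pow_right k hy).symm
    have heq : Subgroup.centralizer ({x * y} : Set G) = C ⊓ Subgroup.centralizer ({y} : Set G) := by
      apply le_antisymm
      · intro z hz
        have hz' : Commute z (x * y) := Subgroup.mem_centralizer_singleton_iff.mp hz
        obtain ⟨m, hm⟩ := exists_pow_eq_self_of_coprime hcop.symm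
        obtain ⟨m', hm'⟩ := exists_pow_eq_self_of_coprime hcop
        have h1 : ((x * y) ^ orderOf y) ^ m = x := by
          rw [hcomm.mul_pow, pow_orderOf_eq_one, mul_one, hm]
        have h2 : ((x * y) ^ orderOf x) ^ m' = y := by
          rw [hcomm.mul_pow, pow_orderOf_eq_one, one_mul, hm']
        refine ⟨Subgroup.mem_centralizer_singleton_iff.mpr ?_,
          Subgroup.mem_centralizer_singleton_iff.mpr ?_⟩
        · have := (hz'.pow_right (orderOf y)).pow_right m
          rw [h1] at this; exact this.eq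
        · have := (hz'.pow_right (orderOf x)).pow_right m'
          rw [h2] at this; exact this.eq
      · rintro z ⟨hz1, hz2⟩
        have a1 : Commute z x := Subgroup.mem_centralizer_singleton_iff.mp hz1
        have a2 : Commute z y := Subgroup.mem_centralizer_singleton_iff.mp hz2
        exact Subgroup.mem_centralizer_singleton_iff.mpr (a1.mul_right a2).eq
    apply hmax (x * y)
    rw [heq, ← Subgroup.relIndex_mul_index (inf_le_left : C ⊓ _ ≤ C), Subgroup.inf_relIndex_left, hxi,
      pow_succ, mul_comm]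
    exact Nat.mul_dvd_mul_right hd _
  have star : ∀ y ∈ C, ∀ t ∈ C, (orderOf y).Coprime p → (∃ k : ℕ, t ^ p ^ k = 1) → Commute y t := by
    intro y hy t ht hyo htp
    have h1 := commute_of_index (G := ↥C) (p := p) ?_ ⟨y, hy⟩ ⟨t, ht⟩
      (by rw [Subgroup.orderOf_mk]; exact hyo)
      (by obtain ⟨j, hj⟩ := htp; exact ⟨j, Subtype.ext hj⟩)
    · exact congrArg Subtype.val h1.eq
    · intro w hw
      have h2 : Subgroup.centralizer ({w} : Set ↥C) =
          (Subgroup.centralizer ({(w : G)} : Set G)).subgroupOf C := by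
        ext z
        rw [Subgroup.mem_subgroupOf, Subgroup.mem_centralizer_singleton_iff,
          Subgroup.mem_centralizer_singleton_iff]
        constructor
        · intro h; exact congrArg Subtype.val h
        · intro h; exact Subtype.ext h
      rw [h2]
      exact hrel w w.2 (by rw [Subgroup.orderOf_coe]; exact hw)
  -- the normal closure of `x`
  set N := Subgroup.normalClosure ({x} : Set G) with hN
  have hNp : IsPGroup p N := isPGroup_normalClosure hxp hxi
  have hNn : N.Normal := Subgroup.normalClosure_normal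
  have hxN : x ∈ N := Subgroup.subset_normalClosure rfl
  have hNtop : Subgroup.normalizer (N : Set G) = ⊤ := Subgroup.normalizer_eq_top_iff.mpr hNn
  set K := Subgroup.centralizer (N : Set G) with hK
  have hKn : K.Normal := inferInstance
  have hKC : K ≤ C := by
    intro z hz
    exact Subgroup.mem_centralizer_singleton_iff.mpr (Subgroup.mem_centralizer_iff.mp hz x hxN).symm
  have hCK : ∀ y ∈ C, (orderOf y).Coprime p → y ∈ K := by
    intro y hy hyo
    apply Cfsg.Agent.Lib.Helper6.PAct.thompson_AxB (R := N) (B := Subgroup.zpowers x) hNp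
      (isPGroup_zpowers_of_pow hxp) (hNtop.ge.trans' le_top) (hNtop.ge (Subgroup.mem_top y)) ?_ hyo ?_
    · rw [Subgroup.mem_centralizer_iff]
      intro z hz
      obtain ⟨i, rfl⟩ := Subgroup.mem_zpowers_iff.mp hz
      have : Commute x y := (Subgroup.mem_centralizer_singleton_iff.mp hy).symm
      exact (this.zpow_left i).eq
    · rw [Subgroup.mem_centralizer_iff]
      rintro t ⟨ht1, ht2⟩
      have htC : t ∈ C := Subgroup.mem_centralizer_singleton_iff.mpr
        (Subgroup.mem_centralizer_iff.mp ht2 x (Subgroup.mem_zpowers x)).symm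
      obtain ⟨j, hj⟩ := hNp ⟨t, ht1⟩
      exact (star y hy t htC hyo ⟨j, congrArg Subtype.val hj⟩).eq.symm
  rw [pn_iff_frobHyp]
  obtain ⟨P⟩ : Nonempty (Sylow p G) := inferInstance
  apply frobHyp_of_prime_power P
  intro Q hQP q _ hqp _ A hA hAQ
  have hq : q.Prime := Fact.out
  -- `A ≤ K`
  have hAK : A ≤ K := by
    obtain ⟨Q₀⟩ : Nonempty (Sylow q ↥C) := inferInstance
    have hqi : ¬ q ∣ C.index := by
      rw [hxi]
      intro hd
      exact hqp ((Nat.prime_dvd_prime_iff_eq hq hp).mp (hq.dvd_of_dvd_pow hd))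
    have hfac : (Nat.card (⊤ : Subgroup G)).factorization q = (Nat.card C).factorization q := by
      rw [Subgroup.card_top, ← C.card_mul_index,
        Nat.factorization_mul Nat.card_pos.ne' Subgroup.index_ne_zero_of_finite,
        Finsupp.add_apply, Nat.factorization_eq_zero_of_not_dvd hqi, add_zero]
    obtain ⟨l, -, hl⟩ := sylow_dominance_in ⊤ ((Q₀ : Subgroup ↥C).map C.subtype) A le_top le_top
      (by rw [Subgroup.card_map_of_injective C.subtype_injective, hfac]
          exact Q₀.card_eq_multiplicity) hA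
    refine hl.trans ?_
    have h3 : (Q₀ : Subgroup ↥C).map C.subtype ≤ K := by
      rintro _ ⟨w, hw, rfl⟩
      apply hCK _ w.2
      obtain ⟨j, hj⟩ := (Q₀.isPGroup'.to_le (Subgroup.zpowers_le.mpr hw)).exists_card_eq
      rw [Nat.card_zpowers] at hj
      change (orderOf (w : G)).Coprime p
      rw [Subgroup.orderOf_coe, hj]
      exact Nat.Coprime.pow_left j ((Nat.coprime_primes hq hp).mpr hqp)
    calc MulAut.conj l • (Q₀ : Subgroup ↥C).map C.subtype ≤ MulAut.conj l • K := conj_smul_mono l h3
      _ = K := Subgroup.Normal.conj_smul_eq_self l K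
  intro g hg
  rw [Subgroup.mem_centralizer_iff]
  intro u hu
  have hgo : (orderOf g).Coprime p := by
    obtain ⟨j, hj⟩ := (hA.to_le (Subgroup.zpowers_le.mpr hg)).exists_card_eq
    rw [Nat.card_zpowers] at hj
    rw [hj]
    exact Nat.Coprime.pow_left j ((Nat.coprime_primes hq hp).mpr hqp)
  set c := g⁻¹ * (u⁻¹ * g * u) with hc
  have hcK : c ∈ K := by
    apply K.mul_mem (K.inv_mem (hAK hg))
    have := hKn.conj_mem g (hAK hg) u⁻¹
    rwa [inv_inv] at this
  have hcQ : c ∈ Q := by
    have h4 : g⁻¹ * u⁻¹ * g ∈ Q := by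
      have := (Subgroup.mem_normalizer_iff.mp (Subgroup.inv_mem _ (hAQ hg)) u⁻¹).mp (Q.inv_mem hu)
      rwa [inv_inv] at this
    have : c = g⁻¹ * u⁻¹ * g * u := by rw [hc]; group
    rw [this]
    exact Q.mul_mem h4 hu
  have hcp : ∃ j : ℕ, c ^ p ^ j = 1 := by
    obtain ⟨j, hj⟩ := (P.isPGroup'.to_le hQP) ⟨c, hcQ⟩
    exact ⟨j, congrArg Subtype.val hj⟩
  have hgc : Commute g c := star g (hKC (hAK hg)) c (hKC hcK) hgo hcp
  -- `u⁻¹ g u = g c` has the order of `g`
  have h5 : u⁻¹ * g * u = g * c := by rw [hc]; group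
  have h6 : orderOf (g * c) = orderOf g := by
    rw [← h5]
    have := (MulAut.conj u⁻¹).orderOf_eq g
    rwa [MulAut.conj_apply, inv_inv] at this
  have hco : (orderOf g).Coprime (orderOf c) := by
    obtain ⟨j, hj⟩ := hcp
    obtain ⟨i, -, hi⟩ := (Nat.dvd_prime_pow hp).mp (orderOf_dvd_of_pow_eq_one hj)
    rw [hi]
    exact Nat.Coprime.pow_right i hgo
  rw [hgc.orderOf_mul_eq_mul_orderOf_of_coprime hco] at h6
  have h7 : orderOf c = 1 := by
    have h8 : orderOf g * orderOf c = orderOf g * 1 := by rw [h6, mul_one]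
    exact Nat.eq_of_mul_eq_mul_left (orderOf_pos g) h8
  have h9 : c = 1 := orderOf_eq_one_iff.mp h7
  rw [h9, mul_one] at h5
  calc u * g = u * (u⁻¹ * g * u) := by rw [h5]
    _ = g * u := by group

end Cfsg.Agent.S4127
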