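import Cfsg.Statements.S4145
import Cfsg.Agent.Lib.Helper9.PSolv
import Cfsg.Agent.Lib.Helper9.NPC
import Cfsg.Agent.Lib.Helper1.Transfer1

set_option autoImplicit false
open Cfsg

namespace Cfsg.Agent.S4145

open Cfsg.Agent.Lib.Helper1 Cfsg.Agent.Lib.Helper9.PSolv Cfsg.Agent.Lib.Helper9.NPC
open scoped commutatorElement

theorem cyc_npc {X : Type*} [Group X] [Finite X] {p : ℕ} [Fact p.Prime] (P : Sylow p X)
    [IsCyclic (P : Subgroup X)] (h : ¬ (P : Subgroup X) ≤ commutator X) :
    Cfsg.HasNormalPComplement p X := by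
  rcases P.normalizer_le_centralizer_or_le_commutator with h' | h'
  · exact ⟨P, _, inferInstance, MonoidHom.ker_transferSylow_isComplement' P h'⟩
  · exact absurd h' h

/-- Let G be a finite group with a cyclic Sylow p-subgroup and H a normal subgroup such that p divides both the order of H and the index of H. Then H has a normal p-complement and G is p-solvable. -/
theorem result {G : Type*} [Group G] [Finite G] (p : ℕ) [Fact p.Prime]
    (P : Sylow p G) (hP : IsCyclic (P : Subgroup G)) (H : Subgroup G) [H.Normal] (h1 : p ∣ Nat.card H) (h2 : p ∣ H.index) :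
    Cfsg.HasNormalPComplement p H ∧ Cfsg.IsPSolvable p G := by
  have hp : p.Prime := Fact.out
  have hHn : H.Normal := inferInstance
  have hPc : IsMulCommutative (P : Subgroup G) := inferInstance
  set X := H ⊔ (P : Subgroup G) with hX
  have hPX : (P : Subgroup G) ≤ X := le_sup_right
  have hHX : H ≤ X := le_sup_left
  have hPH : ¬ (P : Subgroup G) ≤ H := fun h =>
    P.not_dvd_index (h2.trans (Subgroup.index_dvd_of_le h))
  have hcomm : commutator X ≤ H.subgroupOf X := by
    rw [commutator_def, Subgroup.commutator_le]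
    intro x _ y _
    show ((⁅x, y⁆ : X) : G) ∈ H
    set f := QuotientGroup.mk' H with hf
    have hmap : ∀ z ∈ X, f z ∈ (P : Subgroup G).map f := by
      intro z hz
      have h3 : f z ∈ X.map f := Subgroup.mem_map_of_mem f hz
      rwa [hX, Subgroup.map_sup, QuotientGroup.map_mk'_self, bot_sup_eq] at h3
    obtain ⟨u, hu, hux⟩ := hmap x x.2
    obtain ⟨v, hv, hvy⟩ := hmap y y.2
    have huv : u * v = v * u := congrArg Subtype.val (hPc.is_comm.comm ⟨u, hu⟩ ⟨v, hv⟩)
    apply (QuotientGroup.eq_one_iff _).1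
    show f ((⁅x, y⁆ : X) : G) = 1
    have e : ((⁅x, y⁆ : X) : G) = ⁅(x : G), (y : G)⁆ := by simp [commutatorElement_def]
    rw [e, map_commutatorElement, ← hux, ← hvy, ← map_commutatorElement,
      commutatorElement_eq_one_iff_mul_comm.2 huv, map_one]
  have hnpcX : Cfsg.HasNormalPComplement p X := by
    have : IsCyclic ((P.subtype hPX : Sylow p X) : Subgroup X) :=
      isCyclic_of_surjective _ (Subgroup.subgroupOfEquivOfLe hPX).symm.surjective
    apply cyc_npc (P.subtype hPX)
    intro h
    apply hPH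
    intro x hx
    exact (h.trans hcomm) (show (⟨x, hPX hx⟩ : X) ∈ (P.subtype hPX : Sylow p X) from hx)
  obtain ⟨K, hKX, hXK, hKc, k, hk⟩ := (npc_sub_iff X).1 hnpcX
  obtain ⟨n, hn⟩ := IsPGroup.iff_card.1 P.2
  have hrelX : ∃ m : ℕ, H.relIndex X = p ^ m := by
    have h3 : H.relIndex X ∣ p ^ n := by
      rw [hX, Subgroup.relIndex_sup_left, ← hn]
      exact Subgroup.relIndex_dvd_card _ _
    obtain ⟨m, _, hm⟩ := (Nat.dvd_prime_pow hp).1 h3
    exact ⟨m, hm⟩
  have hKH : K ≤ H := le_of_coprime_of_pow hKX hKc hrelX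
  have hKrelX : K.relIndex X = p ^ k := by
    have := card_mul_relIndex_of_le hKX
    rw [hk] at this
    exact Nat.eq_of_mul_eq_mul_left Nat.card_pos this
  obtain ⟨j, hj⟩ : ∃ j : ℕ, K.relIndex H = p ^ j := by
    have h3 : K.relIndex H ∣ p ^ k := by
      rw [← hKrelX, ← Subgroup.relIndex_mul_relIndex K H X hKH hHX]
      exact Dvd.intro _ rfl
    obtain ⟨m, _, hm⟩ := (Nat.dvd_prime_pow hp).1 h3
    exact ⟨m, hm⟩
  have hHcard : Nat.card H = Nat.card K * p ^ j := by
    rw [← hj]; exact (card_mul_relIndex_of_le hKH).symm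
  refine ⟨(npc_sub_iff H).2 ⟨K, hKH, hHX.trans hXK, hKc, j, hHcard⟩, ?_⟩
  -- `K` is normal in `G`
  have hKn : K.Normal := by
    constructor
    intro x hx g
    apply mem_of_coprime_order (p := p) hKH (hHX.trans hXK) ⟨j, hj⟩ (hHn.conj_mem x (hKH hx) g)
    have e : orderOf (g * x * g⁻¹) = orderOf x := by
      rw [← MulAut.conj_apply]; exact MulEquiv.orderOf_eq _ _
    rw [e]
    have h3 : orderOf x ∣ Nat.card K := by
      have := orderOf_dvd_natCard (⟨x, hx⟩ : K)
      rwa [Subgroup.orderOf_mk] at this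
    exact Nat.Coprime.coprime_dvd_left h3 hKc
  apply of_quotient K (Or.inr (by rw [Subgroup.relIndex_bot_left]; exact hKc))
  set f := QuotientGroup.mk' K with hf
  have hfs : Function.Surjective f := QuotientGroup.mk'_surjective K
  set Pb : Sylow p (G ⧸ K) := P.mapSurjective hfs with hPb
  have hPbc : (Pb : Subgroup (G ⧸ K)) = (P : Subgroup G).map f := Sylow.coe_mapSurjective _ _
  have hPbcyc : IsCyclic (Pb : Subgroup (G ⧸ K)) := by
    rw [hPbc]
    exact isCyclic_of_surjective (f.subgroupMap (P : Subgroup G)) (f.subgroupMap_surjective _)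
  have hPbcomm : IsMulCommutative (Pb : Subgroup (G ⧸ K)) := inferInstance
  set Hb := H.map f with hHb
  have hHbn : Hb.Normal := hHn.map f hfs
  have hHbp : IsPGroup p Hb := by
    apply IsPGroup.of_card (n := j)
    have h3 := card_map_mul_card_inf_ker f H
    have h4 : H ⊓ f.ker = K := by rw [QuotientGroup.ker_mk']; exact inf_eq_right.2 hKH
    rw [h4, hHcard, mul_comm] at h3
    exact Nat.eq_of_mul_eq_mul_left Nat.card_pos h3
  have hHbne : Hb ≠ ⊥ := by
    intro h
    rw [hHb, Subgroup.map_eq_bot_iff, QuotientGroup.ker_mk'] at h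
    have h3 : p ∣ Nat.card K := h1.trans (Subgroup.card_dvd_of_le h)
    exact hp.one_lt.ne' (Nat.Coprime.eq_one_of_dvd hKc.symm h3)
  have hHbP : Hb ≤ (Pb : Subgroup (G ⧸ K)) := normal_pgroup_le_sylow hHbn hHbp Pb
  set C := Subgroup.centralizer (Hb : Set (G ⧸ K)) with hC
  have hCn : C.Normal := inferInstance
  have hPC : (Pb : Subgroup (G ⧸ K)) ≤ C := le_centralizer_of_isMulCommutative hHbP
  have hnpcC : Cfsg.HasNormalPComplement p C := by
    have hcy : IsCyclic ((Pb.subtype hPC : Sylow p C) : Subgroup C) :=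
      isCyclic_of_surjective _ (Subgroup.subgroupOfEquivOfLe hPC).symm.surjective
    apply cyc_npc (Pb.subtype hPC)
    intro h
    apply hHbne
    rw [eq_bot_iff]
    intro y hy
    have hcm : IsMulCommutative ((Pb.subtype hPC : Sylow p C) : Subgroup C) := inferInstance
    have h3 := abelian_hall_inf_commutator_inf_center ((Pb.subtype hPC : Sylow p C) : Subgroup C) hcm
      (by
        obtain ⟨m, hm⟩ := IsPGroup.iff_card.1 (Pb.subtype hPC).2
        rw [hm]
        exact Nat.Coprime.pow_left m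
          ((Nat.Prime.coprime_iff_not_dvd hp).2 (Pb.subtype hPC).not_dvd_index))
    have hyP : (⟨y, hPC (hHbP hy)⟩ : C) ∈ ((Pb.subtype hPC : Sylow p C) : Subgroup C) := hHbP hy
    have h4 : (⟨y, hPC (hHbP hy)⟩ : C) ∈
        ((Pb.subtype hPC : Sylow p C) : Subgroup C) ⊓ commutator C ⊓ Subgroup.center C := by
      have hcen : (⟨y, hPC (hHbP hy)⟩ : C) ∈ Subgroup.center C := by
        rw [Subgroup.mem_center_iff]
        intro c
        exact Subtype.ext (Subgroup.mem_centralizer_iff.1 c.2 y hy).symm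
      exact ⟨⟨hyP, h hyP⟩, hcen⟩
    rw [h3, Subgroup.mem_bot] at h4
    exact congrArg Subtype.val h4
  obtain ⟨N, hNn, hNc, m, hm⟩ := npc_exists hnpcC
  have hOchar := pPrimeCore_characteristic (G := C) p
  have hLn := map_characteristic_normal (N := C) (Cfsg.pPrimeCore p C)
  set L := (Cfsg.pPrimeCore p C).map C.subtype with hL
  have hLC : L ≤ C := Subgroup.map_subtype_le _
  have hLc : (Nat.card L).Coprime p := by
    rw [hL, Subgroup.card_map_of_injective (Subgroup.subtype_injective _)]
    exact pPrimeCore_coprime p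
  have hLrel : L.relIndex C = (Cfsg.pPrimeCore p C).index := by
    rw [Subgroup.relIndex, hL, Subgroup.subgroupOf,
      Subgroup.comap_map_eq_self_of_injective (Subgroup.subtype_injective _)]
  apply of_chain3 L C hLn hCn hLC
  · right; rw [Subgroup.relIndex_bot_left]; exact hLc
  · left
    have h3 : (Cfsg.pPrimeCore p C).index ∣ p ^ m := by
      rw [← hm]; exact Subgroup.index_dvd_of_le (le_pPrimeCore hNn hNc)
    obtain ⟨i, _, hi⟩ := (Nat.dvd_prime_pow hp).1 h3
    exact ⟨i, by rw [hLrel, hi]⟩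
  · right
    rw [Subgroup.relIndex_top_right]
    exact Nat.Coprime.coprime_dvd_left (Subgroup.index_dvd_of_le hPC)
      ((Nat.Prime.coprime_iff_not_dvd hp).2 Pb.not_dvd_index).symm

end Cfsg.Agent.S4145
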