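import Cfsg.Statements.S4154
import Mathlib

set_option autoImplicit false
open Cfsg

namespace Cfsg.Agent.S4154

open Cfsg

theorem card_of_fibers' {α β : Type*} [Finite α] [Finite β] (f : α → β) (c : ℕ)
    (h : ∀ b, Nat.card {a // f a = b} = c) : Nat.card α = Nat.card β * c := by
  haveI := Fintype.ofFinite β
  rw [Nat.card_congr (Equiv.sigmaFiberEquiv f).symm, Nat.card_sigma]
  simp [h]

theorem key {G : Type*} [Group G] [Finite G] (α : MulAut G)
    (hccp : ∀ x : G, ∃ c g : G, α c = c ∧ x = c * (g⁻¹ * α g)) (g : G)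
    (h : α (g⁻¹ * α g) = g⁻¹ * α g) : g⁻¹ * α g = 1 := by
  have h1 : Nat.card G = Nat.card {k : G // ∃ g : G, k = g⁻¹ * α g} * Nat.card {c : G // α c = c} := by
    apply card_of_fibers' (fun g : G => (⟨g⁻¹ * α g, g, rfl⟩ : {k : G // ∃ g : G, k = g⁻¹ * α g}))
    rintro ⟨k, y, hy⟩
    apply Nat.card_congr
    refine
      { toFun := fun w => ⟨w.1 * y⁻¹, ?_⟩
        invFun := fun z => ⟨z.1 * y, ?_⟩
        left_inv := ?_
        right_inv := ?_ }
    · have h3 : w.1⁻¹ * α w.1 = k := congrArg Subtype.val w.2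
      have h4 : w.1⁻¹ * α w.1 = y⁻¹ * α y := h3.trans hy
      have h5 : α w.1 = w.1 * y⁻¹ * α y := by
        calc α w.1 = w.1 * (w.1⁻¹ * α w.1) := by group
          _ = w.1 * (y⁻¹ * α y) := by rw [h4]
          _ = _ := by group
      rw [map_mul, map_inv, h5]; group
    · apply Subtype.ext
      show (z.1 * y)⁻¹ * α (z.1 * y) = k
      rw [map_mul, z.2, hy]; group
    · intro w
      apply Subtype.ext
      show w.1 * y⁻¹ * y = w.1
      group
    · intro z
      apply Subtype.ext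
      show z.1 * y * y⁻¹ = z.1
      group
  have hb : Function.Bijective (fun p : {c : G // α c = c} × {k : G // ∃ g : G, k = g⁻¹ * α g} => p.1.1 * p.2.1) := by
    rw [Nat.bijective_iff_surjective_and_card]
    constructor
    · intro x
      obtain ⟨c, g, hc, hx⟩ := hccp x
      exact ⟨(⟨c, hc⟩, ⟨_, g, rfl⟩), hx.symm⟩
    · rw [Nat.card_prod, h1, mul_comm]
  have := hb.1 (a₁ := (⟨g⁻¹ * α g, h⟩, ⟨1, 1, by simp⟩)) (a₂ := (⟨1, by simp⟩, ⟨g⁻¹ * α g, g, rfl⟩)) (by simp)
  exact congrArg (fun p => p.1.1) this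

/-- Let G be a finite group and α an automorphism of G such that every element of G is the product of an element fixed by α and an element of the form g⁻¹α(g). If N is a normal α-invariant subgroup, then the automorphism ᾱ induced on G/N has the same property, and every coset fixed by ᾱ contains an element fixed by α (so the fixed points of ᾱ are the images of the fixed points of α). -/
theorem result {G : Type*} [Group G] [Finite G] (α : MulAut G)
    (hccp : ∀ x : G, ∃ c g : G, α c = c ∧ x = c * (g⁻¹ * α g))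
    (N : Subgroup G) [N.Normal] (hN : ∀ n ∈ N, α n ∈ N) :
    (∀ x : G, ∃ c g : G, c⁻¹ * α c ∈ N ∧ x⁻¹ * (c * (g⁻¹ * α g)) ∈ N) ∧
    (∀ x : G, x⁻¹ * α x ∈ N → ∃ c : G, α c = c ∧ c⁻¹ * x ∈ N) := by
  constructor
  · intro x
    obtain ⟨c, g, hc, hx⟩ := hccp x
    refine ⟨c, g, ?_, ?_⟩
    · rw [hc]; simp
    · rw [← hx]; simp
  · intro x hx
    have hmap : N.map (α : G →* G) = N := by
      apply Subgroup.eq_of_le_of_card_ge
      · rintro _ ⟨n, hn, rfl⟩
        exact hN n hn
      · rw [Subgroup.card_map_of_injective]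
        exact α.injective
    let β : MulAut (G ⧸ N) := QuotientGroup.congr N N α hmap
    have hβ : ∀ y : G, β (QuotientGroup.mk y) = QuotientGroup.mk (α y) := fun y => rfl
    have hccp' : ∀ x : G ⧸ N, ∃ c g : G ⧸ N, β c = c ∧ x = c * (g⁻¹ * β g) := by
      intro x
      obtain ⟨x, rfl⟩ := QuotientGroup.mk_surjective x
      obtain ⟨c, g, hc, hx⟩ := hccp x
      refine ⟨QuotientGroup.mk c, QuotientGroup.mk g, ?_, ?_⟩
      · rw [hβ, hc]
      · rw [hβ, hx]; rfl
    obtain ⟨c, g, hc, hxe⟩ := hccp x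
    refine ⟨c, hc, ?_⟩
    have e1 : c⁻¹ * x = g⁻¹ * α g := by rw [hxe]; group
    rw [e1]
    have hfix : β (QuotientGroup.mk x) = QuotientGroup.mk x := by
      rw [hβ]; exact (QuotientGroup.eq.mpr hx).symm
    have hk := key β hccp' (QuotientGroup.mk g) (by
      have e2 : (QuotientGroup.mk g : G ⧸ N)⁻¹ * β (QuotientGroup.mk g) = (QuotientGroup.mk c)⁻¹ * QuotientGroup.mk x := by
        rw [hβ, ← QuotientGroup.mk_inv, ← QuotientGroup.mk_mul, ← QuotientGroup.mk_inv, ← QuotientGroup.mk_mul, e1]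
      rw [e2, map_mul, map_inv, hfix, hβ, hc])
    rw [hβ, ← QuotientGroup.mk_inv, ← QuotientGroup.mk_mul] at hk
    exact (QuotientGroup.eq_one_iff _).mp hk

end Cfsg.Agent.S4154
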