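import Mathlib
import Cfsg.Statements.S4168

set_option autoImplicit false
open Cfsg

namespace Cfsg.Agent.S4168

theorem result {L : Type*} [Group L] [Finite L] (hL : Cfsg.IsQuasisimple L)
    (p : ℕ) (hp : p.Prime) (hdiv : p ∣ Nat.card (Subgroup.center L)) : p ∣ (Subgroup.center L).index := by
  have := Fact.mk hp
  obtain ⟨z, hz⟩ := exists_prime_orderOf_dvd_card' p hdiv
  have hperf := hL.1
  have htriv : ∀ g : L, MonoidHom.transferCenterPow L g = 1 := by
    intro g
    have hg : g ∈ commutator L := Group.IsPerfect.mem_commutator
    have hk : commutator L ≤ (MonoidHom.transferCenterPow L).ker := by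
      rw [commutator_def, Subgroup.commutator_le]
      intro a _ b _
      rw [MonoidHom.mem_ker, map_commutatorElement, commutatorElement_eq_one_iff_mul_comm]
      apply Subtype.ext
      exact ((Subgroup.mem_center_iff.mp (MonoidHom.transferCenterPow L a).2) _).symm
    exact hk hg
  have h1 : ((z : L)) ^ (Subgroup.center L).index = 1 := by
    have h2 := congrArg Subtype.val (htriv z)
    rw [MonoidHom.transferCenterPow_apply] at h2
    exact h2
  have h3 : orderOf (z : L) ∣ _ := orderOf_dvd_of_pow_eq_one h1
  rwa [Subgroup.orderOf_coe, hz] at h3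

end Cfsg.Agent.S4168
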