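import Cfsg.Statements.S4178
import Mathlib

set_option autoImplicit false
open Cfsg

namespace Cfsg.Agent.S4178

open Cfsg

theorem idx_le4178 {Γ T : Type*} [Group Γ] [Finite T] (R : Subgroup Γ) (φ : Γ → T)
    (h : ∀ a b, φ a = φ b → a⁻¹ * b ∈ R) : R.index ≤ Nat.card T := by
  unfold Subgroup.index
  apply Nat.card_le_card_of_injective (fun q : Γ ⧸ R => φ q.out)
  intro a b hab
  have h1 := h _ _ hab
  have h2 : ((a.out : Γ) : Γ ⧸ R) = (b.out : Γ) := QuotientGroup.eq.2 h1
  rwa [QuotientGroup.out_eq', QuotientGroup.out_eq'] at h2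

theorem cardne4178 {F M : Type*} [Field F] [Fintype F] [AddCommGroup M] [Module F M] [FiniteDimensional F M] :
    Nat.card {t : M // t ≠ 0} = Fintype.card F ^ Module.finrank F M - 1 := by
  classical
  haveI : Finite M := Module.finite_of_finite F
  haveI := Fintype.ofFinite M
  rw [← Module.card_eq_pow_finrank (K := F) (V := M), Nat.card_eq_fintype_card]
  exact Set.card_ne_eq (0 : M)

theorem fix4178 {F V : Type*} [Field F] [AddCommGroup V] [Module F V] [FiniteDimensional F V]
    (g : V ≃ₗ[F] V) (W : Submodule F V) (hW : ∀ w ∈ W, g w ∈ W) (v : V) (hv : v ∉ W) (hgv : g v - v ∈ W) :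
    ∃ u : V, u ≠ 0 ∧ g u = u := by
  by_contra hno
  push Not at hno
  let T : V →ₗ[F] V := (g : V →ₗ[F] V) - LinearMap.id
  have hT : ∀ x, T x = g x - x := fun x => by simp [T]
  have hinj : Function.Injective T := by
    rw [← LinearMap.ker_eq_bot, LinearMap.ker_eq_bot']
    intro u hu
    by_contra hu0
    exact hno u hu0 (by rw [hT] at hu; exact sub_eq_zero.1 hu)
  have hTW : ∀ w ∈ W, T w ∈ W := fun w hw => by rw [hT]; exact W.sub_mem (hW w hw) hw
  let T' : W →ₗ[F] W := T.restrict hTW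
  have hinj' : Function.Injective T' := by
    intro a b hab
    apply Subtype.ext
    apply hinj
    exact congrArg Subtype.val hab
  have hsurj : Function.Surjective T' := LinearMap.injective_iff_surjective.1 hinj'
  obtain ⟨w, hw⟩ := hsurj ⟨T v, by rw [hT]; exact hgv⟩
  have h1 : T w = T v := congrArg Subtype.val hw
  have h2 := hinj h1
  exact hv (h2 ▸ w.2)

/-- Let F be a finite field with q elements, V a non-zero finite-dimensional F-space of dimension d, H a group of invertible linear maps of V, and R the subgroup of H generated by the elements of H that fix some non-zero vector (have eigenvalue 1). Then the index of R in H is at most q^d − 1; and if H leaves invariant some proper non-zero subspace, the index is at most q^(d/2) − 1. -/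
theorem result {F V : Type*} [Field F] [Fintype F] [AddCommGroup V] [Module F V] [FiniteDimensional F V] [Nontrivial V]
    (H : Subgroup (V ≃ₗ[F] V)) :
    (Subgroup.closure {h : ↥H | ∃ v : V, v ≠ 0 ∧ (h : V ≃ₗ[F] V) v = v}).index ≤ Fintype.card F ^ Module.finrank F V - 1 ∧
    ((∃ W : Submodule F V, W ≠ ⊥ ∧ W ≠ ⊤ ∧ ∀ h ∈ H, ∀ w ∈ W, h w ∈ W) →
      ((Subgroup.closure {h : ↥H | ∃ v : V, v ≠ 0 ∧ (h : V ≃ₗ[F] V) v = v}).index : ℝ) ≤ Real.sqrt ((Fintype.card F : ℝ) ^ Module.finrank F V) - 1) := by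
  classical
  haveI : Finite V := Module.finite_of_finite F
  set R := Subgroup.closure {h : ↥H | ∃ v : V, v ≠ 0 ∧ (h : V ≃ₗ[F] V) v = v} with hR
  have hmem : ∀ g : ↥H, (∃ v : V, v ≠ 0 ∧ (g : V ≃ₗ[F] V) v = v) → g ∈ R :=
    fun g hg => Subgroup.subset_closure hg
  have hinvapp : ∀ (a : ↥H) (x : V), ((a⁻¹ : ↥H) : V ≃ₗ[F] V) ((a : V ≃ₗ[F] V) x) = x := by
    intro a x
    have h1 : ((a⁻¹ : ↥H) : V ≃ₗ[F] V) * (a : V ≃ₗ[F] V) = 1 := by
      rw [Subgroup.coe_inv, inv_mul_cancel]
    have h2 := congrArg (fun t : V ≃ₗ[F] V => t x) h1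
    exact h2
  have hfix : ∀ (a b : ↥H) (v : V), (a : V ≃ₗ[F] V) v = (b : V ≃ₗ[F] V) v →
      ((a⁻¹ * b : ↥H) : V ≃ₗ[F] V) v = v := by
    intro a b v h
    show ((a⁻¹ : ↥H) : V ≃ₗ[F] V) ((b : V ≃ₗ[F] V) v) = v
    rw [← h, hinvapp]
  constructor
  · obtain ⟨v, hv⟩ := exists_ne (0 : V)
    rw [← cardne4178 (F := F) (M := V)]
    apply idx_le4178 R (fun h : ↥H => (⟨(h : V ≃ₗ[F] V) v,
      (LinearEquiv.map_ne_zero_iff _).2 hv⟩ : {t : V // t ≠ 0}))
    intro a b hab
    apply hmem
    exact ⟨v, hv, hfix a b v (congrArg Subtype.val hab)⟩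
  · rintro ⟨W, hWb, hWt, hWinv⟩
    have hA : R.index ≤ Fintype.card F ^ Module.finrank F W - 1 := by
      obtain ⟨w, hw, hw0⟩ := Submodule.exists_mem_ne_zero_of_ne_bot hWb
      rw [← cardne4178 (F := F) (M := W)]
      apply idx_le4178 R (fun h : ↥H => (⟨⟨(h : V ≃ₗ[F] V) w, hWinv h h.2 w hw⟩, by
          intro h0
          have h1 : (h : V ≃ₗ[F] V) w = 0 := congrArg Subtype.val h0
          exact (LinearEquiv.map_ne_zero_iff _).2 hw0 h1⟩ : {t : W // t ≠ 0}))
      intro a b hab
      apply hmem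
      exact ⟨w, hw0, hfix a b w (congrArg (fun t : {t : W // t ≠ 0} => ((t : W) : V)) hab)⟩
    have hB : R.index ≤ Fintype.card F ^ Module.finrank F (V ⧸ W) - 1 := by
      obtain ⟨v, hv⟩ : ∃ v, v ∉ W := by
        by_contra hall
        push Not at hall
        exact hWt (eq_top_iff.2 fun x _ => hall x)
      haveI : Finite (V ⧸ W) := Module.finite_of_finite F
      rw [← cardne4178 (F := F) (M := V ⧸ W)]
      apply idx_le4178 R (fun h : ↥H => (⟨Submodule.Quotient.mk ((h : V ≃ₗ[F] V) v), by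
          intro h0
          rw [Submodule.Quotient.mk_eq_zero] at h0
          apply hv
          have h1 := hWinv (h⁻¹ : ↥H) (h⁻¹).2 _ h0
          rwa [hinvapp] at h1⟩ : {t : V ⧸ W // t ≠ 0}))
      intro a b hab
      apply hmem
      have h1 : (Submodule.Quotient.mk ((a : V ≃ₗ[F] V) v) : V ⧸ W) =
          Submodule.Quotient.mk ((b : V ≃ₗ[F] V) v) := congrArg Subtype.val hab
      rw [Submodule.Quotient.eq] at h1
      apply fix4178 ((a⁻¹ * b : ↥H) : V ≃ₗ[F] V) W (fun w hw => hWinv _ (a⁻¹ * b).2 w hw) v hv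
      have e : ((a⁻¹ * b : ↥H) : V ≃ₗ[F] V) v - v
          = ((a⁻¹ : ↥H) : V ≃ₗ[F] V) ((b : V ≃ₗ[F] V) v - (a : V ≃ₗ[F] V) v) := by
        rw [map_sub, hinvapp]
        rfl
      rw [e]
      apply hWinv _ (a⁻¹).2
      have := W.neg_mem h1
      simpa using this
    have hdim : Module.finrank F (V ⧸ W) + Module.finrank F W = Module.finrank F V :=
      Submodule.finrank_quotient_add_finrank W
    have hq : 0 < Fintype.card F := Fintype.card_pos
    have hA' : R.index + 1 ≤ Fintype.card F ^ Module.finrank F W := by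
      have := Nat.one_le_pow (Module.finrank F W) _ hq
      omega
    have hB' : R.index + 1 ≤ Fintype.card F ^ Module.finrank F (V ⧸ W) := by
      have := Nat.one_le_pow (Module.finrank F (V ⧸ W)) _ hq
      omega
    have hmul : (R.index + 1) ^ 2 ≤ Fintype.card F ^ Module.finrank F V := by
      rw [← hdim, pow_add, sq]
      exact Nat.mul_le_mul hB' hA'
    have hfin : ((R.index : ℝ) + 1) ≤ Real.sqrt ((Fintype.card F : ℝ) ^ Module.finrank F V) := by
      apply Real.le_sqrt_of_sq_le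
      exact_mod_cast hmul
    linarith

end Cfsg.Agent.S4178
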