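import Cfsg.Statements.S4182
import Mathlib

set_option autoImplicit false
open Cfsg

namespace Cfsg.Agent.S4182

open Cfsg

theorem pgroup_cover4182 {P : Type*} [Group P] [Finite P] (p : ℕ) [Fact p.Prime] (hP : IsPGroup p P)
    {ι : Type*} [Fintype ι] (H : ι → Subgroup P) (hι : Fintype.card ι ≤ p)
    (hcov : ∀ g : P, ∃ i, g ∈ H i) : ∃ i, H i = ⊤ := by
  classical
  by_contra hno
  push Not at hno
  haveI := Fintype.ofFinite P
  have hp := (Fact.out : p.Prime)
  have h1 : ∀ i, p * Nat.card (H i) ≤ Nat.card P := by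
    intro i
    have hidx : (H i).index ≠ 1 := fun h => hno i (Subgroup.index_eq_one.1 h)
    have hmul := (H i).card_mul_index
    obtain ⟨k, hk⟩ := hP.index (H i)
    have hdvd : p ∣ (H i).index := by
      rw [hk]
      cases k with
      | zero => simp at hk; exact absurd hk (hno i)
      | succ k => exact dvd_pow_self p (Nat.succ_ne_zero k)
    obtain ⟨m, hm⟩ := hdvd
    have hm0 : 0 < m := by
      rcases Nat.eq_zero_or_pos m with h | h
      · subst h
        simp only [mul_zero] at hm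
        exact absurd hm Subgroup.index_ne_zero_of_finite
      · exact h
    rw [← hmul, hm]
    nlinarith [Nat.zero_le (p * Nat.card (H i))]
  have hpos : ∀ i, 1 ≤ Nat.card (H i) := fun i => Nat.card_pos
  set T : ι → Finset P := fun i => (Finset.univ.filter (fun g : P => g ∈ H i)).erase 1 with hT
  have hTc : ∀ i, (T i).card = Nat.card (H i) - 1 := by
    intro i
    rw [hT]
    simp only
    rw [Finset.card_erase_of_mem (by simp [(H i).one_mem])]
    congr 1
    rw [Nat.card_eq_fintype_card, Fintype.card_subtype]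
  have hsub : (Finset.univ.erase (1 : P)) ⊆ Finset.univ.biUnion T := by
    intro g hg
    obtain ⟨i, hi⟩ := hcov g
    rw [Finset.mem_biUnion]
    refine ⟨i, Finset.mem_univ _, ?_⟩
    rw [hT]
    simp only [Finset.mem_erase, Finset.mem_filter, Finset.mem_univ, true_and]
    exact ⟨(Finset.mem_erase.1 hg).1, hi⟩
  have hc1 : Nat.card P - 1 ≤ ∑ i, (Nat.card (H i) - 1) := by
    have h2 := Finset.card_le_card hsub
    have h3 := Finset.card_biUnion_le (s := Finset.univ) (t := T)
    rw [Finset.card_erase_of_mem (Finset.mem_univ _), Finset.card_univ, ← Nat.card_eq_fintype_card] at h2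
    calc Nat.card P - 1 ≤ _ := h2
      _ ≤ _ := h3
      _ = _ := Finset.sum_congr rfl (fun i _ => hTc i)
  obtain ⟨i0, -⟩ := hcov 1
  have hcp : p ≤ Nat.card P := by
    have := h1 i0
    have := hpos i0
    nlinarith
  have hc2 : p * ∑ i, (Nat.card (H i) - 1) ≤ p * (Nat.card P - p) := by
    rw [Finset.mul_sum]
    calc ∑ i, p * (Nat.card (H i) - 1) ≤ ∑ _i : ι, (Nat.card P - p) := by
          apply Finset.sum_le_sum
          intro i _
          have := h1 i
          rw [Nat.mul_sub, mul_one]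
          omega
      _ = Fintype.card ι * (Nat.card P - p) := by simp
      _ ≤ p * (Nat.card P - p) := Nat.mul_le_mul_right _ hι
  have hc3 := Nat.le_of_mul_le_mul_left hc2 hp.pos
  have := hp.two_le
  omega


section main4182
variable {G : Type*} [Group G]

/-- conjugate subgroup -/
def cj4182 (g : G) (Y : Subgroup G) : Subgroup G := Y.map (MulAut.conj g).toMonoidHom

theorem mem_cj4182 (g y : G) (Y : Subgroup G) : y ∈ cj4182 g Y ↔ g⁻¹ * y * g ∈ Y := by
  unfold cj4182
  rw [Subgroup.mem_map]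
  constructor
  · rintro ⟨z, hz, rfl⟩
    simpa [MulAut.conj_apply, mul_assoc] using hz
  · intro h
    exact ⟨_, h, by simp [MulAut.conj_apply, mul_assoc]⟩

/-- generated by `p`-elements -/
def PG4182 (p : ℕ) (Y : Subgroup G) : Prop :=
  ∃ S : Set G, (∀ s ∈ S, ∃ k : ℕ, orderOf s = p ^ k) ∧ Subgroup.closure S = Y

theorem PG4182.sup {p : ℕ} {Y Z : Subgroup G} (hY : PG4182 p Y) (hZ : PG4182 p Z) : PG4182 p (Y ⊔ Z) := by
  obtain ⟨S, hS, rfl⟩ := hY
  obtain ⟨T, hT, rfl⟩ := hZ
  refine ⟨S ∪ T, ?_, Subgroup.closure_union S T⟩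
  rintro s (h | h)
  · exact hS s h
  · exact hT s h

theorem PG4182.cj {p : ℕ} {Y : Subgroup G} (hY : PG4182 p Y) (g : G) : PG4182 p (cj4182 g Y) := by
  obtain ⟨S, hS, rfl⟩ := hY
  refine ⟨(MulAut.conj g).toMonoidHom '' S, ?_, ?_⟩
  · rintro _ ⟨s, hs, rfl⟩
    obtain ⟨k, hk⟩ := hS s hs
    refine ⟨k, ?_⟩
    rw [← hk]
    exact (MulAut.conj g).orderOf_eq s
  · unfold cj4182
    rw [MonoidHom.map_closure]

theorem PG4182.zpowers {p : ℕ} {x : G} (hx : ∃ k : ℕ, orderOf x = p ^ k) : PG4182 p (Subgroup.zpowers x) :=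
  ⟨{x}, by rintro s rfl; exact hx, (Subgroup.zpowers_eq_closure x).symm⟩

theorem PG4182.of_pgroup {p : ℕ} [Fact p.Prime] {P : Subgroup G} (hP : IsPGroup p P) : PG4182 p P := by
  refine ⟨P, ?_, Subgroup.closure_eq P⟩
  intro s hs
  obtain ⟨k, hk⟩ := hP ⟨s, hs⟩
  have h1 : s ^ p ^ k = 1 := by simpa using congrArg Subtype.val hk
  obtain ⟨j, -, hj⟩ := (Nat.dvd_prime_pow Fact.out).1 (orderOf_dvd_of_pow_eq_one h1)
  exact ⟨j, hj⟩

theorem cj_lt4182 {X Y : Subgroup G} {g : G} (hg : g ∈ X) (hY : Y < X) : cj4182 g Y < X := by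
  have hle : cj4182 g Y ≤ X := by
    intro y hy
    rw [mem_cj4182] at hy
    have := hY.le hy
    have h2 := X.mul_mem (X.mul_mem hg this) (X.inv_mem hg)
    simpa [mul_assoc] using h2
  refine lt_of_le_of_ne hle ?_
  intro h
  apply hY.ne
  apply le_antisymm hY.le
  intro x hx
  have h2 : g * x * g⁻¹ ∈ cj4182 g Y := by
    rw [h]; exact X.mul_mem (X.mul_mem hg hx) (X.inv_mem hg)
  rw [mem_cj4182] at h2
  simpa [mul_assoc] using h2

theorem max_cj4182 {p : ℕ} {X M : Subgroup G} {g : G} (hg : g ∈ X)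
    (hM : Maximal (fun Y => Y < X ∧ PG4182 p Y) M) :
    Maximal (fun Y => Y < X ∧ PG4182 p Y) (cj4182 g M) := by
  refine ⟨⟨cj_lt4182 hg hM.1.1, hM.1.2.cj g⟩, ?_⟩
  intro Y hY hle
  have h1 : M ≤ cj4182 g⁻¹ Y := by
    intro m hm
    rw [mem_cj4182]
    apply hle
    rw [mem_cj4182]
    simpa [mul_assoc] using hm
  have h2 := hM.2 (y := cj4182 g⁻¹ Y) ⟨cj_lt4182 (X.inv_mem hg) hY.1, hY.2.cj _⟩ h1
  intro y hy
  rw [mem_cj4182]
  apply h2
  rw [mem_cj4182]
  simpa [mul_assoc] using hy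

end main4182

section main4182b
variable {G : Type*} [Group G]

theorem cj_eq_iff4182 (g : G) (M : Subgroup G) : cj4182 g M = M ↔ g ∈ Subgroup.normalizer (M : Set G) := by
  rw [Subgroup.mem_normalizer_iff]
  constructor
  · intro h x
    constructor
    · intro hx
      rw [← h, mem_cj4182]
      simpa [mul_assoc] using hx
    · intro hx
      rw [← h, mem_cj4182] at hx
      simpa [mul_assoc] using hx
  · intro h
    ext y
    rw [mem_cj4182, h (g⁻¹ * y * g)]
    simp [mul_assoc]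

theorem cj_eq_cj4182 {a b : G} {M : Subgroup G} (h : cj4182 a M = cj4182 b M) :
    a⁻¹ * b ∈ Subgroup.normalizer (M : Set G) := by
  rw [← cj_eq_iff4182]
  ext y
  rw [mem_cj4182]
  have h1 : a * y * a⁻¹ ∈ cj4182 b M ↔ a * y * a⁻¹ ∈ cj4182 a M := by rw [h]
  rw [mem_cj4182, mem_cj4182] at h1
  have e1 : (a⁻¹ * b)⁻¹ * y * (a⁻¹ * b) = b⁻¹ * (a * y * a⁻¹) * b := by group
  have e2 : a⁻¹ * (a * y * a⁻¹) * a = y := by group
  rw [e1, h1, e2]

theorem pelem_of_pgroup4182 {p : ℕ} [Fact p.Prime] {P : Subgroup G} (hP : IsPGroup p P) {s : G} (hs : s ∈ P) :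
    ∃ k : ℕ, orderOf s = p ^ k := by
  obtain ⟨k, hk⟩ := hP ⟨s, hs⟩
  have h1 : s ^ p ^ k = 1 := by simpa using congrArg Subtype.val hk
  obtain ⟨j, -, hj⟩ := (Nat.dvd_prime_pow Fact.out).1 (orderOf_dvd_of_pow_eq_one h1)
  exact ⟨j, hj⟩

theorem main4182 [Finite G] (p : ℕ) [Fact p.Prime]
    {ι : Type*} [Fintype ι] (K : ι → Subgroup G) (hι : Fintype.card ι ≤ p)
    (hcov : ∀ g : G, (∃ k : ℕ, orderOf g = p ^ k) → ∃ i, g ∈ K i) :
    ∀ (n : ℕ) (X : Subgroup G), Nat.card X = n → PG4182 p X → ∃ i, X ≤ K i := by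
  intro n
  induction n using Nat.strong_induction_on with
  | _ n ih =>
  intro X hXn hXpg
  by_contra hno
  push Not at hno
  have hp := (Fact.out : p.Prime)
  have IH : ∀ Y : Subgroup G, Y < X → PG4182 p Y → ∃ i, Y ≤ K i := by
    intro Y hY hpg
    refine ih (Nat.card Y) ?_ Y rfl hpg
    rw [← hXn]
    by_contra h
    push Not at h
    exact hY.ne (Subgroup.eq_of_le_of_card_ge hY.le h)
  have hmaxex : ∀ Y : Subgroup G, Y < X → PG4182 p Y →
      ∃ M, Y ≤ M ∧ Maximal (fun Y => Y < X ∧ PG4182 p Y) M := by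
    intro Y hY hpg
    exact (Set.toFinite {Y : Subgroup G | Y < X ∧ PG4182 p Y}).exists_le_maximal ⟨hY, hpg⟩
  have hsep : ∀ M M' : Subgroup G, Maximal (fun Y => Y < X ∧ PG4182 p Y) M →
      Maximal (fun Y => Y < X ∧ PG4182 p Y) M' → ∀ i, M ≤ K i → M' ≤ K i → M = M' := by
    intro M M' hM hM' i h1 h2
    have hlt : M ⊔ M' < X := by
      refine lt_of_le_of_ne (sup_le hM.1.1.le hM'.1.1.le) ?_
      intro h
      exact hno i (h ▸ sup_le h1 h2)
    have hP : (M ⊔ M' < X ∧ PG4182 p (M ⊔ M')) := ⟨hlt, hM.1.2.sup hM'.1.2⟩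
    have a := hM.2 hP le_sup_left
    have b := hM'.2 hP le_sup_right
    exact le_antisymm (le_trans le_sup_left b) (le_trans le_sup_right a)
  have hnorm : ∀ x ∈ X, (∃ k : ℕ, orderOf x = p ^ k) → ∀ M,
      Maximal (fun Y => Y < X ∧ PG4182 p Y) M → x ∈ Subgroup.normalizer (M : Set G) := by
    intro x hxX hx M hM
    by_contra hne
    obtain ⟨i, hi⟩ := hcov x hx
    have hzlt : Subgroup.zpowers x < X := by
      refine lt_of_le_of_ne (by rwa [Subgroup.zpowers_le]) ?_
      intro h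
      exact hno i (h ▸ (by rwa [Subgroup.zpowers_le]))
    obtain ⟨M0, hxM0, hM0⟩ := hmaxex _ hzlt (PG4182.zpowers hx)
    have hxM0' : x ∈ M0 := hxM0 (Subgroup.mem_zpowers x)
    let φ : Option (Fin p) → Subgroup G := fun a => match a with
      | none => M0
      | some j => cj4182 (x ^ (j : ℕ)) M
    have hφmax : ∀ a, Maximal (fun Y => Y < X ∧ PG4182 p Y) (φ a) := by
      intro a
      cases a with
      | none => exact hM0
      | some j => exact max_cj4182 (X.pow_mem hxX _) hM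
    have hφi : ∀ a, ∃ i, φ a ≤ K i := fun a => IH _ (hφmax a).1.1 (hφmax a).1.2
    choose ψ hψ using hφi
    have key : ∀ j l : ℕ, j < l → l < p → cj4182 (x ^ j) M = cj4182 (x ^ l) M → False := by
      intro j l hjl hlp h
      obtain ⟨d, rfl⟩ := Nat.exists_eq_add_of_lt hjl
      have h1 := cj_eq_cj4182 h
      have e : (x ^ j)⁻¹ * x ^ (j + d + 1) = x ^ (d + 1) := by
        rw [add_assoc, pow_add, inv_mul_cancel_left]
      rw [e] at h1
      obtain ⟨k, hk⟩ := hx
      have hcop : Nat.Coprime (d + 1) (orderOf x) := by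
        rw [hk]
        apply Nat.Coprime.pow_right
        apply Nat.Coprime.symm
        exact (Nat.Prime.coprime_iff_not_dvd hp).2 (Nat.not_dvd_of_pos_of_lt (by omega) (by omega))
      obtain ⟨m, hm⟩ := exists_pow_eq_self_of_coprime hcop
      apply hne
      rw [← hm]
      exact Subgroup.pow_mem _ h1 m
    have key0 : ∀ j : ℕ, M0 = cj4182 (x ^ j) M → False := by
      intro j h
      have hMM : M = M0 := by
        ext m
        have h1 : x ^ j * m * (x ^ j)⁻¹ ∈ M0 ↔ x ^ j * m * (x ^ j)⁻¹ ∈ cj4182 (x ^ j) M := by rw [← h]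
        rw [mem_cj4182] at h1
        have e2 : (x ^ j)⁻¹ * (x ^ j * m * (x ^ j)⁻¹) * x ^ j = m := by group
        rw [e2] at h1
        rw [← h1]
        have hxj : x ^ j ∈ M0 := M0.pow_mem hxM0' j
        constructor
        · intro hm
          have := M0.mul_mem (M0.mul_mem (M0.inv_mem hxj) hm) hxj
          rwa [e2] at this
        · intro hm
          exact M0.mul_mem (M0.mul_mem hxj hm) (M0.inv_mem hxj)
      apply hne
      rw [hMM]
      exact Subgroup.le_normalizer hxM0'
    have hφinj : Function.Injective φ := by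
      intro a b hab
      cases a with
      | none =>
        cases b with
        | none => rfl
        | some l => exact (key0 _ hab).elim
      | some j =>
        cases b with
        | none => exact (key0 _ hab.symm).elim
        | some l =>
          rcases lt_trichotomy (j : ℕ) (l : ℕ) with h | h | h
          · exact (key _ _ h l.2 hab).elim
          · rw [Fin.ext h]
          · exact (key _ _ h j.2 hab.symm).elim
    have hψinj : Function.Injective ψ := by
      intro a b hab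
      apply hφinj
      exact hsep _ _ (hφmax a) (hφmax b) (ψ a) (hψ a) (hab ▸ hψ b)
    have := Fintype.card_le_of_injective ψ hψinj
    simp at this
    omega
  obtain ⟨S, hS, hSX⟩ := hXpg
  let P : Sylow p X := default
  set P' : Subgroup G := (P : Subgroup X).map X.subtype with hP'
  have hP'p : IsPGroup p P' := P.2.map _
  have hP'X : P' ≤ X := Subgroup.map_subtype_le _
  obtain ⟨i, hi⟩ : ∃ i, P' ≤ K i := by
    obtain ⟨i, hi⟩ := pgroup_cover4182 p hP'p (fun i => (K i).subgroupOf P') hι (by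
      intro g
      obtain ⟨i, hi⟩ := hcov (g : G) (pelem_of_pgroup4182 hP'p g.2)
      exact ⟨i, Subgroup.mem_subgroupOf.2 hi⟩)
    exact ⟨i, Subgroup.subgroupOf_eq_top.1 hi⟩
  have hP'lt : P' < X := lt_of_le_of_ne hP'X (fun h => hno i (h ▸ hi))
  obtain ⟨M, hPM, hM⟩ := hmaxex P' hP'lt (PG4182.of_pgroup hP'p)
  have hXN : X ≤ Subgroup.normalizer (M : Set G) := by
    rw [← hSX, Subgroup.closure_le]
    intro s hs
    exact hnorm s (hSX ▸ Subgroup.subset_closure hs) (hS s hs) M hM
  have hXM : X ≤ M := by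
    conv_lhs => rw [← hSX]
    rw [Subgroup.closure_le]
    intro s hs
    have hsX : s ∈ X := hSX ▸ Subgroup.subset_closure hs
    obtain ⟨k, hk⟩ := hS s hs
    have hz : IsPGroup p (Subgroup.zpowers (⟨s, hsX⟩ : X)) := by
      apply IsPGroup.of_card (n := k)
      rw [Nat.card_zpowers, ← hk, ← Subgroup.orderOf_coe]
    obtain ⟨Q, hQ⟩ := hz.exists_le_sylow
    obtain ⟨g, hg⟩ := MulAction.exists_smul_eq X P Q
    have h1 : (⟨s, hsX⟩ : X) ∈ ((g • P : Sylow p X) : Subgroup X) := by
      rw [hg]; exact hQ (Subgroup.mem_zpowers _)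
    rw [Sylow.smul_def, Sylow.pointwise_smul_def, Subgroup.mem_pointwise_smul_iff_inv_smul_mem] at h1
    have h2 : ((g⁻¹ * ⟨s, hsX⟩ * g : X) : G) ∈ P' := by
      rw [hP']
      refine Subgroup.mem_map.2 ⟨g⁻¹ * ⟨s, hsX⟩ * g, ?_, rfl⟩
      simpa [MulAut.smul_def, MulAut.conj_inv_apply] using h1
    have h3 := hPM h2
    have h4 := (Subgroup.mem_normalizer_iff.1 (hXN g.2) _).1 h3
    simpa [mul_assoc] using h4
  exact hM.1.1.ne (le_antisymm hM.1.1.le hXM)

end main4182b

/-- Let p be a prime and G a finite group generated by its p-elements. If a finite family of proper subgroups of G covers the set of p-elements of G (every element of p-power order lies in one of them), then the family has at least p + 1 members. -/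
theorem result {G : Type*} [Group G] [Finite G] (p : ℕ) [Fact p.Prime] (hgen : Subgroup.closure {g : G | ∃ k : ℕ, orderOf g = p ^ k} = ⊤)
    {ι : Type*} [Fintype ι] (K : ι → Subgroup G) (hK : ∀ i, K i ≠ ⊤)
    (hcov : ∀ g : G, (∃ k : ℕ, orderOf g = p ^ k) → ∃ i, g ∈ K i) :
    p + 1 ≤ Fintype.card ι := by
  by_contra h
  push Not at h
  obtain ⟨i, hi⟩ := main4182 p K (by omega) hcov _ ⊤ rfl ⟨_, fun s hs => hs, hgen⟩
  exact hK i (top_le_iff.1 hi)

end Cfsg.Agent.S4182
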