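import Cfsg.Statements.S4186
import Mathlib

set_option autoImplicit false
open Cfsg

namespace Cfsg.Agent.S4186

/-- Let T and X be subgroups of a group with T a finite 2-group normalizing X but not centralizing it. Then some element of T inverts some non-identity element of X under conjugation. -/
theorem result {G : Type*} [Group G] (T X : Subgroup G) [Finite ↥T] (hT : IsPGroup 2 ↥T) (hTN : T ≤ Subgroup.normalizer (X : Set G)) (hTC : ¬ T ≤ Subgroup.centralizer (X : Set G)) : ∃ t ∈ T, ∃ x ∈ X, x ≠ 1 ∧ t * x * t⁻¹ = x⁻¹ := by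
  obtain ⟨t0, ht0, ht0C⟩ := SetLike.not_le_iff_exists.mp hTC
  have hex : ∃ k : ℕ, t0 ^ 2 ^ k ∈ Subgroup.centralizer (X : Set G) := by
    obtain ⟨k, hk⟩ := hT ⟨t0, ht0⟩
    refine ⟨k, ?_⟩
    have : t0 ^ 2 ^ k = 1 := congrArg Subtype.val hk
    rw [this]; exact Subgroup.one_mem _
  classical
  obtain ⟨k, hk⟩ : ∃ k, k = Nat.find hex := ⟨_, rfl⟩
  have hk1 : t0 ^ 2 ^ k ∈ Subgroup.centralizer (X : Set G) := hk ▸ Nat.find_spec hex
  have hk0 : k ≠ 0 := by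
    rintro rfl
    rw [pow_zero, pow_one] at hk1
    exact ht0C hk1
  obtain ⟨j, rfl⟩ := Nat.exists_eq_succ_of_ne_zero hk0
  have hj : t0 ^ 2 ^ j ∉ Subgroup.centralizer (X : Set G) := Nat.find_min hex (by rw [← hk]; exact Nat.lt_succ_self j)
  obtain ⟨t, ht⟩ : ∃ t, t = t0 ^ 2 ^ j := ⟨_, rfl⟩
  rw [← ht] at hj
  have htT : t ∈ T := ht ▸ T.pow_mem ht0 _
  have ht2 : t * t ∈ Subgroup.centralizer (X : Set G) := by
    rw [← pow_two, ht, ← pow_mul, ← pow_succ]; exact hk1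
  rw [Subgroup.mem_centralizer_iff] at hj
  push Not at hj
  obtain ⟨y, hy, hne⟩ := hj
  have hty : t * y * t⁻¹ ∈ X := (Subgroup.mem_normalizer_iff.mp (hTN htT) y).mp hy
  refine ⟨t, htT, y⁻¹ * (t * y * t⁻¹), X.mul_mem (X.inv_mem hy) hty, ?_, ?_⟩
  · intro h
    apply hne
    rw [inv_mul_eq_one, eq_mul_inv_iff_mul_eq] at h
    exact h
  · have h2 := Subgroup.mem_centralizer_iff.mp ht2 y hy
    have h3 : t * t * y * (t * t)⁻¹ = y := by
      rw [← h2]; group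
    calc t * (y⁻¹ * (t * y * t⁻¹)) * t⁻¹ = (t * y * t⁻¹)⁻¹ * (t * t * y * (t * t)⁻¹) := by group
      _ = (t * y * t⁻¹)⁻¹ * y := by rw [h3]
      _ = (y⁻¹ * (t * y * t⁻¹))⁻¹ := by group

end Cfsg.Agent.S4186
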