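import Mathlib
import Cfsg.Statements.S4195

set_option autoImplicit false
open Cfsg

namespace Cfsg.Agent.S4195

/-- The extended centralizer of `x`. -/
def extC {G : Type*} [Group G] (x : G) : Subgroup G where
  carrier := {g | g * x * g⁻¹ = x ∨ g * x * g⁻¹ = x⁻¹}
  one_mem' := by left; group
  mul_mem' := by
    intro a b ha hb
    have e : a * b * x * (a * b)⁻¹ = a * (b * x * b⁻¹) * a⁻¹ := by group
    have e' : a * x⁻¹ * a⁻¹ = (a * x * a⁻¹)⁻¹ := by group
    rcases ha with ha | ha <;> rcases hb with hb | hb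
    · left; rw [e, hb, ha]
    · right; rw [e, hb, e', ha]
    · right; rw [e, hb, ha]
    · left; rw [e, hb, e', ha, inv_inv]
  inv_mem' := by
    intro a ha
    rcases ha with ha | ha
    · left
      calc a⁻¹ * x * a⁻¹⁻¹ = a⁻¹ * (a * x * a⁻¹) * a := by rw [ha, inv_inv]
        _ = x := by group
    · right
      have : a * x⁻¹ * a⁻¹ = x := by
        have e' : a * x⁻¹ * a⁻¹ = (a * x * a⁻¹)⁻¹ := by group
        rw [e', ha, inv_inv]
      calc a⁻¹ * x * a⁻¹⁻¹ = a⁻¹ * (a * x⁻¹ * a⁻¹) * a := by rw [this, inv_inv]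
        _ = x⁻¹ := by group

theorem result {G : Type*} [Group G] [Finite G] (x : G) (hx : x ≠ 1) (P : Sylow 2 G) (hP : (P : Subgroup G) ≤ Subgroup.centralizer ({x} : Set G)) (hreal : IsConj x x⁻¹) : orderOf x = 2 := by
  have : Fact (Nat.Prime 2) := ⟨Nat.prime_two⟩
  obtain ⟨g, hg⟩ := isConj_iff.mp hreal
  set C := Subgroup.centralizer ({x} : Set G) with hC
  have memC : ∀ a : G, a ∈ C ↔ a * x * a⁻¹ = x := by
    intro a
    rw [hC, Subgroup.mem_centralizer_singleton_iff, mul_inv_eq_iff_eq_mul]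
  have hCE : C ≤ extC x := fun a ha => Or.inl ((memC a).mp ha)
  have hgE : g ∈ extC x := Or.inr hg
  by_cases hgC : g ∈ C
  · have h1 : x = x⁻¹ := by rw [← hg]; exact ((memC g).mp hgC).symm
    have h2 : x ^ 2 = 1 := by
      rw [pow_two]
      nth_rewrite 1 [h1]
      exact inv_mul_cancel x
    exact orderOf_eq_prime h2 hx
  · exfalso
    have hne : x ≠ x⁻¹ := by
      intro h
      apply hgC
      rw [memC, hg]; exact h.symm
    have hidx : (C.subgroupOf (extC x)).index = 2 := by
      rw [Subgroup.index_eq_two_iff]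
      refine ⟨⟨g, hgE⟩, ?_⟩
      rintro ⟨b, hb⟩
      simp only [Subgroup.mem_subgroupOf, Subgroup.coe_mul]
      have e : b * g * x * (b * g)⁻¹ = b * (g * x * g⁻¹) * b⁻¹ := by group
      have e' : b * x⁻¹ * b⁻¹ = (b * x * b⁻¹)⁻¹ := by group
      rcases hb with hb | hb
      · right
        refine ⟨(memC b).mpr hb, ?_⟩
        rw [memC, e, hg, e', hb]
        exact fun h => hne h.symm
      · left
        refine ⟨?_, ?_⟩
        · rw [memC, e, hg, e', hb, inv_inv]
        · rw [memC, hb]
          exact fun h => hne h.symm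
    have h2 : 2 ∣ C.index := by
      have := Subgroup.relIndex_dvd_index_of_le hCE
      rw [Subgroup.relIndex, hidx] at this
      exact this
    have h3 : C.index ∣ (P : Subgroup G).index := Subgroup.index_dvd_of_le hP
    exact P.not_dvd_index (h2.trans h3)

end Cfsg.Agent.S4195
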