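import Cfsg.Statements.S4250
import Mathlib
import Cfsg.Agent.Lib.Helper1.AlperinTame
import Cfsg.Agent.Lib.Helper1.Transfer1
import Cfsg.Agent.Lib.Helper1.Frat
import Cfsg.Agent.Lib.Helper1.Frobenius
import Cfsg.Agent.Lib.Helper1.Coprime2

set_option autoImplicit false
open Cfsg

namespace Cfsg.Agent.S4250

open Cfsg
open Cfsg.Agent.Lib.Helper1
open scoped Pointwise commutatorElement

def Good {G : Type*} [Group G] (F T : Subgroup G) : Prop :=
  ∀ t ∈ T, ∀ y ∈ Subgroup.normalizer (T : Set G), t⁻¹ * (y⁻¹ * t * y) ∈ F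

theorem fus_elim {G : Type*} [Group G] [Finite G] (F : Subgroup G) (𝓕 : Set (Subgroup G)) (c : ℕ)
    (hgood : ∀ T ∈ 𝓕, c ≤ Nat.card T → Good F T) (A : Set G) (g : G) (h : Fus 𝓕 A g) :
    c ≤ A.ncard → ∀ a ∈ A, a⁻¹ * (g⁻¹ * a * g) ∈ F := by
  induction h with
  | nil A =>
    intro _ a _
    have : a⁻¹ * ((1 : G)⁻¹ * a * 1) = 1 := by group
    rw [this]; exact F.one_mem
  | cons A T x g hT hx hA h ih =>
    intro hc a ha
    have h1 : c ≤ Nat.card T := by
      have := Set.ncard_le_ncard hA (Set.toFinite _)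
      have h2 : ((T : Set G)).ncard = Nat.card T := (Nat.card_coe_set_eq _).symm
      omega
    have h2 : (cj x A).ncard = A.ncard := by
      apply Set.ncard_image_of_injective
      intro u v huv
      simpa using huv
    have h3 := ih (by rw [h2]; exact hc) (x⁻¹ * a * x) ⟨a, ha, rfl⟩
    have h4 := hgood T hT h1 a (hA ha) x hx
    have := F.mul_mem h4 h3
    have e : a⁻¹ * (x⁻¹ * a * x) * ((x⁻¹ * a * x)⁻¹ * (g⁻¹ * (x⁻¹ * a * x) * g)) = a⁻¹ * ((x * g)⁻¹ * a * (x * g)) := by
      group
    rwa [e] at this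

/-- Let P be a Sylow p-subgroup of a finite group G. Call an intersection H = P ∩ Q with a Sylow p-subgroup Q tame when N_P(H) and N_Q(H) are Sylow p-subgroups of N_G(H). Then P ∩ G′ is generated by [P, N_G(P)] together with the commutator subgroups [P ∩ Q, ⟨x⟩] for all tame intersections P ∩ Q and all p-elements x of N_G(P ∩ Q). -/
theorem result {G : Type*} [Group G] [Finite G] (p : ℕ) [Fact p.Prime] (P : Sylow p G) :
    (P : Subgroup G) ⊓ commutator G =
      ⁅(P : Subgroup G), Subgroup.normalizer ((P : Subgroup G) : Set G)⁆ ⊔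
        ⨆ (Q : Sylow p G) (_ : (¬ p ∣ ((P : Subgroup G) ⊓ Subgroup.normalizer (((P : Subgroup G) ⊓ (Q : Subgroup G) : Subgroup G) : Set G)).relIndex (Subgroup.normalizer (((P : Subgroup G) ⊓ (Q : Subgroup G) : Subgroup G) : Set G)) ∧ ¬ p ∣ ((Q : Subgroup G) ⊓ Subgroup.normalizer (((P : Subgroup G) ⊓ (Q : Subgroup G) : Subgroup G) : Set G)).relIndex (Subgroup.normalizer (((P : Subgroup G) ⊓ (Q : Subgroup G) : Subgroup G) : Set G))))
          (x : G) (_ : x ∈ Subgroup.normalizer (((P : Subgroup G) ⊓ (Q : Subgroup G) : Subgroup G) : Set G) ∧ ∃ k : ℕ, orderOf x = p ^ k),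
          ⁅(P : Subgroup G) ⊓ (Q : Subgroup G), Subgroup.zpowers x⁆ := by
  have hp : p.Prime := Fact.out
  set F := ⁅(P : Subgroup G), Subgroup.normalizer ((P : Subgroup G) : Set G)⁆ ⊔
        ⨆ (Q : Sylow p G) (_ : (¬ p ∣ ((P : Subgroup G) ⊓ Subgroup.normalizer (((P : Subgroup G) ⊓ (Q : Subgroup G) : Subgroup G) : Set G)).relIndex (Subgroup.normalizer (((P : Subgroup G) ⊓ (Q : Subgroup G) : Subgroup G) : Set G)) ∧ ¬ p ∣ ((Q : Subgroup G) ⊓ Subgroup.normalizer (((P : Subgroup G) ⊓ (Q : Subgroup G) : Subgroup G) : Set G)).relIndex (Subgroup.normalizer (((P : Subgroup G) ⊓ (Q : Subgroup G) : Subgroup G) : Set G))))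
          (x : G) (_ : x ∈ Subgroup.normalizer (((P : Subgroup G) ⊓ (Q : Subgroup G) : Subgroup G) : Set G) ∧ ∃ k : ℕ, orderOf x = p ^ k),
          ⁅(P : Subgroup G) ⊓ (Q : Subgroup G), Subgroup.zpowers x⁆ with hF
  have hF1 : ⁅(P : Subgroup G), Subgroup.normalizer ((P : Subgroup G) : Set G)⁆ ≤ F := le_sup_left
  have hF2 : ∀ T ∈ tameFamily P, ∀ x ∈ Subgroup.normalizer (T : Set G), (∃ k : ℕ, orderOf x = p ^ k) →
      ⁅T, Subgroup.zpowers x⁆ ≤ F := by
    rintro T ⟨Q, rfl, h1, h2⟩ x hx hxp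
    exact le_sup_of_le_right (le_iSup_of_le Q (le_iSup_of_le ⟨h1, h2⟩ (le_iSup_of_le x (le_iSup_of_le ⟨hx, hxp⟩ le_rfl))))
  -- main induction
  have hmain : ∀ n : ℕ, ∀ T ∈ tameFamily P, Nat.card (P : Subgroup G) - Nat.card T = n → Good F T := by
    intro n
    induction n using Nat.strong_induction_on with
    | _ n ih =>
    intro T hT hn
    have hT' := hT
    obtain ⟨Q, hTQ, htame1, -⟩ := hT'
    have hTP : T ≤ (P : Subgroup G) := hTQ ▸ inf_le_left
    set L := Subgroup.normalizer (T : Set G) with hL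
    set S := (P : Subgroup G) ⊓ L with hS
    have hSL : S ≤ L := inf_le_right
    have hSp : IsPGroup p S := P.2.to_le inf_le_left
    have hSc : Nat.card S = p ^ (Nat.card L).factorization p := card_eq_of_not_dvd_relIndex hSp hSL htame1
    set E := Subgroup.closure {x : G | x ∈ L ∧ ∃ k : ℕ, orderOf x = p ^ k} with hE
    have hEL : E ≤ L := by
      rw [hE, Subgroup.closure_le]
      intro x hx; exact hx.1
    have hpel : ∀ R : Subgroup G, IsPGroup p R → R ≤ L → R ≤ E := by
      intro R hR hRL x hx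
      apply Subgroup.subset_closure
      refine ⟨hRL hx, ?_⟩
      obtain ⟨k, hk⟩ := hR ⟨x, hx⟩
      have hk' : x ^ (p ^ k) = 1 := by
        have := congrArg Subtype.val hk
        simpa using this
      obtain ⟨j, -, hj⟩ := (Nat.dvd_prime_pow hp).mp (orderOf_dvd_of_pow_eq_one hk')
      exact ⟨j, hj⟩
    have hSE : S ≤ E := hpel S hSp hSL
    have hScE := sylow_card_of_le hSE hEL hSc
    have hconjT : ∀ y ∈ L, ∀ t ∈ T, y⁻¹ * t * y ∈ T := by
      intro y hy t ht
      have := (Subgroup.mem_normalizer_iff.mp (L.inv_mem hy) t).mp ht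
      rwa [inv_inv] at this
    -- E-lemma
    have hElem : ∀ e ∈ E, ∀ t ∈ T, t⁻¹ * (e⁻¹ * t * e) ∈ F := by
      intro e he
      induction he using Subgroup.closure_induction with
      | mem x hx =>
        intro t ht
        apply hF2 T hT x hx.1 hx.2
        have := Subgroup.commutator_mem_commutator (T.inv_mem ht) (Subgroup.inv_mem _ (Subgroup.mem_zpowers x))
        have e1 : ⁅t⁻¹, x⁻¹⁆ = t⁻¹ * (x⁻¹ * t * x) := by
          rw [commutatorElement_def]; group
        rwa [e1] at this
      | one =>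
        intro t _
        have : t⁻¹ * ((1 : G)⁻¹ * t * 1) = 1 := by group
        rw [this]; exact F.one_mem
      | mul e1 e2 he1 he2 ih1 ih2 =>
        intro t ht
        have h1 := ih1 t ht
        have h2 := ih2 _ (hconjT e1 (hEL he1) t ht)
        have := F.mul_mem h1 h2
        have e : t⁻¹ * (e1⁻¹ * t * e1) * ((e1⁻¹ * t * e1)⁻¹ * (e2⁻¹ * (e1⁻¹ * t * e1) * e2)) =
            t⁻¹ * ((e1 * e2)⁻¹ * t * (e1 * e2)) := by group
        rwa [e] at this
      | inv e he ih1 =>
        intro t ht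
        have h0 := hconjT e⁻¹ (L.inv_mem (hEL he)) t ht
        have h1 := F.inv_mem (ih1 _ h0)
        have e1 : ((e⁻¹⁻¹ * t * e⁻¹)⁻¹ * (e⁻¹ * (e⁻¹⁻¹ * t * e⁻¹) * e))⁻¹ = t⁻¹ * (e⁻¹⁻¹ * t * e⁻¹) := by group
        rwa [e1] at h1
    -- normalizer of S
    have hNS : ∀ m ∈ L, m ∈ Subgroup.normalizer (S : Set G) → ∀ t ∈ T, t⁻¹ * (m⁻¹ * t * m) ∈ F := by
      intro m hmL hmS t ht
      by_cases hTeq : T = (P : Subgroup G)
      · apply hF1
        have hmP : m ∈ Subgroup.normalizer ((P : Subgroup G) : Set G) := by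
          rw [← hTeq]; exact hmL
        have := Subgroup.commutator_mem_commutator ((P : Subgroup G).inv_mem (hTP ht)) (Subgroup.inv_mem _ hmP)
        have e1 : ⁅t⁻¹, m⁻¹⁆ = t⁻¹ * (m⁻¹ * t * m) := by
          rw [commutatorElement_def]; group
        rwa [e1] at this
      · have hlt : T < (P : Subgroup G) := lt_of_le_of_ne hTP hTeq
        have hTS : T < S := lt_inf_normalizer_of_lt P.2 hlt
        have hcardlt : Nat.card T < Nat.card S := by
          by_contra hge
          push Not at hge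
          exact hTS.ne (Subgroup.eq_of_le_of_card_ge hTS.le hge)
        have hfus : Fus (tameFamily P) (S : Set G) m := by
          apply alperin_tame P
          · intro x hx; exact hx.1
          · rintro _ ⟨x, hx, rfl⟩
            have := (Subgroup.mem_normalizer_iff.mp (Subgroup.inv_mem _ hmS) x).mp hx
            rw [inv_inv] at this
            exact this.1
        apply fus_elim F (tameFamily P) (Nat.card S) _ (S : Set G) m hfus
        · exact le_of_eq (Nat.card_coe_set_eq _)
        · exact hTS.le ht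
        · intro T' hT' hc
          have hT'P : T' ≤ (P : Subgroup G) := by
            obtain ⟨Q', hQ', -⟩ := hT'
            exact hQ' ▸ inf_le_left
          have h1 := Subgroup.card_le_of_le hT'P
          have h2 := Subgroup.card_le_of_le hTP
          exact ih (Nat.card (P : Subgroup G) - Nat.card T') (by omega) T' hT' rfl
    intro t ht y hy
    -- Frattini
    have hyS : MulAut.conj y⁻¹ • S ≤ E := by
      apply hpel
      · exact IsPGroup.of_card (by rw [card_conj_smul]; exact hSc)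
      · intro x hx
        rw [mem_conj_smul, inv_inv] at hx
        have := L.mul_mem (L.mul_mem (L.inv_mem hy) (hSL hx)) hy
        have e : y⁻¹ * (y * x * y⁻¹) * y = x := by group
        rwa [e] at this
    obtain ⟨e, he, he2⟩ := sylow_conj_in E S (MulAut.conj y⁻¹ • S) hSE hyS hScE (by rw [card_conj_smul]; exact hScE)
    have hm : y * e ∈ Subgroup.normalizer (S : Set G) := by
      apply mem_normalizer_of_conj_smul_eq
      rw [← conj_smul_smul, he2, conj_smul_smul, mul_inv_cancel, map_one, one_smul]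
    have hmL : y * e ∈ L := L.mul_mem hy (hEL he)
    have h1 := hNS (y * e) hmL hm t ht
    have h2 := hElem e⁻¹ (E.inv_mem he) _ (hconjT (y * e) hmL t ht)
    have := F.mul_mem h1 h2
    have e1 : t⁻¹ * ((y * e)⁻¹ * t * (y * e)) * (((y * e)⁻¹ * t * (y * e))⁻¹ * (e⁻¹⁻¹ * ((y * e)⁻¹ * t * (y * e)) * e⁻¹)) =
        t⁻¹ * (y⁻¹ * t * y) := by group
    rwa [e1] at this
  apply le_antisymm
  · rw [inf_comm, (focal_sylow P).2.2, Subgroup.focalSubgroup_def, Subgroup.closure_le]
    rintro g ⟨hgP, x, hx, u, rfl⟩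
    have hfus : Fus (tameFamily P) ({x⁻¹} : Set G) u⁻¹ := by
      apply alperin_tame P
      · intro a ha
        rw [Set.mem_singleton_iff.mp ha]
        exact (P : Subgroup G).inv_mem hx
      · rintro _ ⟨a, ha, rfl⟩
        rw [Set.mem_singleton_iff.mp ha]
        have := (P : Subgroup G).mul_mem ((P : Subgroup G).inv_mem hx) hgP
        have e : x⁻¹ * ⁅x, u⁆ = u⁻¹⁻¹ * x⁻¹ * u⁻¹ := by
          rw [commutatorElement_def]; group
        rw [e] at this
        exact this
    have := fus_elim F (tameFamily P) 0 (fun T hT _ => hmain _ T hT rfl) _ _ hfus (Nat.zero_le _) x⁻¹ rfl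
    have e : x⁻¹⁻¹ * (u⁻¹⁻¹ * x⁻¹ * u⁻¹) = ⁅x, u⁆ := by
      rw [commutatorElement_def]; group
    rw [e] at this
    exact this
  · have hG' : ∀ H K : Subgroup G, ⁅H, K⁆ ≤ commutator G := by
      intro H K
      rw [commutator_def]
      exact Subgroup.commutator_mono le_top le_top
    rw [hF]
    apply sup_le
    · exact le_inf (commutator_le_of_le_normalizer le_rfl) (hG' _ _)
    · apply iSup_le; intro Q
      apply iSup_le; intro _
      apply iSup_le; intro x
      apply iSup_le; intro hx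
      exact le_inf ((commutator_le_of_le_normalizer (Subgroup.zpowers_le.mpr hx.1)).trans inf_le_left) (hG' _ _)

end Cfsg.Agent.S4250
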