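import Cfsg.Statements.S4216
import Mathlib
import Cfsg.Agent.S4250

set_option autoImplicit false
open Cfsg

namespace Cfsg.Agent.S4216

open Cfsg
open scoped Pointwise commutatorElement

theorem comm_le_left_of_le_normalizer {G : Type*} [Group G] {H K : Subgroup G}
    (h : K ≤ Subgroup.normalizer (H : Set G)) : ⁅H, K⁆ ≤ H := by
  rw [Subgroup.commutator_le]
  intro a ha b hb
  rw [commutatorElement_def]
  have h1 := (Subgroup.mem_normalizer_iff.mp (h hb) a⁻¹).mp (H.inv_mem ha)
  have e : a * b * a⁻¹ * b⁻¹ = a * (b * a⁻¹ * b⁻¹) := by group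
  rw [e]; exact H.mul_mem ha h1

/-- Grün's first Theorem: if `P` is a Sylow `p`-subgroup of the finite group `G`, then `P ∩ G'` is the subgroup generated by `P ∩ N_G(P)'` together with the subgroups `P ∩ z P' z⁻¹` for all `z ∈ G`, where `'` denotes the derived subgroup and `N_G(P)` the normalizer of `P`. -/
theorem result {G : Type*} [Group G] [Finite G] {p : ℕ} [Fact p.Prime] (P : Sylow p G) : (P : Subgroup G) ⊓ commutator G = ((P : Subgroup G) ⊓ ⁅Subgroup.normalizer ((P : Subgroup G) : Set G), Subgroup.normalizer ((P : Subgroup G) : Set G)⁆) ⊔ ⨆ z : G, (P : Subgroup G) ⊓ (⁅(P : Subgroup G), (P : Subgroup G)⁆).map (MulAut.conj z).toMonoidHom := by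
  apply le_antisymm
  · rw [Cfsg.Agent.S4250.result p P]
    apply sup_le
    · apply le_sup_of_le_left
      apply le_inf
      · exact comm_le_left_of_le_normalizer le_rfl
      · exact Subgroup.commutator_mono Subgroup.le_normalizer le_rfl
    · apply iSup_le; intro Q; apply iSup_le; intro hQ; apply iSup_le; intro x; apply iSup_le
      rintro ⟨hx, k, hk⟩
      set H := (P : Subgroup G) ⊓ (Q : Subgroup G) with hH
      have hHp : IsPGroup p H := P.2.to_le inf_le_left
      have hxp : IsPGroup p (Subgroup.zpowers x) := IsPGroup.of_card (n := k) (by rw [Nat.card_zpowers, hk])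
      have hxN : Subgroup.zpowers x ≤ Subgroup.normalizer (H : Set G) := by
        rw [Subgroup.zpowers_le]; exact hx
      have hHx : IsPGroup p (H ⊔ Subgroup.zpowers x : Subgroup G) := hHp.to_sup_of_normal_left' hxp hxN
      obtain ⟨P1, hP1⟩ := hHx.exists_le_sylow
      obtain ⟨z, hz⟩ := MulAction.exists_smul_eq G P P1
      have hP1e : (P1 : Subgroup G) = (P : Subgroup G).map (MulAut.conj z).toMonoidHom := by rw [← hz]; rfl
      apply le_sup_of_le_right
      apply le_iSup_of_le z
      apply le_inf
      · exact (comm_le_left_of_le_normalizer hxN).trans inf_le_left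
      · rw [Subgroup.map_commutator, ← hP1e]
        exact Subgroup.commutator_mono (le_sup_left.trans hP1) (le_sup_right.trans hP1)
  · apply sup_le
    · apply inf_le_inf_left
      rw [commutator_def]
      exact Subgroup.commutator_mono le_top le_top
    · apply iSup_le
      intro z
      apply inf_le_inf_left
      rw [Subgroup.map_commutator, commutator_def]
      exact Subgroup.commutator_mono le_top le_top

end Cfsg.Agent.S4216
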