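import Cfsg.Statements.S4230
import Mathlib

set_option autoImplicit false
open Cfsg

namespace Cfsg.Agent.S4230

/-- Let p be an odd prime, q a natural number not divisible by p, and e the multiplicative order of q modulo p. For a natural number f, p divides the value at q of the f-th cyclotomic polynomial if and only if f = e·p^j for some j ≥ 0. -/
theorem result (p q f : ℕ) (hp : p.Prime) (hp2 : p ≠ 2) (hpq : ¬ p ∣ q) :
    ((p : ℤ) ∣ (Polynomial.cyclotomic f ℤ).eval (q : ℤ)) ↔ ∃ j : ℕ, f = orderOf (q : ZMod p) * p ^ j := by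
  haveI : Fact p.Prime := ⟨hp⟩
  have hq0 : (q : ZMod p) ≠ 0 := by
    intro h
    exact hpq ((ZMod.natCast_eq_zero_iff q p).mp h)
  have he : orderOf (q : ZMod p) ∣ p - 1 := ZMod.orderOf_dvd_card_sub_one hq0
  have hepos : 0 < orderOf (q : ZMod p) := by
    apply Nat.pos_of_dvd_of_pos he
    have := hp.two_le
    omega
  have hpe : ¬ p ∣ orderOf (q : ZMod p) := by
    intro h
    have h1 := Nat.le_of_dvd (by have := hp.two_le; omega) (h.trans he)
    have := hp.two_le
    omega
  have hstep1 : ((p : ℤ) ∣ (Polynomial.cyclotomic f ℤ).eval (q : ℤ)) ↔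
      (Polynomial.cyclotomic f (ZMod p)).IsRoot (q : ZMod p) := by
    rw [← ZMod.intCast_zmod_eq_zero_iff_dvd, Polynomial.IsRoot.def,
      ← Polynomial.map_cyclotomic_int f (ZMod p)]
    have h1 := Polynomial.eval_map_apply (p := Polynomial.cyclotomic f ℤ)
      (Int.castRingHom (ZMod p)) (q : ℤ)
    have h2 : (Int.castRingHom (ZMod p)) (q : ℤ) = (q : ZMod p) := by simp
    rw [h2] at h1
    rw [h1]
    rfl
  rw [hstep1]
  rcases Nat.eq_zero_or_pos f with hf0 | hfpos
  · subst hf0
    constructor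
    · intro h
      rw [Polynomial.cyclotomic_zero, Polynomial.IsRoot.def, Polynomial.eval_one] at h
      exact absurd h one_ne_zero
    · rintro ⟨j, hj⟩
      exfalso
      have := Nat.mul_pos hepos (Nat.pow_pos (n := j) hp.pos)
      omega
  obtain ⟨k, m, hm, hf⟩ := Nat.exists_eq_pow_mul_and_not_dvd hfpos.ne' p hp.one_lt.ne'
  haveI : NeZero (m : ZMod p) := ⟨fun h => hm ((ZMod.natCast_eq_zero_iff m p).mp h)⟩
  rw [hf, Polynomial.isRoot_cyclotomic_prime_pow_mul_iff_of_charP]
  constructor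
  · intro h
    exact ⟨k, by rw [← h.eq_orderOf, mul_comm]⟩
  · rintro ⟨j, hj⟩
    have hc1 : Nat.Coprime (p ^ k) (orderOf (q : ZMod p)) :=
      Nat.Coprime.pow_left k ((Nat.Prime.coprime_iff_not_dvd hp).mpr hpe)
    have hc2 : Nat.Coprime (p ^ j) m :=
      Nat.Coprime.pow_left j ((Nat.Prime.coprime_iff_not_dvd hp).mpr hm)
    have h1 : p ^ k ∣ p ^ j := by
      apply hc1.dvd_of_dvd_mul_left
      rw [← hj]
      exact dvd_mul_right _ _
    have h2 : p ^ j ∣ p ^ k := by
      apply hc2.dvd_of_dvd_mul_right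
      rw [hj]
      exact dvd_mul_left _ _
    have h3 : p ^ k = p ^ j := Nat.dvd_antisymm h1 h2
    rw [h3, mul_comm] at hj
    have h4 : m = orderOf (q : ZMod p) := Nat.eq_of_mul_eq_mul_right (Nat.pow_pos hp.pos) hj
    rw [h4]
    exact IsPrimitiveRoot.orderOf _

end Cfsg.Agent.S4230
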