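import Mathlib
import Cfsg.Statements.S4253
import Cfsg.Agent.Lib.Helper2.Conj

set_option autoImplicit false
open Cfsg
open scoped Pointwise
open Cfsg.Agent.Lib.Helper2.Conj

namespace Cfsg.Agent.S4253

theorem result {G : Type*} [Group G] [Finite G] (H : Subgroup G) (hH : Cfsg.IsFrobeniusComplement H)
    (g : G) (hg : g ≠ 1) (a b : G ⧸ H) (ha : g • a = a) (hb : g • b = b) : a = b := by
  induction a using QuotientGroup.induction_on with
  | H x =>
  induction b using QuotientGroup.induction_on with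
  | H y =>
  rw [MulAction.Quotient.smul_coe, smul_eq_mul, eq_comm, QuotientGroup.eq] at ha hb
  rw [QuotientGroup.eq]
  by_contra hu
  have h1 := hH.2.2 _ hu
  have h2 : x⁻¹ * (g * x) ∈ H ⊓ (MulAut.conj (x⁻¹ * y) • H) := by
    refine Subgroup.mem_inf.mpr ⟨ha, ?_⟩
    rw [mem_conj_smul]
    have : (x⁻¹ * y)⁻¹ * (x⁻¹ * (g * x)) * (x⁻¹ * y) = y⁻¹ * (g * y) := by group
    rw [this]; exact hb
  rw [h1, Subgroup.mem_bot] at h2
  apply hg
  have : g = x * (x⁻¹ * (g * x)) * x⁻¹ := by group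
  rw [this, h2]; group

end Cfsg.Agent.S4253
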