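import Mathlib
import Cfsg.Statements.S4260

set_option autoImplicit false
open Cfsg

namespace Cfsg.Agent.S4260

theorem result {G : Type*} [Group G] [Finite G] (H : Subgroup G) (hHall : (Nat.card H).Coprime H.index)
    (hexp : ∀ x : G, x ^ H.index ∈ H) : H.Normal := by
  constructor
  intro h hh g
  set y := g * h * g⁻¹ with hy
  have h1 : h ^ Nat.card H = 1 := by
    have := pow_card_eq_one' (G := H) (x := ⟨h, hh⟩)
    exact congrArg Subtype.val this
  have h2 : y ^ Nat.card H = 1 := by
    rw [hy, conj_pow, h1]; group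
  have h3 : orderOf y ∣ Nat.card H := orderOf_dvd_of_pow_eq_one h2
  have h4 : (H.index).Coprime (orderOf y) := (Nat.Coprime.coprime_dvd_left h3 hHall).symm
  obtain ⟨m, hm⟩ := exists_pow_eq_self_of_coprime h4
  rw [← hm]
  exact H.pow_mem (hexp y) m

end Cfsg.Agent.S4260
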