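import Cfsg.Statements.S4263
import Cfsg.Agent.Lib.Helper1.Cores

set_option autoImplicit false
open Cfsg

namespace Cfsg.Agent.S4263

theorem pow_index_mem_of_nilpotent {Q : Type*} [Group Q] [Finite Q] [hQ : Group.IsNilpotent Q] :
    ∀ (n : ℕ) (R : Subgroup Q), R.index = n → ∀ y : Q, y ^ n ∈ R := by
  intro n
  induction n using Nat.strong_induction_on with
  | _ n ih =>
    intro R hR y
    by_cases hT : R = ⊤
    · rw [hT]; exact Subgroup.mem_top _
    have hlt : R < Subgroup.normalizer (R : Set Q) :=
      Group.normalizerCondition_of_isNilpotent R (lt_top_iff_ne_top.mpr hT)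
    set R1 := Subgroup.normalizer (R : Set Q) with hR1
    have hmul : R.relIndex R1 * R1.index = R.index := Subgroup.relIndex_mul_index hlt.le
    have hne : R.relIndex R1 ≠ 1 := by
      intro h1
      rw [Subgroup.relIndex_eq_one] at h1
      exact absurd h1 (not_le_of_gt hlt)
    have hpos : R1.index ≠ 0 := Subgroup.index_ne_zero_of_finite
    have hpos' : R.relIndex R1 ≠ 0 := by
      intro h0; rw [h0, zero_mul] at hmul
      exact (Subgroup.index_ne_zero_of_finite (H := R)) hmul.symm
    have hlt' : R1.index < n := by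
      rw [← hR, ← hmul]
      have : 2 ≤ R.relIndex R1 := by omega
      nlinarith [Nat.pos_of_ne_zero hpos]
    have h1 : y ^ R1.index ∈ R1 := ih _ hlt' R1 rfl y
    have : (R.subgroupOf R1).Normal := Subgroup.normal_in_normalizer
    have h2 := Subgroup.pow_index_mem (R.subgroupOf R1) (⟨y ^ R1.index, h1⟩ : R1)
    rw [Subgroup.mem_subgroupOf] at h2
    have h3 : (y ^ R1.index) ^ (R.relIndex R1) ∈ R := by simpa [Subgroup.relIndex] using h2
    rw [← hR, ← hmul, mul_comm, pow_mul]
    exact h3

theorem relIndex_dvd_index_of_normal' {G : Type*} [Group G] [Finite G] (H K : Subgroup G)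
    [K.Normal] : H.relIndex K ∣ H.index := by
  have e1 : (H ⊓ K).relIndex K * K.relIndex (K ⊔ H) = (H ⊓ K).relIndex (K ⊔ H) :=
    Subgroup.relIndex_mul_relIndex _ _ _ inf_le_right le_sup_left
  have e2 : (H ⊓ K).relIndex H * H.relIndex (K ⊔ H) = (H ⊓ K).relIndex (K ⊔ H) :=
    Subgroup.relIndex_mul_relIndex _ _ _ inf_le_left le_sup_right
  have e3 : K.relIndex (K ⊔ H) = K.relIndex H := Subgroup.relIndex_sup_left H K
  have e4 : (H ⊓ K).relIndex H = K.relIndex H := Subgroup.inf_relIndex_left H K
  have e5 : (H ⊓ K).relIndex K = H.relIndex K := Subgroup.inf_relIndex_right H K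
  have hne : K.relIndex H ≠ 0 := Subgroup.index_ne_zero_of_finite
  have e6 : H.relIndex K = H.relIndex (K ⊔ H) := by
    rw [e3, e5] at e1
    rw [e4] at e2
    have : H.relIndex K * K.relIndex H = K.relIndex H * H.relIndex (K ⊔ H) := e1.trans e2.symm
    rw [mul_comm] at this
    exact Nat.eq_of_mul_eq_mul_left (Nat.pos_of_ne_zero hne) this
  rw [e6]
  exact ⟨_, (Subgroup.relIndex_mul_index (le_sup_right : H ≤ K ⊔ H)).symm⟩

/-- Let G be a finite group. An element x lies in the Fitting subgroup F(G) if and only if, for every subgroup H of G, the power x^[G : H] lies in H. -/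
theorem result {G : Type*} [Group G] [Finite G] (x : G) :
    x ∈ Cfsg.fittingSubgroup G ↔ ∀ H : Subgroup G, x ^ H.index ∈ H := by
  have hFn : (Cfsg.fittingSubgroup G).Normal := Cfsg.Agent.Lib.Helper1.fitting_normal
  constructor
  · intro hx H
    have : Group.IsNilpotent (Cfsg.fittingSubgroup G) := Cfsg.Agent.Lib.Helper1.fitting_isNilpotent
    have h1 := pow_index_mem_of_nilpotent _ (H.subgroupOf (Cfsg.fittingSubgroup G)) rfl
      (⟨x, hx⟩ : Cfsg.fittingSubgroup G)
    rw [Subgroup.mem_subgroupOf] at h1
    have h2 : x ^ (H.relIndex (Cfsg.fittingSubgroup G)) ∈ H := by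
      simpa [Subgroup.relIndex] using h1
    obtain ⟨c, hc⟩ := relIndex_dvd_index_of_normal' H (Cfsg.fittingSubgroup G)
    rw [hc, pow_mul]
    exact H.pow_mem h2 c
  · intro h
    have key : ∀ (p : ℕ) [Fact p.Prime] (P : Sylow p G),
        x ^ (P : Subgroup G).index ∈ Cfsg.fittingSubgroup G := by
      intro p _ P
      apply Cfsg.Agent.Lib.Helper1.pCore_le_fitting p
      have hle : Subgroup.normalClosure ({x ^ (P : Subgroup G).index} : Set G) ≤ (P : Subgroup G) := by
        rw [Subgroup.normalClosure]
        rw [Subgroup.closure_le]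
        intro y hy
        rw [Group.mem_conjugatesOfSet_iff] at hy
        obtain ⟨a, ha, hay⟩ := hy
        rw [Set.mem_singleton_iff] at ha
        subst ha
        rw [isConj_iff] at hay
        obtain ⟨c, rfl⟩ := hay
        have hidx : ((c⁻¹ • P : Sylow p G) : Subgroup G).index = (P : Subgroup G).index := by
          rw [Sylow.coe_subgroup_smul]
          exact Subgroup.index_map_equiv (P : Subgroup G) (MulAut.conj c⁻¹)
        have h3 := h ((c⁻¹ • P : Sylow p G) : Subgroup G)
        rw [hidx, Sylow.coe_subgroup_smul, Subgroup.mem_pointwise_smul_iff_inv_smul_mem] at h3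
        have h4 : c * x ^ (P : Subgroup G).index * c⁻¹ ∈ (P : Subgroup G) := by
          simpa [MulAut.smul_def] using h3
        exact h4
      have hp : IsPGroup p (Subgroup.normalClosure ({x ^ (P : Subgroup G).index} : Set G)) :=
        P.2.to_le hle
      exact Cfsg.Agent.Lib.Helper1.le_pCore Subgroup.normalClosure_normal hp
        (Subgroup.subset_normalClosure (Set.mem_singleton _))
    rw [← QuotientGroup.eq_one_iff, ← orderOf_eq_one_iff]
    by_contra hne
    obtain ⟨q, hq, hqd⟩ := Nat.exists_prime_and_dvd hne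
    have := Fact.mk hq
    obtain ⟨Q⟩ : Nonempty (Sylow q G) := inferInstance
    have h4 := key q Q
    rw [← QuotientGroup.eq_one_iff, QuotientGroup.mk_pow] at h4
    have h5 := orderOf_dvd_of_pow_eq_one h4
    exact Q.not_dvd_index (hqd.trans h5)

end Cfsg.Agent.S4263
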