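import Mathlib
import Cfsg.Statements.S4269
import Cfsg.Agent.Lib.Helper6.Basic

set_option autoImplicit false
open Cfsg
open scoped commutatorElement

namespace Cfsg.Agent.S4269

open Cfsg.Agent.Lib.Helper6.Basic

variable {G : Type*} [Group G]

theorem comm_normal (V : Subgroup G) [V.Normal] (cV : ∀ a ∈ V, ∀ b ∈ V, a * b = b * a)
    (H : Subgroup G) (hHV : H ⊔ V = ⊤)
    (U : Subgroup G) (hUV : U ≤ V) (hinv : ∀ h ∈ H, cj h U = U) :
    (⁅H, U⁆).Normal ∧ ⁅H, U⁆ ≤ U := by
  have hWU : ⁅H, U⁆ ≤ U := by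
    rw [Subgroup.commutator_le]
    intro h hh u hu
    have h1 : h * u * h⁻¹ ∈ U := by
      rw [← hinv h hh]; exact conj_mem_cj hu
    exact U.mul_mem h1 (U.inv_mem hu)
  refine ⟨?_, hWU⟩
  rw [← Subgroup.normalizer_eq_top_iff, eq_top_iff, ← hHV, sup_le_iff]
  constructor
  · intro k hk
    rw [← cj_eq_self_iff]
    show (⁅H, U⁆).map _ = _
    rw [Subgroup.map_commutator]
    have h1 : H.map (MulAut.conj k).toMonoidHom = H := cj_eq_self_of_mem hk
    have h2 : U.map (MulAut.conj k).toMonoidHom = U := hinv k hk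
    rw [h1, h2]
  · intro v hv
    rw [Subgroup.mem_normalizer_iff]
    intro x
    constructor
    · intro hx
      have : v * x * v⁻¹ = x := by
        rw [cV v hv x (hUV (hWU hx))]; group
      rwa [this]
    · intro hy
      have hyV := hUV (hWU hy)
      have hxV : x ∈ V := by
        have := V.mul_mem (V.mul_mem (V.inv_mem hv) hyV) hv
        have e : v⁻¹ * (v * x * v⁻¹) * v = x := by group
        rwa [e] at this
      have : v * x * v⁻¹ = x := by
        rw [cV v hv x hxV]; group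
      rwa [this] at hy

theorem result {G : Type*} [Group G] [Finite G]
    (V : Subgroup G) [V.Normal] (hV : IsMulCommutative ↥V) (H : Subgroup G) (hHV : H ⊔ V = ⊤) :
    Cfsg.IsPronormal H ↔
      ∀ U : Subgroup G, U ≤ V → (∀ h ∈ H, U.map (MulAut.conj h).toMonoidHom = U) →
        U = (U ⊓ Subgroup.normalizer (H : Set G)) ⊔ ⁅H, U⁆ := by
  have cV : ∀ a ∈ V, ∀ b ∈ V, a * b = b * a := fun a ha b hb =>
    congrArg Subtype.val (hV.is_comm.comm (⟨a, ha⟩ : V) ⟨b, hb⟩)
  constructor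
  · intro hpro U hUV hinv
    obtain ⟨hWn, hWU⟩ := comm_normal V cV H hHV U hUV hinv
    apply le_antisymm _ (sup_le inf_le_left hWU)
    intro u hu
    obtain ⟨x, hx, hxe⟩ := hpro u
    have hle : H ⊔ cj u H ≤ ⁅H, U⁆ ⊔ H := by
      refine sup_le le_sup_right ?_
      rintro _ ⟨h, hh, rfl⟩
      have e : (MulAut.conj u).toMonoidHom h = ⁅h, u⁆⁻¹ * h := by
        simp only [MulEquiv.toMonoidHom_eq_coe, MonoidHom.coe_coe, MulAut.conj_apply,
          commutatorElement_def]
        group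
      rw [e]
      exact Subgroup.mul_mem _
        (Subgroup.mem_sup_left (Subgroup.inv_mem _ (Subgroup.commutator_mem_commutator hh hu)))
        (Subgroup.mem_sup_right hh)
    obtain ⟨w, hw, h, hh, rfl⟩ := Subgroup.mem_sup_of_normal_left.1 (hle hx)
    have h1 : cj u H = cj w H := by
      have : cj (w * h) H = cj w H := by rw [← cj_cj, cj_eq_self_of_mem hh]
      rw [← this]; exact hxe
    have h2 : w⁻¹ * u ∈ Subgroup.normalizer (H : Set G) := by
      rw [← cj_eq_self_iff, ← cj_cj, h1, cj_inv_cj]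
    have e : u = (w⁻¹ * u) * ((w⁻¹ * u)⁻¹ * w * (w⁻¹ * u)) := by group
    rw [e]
    refine Subgroup.mul_mem _ (Subgroup.mem_sup_left ⟨U.mul_mem (U.inv_mem (hWU hw)) hu, h2⟩)
      (Subgroup.mem_sup_right ?_)
    exact hWn.conj_mem' w hw _
  · intro hcond g
    have hg : g ∈ V ⊔ H := by rw [sup_comm, hHV]; trivial
    obtain ⟨v, hv, h, hh, rfl⟩ := Subgroup.mem_sup_of_normal_left.1 hg
    have hgv : cj (v * h) H = cj v H := by rw [← cj_cj, cj_eq_self_of_mem hh]
    show ∃ x ∈ H ⊔ cj (v * h) H, cj (v * h) H = cj x H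
    rw [hgv]
    set L : Subgroup G := H ⊔ cj v H with hL
    have hcV : ∀ k : G, ∀ u ∈ V, ⁅k, u⁆ ∈ V := fun k u hu =>
      V.mul_mem (‹V.Normal›.conj_mem u hu k) (V.inv_mem hu)
    let U : Subgroup G :=
      { carrier := {u | u ∈ V ∧ ∀ k ∈ H, ⁅k, u⁆ ∈ L}
        one_mem' := ⟨V.one_mem, fun k _ => by
          rw [commutatorElement_one_right]; exact L.one_mem⟩
        mul_mem' := by
          rintro a b ⟨ha, ha'⟩ ⟨hb, hb'⟩
          refine ⟨V.mul_mem ha hb, fun k hk => ?_⟩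
          have e : ⁅k, a * b⁆ = ⁅k, a⁆ * (a * ⁅k, b⁆ * a⁻¹) := by
            simp only [commutatorElement_def]; group
          have e2 : a * ⁅k, b⁆ * a⁻¹ = ⁅k, b⁆ := by
            rw [cV a ha _ (hcV k b hb)]; group
          rw [e, e2]
          exact L.mul_mem (ha' k hk) (hb' k hk)
        inv_mem' := by
          rintro a ⟨ha, ha'⟩
          refine ⟨V.inv_mem ha, fun k hk => ?_⟩
          have e : ⁅k, a⁻¹⁆ = a⁻¹ * ⁅k, a⁆⁻¹ * a := by
            simp only [commutatorElement_def]; group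
          have e2 : a⁻¹ * ⁅k, a⁆⁻¹ * a = ⁅k, a⁆⁻¹ := by
            rw [cV a⁻¹ (V.inv_mem ha) _ (V.inv_mem (hcV k a ha))]; group
          rw [e, e2]
          exact L.inv_mem (ha' k hk) }
    have hUV : U ≤ V := fun u hu => hu.1
    have hconj : ∀ k ∈ H, ∀ u ∈ U, k * u * k⁻¹ ∈ U := by
      rintro k hk u ⟨hu, hu'⟩
      refine ⟨‹V.Normal›.conj_mem u hu k, fun j hj => ?_⟩
      have e : ⁅j, k * u * k⁻¹⁆ = k * ⁅k⁻¹ * j * k, u⁆ * k⁻¹ := by
        simp only [commutatorElement_def]; group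
      rw [e]
      have hkL : k ∈ L := Subgroup.mem_sup_left hk
      exact L.mul_mem (L.mul_mem hkL (hu' _ (H.mul_mem (H.mul_mem (H.inv_mem hk) hj) hk)))
        (L.inv_mem hkL)
    have hinv : ∀ k ∈ H, cj k U = U := by
      intro k hk
      apply le_antisymm
      · rintro _ ⟨u, hu, rfl⟩
        exact hconj k hk u hu
      · intro u hu
        rw [mem_cj]
        have := hconj k⁻¹ (H.inv_mem hk) u hu
        rwa [inv_inv] at this
    have hvU : v ∈ U := by
      refine ⟨hv, fun k hk => ?_⟩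
      have e : ⁅k, v⁆ = k * (v * k⁻¹ * v⁻¹) := by
        simp only [commutatorElement_def]; group
      rw [e]
      exact L.mul_mem (Subgroup.mem_sup_left hk)
        (Subgroup.mem_sup_right (conj_mem_cj (H.inv_mem hk)))
    obtain ⟨hWn, hWU⟩ := comm_normal V cV H hHV U hUV hinv
    have hWL : ⁅H, U⁆ ≤ L := by
      rw [Subgroup.commutator_le]
      intro k hk u hu
      exact hu.2 k hk
    have hdec := hcond U hUV hinv
    have hv2 : v ∈ ⁅H, U⁆ ⊔ (U ⊓ Subgroup.normalizer (H : Set G)) := by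
      rw [sup_comm, ← hdec]; exact hvU
    obtain ⟨w, hw, n, hn, rfl⟩ := Subgroup.mem_sup_of_normal_left.1 hv2
    refine ⟨w, hWL hw, ?_⟩
    rw [← cj_cj, cj_eq_self_iff.2 hn.2]

end Cfsg.Agent.S4269
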