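import Cfsg.Statements.S4333
import Cfsg.Agent.Lib.Helper1.Subn1
open Cfsg.Agent.Lib.Helper1
open Cfsg.Agent.Lib.Helper6.Basic Cfsg.Agent.Lib.Helper6.Subn Cfsg.Agent.Lib.Helper6.Rad Cfsg.Agent.Lib.Helper6.Nil
open scoped Pointwise

set_option autoImplicit false
open Pointwise
open Cfsg

namespace Cfsg.Agent.S4333

/-- Let A be a subgroup of a finite group G. If A is subnormal in the subgroup generated by A and its conjugate by g⁻¹ a g, for every a ∈ A and every g ∈ G, then A is subnormal in G. (A sharpening of Wielandt's subnormality criterion: only conjugates of A by conjugates of elements of A are needed.) -/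
theorem result {G : Type*} [Group G] [Finite G]
    (A : Subgroup G)
    (h : ∀ a ∈ A, ∀ g : G, (A.subgroupOf (A ⊔ MulAut.conj (g⁻¹ * a * g) • A)).IsSubnormal) :
    A.IsSubnormal := by
  rw [isSubnormal_iff]
  apply SN_induction A _ ⊤ le_top
  intro K M hAM hMK hmax hsn
  have hAK := hAM.trans hMK.le
  by_cases hn : K ≤ Nz M
  · exact (hsn M hAM hMK).trans (SN.of_normal hMK.le hn)
  by_cases hc : ∃ a ∈ A, ∃ g ∈ K, A ⊔ cj (g⁻¹ * a * g) A = K
  · obtain ⟨a, ha, g, _, hg⟩ := hc
    have := (subgroupOf_isSubnormal_iff le_sup_left).mp (h a ha g)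
    exact hg ▸ this
  · push Not at hc
    -- every conjugate of an element of `A` lies in `M`
    have key : ∀ a ∈ A, ∀ g ∈ K, g⁻¹ * a * g ∈ M := by
      intro a ha g hg
      have hxK : g⁻¹ * a * g ∈ K := K.mul_mem (K.mul_mem (K.inv_mem hg) (hAK ha)) hg
      set x := g⁻¹ * a * g with hx
      have h1 : A ⊔ cj x A ≤ K := sup_le hAK (by
        have := cj_mono (g := x) hAK
        rwa [cj_eq_self_of_mem hxK] at this)
      have h2 : cj x A ≤ M := le_sup_right.trans (hmax _ le_sup_left (lt_of_le_of_ne h1 (hc a ha g hg)))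
      have h3 : A ≤ cj x⁻¹ M := cj_le_iff.mp h2
      have h4 : cj x⁻¹ M < K := by
        have h5 : cj x⁻¹ M ≤ K := by
          have := cj_mono (g := x⁻¹) hMK.le
          rwa [cj_eq_self_of_mem (K.inv_mem hxK)] at this
        refine lt_of_le_of_ne h5 ?_
        intro he
        have h6 := card_lt_of_lt hMK
        rw [← he, card_cj] at h6
        exact lt_irrefl _ h6
      have h5 : cj x⁻¹ M = M :=
        Subgroup.eq_of_le_of_card_ge (hmax _ h3 h4) (le_of_eq (card_cj _ _).symm)
      have h6 : x⁻¹ ∈ Nz M := cj_eq_self_iff.mp h5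
      have h7 := mem_of_mem_normalizer_of_max hAM hMK hmax hn (K.inv_mem hxK) h6
      simpa using M.inv_mem h7
    apply SN_of_conj_le hMK hsn
    intro x hx y hy
    rw [mem_cj] at hy
    have := key _ hy x⁻¹ (K.inv_mem hx)
    simpa [mul_assoc] using this

end Cfsg.Agent.S4333
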