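import Mathlib
import Cfsg.Statements.S4337
import Cfsg.Agent.Lib.Helper2.PermSolv

set_option autoImplicit false
open Cfsg

namespace Cfsg.Agent.S4337

open Cfsg.Agent.Lib.Helper2.PermSolv

theorem card_le {α : Type*} [DecidableEq α] (A B C : Finset α) (hA : A.card = 2) (hB : B.card = 2)
    (hC : C.card = 2) (h1 : (A ∩ B).Nonempty) (h2 : (A ∩ C).Nonempty) : (A ∪ B ∪ C).card ≤ 4 := by
  have e1 := Finset.card_union_add_card_inter A B
  have e2 := Finset.card_union_add_card_inter (A ∪ B) C
  have e3 : 1 ≤ (A ∩ B).card := Finset.card_pos.mpr h1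
  have e4 : 1 ≤ ((A ∪ B) ∩ C).card := by
    apply Finset.card_pos.mpr
    obtain ⟨x, hx⟩ := h2
    rw [Finset.mem_inter] at hx
    exact ⟨x, Finset.mem_inter.mpr ⟨Finset.mem_union_left _ hx.1, hx.2⟩⟩
  omega

theorem inter_nonempty {n : ℕ} {x y : Equiv.Perm (Fin n)} (h : ¬ Commute x y) :
    (x.support ∩ y.support).Nonempty := by
  rw [← Finset.not_disjoint_iff_nonempty_inter, ← Equiv.Perm.disjoint_iff_disjoint_support]
  exact fun hd => h hd.commute

theorem two {n : ℕ} (x y : Equiv.Perm (Fin n)) (hx : x.IsSwap) (hy : y.IsSwap) :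
    Group.IsSolvable (Subgroup.closure ({x, y} : Set (Equiv.Perm (Fin n)))) := by
  apply closure_isSolvable_of_support_subset (x.support ∪ y.support)
  · have := Finset.card_union_le x.support y.support
    rw [Equiv.Perm.card_support_eq_two.mpr hx, Equiv.Perm.card_support_eq_two.mpr hy] at this
    exact this
  · rintro σ (rfl | rfl)
    · exact Finset.subset_union_left
    · exact Finset.subset_union_right

theorem central {n : ℕ} (x y z : Equiv.Perm (Fin n)) (hx : x.IsSwap) (hy : y.IsSwap)
    (h1 : Commute z x) (h2 : Commute z y) :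
    Group.IsSolvable (Subgroup.closure ({z, x, y} : Set (Equiv.Perm (Fin n)))) := by
  apply closure_insert_isSolvable _ _ _ (two x y hx hy)
  rintro s (rfl | rfl)
  · exact h1.symm
  · exact h2.symm

theorem conn {n : ℕ} (x y z : Equiv.Perm (Fin n)) (hx : x.IsSwap) (hy : y.IsSwap) (hz : z.IsSwap)
    (h1 : ¬ Commute x y) (h2 : ¬ Commute x z) :
    Group.IsSolvable (Subgroup.closure ({x, y, z} : Set (Equiv.Perm (Fin n)))) := by
  apply closure_isSolvable_of_support_subset (x.support ∪ y.support ∪ z.support)
  · exact card_le _ _ _ (Equiv.Perm.card_support_eq_two.mpr hx) (Equiv.Perm.card_support_eq_two.mpr hy)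
      (Equiv.Perm.card_support_eq_two.mpr hz) (inter_nonempty h1) (inter_nonempty h2)
  · rintro σ (rfl | rfl | rfl)
    · exact Finset.subset_union_left.trans Finset.subset_union_left
    · exact Finset.subset_union_right.trans Finset.subset_union_left
    · exact Finset.subset_union_right

theorem result (n : ℕ) (a b c : Equiv.Perm (Fin n))
    (ha : a.IsSwap) (hb : b.IsSwap) (hc : c.IsSwap) :
    Group.IsSolvable (Subgroup.closure ({a, b, c} : Set (Equiv.Perm (Fin n)))) := by
  have e1 : ({a, b, c} : Set (Equiv.Perm (Fin n))) = {b, a, c} := by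
    ext x; simp only [Set.mem_insert_iff, Set.mem_singleton_iff]; tauto
  have e2 : ({a, b, c} : Set (Equiv.Perm (Fin n))) = {c, a, b} := by
    ext x; simp only [Set.mem_insert_iff, Set.mem_singleton_iff]; tauto
  by_cases hab : Commute a b
  · by_cases hac : Commute a c
    · exact central b c a hb hc hab hac
    · by_cases hbc : Commute b c
      · rw [e1]; exact central a c b ha hc hab.symm hbc
      · rw [e2]; exact conn c a b hc ha hb (fun h => hac h.symm) (fun h => hbc h.symm)
  · by_cases hac : Commute a c
    · by_cases hbc : Commute b c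
      · rw [e2]; exact central a b c ha hb hac.symm hbc.symm
      · rw [e1]; exact conn b a c hb ha hc (fun h => hab h.symm) hbc
    · exact conn a b c ha hb hc hab hac

end Cfsg.Agent.S4337
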