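import Mathlib
import Cfsg.Statements.S4342
import Cfsg.Agent.Lib.Helper2.SylowNumber

set_option autoImplicit false
open Cfsg

namespace Cfsg.Agent.S4342

open Cfsg.Agent.Lib.Helper2.SylowNumber

theorem result {G : Type*} [Group G] [Finite G]
    (p : ℕ) [Fact p.Prime] (H : Subgroup G) [H.Normal] (hp : ¬ p ∣ H.index) :
    Nat.card (Sylow p (H ⧸ Subgroup.center H)) = Nat.card (Sylow p G) := by
  have hpp : p.Prime := Fact.out
  obtain ⟨Q⟩ : Nonempty (Sylow p H) := inferInstance
  -- n_p(H) = n_p(H / Z(H))
  have e1 : Nat.card (Sylow p H) = Nat.card (Sylow p (H ⧸ Subgroup.center H)) := by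
    have h1 := card_sylow_eq_mul (Subgroup.center H) Q
    have h3 : Nat.card (Sylow p ((Q : Subgroup H) ⊔ Subgroup.center H : Subgroup H)) = 1 := by
      rw [card_sylow_eq_relIndex Q _ le_sup_left, Subgroup.relIndex_eq_one]
      refine sup_le Subgroup.le_normalizer ?_
      rw [Subgroup.le_normalizer_iff]
      intro z hz x hx
      rw [← Subgroup.mem_center_iff.mp hz x]
      simpa using hx
    rw [h3, mul_one] at h1
    exact h1
  have hSp : IsPGroup p ((Q : Subgroup H).map H.subtype) := Q.2.map _
  have hSi : ¬ p ∣ ((Q : Subgroup H).map H.subtype).index := by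
    rw [Subgroup.index_map_subtype]
    intro hd
    rcases (Nat.Prime.dvd_mul hpp).mp hd with h1 | h1
    · exact Q.not_dvd_index h1
    · exact hp h1
  have e2 : Nat.card (Sylow p G) = Nat.card (Sylow p H) := by
    rw [(hSp.toSylow hSi).card_eq_index_normalizer, card_sylow_eq_relIndex' H Q]
    have h1 := relIndex_normalizer_eq H ⊤ le_top (by rw [Subgroup.normalizer_eq_top]) Q
    rw [Subgroup.relIndex_top_right] at h1
    exact h1
  rw [e2, e1]

end Cfsg.Agent.S4342
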