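import Mathlib
import Cfsg.Statements.S4344
import Cfsg.Agent.Lib.Helper2.SylowUtil

set_option autoImplicit false
open Cfsg

namespace Cfsg.Agent.S4344

open scoped Pointwise
open Cfsg.Agent.Lib.Helper2.SylowUtil Cfsg.Agent.Lib.Helper2.Conj

theorem result {S : Type*} [Group S] [Finite S]
    [IsSimpleGroup S] (hS : ¬ IsMulCommutative S) (p : ℕ) [Fact p.Prime] (hp : p ∣ Nat.card S)
    (M : Subgroup S) (hM : IsCoatom M) (C : Subgroup S) (hCM : C ≤ M) (hCn : (C.subgroupOf M).Normal)
    (hC : IsCyclic C) (P : Sylow p S) (hP : (P : Subgroup S) ≤ C) :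
    Nat.card (Sylow p S) = M.index := by
  have hMC : M ≤ Subgroup.normalizer (C : Set S) :=
    (Subgroup.normal_subgroupOf_iff_le_normalizer hCM).mp hCn
  have hCc : ∀ x ∈ C, ∀ y ∈ C, x * y = y * x := by
    intro x hx y hy
    haveI := hC.isMulCommutative
    exact congrArg Subtype.val (mul_comm' (⟨x, hx⟩ : C) ⟨y, hy⟩)
  have hMN : M ≤ Subgroup.normalizer ((P : Subgroup S) : Set S) := by
    intro m hm
    rw [← conj_smul_eq_iff_mem_normalizer]
    apply conj_smul_eq_of_ge
    have h1 : MulAut.conj m • (P : Subgroup S) ≤ C :=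
      (conj_smul_mono hP).trans (conj_smul_eq_iff_mem_normalizer.mpr (hMC hm)).le
    have h2 : IsPGroup p (MulAut.conj m • (P : Subgroup S) : Subgroup S) := by
      rw [smul_eq_map]; exact P.2.map _
    obtain ⟨c, hc, hle⟩ := exists_conj_le_in C P hP _ h2 h1
    intro x hx
    apply hle
    rw [mem_conj_smul]
    have h3 : c⁻¹ * x * c = x := by
      rw [mul_assoc, hCc x (h1 hx) c hc]; group
    rw [h3]; exact hx
  have hne : Subgroup.normalizer ((P : Subgroup S) : Set S) ≠ ⊤ := by
    intro htop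
    have hn : (P : Subgroup S).Normal := Subgroup.normalizer_eq_top_iff.mp htop
    rcases hn.eq_bot_or_eq_top with h | h
    · have h1 := P.dvd_card_of_dvd_card hp
      have h2 : Nat.card (P : Subgroup S) = 1 := by rw [h]; exact Subgroup.card_bot
      have h3 : Nat.card P = 1 := h2
      rw [h3] at h1
      exact (Fact.out : p.Prime).one_lt.ne' (Nat.dvd_one.mp h1)
    · exact hM.1 (top_le_iff.mp (h ▸ hP.trans hCM))
  have heq : Subgroup.normalizer ((P : Subgroup S) : Set S) = M := by
    by_contra hcon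
    exact hne (hM.2 _ (lt_of_le_of_ne hMN (Ne.symm hcon)))
  rw [P.card_eq_index_normalizer]
  exact congrArg Subgroup.index heq

end Cfsg.Agent.S4344
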