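import Mathlib
import Cfsg.Statements.S4345
import Cfsg.Agent.Lib.Helper2.SylowNumber
import Cfsg.Agent.Lib.Helper2.Solvable

set_option autoImplicit false
open Cfsg

namespace Cfsg.Agent.S4345

open Cfsg.Agent.Lib.Helper2.SylowNumber Cfsg.Agent.Lib.Helper2.Solvable Cfsg.Agent.Lib.Helper2.Index

universe u

theorem aux (p : ℕ) [Fact p.Prime] : ∀ (n : ℕ) (G : Type u) [Group G] [Finite G], Nat.card G = n →
    Group.IsSolvable G → ∀ ℓ : ℕ, ℓ.Prime →
    ℓ ^ (Nat.card (Sylow p G)).factorization ℓ ≡ 1 [MOD p] := by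
  intro n
  induction n using Nat.strong_induction_on with
  | _ n ih =>
  intro G _ _ hn hG ℓ hℓ
  rcases subsingleton_or_nontrivial G with hs | hnt
  · have h1 : Nat.card (Sylow p G) = 1 := by
      have : Subsingleton (Sylow p G) := ⟨fun P Q => Sylow.ext (Subsingleton.elim _ _)⟩
      exact Nat.card_eq_one_iff_unique.mpr ⟨this, inferInstance⟩
    rw [h1]; simp [Nat.ModEq]
  obtain ⟨ℓ₀, K, hℓ₀, hKn, hK1, hKp, -⟩ := exists_normal_elementary_abelian (G := G)
  obtain ⟨P⟩ : Nonempty (Sylow p G) := inferInstance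
  have hmul := card_sylow_eq_mul K P
  have hlt : Nat.card (G ⧸ K) < n := by
    rw [← hn, ← Subgroup.index_eq_card, ← Subgroup.index_mul_card K]
    have h1 : 1 < Nat.card K := by
      rw [Finite.one_lt_card_iff_nontrivial]
      exact (Subgroup.nontrivial_iff_ne_bot K).mpr hK1
    have h2 : 0 < K.index := Nat.pos_of_ne_zero (Subgroup.index_ne_zero_of_finite)
    nlinarith
  have h1 := ih _ hlt (G ⧸ K) rfl inferInstance ℓ hℓ
  set n₁ := Nat.card (Sylow p (G ⧸ K)) with hn₁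
  set n₂ := Nat.card (Sylow p ((P : Subgroup G) ⊔ K : Subgroup G)) with hn₂
  have hn₁0 : n₁ ≠ 0 := Nat.card_pos.ne'
  have hn₂0 : n₂ ≠ 0 := Nat.card_pos.ne'
  have hmod : n₂ ≡ 1 [MOD p] := card_sylow_modEq_one p _
  have hpow : ∃ e : ℕ, n₂ = ℓ₀ ^ e := by
    haveI : Fact ℓ₀.Prime := ⟨hℓ₀⟩
    obtain ⟨a, ha⟩ := IsPGroup.iff_card.mp (isPGroup_of_pow_eq_one hKp)
    have h2 : n₂ ∣ ℓ₀ ^ a := by
      rw [hn₂, card_sylow_eq_relIndex P _ le_sup_left, ← ha]
      refine (Subgroup.relIndex_dvd_of_le_left _ Subgroup.le_normalizer).trans ?_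
      rw [sup_comm, relIndex_sup_of_normal]
      exact Subgroup.relIndex_dvd_card _ _
    obtain ⟨e, -, he⟩ := (Nat.dvd_prime_pow hℓ₀).mp h2
    exact ⟨e, he⟩
  obtain ⟨e, he⟩ := hpow
  rw [hmul, Nat.factorization_mul hn₁0 hn₂0, Finsupp.add_apply, pow_add]
  have h3 : ℓ ^ n₂.factorization ℓ ≡ 1 [MOD p] := by
    by_cases hll : ℓ = ℓ₀
    · subst hll
      rw [he, Nat.factorization_pow, Finsupp.smul_apply, hℓ.factorization_self, smul_eq_mul, mul_one,
        ← he]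
      exact hmod
    · rw [he, Nat.factorization_pow, Finsupp.smul_apply,
        Nat.factorization_eq_zero_of_not_dvd (fun h => hll ((Nat.prime_dvd_prime_iff_eq hℓ hℓ₀).mp h))]
      simp [Nat.ModEq]
  exact (h1.mul h3)

theorem result {G : Type*} [Group G] [Finite G]
    (hG : Group.IsSolvable G) (p ℓ : ℕ) [Fact p.Prime] (hℓ : ℓ.Prime) :
    ℓ ^ (Nat.card (Sylow p G)).factorization ℓ ≡ 1 [MOD p] := by
  exact aux p _ G rfl hG ℓ hℓ

end Cfsg.Agent.S4345
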