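import Cfsg.Statements.S4364
import Mathlib
import Cfsg.Agent.Lib.Helper6.Kaz2

set_option autoImplicit false
open Cfsg

namespace Cfsg.Agent.S4364

/-- Let G be a finite group, p a prime and x an element whose conjugacy class has p-power size. Then for any two conjugates y and z of x, the commutator y z y⁻¹ z⁻¹ lies in O_p(G), the largest normal p-subgroup of G. -/
theorem result {G : Type*} [Group G] [Finite G] (p : ℕ) [Fact p.Prime]
    (x : G) (hx : ∃ a : ℕ, (Subgroup.centralizer ({x} : Set G)).index = p ^ a) (g h : G) :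
    (g * x * g⁻¹) * (h * x * h⁻¹) * (g * x * g⁻¹)⁻¹ * (h * x * h⁻¹)⁻¹ ∈ Cfsg.pCore p G := by
  obtain ⟨a, ha⟩ := hx
  haveI := Cfsg.Agent.Lib.Helper1.pCore_normal (G := G) p
  have hO := Cfsg.Agent.Lib.Helper3.S4Red.pCore_quot_bot (G := G) p
  have hidx : ∃ k, (Subgroup.centralizer
      ({(QuotientGroup.mk x : G ⧸ Cfsg.pCore p G)} : Set (G ⧸ Cfsg.pCore p G))).index = p ^ k := by
    have h1 : (Subgroup.centralizer ({x} : Set G)).map (QuotientGroup.mk' (Cfsg.pCore p G)) ≤
        Subgroup.centralizer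
          ({(QuotientGroup.mk x : G ⧸ Cfsg.pCore p G)} : Set (G ⧸ Cfsg.pCore p G)) := by
      rintro _ ⟨z, hz, rfl⟩
      rw [SetLike.mem_coe, Subgroup.mem_centralizer_singleton_iff] at hz
      rw [Subgroup.mem_centralizer_singleton_iff]
      show (QuotientGroup.mk z : G ⧸ Cfsg.pCore p G) * QuotientGroup.mk x
        = QuotientGroup.mk x * QuotientGroup.mk z
      rw [← QuotientGroup.mk_mul, ← QuotientGroup.mk_mul, hz]
    have h2 := (Subgroup.index_dvd_of_le h1).trans
      (Subgroup.index_map_dvd (Subgroup.centralizer ({x} : Set G))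
        (QuotientGroup.mk'_surjective (Cfsg.pCore p G)))
    rw [ha] at h2
    obtain ⟨k, -, hk⟩ := (Nat.dvd_prime_pow (Fact.out : p.Prime)).mp h2
    exact ⟨k, hk⟩
  obtain ⟨k, hk⟩ := hidx
  have hc := Cfsg.Agent.Lib.Helper6.Kaz.commute_of_pCore_eq_bot hO _ k hk
  have hmem : ∀ g : G, (QuotientGroup.mk (g * x * g⁻¹) : G ⧸ Cfsg.pCore p G) ∈
      Subgroup.normalClosure
        ({(QuotientGroup.mk x : G ⧸ Cfsg.pCore p G)} : Set (G ⧸ Cfsg.pCore p G)) := by
    intro g
    rw [QuotientGroup.mk_mul, QuotientGroup.mk_mul, QuotientGroup.mk_inv]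
    exact Subgroup.normalClosure_normal.conj_mem _
      (Subgroup.subset_normalClosure (Set.mem_singleton _)) _
  have h3 := hc _ (hmem g) _ (hmem h)
  rw [← QuotientGroup.eq_one_iff]
  rw [QuotientGroup.mk_mul, QuotientGroup.mk_mul, QuotientGroup.mk_mul, h3, QuotientGroup.mk_inv,
    QuotientGroup.mk_inv]
  group

end Cfsg.Agent.S4364
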