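import Mathlib
import Cfsg.Statements.S4377

set_option autoImplicit false
open Cfsg

namespace Cfsg.Agent.S4377

theorem sum_eq {G : Type*} [Group G] [Finite G] {n : ℕ} (hn : n ≠ 0) :
    ∑ m ∈ n.divisors, Nat.card {g : G // orderOf g = m} = Nat.card {g : G // g ^ n = 1} := by
  classical
  have := Fintype.ofFinite G
  have h := sum_card_orderOf_eq_card_pow_eq_one (G := G) hn
  simp only [Nat.card_eq_fintype_card, Fintype.card_subtype]
  exact h

theorem card_zero {G : Type*} [Group G] [Finite G] : Nat.card {g : G // orderOf g = 0} = 0 := by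
  have : IsEmpty {g : G // orderOf g = 0} := ⟨fun g => (orderOf_pos g.1).ne' g.2⟩
  exact Nat.card_of_isEmpty

theorem card_pow_card {G : Type*} [Group G] [Finite G] {n : ℕ} (h : Nat.card G ∣ n) :
    Nat.card {g : G // g ^ n = 1} = Nat.card G := by
  have : ∀ g : G, g ^ n = 1 := by
    intro g
    obtain ⟨k, rfl⟩ := h
    rw [pow_mul, pow_card_eq_one', one_pow]
  exact Nat.card_congr (Equiv.subtypeUnivEquiv this)

theorem result {G H : Type*} [Group G] [Finite G] [Group H] [Finite H] :
    (∀ n : ℕ, Nat.card {g : G // orderOf g = n} = Nat.card {h : H // orderOf h = n}) ↔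
      ∀ n : ℕ, Nat.card {g : G // g ^ n = 1} = Nat.card {h : H // h ^ n = 1} := by
  constructor
  · intro h
    have key : ∀ n : ℕ, n ≠ 0 → Nat.card {g : G // g ^ n = 1} = Nat.card {h : H // h ^ n = 1} := by
      intro n hn
      rw [← sum_eq hn, ← sum_eq hn]
      exact Finset.sum_congr rfl (fun m _ => h m)
    intro n
    by_cases hn : n = 0
    · subst hn
      have hN : Nat.card G * Nat.card H ≠ 0 := Nat.mul_ne_zero Nat.card_pos.ne' Nat.card_pos.ne'
      have := key _ hN
      rw [card_pow_card (Dvd.intro _ rfl), card_pow_card (Dvd.intro_left _ rfl)] at this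
      rw [card_pow_card (dvd_zero _), card_pow_card (dvd_zero _)]
      exact this
    · exact key n hn
  · intro h n
    induction n using Nat.strong_induction_on with
    | _ n ih =>
    by_cases hn : n = 0
    · subst hn; rw [card_zero, card_zero]
    · have h1 := sum_eq (G := G) hn
      have h2 := sum_eq (G := H) hn
      rw [← Nat.insert_self_properDivisors hn, Finset.sum_insert Nat.self_notMem_properDivisors] at h1 h2
      have h3 : ∑ m ∈ n.properDivisors, Nat.card {g : G // orderOf g = m}
          = ∑ m ∈ n.properDivisors, Nat.card {g : H // orderOf g = m} :=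
        Finset.sum_congr rfl (fun m hm => ih m (Nat.mem_properDivisors.mp hm).2)
      have h4 := h n
      omega

end Cfsg.Agent.S4377
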