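import Cfsg.Statements.S4381
import Cfsg.Agent.Lib.Lead.Maschke
import Cfsg.Agent.Lib.Helper1.CoprimeSylow
import Cfsg.Agent.S0012

set_option autoImplicit false
open Pointwise
open Cfsg

namespace Cfsg.Agent.S4381

open scoped commutatorElement

theorem exists_inv_sylow {A G : Type*} [Group A] [Finite A] [Group G] [Finite G]
    [MulDistribMulAction A G] (hcop : (Nat.card A).Coprime (Nat.card G))
    (hsol : Group.IsSolvable A ∨ Group.IsSolvable G) (p : ℕ) [Fact p.Prime] :
    ∃ P : Subgroup G, Nat.card P = p ^ (Nat.card G).factorization p ∧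
      ∀ a : A, ∀ x ∈ P, a • x ∈ P := by
  let φ : A →* MulAut G := MulDistribMulAction.toMulAut A G
  haveI : Finite (G ⋊[φ] A) := Finite.of_equiv _ (SemidirectProduct.equivProd (φ := φ)).symm
  let iG : G →* G ⋊[φ] A := SemidirectProduct.inl
  let iA : A →* G ⋊[φ] A := SemidirectProduct.inr
  have hiG : Function.Injective iG := SemidirectProduct.inl_injective
  have hiA : Function.Injective iA := SemidirectProduct.inr_injective
  have hcK : Nat.card iG.range = Nat.card G := Nat.card_congr (MonoidHom.ofInjective hiG).toEquiv.symm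
  have hcA : Nat.card iA.range = Nat.card A := Nat.card_congr (MonoidHom.ofInjective hiA).toEquiv.symm
  haveI hKn : iG.range.Normal := by
    have : iG.range = (SemidirectProduct.rightHom : G ⋊[φ] A →* A).ker :=
      SemidirectProduct.range_inl_eq_ker_rightHom
    rw [this]
    infer_instance
  obtain ⟨P', hP'K, hP'c, hP'A⟩ := Cfsg.Agent.Lib.Helper1.exists_invariant_sylow iA.range iG.range
    (by rw [Subgroup.normalizer_eq_top]; exact le_top)
    (by rw [hcK, hcA]; exact hcop)
    (by
      rcases hsol with h | h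
      · left
        exact Group.isSolvable_of_isSolvable_injective
          (f := (MonoidHom.ofInjective hiA).symm.toMonoidHom) (MulEquiv.injective _)
      · right
        exact Group.isSolvable_of_isSolvable_injective
          (f := (MonoidHom.ofInjective hiG).symm.toMonoidHom) (MulEquiv.injective _)) p
  refine ⟨P'.comap iG, ?_, ?_⟩
  · rw [← Subgroup.card_map_of_injective hiG, Subgroup.map_comap_eq, inf_eq_right.2 hP'K, hP'c, hcK]
  · intro a x hx
    rw [Subgroup.mem_comap] at hx ⊢
    have h1 : iG (a • x) = iA a * iG x * (iA a)⁻¹ := by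
      have := SemidirectProduct.inl_aut (φ := φ) a x
      rw [map_inv] at this
      exact this
    rw [h1]
    exact (Subgroup.mem_normalizer_iff.1 (hP'A ⟨a, rfl⟩) _).1 hx

def Inv (A : Type*) {G : Type*} [Group A] [Group G] [MulDistribMulAction A G] (L : Subgroup G) :
    Prop := ∀ a : A, ∀ x ∈ L, a • x ∈ L

def MaxInv (A : Type*) {G : Type*} [Group A] [Group G] [MulDistribMulAction A G]
    (M : Subgroup G) : Prop :=
  M ≠ ⊤ ∧ Inv A M ∧ ∀ L : Subgroup G, M < L → Inv A L → L = ⊤

section
variable {A G : Type*} [Group A] [Group G] [MulDistribMulAction A G]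

theorem inv_frattini : Inv A (frattini G) := by
  intro a x hx
  have h := (frattini_characteristic (G := G)).fixed (MulDistribMulAction.toMulAut A G a)
  rw [← h] at hx
  exact hx

theorem inv_sup {L K : Subgroup G} (hL : Inv A L) (hK : Inv A K) : Inv A (L ⊔ K) := by
  intro a x hx
  have h1 : (L ⊔ K).map (MulDistribMulAction.toMonoidHom G a) ≤ L ⊔ K := by
    rw [Subgroup.map_sup]
    apply sup_le_sup
    · rintro _ ⟨y, hy, rfl⟩
      exact hL a y hy
    · rintro _ ⟨y, hy, rfl⟩
      exact hK a y hy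
  exact h1 ⟨x, hx, rfl⟩

theorem frattini_le_of_maxInv [Finite G] {M : Subgroup G} (hM : MaxInv A M) : frattini G ≤ M := by
  by_contra h
  have h1 : M < M ⊔ frattini G :=
    lt_of_le_of_ne le_sup_left (fun e => h (by rw [e]; exact le_sup_right))
  have h2 := hM.2.2 _ h1 (inv_sup hM.2.1 inv_frattini)
  exact hM.1 (frattini_nongenerating h2)

theorem exists_maxInv_ge [Finite G] {L : Subgroup G} (hL : Inv A L) (hne : L ≠ ⊤) :
    ∃ M, MaxInv A M ∧ L ≤ M := by
  obtain ⟨M, hLM, hM⟩ := (Set.toFinite {K : Subgroup G | K ≠ ⊤ ∧ Inv A K}).exists_le_maximal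
    ⟨hne, hL⟩
  refine ⟨M, ⟨hM.prop.1, hM.prop.2, fun K hK hKi => ?_⟩, hLM⟩
  by_contra hKt
  exact absurd (hM.le_of_ge ⟨hKt, hKi⟩ hK.le) (not_le_of_gt hK)

theorem part2 [Finite G] (hirr : ∀ L : Subgroup G, frattini G < L → Inv A L → L = ⊤)
    (M : Subgroup G) : MaxInv A M ↔ (M = frattini G ∧ M ≠ ⊤) := by
  constructor
  · intro hM
    refine ⟨?_, hM.1⟩
    have h1 := frattini_le_of_maxInv hM
    by_contra hne
    exact hM.1 (hirr M (lt_of_le_of_ne h1 (Ne.symm hne)) hM.2.1)
  · rintro ⟨rfl, hne⟩
    exact ⟨hne, inv_frattini, hirr⟩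

theorem pgroup_of_conj [Finite A] [Finite G] (hcop : (Nat.card A).Coprime (Nat.card G))
    (hsol : Group.IsSolvable A ∨ Group.IsSolvable G)
    (hconj : ∀ M N : Subgroup G, MaxInv A M → MaxInv A N → Nat.card M = Nat.card N) :
    ∃ p : ℕ, p.Prime ∧ IsPGroup p G := by
  by_contra hcon
  push Not at hcon
  have hnt : (⊥ : Subgroup G) ≠ ⊤ := by
    intro h
    apply hcon 2 Nat.prime_two
    have : Nat.card G = 1 := by rw [← Subgroup.card_top, ← h, Subgroup.card_bot]
    exact IsPGroup.of_card (n := 0) (by simpa using this)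
  obtain ⟨M, hM, -⟩ := exists_maxInv_ge (A := A) (L := (⊥ : Subgroup G)) (by
    intro a x hx
    rw [Subgroup.mem_bot] at hx ⊢
    rw [hx, smul_one]) hnt
  apply hM.1
  have hdvd : Nat.card G ∣ Nat.card M := by
    rw [← Nat.factorization_le_iff_dvd Nat.card_pos.ne' Nat.card_pos.ne']
    intro p
    by_cases hp : p.Prime
    · haveI := Fact.mk hp
      obtain ⟨P, hPc, hPi⟩ := exists_inv_sylow hcop hsol p
      have hPt : P ≠ ⊤ := by
        intro h
        apply hcon p hp
        have : Nat.card G = p ^ (Nat.card G).factorization p := by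
          rw [← hPc, h, Subgroup.card_top]
        exact IsPGroup.of_card this
      obtain ⟨N, hN, hPN⟩ := exists_maxInv_ge hPi hPt
      have h1 : Nat.card P ∣ Nat.card N := Subgroup.card_dvd_of_le hPN
      rw [hPc, hconj N M hN hM] at h1
      exact (hp.pow_dvd_iff_le_factorization Nat.card_pos.ne').1 h1
    · rw [Nat.factorization_eq_zero_of_not_prime _ hp]
      exact Nat.zero_le _
  exact Subgroup.eq_top_of_card_eq M (Nat.dvd_antisymm (Subgroup.card_subgroup_dvd_card M) hdvd)

end

@[reducible] def cgq (G : Type*) [Group G] (h : commutator G ≤ frattini G) :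
    CommGroup (G ⧸ frattini G) :=
  { (inferInstance : Group (G ⧸ frattini G)) with
    mul_comm := by
      intro x y
      obtain ⟨x, rfl⟩ := QuotientGroup.mk_surjective x
      obtain ⟨y, rfl⟩ := QuotientGroup.mk_surjective y
      rw [← QuotientGroup.mk_mul, ← QuotientGroup.mk_mul, QuotientGroup.eq]
      apply h
      have : (x * y)⁻¹ * (y * x) = ⁅y⁻¹, x⁻¹⁆ := by
        rw [commutatorElement_def]
        group
      rw [this]
      exact Subgroup.commutator_mem_commutator (Subgroup.mem_top _) (Subgroup.mem_top _) }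

@[reducible] def actq (A G : Type*) [Group A] [Group G] [MulDistribMulAction A G] :
    MulDistribMulAction A (G ⧸ frattini G) where
  smul := fun a => QuotientGroup.map (frattini G) (frattini G)
    (MulDistribMulAction.toMonoidHom G a) (fun x hx => inv_frattini a x hx)
  one_smul := by
    intro x
    obtain ⟨x, rfl⟩ := QuotientGroup.mk_surjective x
    show ((((1 : A) • x : G)) : G ⧸ frattini G) = x
    rw [one_smul]
  mul_smul := by
    intro a b x
    obtain ⟨x, rfl⟩ := QuotientGroup.mk_surjective x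
    show ((((a * b) • x : G)) : G ⧸ frattini G) = ((a • b • x : G) : G ⧸ frattini G)
    rw [mul_smul]
  smul_mul := fun a x y => map_mul (QuotientGroup.map (frattini G) (frattini G)
    (MulDistribMulAction.toMonoidHom G a) (fun x hx => inv_frattini a x hx)) x y
  smul_one := fun a => map_one (QuotientGroup.map (frattini G) (frattini G)
    (MulDistribMulAction.toMonoidHom G a) (fun x hx => inv_frattini a x hx))

theorem le_frattini_of_unique {A G : Type*} [Group A] [Group G] [MulDistribMulAction A G]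
    [Finite A] [Finite G] {p : ℕ} [Fact p.Prime] (hG : IsPGroup p G)
    (hcop : (Nat.card A).Coprime (Nat.card G)) (M : Subgroup G) (hMi : Inv A M) (hMt : M ≠ ⊤)
    (huniq : ∀ L : Subgroup G, Inv A L → L ≠ ⊤ → L ≤ M) : M ≤ frattini G := by
  obtain ⟨hcomm, hpow⟩ := S0012.result p hG
  have hcop' : (Nat.card A).Coprime (Nat.card (G ⧸ frattini G)) :=
    Nat.Coprime.coprime_dvd_right (Subgroup.card_quotient_dvd_card _) hcop
  have hexp : ∀ v : G ⧸ frattini G, v ^ p = 1 := by
    intro v
    obtain ⟨x, rfl⟩ := QuotientGroup.mk_surjective v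
    rw [← QuotientGroup.mk_pow]
    exact (QuotientGroup.eq_one_iff _).2 (hpow x)
  letI := cgq G hcomm
  letI := actq A G
  obtain ⟨W₀, hW1, hW2⟩ := Cfsg.Agent.Lib.Lead.Maschke.exists_compl_ea (Fact.out : p.Prime) hexp
    (M.map (QuotientGroup.mk' (frattini G)))
  obtain ⟨W', hWi, hWd, hWs⟩ := Cfsg.Agent.Lib.Lead.Maschke.maschke hcop'
    (M.map (QuotientGroup.mk' (frattini G))) W₀ (by
      rintro a _ ⟨x, hx, rfl⟩
      exact ⟨a • x, hMi a x hx, rfl⟩) hW1 hW2
  have hWinv : Inv A (W'.comap (QuotientGroup.mk' (frattini G))) := by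
    intro a x hx
    exact hWi a _ hx
  have hmap : (W'.comap (QuotientGroup.mk' (frattini G))).map (QuotientGroup.mk' (frattini G)) = W' :=
    Subgroup.map_comap_eq_self_of_surjective (QuotientGroup.mk'_surjective _) _
  have hWtop : W'.comap (QuotientGroup.mk' (frattini G)) = ⊤ := by
    by_contra hne
    have h1 := huniq _ hWinv hne
    have h2 : W' ≤ M.map (QuotientGroup.mk' (frattini G)) := by
      rw [← hmap]
      exact Subgroup.map_mono h1
    rw [sup_eq_left.2 h2] at hWs
    have h3 : M ⊔ frattini G = ⊤ := by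
      have := congrArg (Subgroup.comap (QuotientGroup.mk' (frattini G))) hWs
      rwa [Subgroup.comap_map_eq, QuotientGroup.ker_mk', Subgroup.comap_top] at this
    exact hMt (frattini_nongenerating h3)
  have hW'top : W' = ⊤ := by
    rw [← hmap, hWtop, ← MonoidHom.range_eq_map,
      MonoidHom.range_eq_top.2 (QuotientGroup.mk'_surjective _)]
  rw [hW'top, inf_top_eq] at hWd
  have := (Subgroup.map_eq_bot_iff _).1 hWd
  rwa [QuotientGroup.ker_mk'] at this

/-- Let the finite group A act by automorphisms on the finite group G with the orders of A and G coprime, and assume that A or G is solvable. Call a proper A-invariant subgroup of G maximal A-invariant when no A-invariant subgroup lies strictly between it and G. Then all maximal A-invariant subgroups of G are conjugate under elements of the fixed-point subgroup C_G(A) if and only if G is a p-group for some prime p and A leaves invariant no subgroup strictly between the Frattini subgroup of G and G. In that case, if G is nontrivial, the Frattini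 subgroup is the only maximal A-invariant subgroup (a trivial G has none). -/
theorem result {A G : Type*} [Group A] [Finite A]
    [Group G] [Finite G] [MulDistribMulAction A G] (hcop : (Nat.card A).Coprime (Nat.card G)) (hsol : Group.IsSolvable A ∨ Group.IsSolvable G) :
    ((∀ M N : Subgroup G, (M ≠ ⊤ ∧ (∀ a : A, ∀ x ∈ M, a • x ∈ M) ∧ ∀ L : Subgroup G, M < L → (∀ a : A, ∀ x ∈ L, a • x ∈ L) → L = ⊤) → (N ≠ ⊤ ∧ (∀ a : A, ∀ x ∈ N, a • x ∈ N) ∧ ∀ L : Subgroup G, N < L → (∀ a : A, ∀ x ∈ L, a • x ∈ L) → L = ⊤) →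
        ∃ c : G, (∀ a : A, a • c = c) ∧ N = MulAut.conj c • M) ↔
      ((∃ p : ℕ, p.Prime ∧ IsPGroup p G) ∧ ∀ L : Subgroup G, frattini G < L → (∀ a : A, ∀ x ∈ L, a • x ∈ L) → L = ⊤)) ∧
    (((∃ p : ℕ, p.Prime ∧ IsPGroup p G) ∧ ∀ L : Subgroup G, frattini G < L → (∀ a : A, ∀ x ∈ L, a • x ∈ L) → L = ⊤) →
      ∀ M : Subgroup G, (M ≠ ⊤ ∧ (∀ a : A, ∀ x ∈ M, a • x ∈ M) ∧ ∀ L : Subgroup G, M < L → (∀ a : A, ∀ x ∈ L, a • x ∈ L) → L = ⊤) ↔ (M = frattini G ∧ M ≠ ⊤)) := by
  refine ⟨⟨?_, ?_⟩, ?_⟩
  · intro hconj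
    have hconj' : ∀ M N : Subgroup G, MaxInv A M → MaxInv A N →
        ∃ c : G, (∀ a : A, a • c = c) ∧ N = MulAut.conj c • M := hconj
    have hcard : ∀ M N : Subgroup G, MaxInv A M → MaxInv A N → Nat.card M = Nat.card N := by
      intro M N hM hN
      obtain ⟨c, -, rfl⟩ := hconj' M N hM hN
      exact (Cfsg.Agent.Lib.Helper1.card_conj_smul c M).symm
    obtain ⟨p, hp, hG⟩ := pgroup_of_conj hcop hsol hcard
    refine ⟨⟨p, hp, hG⟩, ?_⟩
    haveI := Fact.mk hp
    intro L hL hLi
    by_contra hLt
    obtain ⟨M, hM, hLM⟩ := exists_maxInv_ge (A := A) hLi hLt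
    have hΦM := frattini_le_of_maxInv hM
    have hcomm := (S0012.result p hG).1
    haveI hMn : M.Normal := by
      constructor
      intro n hn g
      have h1 : g * n * g⁻¹ = ⁅g, n⁆ * n := by
        rw [commutatorElement_def]
        group
      rw [h1]
      exact M.mul_mem (hΦM (hcomm (Subgroup.commutator_mem_commutator (Subgroup.mem_top _)
        (Subgroup.mem_top _)))) hn
    have huniq : ∀ K : Subgroup G, Inv A K → K ≠ ⊤ → K ≤ M := by
      intro K hK hKt
      obtain ⟨N, hN, hKN⟩ := exists_maxInv_ge hK hKt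
      obtain ⟨c, -, rfl⟩ := hconj' M N hM hN
      rwa [Subgroup.Normal.conj_smul_eq_self] at hKN
    have := le_frattini_of_unique hG hcop M hM.2.1 hM.1 huniq
    exact absurd (hLM.trans this) (not_le_of_gt hL)
  · rintro ⟨-, hirr⟩ M N hM hN
    have h1 := ((part2 (A := A) hirr M).1 hM).1
    have h2 := ((part2 (A := A) hirr N).1 hN).1
    exact ⟨1, fun a => smul_one a, by rw [h1, h2, map_one, one_smul]⟩
  · rintro ⟨-, hirr⟩ M
    exact part2 (A := A) hirr M

end Cfsg.Agent.S4381
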