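import Mathlib
import Cfsg.Statements.S4387
import Cfsg.Agent.Lib.Helper2.Jordan
import Cfsg.Agent.Lib.Helper2.Basic

set_option autoImplicit false
open Pointwise
open Cfsg

namespace Cfsg.Agent.S4387

open Cfsg.Agent.Lib.Helper2.Conj Cfsg.Agent.Lib.Helper2.Jordan Cfsg.Agent.Lib.Helper2.Basic

theorem result {G : Type*} [Group G] [Finite G] [Nontrivial G]
    (h : ∀ M N : Subgroup G, IsCoatom M → IsCoatom N → ∃ g : G, N = MulAut.conj g • M) :
    IsCyclic G ∧ IsPrimePow (Nat.card G) := by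
  obtain ⟨M, hM, -⟩ := exists_isCoatom_ge (bot_ne_top : (⊥ : Subgroup G) ≠ ⊤)
  constructor
  · obtain ⟨x, hx⟩ := exists_not_mem_conj M hM.1
    rw [isCyclic_iff_exists_zpowers_eq_top]
    refine ⟨x, ?_⟩
    by_contra hne
    obtain ⟨N, hN, hxN⟩ := exists_isCoatom_ge hne
    obtain ⟨g, rfl⟩ := h M N hM hN
    exact hx g (hxN (Subgroup.mem_zpowers x))
  · have h1 : M.index ≠ 1 := fun h => hM.1 (Subgroup.index_eq_one.mp h)
    obtain ⟨p, hp, hpd⟩ := Nat.exists_prime_and_dvd h1
    haveI : Fact p.Prime := ⟨hp⟩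
    obtain ⟨P⟩ : Nonempty (Sylow p G) := inferInstance
    have hP : (P : Subgroup G) = ⊤ := by
      by_contra hne
      obtain ⟨N, hN, hPN⟩ := exists_isCoatom_ge hne
      obtain ⟨g, rfl⟩ := h M N hM hN
      have h2 : ((g⁻¹ • P : Sylow p G) : Subgroup G) ≤ M := by
        rw [Sylow.coe_subgroup_smul]
        have := conj_smul_mono (g := g⁻¹) hPN
        rwa [conj_inv_smul_smul] at this
      exact (g⁻¹ • P).not_dvd_index (hpd.trans (Subgroup.index_dvd_of_le h2))
    have hpg : IsPGroup p G := by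
      have := P.isPGroup'
      rw [hP] at this
      exact this.of_equiv Subgroup.topEquiv
    obtain ⟨n, hn⟩ := IsPGroup.iff_card.mp hpg
    rw [hn]
    have hn0 : n ≠ 0 := by
      rintro rfl
      rw [pow_zero] at hn
      have := Finite.one_lt_card (α := G)
      omega
    exact hp.isPrimePow.pow hn0

end Cfsg.Agent.S4387
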