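import Cfsg.Statements.S4420
import Mathlib

set_option autoImplicit false
open Cfsg

namespace Cfsg.Agent.S4420

theorem comm_of_sq {H : Type*} [Group H] (h : ∀ x : H, x ^ 2 = 1) : ∀ a b : H, a * b = b * a := by
  intro a b
  have hi : ∀ x : H, x⁻¹ = x := by
    intro x
    rw [inv_eq_iff_mul_eq_one, ← pow_two]; exact h x
  rw [← hi (a * b), mul_inv_rev, hi, hi]

/-- Structure of groups in which every element outside some proper subgroup has square 1. Let H be a finite group with a proper subgroup A such that every element outside A has square 1. Then H has an abelian normal subgroup B of index 2 such that every element outside B is an involution inverting every element of B; and if H is not an elementary abelian 2-group, B is the only abelian normal subgroup of index 2 with this property. -/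
theorem result {H : Type*} [Group H] [Finite H] (A : Subgroup H) (hA : A ≠ ⊤) (hD : ∀ x : H, x ∉ A → x ^ 2 = 1) :
    ∃ B : Subgroup H, B.Normal ∧ IsMulCommutative ↥B ∧ B.index = 2 ∧
      (∀ x : H, x ∉ B → x ^ 2 = 1 ∧ ∀ b ∈ B, x * b * x⁻¹ = b⁻¹) ∧
      (¬ (IsMulCommutative H ∧ ∀ x : H, x ^ 2 = 1) →
        ∀ B' : Subgroup H, B'.Normal → IsMulCommutative ↥B' → B'.index = 2 →
          (∀ x : H, x ∉ B' → x ^ 2 = 1 ∧ ∀ b ∈ B', x * b * x⁻¹ = b⁻¹) → B' = B) := by
  haveI : Fact (Nat.Prime 2) := ⟨Nat.prime_two⟩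
  -- uniqueness, general
  have huniq : ∀ B B' : Subgroup H, IsMulCommutative ↥B → 
      (∀ x : H, x ∉ B → x ^ 2 = 1 ∧ ∀ b ∈ B, x * b * x⁻¹ = b⁻¹) →
      (∀ x : H, x ∉ B' → x ^ 2 = 1 ∧ ∀ b ∈ B', x * b * x⁻¹ = b⁻¹) →
      ¬ (IsMulCommutative H ∧ ∀ x : H, x ^ 2 = 1) → B ≤ B' := by
    intro B B' hBc hB hB' hne
    by_contra hle
    obtain ⟨x, hxB, hxB'⟩ := SetLike.not_le_iff_exists.mp hle
    apply hne
    have hsq : ∀ d : H, d ^ 2 = 1 := by
      intro d
      by_cases hdB : d ∈ B
      · by_cases hdB' : d ∈ B'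
        · have h1 := (hB' x hxB').2 d hdB'
          have h2 : x * d = d * x := congrArg Subtype.val (hBc.is_comm.comm ⟨x, hxB⟩ ⟨d, hdB⟩)
          rw [h2, mul_inv_cancel_right] at h1
          rw [pow_two]
          nth_rewrite 1 [h1]
          exact inv_mul_cancel d
        · exact (hB' d hdB').1
      · exact (hB d hdB).1
    exact ⟨⟨⟨comm_of_sq hsq⟩⟩, hsq⟩
  obtain ⟨x, hx⟩ : ∃ x, x ∉ A := by
    by_contra hc
    push Not at hc
    exact hA (eq_top_iff.mpr fun z _ => hc z)
  have hinvA : ∀ y : H, y ∉ A → ∀ a ∈ A, y * a * y⁻¹ = a⁻¹ := by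
    intro y hy a ha
    have h1 : y * a ∉ A := by
      intro h
      apply hy
      have := A.mul_mem h (A.inv_mem ha)
      rwa [mul_inv_cancel_right] at this
    have h2 := hD _ h1
    have h3 := hD y hy
    have hyi : y⁻¹ = y := by rw [inv_eq_iff_mul_eq_one, ← pow_two]; exact h3
    rw [hyi]
    rw [pow_two] at h2
    rw [eq_inv_iff_mul_eq_one]
    calc y * a * y * a = y * a * (y * a) := by group
      _ = 1 := h2
  have hAc : IsMulCommutative A := by
    refine ⟨⟨fun a b => Subtype.ext ?_⟩⟩
    have e1 := hinvA x hx a a.2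
    have e2 := hinvA x hx b b.2
    have e3 := hinvA x hx _ (A.mul_mem a.2 b.2)
    have e4 : x * ((a : H) * b) * x⁻¹ = (x * a * x⁻¹) * (x * b * x⁻¹) := by group
    rw [e4, e1, e2, ← mul_inv_rev] at e3
    exact (inv_injective e3).symm
  by_cases hidx : A.index = 2
  · have hAn : A.Normal := Subgroup.normal_of_index_eq_two hidx
    refine ⟨A, hAn, hAc, hidx, fun y hy => ⟨hD y hy, hinvA y hy⟩, ?_⟩
    intro hne B' hB'n hB'c hB'i hB'
    have hle := huniq B' A hB'c hB' (fun y hy => ⟨hD y hy, hinvA y hy⟩) hne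
    have hle2 := huniq A B' hAc (fun y hy => ⟨hD y hy, hinvA y hy⟩) hB' hne
    exact le_antisymm hle hle2
  · -- index > 2 : elementary abelian
    have hsq : ∀ d : H, d ^ 2 = 1 := by
      intro d
      by_cases hd : d ∈ A
      · obtain ⟨y, hy, hxy⟩ : ∃ y, y ∉ A ∧ x * y ∉ A := by
          by_contra hc
          push Not at hc
          apply hidx
          rw [Subgroup.index_eq_two_iff]
          refine ⟨x, fun b => ?_⟩
          by_cases hb : b ∈ A
          · right
            refine ⟨hb, ?_⟩
            intro h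
            apply hx
            have := A.mul_mem (A.inv_mem hb) h
            rwa [inv_mul_cancel_left] at this
          · left
            refine ⟨?_, hb⟩
            have h1 := hc b⁻¹ (fun h => hb (by simpa using A.inv_mem h))
            have h2 := A.inv_mem h1
            have hxi : x⁻¹ = x := by rw [inv_eq_iff_mul_eq_one, ← pow_two]; exact hD x hx
            rw [mul_inv_rev, inv_inv, hxi] at h2
            exact h2
        have e1 := hinvA y hy d hd
        have e2 := hinvA x hx d⁻¹ (A.inv_mem hd)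
        have e3 := hinvA (x * y) hxy d hd
        have e4 : x * y * d * (x * y)⁻¹ = x * (y * d * y⁻¹) * x⁻¹ := by group
        rw [e4, e1, e2, inv_inv] at e3
        rw [pow_two]
        nth_rewrite 1 [e3]
        exact inv_mul_cancel d
      · exact hD d hd
    have hcomm := comm_of_sq hsq
    have hHp : IsPGroup 2 H := by
      intro g
      exact ⟨1, by rw [pow_one]; exact hsq g⟩
    obtain ⟨n, hn⟩ := IsPGroup.iff_card.mp hHp
    have hn0 : n ≠ 0 := by
      rintro rfl
      rw [pow_zero] at hn
      haveI : Subsingleton H := (Nat.card_eq_one_iff_unique.mp hn).1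
      exact hx (by rw [Subsingleton.elim x 1]; exact A.one_mem)
    obtain ⟨m, rfl⟩ := Nat.exists_eq_succ_of_ne_zero hn0
    obtain ⟨B, hB⟩ := Sylow.exists_subgroup_card_pow_prime (G := H) 2 (n := m) (by
      rw [hn]; exact pow_dvd_pow 2 (Nat.le_succ m))
    have hBi : B.index = 2 := by
      have := B.card_mul_index
      rw [hB, hn, pow_succ] at this
      exact Nat.eq_of_mul_eq_mul_left (pow_pos (by norm_num) m) this
    refine ⟨B, Subgroup.normal_of_index_eq_two hBi, ⟨⟨fun a b => Subtype.ext (hcomm a b)⟩⟩, hBi, ?_, ?_⟩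
    · intro y _
      refine ⟨hsq y, fun b _ => ?_⟩
      rw [hcomm y b, mul_inv_cancel_right, eq_comm, inv_eq_iff_mul_eq_one, ← pow_two]
      exact hsq b
    · intro hne
      exact absurd ⟨⟨⟨hcomm⟩⟩, hsq⟩ hne

end Cfsg.Agent.S4420
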