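import Cfsg.Statements.S4518
import Cfsg.Agent.Lib.Helper7.All1
import Cfsg.Agent.Lib.Helper7.OpRes1
import Cfsg.Agent.Lib.Helper7.CharGalois
-- import your own Cfsg.Agent.* helpers here

set_option autoImplicit false
open Cfsg
open Cfsg.Agent.Lib.Helper7.CharBasic Cfsg.Agent.Lib.Helper7.CharIrr Cfsg.Agent.Lib.Helper7.CharDecomp Cfsg.Agent.Lib.Helper7.CharComplete Cfsg.Agent.Lib.Helper7.CharOrth Cfsg.Agent.Lib.Helper7.CharInd Cfsg.Agent.Lib.Helper7.CharIntegral Cfsg.Agent.Lib.Helper7.CharBurnside Cfsg.Agent.Lib.Helper7.CharLinear Cfsg.Agent.Lib.Helper7.CharEquiv Cfsg.Agent.Lib.Helper7.CharMore Cfsg.Agent.Lib.Helper7.CharCount Cfsg.Agent.Lib.Helper7.CharMisc Cfsg.Agent.Lib.Helper7.CharMisc2 Cfsg.Agent.Lib.Helper7.CharNormal Cfsg.Agent.Lib.Helper7.CharOdd Cfsg.Agent.Lib.Helper7.CharClifford Cfsg.Agent.Lib.Helper7.CharProd Cfsg.Agent.Lib.Helper7.CharPerm Cfsg.Agent.Lib.Helper7.CharClassAlg Cfsg.Agent.Lib.Helper7.CharClassAlg2 Cfsg.Agent.Lib.Helper7.CharCentral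 Cfsg.Agent.Lib.Helper7.CharNormal2 Cfsg.Agent.Lib.Helper7.CharCliffordCorr Cfsg.Agent.Lib.Helper7.OpRes1 Cfsg.Agent.Lib.Helper7.CharGalois
open scoped ComplexConjugate

namespace Cfsg.Agent.S4518

/-- Let N be a normal subgroup of the finite group G whose index is not divisible by the prime p, and let k be coprime to the order of G with k ^ (p ^ e) ≡ 1 modulo the order of G for some e (so g ↦ g ^ k induces a field automorphism of p-power order on character values). If an irreducible character χ of G satisfies χ (g ^ k) = χ g for all g, then every irreducible constituent θ of the restriction of χ to N satisfies θ (n ^ k) = θ n for all n. -/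
theorem result {G : Type*} [Group G] [Fintype G] (p : ℕ) [Fact p.Prime] (N : Subgroup G) [N.Normal] [Fintype N] (hidx : ¬ p ∣ N.index) (k e : ℕ) (hk : Nat.Coprime k (Nat.card G)) (hke : k ^ (p ^ e) ≡ 1 [MOD Nat.card G]) (χ : Cfsg.IrrCharacter G) (hχ : ∀ g : G, (χ : G → ℂ) (g ^ k) = (χ : G → ℂ) g) (θ : Cfsg.IrrCharacter N) (hθ : Cfsg.classInner (fun n : N => (χ : G → ℂ) n) (θ : N → ℂ) ≠ 0) : ∀ n : N, (θ : N → ℂ) (n ^ k) = (θ : N → ℂ) n := by
  classical
  letI := irrAction N
  haveI := Fintype.ofFinite (IrrCharacter N)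
  have hkN : Nat.Coprime k (Nat.card N) :=
    Nat.Coprime.coprime_dvd_right (Subgroup.card_subgroup_dvd_card N) hk
  have hcf := IsIrrCharacter.isClassFunction χ.2
  -- the set of constituents
  have hXorb : ∀ θ' : IrrCharacter N,
      Cfsg.classInner (fun n : N => (χ : G → ℂ) n) (θ' : N → ℂ) ≠ 0 ↔
        θ' ∈ MulAction.orbit G θ := by
    intro θ'
    rw [MulAction.mem_orbit_iff]
    constructor
    · intro h
      obtain ⟨g, hg⟩ := clifford_conj N χ.2 θ.2 θ'.2 hθ h
      refine ⟨g⁻¹, Subtype.ext ?_⟩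
      change conjFun N θ.1 g⁻¹⁻¹ = θ'.1
      rw [inv_inv, hg]
    · rintro ⟨g, rfl⟩
      change Cfsg.classInner (fun n : N => (χ : G → ℂ) n) (conjFun N θ.1 g⁻¹) ≠ 0
      rw [classInner_restrict_conjFun N hcf]
      exact hθ
  have hcard : ¬ p ∣ Fintype.card {θ' : IrrCharacter N //
      Cfsg.classInner (fun n : N => (χ : G → ℂ) n) (θ' : N → ℂ) ≠ 0} := by
    have h1 : Fintype.card {θ' : IrrCharacter N //
        Cfsg.classInner (fun n : N => (χ : G → ℂ) n) (θ' : N → ℂ) ≠ 0} =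
        (MulAction.stabilizer G θ).index := by
      rw [MulAction.index_stabilizer, ← Nat.card_eq_fintype_card, ← Nat.card_coe_set_eq]
      exact Nat.card_congr (Equiv.subtypeEquivRight hXorb)
    rw [h1]
    have h2 : N ≤ MulAction.stabilizer G θ := by
      intro g hg
      rw [MulAction.mem_stabilizer_iff, irrAction_smul_eq_iff]
      intro n
      have := IsIrrCharacter.isClassFunction θ.2 n ⟨g, hg⟩
      rw [← this]
      rfl
    exact fun h => hidx (h.trans (Subgroup.index_dvd_of_le h2))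
  -- the Galois map
  let f : Function.End {θ' : IrrCharacter N //
      Cfsg.classInner (fun n : N => (χ : G → ℂ) n) (θ' : N → ℂ) ≠ 0} := fun θ' =>
    ⟨⟨fun n => θ'.1.1 (n ^ k), isIrrCharacter_pow_coprime θ'.1.2 hkN⟩, by
      have h1 := classInner_pow_coprime (fun n : N => (χ : G → ℂ) n) θ'.1.1 hkN
      have h2 : (fun n : N => (χ : G → ℂ) ((n ^ k : N) : G)) = fun n : N => (χ : G → ℂ) n := by
        funext n
        rw [Subgroup.coe_pow, hχ]
      rw [h2] at h1
      change Cfsg.classInner (fun n : N => (χ : G → ℂ) n) (fun n => θ'.1.1 (n ^ k)) ≠ 0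
      rw [h1]
      exact θ'.2⟩
  have hfpow : ∀ (j : ℕ) (x : {θ' : IrrCharacter N //
      Cfsg.classInner (fun n : N => (χ : G → ℂ) n) (θ' : N → ℂ) ≠ 0}) (n : N),
      ((f ^ j) x).1.1 n = x.1.1 (n ^ (k ^ j)) := by
    intro j
    induction j with
    | zero =>
      intro x n
      rw [pow_zero, pow_zero, pow_one]
      rfl
    | succ j ih =>
      intro x n
      rw [pow_succ]
      change ((f ^ j) (f x)).1.1 n = _
      rw [ih]
      change x.1.1 ((n ^ k ^ j) ^ k) = _
      rw [← pow_mul, ← pow_succ]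
  have hf1 : f ^ p ^ e = 1 := by
    funext x
    apply Subtype.ext
    apply Subtype.ext
    funext n
    rw [hfpow]
    have h1 : n ^ k ^ p ^ e = n ^ 1 := by
      rw [pow_eq_pow_iff_modEq]
      exact hke.of_dvd ((orderOf_dvd_natCard n).trans (Subgroup.card_subgroup_dvd_card N))
    rw [h1, pow_one]
    rfl
  have h3 := Equiv.Perm.card_fixedPoints_modEq hf1
  have h4 : Fintype.card (Function.fixedPoints f) ≠ 0 := by
    intro h0
    rw [h0] at h3
    exact hcard ((Nat.modEq_zero_iff_dvd).mp h3)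
  obtain ⟨⟨θ₀, hfix⟩⟩ := Fintype.card_pos_iff.mp (Nat.pos_of_ne_zero h4)
  have hfix' : ∀ n : N, θ₀.1.1 (n ^ k) = θ₀.1.1 n := by
    intro n
    have h5 : f θ₀ = θ₀ := hfix
    exact congrFun (congrArg (fun x => x.1.1) h5) n
  obtain ⟨g, hg⟩ := clifford_conj N χ.2 θ₀.1.2 θ.2 θ₀.2 hθ
  intro n
  rw [hg, conjFun_apply, conjFun_apply,
    ← hfix' ⟨g * n * g⁻¹, Subgroup.Normal.conj_mem inferInstance (n : G) n.2 g⟩]
  refine congrArg θ₀.1.1 (Subtype.ext ?_)
  simp [conj_pow]

end Cfsg.Agent.S4518
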