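import Cfsg.Statements.S4558
import Cfsg.Agent.Lib.Helper7.All1
import Cfsg.Agent.Lib.Helper7.CharDeg
-- import your own Cfsg.Agent.* helpers here

set_option autoImplicit false
open Cfsg
open Cfsg.Agent.Lib.Helper7.CharBasic Cfsg.Agent.Lib.Helper7.CharIrr Cfsg.Agent.Lib.Helper7.CharDecomp Cfsg.Agent.Lib.Helper7.CharComplete Cfsg.Agent.Lib.Helper7.CharOrth Cfsg.Agent.Lib.Helper7.CharInd Cfsg.Agent.Lib.Helper7.CharIntegral Cfsg.Agent.Lib.Helper7.CharBurnside Cfsg.Agent.Lib.Helper7.CharLinear Cfsg.Agent.Lib.Helper7.CharEquiv Cfsg.Agent.Lib.Helper7.CharMore Cfsg.Agent.Lib.Helper7.CharCount Cfsg.Agent.Lib.Helper7.CharMisc Cfsg.Agent.Lib.Helper7.CharMisc2 Cfsg.Agent.Lib.Helper7.CharNormal Cfsg.Agent.Lib.Helper7.CharOdd Cfsg.Agent.Lib.Helper7.CharClifford Cfsg.Agent.Lib.Helper7.CharProd Cfsg.Agent.Lib.Helper7.CharPerm Cfsg.Agent.Lib.Helper7.CharClassAlg Cfsg.Agent.Lib.Helper7.CharClassAlg2 Cfsg.Agent.Lib.Helper7.CharCentral Cfsg.Agent.Lib.Helper7.CharNormal2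 Cfsg.Agent.Lib.Helper7.CharCliffordCorr Cfsg.Agent.Lib.Helper7.CharKer Cfsg.Agent.Lib.Helper7.CharDeg
open scoped ComplexConjugate

namespace Cfsg.Agent.S4558

/-- Let χ be a character of the finite group G and g an element of p-power order for the prime p. If χ g = 0, then p divides the degree of χ. -/
theorem result {G : Type*} [Group G] [Finite G] (p : ℕ) [Fact p.Prime] (χ : G → ℂ) (hχ : Cfsg.IsCharacter G χ) (g : G) (hg : ∃ j : ℕ, orderOf g = p ^ j) (h0 : χ g = 0) : p ∣ Cfsg.charDegree χ := by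
  classical
  obtain ⟨j, hj⟩ := hg
  obtain ⟨m, ρ, rfl⟩ := hχ
  have hdeg : Cfsg.charDegree ρ.character = m := by
    apply charDegree_of_eq
    rw [Representation.char_one]; simp
  rw [hdeg]
  cases j with
  | zero =>
    rw [pow_zero, orderOf_eq_one_iff] at hj
    rw [hj, Representation.char_one] at h0
    have : m = 0 := by simpa using h0
    rw [this]; exact dvd_zero p
  | succ j =>
    obtain ⟨b, μ, h1, h2⟩ := exists_eigenbasis_rep ρ g
    rw [char_eq_sum ρ g b μ h1] at h0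
    have hpos : 0 < p ^ (j + 1) := pow_pos (Fact.out : p.Prime).pos _
    haveI : NeZero (p ^ (j + 1)) := ⟨hpos.ne'⟩
    have hζ : IsPrimitiveRoot (Complex.exp (2 * Real.pi * Complex.I / (p ^ (j + 1) : ℕ))) (p ^ (j + 1)) :=
      Complex.isPrimitiveRoot_exp _ hpos.ne'
    set ζ := Complex.exp (2 * Real.pi * Complex.I / (p ^ (j + 1) : ℕ)) with hζdef
    have hex : ∀ i, ∃ a : ℕ, ζ ^ a = μ i := by
      intro i
      obtain ⟨a, _, ha⟩ := hζ.eq_pow_of_pow_eq_one (by rw [← hj]; exact h2 i)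
      exact ⟨a, ha⟩
    choose a ha using hex
    let f : Polynomial ℤ := ∑ i, Polynomial.X ^ (a i)
    have hf0 : Polynomial.aeval ζ f = 0 := by
      simp only [f, map_sum, map_pow, Polynomial.aeval_X, ha]
      exact h0
    have hdvd : Polynomial.cyclotomic (p ^ (j + 1)) ℤ ∣ f := by
      rw [Polynomial.cyclotomic_eq_minpoly hζ hpos]
      exact minpoly.isIntegrallyClosed_dvd (hζ.isIntegral hpos) hf0
    obtain ⟨q, hq⟩ := hdvd
    have h3 := congrArg (Polynomial.eval 1) hq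
    rw [Polynomial.eval_mul, Polynomial.eval_one_cyclotomic_prime_pow] at h3
    simp only [f, Polynomial.eval_finset_sum, Polynomial.eval_pow, Polynomial.eval_X, one_pow,
      Finset.sum_const, Finset.card_univ, Fintype.card_fin, nsmul_eq_mul, mul_one] at h3
    have h4 : (Module.finrank ℂ (Fin m → ℂ) : ℤ) = m := by simp
    rw [h4] at h3
    have : (p : ℤ) ∣ (m : ℤ) := ⟨_, h3⟩
    exact_mod_cast this

end Cfsg.Agent.S4558
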