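import Cfsg.Statements.S4566
import Cfsg.Agent.Lib.Helper7.All1
import Cfsg.Agent.Lib.Helper7.CharZ
-- import your own Cfsg.Agent.* helpers here

set_option autoImplicit false
open Cfsg
open Cfsg.Agent.Lib.Helper7.CharBasic Cfsg.Agent.Lib.Helper7.CharIrr Cfsg.Agent.Lib.Helper7.CharDecomp Cfsg.Agent.Lib.Helper7.CharComplete Cfsg.Agent.Lib.Helper7.CharOrth Cfsg.Agent.Lib.Helper7.CharInd Cfsg.Agent.Lib.Helper7.CharIntegral Cfsg.Agent.Lib.Helper7.CharBurnside Cfsg.Agent.Lib.Helper7.CharLinear Cfsg.Agent.Lib.Helper7.CharEquiv Cfsg.Agent.Lib.Helper7.CharMore Cfsg.Agent.Lib.Helper7.CharCount Cfsg.Agent.Lib.Helper7.CharMisc Cfsg.Agent.Lib.Helper7.CharMisc2 Cfsg.Agent.Lib.Helper7.CharNormal Cfsg.Agent.Lib.Helper7.CharOdd Cfsg.Agent.Lib.Helper7.CharClifford Cfsg.Agent.Lib.Helper7.CharProd Cfsg.Agent.Lib.Helper7.CharPerm Cfsg.Agent.Lib.Helper7.CharClassAlg Cfsg.Agent.Lib.Helper7.CharClassAlg2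 Cfsg.Agent.Lib.Helper7.CharCentral Cfsg.Agent.Lib.Helper7.CharNormal2 Cfsg.Agent.Lib.Helper7.CharCliffordCorr Cfsg.Agent.Lib.Helper7.CharKer Cfsg.Agent.Lib.Helper7.CharZ
open scoped ComplexConjugate

namespace Cfsg.Agent.S4566

/-- Let N be a central subgroup of the finite group G, ψ a faithful irreducible (hence degree-one) character of N, and χ an irreducible character of G whose restriction to N contains ψ. If g ∈ G and some x ∈ G has commutator x⁻¹ g⁻¹ x g in N but different from 1, then χ g = 0. -/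
theorem result {G : Type*} [Group G] [Fintype G] (N : Subgroup G) [Fintype N] (hN : N ≤ Subgroup.center G) (ψ : Cfsg.IrrCharacter ↥N) (hfaith : ∀ n : ↥N, (ψ : ↥N → ℂ) n = (ψ : ↥N → ℂ) 1 → n = 1) (χ : Cfsg.IrrCharacter G) (hover : Cfsg.classInner (fun n : ↥N => (χ : G → ℂ) n) (ψ : ↥N → ℂ) ≠ 0) (g x : G) (hcomm : x⁻¹ * g⁻¹ * x * g ∈ N) (hne : x⁻¹ * g⁻¹ * x * g ≠ 1) : (χ : G → ℂ) g = 0 := by
  classical
  set z : G := x⁻¹ * g⁻¹ * x * g with hz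
  have hcl := IsIrrCharacter.isClassFunction χ.2
  have h1 : (χ : G → ℂ) (z * g⁻¹) = (ψ : N → ℂ) ⟨z, hcomm⟩ * (χ : G → ℂ) g⁻¹ :=
    irr_mul_central' N hN χ.2 ψ.2 hover ⟨z, hcomm⟩ g⁻¹
  have h2 : z * g⁻¹ = x⁻¹ * g⁻¹ * x⁻¹⁻¹ := by rw [hz]; group
  rw [h2, hcl] at h1
  have h3 : (ψ : N → ℂ) ⟨z, hcomm⟩ ≠ 1 := by
    intro h
    have h4 := hfaith ⟨z, hcomm⟩ (by rw [h, linear_of_le_center N hN ψ.2])
    exact hne (congrArg Subtype.val h4)
  have h5 : ((ψ : N → ℂ) ⟨z, hcomm⟩ - 1) * (χ : G → ℂ) g⁻¹ = 0 := by linear_combination -h1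
  have h6 := (mul_eq_zero.mp h5).resolve_left (sub_ne_zero.mpr h3)
  rw [irr_inv (IsIrrCharacter.isCharacter χ.2)] at h6
  simpa using h6

end Cfsg.Agent.S4566
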