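import Cfsg.Statements.S4574
import Cfsg.Agent.Lib.Helper7.All1
import Cfsg.Agent.Lib.Helper7.CharZeros
import Cfsg.Agent.Lib.Helper7.CharDeg
-- import your own Cfsg.Agent.* helpers here

set_option autoImplicit false
open Cfsg
open Cfsg.Agent.Lib.Helper7.CharBasic Cfsg.Agent.Lib.Helper7.CharIrr Cfsg.Agent.Lib.Helper7.CharDecomp Cfsg.Agent.Lib.Helper7.CharComplete Cfsg.Agent.Lib.Helper7.CharOrth Cfsg.Agent.Lib.Helper7.CharInd Cfsg.Agent.Lib.Helper7.CharIntegral Cfsg.Agent.Lib.Helper7.CharBurnside Cfsg.Agent.Lib.Helper7.CharLinear Cfsg.Agent.Lib.Helper7.CharEquiv Cfsg.Agent.Lib.Helper7.CharMore Cfsg.Agent.Lib.Helper7.CharCount Cfsg.Agent.Lib.Helper7.CharMisc Cfsg.Agent.Lib.Helper7.CharMisc2 Cfsg.Agent.Lib.Helper7.CharNormal Cfsg.Agent.Lib.Helper7.CharOdd Cfsg.Agent.Lib.Helper7.CharClifford Cfsg.Agent.Lib.Helper7.CharProd Cfsg.Agent.Lib.Helper7.CharPerm Cfsg.Agent.Lib.Helper7.CharClassAlg Cfsg.Agent.Lib.Helper7.CharClassAlg2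 Cfsg.Agent.Lib.Helper7.CharCentral Cfsg.Agent.Lib.Helper7.CharNormal2 Cfsg.Agent.Lib.Helper7.CharCliffordCorr Cfsg.Agent.Lib.Helper7.CharKer Cfsg.Agent.Lib.Helper7.CharRes Cfsg.Agent.Lib.Helper7.CharGen Cfsg.Agent.Lib.Helper7.GalC Cfsg.Agent.Lib.Helper7.CharGalois Cfsg.Agent.Lib.Helper7.CharZeros Cfsg.Agent.Lib.Helper7.CharDeg
open scoped ComplexConjugate

namespace Cfsg.Agent.S4574

/-- Let χ be an irreducible character of the finite group G, of degree d, and let Z(χ) be the set of elements g with |χ g| = d (the centre of χ). Then χ vanishes on at least (d ^ 2 - 1) · |Z(χ)| elements of G, with equality when every value |χ g| is 0, 1 or d. -/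
theorem result {G : Type*} [Group G] [Fintype G] [DecidableEq G] (χ : G → ℂ) (hχ : Cfsg.IsIrrCharacter G χ) : (Cfsg.charDegree χ ^ 2 - 1) * (Finset.univ.filter (fun g : G => ‖χ g‖ = (Cfsg.charDegree χ : ℝ))).card ≤ (Finset.univ.filter (fun g : G => χ g = 0)).card ∧ ((∀ g : G, ‖χ g‖ = 0 ∨ ‖χ g‖ = 1 ∨ ‖χ g‖ = (Cfsg.charDegree χ : ℝ)) → (Cfsg.charDegree χ ^ 2 - 1) * (Finset.univ.filter (fun g : G => ‖χ g‖ = (Cfsg.charDegree χ : ℝ))).card = (Finset.univ.filter (fun g : G => χ g = 0)).card) := by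
  classical
  have hc : IsCharacter G χ := IsIrrCharacter.isCharacter hχ
  set d := Cfsg.charDegree χ with hd
  have hd1 : 1 ≤ d := charDegree_pos hχ
  have hdR : (1 : ℝ) ≤ d := by exact_mod_cast hd1
  have hnorm : ∑ g : G, ‖χ g‖ ^ 2 = (Nat.card G : ℝ) := by
    have h1 := (isIrrCharacter_iff_norm_one.mp hχ).2
    rw [classInner_self_eq] at h1
    have h2 : (Nat.card G : ℝ)⁻¹ * ∑ g : G, ‖χ g‖ ^ 2 = 1 := by exact_mod_cast h1
    have h3 : (Nat.card G : ℝ) ≠ 0 := by exact_mod_cast Nat.card_pos.ne'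
    field_simp at h2
    exact h2
  have hsq : ∀ x : G, ((‖χ x‖ ^ 2 : ℝ) : ℂ) = χ x * χ x⁻¹ := by
    intro x
    rw [irr_inv hc, Complex.mul_conj, Complex.normSq_eq_norm_sq]
  have hclosed : ∀ g : G, ∀ k : ℕ, k.Coprime (Nat.card G) → (‖χ (g ^ k)‖ ≠ (d : ℝ) ↔ ‖χ g‖ ≠ (d : ℝ)) := by
    intro g k hk
    apply not_congr
    obtain ⟨σ, hσ⟩ := exists_aut_of_pow_char (G := G) hk
    have h1 : ((‖χ (g ^ k)‖ ^ 2 : ℝ) : ℂ) = σ ((‖χ g‖ ^ 2 : ℝ) : ℂ) := by
      rw [hsq, hsq, map_mul, hσ χ hc, hσ χ hc, inv_pow]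
    have h2 : ∀ y : ℝ, 0 ≤ y → (y = d ↔ ((y ^ 2 : ℝ) : ℂ) = ((d : ℕ) : ℂ) ^ 2) := by
      intro y hy
      constructor
      · rintro rfl; push_cast; ring
      · intro h
        have h3 : y ^ 2 = (d : ℝ) ^ 2 := by exact_mod_cast h
        exact (pow_left_inj₀ hy (by positivity) two_ne_zero).mp h3
    rw [h2 _ (norm_nonneg _), h2 _ (norm_nonneg _), h1]
    constructor
    · intro h
      apply σ.injective
      rw [h]; simp
    · intro h
      rw [h]; simp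
  have key := card_nonzero_le_sum hc (fun g => ‖χ g‖ ≠ (d : ℝ)) hclosed
  have hG : (Nat.card G : ℝ) = ∑ g : G, (1 : ℝ) := by
    simp [Nat.card_eq_fintype_card]
  have hZ : ((Finset.univ.filter (fun g : G => ‖χ g‖ = (d : ℝ))).card : ℝ) =
      ∑ g : G, (if ‖χ g‖ = (d : ℝ) then (1 : ℝ) else 0) := by
    rw [← Finset.sum_filter, Finset.sum_const, nsmul_eq_mul, mul_one]
  have h0 : ((Finset.univ.filter (fun g : G => χ g = 0)).card : ℝ) =
      ∑ g : G, (if χ g = 0 then (1 : ℝ) else 0) := by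
    rw [← Finset.sum_filter, Finset.sum_const, nsmul_eq_mul, mul_one]
  have e1 : (d : ℝ) ^ 2 * ∑ g : G, (if ‖χ g‖ = (d : ℝ) then (1 : ℝ) else 0) +
      ∑ g : G, (if ‖χ g‖ ≠ (d : ℝ) then ‖χ g‖ ^ 2 else 0) = ∑ g : G, (1 : ℝ) := by
    rw [← hG, ← hnorm, Finset.mul_sum, ← Finset.sum_add_distrib]
    apply Finset.sum_congr rfl
    intro g _
    by_cases hg : ‖χ g‖ = (d : ℝ) <;> simp [hg]
  have e2 : ∑ g : G, (if ‖χ g‖ = (d : ℝ) then (1 : ℝ) else 0) +
      ∑ g : G, (if χ g = 0 then (1 : ℝ) else 0) +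
      ∑ g : G, (if ‖χ g‖ ≠ (d : ℝ) ∧ χ g ≠ 0 then (1 : ℝ) else 0) = ∑ g : G, (1 : ℝ) := by
    rw [← Finset.sum_add_distrib, ← Finset.sum_add_distrib]
    apply Finset.sum_congr rfl
    intro g _
    by_cases h0 : χ g = 0
    · have : ‖χ g‖ ≠ (d : ℝ) := by
        rw [h0, norm_zero]; intro h; linarith
      simp [h0, this]
      intro h; linarith
    · by_cases hg : ‖χ g‖ = (d : ℝ) <;> simp [hg, h0]
  have hcast : ((d ^ 2 - 1 : ℕ) : ℝ) = (d : ℝ) ^ 2 - 1 := by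
    rw [Nat.cast_sub (Nat.one_le_pow _ _ hd1)]
    push_cast; ring
  constructor
  · have : (((d ^ 2 - 1) * (Finset.univ.filter (fun g : G => ‖χ g‖ = (d : ℝ))).card : ℕ) : ℝ) ≤
        ((Finset.univ.filter (fun g : G => χ g = 0)).card : ℝ) := by
      rw [Nat.cast_mul, hcast, hZ, h0]
      linarith
    exact_mod_cast this
  · intro hall
    have e3 : ∑ g : G, (if ‖χ g‖ ≠ (d : ℝ) then ‖χ g‖ ^ 2 else 0) =
        ∑ g : G, (if ‖χ g‖ ≠ (d : ℝ) ∧ χ g ≠ 0 then (1 : ℝ) else 0) := by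
      apply Finset.sum_congr rfl
      intro g _
      by_cases hg : ‖χ g‖ = (d : ℝ)
      · simp [hg]
      · rcases hall g with h | h | h
        · have : χ g = 0 := norm_eq_zero.mp h
          simp [this]
        · have : χ g ≠ 0 := by
            intro h'; rw [h', norm_zero] at h; norm_num at h
          simp [hg, this, h]
        · exact absurd h hg
    have : (((d ^ 2 - 1) * (Finset.univ.filter (fun g : G => ‖χ g‖ = (d : ℝ))).card : ℕ) : ℝ) =
        ((Finset.univ.filter (fun g : G => χ g = 0)).card : ℝ) := by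
      rw [Nat.cast_mul, hcast, hZ, h0]
      linarith
    exact_mod_cast this

end Cfsg.Agent.S4574
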