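import Cfsg.Statements.S4602
import Cfsg.Agent.Lib.Helper9.PSolv
import Cfsg.Agent.Lib.Helper1.CoprimeSylow
import Cfsg.Agent.Lib.Lead.Cores

set_option autoImplicit false
open Cfsg

namespace Cfsg.Agent.S4602

open Cfsg.Agent.Lib.Helper1 Cfsg.Agent.Lib.Helper9.PSolv
open scoped commutatorElement

/-- Let G be a finite p-solvable group and q a prime different from p. Some Sylow p-subgroup of G normalizes some Sylow q-subgroup of G if and only if q does not divide the order of G/O_{p'}(G), the quotient by the largest normal subgroup of order prime to p. -/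
theorem result {G : Type*} [Group G] [Finite G] (p q : ℕ) [Fact p.Prime] [Fact q.Prime] (hpq : p ≠ q) (hsolv : Cfsg.IsPSolvable p G) :
    (∃ (P : Sylow p G) (Q : Sylow q G), (P : Subgroup G) ≤ Subgroup.normalizer ((Q : Subgroup G) : Set G)) ↔ ¬ q ∣ (Cfsg.pPrimeCore p G).index := by
  have hp : p.Prime := Fact.out
  have hq : q.Prime := Fact.out
  have hKn : (Cfsg.pPrimeCore p G).Normal := Cfsg.Agent.Lib.Helper1.pPrimeCore_normal p
  have hKc : (Nat.card (Cfsg.pPrimeCore p G)).Coprime p := pPrimeCore_coprime p
  set K := Cfsg.pPrimeCore p G with hK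
  constructor
  · rintro ⟨P, Q, hPQ⟩
    have hHH := hall_higman (quotient hp hsolv K) (pPrimeCore_quotient_eq_bot p K rfl)
    set f := QuotientGroup.mk' K with hf
    have hfs : Function.Surjective f := QuotientGroup.mk'_surjective K
    have hVn : (Cfsg.pCore p (G ⧸ K)).Normal := Cfsg.Agent.Lib.Helper1.pCore_normal p
    have hVp : IsPGroup p (Cfsg.pCore p (G ⧸ K)) := pCore_isPGroup p
    set V := Cfsg.pCore p (G ⧸ K) with hV
    have hVP : V ≤ (P : Subgroup G).map f := by
      have := Cfsg.Agent.Cores.pCore_le_sylow (P.mapSurjective hfs)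
      rwa [Sylow.coe_mapSurjective] at this
    have hQq : IsPGroup q ((Q : Subgroup G).map f) := Q.2.map f
    have hdisj : V ⊓ (Q : Subgroup G).map f = ⊥ :=
      (IsPGroup.disjoint_of_ne p q hpq V _ hVp hQq).eq_bot
    have hPN : (P : Subgroup G).map f ≤ Subgroup.normalizer (((Q : Subgroup G).map f : Subgroup (G ⧸ K)) : Set (G ⧸ K)) :=
      (Subgroup.map_mono hPQ).trans (Subgroup.le_normalizer_map f)
    have hQC : (Q : Subgroup G).map f ≤ Subgroup.centralizer (V : Set (G ⧸ K)) := by
      intro y hy
      rw [Subgroup.mem_centralizer_iff]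
      intro v hv
      have h1 : ⁅y, v⁆ ∈ V ⊓ (Q : Subgroup G).map f := by
        constructor
        · rw [commutatorElement_def]
          exact V.mul_mem (hVn.conj_mem v hv y) (V.inv_mem hv)
        · rw [commutatorElement_def, mul_assoc, mul_assoc]
          apply Subgroup.mul_mem _ hy
          have := (Subgroup.mem_normalizer_iff.1 (hPN (hVP hv)) _).1 (Subgroup.inv_mem _ hy)
          simpa [mul_assoc] using this
      rw [hdisj, Subgroup.mem_bot, commutatorElement_eq_one_iff_mul_comm] at h1
      exact h1.symm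
    have hQb : (Q : Subgroup G).map f = ⊥ := by
      rw [eq_bot_iff, ← hdisj]
      exact le_inf (hQC.trans hHH) le_rfl
    have hQK : (Q : Subgroup G) ≤ K := by
      rw [Subgroup.map_eq_bot_iff, QuotientGroup.ker_mk'] at hQb
      exact hQb
    intro hdvd
    exact Q.not_dvd_index (hdvd.trans (Subgroup.index_dvd_of_le hQK))
  · intro hnd
    obtain ⟨P⟩ : Nonempty (Sylow p G) := inferInstance
    have hPs : Group.IsSolvable (P : Subgroup G) := by
      have := P.2.isNilpotent
      infer_instance
    have hcop : (Nat.card (P : Subgroup G)).Coprime (Nat.card K) := by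
      obtain ⟨k, hk⟩ := IsPGroup.iff_card.1 P.2
      rw [hk]; exact (Nat.Coprime.pow_right k hKc).symm
    obtain ⟨Q₀, hQ₀K, hQ₀c, hPQ₀⟩ := exists_invariant_sylow (P : Subgroup G) K
      (by rw [Subgroup.normalizer_eq_top]; exact le_top) hcop (Or.inl hPs) q
    have hfac : (Nat.card G).factorization q = (Nat.card K).factorization q := by
      rw [← K.card_mul_index, Nat.factorization_mul Nat.card_pos.ne' (Subgroup.index_ne_zero_of_finite),
        Finsupp.add_apply, Nat.factorization_eq_zero_of_not_dvd hnd, add_zero]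
    exact ⟨P, Sylow.ofCard Q₀ (by rw [hQ₀c, hfac]), hPQ₀⟩

end Cfsg.Agent.S4602
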