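import Cfsg.Statements.S4601
import Cfsg.Agent.Lib.Helper9.PSolv
import Cfsg.Agent.Lib.Helper9.SylCard
import Cfsg.Agent.Lib.Lead.Cores
import Cfsg.Agent.S4602

set_option autoImplicit false
open Cfsg

namespace Cfsg.Agent.S4601

open Cfsg.Agent.Lib.Helper1 Cfsg.Agent.Lib.Helper9.PSolv Cfsg.Agent.Lib.Helper9.SylCard

open Pointwise

universe u

theorem hyp_quot {G : Type*} [Group G] [Finite G] {p q : ℕ} (hq : q.Prime) (N : Subgroup G)
    [N.Normal]
    (h : ∀ y : G, (∃ k : ℕ, orderOf y = q ^ k) → ¬ p ∣ (Subgroup.centralizer ({y} : Set G)).index) :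
    ∀ y : G ⧸ N, (∃ k : ℕ, orderOf y = q ^ k) →
      ¬ p ∣ (Subgroup.centralizer ({y} : Set (G ⧸ N))).index := by
  intro y' hy' hdvd
  obtain ⟨y, rfl, hy⟩ := lift_q (QuotientGroup.mk' N) (QuotientGroup.mk'_surjective N) hq y' hy'
  apply h y hy
  have h1 : (Subgroup.centralizer ({y} : Set G)).map (QuotientGroup.mk' N) ≤
      Subgroup.centralizer ({QuotientGroup.mk' N y} : Set (G ⧸ N)) := by
    rintro _ ⟨c, hc, rfl⟩
    rw [SetLike.mem_coe, Subgroup.mem_centralizer_singleton_iff] at hc
    rw [Subgroup.mem_centralizer_singleton_iff, ← map_mul, ← map_mul, hc]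
  exact hdvd.trans ((Subgroup.index_dvd_of_le h1).trans
    (Subgroup.index_map_dvd _ (QuotientGroup.mk'_surjective N)))

theorem main_q {p q : ℕ} [hp : Fact p.Prime] [hq : Fact q.Prime] :
    ∀ (n : ℕ) (G : Type u) [Group G] [Finite G], Nat.card G = n → Cfsg.IsPSolvable q G →
    (∀ y : G, (∃ k : ℕ, orderOf y = q ^ k) →
      ¬ p ∣ (Subgroup.centralizer ({y} : Set G)).index) →
    ∃ (P : Sylow p G) (Q : Sylow q G),
      (P : Subgroup G) ≤ Subgroup.normalizer ((Q : Subgroup G) : Set G) := by
  intro n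
  induction n using Nat.strong_induction_on with
  | _ n ih =>
  intro G _ _ hn hsolv h
  by_cases hG : Subsingleton G
  · obtain ⟨P⟩ : Nonempty (Sylow p G) := inferInstance
    obtain ⟨Q⟩ : Nonempty (Sylow q G) := inferInstance
    exact ⟨P, Q, fun x _ => by rw [Subsingleton.elim x 1]; exact Subgroup.one_mem _⟩
  rw [not_subsingleton_iff_nontrivial] at hG
  obtain ⟨N, hNn, hNne, hfac⟩ := exists_normal_ne_bot hsolv
  have hlt : Nat.card (G ⧸ N) < n := by
    have h1 := card_quotient_mul_card N
    have h2 : 1 < Nat.card N := by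
      rcases Nat.lt_or_ge 1 (Nat.card N) with h | h
      · exact h
      · exact absurd (Subgroup.card_eq_one.1 (le_antisymm h Nat.card_pos)) hNne
    rw [← hn, ← h1]
    exact lt_mul_of_one_lt_right Nat.card_pos h2
  obtain ⟨P', Q', hPQ'⟩ := ih _ hlt (G ⧸ N) rfl (quotient hq.out hsolv N) (hyp_quot hq.out N h)
  set f := QuotientGroup.mk' N with hf
  have hfs : Function.Surjective f := QuotientGroup.mk'_surjective N
  obtain ⟨P, rfl⟩ := Sylow.mapSurjective_surjective hfs p P'
  obtain ⟨Q, rfl⟩ := Sylow.mapSurjective_surjective hfs q Q'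
  have hPB : (P : Subgroup G) ≤ Subgroup.normalizer (((Q : Subgroup G) ⊔ N : Subgroup G) : Set G) := by
    have h1 : (P : Subgroup G) ≤ (Subgroup.normalizer (((Q : Subgroup G).map f : Subgroup (G ⧸ N)) :
        Set (G ⧸ N))).comap f := by
      rw [← Subgroup.map_le_iff_le_comap]
      simpa using hPQ'
    rw [Subgroup.comap_normalizer_eq_of_surjective _ hfs, Subgroup.comap_map_eq,
      QuotientGroup.ker_mk'] at h1
    exact h1
  rcases hfac with ⟨m, hm⟩ | hcop
  · rw [Subgroup.relIndex_bot_left] at hm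
    have hNQ : N ≤ Q := normal_pgroup_le_sylow hNn (IsPGroup.of_card hm) Q
    rw [sup_eq_left.2 hNQ] at hPB
    exact ⟨P, Q, hPB⟩
  · rw [Subgroup.relIndex_bot_left] at hcop
    have hQs : Group.IsSolvable (Q : Subgroup G) := by
      have := Q.2.isNilpotent
      infer_instance
    have hNtop : ∀ A : Subgroup G, A ≤ Subgroup.normalizer (N : Set G) := by
      intro A; rw [Subgroup.normalizer_eq_top]; exact le_top
    have hcopQN : (Nat.card (Q : Subgroup G)).Coprime (Nat.card N) := by
      obtain ⟨k, hk⟩ := IsPGroup.iff_card.1 Q.2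
      rw [hk]; exact (Nat.Coprime.pow_right k hcop).symm
    obtain ⟨R, hRN, hRc, hQR⟩ := exists_invariant_sylow (Q : Subgroup G) N (hNtop _) hcopQN
      (Or.inl hQs) p
    have hRCQ : R ≤ Subgroup.centralizer ((Q : Subgroup G) : Set G) := by
      intro r hr
      rw [Subgroup.mem_centralizer_iff]
      intro y hy
      obtain ⟨k, hk⟩ := (IsPGroup.iff_orderOf.1 Q.2) ⟨y, hy⟩
      rw [Subgroup.orderOf_mk] at hk
      obtain ⟨S, hS⟩ := exists_sylow_le (p := p) (Subgroup.centralizer ({y} : Set G)) (h y ⟨k, hk⟩)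
      have hSN := card_sylow_inf_normal S N
      have hyS : ∀ s ∈ (S : Subgroup G), y * s = s * y := by
        intro s hs
        exact (Subgroup.mem_centralizer_singleton_iff.1 (hS hs)).symm
      have hAle : Subgroup.zpowers y ≤ (Q : Subgroup G) := by
        rw [Subgroup.zpowers_le]; exact hy
      have hAS : Subgroup.zpowers y ≤
          Subgroup.normalizer ((((S : Subgroup G) ⊓ N : Subgroup G)) : Set G) := by
        rw [Subgroup.zpowers_le, Subgroup.mem_normalizer_iff]
        intro s
        have e : ∀ s ∈ (S : Subgroup G), y * s * y⁻¹ = s := by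
          intro s hs; rw [hyS s hs, mul_inv_cancel_right]
        constructor
        · intro hs
          rw [e s hs.1]; exact hs
        · intro hs
          have h3 := hyS _ hs.1
          have h4 : y * s * y⁻¹ = s := by
            have : y * (y * s * y⁻¹) = y * s := by rw [h3]; group
            exact mul_left_cancel this
          rw [h4] at hs; exact hs
      obtain ⟨c, hc, hconj⟩ := invariant_sylow_conj (Subgroup.zpowers y) N (hNtop _)
        (Nat.Coprime.coprime_dvd_left (Subgroup.card_dvd_of_le hAle) hcopQN)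
        (Or.inl (isSolvable_of_le hAle hQs)) p ((S : Subgroup G) ⊓ N) R inf_le_right hRN hSN hRc
        hAS (hAle.trans hQR)
      rw [← hconj, mem_conj_smul] at hr
      have hcy : y * c = c * y :=
        Subgroup.mem_centralizer_iff.1 hc.2 y (Subgroup.mem_zpowers y)
      have h5 := hyS _ hr.1
      -- y commutes with c⁻¹ r c and c
      have h6 : y * c⁻¹ = c⁻¹ * y := by
        have : c * (y * c⁻¹) = c * (c⁻¹ * y) := by
          rw [← mul_assoc, ← hcy]; group
        exact mul_left_cancel this
      have e : r = c * (c⁻¹ * r * c) * c⁻¹ := by group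
      rw [e, ← mul_assoc, ← mul_assoc y, hcy, mul_assoc c y, h5, mul_assoc, mul_assoc, mul_assoc,
        mul_assoc, mul_assoc, mul_assoc, h6]
      simp only [mul_assoc]
    set W := Subgroup.normalizer ((Q : Subgroup G) : Set G) with hW
    have hPWN : (P : Subgroup G) ≤ W ⊔ N := by
      intro u hu
      have h1 : MulAut.conj u • (Q : Subgroup G) ≤ (Q : Subgroup G) ⊔ N := by
        have h2 := conj_smul_eq_of_mem_normalizer (hPB hu)
        rw [← h2]
        exact Subgroup.pointwise_smul_le_pointwise_smul_iff.2 le_sup_left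
      obtain ⟨n', hn', hconj⟩ := coprime_conj N (Q : Subgroup G) (MulAut.conj u • (Q : Subgroup G))
        (hNtop _) hcopQN (Or.inl hQs) h1 (card_conj_smul u _)
      have h3 : n'⁻¹ * u ∈ W := by
        apply mem_normalizer_of_conj_smul_eq
        rw [← conj_smul_smul, ← hconj, conj_smul_smul, inv_mul_cancel]
        simp
      have e : u = n' * (n'⁻¹ * u) := by group
      rw [e]
      exact Subgroup.mul_mem _ (Subgroup.mem_sup_right hn') (Subgroup.mem_sup_left h3)
    have e1 := card_sup_mul_card_inf' W N (hNtop _)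
    have h1 := fac_eq_of_sylow_le P hPWN
    have h2 : (Nat.card (W ⊓ N : Subgroup G)).factorization p = (Nat.card N).factorization p :=
      fac_eq_of_le_of_le (le_inf (hRCQ.trans (Subgroup.centralizer_le_normalizer _)) hRN)
        inf_le_right hRc
    have e2 := congrArg (fun n => n.factorization p) e1
    rw [Nat.factorization_mul Nat.card_pos.ne' Nat.card_pos.ne',
      Nat.factorization_mul Nat.card_pos.ne' Nat.card_pos.ne', Finsupp.add_apply, Finsupp.add_apply,
      h1, h2] at e2
    obtain ⟨P₁, hP₁⟩ := exists_sylow_le_of_fac (p := p) W (by omega)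
    exact ⟨P₁, Q, hP₁⟩

/-- Let p and q be primes and G a finite group that is p-solvable or q-solvable, in which no q-element has conjugacy class size divisible by p. Then some Sylow p-subgroup of G normalizes some Sylow q-subgroup of G. -/
theorem result {G : Type*} [Group G] [Finite G] (p q : ℕ) [Fact p.Prime] [Fact q.Prime] (hsolv : Cfsg.IsPSolvable p G ∨ Cfsg.IsPSolvable q G)
    (h : ∀ y : G, (∃ k : ℕ, orderOf y = q ^ k) → ¬ p ∣ (Subgroup.centralizer ({y} : Set G)).index) :
    ∃ (P : Sylow p G) (Q : Sylow q G), (P : Subgroup G) ≤ Subgroup.normalizer ((Q : Subgroup G) : Set G) := by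
  have hp : p.Prime := Fact.out
  have hq : q.Prime := Fact.out
  rcases hsolv with hsolv | hsolv
  swap
  · exact main_q _ G rfl hsolv h
  by_cases hpq : p = q
  · subst hpq
    exact main_q _ G rfl hsolv h
  rw [Cfsg.Agent.S4602.result p q hpq hsolv]
  have hKn : (Cfsg.pPrimeCore p G).Normal := Cfsg.Agent.Lib.Helper1.pPrimeCore_normal p
  set K := Cfsg.pPrimeCore p G with hK
  have hHH := hall_higman (quotient hp hsolv K) (pPrimeCore_quotient_eq_bot p K rfl)
  set f := QuotientGroup.mk' K with hf
  have hfs : Function.Surjective f := QuotientGroup.mk'_surjective K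
  have hVp : IsPGroup p (Cfsg.pCore p (G ⧸ K)) := pCore_isPGroup p
  obtain ⟨Q⟩ : Nonempty (Sylow q G) := inferInstance
  have hQK : (Q : Subgroup G) ≤ K := by
    intro y hy
    obtain ⟨k, hk⟩ := (IsPGroup.iff_orderOf.1 Q.2) ⟨y, hy⟩
    rw [Subgroup.orderOf_mk] at hk
    obtain ⟨S, hS⟩ := exists_sylow_le (p := p) (Subgroup.centralizer ({y} : Set G)) (h y ⟨k, hk⟩)
    have hVS : Cfsg.pCore p (G ⧸ K) ≤ (S : Subgroup G).map f := by
      have := Cfsg.Agent.Cores.pCore_le_sylow (S.mapSurjective hfs)
      rwa [Sylow.coe_mapSurjective] at this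
    have h1 : f y ∈ Cfsg.pCore p (G ⧸ K) := by
      apply hHH
      rw [Subgroup.mem_centralizer_iff]
      intro v hv
      obtain ⟨s, hs, rfl⟩ := hVS hv
      rw [← map_mul, ← map_mul, Subgroup.mem_centralizer_singleton_iff.1 (hS hs)]
    obtain ⟨a, ha⟩ := hVp ⟨f y, h1⟩
    have ha' : (f y) ^ (p ^ a) = 1 := by
      have := congrArg Subtype.val ha
      simpa using this
    have h2 : orderOf (f y) ∣ p ^ a := orderOf_dvd_of_pow_eq_one ha'
    have h3 : orderOf (f y) ∣ q ^ k := hk ▸ orderOf_map_dvd f y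
    have h4 : (p ^ a).Coprime (q ^ k) :=
      Nat.Coprime.pow _ _ ((Nat.coprime_primes hp hq).2 hpq)
    have h5 : orderOf (f y) = 1 := Nat.eq_one_of_dvd_coprimes h4 h2 h3
    exact (QuotientGroup.eq_one_iff _).1 (orderOf_eq_one_iff.1 h5)
  intro hdvd
  exact Q.not_dvd_index (hdvd.trans (Subgroup.index_dvd_of_le hQK))

end Cfsg.Agent.S4601
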