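import Cfsg.Statements.S4742
import Cfsg.Agent.Lib.Helper7.All1
import Cfsg.Agent.Lib.Helper7.CharDeg
import Cfsg.Agent.Lib.Helper7.CharGalois
-- import your own Cfsg.Agent.* helpers here

set_option autoImplicit false
open Cfsg
open Cfsg.Agent.Lib.Helper7.CharBasic Cfsg.Agent.Lib.Helper7.CharIrr Cfsg.Agent.Lib.Helper7.CharDecomp Cfsg.Agent.Lib.Helper7.CharComplete Cfsg.Agent.Lib.Helper7.CharOrth Cfsg.Agent.Lib.Helper7.CharInd Cfsg.Agent.Lib.Helper7.CharIntegral Cfsg.Agent.Lib.Helper7.CharBurnside Cfsg.Agent.Lib.Helper7.CharLinear Cfsg.Agent.Lib.Helper7.CharEquiv Cfsg.Agent.Lib.Helper7.CharMore Cfsg.Agent.Lib.Helper7.CharCount Cfsg.Agent.Lib.Helper7.CharMisc Cfsg.Agent.Lib.Helper7.CharMisc2 Cfsg.Agent.Lib.Helper7.CharNormal Cfsg.Agent.Lib.Helper7.CharOdd Cfsg.Agent.Lib.Helper7.CharClifford Cfsg.Agent.Lib.Helper7.CharProd Cfsg.Agent.Lib.Helper7.CharPerm Cfsg.Agent.Lib.Helper7.CharClassAlg Cfsg.Agent.Lib.Helper7.CharClassAlg2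 Cfsg.Agent.Lib.Helper7.CharCentral Cfsg.Agent.Lib.Helper7.CharNormal2 Cfsg.Agent.Lib.Helper7.CharCliffordCorr
open scoped ComplexConjugate

namespace Cfsg.Agent.S4742

/-- Let p ≠ q be primes dividing the order of the finite group G, and suppose the centralizer of every non-identity p-element of G has order prime to q. Then either G has an irreducible character of p-defect zero, or for every non-identity q-element z of G there are conjugates g, h of z such that g h⁻¹ is a non-identity p-element. -/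
theorem result {G : Type*} [Group G] [Finite G] (p q : ℕ) [Fact p.Prime] [Fact q.Prime] (hppq : p ≠ q) (hpG : p ∣ Nat.card G) (hqG : q ∣ Nat.card G) (hC : ∀ g : G, g ≠ 1 → (∃ k : ℕ, orderOf g = p ^ k) → ¬ q ∣ Nat.card ↥(Subgroup.centralizer ({g} : Set G))) : (∃ χ : Cfsg.IrrCharacter G, (Cfsg.charDegree (χ : G → ℂ)).factorization p = (Nat.card G).factorization p) ∨ ∀ z : G, z ≠ 1 → (∃ k : ℕ, orderOf z = q ^ k) → ∃ g h : G, IsConj z g ∧ IsConj z h ∧ g * h⁻¹ ≠ 1 ∧ ∃ k : ℕ, orderOf (g * h⁻¹) = p ^ k := by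
  classical
  haveI := Fintype.ofFinite G
  haveI := Fintype.ofFinite (Cfsg.IrrCharacter G)
  have hp : p.Prime := Fact.out
  have hq : q.Prime := Fact.out
  by_contra hcon0
  push Not at hcon0
  obtain ⟨hdef, x, hx1, ⟨kx, hkx⟩, hno⟩ := hcon0
  obtain ⟨P0⟩ : Nonempty (Sylow p G) := inferInstance
  obtain ⟨P, hPdef⟩ : ∃ P : Subgroup G, P = (P0 : Subgroup G) := ⟨_, rfl⟩
  haveI := Fintype.ofFinite P
  obtain ⟨e, he⟩ : ∃ e, e = (Nat.card G).factorization p := ⟨_, rfl⟩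
  have hP : Nat.card P = p ^ e := by rw [hPdef, he]; exact P0.card_eq_multiplicity
  have hN0 : Nat.card G ≠ 0 := Nat.card_pos.ne'
  have hcon : ∀ χ : Cfsg.IrrCharacter G, ¬ p ^ e ∣ Cfsg.charDegree (χ : G → ℂ) := by
    intro χ hd
    apply hdef χ
    have hd0 : Cfsg.charDegree (χ : G → ℂ) ≠ 0 :=
      (Cfsg.Agent.Lib.Helper7.CharDeg.charDegree_pos χ.2).ne'
    have hdN : Cfsg.charDegree (χ : G → ℂ) ∣ Nat.card G :=
      Cfsg.Agent.Lib.Helper7.CharDeg.charDegree_dvd_card χ.2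
    have h1 : e ≤ (Cfsg.charDegree (χ : G → ℂ)).factorization p :=
      (hp.pow_dvd_iff_le_factorization hd0).mp hd
    have h2 : (Cfsg.charDegree (χ : G → ℂ)).factorization p ≤ (Nat.card G).factorization p :=
      (Nat.factorization_le_iff_dvd hd0 hN0).mpr hdN p
    omega
  have he1 : 1 ≤ e := by rw [he]; exact (hp.dvd_iff_one_le_factorization hN0).mp hpG
  obtain ⟨m, hm⟩ : ∃ m, m = Nat.card G / p ^ (Nat.card G).factorization p := ⟨_, rfl⟩
  obtain ⟨L, hL⟩ : ∃ L, L = p ^ (e - 1) * m := ⟨_, rfl⟩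
  have hdL : ∀ χ : Cfsg.IrrCharacter G, Cfsg.charDegree (χ : G → ℂ) ∣ L := by
    intro χ
    have hd0 : Cfsg.charDegree (χ : G → ℂ) ≠ 0 :=
      (Cfsg.Agent.Lib.Helper7.CharDeg.charDegree_pos χ.2).ne'
    have hdN : Cfsg.charDegree (χ : G → ℂ) ∣ Nat.card G :=
      Cfsg.Agent.Lib.Helper7.CharDeg.charDegree_dvd_card χ.2
    have h1 : (Cfsg.charDegree (χ : G → ℂ)).factorization p < e := by
      by_contra h
      exact hcon χ ((hp.pow_dvd_iff_le_factorization hd0).mpr (not_lt.mp h))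
    rw [← Nat.ordProj_mul_ordCompl_eq_self (Cfsg.charDegree (χ : G → ℂ)) p, hL, hm]
    exact Nat.mul_dvd_mul (pow_dvd_pow p (by omega)) (Nat.ordCompl_dvd_ordCompl_of_dvd hdN p)
  obtain ⟨T, hTdef⟩ : ∃ T : G → ℂ, T = fun z => ∑ χ : Cfsg.IrrCharacter G,
      (χ : G → ℂ) x * (χ : G → ℂ) x⁻¹ * conj ((χ : G → ℂ) z) / (χ : G → ℂ) 1 := ⟨_, rfl⟩
  have hT0 : ∀ z ∈ P, z ≠ 1 → T z = 0 := by
    intro z hz hz1
    have h1 := class_mult_coeff x x⁻¹ z
    rw [finsum_eq_sum_of_fintype] at h1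
    have h2 : Nat.card {q : G × G // IsConj x q.1 ∧ IsConj x⁻¹ q.2 ∧ q.1 * q.2 = z} = 0 := by
      rw [Nat.card_eq_zero]
      left
      constructor
      rintro ⟨⟨g, h⟩, hg, hh, hgh⟩
      simp only at hg hh hgh
      obtain ⟨t, ht⟩ := isConj_iff.mp hh
      have hh' : IsConj x h⁻¹ := isConj_iff.mpr ⟨t, by rw [← ht]; group⟩
      rw [hPdef] at hz
      obtain ⟨k, hk⟩ := (IsPGroup.iff_orderOf.mp P0.2) ⟨z, hz⟩
      rw [Subgroup.orderOf_mk] at hk
      exact hno g h⁻¹ hg hh' (by rw [inv_inv, hgh]; exact hz1) k (by rw [inv_inv, hgh]; exact hk)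
    rw [h2] at h1
    have hK : (Nat.card {y : G // IsConj x y} : ℂ) ≠ 0 := by
      have : 0 < Nat.card {y : G // IsConj x y} := by
        haveI : Nonempty {y : G // IsConj x y} := ⟨⟨x, IsConj.refl x⟩⟩
        exact Nat.card_pos
      exact_mod_cast this.ne'
    have hK' : (Nat.card {y : G // IsConj x⁻¹ y} : ℂ) ≠ 0 := by
      have : 0 < Nat.card {y : G // IsConj x⁻¹ y} := by
        haveI : Nonempty {y : G // IsConj x⁻¹ y} := ⟨⟨x⁻¹, IsConj.refl x⁻¹⟩⟩
        exact Nat.card_pos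
      exact_mod_cast this.ne'
    have hNc : (Nat.card G : ℂ) ≠ 0 := by exact_mod_cast hN0
    simp only [Nat.cast_zero] at h1
    rcases mul_eq_zero.mp h1.symm with h4 | h4
    · exact absurd h4 (div_ne_zero (mul_ne_zero hK hK') hNc)
    · rw [hTdef]; exact h4
  have hdeg0 : ∀ χ : Cfsg.IrrCharacter G, (χ : G → ℂ) 1 ≠ 0 := by
    intro χ
    rw [← Cfsg.Agent.Lib.Helper7.CharDeg.charDegree_cast (IsIrrCharacter.isCharacter χ.2)]
    exact_mod_cast (Cfsg.Agent.Lib.Helper7.CharDeg.charDegree_pos χ.2).ne'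
  have hT1 : T 1 = (Nat.card (Subgroup.centralizer ({x} : Set G)) : ℂ) := by
    have h1 := col_orth x x
    rw [if_pos (IsConj.refl x)] at h1
    rw [← h1, hTdef]
    apply Finset.sum_congr rfl
    intro χ _
    have hc := IsIrrCharacter.isCharacter χ.2
    have h2 : (χ : G → ℂ) x⁻¹ = conj ((χ : G → ℂ) x) := by
      obtain ⟨n, ρ, hρ⟩ := hc
      rw [← hρ, char_inv]
    have h5 : conj ((χ : G → ℂ) 1) = (χ : G → ℂ) 1 := by
      rw [← Cfsg.Agent.Lib.Helper7.CharDeg.charDegree_cast hc, Complex.conj_natCast]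
    rw [h5, h2, mul_div_assoc, div_self (hdeg0 χ), mul_one]
  have hsum1 : ∑ z : P, T (z : G) = (Nat.card (Subgroup.centralizer ({x} : Set G)) : ℂ) := by
    rw [Finset.sum_eq_single (1 : P)]
    · simpa using hT1
    · intro z _ hz
      exact hT0 z z.2 (fun h => hz (Subtype.ext h))
    · intro h; exact absurd (Finset.mem_univ _) h
  have hPc : (Nat.card P : ℂ) ≠ 0 := by exact_mod_cast (Nat.card_pos (α := P)).ne'
  have hn : ∀ χ : Cfsg.IrrCharacter G, ∃ n : ℕ,
      ∑ z : P, conj ((χ : G → ℂ) (z : G)) = (Nat.card P : ℂ) * n := by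
    intro χ
    have h1 : IsCharacter P (fun z : P => (χ : G → ℂ) (z : G)) :=
      isCharacter_restrict P (IsIrrCharacter.isCharacter χ.2)
    have h2 : IsCharacter P (fun z : P => (((1 : P →* ℂˣ) z : ℂˣ) : ℂ)) :=
      IsIrrCharacter.isCharacter (isIrrCharacter_of_hom 1)
    obtain ⟨n, hn⟩ := classInner_isCharacter_nat h2 h1
    refine ⟨n, ?_⟩
    rw [← hn]
    unfold Cfsg.classInner
    rw [← mul_assoc, mul_inv_cancel₀ hPc, one_mul]
    apply Finset.sum_congr rfl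
    intro z _
    simp
  choose n hn using hn
  choose k hk using hdL
  have hsum2 : ∑ z : P, T (z : G) = (Nat.card P : ℂ) * ∑ χ : Cfsg.IrrCharacter G,
      (χ : G → ℂ) x * (χ : G → ℂ) x⁻¹ * (n χ : ℂ) / (χ : G → ℂ) 1 := by
    rw [hTdef]
    simp only
    rw [Finset.sum_comm, Finset.mul_sum]
    apply Finset.sum_congr rfl
    intro χ _
    have h0 : ∀ z : P, (χ : G → ℂ) x * (χ : G → ℂ) x⁻¹ * conj ((χ : G → ℂ) (z : G)) / (χ : G → ℂ) 1
        = ((χ : G → ℂ) x * (χ : G → ℂ) x⁻¹ / (χ : G → ℂ) 1) * conj ((χ : G → ℂ) (z : G)) := by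
      intro z; ring
    simp only [h0]
    rw [← Finset.mul_sum, hn χ]
    ring
  have hint : IsIntegral ℤ (((L * Nat.card (Subgroup.centralizer ({x} : Set G)) : ℕ) : ℂ) /
      ((Nat.card P : ℕ) : ℂ)) := by
    have h4 : (((L * Nat.card (Subgroup.centralizer ({x} : Set G)) : ℕ) : ℂ) / ((Nat.card P : ℕ) : ℂ))
        = ∑ χ : Cfsg.IrrCharacter G, (χ : G → ℂ) x * (χ : G → ℂ) x⁻¹ * ((n χ * k χ : ℕ) : ℂ) := by
      push_cast
      rw [← hsum1, hsum2, mul_comm (Nat.card P : ℂ), ← mul_assoc, mul_div_assoc, div_self hPc,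
        mul_one, Finset.mul_sum]
      apply Finset.sum_congr rfl
      intro χ _
      have hc := IsIrrCharacter.isCharacter χ.2
      have h5 := hdeg0 χ
      have h6 : (L : ℂ) = (χ : G → ℂ) 1 * (k χ : ℂ) := by
        rw [← Cfsg.Agent.Lib.Helper7.CharDeg.charDegree_cast hc]; exact_mod_cast hk χ
      rw [h6]
      field_simp
    rw [h4]
    apply IsIntegral.sum
    intro χ _
    have h7 := Cfsg.Agent.Lib.Helper7.CharGalois.isIntegral_of_isCharacter
      (IsIrrCharacter.isCharacter χ.2) x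
    have h7' := Cfsg.Agent.Lib.Helper7.CharGalois.isIntegral_of_isCharacter
      (IsIrrCharacter.isCharacter χ.2) x⁻¹
    exact (h7.mul h7').mul (isIntegral_natCast _)
  have hdvd := nat_dvd_of_isIntegral_div (Nat.card_pos (α := P)).ne' hint
  have hpw : p ^ e = p ^ (e - 1) * p := by
    rw [← pow_succ]; congr 1; omega
  rw [hP, hL, hpw, mul_assoc] at hdvd
  have h8 := Nat.dvd_of_mul_dvd_mul_left (pow_pos hp.pos _) hdvd
  have h9 : Nat.Coprime p m := by
    rw [hm]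
    exact (Nat.Prime.coprime_iff_not_dvd hp).mpr (Nat.not_dvd_ordCompl hp hN0)
  have h10 := h9.dvd_of_dvd_mul_left h8
  obtain ⟨y, hy⟩ := exists_prime_orderOf_dvd_card' (G := Subgroup.centralizer ({x} : Set G)) p h10
  have hy1 : (y : G) ≠ 1 := by
    intro h
    have h0 : orderOf (y : G) = 1 := by rw [h, orderOf_one]
    rw [Subgroup.orderOf_coe, hy] at h0
    exact hp.one_lt.ne' h0
  apply hC (y : G) hy1 ⟨1, by rw [Subgroup.orderOf_coe, hy, pow_one]⟩
  have hxy : x ∈ Subgroup.centralizer ({(y : G)} : Set G) := by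
    rw [Subgroup.mem_centralizer_iff]
    intro w hw
    rw [Set.mem_singleton_iff.mp hw]
    exact ((Subgroup.mem_centralizer_iff.mp y.2) x (Set.mem_singleton x)).symm
  have h11 : orderOf x ∣ Nat.card (Subgroup.centralizer ({(y : G)} : Set G)) := by
    have h12 := orderOf_dvd_natCard (⟨x, hxy⟩ : Subgroup.centralizer ({(y : G)} : Set G))
    rwa [Subgroup.orderOf_mk] at h12
  have hk0 : kx ≠ 0 := by
    rintro rfl
    rw [pow_zero, orderOf_eq_one_iff] at hkx
    exact hx1 hkx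
  rw [hkx] at h11
  exact (dvd_pow_self q hk0).trans h11

end Cfsg.Agent.S4742
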