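import Cfsg.Statements.S4755
import Cfsg.Agent.Lib.Helper7.All1
-- import your own Cfsg.Agent.* helpers here

set_option autoImplicit false
open Cfsg
open Cfsg.Agent.Lib.Helper7.CharBasic Cfsg.Agent.Lib.Helper7.CharIrr Cfsg.Agent.Lib.Helper7.CharDecomp Cfsg.Agent.Lib.Helper7.CharComplete Cfsg.Agent.Lib.Helper7.CharOrth Cfsg.Agent.Lib.Helper7.CharInd Cfsg.Agent.Lib.Helper7.CharIntegral Cfsg.Agent.Lib.Helper7.CharBurnside Cfsg.Agent.Lib.Helper7.CharLinear Cfsg.Agent.Lib.Helper7.CharEquiv Cfsg.Agent.Lib.Helper7.CharMore Cfsg.Agent.Lib.Helper7.CharCount Cfsg.Agent.Lib.Helper7.CharMisc Cfsg.Agent.Lib.Helper7.CharMisc2 Cfsg.Agent.Lib.Helper7.CharNormal Cfsg.Agent.Lib.Helper7.CharOdd Cfsg.Agent.Lib.Helper7.CharClifford Cfsg.Agent.Lib.Helper7.CharProd Cfsg.Agent.Lib.Helper7.CharPerm Cfsg.Agent.Lib.Helper7.CharClassAlg Cfsg.Agent.Lib.Helper7.CharClassAlg2 Cfsg.Agent.Lib.Helper7.CharCentral Cfsg.Agent.Lib.Helper7.CharNormal2 Cfsg.Agent.Lib.Helper7.CharCliffordCorr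
open scoped ComplexConjugate

namespace Cfsg.Agent.S4755

/-- Let x, y be non-identity elements of the finite group G such that χ(x' y') = χ(x') χ(y') for all conjugates x' of x, y' of y and every irreducible character χ. Then the conjugacy class of x y is the set of all products of a conjugate of x with a conjugate of y; every irreducible character of degree greater than 1 vanishes at x y; and the conjugacy class of x y is the coset of the commutator subgroup containing x y. -/
theorem result {G : Type*} [Group G] [Finite G] (x y : G) (hx : x ≠ 1) (hy : y ≠ 1) (h : ∀ (a b : G) (χ : Cfsg.IrrCharacter G), (χ : G → ℂ) (a * x * a⁻¹ * (b * y * b⁻¹)) = (χ : G → ℂ) (a * x * a⁻¹) * (χ : G → ℂ) (b * y * b⁻¹)) : (∀ z : G, IsConj (x * y) z ↔ ∃ a b : G, z = a * x * a⁻¹ * (b * y * b⁻¹)) ∧ (∀ χ : Cfsg.IrrCharacter G, (χ : G → ℂ) 1 ≠ 1 → (χ : G → ℂ) (x * y) = 0) ∧ (∀ z : G, IsConj (x * y) z ↔ (x * y)⁻¹ * z ∈ commutator G) := by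
  classical
  haveI := Fintype.ofFinite G
  haveI := Fintype.ofFinite (IrrCharacter G)
  have hcl : ∀ χ : IrrCharacter G, IsClassFunction G (χ : G → ℂ) :=
    fun χ => IsIrrCharacter.isClassFunction χ.2
  have hval : ∀ (a b : G) (χ : IrrCharacter G),
      (χ : G → ℂ) (a * x * a⁻¹ * (b * y * b⁻¹)) = (χ : G → ℂ) (x * y) := by
    intro a b χ
    have h1 := h a b χ
    have h2 := h 1 1 χ
    simp only [one_mul, inv_one, mul_one] at h2
    rw [h1, h2, hcl χ, hcl χ]
  have hA : ∀ z : G, IsConj (x * y) z ↔ ∃ a b : G, z = a * x * a⁻¹ * (b * y * b⁻¹) := by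
    intro z
    constructor
    · intro hz
      obtain ⟨c, hc⟩ := isConj_iff.mp hz
      exact ⟨c, c, by rw [← hc]; group⟩
    · rintro ⟨a, b, rfl⟩
      rw [isConj_iff_irr]
      intro χ
      exact (hval a b χ).symm
  have hB : ∀ χ : IrrCharacter G, (χ : G → ℂ) 1 ≠ 1 → (χ : G → ℂ) (x * y) = 0 := by
    intro χ hχ1
    have h1 : (χ : G → ℂ) x * (χ : G → ℂ) y = (χ : G → ℂ) 1 * (χ : G → ℂ) (x * y) := by
      refine irr_mul_of_const χ x y ?_
      intro x' y' hx' hy'
      obtain ⟨c, hc⟩ := isConj_iff.mp hx'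
      obtain ⟨d, hd⟩ := isConj_iff.mp hy'
      rw [← hc, ← hd]
      exact hval c d χ
    have h2 := h 1 1 χ
    simp only [one_mul, inv_one, mul_one] at h2
    rw [← h2] at h1
    have h3 : ((χ : G → ℂ) 1 - 1) * (χ : G → ℂ) (x * y) = 0 := by linear_combination -h1
    exact (mul_eq_zero.mp h3).resolve_left (sub_ne_zero.mpr hχ1)
  refine ⟨hA, hB, ?_⟩
  set w := x * y with hw
  have hcent : (Nat.card (Subgroup.centralizer {w}) : ℂ) = ((commutator G).index : ℂ) := by
    have h1 := col_orth w w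
    rw [if_pos (IsConj.refl w)] at h1
    rw [← h1, ← card_linear, Nat.card_eq_fintype_card, Fintype.card_subtype, Finset.card_filter]
    push_cast
    apply Finset.sum_congr rfl
    intro χ _
    split_ifs with h1
    · obtain ⟨l, hl⟩ := exists_hom_of_irr_of_one (IsIrrCharacter.isCharacter χ.2) h1
      rw [← irr_inv (IsIrrCharacter.isCharacter χ.2), hl]
      simp only
      rw [← Units.val_mul, ← map_mul, mul_inv_cancel, map_one, Units.val_one]
    · rw [hB χ h1, zero_mul]
  have hcent' : Nat.card (Subgroup.centralizer {w}) = (commutator G).index := by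
    exact_mod_cast hcent
  have hsub : {z | IsConj w z} ⊆ {z | w⁻¹ * z ∈ commutator G} := by
    intro z hz
    obtain ⟨c, hc⟩ := isConj_iff.mp hz
    simp only [Set.mem_ofPred_eq]
    rw [← hc]
    have h5 := Subgroup.commutator_mem_commutator (Subgroup.mem_top w⁻¹) (Subgroup.mem_top c)
    rw [commutatorElement_def] at h5
    have : w⁻¹ * (c * w * c⁻¹) = w⁻¹ * c * w⁻¹⁻¹ * c⁻¹ := by group
    rw [this]
    exact h5
  have hcard2 : Set.ncard {z | w⁻¹ * z ∈ commutator G} = Nat.card (commutator G) := by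
    have : {z | w⁻¹ * z ∈ commutator G} = (fun u => w * u) '' (commutator G : Set G) := by
      ext z
      simp only [Set.mem_ofPred_eq, Set.mem_image, SetLike.mem_coe]
      constructor
      · intro hz; exact ⟨w⁻¹ * z, hz, by group⟩
      · rintro ⟨u, hu, rfl⟩; simpa using hu
    rw [this, Set.ncard_image_of_injective _ (mul_right_injective w)]
    rfl
  have hcard1 : Set.ncard {z | IsConj w z} = Nat.card (commutator G) := by
    rw [← index_centralizer_eq_ncard]
    have h1 := Subgroup.card_mul_index (Subgroup.centralizer {w})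
    have h2 := Subgroup.card_mul_index (commutator G)
    rw [hcent'] at h1
    have h3 : (commutator G).index ≠ 0 := Subgroup.index_ne_zero_of_finite
    have h4 : (commutator G).index * (Subgroup.centralizer {w}).index =
        (commutator G).index * Nat.card (commutator G) := by rw [h1, ← h2, mul_comm]
    exact Nat.eq_of_mul_eq_mul_left (Nat.pos_of_ne_zero h3) h4
  have heq := Set.eq_of_subset_of_ncard_le hsub (by rw [hcard1, hcard2]) (Set.toFinite _)
  intro z
  have := Set.ext_iff.mp heq z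
  simpa only [Set.mem_ofPred_eq] using this

end Cfsg.Agent.S4755
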