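import Cfsg.Statements.S4784
import Cfsg.Agent.Lib.Helper7.All1
import Cfsg.Agent.Lib.Helper7.CharFS
import Cfsg.Agent.Lib.Helper7.CharKer
import Cfsg.Agent.Lib.Helper7.CharFS2
-- import your own Cfsg.Agent.* helpers here

set_option autoImplicit false
open Cfsg
open Cfsg.Agent.Lib.Helper7.CharBasic Cfsg.Agent.Lib.Helper7.CharIrr Cfsg.Agent.Lib.Helper7.CharDecomp Cfsg.Agent.Lib.Helper7.CharComplete Cfsg.Agent.Lib.Helper7.CharOrth Cfsg.Agent.Lib.Helper7.CharInd Cfsg.Agent.Lib.Helper7.CharIntegral Cfsg.Agent.Lib.Helper7.CharBurnside Cfsg.Agent.Lib.Helper7.CharLinear Cfsg.Agent.Lib.Helper7.CharEquiv Cfsg.Agent.Lib.Helper7.CharMore Cfsg.Agent.Lib.Helper7.CharCount Cfsg.Agent.Lib.Helper7.CharMisc Cfsg.Agent.Lib.Helper7.CharMisc2 Cfsg.Agent.Lib.Helper7.CharNormal Cfsg.Agent.Lib.Helper7.CharOdd Cfsg.Agent.Lib.Helper7.CharClifford Cfsg.Agent.Lib.Helper7.CharProd Cfsg.Agent.Lib.Helper7.CharPerm Cfsg.Agent.Lib.Helper7.CharClassAlg Cfsg.Agent.Lib.Helper7.CharClassAlg2 Cfsg.Agent.Lib.Helper7.CharCentral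 Cfsg.Agent.Lib.Helper7.CharNormal2 Cfsg.Agent.Lib.Helper7.CharCliffordCorr Cfsg.Agent.Lib.Helper7.CharFS Cfsg.Agent.Lib.Helper7.CharKer Cfsg.Agent.Lib.Helper7.CharFS2
open scoped ComplexConjugate

namespace Cfsg.Agent.S4784

/-- Let H be a subgroup of the finite group G and consider the permutation character of G on the cosets of H (the function induced from the principal character of H). Then exactly one irreducible constituent of it is real-valued with Frobenius–Schur indicator +1 (namely the principal character) if and only if the normal core of H has odd index in G. -/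
theorem result {G : Type*} [Group G] [Fintype G] (H : Subgroup G) : Nat.card {χ : Cfsg.IrrCharacter G // Cfsg.classInner (Cfsg.indFun H (fun _ : H => (1 : ℂ))) (χ : G → ℂ) ≠ 0 ∧ (∀ g : G, (starRingEnd ℂ) ((χ : G → ℂ) g) = (χ : G → ℂ) g) ∧ (Nat.card G : ℂ)⁻¹ * ∑ g : G, (χ : G → ℂ) (g * g) = 1} = 1 ↔ Odd H.normalCore.index := by
  classical
  haveI : Fintype (IrrCharacter G) := Fintype.ofFinite _
  haveI : Fintype H := Fintype.ofFinite _
  set π := indFun H (fun _ : H => (1 : ℂ)) with hπ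
  have hπc : IsCharacter G π := isCharacter_indFun H _ isCharacter_one
  let χ₀ : IrrCharacter G := ⟨fun _ => 1, isIrrCharacter_one⟩
  have hG := card_ne_zero (G := G)
  have hν0 : (Nat.card G : ℂ)⁻¹ * ∑ g : G, (χ₀ : G → ℂ) (g * g) = 1 := by
    simp only [χ₀, Finset.sum_const, Finset.card_univ, nsmul_eq_mul, mul_one,
      ← Nat.card_eq_fintype_card]
    field_simp
  have hπ0 : classInner π (χ₀ : G → ℂ) = 1 := by
    rw [hπ, frobenius_reciprocity H _ _ (IsIrrCharacter.isClassFunction χ₀.2)]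
    exact (isIrrCharacter_iff_norm_one.mp (isIrrCharacter_one (G := H))).2
  have hmem0 : classInner π (χ₀ : G → ℂ) ≠ 0 ∧
      (∀ g : G, (starRingEnd ℂ) ((χ₀ : G → ℂ) g) = (χ₀ : G → ℂ) g) ∧
      (Nat.card G : ℂ)⁻¹ * ∑ g : G, (χ₀ : G → ℂ) (g * g) = 1 := by
    refine ⟨by rw [hπ0]; exact one_ne_zero, fun g => by simp [χ₀], hν0⟩
  constructor
  · intro hcard
    -- uniqueness
    have huniq : ∀ χ : IrrCharacter G, (classInner π (χ : G → ℂ) ≠ 0 ∧
      (∀ g : G, (starRingEnd ℂ) ((χ : G → ℂ) g) = (χ : G → ℂ) g) ∧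
      (Nat.card G : ℂ)⁻¹ * ∑ g : G, (χ : G → ℂ) (g * g) = 1) → χ = χ₀ := by
      intro χ hχ
      obtain ⟨a, ha⟩ := Nat.card_eq_one_iff_exists.mp hcard
      have h1 := ha ⟨χ, hχ⟩
      have h2 := ha ⟨χ₀, hmem0⟩
      exact congrArg Subtype.val (h1.trans h2.symm)
    have hsum := avg_sq_eq_sum (IsCharacter.isClassFunction hπc)
    rw [hπ, avg_sq_indFun_one, ← hπ] at hsum
    have hle : ∀ χ : IrrCharacter G, (classInner π (χ : G → ℂ) *
        ((Nat.card G : ℂ)⁻¹ * ∑ x : G, (χ : G → ℂ) (x * x))).re ≤ if χ = χ₀ then 1 else 0 := by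
      intro χ
      by_cases hc : χ = χ₀
      · rw [if_pos hc, hc, hπ0, hν0]; simp
      · rw [if_neg hc]
        obtain ⟨m, hm⟩ := classInner_isCharacter_nat hπc (IsIrrCharacter.isCharacter χ.2)
        have ht := fs_trichotomy χ.2
        rw [hm]
        by_cases hm0 : m = 0
        · rw [hm0]; simp
        rcases ht.1 with h | h | h
        · rw [h]; simp
        · exfalso
          apply hc
          apply huniq
          refine ⟨by rw [hm]; exact_mod_cast hm0, ?_, h⟩
          by_contra hr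
          rw [ht.2.mpr hr] at h
          exact zero_ne_one h
        · rw [h]; simp
    have hre := congrArg Complex.re hsum
    rw [Complex.re_sum] at hre
    have hle2 : ((Nat.card H : ℂ)⁻¹ * (Nat.card {x : G // x * x ∈ H} : ℂ)).re ≤ 1 := by
      rw [hre]
      calc _ ≤ ∑ χ : IrrCharacter G, (if χ = χ₀ then (1 : ℝ) else 0) :=
            Finset.sum_le_sum (fun χ _ => hle χ)
        _ = 1 := by simp
    have hHpos : (0 : ℝ) < Nat.card H := by exact_mod_cast Nat.card_pos
    have hle3 : Nat.card {x : G // x * x ∈ H} ≤ Nat.card H := by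
      have h1 : ((Nat.card H : ℂ)⁻¹ * (Nat.card {x : G // x * x ∈ H} : ℂ)).re =
          (Nat.card H : ℝ)⁻¹ * (Nat.card {x : G // x * x ∈ H} : ℝ) := by
        have : ((Nat.card H : ℂ)⁻¹ * (Nat.card {x : G // x * x ∈ H} : ℂ)) =
            (((Nat.card H : ℝ)⁻¹ * (Nat.card {x : G // x * x ∈ H} : ℝ) : ℝ) : ℂ) := by
          push_cast; rfl
        rw [this, Complex.ofReal_re]
      rw [h1, inv_mul_le_iff₀ hHpos, mul_one] at hle2
      exact_mod_cast hle2
    have hsq : ∀ x : G, x * x ∈ H → x ∈ H := by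
      rw [Nat.card_eq_fintype_card, Nat.card_eq_fintype_card, Fintype.card_subtype] at hle3
      have h2 : Fintype.card H = (Finset.univ.filter (fun x : G => x ∈ H)).card := by
        rw [← Fintype.card_subtype]
      rw [h2] at hle3
      have h3 : Finset.univ.filter (fun x : G => x ∈ H) ⊆
          Finset.univ.filter (fun x : G => x * x ∈ H) := by
        intro x hx
        simp only [Finset.mem_filter, Finset.mem_univ, true_and] at hx ⊢
        exact H.mul_mem hx hx
      have h4 := Finset.eq_of_subset_of_card_le h3 hle3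
      intro x hx
      have : x ∈ Finset.univ.filter (fun x : G => x * x ∈ H) := by simp [hx]
      rw [← h4] at this
      simpa using this
    by_contra hodd
    rw [Nat.not_odd_iff_even] at hodd
    haveI : Fact (Nat.Prime 2) := ⟨Nat.prime_two⟩
    obtain ⟨q, hq⟩ := exists_prime_orderOf_dvd_card' (G := G ⧸ H.normalCore) 2 hodd.two_dvd
    obtain ⟨x, rfl⟩ := QuotientGroup.mk_surjective q
    rw [orderOf_eq_prime_iff] at hq
    have hx1 : x ∉ H.normalCore := by
      intro h
      exact hq.2 ((QuotientGroup.eq_one_iff x).mpr h)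
    have hx2 : x * x ∈ H.normalCore := by
      rw [← QuotientGroup.eq_one_iff, QuotientGroup.mk_mul, ← pow_two]
      exact hq.1
    have hx3 : ∃ b : G, b * x * b⁻¹ ∉ H := by
      by_contra hcon
      push Not at hcon
      exact hx1 hcon
    obtain ⟨b, hb⟩ := hx3
    apply hb
    apply hsq
    have : b * x * b⁻¹ * (b * x * b⁻¹) = b * (x * x) * b⁻¹ := by group
    rw [this]
    exact hx2 b
  · intro hodd
    rw [Nat.card_eq_one_iff_exists]
    refine ⟨⟨χ₀, hmem0⟩, ?_⟩
    rintro ⟨χ, hχ⟩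
    apply Subtype.ext
    apply Subtype.ext
    show (χ : G → ℂ) = fun _ => 1
    have hker := ker_of_constituent_perm H H.normalCore (Subgroup.normalCore_le H) χ.2 hχ.1
    obtain ⟨φ, hφ, hφχ⟩ := exists_quot_of_irr H.normalCore χ.2 hker
    have hreal : ∀ q : G ⧸ H.normalCore, (φ q).im = 0 := by
      intro q
      obtain ⟨x, rfl⟩ := QuotientGroup.mk_surjective q
      have h1 := hχ.2.1 x
      rw [hφχ] at h1
      exact Complex.conj_eq_iff_im.mp h1
    have h2 := real_irr_of_odd (G := G ⧸ H.normalCore) hodd ⟨φ, hφ⟩ hreal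
    rw [hφχ]
    funext g
    exact congrFun h2 _

end Cfsg.Agent.S4784
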