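import Cfsg.Statements.S4797
import Cfsg.Agent.Lib.Helper7.All1
import Cfsg.Agent.Lib.Helper7.PerfQ
import Cfsg.Agent.Lib.Helper7.CharKer
import Cfsg.Agent.Lib.Helper7.CharDeg
-- import your own Cfsg.Agent.* helpers here

set_option autoImplicit false
open Cfsg
open Cfsg.Agent.Lib.Helper7.CharBasic Cfsg.Agent.Lib.Helper7.CharIrr Cfsg.Agent.Lib.Helper7.CharDecomp Cfsg.Agent.Lib.Helper7.CharComplete Cfsg.Agent.Lib.Helper7.CharOrth Cfsg.Agent.Lib.Helper7.CharInd Cfsg.Agent.Lib.Helper7.CharIntegral Cfsg.Agent.Lib.Helper7.CharBurnside Cfsg.Agent.Lib.Helper7.CharLinear Cfsg.Agent.Lib.Helper7.CharEquiv Cfsg.Agent.Lib.Helper7.CharMore Cfsg.Agent.Lib.Helper7.CharCount Cfsg.Agent.Lib.Helper7.CharMisc Cfsg.Agent.Lib.Helper7.CharMisc2 Cfsg.Agent.Lib.Helper7.CharNormal Cfsg.Agent.Lib.Helper7.CharOdd Cfsg.Agent.Lib.Helper7.CharClifford Cfsg.Agent.Lib.Helper7.CharProd Cfsg.Agent.Lib.Helper7.CharPerm Cfsg.Agent.Lib.Helper7.CharClassAlg Cfsg.Agent.Lib.Helper7.CharClassAlg2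 Cfsg.Agent.Lib.Helper7.CharCentral Cfsg.Agent.Lib.Helper7.CharNormal2 Cfsg.Agent.Lib.Helper7.CharCliffordCorr
open scoped ComplexConjugate

namespace Cfsg.Agent.S4797

/-- The codegree of an irreducible complex character χ of a finite group G is [G : ker χ] / χ(1), where ker χ is the set of elements at which χ takes the value χ(1). A non-trivial finite group is perfect if and only if no irreducible complex character of it has prime codegree. -/
theorem result {G : Type*} [Group G] [Finite G] [Nontrivial G] : commutator G = ⊤ ↔ ∀ χ : Cfsg.IrrCharacter G, ¬ ((Nat.card G / (Nat.card {g : G // (χ : G → ℂ) g = (χ : G → ℂ) 1} * Cfsg.charDegree (χ : G → ℂ)))).Prime := by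
  classical
  constructor
  · intro hperf χ hprime
    have hχ := χ.2
    have hc : IsCharacter G (χ : G → ℂ) := IsIrrCharacter.isCharacter hχ
    set K := Cfsg.Agent.Lib.Helper7.CharKer.charKer (χ : G → ℂ) hc with hK
    obtain ⟨φ, hφ, hφχ⟩ := Cfsg.Agent.Lib.Helper7.CharKer.exists_quot_of_irr K hχ (fun n hn => hn)
    set n := Cfsg.charDegree (χ : G → ℂ) with hn
    have hnφ : Cfsg.charDegree φ = n := by
      have h0 : (χ : G → ℂ) 1 = φ 1 := congrFun hφχ 1
      rw [hn]; unfold Cfsg.charDegree; rw [h0]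
    have hn0 : 0 < n := Cfsg.Agent.Lib.Helper7.CharDeg.charDegree_pos hχ
    have hdvd : n ∣ Nat.card (G ⧸ K) := hnφ ▸ Cfsg.Agent.Lib.Helper7.CharDeg.charDegree_dvd_card hφ
    have hKc : Nat.card {g : G // (χ : G → ℂ) g = (χ : G → ℂ) 1} = Nat.card K := rfl
    rw [hKc] at hprime
    have hG : Nat.card G = Nat.card K * Nat.card (G ⧸ K) := by
      rw [Subgroup.card_eq_card_quotient_mul_card_subgroup K, mul_comm]
    rw [hG, Nat.mul_div_mul_left _ _ Nat.card_pos] at hprime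
    obtain ⟨q, hq⟩ := hdvd
    rw [hq, Nat.mul_div_cancel_left _ hn0] at hprime
    refine Cfsg.Agent.Lib.Helper7.PerfQ.not_perfect_aux hprime hn0 ?_ (by rw [hq, mul_comm])
      (Cfsg.Agent.Lib.Helper7.PerfQ.commutator_quot_top K hperf)
    haveI := Fintype.ofFinite (G ⧸ K)
    have h1 := (isIrrCharacter_iff_norm_one.mp hφ).2
    unfold Cfsg.classInner at h1
    have h2 : (Nat.card (G ⧸ K) : ℂ) ≠ 0 := by
      exact_mod_cast (Nat.card_pos (α := G ⧸ K)).ne'
    have h3 : ∑ g : G ⧸ K, φ g * conj (φ g) = (Nat.card (G ⧸ K) : ℂ) := by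
      field_simp at h1
      exact h1
    have h4 : ∀ g : G ⧸ K, φ g * conj (φ g) = ((‖φ g‖ ^ 2 : ℝ) : ℂ) := by
      intro g
      rw [Complex.mul_conj, Complex.normSq_eq_norm_sq]
    simp only [h4] at h3
    have h5 : ∑ g : G ⧸ K, ‖φ g‖ ^ 2 = (Nat.card (G ⧸ K) : ℝ) := by
      exact_mod_cast h3
    have h6 : ‖φ 1‖ ^ 2 ≤ ∑ g : G ⧸ K, ‖φ g‖ ^ 2 :=
      Finset.single_le_sum (f := fun g : G ⧸ K => ‖φ g‖ ^ 2) (fun g _ => by positivity)
        (Finset.mem_univ 1)
    have h7 : φ 1 = (n : ℂ) := by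
      rw [← hnφ]
      exact (Cfsg.Agent.Lib.Helper7.CharDeg.charDegree_cast (IsIrrCharacter.isCharacter hφ)).symm
    rw [h7, h5, Complex.norm_natCast] at h6
    have h8 : ((n * n : ℕ) : ℝ) ≤ (Nat.card (G ⧸ K) : ℝ) := by
      push_cast
      nlinarith
    exact_mod_cast h8
  · intro h
    by_contra hne
    have h1 : (commutator G).index ≠ 1 := by rwa [Ne, Subgroup.index_eq_one]
    have h2 : ∃ l : G →* ℂˣ, l ≠ 1 := by
      by_contra hcon
      push Not at hcon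
      apply h1
      rw [← card_linear]
      rw [Nat.card_eq_one_iff_unique]
      refine ⟨⟨?_⟩, ⟨⟨⟨fun g => (((1 : G →* ℂˣ) g : ℂˣ) : ℂ), isIrrCharacter_of_hom 1⟩, by simp⟩⟩⟩
      intro a b
      obtain ⟨la, hla⟩ := exists_hom_of_irr_of_one (IsIrrCharacter.isCharacter a.1.2) a.2
      obtain ⟨lb, hlb⟩ := exists_hom_of_irr_of_one (IsIrrCharacter.isCharacter b.1.2) b.2
      apply Subtype.ext
      apply Subtype.ext
      rw [hla, hlb, hcon la, hcon lb]
    obtain ⟨l, hl⟩ := h2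
    obtain ⟨l', hl'⟩ := Cfsg.Agent.Lib.Helper7.PerfQ.exists_prime_index l hl
    apply h ⟨fun g => ((l' g : ℂˣ) : ℂ), isIrrCharacter_of_hom l'⟩
    have h3 : Cfsg.charDegree (fun g => ((l' g : ℂˣ) : ℂ)) = 1 :=
      Cfsg.Agent.Lib.Helper7.CharDeg.charDegree_of_eq (by simp)
    have h4 : Nat.card {g : G // (fun g => ((l' g : ℂˣ) : ℂ)) g = (fun g => ((l' g : ℂˣ) : ℂ)) 1}
        = Nat.card l'.ker := by
      apply Nat.card_congr
      refine Equiv.subtypeEquivRight ?_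
      intro g
      simp [MonoidHom.mem_ker]
    show (Nat.card G / (Nat.card {g : G // (fun g => ((l' g : ℂˣ) : ℂ)) g = (fun g => ((l' g : ℂˣ) : ℂ)) 1} * Cfsg.charDegree (fun g => ((l' g : ℂˣ) : ℂ)))).Prime
    rw [h3, h4, mul_one, ← l'.ker.card_mul_index, Nat.mul_div_cancel_left _ Nat.card_pos]
    exact hl'

end Cfsg.Agent.S4797
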