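import Cfsg.Statements.S4798
import Cfsg.Agent.Lib.Helper7.All1
import Cfsg.Agent.Lib.Helper7.CharDeg
-- import your own Cfsg.Agent.* helpers here

set_option autoImplicit false
open Cfsg
open Cfsg.Agent.Lib.Helper7.CharBasic Cfsg.Agent.Lib.Helper7.CharIrr Cfsg.Agent.Lib.Helper7.CharDecomp Cfsg.Agent.Lib.Helper7.CharComplete Cfsg.Agent.Lib.Helper7.CharOrth Cfsg.Agent.Lib.Helper7.CharInd Cfsg.Agent.Lib.Helper7.CharIntegral Cfsg.Agent.Lib.Helper7.CharBurnside Cfsg.Agent.Lib.Helper7.CharLinear Cfsg.Agent.Lib.Helper7.CharEquiv Cfsg.Agent.Lib.Helper7.CharMore Cfsg.Agent.Lib.Helper7.CharCount Cfsg.Agent.Lib.Helper7.CharMisc Cfsg.Agent.Lib.Helper7.CharMisc2 Cfsg.Agent.Lib.Helper7.CharNormal Cfsg.Agent.Lib.Helper7.CharOdd Cfsg.Agent.Lib.Helper7.CharClifford Cfsg.Agent.Lib.Helper7.CharProd Cfsg.Agent.Lib.Helper7.CharPerm Cfsg.Agent.Lib.Helper7.CharClassAlg Cfsg.Agent.Lib.Helper7.CharClassAlg2 Cfsg.Agent.Lib.Helper7.CharCentral Cfsg.Agent.Lib.Helper7.CharNormal2 Cfsg.Agent.Lib.Helper7.CharCliffordCorr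 Cfsg.Agent.Lib.Helper7.CharDeg
open scoped ComplexConjugate

namespace Cfsg.Agent.S4798

/-- Let p be a prime and χ a faithful irreducible complex character of the finite group G (χ(g) = χ(1) only for g = 1), so that its codegree is #G / χ(1). Then #G / χ(1) is a power of p if and only if χ is induced from a character of a Sylow p-subgroup of G. -/
theorem result {G : Type*} [Group G] [Fintype G] (p : ℕ) [Fact p.Prime] (χ : Cfsg.IrrCharacter G) (hfaith : ∀ g : G, (χ : G → ℂ) g = (χ : G → ℂ) 1 → g = 1) : (∃ k : ℕ, Nat.card G = p ^ k * Cfsg.charDegree (χ : G → ℂ)) ↔ ∃ (P : Sylow p G) (θ : ↥(P : Subgroup G) → ℂ), Cfsg.IsCharacter ↥(P : Subgroup G) θ ∧ (χ : G → ℂ) = Cfsg.indFun (P : Subgroup G) θ := by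
  classical
  have hp : p.Prime := Fact.out
  set d := charDegree (χ : G → ℂ) with hd
  have hdC : (d : ℂ) = (χ : G → ℂ) 1 := charDegree_cast (IsIrrCharacter.isCharacter χ.2)
  have hdpos : 0 < d := charDegree_pos χ.2
  have hddvd : d ∣ Nat.card G := charDegree_dvd_card χ.2
  constructor
  · rintro ⟨k, hk⟩
    obtain ⟨P⟩ : Nonempty (Sylow p G) := inferInstance
    haveI : Fintype (P : Subgroup G) := Fintype.ofFinite _
    haveI : Fintype (IrrCharacter (P : Subgroup G)) := Fintype.ofFinite _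
    obtain ⟨a, ha⟩ := (IsPGroup.iff_card).mp P.2
    have hidx := Subgroup.card_mul_index (P : Subgroup G)
    have hnp := P.not_dvd_index
    set n := (P : Subgroup G).index with hn
    have hka : k ≤ a := by
      have h1 : p ^ k ∣ p ^ a * n := by rw [← ha, hidx, hk]; exact Dvd.intro _ rfl
      have h2 : p ^ k ∣ p ^ a :=
        (Nat.Coprime.pow_left k ((Nat.Prime.coprime_iff_not_dvd hp).mpr hnp)).dvd_of_dvd_mul_right h1
      exact (Nat.pow_dvd_pow_iff_le_right hp.one_lt).mp h2
    have hdv : d = p ^ (a - k) * n := by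
      have h1 : p ^ k * d = p ^ k * (p ^ (a - k) * n) := by
        rw [← hk, ← mul_assoc, ← pow_add, Nat.add_sub_cancel' hka, ← ha, hidx]
      exact Nat.eq_of_mul_eq_mul_left (pow_pos hp.pos _) h1
    obtain ⟨m, hm, hsum⟩ := exists_mult (isCharacter_restrict (P : Subgroup G)
      (IsIrrCharacter.isCharacter χ.2))
    have hdeg : ∀ θ : IrrCharacter (P : Subgroup G), ∃ j : ℕ, θ.1 1 = ((p ^ j : ℕ) : ℂ) := by
      intro θ
      have h1 := charDegree_dvd_card θ.2
      rw [ha] at h1
      obtain ⟨j, -, hj⟩ := (Nat.dvd_prime_pow hp).mp h1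
      exact ⟨j, by rw [← hj, charDegree_cast (IsIrrCharacter.isCharacter θ.2)]⟩
    choose j hj using hdeg
    have hex : ∃ θ : IrrCharacter (P : Subgroup G), m θ ≠ 0 ∧ j θ ≤ a - k := by
      by_contra hcon
      push Not at hcon
      have h1 := congrFun hsum 1
      simp only [Finset.sum_apply, Pi.smul_apply, smul_eq_mul, hj, Subgroup.coe_one, ← hdC] at h1
      have h2 : d = ∑ θ : IrrCharacter (P : Subgroup G), m θ * p ^ j θ := by exact_mod_cast h1
      have h3 : p ^ (a - k + 1) ∣ d := by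
        rw [h2]
        apply Finset.dvd_sum
        intro θ _
        by_cases hm0 : m θ = 0
        · rw [hm0, zero_mul]; exact dvd_zero _
        · exact Dvd.dvd.mul_left (pow_dvd_pow p (hcon θ hm0)) _
      rw [hdv, pow_succ] at h3
      exact hnp (Nat.dvd_of_mul_dvd_mul_left (pow_pos hp.pos _) h3)
    obtain ⟨θ, hmθ, hjθ⟩ := hex
    refine ⟨P, θ, IsIrrCharacter.isCharacter θ.2, ?_⟩
    have hind := isCharacter_indFun (P : Subgroup G) θ (IsIrrCharacter.isCharacter θ.2)
    have hc : classInner (indFun (P : Subgroup G) θ) (χ : G → ℂ) ≠ 0 := by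
      rw [frobenius_reciprocity _ _ _ (IsIrrCharacter.isClassFunction χ.2), ← classInner_conj_symm,
        hm θ]
      simpa using hmθ
    have hsub := isCharacter_sub_of_constituent hind χ.2 hc
    obtain ⟨r, hr⟩ := irr_one_eq_natCast hsub
    have h4 : (n : ℂ) * ((p ^ j θ : ℕ) : ℂ) - (d : ℂ) = r := by
      rw [← hr, Pi.sub_apply, indFun_one, hj, hdC]
    have h5 : n * p ^ j θ = d + r := by
      have : ((n * p ^ j θ : ℕ) : ℂ) = ((d + r : ℕ) : ℂ) := by
        push_cast
        push_cast at h4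
        linear_combination h4
      exact_mod_cast this
    have h6 : n * p ^ j θ ≤ d := by
      rw [hdv, mul_comm]
      exact Nat.mul_le_mul_right _ (Nat.pow_le_pow_right hp.pos hjθ)
    have hr0 : r = 0 := by omega
    rw [hr0] at hr
    have hz := eq_zero_of_isCharacter_of_degree_zero hsub (by simpa using hr)
    exact (sub_eq_zero.mp hz).symm
  · rintro ⟨P, θ, hθ, hind⟩
    obtain ⟨a, ha⟩ := (IsPGroup.iff_card).mp P.2
    have hidx := Subgroup.card_mul_index (P : Subgroup G)
    obtain ⟨t, ht⟩ := irr_one_eq_natCast hθ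
    have h1 : d = (P : Subgroup G).index * t := by
      have : (d : ℂ) = (((P : Subgroup G).index * t : ℕ) : ℂ) := by
        rw [hdC, hind, indFun_one, ht]; push_cast; rfl
      exact_mod_cast this
    have hipos : 0 < (P : Subgroup G).index := Nat.pos_of_ne_zero Subgroup.index_ne_zero_of_finite
    have h2 : t ∣ p ^ a := by
      rw [h1, ← hidx, ha, mul_comm (p ^ a)] at hddvd
      exact Nat.dvd_of_mul_dvd_mul_left hipos hddvd
    obtain ⟨j, hja, hj⟩ := (Nat.dvd_prime_pow hp).mp h2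
    refine ⟨a - j, ?_⟩
    rw [h1, hj, ← hidx, ha]
    calc p ^ a * (P : Subgroup G).index = p ^ (a - j + j) * (P : Subgroup G).index := by
          rw [Nat.sub_add_cancel hja]
      _ = p ^ (a - j) * ((P : Subgroup G).index * p ^ j) := by rw [pow_add]; ring

end Cfsg.Agent.S4798
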