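import Cfsg.Statements.S4802
import Cfsg.Agent.Lib.Helper7.All1
import Cfsg.Agent.Lib.Helper7.CharKer
-- import your own Cfsg.Agent.* helpers here

set_option autoImplicit false
open Cfsg
open Cfsg.Agent.Lib.Helper7.CharBasic Cfsg.Agent.Lib.Helper7.CharIrr Cfsg.Agent.Lib.Helper7.CharDecomp Cfsg.Agent.Lib.Helper7.CharComplete Cfsg.Agent.Lib.Helper7.CharOrth Cfsg.Agent.Lib.Helper7.CharInd Cfsg.Agent.Lib.Helper7.CharIntegral Cfsg.Agent.Lib.Helper7.CharBurnside Cfsg.Agent.Lib.Helper7.CharLinear Cfsg.Agent.Lib.Helper7.CharEquiv Cfsg.Agent.Lib.Helper7.CharMore Cfsg.Agent.Lib.Helper7.CharCount Cfsg.Agent.Lib.Helper7.CharMisc Cfsg.Agent.Lib.Helper7.CharMisc2 Cfsg.Agent.Lib.Helper7.CharNormal Cfsg.Agent.Lib.Helper7.CharOdd Cfsg.Agent.Lib.Helper7.CharClifford Cfsg.Agent.Lib.Helper7.CharProd Cfsg.Agent.Lib.Helper7.CharPerm Cfsg.Agent.Lib.Helper7.CharClassAlg Cfsg.Agent.Lib.Helper7.CharClassAlg2 Cfsg.Agent.Lib.Helper7.CharCentral Cfsg.Agent.Lib.Helper7.CharNormal2 Cfsg.Agent.Lib.Helper7.CharCliffordCorr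 Cfsg.Agent.Lib.Helper7.CharKer
open scoped ComplexConjugate

namespace Cfsg.Agent.S4802

/-- Let N < M be normal subgroups of the finite group G and g ∈ M ∖ N. Then the conjugacy class of g is exactly M ∖ N if and only if every irreducible complex character of G whose kernel contains N takes the same value at all elements of M ∖ N, and every irreducible complex character of G whose kernel does not contain N vanishes at g. -/
theorem result {G : Type*} [Group G] [Finite G] (N M : Subgroup G) [N.Normal] [M.Normal] (hNM : N < M) (g : G) (hgM : g ∈ M) (hgN : g ∉ N) : {h : G | IsConj g h} = (M : Set G) \ (N : Set G) ↔ ((∀ χ : Cfsg.IrrCharacter G, (∀ x ∈ N, (χ : G → ℂ) x = (χ : G → ℂ) 1) → ∀ x ∈ M, x ∉ N → ∀ y ∈ M, y ∉ N → (χ : G → ℂ) x = (χ : G → ℂ) y) ∧ (∀ χ : Cfsg.IrrCharacter G, (∃ x ∈ N, (χ : G → ℂ) x ≠ (χ : G → ℂ) 1) → (χ : G → ℂ) g = 0)) := by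
  classical
  haveI := Fintype.ofFinite G
  haveI := Fintype.ofFinite (IrrCharacter G)
  haveI := Fintype.ofFinite N
  constructor
  · intro H
    have hconj : ∀ x ∈ M, x ∉ N → IsConj g x := by
      intro x hx hxN
      have : x ∈ (M : Set G) \ (N : Set G) := ⟨hx, hxN⟩
      rw [← H] at this
      exact this
    constructor
    · intro χ _ x hx hxN y hy hyN
      have hcl := IsIrrCharacter.isClassFunction χ.2
      rw [← IsClassFunction.eq_of_isConj hcl (hconj x hx hxN),
        ← IsClassFunction.eq_of_isConj hcl (hconj y hy hyN)]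
    · intro χ hker
      have hcl := IsIrrCharacter.isClassFunction χ.2
      have h1 := sum_coset_eq_zero N χ.2 hker g
      have h2 : ∀ n : N, (χ : G → ℂ) (n * g) = (χ : G → ℂ) g := by
        intro n
        refine (IsClassFunction.eq_of_isConj hcl (hconj _ ?_ ?_)).symm
        · exact M.mul_mem (hNM.le n.2) hgM
        · intro h
          exact hgN ((Subgroup.mul_mem_cancel_left N n.2).mp h)
      simp only [h2, Finset.sum_const, Finset.card_univ, nsmul_eq_mul] at h1
      have h3 : (Fintype.card N : ℂ) ≠ 0 := by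
        exact_mod_cast Fintype.card_ne_zero
      exact (mul_eq_zero.mp h1).resolve_left h3
  · rintro ⟨Ha, Hb⟩
    apply Set.Subset.antisymm
    · intro h hh
      obtain ⟨c, rfl⟩ := isConj_iff.mp hh
      refine ⟨‹M.Normal›.conj_mem g hgM c, ?_⟩
      intro h1
      apply hgN
      have := ‹N.Normal›.conj_mem _ h1 c⁻¹
      simpa [mul_assoc] using this
    · rintro h ⟨hhM, hhN⟩
      have h1 := col_orth g h
      have h2 := col_orth g g
      rw [if_pos (IsConj.refl g)] at h2
      have h3 : ∑ χ : IrrCharacter G, (χ : G → ℂ) g * conj ((χ : G → ℂ) h) =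
          ∑ χ : IrrCharacter G, (χ : G → ℂ) g * conj ((χ : G → ℂ) g) := by
        apply Finset.sum_congr rfl
        intro χ _
        by_cases hk : ∀ x ∈ N, (χ : G → ℂ) x = (χ : G → ℂ) 1
        · rw [Ha χ hk h hhM hhN g hgM hgN]
        · push Not at hk
          rw [Hb χ hk, zero_mul, zero_mul]
      rw [h3, h2] at h1
      by_contra hcon
      have hcon' : ¬ IsConj g h := hcon
      rw [if_neg hcon'] at h1
      have : (Nat.card (Subgroup.centralizer {g}) : ℂ) ≠ 0 := by
        exact_mod_cast Nat.card_pos.ne'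
      exact this h1

end Cfsg.Agent.S4802
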