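import Cfsg.Statements.S4808
import Cfsg.Agent.Lib.Helper7.All1
import Cfsg.Agent.Lib.Helper7.Brauer11
import Cfsg.Agent.Lib.Helper7.CharCod
import Cfsg.Agent.Lib.Helper7.CharKer
import Cfsg.Agent.Lib.Helper7.CharDeg
-- import your own Cfsg.Agent.* helpers here

set_option autoImplicit false
open Cfsg
open Cfsg.Agent.Lib.Helper7.CharBasic Cfsg.Agent.Lib.Helper7.CharIrr Cfsg.Agent.Lib.Helper7.CharDecomp Cfsg.Agent.Lib.Helper7.CharComplete Cfsg.Agent.Lib.Helper7.CharOrth Cfsg.Agent.Lib.Helper7.CharInd Cfsg.Agent.Lib.Helper7.CharIntegral Cfsg.Agent.Lib.Helper7.CharBurnside Cfsg.Agent.Lib.Helper7.CharLinear Cfsg.Agent.Lib.Helper7.CharEquiv Cfsg.Agent.Lib.Helper7.CharMore Cfsg.Agent.Lib.Helper7.CharCount Cfsg.Agent.Lib.Helper7.CharMisc Cfsg.Agent.Lib.Helper7.CharMisc2 Cfsg.Agent.Lib.Helper7.CharNormal Cfsg.Agent.Lib.Helper7.CharOdd Cfsg.Agent.Lib.Helper7.CharClifford Cfsg.Agent.Lib.Helper7.CharProd Cfsg.Agent.Lib.Helper7.CharPerm Cfsg.Agent.Lib.Helper7.CharClassAlg Cfsg.Agent.Lib.Helper7.CharClassAlg2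 Cfsg.Agent.Lib.Helper7.CharCentral Cfsg.Agent.Lib.Helper7.CharNormal2 Cfsg.Agent.Lib.Helper7.CharCliffordCorr Cfsg.Agent.Lib.Helper7.Brauer11 Cfsg.Agent.Lib.Helper7.CharCod Cfsg.Agent.Lib.Helper7.CharKer Cfsg.Agent.Lib.Helper7.CharDeg
open scoped ComplexConjugate

namespace Cfsg.Agent.S4808

/-- The codegree of an irreducible complex character χ of a finite group G is [G : ker χ] / χ(1), where ker χ is the set of elements at which χ takes the value χ(1). A prime divides the order of G if and only if it divides the codegree of some irreducible complex character of G. -/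
theorem result {G : Type*} [Group G] [Finite G] (p : ℕ) (hp : p.Prime) : p ∣ Nat.card G ↔ ∃ χ : Cfsg.IrrCharacter G, p ∣ (Nat.card G / (Nat.card {g : G // (χ : G → ℂ) g = (χ : G → ℂ) 1} * Cfsg.charDegree (χ : G → ℂ))) := by
  classical
  haveI := Fintype.ofFinite G
  haveI : Fintype (IrrCharacter G) := Fintype.ofFinite _
  constructor
  · intro hpG
    by_contra hcon
    push Not at hcon
    haveI : Fact p.Prime := ⟨hp⟩
    obtain ⟨g, hg⟩ := exists_prime_orderOf_dvd_card' (G := G) p hpG
    have hg1 : g ≠ 1 := by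
      rintro rfl
      rw [orderOf_one] at hg
      exact hp.one_lt.ne hg
    have hval : ∀ χ : IrrCharacter G, (χ : G → ℂ) g = (χ : G → ℂ) 1 ∨ (χ : G → ℂ) g = 0 := by
      intro χ
      by_cases hk : (χ : G → ℂ) g = (χ : G → ℂ) 1
      · exact Or.inl hk
      · right
        obtain ⟨φ, hφ, hφχ, -⟩ := exists_faithful_quot χ.2
        haveI : Fintype (G ⧸ charKer (χ : G → ℂ) (IsIrrCharacter.isCharacter χ.2)) :=
          Fintype.ofFinite _
        have h1 := hcon χ
        rw [cod_eq χ.2] at h1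
        have hdeg : φ 1 = (charDegree (χ : G → ℂ) : ℕ) := by
          rw [charDegree_cast (IsIrrCharacter.isCharacter χ.2)]
          exact (congrFun hφχ 1).symm
        have hcop : Nat.Coprime (Nat.card (G ⧸ charKer (χ : G → ℂ)
            (IsIrrCharacter.isCharacter χ.2)) / charDegree (χ : G → ℂ)) p :=
          ((Nat.Prime.coprime_iff_not_dvd hp).mpr h1).symm
        have hord : p ∣ orderOf (g : G ⧸ charKer (χ : G → ℂ) (IsIrrCharacter.isCharacter χ.2)) := by
          have h2 : orderOf (g : G ⧸ charKer (χ : G → ℂ) (IsIrrCharacter.isCharacter χ.2)) = p := by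
            rw [orderOf_eq_prime_iff]
            refine ⟨?_, ?_⟩
            · rw [← QuotientGroup.mk_pow, ← hg, pow_orderOf_eq_one]; rfl
            · intro h3
              exact hk ((QuotientGroup.eq_one_iff g).mp h3)
          rw [h2]
        have h4 := defect_zero_vanish p hp hφ hdeg hcop _ hord
        rw [congrFun hφχ g]
        exact h4
    have hsum := delta_eq_sum g
    rw [if_neg hg1] at hsum
    let χ₀ : IrrCharacter G := ⟨fun _ => 1, isIrrCharacter_one⟩
    have hre := congrArg Complex.re hsum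
    rw [Complex.re_sum] at hre
    have hnn : ∀ χ : IrrCharacter G, 0 ≤ ((χ : G → ℂ) 1 * (χ : G → ℂ) g).re := by
      intro χ
      obtain ⟨n, -, hn⟩ := irr_one_pos χ.2
      rcases hval χ with h | h
      · rw [h, hn]
        have : ((n : ℂ) * (n : ℂ)).re = (n : ℝ) * n := by simp
        rw [this]; positivity
      · rw [h]; simp
    have hpos : 0 < ∑ χ : IrrCharacter G, ((χ : G → ℂ) 1 * (χ : G → ℂ) g).re := by
      apply Finset.sum_pos' (fun χ _ => hnn χ)
      exact ⟨χ₀, Finset.mem_univ _, by simp [χ₀]⟩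
    rw [← hre] at hpos
    simp at hpos
  · rintro ⟨χ, hχ⟩
    exact hχ.trans (Dvd.intro _ (cod_mul χ.2))

end Cfsg.Agent.S4808
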