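import Cfsg.Statements.S4814
import Cfsg.Agent.Lib.Helper7.All1
import Cfsg.Agent.Lib.Helper7.CharComm
-- import your own Cfsg.Agent.* helpers here

set_option autoImplicit false
open Cfsg
open Cfsg.Agent.Lib.Helper7.CharBasic Cfsg.Agent.Lib.Helper7.CharIrr Cfsg.Agent.Lib.Helper7.CharDecomp Cfsg.Agent.Lib.Helper7.CharComplete Cfsg.Agent.Lib.Helper7.CharOrth Cfsg.Agent.Lib.Helper7.CharInd Cfsg.Agent.Lib.Helper7.CharIntegral Cfsg.Agent.Lib.Helper7.CharBurnside Cfsg.Agent.Lib.Helper7.CharLinear Cfsg.Agent.Lib.Helper7.CharEquiv Cfsg.Agent.Lib.Helper7.CharMore Cfsg.Agent.Lib.Helper7.CharCount Cfsg.Agent.Lib.Helper7.CharMisc Cfsg.Agent.Lib.Helper7.CharMisc2 Cfsg.Agent.Lib.Helper7.CharNormal Cfsg.Agent.Lib.Helper7.CharOdd Cfsg.Agent.Lib.Helper7.CharClifford Cfsg.Agent.Lib.Helper7.CharProd Cfsg.Agent.Lib.Helper7.CharPerm Cfsg.Agent.Lib.Helper7.CharClassAlg Cfsg.Agent.Lib.Helper7.CharClassAlg2 Cfsg.Agent.Lib.Helper7.CharCentral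 Cfsg.Agent.Lib.Helper7.CharNormal2 Cfsg.Agent.Lib.Helper7.CharCliffordCorr Cfsg.Agent.Lib.Helper7.CharComm
open scoped ComplexConjugate

namespace Cfsg.Agent.S4814

/-- Let G be a finite group such that the sum, over the irreducible complex characters χ of G, of 1/χ(1)² is less than 2. Then every element of G is a product of two commutators. -/
theorem result {G : Type*} [Group G] [Finite G]
    (h : ∑ᶠ χ : Cfsg.IrrCharacter G, 1 / ‖(χ : G → ℂ) 1‖ ^ 2 < (2 : ℝ)) (g : G) :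
    ∃ a b c d : G, (a * b * a⁻¹ * b⁻¹) * (c * d * c⁻¹ * d⁻¹) = g := by
  classical
  haveI := Fintype.ofFinite G
  haveI := Fintype.ofFinite (IrrCharacter G)
  rw [finsum_eq_sum_of_fintype] at h
  have hG := card_ne_zero (G := G)
  by_contra hcon
  push Not at hcon
  have key := comm_count2 g
  have h0 : ∑ d : G, ∑ c : G, ∑ b : G, ∑ a : G,
      (if (a * b * a⁻¹ * b⁻¹) * (c * d * c⁻¹ * d⁻¹) = g then (1 : ℂ) else 0) = 0 := by
    apply Finset.sum_eq_zero; intro d _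
    apply Finset.sum_eq_zero; intro c _
    apply Finset.sum_eq_zero; intro b _
    apply Finset.sum_eq_zero; intro a _
    rw [if_neg (hcon a b c d)]
  rw [h0] at key
  have hS : ∑ χ : IrrCharacter G, (χ : G → ℂ) g⁻¹ / (χ : G → ℂ) 1 ^ 3 = 0 :=
    (mul_eq_zero.mp key.symm).resolve_left (pow_ne_zero _ hG)
  set T : IrrCharacter G := ⟨fun _ => 1, isIrrCharacter_one⟩ with hT
  rw [← Finset.add_sum_erase _ _ (Finset.mem_univ T)] at hS h
  have hT1 : (T : G → ℂ) g⁻¹ / (T : G → ℂ) 1 ^ 3 = 1 := by simp [hT]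
  have hT2 : 1 / ‖(T : G → ℂ) 1‖ ^ 2 = 1 := by simp [hT]
  rw [hT1] at hS
  rw [hT2] at h
  have hb : ‖∑ χ ∈ Finset.univ.erase T, (χ : G → ℂ) g⁻¹ / (χ : G → ℂ) 1 ^ 3‖ ≤
      ∑ χ ∈ Finset.univ.erase T, 1 / ‖(χ : G → ℂ) 1‖ ^ 2 := by
    refine (norm_sum_le _ _).trans (Finset.sum_le_sum ?_)
    intro χ _
    obtain ⟨n, hn0, hn⟩ := irr_one_pos χ.2
    have h1 := norm_le_degree (IsIrrCharacter.isCharacter χ.2) g⁻¹
    rw [hn] at h1 ⊢
    simp only [Complex.natCast_re] at h1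
    rw [norm_div, norm_pow, Complex.norm_natCast]
    have hn' : (0 : ℝ) < n := by exact_mod_cast hn0
    rw [div_le_div_iff₀ (by positivity) (by positivity)]
    nlinarith [pow_pos hn' 2]
  have h2 : ∑ χ ∈ Finset.univ.erase T, (χ : G → ℂ) g⁻¹ / (χ : G → ℂ) 1 ^ 3 = -1 := by
    linear_combination hS
  rw [h2, norm_neg, norm_one] at hb
  linarith

end Cfsg.Agent.S4814
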