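import Cfsg.Statements.S4837
import Cfsg.Agent.Lib.Helper7.All1
import Cfsg.Agent.Lib.Helper7.Gagola2
-- import your own Cfsg.Agent.* helpers here

set_option autoImplicit false
open Cfsg
open Cfsg.Agent.Lib.Helper7.CharBasic Cfsg.Agent.Lib.Helper7.CharIrr Cfsg.Agent.Lib.Helper7.CharDecomp Cfsg.Agent.Lib.Helper7.CharComplete Cfsg.Agent.Lib.Helper7.CharOrth Cfsg.Agent.Lib.Helper7.CharInd Cfsg.Agent.Lib.Helper7.CharIntegral Cfsg.Agent.Lib.Helper7.CharBurnside Cfsg.Agent.Lib.Helper7.CharLinear Cfsg.Agent.Lib.Helper7.CharEquiv Cfsg.Agent.Lib.Helper7.CharMore Cfsg.Agent.Lib.Helper7.CharCount Cfsg.Agent.Lib.Helper7.CharMisc Cfsg.Agent.Lib.Helper7.CharMisc2 Cfsg.Agent.Lib.Helper7.CharNormal Cfsg.Agent.Lib.Helper7.CharOdd Cfsg.Agent.Lib.Helper7.CharClifford Cfsg.Agent.Lib.Helper7.CharProd Cfsg.Agent.Lib.Helper7.CharPerm Cfsg.Agent.Lib.Helper7.CharClassAlg Cfsg.Agent.Lib.Helper7.CharClassAlg2 Cfsg.Agent.Lib.Helper7.CharCentral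 Cfsg.Agent.Lib.Helper7.CharNormal2 Cfsg.Agent.Lib.Helper7.CharCliffordCorr Cfsg.Agent.Lib.Helper7.Gagola1 Cfsg.Agent.Lib.Helper7.Gagola2 Cfsg.Agent.Lib.Helper7.OpRes1
open scoped ComplexConjugate

namespace Cfsg.Agent.S4837

/-- Let G be a finite group of order greater than 2 with an irreducible character χ nonzero on exactly two conjugacy classes, and let N be the set of elements where χ is nonzero, given as a nontrivial normal p-subgroup of G for the prime p. Then for every nonidentity x in N the centralizer C_G(x) is a Sylow p-subgroup of G, and for every irreducible character λ ≠ 1 of N the stabilizer of λ in G (its inertia group) is a Sylow p-subgroup of G. -/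
theorem result {G : Type*} [Group G] [Finite G] (hG : 2 < Nat.card G) (χ : Cfsg.IrrCharacter G) (hχ : Nat.card {C : ConjClasses G // ∃ g ∈ C.carrier, (χ : G → ℂ) g ≠ 0} = 2) (p : ℕ) [Fact p.Prime] (N : Subgroup G) [N.Normal] (hN : ∀ g : G, g ∈ N ↔ (χ : G → ℂ) g ≠ 0) (hNp : IsPGroup p N) (hN1 : N ≠ ⊥) :
    (∀ x ∈ N, x ≠ 1 → ∃ P : Sylow p G, Subgroup.centralizer ({x} : Set G) = P) ∧
      (∀ μ : Cfsg.IrrCharacter N, (μ : N → ℂ) ≠ (fun _ => (1 : ℂ)) → ∃ P : Sylow p G, ∀ g : G, g ∈ (P : Subgroup G) ↔ ∀ n n' : N, (n' : G) = g * n * g⁻¹ → (μ : N → ℂ) n' = (μ : N → ℂ) n) := by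
  classical
  haveI := Fintype.ofFinite G
  obtain ⟨x, h⟩ := exists_twoClass χ hχ
  obtain rfl : N = Cfsg.Agent.Lib.Helper7.Gagola1.TwoClass.N χ.1 := by
    ext g; rw [hN, h.mem_N_iff hG]
  refine ⟨fun y hy hy1 => Cfsg.Agent.Lib.Helper7.Gagola2.TwoClass.exists_sylow_centralizer
    (Cfsg.Agent.Lib.Helper7.Gagola2.TwoClass.of_mem h hG hy hy1) hG hNp, fun μ hμ => ?_⟩
  obtain ⟨P, hP⟩ := Cfsg.Agent.Lib.Helper7.Gagola2.TwoClass.exists_sylow_stabilizer h hG hNp μ hμ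
  refine ⟨P, fun g => ?_⟩
  letI := irrAction (Cfsg.Agent.Lib.Helper7.Gagola1.TwoClass.N χ.1)
  rw [← hP, MulAction.mem_stabilizer_iff, irrAction_smul_eq_iff]
  constructor
  · intro h1 n n' hn'
    rw [← h1 n]
    exact congrArg μ.1 (Subtype.ext hn')
  · intro h1 n
    exact h1 n _ rfl

end Cfsg.Agent.S4837
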