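import Cfsg.Statements.S4856
import Cfsg.Agent.Lib.Helper7.All1
import Cfsg.Agent.Lib.Helper7.CharComm
-- import your own Cfsg.Agent.* helpers here

set_option autoImplicit false
open Cfsg
open Cfsg.Agent.Lib.Helper7.CharBasic Cfsg.Agent.Lib.Helper7.CharIrr Cfsg.Agent.Lib.Helper7.CharDecomp Cfsg.Agent.Lib.Helper7.CharComplete Cfsg.Agent.Lib.Helper7.CharOrth Cfsg.Agent.Lib.Helper7.CharInd Cfsg.Agent.Lib.Helper7.CharIntegral Cfsg.Agent.Lib.Helper7.CharBurnside Cfsg.Agent.Lib.Helper7.CharLinear Cfsg.Agent.Lib.Helper7.CharEquiv Cfsg.Agent.Lib.Helper7.CharMore Cfsg.Agent.Lib.Helper7.CharCount Cfsg.Agent.Lib.Helper7.CharMisc Cfsg.Agent.Lib.Helper7.CharMisc2 Cfsg.Agent.Lib.Helper7.CharNormal Cfsg.Agent.Lib.Helper7.CharOdd Cfsg.Agent.Lib.Helper7.CharClifford Cfsg.Agent.Lib.Helper7.CharProd Cfsg.Agent.Lib.Helper7.CharPerm Cfsg.Agent.Lib.Helper7.CharClassAlg Cfsg.Agent.Lib.Helper7.CharClassAlg2 Cfsg.Agent.Lib.Helper7.CharCentral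 Cfsg.Agent.Lib.Helper7.CharNormal2 Cfsg.Agent.Lib.Helper7.CharCliffordCorr Cfsg.Agent.Lib.Helper7.CharComm
open scoped ComplexConjugate

namespace Cfsg.Agent.S4856

/-- For an element z of a finite group G, the number of pairs (x, y) of elements with x y x⁻¹ y⁻¹ = z equals the order of G times the sum over the irreducible characters χ of χ(z)/χ(1). -/
theorem result {G : Type*} [Group G] [Finite G] (z : G) : (Nat.card {xy : G × G // xy.1 * xy.2 * xy.1⁻¹ * xy.2⁻¹ = z} : ℂ) = (Nat.card G : ℂ) * ∑ᶠ χ : Cfsg.IrrCharacter G, (χ : G → ℂ) z / (χ : G → ℂ) 1 := by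
  classical
  haveI := Fintype.ofFinite G
  haveI := Fintype.ofFinite (IrrCharacter G)
  rw [finsum_eq_sum_of_fintype]
  have hG := card_ne_zero (G := G)
  have key := comm_count z
  have hcount : (Nat.card {xy : G × G // xy.1 * xy.2 * xy.1⁻¹ * xy.2⁻¹ = z} : ℂ) =
      ∑ b : G, ∑ a : G, (if a * b * a⁻¹ * b⁻¹ = z then (1:ℂ) else 0) := by
    rw [Nat.card_eq_fintype_card, Fintype.card_subtype, Finset.card_filter]
    push_cast
    rw [Fintype.sum_prod_type_right]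
  have hS : conj (∑ χ : IrrCharacter G, (χ : G → ℂ) z⁻¹ / (χ : G → ℂ) 1) =
      ∑ χ : IrrCharacter G, (χ : G → ℂ) z / (χ : G → ℂ) 1 := by
    rw [map_sum]
    apply Finset.sum_congr rfl
    intro χ _
    obtain ⟨n, hn⟩ := irr_one_eq_natCast (IsIrrCharacter.isCharacter χ.2)
    rw [map_div₀, irr_inv (IsIrrCharacter.isCharacter χ.2), Complex.conj_conj, hn, map_natCast]
  have hR : conj (∑ χ : IrrCharacter G, (χ : G → ℂ) z⁻¹ / (χ : G → ℂ) 1) =
      ∑ χ : IrrCharacter G, (χ : G → ℂ) z⁻¹ / (χ : G → ℂ) 1 := by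
    have h1 : ∑ χ : IrrCharacter G, (χ : G → ℂ) z⁻¹ / (χ : G → ℂ) 1 =
        (Nat.card {xy : G × G // xy.1 * xy.2 * xy.1⁻¹ * xy.2⁻¹ = z} : ℂ) / (Nat.card G : ℂ) := by
      rw [hcount, key]; field_simp
    rw [h1, map_div₀, map_natCast, map_natCast]
  rw [hcount, key, ← hS, hR]

end Cfsg.Agent.S4856
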