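import Cfsg.Statements.S4989
import Cfsg.Agent.Lib.Helper7.All1
import Cfsg.Agent.Lib.Helper7.CharZeros
-- import your own Cfsg.Agent.* helpers here

set_option autoImplicit false
open Cfsg
open Cfsg.Agent.Lib.Helper7.CharBasic Cfsg.Agent.Lib.Helper7.CharIrr Cfsg.Agent.Lib.Helper7.CharDecomp Cfsg.Agent.Lib.Helper7.CharComplete Cfsg.Agent.Lib.Helper7.CharOrth Cfsg.Agent.Lib.Helper7.CharInd Cfsg.Agent.Lib.Helper7.CharIntegral Cfsg.Agent.Lib.Helper7.CharBurnside Cfsg.Agent.Lib.Helper7.CharLinear Cfsg.Agent.Lib.Helper7.CharEquiv Cfsg.Agent.Lib.Helper7.CharMore Cfsg.Agent.Lib.Helper7.CharCount Cfsg.Agent.Lib.Helper7.CharMisc Cfsg.Agent.Lib.Helper7.CharMisc2 Cfsg.Agent.Lib.Helper7.CharNormal Cfsg.Agent.Lib.Helper7.CharOdd Cfsg.Agent.Lib.Helper7.CharClifford Cfsg.Agent.Lib.Helper7.CharProd Cfsg.Agent.Lib.Helper7.CharPerm Cfsg.Agent.Lib.Helper7.CharClassAlg Cfsg.Agent.Lib.Helper7.CharClassAlg2 Cfsg.Agent.Lib.Helper7.CharCentral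 Cfsg.Agent.Lib.Helper7.CharNormal2 Cfsg.Agent.Lib.Helper7.CharCliffordCorr Cfsg.Agent.Lib.Helper7.CharKer Cfsg.Agent.Lib.Helper7.CharRes Cfsg.Agent.Lib.Helper7.CharGen Cfsg.Agent.Lib.Helper7.GalC Cfsg.Agent.Lib.Helper7.CharGalois Cfsg.Agent.Lib.Helper7.CharZeros
open scoped ComplexConjugate

namespace Cfsg.Agent.S4989

/-- Let H be a subgroup of the finite group G and χ an irreducible complex character of G. Then the inner product of the restriction of χ to H with itself, (1/#H)·Σ_{h ∈ H} |χ(h)|², is at most 1 + #(Z ∖ H)/#H, where Z is the set of zeros of χ in G. -/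
theorem result {G : Type*} [Group G] [Finite G] (H : Subgroup G) (χ : Cfsg.IrrCharacter G) : (Nat.card ↥H : ℝ)⁻¹ * ∑ᶠ h : ↥H, ‖(χ : G → ℂ) h‖ ^ 2 ≤ 1 + (Set.ncard ({x : G | (χ : G → ℂ) x = 0} \ (H : Set G)) : ℝ) / (Nat.card ↥H : ℝ) := by
  classical
  haveI := Fintype.ofFinite G
  haveI := Fintype.ofFinite H
  rw [finsum_eq_sum_of_fintype]
  have hχ : IsCharacter G (χ : G → ℂ) := IsIrrCharacter.isCharacter χ.2
  have hnorm : ∑ g : G, ‖(χ : G → ℂ) g‖ ^ 2 = (Nat.card G : ℝ) := by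
    have h1 := (isIrrCharacter_iff_norm_one.mp χ.2).2
    rw [classInner_self_eq] at h1
    have h2 : (Nat.card G : ℝ)⁻¹ * ∑ g : G, ‖(χ : G → ℂ) g‖ ^ 2 = 1 := by exact_mod_cast h1
    have h3 : (Nat.card G : ℝ) ≠ 0 := by exact_mod_cast Nat.card_pos.ne'
    field_simp at h2
    exact h2
  have key := card_nonzero_le_sum hχ (fun g => g ∉ H) (by
    intro g k hk
    apply not_congr
    constructor
    · intro h
      have h1 : g = (powCoprime hk.symm).symm (g ^ k) := by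
        rw [Equiv.eq_symm_apply]; rfl
      rw [h1]
      exact H.zpow_mem h _
    · intro h; exact H.pow_mem h k)
  have hH : (0 : ℝ) < Nat.card H := by exact_mod_cast Nat.card_pos
  have hA : ∑ h : H, ‖(χ : G → ℂ) h‖ ^ 2 = ∑ g : G, (if g ∈ H then ‖(χ : G → ℂ) g‖ ^ 2 else 0) := by
    rw [← Finset.sum_filter]
    exact (Finset.sum_subtype (Finset.univ.filter (· ∈ H)) (by simp)
      (fun g => ‖(χ : G → ℂ) g‖ ^ 2)).symm
  have hcH : (Nat.card H : ℝ) = ∑ g : G, (if g ∈ H then (1 : ℝ) else 0) := by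
    rw [← Finset.sum_filter, Finset.sum_const, nsmul_eq_mul, mul_one, Nat.card_eq_fintype_card,
      Fintype.card_subtype]
  have hZ : (Set.ncard ({x : G | (χ : G → ℂ) x = 0} \ (H : Set G)) : ℝ) =
      ∑ g : G, (if g ∉ H ∧ (χ : G → ℂ) g = 0 then (1 : ℝ) else 0) := by
    have : ({x : G | (χ : G → ℂ) x = 0} \ (H : Set G)) =
        ↑(Finset.univ.filter (fun g : G => g ∉ H ∧ (χ : G → ℂ) g = 0)) := by
      ext x; simp [and_comm]
    rw [this, Set.ncard_coe_finset, ← Finset.sum_filter, Finset.sum_const, nsmul_eq_mul, mul_one]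
  have hG : (Nat.card G : ℝ) = ∑ g : G, (1 : ℝ) := by
    simp [Nat.card_eq_fintype_card]
  have hfin : ∑ h : H, ‖(χ : G → ℂ) h‖ ^ 2 ≤ (Nat.card H : ℝ) +
      (Set.ncard ({x : G | (χ : G → ℂ) x = 0} \ (H : Set G)) : ℝ) := by
    have e1 : ∑ g : G, (if g ∈ H then ‖(χ : G → ℂ) g‖ ^ 2 else 0) +
        ∑ g : G, (if g ∉ H then ‖(χ : G → ℂ) g‖ ^ 2 else 0) = ∑ g : G, (1 : ℝ) := by
      rw [← hG, ← hnorm, ← Finset.sum_add_distrib]
      apply Finset.sum_congr rfl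
      intro g _
      by_cases hg : g ∈ H <;> simp [hg]
    have e2 : ∑ g : G, (if g ∈ H then (1 : ℝ) else 0) +
        ∑ g : G, (if g ∉ H ∧ (χ : G → ℂ) g = 0 then (1 : ℝ) else 0) +
        ∑ g : G, (if g ∉ H ∧ (χ : G → ℂ) g ≠ 0 then (1 : ℝ) else 0) = ∑ g : G, (1 : ℝ) := by
      rw [← Finset.sum_add_distrib, ← Finset.sum_add_distrib]
      apply Finset.sum_congr rfl
      intro g _
      by_cases hg : g ∈ H <;> by_cases h0 : (χ : G → ℂ) g = 0 <;> simp [hg, h0]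
    rw [hA, hcH, hZ]
    linarith
  rw [inv_mul_le_iff₀ hH, mul_add, mul_one, mul_div_cancel₀ _ hH.ne']
  exact hfin

end Cfsg.Agent.S4989
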