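import Cfsg.Statements.S5124
import Cfsg.Agent.Lib.Lead.Hyperfocal

set_option autoImplicit false
open Cfsg Cfsg.FusionSystem Cfsg.Agent.Fus

namespace Cfsg.Agent.S5124

variable {Ω : Type*} [Group Ω] {S : Subgroup Ω}

/-- the maps of `F` that preserve (non)membership in the subgroup `H` normalised by `S`. -/
def presSystem (F : FusionSystem S) (H : Subgroup Ω)
    (hH : ∀ s ∈ S, ∀ y ∈ H, s * y * s⁻¹ ∈ H) : FusionSystem S where
  Hom P := {φ | φ ∈ F.Hom P ∧ ∀ x : P, (x : Ω) ∈ H ↔ φ x ∈ H}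
  le_of_mem h := F.le_of_mem h.1
  injective_of_mem h := F.injective_of_mem h.1
  conj_mem := by
    intro P g hP hg
    refine ⟨F.conj_mem hP hg, fun x => ?_⟩
    rw [conjHom_apply]
    refine ⟨fun hx => hH g hg _ hx, fun hx => ?_⟩
    have := hH g⁻¹ (S.inv_mem hg) _ hx
    have e : g⁻¹ * (g * (x : Ω) * g⁻¹) * g⁻¹⁻¹ = x := by group
    rwa [e] at this
  comp_mem := by
    rintro P Q φ ψ ⟨hφ, h₁⟩ ⟨hψ, h₂⟩ h
    refine ⟨F.comp_mem hφ hψ h, fun x => ?_⟩
    rw [h₁ x]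
    exact h₂ ⟨φ x, h x⟩
  inv_mem := by
    rintro P φ ⟨hφ, h₁⟩
    obtain ⟨ψ, hψ, h⟩ := F.inv_mem hφ
    refine ⟨ψ, ⟨hψ, ?_⟩, h⟩
    rintro ⟨_, x, rfl⟩
    rw [h x]
    exact (h₁ x).symm

/-- In a saturated fusion system over a finite p-group S the hyperfocal subgroup is strongly closed in the system. -/
theorem result {Ω : Type*} [Group Ω] {S : Subgroup Ω} [Finite S] (p : ℕ) [Fact p.Prime] (hS : IsPGroup p S) (F : Cfsg.FusionSystem S) (hF : F.IsSaturated p) : F.StronglyClosed (F.hyperfocalSubgroup p) := by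
  have hle : F ≤ presSystem F (F.hyperfocalSubgroup p)
      (fun s hs y hy => hyperfocal_conj_mem F p hs hy) := by
    apply le_of_pResidual hS F hF
    intro P hP β hβ
    rw [mem_autGroup_iff _ hP]
    refine ⟨(mem_autGroup_iff F hP _).mp β.2, fun x => ?_⟩
    have h1 := mem_hyperfocal F hP hβ x
    show (x : Ω) ∈ _ ↔ (((β : MulAut P) x : P) : Ω) ∈ _
    constructor
    · intro hx
      have e : (((β : MulAut P) x : P) : Ω) = x * ((x : Ω)⁻¹ * ((β : MulAut P) x : P)) := by group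
      rw [e]; exact Subgroup.mul_mem _ hx h1
    · intro hx
      have e : (x : Ω) = ((β : MulAut P) x : P) * ((x : Ω)⁻¹ * ((β : MulAut P) x : P))⁻¹ := by group
      rw [e]; exact Subgroup.mul_mem _ hx (Subgroup.inv_mem _ h1)
  refine ⟨hyperfocal_le F p, fun R hR φ hφ x => ?_⟩
  exact ((hle R hφ).2 x).mp (hR x.2)

end Cfsg.Agent.S5124
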