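import Cfsg.Statements.S5125
import Cfsg.Agent.S5106

set_option autoImplicit false
open Cfsg
open scoped commutatorElement

namespace Cfsg.Agent.S5125

open Cfsg.Agent.Fus Cfsg.FusionSystem

variable {Ω : Type*} [Group Ω] {S : Subgroup Ω}

/-- a subgroup normal in a saturated system is fully automized. -/
theorem fullyAutomized_of_isNormal {p : ℕ} (F : Cfsg.FusionSystem S) (hF : F.IsSaturated p)
    {R : Subgroup Ω} (hR : F.IsNormal R) : F.IsFullyAutomized p R ∧ F.IsReceptive R := by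
  obtain ⟨R', ⟨φ, hφ, hrange⟩, h1, h2⟩ := hF R hR.1
  obtain ⟨α, -, hα⟩ := Cfsg.Agent.S5106.exists_aut_of_isNormal F hR R le_rfl φ hφ
  have : R' = R := by
    rw [← hrange]
    ext y
    constructor
    · rintro ⟨x, rfl⟩
      rw [← hα]; exact (α _).2
    · intro hy
      obtain ⟨x, hx⟩ := α.surjective ⟨y, hy⟩
      refine ⟨x, ?_⟩
      have := hα x
      have e : Subgroup.inclusion (le_refl R) x = x := rfl
      rw [e, hx] at this
      exact this.symm
  rw [this] at h1 h2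
  exact ⟨h1, h2⟩

theorem autGroup_le_autInducedBy_of_isPGroup {p : ℕ} (F : Cfsg.FusionSystem S)
    {R : Subgroup Ω} (hR : F.IsFullyAutomized p R) (hAut : IsPGroup p ↥(F.autGroup R)) :
    F.autGroup R ≤ autInducedBy S R := by
  obtain ⟨-, T, hT⟩ := hR
  have h1 : (⊤ : Subgroup (F.autGroup R)) = T := T.3 (hAut.to_subgroup ⊤) le_top
  intro α hα
  have h2 : (⟨α, hα⟩ : F.autGroup R) ∈ (T : Subgroup (F.autGroup R)) := by
    rw [← h1]; exact Subgroup.mem_top _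
  rw [hT] at h2
  exact h2

/-- Let F be a saturated fusion system over a finite p-group S and Q a subgroup strongly closed in F. If Q has a subgroup Q₁ that is normal in F, with Q/Q₁ abelian and Aut_F(Q₁) a p-group, then Q is normal in F. -/
theorem result {Ω : Type*} [Group Ω] {S : Subgroup Ω} [Finite S] (p : ℕ) [Fact p.Prime] (hS : IsPGroup p S) (F : Cfsg.FusionSystem S) (hF : F.IsSaturated p) (Q Q₁ : Subgroup Ω) (hQ : F.StronglyClosed Q) (hQ₁Q : Q₁ ≤ Q) (hQ₁ : F.IsNormal Q₁) (hab : ⁅Q, Q⁆ ≤ Q₁) (hAut : IsPGroup p ↥(F.autGroup Q₁)) : F.IsNormal Q := by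
  have hle := autGroup_le_autInducedBy_of_isPGroup F (fullyAutomized_of_isNormal F hF hQ₁).1 hAut
  have hQ₁S := hQ₁.1
  have hSN₁ := stronglyClosed_le_normalizer F (isNormal_stronglyClosed F hQ₁)
  -- subgroups of `Q₁` normalized by `S` are strongly closed
  have stepC : ∀ U : Subgroup Ω, U ≤ Q₁ → (∀ s ∈ S, ∀ u ∈ U, s * u * s⁻¹ ∈ U) →
      F.StronglyClosed U := by
    intro U hU hUn
    refine ⟨hU.trans hQ₁S, fun A hA φ hφ x => ?_⟩
    obtain ⟨α, hα, hαφ⟩ := Cfsg.Agent.S5106.exists_aut_of_isNormal F hQ₁ A (hA.trans hU) φ hφ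
    obtain ⟨s, hs, hsα⟩ := (mem_autInducedBy_iff _ _ _).mp (hle hα)
    rw [← hαφ, hsα]
    exact hUn s hs _ (hA x.2)
  have hnil : Group.IsNilpotent S := hS.isNilpotent
  obtain ⟨c, hc⟩ := hnil.nilpotent'
  let Z : ℕ → Subgroup Ω := fun j => (Subgroup.upperCentralSeries S j).map S.subtype
  have hZc : Z c = S := by
    show (Subgroup.upperCentralSeries S c).map S.subtype = S
    rw [hc, ← MonoidHom.range_eq_map, Subgroup.range_subtype]
  have hZmono : Monotone Z := fun i j hij =>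
    Subgroup.map_mono (Subgroup.upperCentralSeries_mono S hij)
  have hZcomm : ∀ j : ℕ, ∀ s ∈ S, ∀ z ∈ Z (j + 1), ⁅s, z⁆ ∈ Z j := by
    rintro j s hs _ ⟨z, hz, rfl⟩
    have h1 := Subgroup.mem_upperCentralSeries_succ_iff.mp hz ⟨s, hs⟩
    have h2 := Subgroup.inv_mem _ h1
    rw [commutatorElement_inv] at h2
    exact ⟨_, h2, rfl⟩
  have hZn : ∀ j : ℕ, ∀ s ∈ S, ∀ z ∈ Z j, s * z * s⁻¹ ∈ Z j := by
    rintro j s hs _ ⟨z, hz, rfl⟩
    have hn : (Subgroup.upperCentralSeries S j).Normal := inferInstance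
    exact ⟨_, hn.conj_mem z hz ⟨s, hs⟩, rfl⟩
  have hQ₁n : ∀ s ∈ S, ∀ z ∈ Q₁, s * z * s⁻¹ ∈ Q₁ := fun s hs z hz =>
    (Subgroup.mem_normalizer_iff.mp (hSN₁ hs) z).mp hz
  rw [Cfsg.Agent.S5088.result p hS F hF]
  refine ⟨c + 1, fun j => if (j : ℕ) ≤ c then Q₁ ⊓ Z j else Q, ?_, ?_, ?_, ?_⟩
  · simp [Z]
  · simp
  · intro i j hij
    have hij' : (i : ℕ) ≤ j := hij
    show (if (i : ℕ) ≤ c then Q₁ ⊓ Z i else Q) ≤ (if (j : ℕ) ≤ c then Q₁ ⊓ Z j else Q)
    by_cases hj : (j : ℕ) ≤ c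
    · rw [if_pos hj, if_pos (hij'.trans hj)]
      exact inf_le_inf_left _ (hZmono hij')
    · rw [if_neg hj]
      split_ifs
      · exact inf_le_left.trans hQ₁Q
      · exact le_rfl
  · intro i
    have hi : (i : ℕ) ≤ c := Nat.lt_succ_iff.mp i.2
    show F.StronglyClosed (if ((i.succ : Fin (c + 2)) : ℕ) ≤ c then Q₁ ⊓ Z (i.succ : Fin (c+2)) else Q) ∧
      ⁅Q, (if ((i.succ : Fin (c + 2)) : ℕ) ≤ c then Q₁ ⊓ Z (i.succ : Fin (c+2)) else Q)⁆ ≤
        (if ((i.castSucc : Fin (c + 2)) : ℕ) ≤ c then Q₁ ⊓ Z (i.castSucc : Fin (c+2)) else Q)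
    rw [Fin.val_succ, Fin.val_castSucc, if_pos hi]
    by_cases h1 : (i : ℕ) + 1 ≤ c
    · rw [if_pos h1]
      constructor
      · apply stepC _ inf_le_left
        intro s hs u hu
        exact ⟨hQ₁n s hs u hu.1, hZn _ s hs u hu.2⟩
      · rw [Subgroup.commutator_le]
        intro q hq z hz
        refine ⟨?_, hZcomm _ q (hQ.1 hq) z hz.2⟩
        rw [commutatorElement_def]
        exact Q₁.mul_mem (hQ₁n q (hQ.1 hq) z hz.1) (Q₁.inv_mem hz.1)
    · rw [if_neg h1]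
      refine ⟨hQ, ?_⟩
      have hic : (i : ℕ) = c := by omega
      rw [hic, hZc]
      exact le_inf hab (hab.trans hQ₁S)

end Cfsg.Agent.S5125
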