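import Cfsg.Statements.S5223
import Cfsg.Agent.Lib.Lead.Stability
import Cfsg.Agent.S5083

set_option autoImplicit false
open Cfsg Cfsg.FusionSystem Cfsg.Agent.Fus

namespace Cfsg.Agent.S5223

/-- Let F be a saturated fusion system over a finite p-group S. Suppose there are subgroups Q₀ = S, Q₁, …, Qₙ = 1 (not required to be nested) such that for each i < n the focal subgroup of Qᵢ (generated by the elements x⁻¹φ(x), x ∈ Qᵢ, φ a map of F defined on the cyclic group generated by x) lies in Qᵢ₊₁. Then F is the inner fusion system of S. -/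
theorem result {Ω : Type*} [Group Ω] {S : Subgroup Ω} [Finite S] (p : ℕ) [Fact p.Prime] (hS : IsPGroup p S) (F : Cfsg.FusionSystem S) (hF : F.IsSaturated p) (n : ℕ) (Q : Fin (n + 1) → Subgroup Ω) (hQ0 : Q 0 = S) (hQn : Q (Fin.last n) = ⊥) (hstep : ∀ i : Fin n, Subgroup.closure {y : Ω | ∃ x ∈ Q i.castSucc, ∃ φ ∈ F.Hom (Subgroup.zpowers x), y = x⁻¹ * φ ⟨x, Subgroup.mem_zpowers x⟩} ≤ Q i.succ) : ∀ P : Subgroup Ω, F.Hom P = (Cfsg.innerFusionSystem S).Hom P := by
  have key : F = Cfsg.innerFusionSystem S := by
    apply Cfsg.Agent.S5083.result p hS F hF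
    intro P hPS
    have : Finite P := finite_of_le hPS
    have hPp : IsPGroup p P := hS.to_le hPS
    rintro ⟨β, hβ⟩
    -- the descending chain
    let D : ℕ → Subgroup P := fun j => ⨅ i : {i : Fin (n + 1) // i.val ≤ j}, (Q i.1).subgroupOf P
    have hD : ∀ j (x : P), x ∈ D j ↔ ∀ i : Fin (n + 1), i.val ≤ j → (x : Ω) ∈ Q i := by
      intro j x
      simp only [D, Subgroup.mem_iInf, Subtype.forall, Subgroup.mem_subgroupOf]
    have hβF := (mem_autGroup_iff F hPS β).mp hβ
    have hfoc : ∀ (i : Fin n) (x : P), (x : Ω) ∈ Q i.castSucc → ((x⁻¹ * β x : P) : Ω) ∈ Q i.succ := by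
      intro i x hx
      apply hstep i
      apply Subgroup.subset_closure
      have hle : Subgroup.zpowers (x : Ω) ≤ P := by
        rw [Subgroup.zpowers_le]; exact x.2
      exact ⟨x, hx, _, restrict_mem F hβF hle, rfl⟩
    have hnext : ∀ j, j < n → ∀ x ∈ D j, x⁻¹ * β x ∈ D (j + 1) := by
      intro j hj x hx
      rw [hD] at hx ⊢
      intro i
      refine Fin.cases ?_ (fun i' => ?_) i
      · intro _
        rw [hQ0]; exact hPS (x⁻¹ * β x).2
      · intro hi
        apply hfoc i' x
        apply hx
        simp only [Fin.val_succ, Fin.val_castSucc] at hi ⊢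
        omega
    have hanti : ∀ j, D (j + 1) ≤ D j := by
      intro j x hx
      rw [hD] at hx ⊢
      intro i hi
      exact hx i (by omega)
    have hDn : ∀ x ∈ D n, x = 1 := by
      intro x hx
      have := (hD n x).mp hx (Fin.last n) (by simp)
      rw [hQn, Subgroup.mem_bot] at this
      exact Subtype.ext this
    have hmaps : ∀ j, ∀ x ∈ D j, β x ∈ D j := by
      intro j x hx
      by_cases hj : j < n
      · have e : β x = x * (x⁻¹ * β x) := by group
        rw [e]; exact (D j).mul_mem hx (hanti j (hnext j hj x hx))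
      · have hx' : x ∈ D n := by
          rw [hD] at hx ⊢
          intro i hi
          exact hx i (by omega)
        rw [hDn x hx', map_one]; exact Subgroup.one_mem _
    have hind : ∀ m, m ≤ n → ∃ k : ℕ, ∀ x ∈ D (n - m), (β ^ p ^ k) x = x := by
      intro m
      induction m with
      | zero =>
        intro _
        refine ⟨0, fun x hx => ?_⟩
        rw [hDn x hx, map_one]
      | succ m ih =>
        intro hm
        obtain ⟨k, hk⟩ := ih (by omega)
        refine pow_fix_step hPp β (D (n - m)) (D (n - (m + 1))) (hmaps _) ?_ k hk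
        intro x hx
        have := hnext (n - (m + 1)) (by omega) x hx
        have e : n - (m + 1) + 1 = n - m := by omega
        rwa [e] at this
    obtain ⟨k, hk⟩ := hind n le_rfl
    refine ⟨k, Subtype.ext (MulEquiv.ext fun x => ?_)⟩
    apply hk
    rw [hD]
    intro i hi
    have : i = 0 := Fin.ext (by simp at hi ⊢; omega)
    rw [this, hQ0]; exact hPS x.2
  intro P
  rw [key]

end Cfsg.Agent.S5223
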