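import Cfsg.Statements.S5301
import Cfsg.Agent.Lib.Lead.NormalSub

set_option autoImplicit false
open Cfsg

namespace Cfsg.Agent.S5301

open Cfsg.Agent.Fus Cfsg.FusionSystem Cfsg.Agent.Cores

universe u

/-- if there are no essential subgroups then `S` is normal in the system. -/
theorem isNormal_top_of_no_essential {Ω : Type*} [Group Ω] {S : Subgroup Ω} [Finite S] (p : ℕ) [Fact p.Prime] (hS : IsPGroup p S)
    (F : Cfsg.FusionSystem S) (hF : F.IsSaturated p) (h : ∀ P : Subgroup Ω, ¬ F.IsEssential p P) :
    F.IsNormal S := by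
  apply isNormal_of_essential hS F hF
  rintro P (rfl | hP)
  · refine ⟨le_rfl, fun α _ => ?_⟩
    rw [Subgroup.subgroupOf_self]
    exact Subgroup.map_top_of_surjective _ α.surjective
  · exact absurd hP (h P)

/-- Let F be a saturated fusion system over a finite p-group S. If for every subgroup P of S that is fully normalized, centric and radical in F the automorphism group that F induces on P has a normal Sylow p-subgroup, then S is normal in F. -/
theorem result {Ω : Type u} [Group Ω] {S : Subgroup Ω} [Finite S] (p : ℕ) [Fact p.Prime] (hS : IsPGroup p S)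
    (F : Cfsg.FusionSystem S) (hF : F.IsSaturated p)
    (hcl : ∀ P : Subgroup Ω, F.IsFullyNormalized P → F.IsCentric P → F.IsRadical p P →
      ∃ R : Sylow p ↥(F.autGroup P), (R : Subgroup ↥(F.autGroup P)).Normal) :
    F.IsNormal S := by
  apply isNormal_top_of_no_essential p hS F hF
  intro P hP
  have hr := Cfsg.Agent.S5080.result p hS F hF P hP
  obtain ⟨R, hR⟩ := hcl P hP.2.1 hP.1 hr
  obtain ⟨hc, hn, hnorm, E, hE⟩ := hP
  have hPS := hc.1
  have : Finite P := finite_of_le hPS
  have : Finite (MulAut P) := inferInstance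
  have h1 : (R : Subgroup ↥(F.autGroup P)) ≤ pCore p (F.autGroup P) := le_pCore hR R.2
  have h2 : (Inn P).subgroupOf (F.autGroup P) = pCore p (F.autGroup P) := by
    rw [← hr.2]
    exact Subgroup.comap_map_eq_self_of_injective (Subgroup.subtype_injective _) _
  have h3 : p ∣ ((Inn P).subgroupOf (F.autGroup P)).index := hE.1
  rw [h2] at h3
  exact R.not_dvd_index (h3.trans (Subgroup.index_dvd_of_le h1))

end Cfsg.Agent.S5301
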