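import Cfsg.Statements.S5330
import Cfsg.Agent.S5089
import Cfsg.Agent.S5106
import Cfsg.Agent.S5144
import Cfsg.Agent.S5084
import Cfsg.Agent.S5083
import Cfsg.Agent.S5077

set_option autoImplicit false
open Cfsg Cfsg.FusionSystem Cfsg.Agent.Fus

namespace Cfsg.Agent.S5330

/-- coprime action on an abelian `p`-group: `M = C_M(A) × [M, A]`. -/
theorem coprime_abelian {M : Type*} [CommGroup M] [Finite M] (A : Subgroup (MulAut M)) (p : ℕ)
    [Fact p.Prime] (hM : IsPGroup p M) (hA : ¬ p ∣ Nat.card A) :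
    (∀ x : M, (∀ α ∈ A, α x = x) →
      x ∈ Subgroup.closure {y : M | ∃ α ∈ A, ∃ z : M, y = z⁻¹ * α z} → x = 1) ∧
    (∀ x : M, ∃ c d : M, (∀ α ∈ A, α c = c) ∧
      d ∈ Subgroup.closure {y : M | ∃ α ∈ A, ∃ z : M, y = z⁻¹ * α z} ∧ x = c * d) := by
  classical
  have : Finite (MulAut M) := inferInstance
  have : Fintype A := Fintype.ofFinite A
  set D := Subgroup.closure {y : M | ∃ α ∈ A, ∃ z : M, y = z⁻¹ * α z} with hD
  let N : M →* M :=
    { toFun := fun x => ∏ α : A, (α : MulAut M) x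
      map_one' := by simp
      map_mul' := by intro x y; simp [Finset.prod_mul_distrib] }
  have hN : ∀ x, N x = ∏ α : A, (α : MulAut M) x := fun x => rfl
  have hNfix : ∀ β ∈ A, ∀ x, β (N x) = N x := by
    intro β hβ x
    rw [hN, map_prod]
    exact Fintype.prod_equiv (Equiv.mulLeft (⟨β, hβ⟩ : A)) _ _ (fun α => rfl)
  have hNα : ∀ β ∈ A, ∀ x, N (β x) = N x := by
    intro β hβ x
    rw [hN, hN]
    exact Fintype.prod_equiv (Equiv.mulRight (⟨β, hβ⟩ : A)) _ _ (fun α => rfl)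
  have hDker : D ≤ N.ker := by
    rw [hD, Subgroup.closure_le]
    rintro _ ⟨α, hα, z, rfl⟩
    show N (z⁻¹ * α z) = 1
    rw [map_mul, map_inv, hNα α hα, inv_mul_cancel]
  obtain ⟨k, hk⟩ := (IsPGroup.iff_card (p := p) (G := M)).mp hM
  have hcop : (Nat.card M).Coprime (Nat.card A) := by
    rw [hk]
    exact Nat.Coprime.pow_left k ((Nat.Prime.coprime_iff_not_dvd Fact.out).mpr hA)
  constructor
  · intro x hx hxD
    have h1 : N x = x ^ Nat.card A := by
      rw [hN, Finset.prod_congr rfl (fun (α : A) _ => hx (α : MulAut M) α.2), Finset.prod_const, Finset.card_univ,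
        Nat.card_eq_fintype_card]
    have h2 : x ^ Nat.card A = 1 := by rw [← h1]; exact hDker hxD
    have h3 : x ^ Nat.card M = 1 := pow_card_eq_one'
    have h4 : orderOf x ∣ Nat.card A := orderOf_dvd_of_pow_eq_one h2
    have h5 : orderOf x ∣ Nat.card M := orderOf_dvd_of_pow_eq_one h3
    rw [← orderOf_eq_one_iff]
    exact Nat.eq_one_of_dvd_coprimes hcop h5 h4
  · intro x
    obtain ⟨y, hy⟩ : ∃ y, y ^ Nat.card A = x := ⟨(powCoprime hcop).symm x, (powCoprime hcop).apply_symm_apply x⟩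
    refine ⟨N y, (N y)⁻¹ * x, fun α hα => hNfix α hα y, ?_, by group⟩
    have e : (N y)⁻¹ * x = ∏ α : A, (y⁻¹ * (α : MulAut M) y)⁻¹ := by
      rw [Finset.prod_inv_distrib, Finset.prod_mul_distrib, Finset.prod_const, Finset.card_univ,
        ← Nat.card_eq_fintype_card, ← hN, ← hy]
      simp [mul_comm]
    rw [e]
    apply Subgroup.prod_mem
    intro α _
    exact D.inv_mem (Subgroup.subset_closure ⟨α, α.2, y, rfl⟩)

/-- Let F be a saturated fusion system over a finite abelian p-group S. Then S is the internal direct product of the centre of the system and the focal subgroup: Z(F) ∩ foc(F) = 1 and Z(F)·foc(F) = S. -/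
theorem result {Ω : Type*} [Group Ω] {S : Subgroup Ω} [Finite S] (p : ℕ) [Fact p.Prime] (hS : IsPGroup p S) (F : Cfsg.FusionSystem S) (hF : F.IsSaturated p) (hab : ∀ x ∈ S, ∀ y ∈ S, x * y = y * x) : F.center ⊓ F.focalSubgroup = ⊥ ∧ F.center ⊔ F.focalSubgroup = S := by
  have hsat := (Cfsg.Agent.S5077.result p hS F).mp hF
  have hc : IsMulCommutative S := ⟨⟨fun a b => Subtype.ext (hab a a.2 b b.2)⟩⟩
  have hsc : F.StronglyClosed S := ⟨le_rfl, fun R _ φ hφ x => (F.le_of_mem hφ).2 x⟩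
  have hnorm : F.IsNormal S :=
    Cfsg.Agent.S5089.isNormal_of_abelian_stronglyClosed p hS F hF hc hsc
  have hext : ∀ (P : Subgroup Ω) (φ : P →* Ω) (hφ : φ ∈ F.Hom P), ∃ α ∈ F.autGroup S,
      ∀ x : P, ((α ⟨x, (F.le_of_mem hφ).1 x.2⟩ : S) : Ω) = φ x := fun P φ hφ =>
    Cfsg.Agent.S5106.exists_aut_of_isNormal F hnorm P (F.le_of_mem hφ).1 φ hφ
  have : Finite (MulAut S) := inferInstance
  have hA : ¬ p ∣ Nat.card (F.autGroup S) := by
    obtain ⟨U, hU⟩ := (hsat.1 S (Cfsg.Agent.S5083.fullyNormalized_top F)).2.2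
    have hbot : (U : Subgroup (F.autGroup S)) = ⊥ := by
      rw [hU, eq_bot_iff]
      rintro ⟨β, hβA⟩ hβ
      obtain ⟨g, hg, h⟩ := (mem_autInducedBy_iff _ _ _).mp (show β ∈ autInducedBy S S from hβ)
      rw [Subgroup.mem_bot]
      apply Subtype.ext
      apply MulEquiv.ext
      intro x
      apply Subtype.ext
      rw [h, hab g hg x x.2]
      simp
    have h1 := U.not_dvd_index
    rwa [hbot, Subgroup.index_bot] at h1
  let _ : CommGroup S := { (inferInstance : Group S) with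
    mul_comm := fun a b => Subtype.ext (hab a a.2 b b.2) }
  obtain ⟨h1, h2⟩ := coprime_abelian (F.autGroup S) p hS hA
  have hcen := (Cfsg.Agent.S5084.result p hS F hF F.center).mp (Cfsg.Agent.S5144.result F)
  have hfix : ∀ x : S, (x : Ω) ∈ F.center → ∀ α ∈ F.autGroup S, α x = x := by
    intro x hx α hα
    apply Subtype.ext
    apply hcen.2 x hx
    have hle : Subgroup.zpowers (x : Ω) ≤ S := by rw [Subgroup.zpowers_le]; exact x.2
    exact ⟨_, restrict_mem F ((mem_autGroup_iff F le_rfl α).mp hα) hle, rfl⟩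
  have hfix' : ∀ x : S, (∀ α ∈ F.autGroup S, α x = x) → (x : Ω) ∈ F.center := by
    intro x hx
    have hle : Subgroup.zpowers (x : Ω) ≤ S := by rw [Subgroup.zpowers_le]; exact x.2
    have hcz : F.IsCentral (Subgroup.zpowers (x : Ω)) := by
      rw [Cfsg.Agent.S5084.result p hS F hF]
      refine ⟨hle, ?_⟩
      rintro _ ⟨n, rfl⟩ y ⟨φ, hφ, rfl⟩
      obtain ⟨α, hα, h⟩ := hext _ φ hφ
      rw [← h]
      show ((α ⟨(x : Ω) ^ n, _⟩ : S) : Ω) = (x : Ω) ^ n
      have e : (⟨(x : Ω) ^ n, (F.le_of_mem hφ).1 (Subgroup.mem_zpowers _)⟩ : S) = x ^ n :=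
        Subtype.ext (by simp)
      rw [e, map_zpow, hx α hα]
      simp
    exact (le_sSup (show Subgroup.zpowers (x : Ω) ∈ {Q | F.IsCentral Q} from hcz))
      (Subgroup.mem_zpowers _)
  set D := Subgroup.closure {y : S | ∃ α ∈ F.autGroup S, ∃ z : S, y = z⁻¹ * α z} with hD
  have hfoc1 : F.focalSubgroup ≤ D.map S.subtype := by
    rw [focalSubgroup, Subgroup.closure_le]
    rintro _ ⟨P, φ, x, hφ, rfl⟩
    obtain ⟨α, hα, h⟩ := hext P φ hφ
    refine ⟨_, Subgroup.subset_closure ⟨α, hα, ⟨x, (F.le_of_mem hφ).1 x.2⟩, rfl⟩, ?_⟩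
    rw [← h]; rfl
  have hfoc2 : D.map S.subtype ≤ F.focalSubgroup := by
    rw [hD, MonoidHom.map_closure, Subgroup.closure_le]
    rintro _ ⟨_, ⟨α, hα, z, rfl⟩, rfl⟩
    exact Subgroup.subset_closure ⟨S, _, z, (mem_autGroup_iff F le_rfl α).mp hα, rfl⟩
  constructor
  · rw [eq_bot_iff]
    rintro x ⟨hx1, hx2⟩
    obtain ⟨x', hx', rfl⟩ := hfoc1 hx2
    rw [Subgroup.mem_bot]
    have := h1 x' (hfix x' hx1) hx'
    rw [this]; rfl
  · apply le_antisymm
    · apply sup_le hcen.1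
      exact hfoc1.trans (Subgroup.map_subtype_le _)
    · intro x hx
      obtain ⟨c, d, hc, hd, hxcd⟩ := h2 ⟨x, hx⟩
      have e : x = (c : Ω) * (d : Ω) := congrArg Subtype.val hxcd
      rw [e]
      exact Subgroup.mul_mem _ (Subgroup.mem_sup_left (hfix' c hc))
        (Subgroup.mem_sup_right (hfoc2 ⟨d, hd, rfl⟩))

end Cfsg.Agent.S5330
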