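import Cfsg.Statements.S5521
import Cfsg.Agent.Lib.Helper8.Oct16
import Cfsg.Agent.Lib.Helper8.M12

set_option autoImplicit false
open scoped Pointwise
open Cfsg

namespace Cfsg.Agent.S5521

/-- The Mathieu group M₂₄ in its natural action on the 24 coordinate positions of the binary Golay code has minimal base size exactly 7: every set of at most 6 positions is fixed pointwise by some non-identity element of M₂₄, while some set of 7 positions is fixed pointwise only by the identity. -/
theorem result :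
    (∀ B : Finset Cfsg.GolayPt, B.card ≤ 6 → ∃ g ∈ Cfsg.M24, g ≠ 1 ∧ ∀ b ∈ B, g b = b) ∧
    (∃ B : Finset Cfsg.GolayPt, B.card = 7 ∧ ∀ g ∈ Cfsg.M24, (∀ b ∈ B, g b = b) → g = 1) := by
  open Cfsg.Agent.Lib.Helper8 in
  constructor
  · intro B hB
    obtain ⟨B', hBB', hB'⟩ := Finset.exists_superset_card_eq hB
      (show 6 ≤ Fintype.card Cfsg.GolayPt by decide)
    obtain ⟨z, t, hzt, rfl, ht⟩ := Finset.card_eq_succ.mp hB'
    obtain ⟨y, t', hyt, rfl, ht'⟩ := Finset.card_eq_succ.mp ht
    obtain ⟨a, b, c, d, hab, hac, hbc, had, hbd, hcd, rfl⟩ := card_eq_four' ht'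
    simp only [Finset.mem_insert, Finset.mem_singleton, not_or] at hzt hyt
    obtain ⟨w, hw, w0, w1, w2, w3, w4⟩ := move5 hab hac hbc had hbd hcd (Ne.symm hyt.1)
      (Ne.symm hyt.2.1) (Ne.symm hyt.2.2.1) (Ne.symm hyt.2.2.2)
    have hj := of_allBelow fix6_check (idx (w z)) (idx_lt _)
    have hnb : (8388623 : ℕ).testBit (idx (w z)) = false := by
      have : ∀ j < 24, j ≠ 23 → j ≠ 0 → j ≠ 1 → j ≠ 2 → j ≠ 3 →
          (8388623 : ℕ).testBit j = false := by
        intro j hj
        interval_cases j <;> decide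
      exact this _ (idx_lt _) (apply_ne (Ne.symm hzt.2.1) w0) (apply_ne (Ne.symm hzt.2.2.1) w1)
        (apply_ne (Ne.symm hzt.2.2.2.1) w2) (apply_ne (Ne.symm hzt.2.2.2.2) w3)
        (apply_ne (Ne.symm hzt.1) w4)
    rw [hnb, Bool.false_or, Bool.and_eq_true, invTestF_eq] at hj
    obtain ⟨hv, hT⟩ := toPerm_mem_GInv hj.1
    have hne := toPerm_ne_one hv hj.2
    refine ⟨w⁻¹ * toPerm _ * w, conj_mem hw hT.1, ?_, ?_⟩
    · intro h
      apply hne
      have : toPerm (getR 120 fix6A (idx (w z))) =
        w * (w⁻¹ * toPerm (getR 120 fix6A (idx (w z))) * w) * w⁻¹ := by group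
      rw [this, h]
      group
    · intro x hx
      have hx' := hBB' hx
      simp only [Finset.mem_insert, Finset.mem_singleton] at hx'
      apply conj_apply
      rcases hx' with rfl | rfl | rfl | rfl | rfl | rfl
      · have := GInv_fix hT (idx_lt (w x)) (by simp)
        rwa [pt_idx] at this
      · rw [w4]; exact GInv_fix hT (by norm_num) (by simp)
      · rw [w0]; exact GInv_fix hT (by norm_num) (by simp)
      · rw [w1]; exact GInv_fix hT (by norm_num) (by simp)
      · rw [w2]; exact GInv_fix hT (by norm_num) (by simp)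
      · rw [w3]; exact GInv_fix hT (by norm_num) (by simp)
  · refine ⟨setOf 8388671, by rw [card_setOf]; decide +kernel, ?_⟩
    intro g hg hfix
    have h : g ∈ GInv [2 ^ 5, 2 ^ 4, 2 ^ 3, 2 ^ 2, 2 ^ 1, 2 ^ 0, 2 ^ 23] := by
      refine ⟨hg, ?_⟩
      have hf : ∀ i, i < 24 → (8388671 : ℕ).testBit i = true → Inv g (2 ^ i) := fun i hi hb =>
        Inv.of_fix hi (hfix _ ((pt_mem_setOf hi _).mpr hb))
      simp only [List.mem_cons, List.not_mem_nil, or_false, forall_eq_or_imp, forall_eq]
      exact ⟨hf 5 (by norm_num) (by decide), hf 4 (by norm_num) (by decide),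
        hf 3 (by norm_num) (by decide), hf 2 (by norm_num) (by decide),
        hf 1 (by norm_num) (by decide), hf 0 (by norm_num) (by decide),
        hf 23 (by norm_num) (by decide)⟩
    rw [GInv_eq_bot chain7, Subgroup.mem_bot] at h
    exact h

end Cfsg.Agent.S5521
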