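import Cfsg.Statements.S5562
import Mathlib

set_option autoImplicit false
open Cfsg

namespace Cfsg.Agent.S5562

open Cfsg

theorem conj_mem_conjugatesOf {G : Type*} [Group G] {d e : G} (he : e ∈ conjugatesOf d) (c : G) :
    c * e * c⁻¹ ∈ conjugatesOf d := by
  change IsConj d e at he; change IsConj d _
  exact he.trans (isConj_iff.mpr ⟨c, rfl⟩)

theorem sq_of_mem_conjugatesOf {G : Type*} [Group G] {d e : G} (hd : orderOf d = 2) (he : e ∈ conjugatesOf d) :
    e * e = 1 := by
  change IsConj d e at he; rw [isConj_iff] at he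
  obtain ⟨c, rfl⟩ := he
  have : d * d = 1 := by
    have := pow_orderOf_eq_one d
    rwa [hd, pow_two] at this
  calc c * d * c⁻¹ * (c * d * c⁻¹) = c * (d * d) * c⁻¹ := by group
    _ = 1 := by rw [this]; group

theorem pow_odd_of_sq {G : Type*} [Group G] {s : G} (hs : s * s = 1) {m : ℕ} (hm : Odd m) : s ^ m = s := by
  obtain ⟨k, rfl⟩ := hm
  rw [pow_succ, pow_mul, pow_two, hs, one_pow, one_mul]

theorem uniq_aux {G : Type*} [Group G] {e x a : G} (he : e * e = 1) (hx : x * x = 1) (ha : a * a = 1)
    (hax : Commute a x) (hea : Commute e (a * x)) (hodd : Odd (orderOf (e * a))) :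
    (a * x) * (a * x) = 1 ∧ ∃ m : ℕ, Odd m ∧ (e * x) ^ m = a * x := by
  have hs : (a * x) * (a * x) = 1 := by
    calc (a * x) * (a * x) = a * (x * a) * x := by group
      _ = a * (a * x) * x := by rw [hax.eq]
      _ = (a * a) * (x * x) := by group
      _ = 1 := by rw [ha, hx, one_mul]
  refine ⟨hs, orderOf (e * a), hodd, ?_⟩
  have h1 : e * x = (e * a) * (a * x) := by
    calc e * x = e * (a * a) * x := by rw [ha, mul_one]
      _ = _ := by group
  have h2 : Commute (e * a) (a * x) := by
    apply Commute.mul_left hea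
    exact (Commute.refl a).mul_right hax
  rw [h1, h2.mul_pow, pow_orderOf_eq_one, one_mul, pow_odd_of_sq hs hodd]

/-- Let G be a finite group, d an involution of G whose conjugates pairwise have products of odd order, and x any involution of G. Then the conjugacy class of d is the disjoint union, over the conjugates a of d commuting with x, of the sets of conjugates of d commuting with ax: every conjugate of d commutes with ax for exactly one conjugate a of d that commutes with x. -/
theorem result {G : Type*} [Group G] [Finite G] (d : G) (hd : orderOf d = 2)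
    (hodd : ∀ a ∈ conjugatesOf d, ∀ b ∈ conjugatesOf d, Odd (orderOf (a * b)))
    (x : G) (hx : orderOf x = 2) :
    ∀ e ∈ conjugatesOf d,
      ∃! a : G, a ∈ conjugatesOf d ∧ Commute a x ∧ Commute e (a * x) := by
  intro e he
  have he2 := sq_of_mem_conjugatesOf hd he
  have hx2 : x * x = 1 := by
    have := pow_orderOf_eq_one x
    rwa [hx, pow_two] at this
  have hxi : x⁻¹ = x := inv_eq_of_mul_eq_one_left hx2
  have hei : e⁻¹ = e := inv_eq_of_mul_eq_one_left he2
  set u := e * x with hu
  have hui : u⁻¹ = x * e := by rw [hu, mul_inv_rev, hxi, hei]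
  have h1 : SemiconjBy e u u⁻¹ := by
    unfold SemiconjBy
    rw [hui, hu, ← mul_assoc, he2, one_mul, mul_assoc, he2, mul_one]
  have h2 : SemiconjBy x u u⁻¹ := by
    unfold SemiconjBy
    rw [hui, hu, mul_assoc]
  have h3 : Odd (orderOf (u ^ 2)) := by
    have := hodd e he (x * e * x⁻¹) (conj_mem_conjugatesOf he x)
    have e1 : e * (x * e * x⁻¹) = u ^ 2 := by
      rw [hxi, hu, pow_two]; group
    rwa [e1] at this
  obtain ⟨k, hk⟩ := h3
  have h4 : u ^ (2 * k + 1) * u ^ (2 * k + 1) = 1 := by
    rw [← pow_add, ← two_mul, pow_mul, ← hk, pow_orderOf_eq_one]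
  have h4' : (u ^ (2 * k + 1))⁻¹ = u ^ (2 * k + 1) := inv_eq_of_mul_eq_one_left h4
  have h5 : u ^ k * e * (u ^ k)⁻¹ * x = u ^ (2 * k + 1) := by
    have := (h1.pow_right k).inv_right
    unfold SemiconjBy at this
    rw [inv_pow, inv_inv] at this
    rw [mul_assoc (u ^ k), this, pow_succ, two_mul, pow_add, hu]
    group
  have h6 : Commute e (u ^ (2 * k + 1)) := by
    have := h1.pow_right (2 * k + 1)
    rw [inv_pow, h4'] at this
    exact this
  have h7 : Commute x (u ^ (2 * k + 1)) := by
    have := h2.pow_right (2 * k + 1)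
    rw [inv_pow, h4'] at this
    exact this
  refine ⟨u ^ k * e * (u ^ k)⁻¹, ⟨conj_mem_conjugatesOf he _, ?_, ?_⟩, ?_⟩
  · have e1 : u ^ k * e * (u ^ k)⁻¹ = u ^ (2 * k + 1) * x := by
      rw [← h5, mul_assoc _ x x, hx2, mul_one]
    rw [e1]
    exact (h7.symm).mul_left (Commute.refl x)
  · rw [h5]; exact h6
  · rintro a' ⟨ha', hc1, hc2⟩
    have A := uniq_aux he2 hx2 (sq_of_mem_conjugatesOf hd ha') hc1 hc2 (hodd e he a' ha')
    obtain ⟨hs, m, hm, hm2⟩ := A
    have : a' * x = u ^ k * e * (u ^ k)⁻¹ * x := by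
      rw [h5]
      have e1 : (u ^ m) ^ (2 * k + 1) = a' * x := by
        rw [hm2]; exact pow_odd_of_sq hs ⟨k, rfl⟩
      have e2 : (u ^ (2 * k + 1)) ^ m = u ^ (2 * k + 1) := pow_odd_of_sq h4 hm
      rw [← e1, ← e2, ← pow_mul, ← pow_mul, mul_comm]
    exact mul_right_cancel this

end Cfsg.Agent.S5562
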