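import Cfsg.Statements.S5729
import Cfsg.Agent.Lib.Lead.Derange

set_option autoImplicit false
open Cfsg

namespace Cfsg.Agent.S5729

open Cfsg.Agent.Der MulAction

theorem two_le_rank {G Ω : Type*} [Group G] [Finite G] [MulAction G Ω] [Finite Ω] {a b : Ω}
    (hab : a ≠ b) : 2 ≤ Nat.card (orbitRel.Quotient G (Ω × Ω)) := by
  have : Nontrivial (orbitRel.Quotient G (Ω × Ω)) := by
    refine ⟨⟨Quotient.mk'' (a, a), Quotient.mk'' (a, b), fun h => ?_⟩⟩
    have h1 : (a, a) ∈ orbit G (a, b) := Quotient.exact h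
    obtain ⟨g, hg⟩ := h1
    have h2 : g • a = a := congrArg Prod.fst hg
    have h3 : g • b = a := congrArg Prod.snd hg
    exact hab (smul_left_cancel g (h2.trans h3.symm))
  exact Finite.one_lt_card_iff_nontrivial.mpr this

/-- Let a finite group G act faithfully and transitively on a set with n ≥ 3 points. Then either G is a Frobenius permutation group (Frobenius as a permutation group: transitive, some non-identity element fixes a point, and no non-identity element fixes two points) of order n(n − 1) and exactly |G|/n of its elements are derangements (fix no point), or the number of derangements is greater than |G|/n. -/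
theorem result {G Ω : Type*} [Group G] [Finite G] [MulAction G Ω] [FaithfulSMul G Ω] [Fintype Ω] (htr : MulAction.IsPretransitive G Ω) (hn : 3 ≤ Fintype.card Ω) :
    ((MulAction.IsPretransitive G Ω ∧ (∃ g : G, g ≠ 1 ∧ ∃ ω : Ω, g • ω = ω) ∧ ∀ g : G, g ≠ 1 → Nat.card (MulAction.fixedBy Ω g) ≤ 1) ∧ Nat.card G = Fintype.card Ω * (Fintype.card Ω - 1) ∧ Fintype.card Ω * Nat.card {g : G // ∀ ω : Ω, g • ω ≠ ω} = Nat.card G) ∨
    Nat.card G < Fintype.card Ω * Nat.card {g : G // ∀ ω : Ω, g • ω ≠ ω} := by
  classical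
  cases nonempty_fintype G
  set n := Fintype.card Ω with hndef
  have hnc : Nat.card Ω = n := Nat.card_eq_fintype_card
  obtain ⟨a, b, hab⟩ : ∃ a b : Ω, a ≠ b := by
    have : 1 < Fintype.card Ω := by omega
    exact Fintype.one_lt_card_iff.mp this
  haveI : Nonempty Ω := ⟨a⟩
  set D := Finset.univ.filter (fun g : G => ∀ ω : Ω, g • ω ≠ ω) with hD
  have hDcard : Nat.card {g : G // ∀ ω : Ω, g • ω ≠ ω} = D.card := by
    rw [Nat.card_eq_fintype_card, Fintype.card_subtype]
  rw [hDcard]
  have hA := burnside G Ω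
  rw [card_quotient_of_transitive, one_mul] at hA
  have hB := burnside G (Ω × Ω)
  simp only [card_fixedBy_prod] at hB
  have hr := two_le_rank (G := G) hab
  have hle : ∀ g : G, Nat.card (fixedBy Ω g) ≤ n := by
    intro g
    rw [← hnc]
    exact Nat.card_le_card_of_injective _ Subtype.val_injective
  have hzero : ∀ g : G, g ∈ D → Nat.card (fixedBy Ω g) = 0 := by
    intro g hg
    have h1 := (Finset.mem_filter.mp hg).2
    haveI : IsEmpty (fixedBy Ω g) := ⟨fun x => h1 x.1 x.2⟩
    exact Nat.card_of_isEmpty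
  have hpos : ∀ g : G, g ∉ D → 1 ≤ Nat.card (fixedBy Ω g) := by
    intro g hg
    have h1 : ¬ ∀ ω : Ω, g • ω ≠ ω := fun h => hg (by simp [hD, h])
    push Not at h1
    obtain ⟨ω, hω⟩ := h1
    haveI : Nonempty (fixedBy Ω g) := ⟨⟨ω, hω⟩⟩
    exact Nat.card_pos
  have hterm : ∀ g ∈ (Finset.univ : Finset G), Nat.card (fixedBy Ω g) ^ 2 + n ≤
      (n + 1) * Nat.card (fixedBy Ω g) + (if g ∈ D then n else 0) := by
    intro g _
    by_cases hg : g ∈ D
    · rw [hzero g hg, if_pos hg]; simp
    · rw [if_neg hg]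
      have h1 := hpos g hg
      have h2 := hle g
      generalize Nat.card (fixedBy Ω g) = f at h1 h2
      obtain ⟨u, rfl⟩ := Nat.exists_eq_add_of_le h1
      obtain ⟨v, hv⟩ := Nat.exists_eq_add_of_le h2
      rw [hv]
      nlinarith [Nat.zero_le (u * v)]
  have hsum := Finset.sum_le_sum hterm
  have hite : ∑ g : G, (if g ∈ D then n else 0) = D.card * n := by
    rw [Finset.sum_ite_mem, Finset.univ_inter, Finset.sum_const, smul_eq_mul]
  have hL : ∑ g : G, (Nat.card (fixedBy Ω g) ^ 2 + n) =
      Nat.card (orbitRel.Quotient G (Ω × Ω)) * Nat.card G + Nat.card G * n := by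
    rw [Finset.sum_add_distrib, hB, Finset.sum_const, smul_eq_mul, Finset.card_univ,
      ← Nat.card_eq_fintype_card (α := G)]
  have hR : ∑ g : G, ((n + 1) * Nat.card (fixedBy Ω g) + (if g ∈ D then n else 0)) =
      (n + 1) * Nat.card G + D.card * n := by
    rw [Finset.sum_add_distrib, ← Finset.mul_sum, hA, hite]
  have hGpos : 0 < Nat.card G := Nat.card_pos
  by_cases hlt : Nat.card G < n * D.card
  · exact Or.inr hlt
  left
  rw [hL, hR] at hsum
  have hr2 : Nat.card (orbitRel.Quotient G (Ω × Ω)) = 2 := by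
    by_contra hne
    have h3 : 3 ≤ Nat.card (orbitRel.Quotient G (Ω × Ω)) := by omega
    nlinarith
  have heqG : n * D.card = Nat.card G := by
    rw [hr2] at hsum
    nlinarith
  have hsumeq : ∑ g : G, (Nat.card (fixedBy Ω g) ^ 2 + n) =
      ∑ g : G, ((n + 1) * Nat.card (fixedBy Ω g) + (if g ∈ D then n else 0)) := by
    rw [hL, hR, hr2]; nlinarith
  have hall := (Finset.sum_eq_sum_iff_of_le hterm).mp hsumeq
  have hfix : ∀ g : G, g ≠ 1 → g ∉ D → Nat.card (fixedBy Ω g) = 1 := by
    intro g hg1 hg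
    have h1 := hall g (Finset.mem_univ g)
    rw [if_neg hg] at h1
    have h2 := hpos g hg
    have h3 := hle g
    by_contra hne
    have h4 : Nat.card (fixedBy Ω g) = n := by
      generalize Nat.card (fixedBy Ω g) = f at *
      obtain ⟨u, rfl⟩ := Nat.exists_eq_add_of_le h2
      obtain ⟨v, hv⟩ := Nat.exists_eq_add_of_le h3
      have hu : 0 < u := by omega
      have : u * v = 0 := by
        rw [hv] at h1
        nlinarith
      rcases Nat.mul_eq_zero.mp this with h | h
      · omega
      · omega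
    apply hg1
    apply FaithfulSMul.eq_of_smul_eq_smul (α := Ω)
    intro ω
    rw [one_smul]
    have h5 : (fixedBy Ω g) = Set.univ := by
      apply Set.eq_of_subset_of_ncard_le (Set.subset_univ _) _ (Set.toFinite _)
      rw [Set.ncard_univ, hnc, ← h4, Nat.card_coe_set_eq]
    have : ω ∈ fixedBy Ω g := h5 ▸ Set.mem_univ ω
    exact this
  have h1D : (1 : G) ∉ D := by
    intro h
    exact (Finset.mem_filter.mp h).2 a (one_smul G a)
  have hone : Nat.card (fixedBy Ω (1 : G)) = n := by
    rw [← hnc]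
    exact Nat.card_congr ⟨fun x => x.1, fun x => ⟨x, one_smul G x⟩, fun _ => rfl, fun _ => rfl⟩
  have hDn : D.card = n - 1 := by
    have h2 : ∑ g : G, (Nat.card (fixedBy Ω g) + (if g ∈ D then 1 else 0)) =
        ∑ g : G, (1 + (if g = 1 then (n - 1) else 0)) := by
      apply Finset.sum_congr rfl
      intro g _
      by_cases hg1 : g = 1
      · rw [hg1, hone, if_neg h1D, if_pos rfl]; omega
      · rw [if_neg hg1]
        by_cases hg : g ∈ D
        · rw [hzero g hg, if_pos hg]
        · rw [hfix g hg1 hg, if_neg hg]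
    rw [Finset.sum_add_distrib, Finset.sum_add_distrib, hA, Finset.sum_ite_mem, Finset.univ_inter,
      Finset.sum_const, smul_eq_mul, mul_one, Finset.sum_const, smul_eq_mul, mul_one,
      Finset.card_univ, Finset.sum_ite_eq' , if_pos (Finset.mem_univ _),
      Nat.card_eq_fintype_card] at h2
    omega
  have hGn : Nat.card G = n * (n - 1) := by rw [← heqG, hDn]
  refine ⟨⟨htr, ?_, ?_⟩, hGn, heqG⟩
  · by_contra hcon
    push Not at hcon
    have hsub : Finset.univ.erase (1 : G) ⊆ D := by
      intro g hg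
      rw [hD, Finset.mem_filter]
      exact ⟨Finset.mem_univ g, hcon g (Finset.ne_of_mem_erase hg)⟩
    have h2 := Finset.card_le_card hsub
    rw [Finset.card_erase_of_mem (Finset.mem_univ _), Finset.card_univ, ← Nat.card_eq_fintype_card,
      hGn, hDn] at h2
    obtain ⟨k, hk⟩ : ∃ k, n = k + 3 := ⟨n - 3, by omega⟩
    rw [hk] at h2
    have e : k + 3 - 1 = k + 2 := by omega
    rw [e] at h2
    have : (k + 3) * (k + 2) = k * k + 5 * k + 6 := by ring
    omega
  · intro g hg1
    by_cases hg : g ∈ D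
    · rw [hzero g hg]; omega
    · rw [hfix g hg1 hg]

end Cfsg.Agent.S5729
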