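import Mathlib
import Cfsg.Statements.S5739

set_option autoImplicit false
open Cfsg

namespace Cfsg.Agent.S5739

/-- Let F ⊆ K be finite fields with |F| = q and [K : F] = n ≥ 2, and let M ≤ GL_F(K) be the Singer group of multiplications by non-zero elements of K. If g ∈ GL_F(K) does not normalise M, then the order of M ∩ gMg⁻¹ divides q^r − 1 for some proper divisor r of n. In particular, when n is prime, that order divides q − 1. -/
theorem result {F K : Type*} [Field F] [Fintype F] [Field K] [Fintype K] [Algebra F K] (n : ℕ) (hn : 2 ≤ n) (hdim : Module.finrank F K = n)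
    (g : (Module.End F K)ˣ) (hg : ((Units.map ((Algebra.lmul F K : K →ₐ[F] Module.End F K) : K →* Module.End F K)).range).map (MulAut.conj g).toMonoidHom ≠ (Units.map ((Algebra.lmul F K : K →ₐ[F] Module.End F K) : K →* Module.End F K)).range) :
    ∃ r : ℕ, 1 ≤ r ∧ r ∣ n ∧ r < n ∧ Nat.card ↥(((Units.map ((Algebra.lmul F K : K →ₐ[F] Module.End F K) : K →* Module.End F K)).range).map (MulAut.conj g).toMonoidHom ⊓ (Units.map ((Algebra.lmul F K : K →ₐ[F] Module.End F K) : K →* Module.End F K)).range) ∣ Fintype.card F ^ r - 1 := by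
  classical
  set φ : K →* Module.End F K :=
    ((Algebra.lmul F K : K →ₐ[F] Module.End F K) : K →* Module.End F K) with hφ
  have hφa : ∀ x, φ x = Algebra.lmul F K x := fun _ => rfl
  haveI : FiniteDimensional F K := Module.Finite.of_finite
  haveI : Algebra.IsAlgebraic F K := Algebra.IsAlgebraic.of_finite F K
  let L : Subalgebra F K :=
    { carrier := {x | ∃ y : K, (g : Module.End F K) * Algebra.lmul F K y = Algebra.lmul F K x * g}
      mul_mem' := by
        rintro x₁ x₂ ⟨y₁, h₁⟩ ⟨y₂, h₂⟩
        refine ⟨y₁ * y₂, ?_⟩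
        rw [map_mul, map_mul, ← mul_assoc, h₁, mul_assoc, h₂, mul_assoc]
      add_mem' := by
        rintro x₁ x₂ ⟨y₁, h₁⟩ ⟨y₂, h₂⟩
        refine ⟨y₁ + y₂, ?_⟩
        rw [map_add, map_add, mul_add, add_mul, h₁, h₂]
      algebraMap_mem' := by
        intro r
        refine ⟨algebraMap F K r, ?_⟩
        rw [AlgHom.commutes]
        exact (Algebra.commutes r (g : Module.End F K)).symm }
  have hmemL : ∀ x, x ∈ L ↔
      ∃ y : K, (g : Module.End F K) * Algebra.lmul F K y = Algebra.lmul F K x * g := fun _ => Iff.rfl
  let E : IntermediateField F K := subalgebraEquivIntermediateField L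
  have hmemE : ∀ x, x ∈ E ↔ x ∈ L := fun _ => Iff.rfl
  have hdvd : Module.finrank F E ∣ n := by
    rw [← hdim]; exact Module.finrank_dvd_finrank_right F E K
  refine ⟨Module.finrank F E, Module.finrank_pos, hdvd, ?_, ?_⟩
  · by_contra hlt
    have hle := Nat.le_of_dvd (by omega) hdvd
    have heq : Module.finrank F E = n := by omega
    have htop : E = ⊤ := by
      apply IntermediateField.eq_of_le_of_finrank_eq le_top
      rw [heq, IntermediateField.finrank_top', hdim]
    apply hg
    symm
    haveI : Finite (Units.map φ).range := inferInstance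
    haveI : Finite (((Units.map φ).range).map (MulAut.conj g).toMonoidHom) := by
      apply Nat.finite_of_card_ne_zero
      rw [Subgroup.card_map_of_injective (MulAut.conj g).injective]
      exact Nat.card_pos.ne'
    apply Subgroup.eq_of_le_of_card_ge
    · rintro u ⟨x', rfl⟩
      have hx : (x' : K) ∈ E := htop ▸ IntermediateField.mem_top
      obtain ⟨y, hy⟩ := (hmemL _).mp ((hmemE _).mp hx)
      have hy0 : y ≠ 0 := by
        rintro rfl
        rw [map_zero, mul_zero] at hy
        have h1 : IsUnit (Algebra.lmul F K (x' : K) * (g : Module.End F K)) :=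
          ((Units.map φ x') * g).isUnit
        rw [← hy] at h1
        exact not_isUnit_zero h1
      refine ⟨Units.map φ (Units.mk0 y hy0), ⟨_, rfl⟩, ?_⟩
      apply Units.ext
      show (g : Module.End F K) * Algebra.lmul F K y * ((g⁻¹ : (Module.End F K)ˣ) : Module.End F K) =
        Algebra.lmul F K (x' : K)
      rw [hy, mul_assoc, Units.mul_inv, mul_one]
    · rw [Subgroup.card_map_of_injective (MulAut.conj g).injective]
  · let ψ : Eˣ →* (Module.End F K)ˣ := Units.map (φ.comp ((algebraMap E K : E →+* K) : E →* K))
    have hle : ((Units.map φ).range).map (MulAut.conj g).toMonoidHom ⊓ (Units.map φ).range ≤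
        ψ.range := by
      rintro u ⟨⟨v, ⟨y', rfl⟩, hv⟩, ⟨x', hx'⟩⟩
      have hx : (x' : K) ∈ E := by
        refine ⟨(y' : K), ?_⟩
        have h1 := congrArg (fun z : (Module.End F K)ˣ => (z : Module.End F K)) (hv.trans hx'.symm)
        have h2 : (g : Module.End F K) * Algebra.lmul F K (y' : K) *
            ((g⁻¹ : (Module.End F K)ˣ) : Module.End F K) = Algebra.lmul F K (x' : K) := h1
        rw [← h2, mul_assoc, mul_assoc, Units.inv_mul, mul_one]
      have hne : (⟨(x' : K), hx⟩ : E) ≠ 0 := by
        intro h
        exact x'.ne_zero (congrArg (fun z : E => (z : K)) h)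
      refine ⟨Units.mk0 _ hne, ?_⟩
      rw [← hx']
      apply Units.ext
      rfl
    have h1 := Subgroup.card_dvd_of_le hle
    have h2 := Subgroup.card_range_dvd ψ
    have h3 : Nat.card Eˣ = Fintype.card F ^ Module.finrank F E - 1 := by
      haveI : Fintype E := Fintype.ofFinite E
      rw [Nat.card_eq_fintype_card, Fintype.card_units, Module.card_eq_pow_finrank (K := F) (V := E)]
    rw [← h3]
    exact h1.trans h2

end Cfsg.Agent.S5739
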