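import Cfsg.Statements.S5754
import Cfsg.Agent.Lib.Helper4.QuadRefl

set_option autoImplicit false
open Cfsg

namespace Cfsg.Agent.S5754



/-- Let V be a finite-dimensional vector space over a finite field F carrying an anisotropic quadratic form Q (Q(v) = 0 only for v = 0). Then the group of all maps v ↦ φ(v) + c, with φ an isometry of Q and c ∈ V, acts on V as a binary permutation group: given n ≥ 2 and two n-tuples u, u' of vectors such that every pair of corresponding entries of u is carried to that of u' by such a map, one such map carries u to u'. -/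
theorem result {F V : Type*} [Field F] [Finite F] [AddCommGroup V] [Module F V] [Module.Finite F V]
    (Q : QuadraticForm F V) (hQ : Q.Anisotropic) (n : ℕ) (hn : 2 ≤ n) (u u' : Fin n → V)
    (h2 : ∀ i j : Fin n, i ≠ j → ∃ (φ : Q.IsometryEquiv Q) (c : V), φ (u i) + c = u' i ∧ φ (u j) + c = u' j) :
    ∃ (φ : Q.IsometryEquiv Q) (c : V), ∀ i, φ (u i) + c = u' i := by
  open QuadraticMap Cfsg.Agent.Lib.Helper4.QuadFin Cfsg.Agent.Lib.Helper4.QuadRefl in
  have hd : ∀ i j : Fin n, Q (u i - u j) = Q (u' i - u' j) := by
    intro i j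
    by_cases hij : i = j
    · subst hij; simp
    · obtain ⟨φ, c, h1, h2'⟩ := h2 i j hij
      rw [← h1, ← h2', add_sub_add_right_eq_sub, ← map_sub, φ.map_app]
  let z : Fin n := ⟨0, by omega⟩
  have hsub : ∀ x y : V, QuadraticMap.polar Q x y = Q x + Q y - Q (x - y) := by
    intro x y
    rw [sub_eq_add_neg x y, Cfsg.Agent.Lib.Helper4.QuadFin.map_add', QuadraticMap.map_neg,
      QuadraticMap.polar_neg_right]
    ring
  obtain ⟨φ, hφ⟩ := Cfsg.Agent.Lib.Helper4.QuadRefl.exists_isometry_of_gram Q hQ
    (fun i => u i - u z) (fun i => u' i - u' z) (fun i => hd i z) (by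
      intro i j
      rw [hsub, hsub, hd i z, hd j z, sub_sub_sub_cancel_right, sub_sub_sub_cancel_right, hd i j])
  refine ⟨φ, u' z - φ (u z), fun i => ?_⟩
  have := hφ i
  rw [map_sub] at this
  rw [← add_sub_assoc, add_comm, add_sub_assoc, this]
  abel
end Cfsg.Agent.S5754
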