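import Cfsg.Statements.S5902
import Cfsg.Agent.S5901

set_option autoImplicit false
open Cfsg

namespace Cfsg.Agent.S5902

/-- Let G be a finite group, X a subgroup whose own subgroup lattice is complemented, and suppose X lies in exactly one maximal subgroup M of G. Then every subgroup H of G not contained in the normal core of M has a complement in the subgroup lattice of G (some C with H ⊔ C = G and H ⊓ C = 1); in particular the subgroup lattice of G modulo the normal core of M is complemented. -/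
theorem result {G : Type*} [Group G] [Finite G] (X M : Subgroup G)
    (hK : ComplementedLattice (Subgroup X))
    (hM : IsCoatom M) (hXM : X ≤ M) (huniq : ∀ M' : Subgroup G, IsCoatom M' → X ≤ M' → M' = M) :
    (∀ H : Subgroup G, ¬ H ≤ M.normalCore → ∃ C : Subgroup G, H ⊔ C = ⊤ ∧ H ⊓ C = ⊥) ∧
    ComplementedLattice (Subgroup (G ⧸ M.normalCore)) := by
  have hint : ∀ Y : Subgroup G, ⊥ ≤ Y → Y ≤ X →
      ∃ C : Subgroup G, ⊥ ≤ C ∧ C ≤ X ∧ Y ⊔ C = X ∧ Y ⊓ C = ⊥ := by
    intro Y _ hYX
    obtain ⟨C₀, hC₀⟩ := hK.exists_isCompl (Y.subgroupOf X)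
    refine ⟨C₀.map X.subtype, bot_le, ?_, ?_, ?_⟩
    · exact (Subgroup.map_subtype_le C₀)
    · have h1 := congrArg (Subgroup.map X.subtype) hC₀.sup_eq_top
      rw [Subgroup.map_sup, Subgroup.map_subgroupOf_eq_of_le hYX, ← MonoidHom.range_eq_map,
        Subgroup.range_subtype] at h1
      exact h1
    · have h1 := congrArg (Subgroup.map X.subtype) hC₀.inf_eq_bot
      rw [Subgroup.map_inf _ _ _ X.subtype_injective, Subgroup.map_subgroupOf_eq_of_le hYX,
        Subgroup.map_bot] at h1
      exact h1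
  have hXtop : X ≠ ⊤ := by
    rintro rfl
    exact hM.1 (top_le_iff.mp hXM)
  have key : ∀ H : Subgroup G, ¬ H ≤ M.normalCore → ∃ C : Subgroup G, H ⊔ C = ⊤ ∧ H ⊓ C = ⊥ := by
    intro H hH
    obtain ⟨x, hxH, hx⟩ := SetLike.not_le_iff_exists.mp hH
    have : ∃ g : G, g * x * g⁻¹ ∉ M := by
      by_contra hcon
      push Not at hcon
      exact hx hcon
    obtain ⟨g, hg⟩ := this
    have hH' : ¬ H.map (MulAut.conj g).toMonoidHom ≤ M := by
      intro hle
      exact hg (hle ⟨x, hxH, rfl⟩)
    obtain ⟨C, hC1, hC2⟩ := Cfsg.Agent.S5901.result ⊥ X M bot_le hXtop hint hM hXM huniq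
      (H.map (MulAut.conj g).toMonoidHom) hH' (inf_bot_eq _)
    have hinj : Function.Injective (MulAut.conj g⁻¹).toMonoidHom := (MulAut.conj g⁻¹).injective
    have hback : (H.map (MulAut.conj g).toMonoidHom).map (MulAut.conj g⁻¹).toMonoidHom = H := by
      rw [Subgroup.map_map]
      convert Subgroup.map_id H
      ext y
      simp [mul_assoc]
    refine ⟨C.map (MulAut.conj g⁻¹).toMonoidHom, ?_, ?_⟩
    · have h1 := congrArg (Subgroup.map (MulAut.conj g⁻¹).toMonoidHom) hC1
      rw [Subgroup.map_sup, hback, Subgroup.map_top_of_surjective _ (MulAut.conj g⁻¹).surjective] at h1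
      exact h1
    · have h1 := congrArg (Subgroup.map (MulAut.conj g⁻¹).toMonoidHom) hC2
      rw [Subgroup.map_inf _ _ _ hinj, hback, Subgroup.map_bot] at h1
      exact h1
  refine ⟨key, ⟨fun K => ?_⟩⟩
  by_cases hKb : K = ⊥
  · exact ⟨⊤, hKb ▸ isCompl_bot_top⟩
  have hsurj : Function.Surjective (QuotientGroup.mk' M.normalCore) := QuotientGroup.mk'_surjective _
  have hH : ¬ K.comap (QuotientGroup.mk' M.normalCore) ≤ M.normalCore := by
    intro hle
    apply hKb
    rw [eq_bot_iff]
    intro y hy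
    obtain ⟨x, rfl⟩ := hsurj y
    have : x ∈ M.normalCore := hle hy
    rw [Subgroup.mem_bot]
    exact (QuotientGroup.eq_one_iff x).mpr this
  obtain ⟨C, hC1, hC2⟩ := key _ hH
  refine ⟨C.map (QuotientGroup.mk' M.normalCore), ?_⟩
  rw [isCompl_iff, disjoint_iff, codisjoint_iff]
  constructor
  · rw [eq_bot_iff]
    rintro _ ⟨hy, c, hc, rfl⟩
    have h1 : c ∈ K.comap (QuotientGroup.mk' M.normalCore) ⊓ C := ⟨hy, hc⟩
    rw [hC2, Subgroup.mem_bot] at h1
    rw [h1, map_one]
    exact Subgroup.one_mem _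
  · have h1 := congrArg (Subgroup.map (QuotientGroup.mk' M.normalCore)) hC1
    rw [Subgroup.map_sup, Subgroup.map_comap_eq_self_of_surjective hsurj,
      Subgroup.map_top_of_surjective _ hsurj] at h1
    exact h1

end Cfsg.Agent.S5902
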