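import Cfsg.Statements.S5904

set_option autoImplicit false
open scoped Pointwise
open Cfsg

namespace Cfsg.Agent.S5904

/-- Let Ω be a finite set with more than two elements and O ⊆ Ω a subset with exactly as many elements as its complement. Then the setwise stabilizer of O in the symmetric group on Ω is not a maximal subgroup (it is properly contained in the stabilizer of the partition {O, Ω ∖ O}, which is proper). -/
theorem result {Ω : Type*} [Fintype Ω] [DecidableEq Ω] (hΩ : 2 < Fintype.card Ω)
    (O : Set Ω) (hO : Nat.card O = Nat.card ↥Oᶜ) :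
    ¬ IsCoatom (MulAction.stabilizer (Equiv.Perm Ω) O) := by
  classical
  intro hco
  let L : Subgroup (Equiv.Perm Ω) :=
    { carrier := {g | g • O = O ∨ g • O = Oᶜ}
      one_mem' := Or.inl (one_smul _ _)
      mul_mem' := by
        intro g h hg hh
        simp only [Set.mem_setOf_eq] at hg hh ⊢
        rw [mul_smul]
        rcases hh with hh | hh
        · rw [hh]; exact hg
        · rw [hh, Set.smul_set_compl]
          rcases hg with hg | hg
          · rw [hg]; exact Or.inr rfl
          · rw [hg, compl_compl]; exact Or.inl rfl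
      inv_mem' := by
        intro g hg
        simp only [Set.mem_setOf_eq] at hg ⊢
        rcases hg with hg | hg
        · left; rw [inv_smul_eq_iff, hg]
        · right; rw [inv_smul_eq_iff, Set.smul_set_compl, hg, compl_compl] }
  have hcard : Nat.card O + Nat.card ↥Oᶜ = Fintype.card Ω := by
    rw [Nat.card_coe_set_eq, Nat.card_coe_set_eq, Set.ncard_add_ncard_compl, Nat.card_eq_fintype_card]
  have hO2 : 1 < O.ncard := by
    rw [← Nat.card_coe_set_eq]; omega
  have hOc : 0 < (Oᶜ).ncard := by
    rw [← Nat.card_coe_set_eq]; omega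
  obtain ⟨a, ha, a', ha', haa'⟩ := (Set.one_lt_ncard (Set.toFinite _)).mp hO2
  obtain ⟨b, hb⟩ := (Set.ncard_pos (Set.toFinite _)).mp hOc
  obtain ⟨e⟩ : Nonempty (O ≃ ↥Oᶜ) := Finite.card_eq.mp hO
  have hσ : (Equiv.extendSubtype (p := (· ∈ O)) (q := (· ∈ Oᶜ)) e) • O = Oᶜ := by
    ext y
    rw [Set.mem_smul_set_iff_inv_smul_mem]
    constructor
    · intro hy
      have := Equiv.extendSubtype_mem (p := (· ∈ O)) (q := (· ∈ Oᶜ)) e _ hy
      simpa using this
    · intro hy
      by_contra hy'
      have := Equiv.extendSubtype_not_mem (p := (· ∈ O)) (q := (· ∈ Oᶜ)) e _ hy'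
      apply this
      simpa using hy
  have hlt : MulAction.stabilizer (Equiv.Perm Ω) O < L := by
    refine lt_of_le_of_ne (fun g hg => Or.inl hg) ?_
    intro heq
    have h1 : (Equiv.extendSubtype (p := (· ∈ O)) (q := (· ∈ Oᶜ)) e) ∈ L := Or.inr hσ
    rw [← heq, MulAction.mem_stabilizer_iff, hσ] at h1
    have : a ∈ Oᶜ := by rw [h1]; exact ha
    exact this ha
  have htop := hco.2 L hlt
  have hsw : Equiv.swap a b ∈ L := htop ▸ Subgroup.mem_top _
  have hab : a ≠ b := fun h => hb (h ▸ ha)
  have ha'b : a' ≠ b := fun h => hb (h ▸ ha')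
  rcases hsw with h | h
  · have : b ∈ Equiv.swap a b • O := ⟨a, ha, by simp⟩
    rw [h] at this
    exact hb this
  · have : a' ∈ Equiv.swap a b • O := ⟨a', ha', by
      show Equiv.swap a b a' = a'
      exact Equiv.swap_apply_of_ne_of_ne haa'.symm ha'b⟩
    rw [h] at this
    exact this ha'

end Cfsg.Agent.S5904
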