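import Cfsg.Statements.S5905

set_option autoImplicit false
open Cfsg

namespace Cfsg.Agent.S5905

/-- Let Ω be a finite set and f : Ω → Fin b a map onto b ≥ 2 labels whose fibres all have the same size a ≥ 2 (a partition of Ω into b blocks of size a, so |Ω| = ab). Then the stabilizer of this partition in the symmetric group on Ω — the permutations g such that x and y lie in the same block exactly when g x and g y do, a group isomorphic to the imprimitive wreath product S_a ≀ S_b — is a maximal subgroup of the symmetric group. -/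
theorem result {Ω : Type*} [Fintype Ω] [DecidableEq Ω] (a b : ℕ) (ha : 2 ≤ a) (hb : 2 ≤ b)
    (f : Ω → Fin b) (hf : ∀ i : Fin b, Nat.card {x : Ω // f x = i} = a) :
    IsCoatom (Subgroup.closure {g : Equiv.Perm Ω | ∀ x y : Ω, f x = f y ↔ f (g x) = f (g y)}) := by
  classical
  set S : Set (Equiv.Perm Ω) := {g | ∀ x y, f x = f y ↔ f (g x) = f (g y)} with hS
  have hcl : ∀ g ∈ Subgroup.closure S, g ∈ S := by
    intro g hg
    induction hg using Subgroup.closure_induction with
    | mem x hx => exact hx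
    | one => intro x y; rfl
    | mul g h _ _ hg hh => intro x y; rw [hh x y, hg (h x) (h y)]; rfl
    | inv g _ hg => intro x y; rw [hg (g⁻¹ x) (g⁻¹ y)]; simp
  have hfib : ∀ i, Nonempty ({x : Ω // f x = i} ≃ Fin a) :=
    fun i => ⟨Finite.equivFinOfCardEq (hf i)⟩
  let e : ∀ i, {x : Ω // f x = i} ≃ Fin a := fun i => (hfib i).some
  let φ : Ω ≃ Fin b × Fin a :=
    (Equiv.sigmaFiberEquiv f).symm.trans ((Equiv.sigmaCongrRight e).trans (Equiv.sigmaEquivProd _ _))
  have hφ : ∀ x, f x = (φ x).1 := fun x => rfl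
  let w : Equiv.Perm (Fin b) → Equiv.Perm Ω :=
    fun σ => φ.trans ((Equiv.prodCongr σ (Equiv.refl _)).trans φ.symm)
  have hw : ∀ σ x, f (w σ x) = σ (f x) := by
    intro σ x
    rw [hφ, hφ]
    simp [w]
  have hwS : ∀ σ, w σ ∈ S := by
    intro σ x y
    rw [hw, hw, σ.injective.eq_iff]
  have hswS : ∀ x y, f x = f y → Equiv.swap x y ∈ S := by
    intro x y hxy
    have h1 : ∀ z, f (Equiv.swap x y z) = f z := by
      intro z
      rw [Equiv.swap_apply_def]
      split_ifs with h1 h2
      · rw [h1, hxy]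
      · rw [h2, hxy]
      · rfl
    intro z z'
    rw [h1, h1]
  constructor
  · intro htop
    let i0 : Fin b := ⟨0, by omega⟩
    let i1 : Fin b := ⟨1, by omega⟩
    let s0 : Fin a := ⟨0, by omega⟩
    let s1 : Fin a := ⟨1, by omega⟩
    have h1 : Equiv.swap (φ.symm (i0, s0)) (φ.symm (i1, s0)) ∈ S :=
      hcl _ (htop ▸ Subgroup.mem_top _)
    have h2 := (h1 (φ.symm (i0, s0)) (φ.symm (i0, s1))).mp (by rw [hφ, hφ]; simp)
    have hne1 : φ.symm (i0, s1) ≠ φ.symm (i0, s0) := by
      intro h
      have := φ.symm.injective h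
      simp [s0, s1] at this
    have hne2 : φ.symm (i0, s1) ≠ φ.symm (i1, s0) := by
      intro h
      have := φ.symm.injective h
      simp [s0, s1, i0, i1] at this
    rw [Equiv.swap_apply_left, Equiv.swap_apply_of_ne_of_ne hne1 hne2, hφ, hφ] at h2
    simp [i0, i1] at h2
  · intro H hlt
    have hSH : ∀ g ∈ S, g ∈ H := fun g hg => hlt.le (Subgroup.subset_closure hg)
    obtain ⟨h, hhH, hh⟩ := SetLike.exists_of_lt hlt
    have hhS : h ∉ S := fun hs => hh (Subgroup.subset_closure hs)
    have hrefl : ∀ u, Equiv.swap u u ∈ H := by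
      intro u; rw [Equiv.swap_self]; exact H.one_mem
    have hsymm : ∀ u v, Equiv.swap u v ∈ H → Equiv.swap v u ∈ H := by
      intro u v h; rw [Equiv.swap_comm]; exact h
    have hinv : ∀ k ∈ H, ∀ u v, Equiv.swap u v ∈ H → Equiv.swap (k u) (k v) ∈ H := by
      intro k hk u v huv
      rw [Equiv.swap_apply_apply]
      exact H.mul_mem (H.mul_mem hk huv) (H.inv_mem hk)
    have htrans : ∀ u v z, Equiv.swap u v ∈ H → Equiv.swap v z ∈ H → Equiv.swap u z ∈ H := by
      intro u v z huv hvz
      by_cases h1 : u = v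
      · rw [h1]; exact hvz
      by_cases h2 : u = z
      · rw [h2]; exact hrefl z
      have := hinv _ hvz u v huv
      rwa [Equiv.swap_apply_left, Equiv.swap_apply_of_ne_of_ne h1 h2] at this
    have hex : ∃ u v, f u ≠ f v ∧ Equiv.swap u v ∈ H := by
      have : ∃ x y, ¬ (f x = f y ↔ f (h x) = f (h y)) := by
        by_contra hcon
        push Not at hcon
        exact hhS hcon
      obtain ⟨x, y, hxy⟩ := this
      by_cases h1 : f x = f y
      · have h2 : f (h x) ≠ f (h y) := fun h2 => hxy ⟨fun _ => h2, fun _ => h1⟩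
        exact ⟨h x, h y, h2, hinv h hhH x y (hSH _ (hswS x y h1))⟩
      · have h2 : f (h x) = f (h y) := by
          by_contra h2
          exact hxy ⟨fun h => absurd h h1, fun h => absurd h h2⟩
        refine ⟨x, y, h1, ?_⟩
        have := hinv h⁻¹ (H.inv_mem hhH) _ _ (hSH _ (hswS _ _ h2))
        simpa using this
    obtain ⟨u, v, huv, hR⟩ := hex
    have hall : ∀ z, Equiv.swap u z ∈ H := by
      intro z
      by_cases h1 : f z = f u
      · exact hSH _ (hswS _ _ h1.symm)
      by_cases h2 : f z = f v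
      · exact htrans _ _ _ hR (hSH _ (hswS _ _ h2.symm))
      have h3 := hinv _ (hSH _ (hwS (Equiv.swap (f v) (f z)))) u v hR
      have h4 : f (w (Equiv.swap (f v) (f z)) u) = f u := by
        rw [hw, Equiv.swap_apply_of_ne_of_ne huv (Ne.symm h1)]
      have h5 : f (w (Equiv.swap (f v) (f z)) v) = f z := by
        rw [hw, Equiv.swap_apply_left]
      exact htrans _ _ _ (hSH _ (hswS _ _ h4.symm)) (htrans _ _ _ h3 (hSH _ (hswS _ _ h5)))
    rw [eq_top_iff, ← Equiv.Perm.closure_isSwap, Subgroup.closure_le]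
    rintro _ ⟨x, y, -, rfl⟩
    exact htrans _ _ _ (hsymm _ _ (hall x)) (hall y)

end Cfsg.Agent.S5905
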