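import Mathlib
import Cfsg.Statements.S5913
import Cfsg.Agent.Lib.Helper5.CharSimple

set_option autoImplicit false
open Cfsg

namespace Cfsg.Agent.S5913

open Cfsg.Agent.Lib.Helper5.CharSimple


/-- Let S be a non-abelian simple group and n a natural number. Every normal subgroup N of the direct power S^n (functions Fin n → S) is a subproduct: there is a set T of coordinates such that N consists exactly of the elements whose coordinates outside T are trivial. In particular the minimal normal subgroups of S^n are its n factors. -/
theorem result {S : Type*} [Group S] [IsSimpleGroup S] (hS : ¬ IsMulCommutative S) (n : ℕ)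
    (N : Subgroup (Fin n → S)) [N.Normal] :
    ∃ T : Finset (Fin n), ∀ x : Fin n → S, x ∈ N ↔ ∀ i, i ∉ T → x i = 1 := by
  classical
  refine ⟨Finset.univ.filter (fun i => ∃ x ∈ N, x i ≠ 1), ?_⟩
  intro x
  constructor
  · intro hx i hi
    by_contra hne
    apply hi
    simp only [Finset.mem_filter, Finset.mem_univ, true_and]
    exact ⟨x, hx, hne⟩
  · intro h
    apply mem_of_mulSingle_mem
    intro i
    by_cases hi : x i = 1
    · rw [hi, Pi.mulSingle_one]; exact N.one_mem
    · have hiT : i ∈ Finset.univ.filter (fun i => ∃ x ∈ N, x i ≠ 1) := by
        by_contra hcon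
        exact hi (h i hcon)
      simp only [Finset.mem_filter, Finset.mem_univ, true_and] at hiT
      obtain ⟨y, hy, hyi⟩ := hiT
      exact mulSingle_mem_of_normal hS N y hy i hyi (x i)

end Cfsg.Agent.S5913
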