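import Mathlib
import Cfsg.Statements.S5914
import Cfsg.Agent.Lib.Helper5.CharSimple

set_option autoImplicit false
open Cfsg

namespace Cfsg.Agent.S5914

open Cfsg.Agent.Lib.Helper5.CharSimple


/-- A non-trivial finite group G is characteristically simple (its only characteristic subgroups are 1 and G) if and only if G is isomorphic to a direct power S^n (n ≥ 1) of some simple group S (possibly cyclic of prime order). -/
theorem result {G : Type*} [Group G] [Finite G] [Nontrivial G] :
    (∀ H : Subgroup G, H.Characteristic → H = ⊥ ∨ H = ⊤) ↔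
    ∃ (S : Type) (_ : Group S) (_ : IsSimpleGroup S) (n : ℕ), 1 ≤ n ∧ Nonempty (G ≃* (Fin n → S)) := by
  classical
  constructor
  · intro h
    obtain ⟨T, m, hT, hm, ⟨E⟩⟩ := exists_simple_pow (N := G) ⊤ (by
      intro K _ hK
      apply h
      rw [Subgroup.characteristic_iff_map_le]
      intro φ
      exact hK φ (Subgroup.mem_top _))
    obtain ⟨T', hT'g, ⟨e⟩⟩ := lower T
    exact ⟨T', hT'g, e.symm.isSimpleGroup, m, hm, ⟨E.trans (MulEquiv.piCongrRight (fun _ => e))⟩⟩
  · rintro ⟨S, hSg, hS, n, hn, ⟨e⟩⟩ H hH
    by_cases hb : H = ⊥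
    · exact Or.inl hb
    right
    let H' : Subgroup (Fin n → S) := H.map e.toMonoidHom
    have hH' : H' = ⊤ := by
      apply char_pow_eq_top
      · rintro φ _ ⟨x, hx, rfl⟩
        let ψ : G ≃* G := (e.trans φ).trans e.symm
        have h1 : ψ x ∈ H := by
          have := (Subgroup.characteristic_iff_map_le.mp hH) ψ
          exact this ⟨x, hx, rfl⟩
        refine ⟨ψ x, h1, ?_⟩
        simp [ψ]
      · intro hb'
        apply hb
        rw [eq_bot_iff]
        intro x hx
        have : e x ∈ H' := ⟨x, hx, rfl⟩
        rw [hb', Subgroup.mem_bot] at this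
        rw [Subgroup.mem_bot]
        exact (MulEquiv.map_eq_one_iff e).mp this
    rw [eq_top_iff]
    intro x _
    have : e x ∈ H' := by rw [hH']; trivial
    obtain ⟨y, hy, hyx⟩ := this
    have : y = x := e.injective hyx
    rwa [← this]

end Cfsg.Agent.S5914
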